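import Cfsg.Agent.Lib.PGroup.Basic
import Mathlib

/-!
# A criterion for being an extraspecial 2-group
-/

set_option autoImplicit false
open scoped commutatorElement

namespace Cfsg.Agent.Lib.PGroup.ExtraMk

/-- A 2-group whose centre is `{1, z}`, with all commutators and squares in the centre, and `z` a
commutator, is extraspecial. -/
theorem isExtraspecial_of {X : Type*} [Group X] [Finite X] (hp : IsPGroup 2 X) (z : X) (hz : z ≠ 1)
    (hcenter : ∀ x, x ∈ Subgroup.center X ↔ x = 1 ∨ x = z)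
    (hcomm : ∀ x y : X, ⁅x, y⁆ = 1 ∨ ⁅x, y⁆ = z)
    (hsq : ∀ x : X, x ^ 2 = 1 ∨ x ^ 2 = z)
    (hex : ∃ x y : X, ⁅x, y⁆ = z) : Cfsg.IsExtraspecial 2 X := by
  classical
  haveI : Fact (Nat.Prime 2) := ⟨Nat.prime_two⟩
  have hc : commutator X = Subgroup.center X := by
    apply le_antisymm
    · rw [commutator_eq_closure, Subgroup.closure_le]
      rintro _ ⟨x, y, rfl⟩
      exact (hcenter _).2 (hcomm x y)
    · intro c hc
      rcases (hcenter c).1 hc with rfl | rfl
      · exact Subgroup.one_mem _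
      · obtain ⟨x, y, h⟩ := hex
        rw [← h]
        exact Subgroup.commutator_mem_commutator (Subgroup.mem_top x) (Subgroup.mem_top y)
  have hf : frattini X = Subgroup.center X := by
    apply le_antisymm
    · rw [Cfsg.Agent.Lib.PGroup.Basic.frattini_le_iff hp]
      exact ⟨fun x => (hcenter _).2 (hsq x), fun x y => (hcenter _).2 (hcomm x y)⟩
    · rw [← hc]
      exact Cfsg.Agent.Lib.PGroup.Basic.commutator_le_frattini hp
  refine ⟨⟨hp, hf, hc⟩, ?_⟩
  rw [Nat.card_eq_two_iff]
  refine ⟨1, ⟨z, (hcenter z).2 (Or.inr rfl)⟩, ?_, ?_⟩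
  · intro h
    exact hz (congrArg Subtype.val h).symm
  · ext ⟨c, hc'⟩
    simp only [Set.mem_insert_iff, Set.mem_singleton_iff, Set.mem_univ, iff_true]
    rcases (hcenter c).1 hc' with rfl | rfl
    · left; rfl
    · right; rfl

end Cfsg.Agent.Lib.PGroup.ExtraMk
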