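import Mathlib
import Cfsg.Prelude.Def_Transfer
import Cfsg.Prelude.Def_Local
import Cfsg.Agent.Lib.Components.FStar
import Cfsg.Agent.Lib.PGroup.LargeExtraspecial

/-!
# The image in `G` of `F*(C(z))`
-/

namespace Cfsg.Agent.Lib.PGroup.FStarCentralizer

open Subgroup Cfsg.Agent.Lib.PGroup.LargeExtraspecial
open scoped commutatorElement

variable {G : Type*} [Group G]

/-- The image in `G` of `F*(C(z))`. -/
def fz (z : G) : Subgroup G :=
  (Cfsg.generalizedFittingSubgroup ↥(centralizer ({z} : Set G))).map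
    (centralizer ({z} : Set G)).subtype

theorem fz_le_centralizer (z : G) : fz z ≤ centralizer ({z} : Set G) := map_subtype_le _

theorem comm_of_mem_fz {z y : G} (hy : y ∈ fz z) : y * z = z * y :=
  mem_centralizer_singleton_iff.mp (fz_le_centralizer z hy)

theorem conj_mem_fz {z c y : G} (hc : c * z = z * c) (hy : y ∈ fz z) : c * y * c⁻¹ ∈ fz z := by
  obtain ⟨y', hy', rfl⟩ := hy
  have hc' : c ∈ centralizer ({z} : Set G) := mem_centralizer_singleton_iff.mpr hc
  have hN : (Cfsg.generalizedFittingSubgroup ↥(centralizer ({z} : Set G))).Normal := inferInstance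
  refine ⟨⟨c, hc'⟩ * y' * ⟨c, hc'⟩⁻¹, hN.conj_mem y' hy' ⟨c, hc'⟩, by simp⟩

section Finite

variable [Finite G]

theorem mem_fz_of_comm_of_comm {z c : G} (hcz : c * z = z * c) (hc : ∀ x ∈ fz z, c * x = x * c) :
    c ∈ fz z := by
  have hc' : c ∈ centralizer ({z} : Set G) := mem_centralizer_singleton_iff.mpr hcz
  have h1 : (⟨c, hc'⟩ : ↥(centralizer ({z} : Set G))) ∈
      centralizer (Cfsg.generalizedFittingSubgroup ↥(centralizer ({z} : Set G)) :
        Set ↥(centralizer ({z} : Set G))) := by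
    rw [mem_centralizer_iff]
    rintro ⟨x, hx⟩ hx'
    apply Subtype.ext
    exact (hc x ⟨⟨x, hx⟩, hx', rfl⟩).symm
  exact ⟨⟨c, hc'⟩, Cfsg.Agent.Lib.Components.FStar.centralizer_generalizedFitting_le h1, rfl⟩

theorem z_mem_fz (z : G) : z ∈ fz z :=
  mem_fz_of_comm_of_comm rfl (fun _ hx => (comm_of_mem_fz hx).symm)

theorem mem_fz_of_comm {z c : G} (hc : ∀ x ∈ fz z, c * x = x * c) : c ∈ fz z :=
  mem_fz_of_comm_of_comm (hc z (z_mem_fz z)) hc

theorem large_fz {z : G} (hz : orderOf z = 2)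
    (hE : Cfsg.IsExtraspecial 2 ↥(Cfsg.generalizedFittingSubgroup ↥(centralizer ({z} : Set G)))) :
    Large (fz z) z := by
  have hp : Fact (Nat.Prime 2) := ⟨Nat.prime_two⟩
  have hzsq : z * z = 1 := by
    rw [← pow_two, ← hz, pow_orderOf_eq_one]
  have hzne : z ≠ 1 := by
    rintro rfl
    simp at hz
  set F := Cfsg.generalizedFittingSubgroup ↥(centralizer ({z} : Set G)) with hF
  -- coercions
  let ι : ↥F → G := fun t => ((t : ↥(centralizer ({z} : Set G))) : G)
  have hι : ∀ x, x ∈ fz z ↔ ∃ t : ↥F, ι t = x := by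
    intro x
    constructor
    · rintro ⟨y, hy, rfl⟩
      exact ⟨⟨y, hy⟩, rfl⟩
    · rintro ⟨t, rfl⟩
      exact ⟨t, t.2, rfl⟩
  have hιinj : ∀ s t : ↥F, ι s = ι t → s = t := fun s t h => Subtype.ext (Subtype.ext h)
  have hιmul : ∀ s t : ↥F, ι (s * t) = ι s * ι t := fun _ _ => rfl
  have hιinv : ∀ s : ↥F, ι s⁻¹ = (ι s)⁻¹ := fun _ => rfl
  have hι1 : ι 1 = 1 := rfl
  obtain ⟨ez, hez⟩ := (hι z).mp (z_mem_fz z)
  have hezc : ez ∈ center ↥F := by
    rw [mem_center_iff]
    intro t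
    apply hιinj
    rw [hιmul, hιmul, hez]
    exact comm_of_mem_fz ((hι _).mpr ⟨t, rfl⟩)
  have hez1 : ez ≠ 1 := by
    rintro rfl
    exact hzne hez.symm
  have hcenT : ∀ t : ↥F, t ∈ center ↥F → t = 1 ∨ t = ez := by
    intro t ht
    by_cases h1 : t = 1
    · exact Or.inl h1
    · right
      obtain ⟨w, -, hw⟩ := (Nat.card_eq_two_iff' (1 : center ↥F)).mp hE.2
      have h2 := hw ⟨t, ht⟩ (by
        intro h
        exact h1 (congrArg Subtype.val h))
      have h3 := hw ⟨ez, hezc⟩ (by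
        intro h
        exact hez1 (congrArg Subtype.val h))
      exact congrArg Subtype.val (h2.trans h3.symm)
  refine ⟨z_mem_fz z, hzsq, hzne, fun x hx => comm_of_mem_fz hx, ?_, ?_, ?_, ?_⟩
  · intro y hy hyc
    obtain ⟨t, rfl⟩ := (hι y).mp hy
    have ht : t ∈ center ↥F := by
      rw [mem_center_iff]
      intro s
      apply hιinj
      rw [hιmul, hιmul]
      exact hyc _ ((hι _).mpr ⟨s, rfl⟩)
    rcases hcenT t ht with rfl | rfl
    · exact Or.inl rfl
    · exact Or.inr hez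
  · intro x hx y hy
    obtain ⟨s, rfl⟩ := (hι x).mp hx
    obtain ⟨t, rfl⟩ := (hι y).mp hy
    rcases hcenT _ (Extraspecial.IsExtraspecial.comm_mem_center hE s t) with h | h
    · left
      have := commutatorElement_eq_one_iff_mul_comm.mp h
      rw [← hιmul, ← hιmul, this]
    · right
      have h5 : s * t = ez * (t * s) := by
        rw [← h, commutatorElement_def]; group
      rw [← hιmul, ← hιmul, h5, hιmul, hez]
  · intro x hx
    obtain ⟨s, rfl⟩ := (hι x).mp hx
    rcases hcenT _ (Extraspecial.IsExtraspecial.pow_mem_center hE s) with h | h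
    · left
      rw [← hιmul, ← pow_two, h]
      exact hι1
    · right
      rw [← hιmul, ← pow_two, h, hez]
  · intro c hc
    exact mem_fz_of_comm hc

theorem fz_isPGroup_of {z : G}
    (hE : IsPGroup 2 ↥(Cfsg.generalizedFittingSubgroup ↥(centralizer ({z} : Set G)))) :
    IsPGroup 2 ↥(fz z) := hE.map _

end Finite

end Cfsg.Agent.Lib.PGroup.FStarCentralizer
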