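import Mathlib
import Cfsg.Prelude.Def_Transfer
import Cfsg.Prelude.Def_Solvable
import Cfsg.Agent.Lib.PGroup.LargeExtraspecial
import Cfsg.Agent.Lib.PGroup.SingularSubgroup

/-!
# Large extraspecial subgroups, normal in the centralizer of the centre

`Q` extraspecial with `C(Q) = Z(Q) = ⟨z⟩` and `Q ⊴ C(z)`.
-/

namespace Cfsg.Agent.Lib.PGroup.LargeQ

open Subgroup Cfsg.Agent.Lib.PGroup.LargeExtraspecial
open scoped commutatorElement

variable {G : Type*} [Group G] [Finite G]

/-- The centre of an extraspecial subgroup with `C(Q) = Z(Q)`: the structure `Large`. -/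
theorem exists_large {Q : Subgroup G} (hL1 : Cfsg.IsExtraspecial 2 ↥Q)
    (hL2 : centralizer (Q : Set G) = (center ↥Q).map Q.subtype) :
    ∃ z : G, (∀ x, x ∈ (center ↥Q).map Q.subtype ↔ x = 1 ∨ x = z) ∧ Large Q z := by
  have hp : Fact (Nat.Prime 2) := ⟨Nat.prime_two⟩
  obtain ⟨t, ht1, ht⟩ := (Nat.card_eq_two_iff' (1 : center ↥Q)).mp hL1.2
  simp only at ht
  set z : G := ((t : ↥Q) : G) with hz
  have hzQ : z ∈ Q := (t : ↥Q).2
  have hzne : z ≠ 1 := by
    intro h
    apply ht1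
    apply Subtype.ext
    apply Subtype.ext
    exact h
  have hcen : ∀ y ∈ Q, (∀ x ∈ Q, x * y = y * x) → y = 1 ∨ y = z := by
    intro y hy hyc
    by_cases h1 : y = 1
    · exact Or.inl h1
    · right
      have hyz : (⟨y, hy⟩ : ↥Q) ∈ center ↥Q := by
        rw [mem_center_iff]
        rintro ⟨x, hx⟩
        exact Subtype.ext (hyc x hx)
      have := ht ⟨⟨y, hy⟩, hyz⟩ (by
        intro h
        exact h1 (congrArg (fun v : center ↥Q => ((v : ↥Q) : G)) h))
      exact congrArg (fun v : center ↥Q => ((v : ↥Q) : G)) this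
  have hzc : ∀ x ∈ Q, x * z = z * x := by
    intro x hx
    have := mem_center_iff.mp t.2 ⟨x, hx⟩
    exact congrArg (fun v : ↥Q => (v : G)) this
  have hmem : ∀ x, x ∈ (center ↥Q).map Q.subtype ↔ x = 1 ∨ x = z := by
    intro x
    constructor
    · rintro ⟨y, hy, rfl⟩
      apply hcen _ y.2
      intro v hv
      exact congrArg (fun t : ↥Q => (t : G)) (mem_center_iff.mp hy ⟨v, hv⟩)
    · rintro (rfl | rfl)
      · exact one_mem _
      · exact ⟨t, t.2, rfl⟩
  refine ⟨z, hmem, ?_⟩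
  have hzsq : z * z = 1 := by
    have h1 := Extraspecial.IsSpecial.pow_eq_one_of_mem_center hL1.1 t.2
    have h2 := congrArg (fun v : ↥Q => (v : G)) h1
    simpa [pow_two] using h2
  have hcomm : ∀ x ∈ Q, ∀ y ∈ Q, x * y = y * x ∨ x * y = z * (y * x) := by
    intro x hx y hy
    have h1 := Extraspecial.IsExtraspecial.comm_mem_center hL1 ⟨x, hx⟩ ⟨y, hy⟩
    have h3 : ⁅x, y⁆ ∈ Q := mul_mem (mul_mem (mul_mem hx hy) (inv_mem hx)) (inv_mem hy)
    have h4 := hcen ⁅x, y⁆ h3 (by
      intro v hv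
      have := mem_center_iff.mp h1 ⟨v, hv⟩
      exact congrArg (fun t : ↥Q => (t : G)) this)
    rcases h4 with h4 | h4
    · left
      exact commutatorElement_eq_one_iff_mul_comm.mp h4
    · right
      rw [← h4, commutatorElement_def]
      group
  have hsq : ∀ x ∈ Q, x * x = 1 ∨ x * x = z := by
    intro x hx
    have h1 := Extraspecial.IsExtraspecial.pow_mem_center hL1 ⟨x, hx⟩
    apply hcen (x * x) (mul_mem hx hx)
    intro v hv
    have := mem_center_iff.mp h1 ⟨v, hv⟩
    have h2 := congrArg (fun t : ↥Q => (t : G)) this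
    simpa [pow_two] using h2
  have hself : ∀ c : G, (∀ x ∈ Q, c * x = x * c) → c ∈ Q := by
    intro c hc
    have : c ∈ centralizer (Q : Set G) := by
      rw [mem_centralizer_iff]
      intro x hx
      exact (hc x hx).symm
    rw [hL2] at this
    obtain ⟨y, -, rfl⟩ := this
    exact y.2
  exact ⟨hzQ, hzsq, hzne, hzc, hcen, hcomm, hsq, hself⟩

/-- Let `a` be a conjugate of `z` in `Q`, not equal to `z`, where `Q ⊴ C(z)`.  Then there are
`u ∈ Q` with `u a u⁻¹ = z a` and `w ∈ C(a)` with `w z w⁻¹ = a z`. -/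
theorem exists_u_w {Q : Subgroup G} {z a g : G} (L : Large Q z) (hQp : IsPGroup 2 Q)
    (hN : ∀ c : G, c * z = z * c → ∀ y ∈ Q, c * y * c⁻¹ ∈ Q)
    (hg : g * z * g⁻¹ = a) (ha : a ∈ Q) (haz : a ≠ z) :
    ∃ u ∈ Q, ∃ w : G, u * a = z * (a * u) ∧ w * a = a * w ∧ w * z * w⁻¹ = a * z := by
  have hp : Fact (Nat.Prime 2) := ⟨Nat.prime_two⟩
  have ha1 : a ≠ 1 := by
    rintro rfl
    apply L.z_ne
    have : g * z * g⁻¹ * g = g := by rw [hg, one_mul]
    simpa using this
  have ha2 : a * a = 1 := by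
    rw [← hg]
    calc g * z * g⁻¹ * (g * z * g⁻¹) = g * (z * z) * g⁻¹ := by group
      _ = 1 := by rw [L.z_sq]; group
  obtain ⟨u, hu, hua⟩ := L.exists_noncomm ha ha1 haz
  -- the subgroups
  set Cz := centralizer ({z} : Set G) with hCz
  set Ca := centralizer ({a} : Set G) with hCa
  have hQCz : Q ≤ Cz := fun x hx => mem_centralizer_singleton_iff.mpr (L.z_comm x hx)
  set A := Q ⊓ Ca with hA
  have hACzCa : A ≤ Ca ⊓ Cz := by
    refine le_inf inf_le_right (inf_le_left.trans hQCz)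
  have hAp : IsPGroup 2 A := hQp.to_le inf_le_left
  obtain ⟨T₀, hAT₀, hT₀K, hT₀p, hT₀max⟩ := exists_maximal_pGroup hACzCa hAp
  obtain ⟨T, hT₀T, hTK, hTp, hTmax⟩ :=
    exists_maximal_pGroup (hT₀K.trans (inf_le_right : Ca ⊓ Cz ≤ Cz)) hT₀p
  have hQT : Q ≤ T := le_of_maximal_of_normalized hTp hTK hTmax hQCz
    hQp (fun c hc y hy => hN c (mem_centralizer_singleton_iff.mp (hTK hc)) y hy)
  have hAT₀' : ∀ b ∈ Q, b * a = a * b → b ∈ T₀ := by
    intro b hb hba
    exact hAT₀ ⟨hb, mem_centralizer_singleton_iff.mpr hba⟩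
  have huT₀ : u ∉ T₀ := by
    intro h
    have h1 : u * a = a * u := mem_centralizer_singleton_iff.mp (mem_inf.mp (hT₀K h)).1
    rw [h1] at hua
    exact L.z_ne (by simpa using hua.symm)
  have hltT : T₀ < T := lt_of_le_of_ne hT₀T (fun h => huT₀ (h ▸ hQT hu))
  have hcardT : Nat.card T₀ < Nat.card T :=
    lt_of_le_of_ne (Subgroup.card_le_of_le hT₀T)
      (fun h => hltT.ne (Subgroup.eq_of_le_of_card_ge hT₀T h.ge))
  -- the conjugate of `T` in `C(a)`
  have hRK : T.map (MulAut.conj g).toMonoidHom ≤ Ca := by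
    rintro _ ⟨t, ht, rfl⟩
    have := conj_mem_centralizer g (hTK ht)
    rw [hg] at this
    simpa using this
  have hRp : IsPGroup 2 ↥(T.map (MulAut.conj g).toMonoidHom) := hTp.map _
  have hRc : Nat.card ↥(T.map (MulAut.conj g).toMonoidHom) = Nat.card T :=
    Nat.card_congr (T.equivMapOfInjective _ (MulAut.conj g).injective).symm.toEquiv
  obtain ⟨P, hT₀P, hPK, hPp⟩ := exists_gt_of_card_lt (hT₀K.trans (inf_le_left : Ca ⊓ Cz ≤ Ca)) hRK
    hT₀p hRp (by rw [hRc]; exact hcardT)
  obtain ⟨w, hwP, hwT₀, hwN⟩ := Basic.exists_mem_normalizer_of_lt hPp hT₀P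
  have hwa : w * a = a * w := mem_centralizer_singleton_iff.mp (hPK hwP)
  refine ⟨u, hu, w, hua, hwa, ?_⟩
  have hzT₀ : z ∈ T₀ := hAT₀' z L.z_mem (L.z_comm a ha).symm
  have hcT₀ : w * z * w⁻¹ ∈ T₀ := (mem_normalizer_iff.mp hwN z).mp hzT₀
  have hT₀z : ∀ t ∈ T₀, t * z = z * t := fun t ht =>
    mem_centralizer_singleton_iff.mp (mem_inf.mp (hT₀K ht)).2
  have hcz : (w * z * w⁻¹) * z = z * (w * z * w⁻¹) := hT₀z _ hcT₀
  have hcQ : ∀ y ∈ Q, (w * z * w⁻¹) * y * (w * z * w⁻¹)⁻¹ ∈ Q := fun y hy =>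
    hN _ hcz y hy
  have hcA : ∀ b ∈ Q, b * a = a * b → (w * z * w⁻¹) * b = b * (w * z * w⁻¹) := by
    intro b hb hba
    have hbT := hAT₀' b hb hba
    have h1 : w⁻¹ * b * w ∈ T₀ := by
      have := (mem_normalizer_iff.mp hwN (w⁻¹ * b * w)).mpr (by simpa [mul_assoc] using hbT)
      exact this
    have h2 := hT₀z _ h1
    calc (w * z * w⁻¹) * b = w * (z * (w⁻¹ * b * w)) * w⁻¹ := by group
      _ = w * ((w⁻¹ * b * w) * z) * w⁻¹ := by rw [h2]
      _ = b * (w * z * w⁻¹) := by group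
  rcases L.eq_of_comm_of_normalizes ha ha2 hu hua hcz hcQ hcA with h | h | h | h
  · exfalso
    apply L.z_ne
    have : z = w⁻¹ * (w * z * w⁻¹) * w := by group
    rw [this, h]; group
  · exfalso
    have hwz : w * z = z * w := by
      calc w * z = w * z * w⁻¹ * w := by group
        _ = z * w := by rw [h]
    have hs : T₀ ⊔ zpowers w ≤ P := sup_le hT₀P.le (by
      rw [zpowers_le]; exact hwP)
    have hwK : zpowers w ≤ Ca ⊓ Cz := by
      rw [zpowers_le]
      exact ⟨hPK hwP, mem_centralizer_singleton_iff.mpr hwz⟩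
    have := hT₀max _ le_sup_left (sup_le hT₀K hwK) (hPp.to_le hs)
    exact hwT₀ (this (mem_sup_right (mem_zpowers w)))
  · exfalso
    apply haz
    have : w * z = w * a := by
      calc w * z = w * z * w⁻¹ * w := by group
        _ = a * w := by rw [h]
        _ = w * a := hwa.symm
    exact (mul_left_cancel this).symm
  · exact h

omit [Finite G] in
/-- `u w u` interchanges `z` and `a`. -/
theorem swap_of_u_w {z a u w : G} (hz2 : z * z = 1) (ha2 : a * a = 1) (hza : a * z = z * a)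
    (hzu : u * z = z * u) (hua : u * a = z * (a * u)) (hwa : w * a = a * w)
    (hwz : w * z * w⁻¹ = a * z) :
    (u * w * u) * z * (u * w * u)⁻¹ = a ∧ (u * w * u) * a * (u * w * u)⁻¹ = z := by
  have h1 : u * a * u⁻¹ = z * a := by
    rw [hua]; group
  have h2 : u * z * u⁻¹ = z := by
    rw [hzu]; group
  have h3 : w * a * w⁻¹ = a := by
    rw [hwa]; group
  constructor
  · calc (u * w * u) * z * (u * w * u)⁻¹ = u * (w * (u * z * u⁻¹) * w⁻¹) * u⁻¹ := by group
      _ = u * (a * z) * u⁻¹ := by rw [h2, hwz]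
      _ = (u * a * u⁻¹) * (u * z * u⁻¹) := by group
      _ = z * a * z := by rw [h1, h2]
      _ = (a * z) * z := by rw [hza]
      _ = a := by rw [mul_assoc, hz2, mul_one]
  · calc (u * w * u) * a * (u * w * u)⁻¹ = u * (w * (u * a * u⁻¹) * w⁻¹) * u⁻¹ := by group
      _ = u * (w * (z * a) * w⁻¹) * u⁻¹ := by rw [h1]
      _ = u * ((w * z * w⁻¹) * (w * a * w⁻¹)) * u⁻¹ := by group
      _ = u * ((a * z) * a) * u⁻¹ := by rw [hwz, h3]
      _ = u * ((z * a) * a) * u⁻¹ := by rw [hza]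
      _ = u * z * u⁻¹ := by rw [mul_assoc z, ha2, mul_one]
      _ = z := h2

/-- Symmetry of orthogonality: `z ∈ g Q g⁻¹` if `g z g⁻¹ ∈ Q`, where `Q ⊴ C(z)`. -/
theorem mem_conj_of_conj_mem {Q : Subgroup G} {z g : G} (L : Large Q z) (hQp : IsPGroup 2 Q)
    (hN : ∀ c : G, c * z = z * c → ∀ y ∈ Q, c * y * c⁻¹ ∈ Q) (ha : g * z * g⁻¹ ∈ Q) :
    g⁻¹ * z * g ∈ Q := by
  by_cases haz : g * z * g⁻¹ = z
  · have : g⁻¹ * z * g = z := by
      calc g⁻¹ * z * g = g⁻¹ * (g * z * g⁻¹) * g := by rw [haz]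
        _ = z := by group
    rw [this]
    exact L.z_mem
  obtain ⟨u, hu, w, hua, hwa, hwz⟩ := exists_u_w L hQp hN rfl ha haz
  set a := g * z * g⁻¹ with hadef
  have ha2 : a * a = 1 := by
    rw [hadef]
    calc g * z * g⁻¹ * (g * z * g⁻¹) = g * (z * z) * g⁻¹ := by group
      _ = 1 := by rw [L.z_sq]; group
  obtain ⟨h1, h2⟩ := swap_of_u_w L.z_sq ha2 (L.z_comm a ha) (L.z_comm u hu) hua hwa hwz
  -- `h := u w u`, with `h z h⁻¹ = a = g z g⁻¹`, so that `g⁻¹ h ∈ C(z)`.
  set h := u * w * u with hh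
  have h3 : (g⁻¹ * h) * z = z * (g⁻¹ * h) := by
    calc (g⁻¹ * h) * z = g⁻¹ * (h * z * h⁻¹) * h := by group
      _ = g⁻¹ * (g * z * g⁻¹) * h := by rw [h1]
      _ = z * (g⁻¹ * h) := by group
  have h4 := hN _ h3 a ha
  have h5 : (g⁻¹ * h) * a * (g⁻¹ * h)⁻¹ = g⁻¹ * z * g := by
    calc (g⁻¹ * h) * a * (g⁻¹ * h)⁻¹ = g⁻¹ * (h * a * h⁻¹) * g := by group
      _ = g⁻¹ * z * g := by rw [h2]
  rwa [h5] at h4

/-! ## Four-groups -/

/-- The four-group generated by two commuting involutions (or less, if they coincide). -/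
def four {z a : G} (hz2 : z * z = 1) (ha2 : a * a = 1) (hza : a * z = z * a) : Subgroup G where
  carrier := {x | x = 1 ∨ x = z ∨ x = a ∨ x = a * z}
  one_mem' := Or.inl rfl
  mul_mem' := by
    have h1 : ∀ x : G, a * (a * x) = x := fun x => by rw [← mul_assoc, ha2, one_mul]
    have h2 : ∀ x : G, z * (z * x) = x := fun x => by rw [← mul_assoc, hz2, one_mul]
    have h3 : z * a = a * z := hza.symm
    have h5 : ∀ x : G, z * (a * x) = a * (z * x) := fun x => by rw [← mul_assoc, h3, mul_assoc]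
    rintro x y (rfl | rfl | rfl | rfl) (rfl | rfl | rfl | rfl) <;>
      simp only [Set.mem_ofPred_eq, one_mul, mul_one, mul_assoc, ha2, hz2, h1, h2, h3, h5, true_or,
        or_true]
  inv_mem' := by
    have hia : a⁻¹ = a := inv_eq_of_mul_eq_one_left ha2
    have hiz : z⁻¹ = z := inv_eq_of_mul_eq_one_left hz2
    rintro x (rfl | rfl | rfl | rfl)
    · simp
    · simp [hiz]
    · simp [hia]
    · simp only [Set.mem_ofPred_eq, mul_inv_rev, hia, hiz]
      right; right; right
      exact hza.symm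

theorem mem_four {z a : G} {hz2 : z * z = 1} {ha2 : a * a = 1} {hza : a * z = z * a} {x : G} :
    x ∈ four hz2 ha2 hza ↔ x = 1 ∨ x = z ∨ x = a ∨ x = a * z := Iff.rfl

theorem mem_normalizer_of_forall {V : Subgroup G} {c : G} (h : ∀ x ∈ V, c * x * c⁻¹ ∈ V) :
    c ∈ normalizer (V : Set G) := by
  have hle : V.map (MulAut.conj c).toMonoidHom ≤ V := by
    rintro _ ⟨x, hx, rfl⟩
    exact h x hx
  have hcard : Nat.card ↥(V.map (MulAut.conj c).toMonoidHom) = Nat.card V :=
    Nat.card_congr (V.equivMapOfInjective _ (MulAut.conj c).injective).symm.toEquiv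
  have heq := Subgroup.eq_of_le_of_card_ge hle hcard.ge
  rw [mem_normalizer_iff]
  intro x
  refine ⟨h x, fun hx => ?_⟩
  rw [← heq] at hx
  obtain ⟨y, hy, hyx⟩ := hx
  have hyx' : c * y * c⁻¹ = c * x * c⁻¹ := hyx
  have : y = x := by
    have h2 := mul_right_cancel hyx'
    exact mul_left_cancel h2
  exact this ▸ hy

/-- The action on a four-group with two transposition-like elements gives `|N(V) : C(V)| = 6`. -/
theorem relIndex_eq_six {V : Subgroup G} {z a u w : G}
    (hV : ∀ x, x ∈ V ↔ x = 1 ∨ x = z ∨ x = a ∨ x = a * z)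
    (hz1 : z ≠ 1) (ha1 : a ≠ 1) (haz : a ≠ z) (hz2 : z * z = 1) (ha2 : a * a = 1)
    (hza : a * z = z * a) (hzu : u * z = z * u) (hua : u * a = z * (a * u)) (hwa : w * a = a * w)
    (hwz : w * z * w⁻¹ = a * z) :
    (centralizer (V : Set G)).relIndex (normalizer (V : Set G)) = 6 := by
  classical
  have hu1 : u * a * u⁻¹ = z * a := by
    rw [hua]; group
  have hu2 : u * z * u⁻¹ = z := by
    rw [hzu]; group
  have hw1 : w * a * w⁻¹ = a := by
    rw [hwa]; group
  have hu3 : u * (a * z) * u⁻¹ = a := by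
    calc u * (a * z) * u⁻¹ = (u * a * u⁻¹) * (u * z * u⁻¹) := by group
      _ = z * a * z := by rw [hu1, hu2]
      _ = (a * z) * z := by rw [hza]
      _ = a := by rw [mul_assoc, hz2, mul_one]
  have hw3 : w * (a * z) * w⁻¹ = z := by
    calc w * (a * z) * w⁻¹ = (w * a * w⁻¹) * (w * z * w⁻¹) := by group
      _ = a * (a * z) := by rw [hw1, hwz]
      _ = z := by rw [← mul_assoc, ha2, one_mul]
  have hzaV : z * a = a * z := hza.symm
  have huN : u ∈ normalizer (V : Set G) := by
    apply mem_normalizer_of_forall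
    intro x hx
    rw [hV] at hx ⊢
    rcases hx with rfl | rfl | rfl | rfl
    · left; group
    · right; left; exact hu2
    · right; right; right; rw [hu1, hzaV]
    · right; right; left; exact hu3
  have hwN : w ∈ normalizer (V : Set G) := by
    apply mem_normalizer_of_forall
    intro x hx
    rw [hV] at hx ⊢
    rcases hx with rfl | rfl | rfl | rfl
    · left; group
    · right; right; right; exact hwz
    · right; right; left; exact hw1
    · right; left; exact hw3
  let S : Set G := {x | x ∈ V ∧ x ≠ 1}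
  have hSeq : S = {z, a, a * z} := by
    ext x
    simp only [S, Set.mem_ofPred_eq, Set.mem_insert_iff, Set.mem_singleton_iff, hV]
    constructor
    · rintro ⟨h | h | h | h, h1⟩
      · exact absurd h h1
      · exact Or.inl h
      · exact Or.inr (Or.inl h)
      · exact Or.inr (Or.inr h)
    · rintro (h | h | h)
      · subst h; exact ⟨Or.inr (Or.inl rfl), hz1⟩
      · subst h; exact ⟨Or.inr (Or.inr (Or.inl rfl)), ha1⟩
      · subst h
        refine ⟨Or.inr (Or.inr (Or.inr rfl)), ?_⟩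
        intro h
        apply haz
        calc a = a * (z * z) := by rw [hz2, mul_one]
          _ = (a * z) * z := by group
          _ = z := by rw [h, one_mul]
  have hScard : Nat.card S = 3 := by
    rw [Nat.card_coe_set_eq, Set.ncard_eq_three]
    refine ⟨z, a, a * z, haz.symm, ?_, ?_, hSeq⟩
    · intro h
      exact ha1 (by simpa using h.symm)
    · intro h
      exact hz1 (by simpa using h.symm)
  have hconjS : ∀ c ∈ normalizer (V : Set G), ∀ x ∈ S, c * x * c⁻¹ ∈ S := by
    intro c hc x hx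
    refine ⟨(mem_normalizer_iff.mp hc x).mp hx.1, ?_⟩
    intro h
    apply hx.2
    have : x = c⁻¹ * (c * x * c⁻¹) * c := by group
    rw [this, h]; group
  let f : ↥(normalizer (V : Set G)) →* Equiv.Perm S :=
    { toFun := fun n =>
        { toFun := fun x => ⟨n * x * (n : G)⁻¹, hconjS n n.2 x x.2⟩
          invFun := fun x => ⟨(n : G)⁻¹ * x * (n : G)⁻¹⁻¹, hconjS _ (inv_mem n.2) x x.2⟩
          left_inv := fun x => by
            apply Subtype.ext
            simp [mul_assoc]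
          right_inv := fun x => by
            apply Subtype.ext
            simp [mul_assoc] }
      map_one' := by
        ext x
        simp
      map_mul' := fun m n => by
        ext x
        simp [mul_assoc] }
  have hf : ∀ (n : ↥(normalizer (V : Set G))) (x : S), ((f n x : S) : G) = n * x * (n : G)⁻¹ :=
    fun _ _ => rfl
  have hker : (centralizer (V : Set G)).subgroupOf (normalizer (V : Set G)) = f.ker := by
    ext n
    rw [mem_subgroupOf, MonoidHom.mem_ker, mem_centralizer_iff]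
    constructor
    · intro h
      ext x
      rw [hf, Equiv.Perm.one_apply, ← h x x.2.1]
      simp
    · intro h x hx
      by_cases hx1 : x = 1
      · subst hx1; simp
      · have h2 := congrArg (fun p : Equiv.Perm S => ((p ⟨x, hx, hx1⟩ : S) : G)) h
        simp only [hf, Equiv.Perm.one_apply] at h2
        calc x * n = (n * x * (n : G)⁻¹) * n := by rw [h2]
          _ = n * x := by group
  have hf1 : ∀ n : ↥(normalizer (V : Set G)), (n : G) * z * (n : G)⁻¹ = z →
      (n : G) * a * (n : G)⁻¹ = a → f n = 1 := by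
    intro n h1 h2
    ext ⟨x, hx⟩
    have hx' : x ∈ ({z, a, a * z} : Set G) := hSeq ▸ hx
    simp only [Set.mem_insert_iff, Set.mem_singleton_iff] at hx'
    rw [hf, Equiv.Perm.one_apply]
    rcases hx' with rfl | rfl | rfl
    · exact h1
    · exact h2
    · calc (n : G) * (a * z) * (n : G)⁻¹ = ((n : G) * a * (n : G)⁻¹) * ((n : G) * z * (n : G)⁻¹) := by
            group
        _ = a * z := by rw [h1, h2]
  have hf2 : ∀ n : ↥(normalizer (V : Set G)), f n = 1 → (n : G) * z * (n : G)⁻¹ = z ∧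
      (n : G) * a * (n : G)⁻¹ = a := by
    intro n h
    have hzS : z ∈ S := hSeq ▸ (by simp)
    have haS : a ∈ S := hSeq ▸ (by simp)
    have h1 := congrArg (fun p : Equiv.Perm S => ((p ⟨z, hzS⟩ : S) : G)) h
    have h2 := congrArg (fun p : Equiv.Perm S => ((p ⟨a, haS⟩ : S) : G)) h
    simp only [hf, Equiv.Perm.one_apply] at h1 h2
    exact ⟨h1, h2⟩
  let nu : ↥(normalizer (V : Set G)) := ⟨u, huN⟩
  let nw : ↥(normalizer (V : Set G)) := ⟨w, hwN⟩
  have hord2 : orderOf (f nu) = 2 := by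
    have hp : Fact (Nat.Prime 2) := ⟨Nat.prime_two⟩
    apply orderOf_eq_prime
    · rw [← map_pow]
      apply hf1
      · change (u ^ 2) * z * (u ^ 2)⁻¹ = z
        calc (u ^ 2) * z * (u ^ 2)⁻¹ = u * (u * z * u⁻¹) * u⁻¹ := by
              simp only [pow_two, mul_inv_rev, mul_assoc]
          _ = z := by rw [hu2, hu2]
      · change (u ^ 2) * a * (u ^ 2)⁻¹ = a
        calc (u ^ 2) * a * (u ^ 2)⁻¹ = u * (u * a * u⁻¹) * u⁻¹ := by
              simp only [pow_two, mul_inv_rev, mul_assoc]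
          _ = u * (a * z) * u⁻¹ := by rw [hu1, hzaV]
          _ = a := hu3
    · intro h
      have h1 := (hf2 nu h).2
      change u * a * u⁻¹ = a at h1
      rw [hu1] at h1
      exact hz1 (by simpa using h1)
  have hc1 : (u * w) * z * (u * w)⁻¹ = a := by
    calc (u * w) * z * (u * w)⁻¹ = u * (w * z * w⁻¹) * u⁻¹ := by group
      _ = a := by rw [hwz, hu3]
  have hc2 : (u * w) * a * (u * w)⁻¹ = a * z := by
    calc (u * w) * a * (u * w)⁻¹ = u * (w * a * w⁻¹) * u⁻¹ := by group
      _ = a * z := by rw [hw1, hu1, hzaV]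
  have hc3 : (u * w) * (a * z) * (u * w)⁻¹ = z := by
    calc (u * w) * (a * z) * (u * w)⁻¹ = u * (w * (a * z) * w⁻¹) * u⁻¹ := by group
      _ = z := by rw [hw3, hu2]
  have hord3 : orderOf (f (nu * nw)) = 3 := by
    have hp : Fact (Nat.Prime 3) := ⟨Nat.prime_three⟩
    apply orderOf_eq_prime
    · rw [← map_pow]
      apply hf1
      · change ((u * w) ^ 3) * z * ((u * w) ^ 3)⁻¹ = z
        calc ((u * w) ^ 3) * z * ((u * w) ^ 3)⁻¹ =
            (u * w) * ((u * w) * ((u * w) * z * (u * w)⁻¹) * (u * w)⁻¹) * (u * w)⁻¹ := by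
              simp only [pow_succ, pow_zero, one_mul, mul_inv_rev, mul_assoc]
          _ = z := by rw [hc1, hc2, hc3]
      · change ((u * w) ^ 3) * a * ((u * w) ^ 3)⁻¹ = a
        calc ((u * w) ^ 3) * a * ((u * w) ^ 3)⁻¹ =
            (u * w) * ((u * w) * ((u * w) * a * (u * w)⁻¹) * (u * w)⁻¹) * (u * w)⁻¹ := by
              simp only [pow_succ, pow_zero, one_mul, mul_inv_rev, mul_assoc]
          _ = a := by rw [hc2, hc3, hc1]
    · intro h
      have h1 := (hf2 _ h).1
      change (u * w) * z * (u * w)⁻¹ = z at h1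
      rw [hc1] at h1
      exact haz h1
  have hd2 : 2 ∣ Nat.card f.range := by
    rw [← hord2]
    exact Subgroup.orderOf_dvd_natCard _ ⟨nu, rfl⟩
  have hd3 : 3 ∣ Nat.card f.range := by
    rw [← hord3]
    exact Subgroup.orderOf_dvd_natCard _ ⟨nu * nw, rfl⟩
  have hd6 : Nat.card f.range ∣ 6 := by
    have h1 : Nat.card f.range ∣ Nat.card (Equiv.Perm S) := Subgroup.card_subgroup_dvd_card _
    rwa [Nat.card_perm, hScard] at h1
  have hd : 6 ∣ Nat.card f.range := by
    have : Nat.Coprime 2 3 := by norm_num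
    exact this.mul_dvd_of_dvd_of_dvd hd2 hd3
  rw [Subgroup.relIndex, hker, Subgroup.index_ker]
  exact Nat.dvd_antisymm hd6 hd

end Cfsg.Agent.Lib.PGroup.LargeQ
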