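import Mathlib
import Cfsg.Prelude.Def_MonsterType
import Cfsg.Agent.Lib.PGroup.FStarCentralizer
import Cfsg.Agent.Lib.PGroup.LargeQ
import Cfsg.Agent.S5422

/-!
# `F*(C(z))` extraspecial: largeness and normal subgroups

`fz z` is the image of `F*(C(z))` in `G`.
-/

set_option autoImplicit false

namespace Cfsg.Agent.Lib.PGroup.LargeFz

open Subgroup Cfsg.Agent.Lib.PGroup.LargeExtraspecial Cfsg.Agent.Lib.PGroup.FStarCentralizer
open scoped commutatorElement

/-- Extraspecial groups are invariant under isomorphisms. -/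
theorem isExtraspecial_of_equiv {A B : Type*} [Group A] [Group B] (e : A ≃* B)
    (h : Cfsg.IsExtraspecial 2 A) : Cfsg.IsExtraspecial 2 B := by
  have hf : ∀ x : B, x ∈ frattini B ↔ e.symm x ∈ frattini A := by
    intro x
    constructor
    · intro hx
      exact frattini_le_comap_frattini_of_surjective (φ := e.symm.toMonoidHom) e.symm.surjective hx
    · intro hx
      have := frattini_le_comap_frattini_of_surjective (φ := e.toMonoidHom) e.surjective hx
      simpa using this
  have hz : ∀ x : B, x ∈ center B ↔ e.symm x ∈ center A := by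
    intro x
    simp only [mem_center_iff]
    constructor
    · intro hx y
      apply e.injective
      simpa using hx (e y)
    · intro hx y
      apply e.symm.injective
      simpa using hx (e.symm y)
  have hc : ∀ x : B, x ∈ commutator B ↔ e.symm x ∈ commutator A := by
    have h1 : (commutator A).map e.toMonoidHom = commutator B := by
      rw [commutator_def, commutator_def, map_commutator, map_top_of_surjective _ e.surjective]
    intro x
    rw [← h1]
    constructor
    · rintro ⟨y, hy, rfl⟩
      simpa using hy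
    · intro hx
      exact ⟨e.symm x, hx, by simp⟩
  refine ⟨⟨?_, ?_, ?_⟩, ?_⟩
  · exact h.1.1.of_equiv e
  · ext x
    rw [hf, hz, h.1.2.1]
  · ext x
    rw [hc, hz, h.1.2.2]
  · rw [← h.2]
    refine Nat.card_congr ⟨fun x => ⟨e.symm x.1, (hz _).1 x.2⟩, fun x => ⟨e x.1, ?_⟩, ?_, ?_⟩
    · rw [hz]; simpa using x.2
    · intro x; simp
    · intro x; simp

variable {G : Type*} [Group G]

/-- `F*(C(z))` extraspecial iff its image in `G` is. -/
theorem extraspecial_fz_iff (z : G) :
    Cfsg.IsExtraspecial 2 ↥(fz z) ↔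
      Cfsg.IsExtraspecial 2 ↥(Cfsg.generalizedFittingSubgroup ↥(centralizer ({z} : Set G))) := by
  let e := (Cfsg.generalizedFittingSubgroup ↥(centralizer ({z} : Set G))).equivMapOfInjective
    (centralizer ({z} : Set G)).subtype (centralizer ({z} : Set G)).subtype_injective
  exact ⟨fun h => isExtraspecial_of_equiv e.symm h, fun h => isExtraspecial_of_equiv e h⟩

theorem center_map_eq {Q : Subgroup G} {z : G} (L : Large Q z) :
    (center ↥Q).map Q.subtype = zpowers z := by
  ext x
  constructor
  · rintro ⟨y, hy, rfl⟩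
    have h1 := L.center _ y.2 (fun v hv => congrArg (fun t : ↥Q => (t : G)) (mem_center_iff.mp hy ⟨v, hv⟩))
    rcases h1 with h1 | h1
    · show ((y : ↥Q) : G) ∈ zpowers z
      rw [h1]; exact one_mem _
    · show ((y : ↥Q) : G) ∈ zpowers z
      rw [h1]; exact mem_zpowers z
  · intro hx
    have hzz : z ∈ (center ↥Q).map Q.subtype := by
      refine ⟨⟨z, L.z_mem⟩, SetLike.mem_coe.2 (mem_center_iff.2 ?_), rfl⟩
      rintro ⟨x, hx⟩
      exact Subtype.ext (L.z_comm x hx)
    exact (zpowers_le.2 hzz) hx

theorem centralizer_eq {Q : Subgroup G} {z : G} (L : Large Q z) :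
    centralizer (Q : Set G) = (center ↥Q).map Q.subtype := by
  ext c
  constructor
  · intro hc
    rw [mem_centralizer_iff] at hc
    have hcQ : c ∈ Q := L.self c (fun x hx => (hc x hx).symm)
    refine ⟨⟨c, hcQ⟩, SetLike.mem_coe.2 (mem_center_iff.2 ?_), rfl⟩
    rintro ⟨x, hx⟩
    exact Subtype.ext (hc x hx)
  · rintro ⟨y, hy, rfl⟩
    rw [mem_centralizer_iff]
    intro x hx
    exact congrArg (fun t : ↥Q => (t : G)) (mem_center_iff.mp hy ⟨x, hx⟩)

theorem mem_zpowers_iff_invol {z x : G} (hz : z * z = 1) : x ∈ zpowers z ↔ x = 1 ∨ x = z := by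
  constructor
  · intro hx
    obtain ⟨k, rfl⟩ := mem_zpowers_iff.1 hx
    have hzi : z⁻¹ = z := inv_eq_of_mul_eq_one_left hz
    obtain ⟨m, rfl | rfl⟩ := Int.even_or_odd' k
    · left
      rw [zpow_mul, zpow_two, hz, one_zpow]
    · right
      rw [zpow_add, zpow_mul, zpow_two, hz, one_zpow, one_mul, zpow_one]
  · rintro (rfl | rfl)
    · exact one_mem _
    · exact mem_zpowers _

section Finite

variable [Finite G]

theorem centralizer_center_le_normalizer {z : G} :
    centralizer (((center ↥(fz z)).map (fz z).subtype : Subgroup G) : Set G) ≤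
      normalizer ((fz z : Subgroup G) : Set G) := by
  intro c hc
  have hzm : z ∈ (center ↥(fz z)).map (fz z).subtype := by
    refine ⟨⟨z, z_mem_fz z⟩, SetLike.mem_coe.2 (mem_center_iff.2 ?_), rfl⟩
    rintro ⟨x, hx⟩
    exact Subtype.ext (comm_of_mem_fz hx)
  have h1 : c * z = z * c := ((mem_centralizer_iff.1 hc) z hzm).symm
  exact LargeQ.mem_normalizer_of_forall (fun x hx => conj_mem_fz h1 hx)

/-- Largeness from a conjugate of `z` in `Q`. -/
theorem isLarge_of_conj {z : G} (hz : orderOf z = 2) (hE : Cfsg.IsExtraspecial 2 ↥(fz z)) (w : ℕ) (hw : 2 ≤ w)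
    (hcard : Nat.card ↥(fz z) = 2 ^ (2 * w + 1)) {g : G} (hg : g * z * g⁻¹ ∈ fz z) (hgz : g * z * g⁻¹ ≠ z) :
    Cfsg.IsLargeExtraspecial (fz z) := by
  have L := large_fz hz ((extraspecial_fz_iff z).1 hE)
  refine (Cfsg.Agent.S5422.result (fz z) hE (centralizer_eq L) centralizer_center_le_normalizer w hw hcard g ?_ ?_).2.2
  · intro hg1
    apply hgz
    rw [center_map_eq L] at hg1
    have h1 := (mem_normalizer_iff.1 hg1 z).1 (mem_zpowers z)
    rcases (mem_zpowers_iff_invol L.z_sq).1 h1 with h2 | h2
    · exfalso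
      apply L.z_ne
      have : z = g⁻¹ * (g * z * g⁻¹) * g := by group
      rw [this, h2]; group
    · exact h2
  · rw [center_map_eq L]
    rw [MonoidHom.map_zpowers, zpowers_le]
    exact hg

/-- A non-trivial normal subgroup contains `z`. -/
theorem z_mem_of_normal {z : G} (hz : orderOf z = 2)
    (hE : Cfsg.IsExtraspecial 2 ↥(fz z)) (hL : Cfsg.IsLargeExtraspecial (fz z)) {N : Subgroup G} (hN : N.Normal)
    (hne : N ≠ ⊥) : z ∈ N := by
  have L := large_fz hz ((extraspecial_fz_iff z).1 hE)
  by_cases h : ∃ x ∈ N, x ≠ 1 ∧ x * z = z * x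
  · obtain ⟨x, hxN, hx1, hxz⟩ := h
    -- `N ∩ C` meets `F*(C)`
    have hex : ∃ y ∈ N, y ∈ fz z ∧ y ≠ 1 := by
      by_contra hcon
      push Not at hcon
      apply hx1
      have hxF : x ∈ fz z := by
        apply mem_fz_of_comm_of_comm hxz
        intro f hf
        have h1 : x * f * x⁻¹ * f⁻¹ ∈ N := by
          have := hN.conj_mem x⁻¹ (inv_mem hxN) f
          have h2 : x * f * x⁻¹ * f⁻¹ = x * (f * x⁻¹ * f⁻¹) := by group
          rw [h2]
          exact N.mul_mem hxN this
        have h2 : x * f * x⁻¹ * f⁻¹ ∈ fz z := by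
          have := conj_mem_fz hxz hf
          exact (fz z).mul_mem this ((fz z).inv_mem hf)
        have h3 := hcon _ h1 h2
        have : x * f = f * x := by
          have h4 : x * f * x⁻¹ = f := by
            have := congrArg (· * f) h3
            simpa using this
          calc x * f = x * f * x⁻¹ * x := by group
            _ = f * x := by rw [h4]
        exact this
      exact hcon x hxN hxF
    obtain ⟨y, hyN, hyQ, hy1⟩ := hex
    by_cases hc : ∀ v ∈ fz z, v * y = y * v
    · rcases L.center y hyQ hc with h1 | h1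
      · exact (hy1 h1).elim
      · rw [← h1]; exact hyN
    · push Not at hc
      obtain ⟨v, hv, hvy⟩ := hc
      rcases L.comm v hv y hyQ with h1 | h1
      · exact (hvy h1).elim
      · have e : z = v * y * v⁻¹ * y⁻¹ := by
          rw [h1]; group
        rw [e]
        exact N.mul_mem (hN.conj_mem y hyN v) (N.inv_mem hyN)
  · exfalso
    push Not at h
    apply hne
    have hzz : z * z = 1 := L.z_sq
    have hzi : z⁻¹ = z := inv_eq_of_mul_eq_one_left hzz
    have hodd : Odd (Nat.card ↥N) := by
      classical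
      haveI : Fintype ↥N := Fintype.ofFinite _
      let σ : Equiv.Perm ↥N :=
        { toFun := fun x => ⟨z * x * z⁻¹, hN.conj_mem x x.2 z⟩
          invFun := fun x => ⟨z⁻¹ * x * z, by
            have := hN.conj_mem x x.2 z⁻¹
            simpa using this⟩
          left_inv := fun x => by apply Subtype.ext; simp [mul_assoc]
          right_inv := fun x => by apply Subtype.ext; simp [mul_assoc] }
      have hσ : σ ^ 2 = 1 := by
        ext x
        show z * (z * x * z⁻¹) * z⁻¹ = x
        rw [hzi]
        simp only [mul_assoc, hzz, mul_one]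
        rw [← mul_assoc, hzz, one_mul]
      have h2 := Equiv.Perm.two_dvd_card_support hσ
      have hsup : σ.support = Finset.univ.erase 1 := by
        ext x
        simp only [Equiv.Perm.mem_support, Finset.mem_erase, Finset.mem_univ, and_true]
        constructor
        · intro hx hx1
          apply hx
          rw [hx1]
          apply Subtype.ext
          show z * 1 * z⁻¹ = 1
          group
        · intro hx hx1
          apply h x.1 x.2
          · intro h3
            exact hx (Subtype.ext h3)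
          · have h3 : z * x.1 * z⁻¹ = x.1 := congrArg Subtype.val hx1
            calc x.1 * z = z * x.1 * z⁻¹ * z := by rw [h3]
              _ = z * x.1 := by group
      rw [hsup, Finset.card_erase_of_mem (Finset.mem_univ _), Finset.card_univ] at h2
      rw [Nat.card_eq_fintype_card]
      have h3 : 0 < Fintype.card ↥N := Fintype.card_pos
      obtain ⟨k, hk⟩ := h2
      exact ⟨k, by omega⟩
    refine hL.2.2.2 N hodd ?_
    intro q _
    rw [mem_normalizer_iff]
    intro y
    exact ⟨fun hy => hN.conj_mem y hy q, fun hy => by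
      have := hN.conj_mem _ hy q⁻¹
      simpa [mul_assoc] using this⟩

/-- A normal subgroup containing `C(z)` is the whole group. -/
theorem eq_top_of_centralizer_le {z : G} (hz : orderOf z = 2)
    (hE : Cfsg.IsExtraspecial 2 ↥(fz z)) {N : Subgroup G} (hN : N.Normal) (hC : centralizer ({z} : Set G) ≤ N) :
    N = ⊤ := by
  have hp : Fact (Nat.Prime 2) := ⟨Nat.prime_two⟩
  have L := large_fz hz ((extraspecial_fz_iff z).1 hE)
  have hQN : fz z ≤ N := (fz_le_centralizer z).trans hC
  have hQp : IsPGroup 2 ↥(fz z) := hE.1.1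
  have hQp' : IsPGroup 2 ↥((fz z).subgroupOf N) := hQp.comap_subtype
  obtain ⟨P, hP⟩ := hQp'.exists_le_sylow
  have hQP : fz z ≤ (P : Subgroup ↥N).map N.subtype := by
    intro q hq
    exact ⟨⟨q, hQN hq⟩, hP (by rw [mem_subgroupOf]; exact hq), rfl⟩
  haveI := hN
  obtain ⟨P', hP'⟩ : ∃ P', P' = (P : Subgroup ↥N).map N.subtype := ⟨_, rfl⟩
  rw [← hP'] at hQP
  have hPp : IsPGroup 2 ↥P' := by rw [hP']; exact P.isPGroup'.map _
  -- a central element of `P'` is trivial or `z`
  have hcen : ∀ y ∈ P', (∀ x ∈ P', x * y = y * x) → y = 1 ∨ y = z := by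
    intro y hy hyc
    have hyQ : y ∈ fz z := L.self y (fun x hx => (hyc x (hQP hx)).symm)
    exact L.center y hyQ (fun x hx => hyc x (hQP hx))
  have hzcen : ∀ x ∈ P', x * z = z * x := by
    haveI : Nontrivial ↥P' := ⟨⟨⟨z, hQP L.z_mem⟩, 1, fun h => L.z_ne (congrArg Subtype.val h)⟩⟩
    have hnt := hPp.center_nontrivial
    obtain ⟨y, hy⟩ := exists_ne (1 : center ↥P')
    have hy1 : ((y : ↥P') : G) ≠ 1 := fun h => hy (Subtype.ext (Subtype.ext h))
    have hyc : ∀ x ∈ P', x * ((y : ↥P') : G) = ((y : ↥P') : G) * x := fun x hx =>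
      congrArg (fun t : ↥P' => (t : G)) (mem_center_iff.mp y.2 ⟨x, hx⟩)
    rcases hcen _ (y : ↥P').2 hyc with h1 | h1
    · exact (hy1 h1).elim
    · rw [← h1]; exact hyc
  have hnorm : normalizer (P' : Set G) ≤ centralizer ({z} : Set G) := by
    intro g hg
    rw [mem_normalizer_iff] at hg
    rw [mem_centralizer_singleton_iff]
    have h1 : g * z * g⁻¹ ∈ P' := (hg z).1 (hQP L.z_mem)
    have h2 : ∀ x ∈ P', x * (g * z * g⁻¹) = (g * z * g⁻¹) * x := by
      intro x hx
      have h3 : g⁻¹ * x * g ∈ P' := by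
        have := (hg (g⁻¹ * x * g)).2 (by simpa [mul_assoc] using hx)
        exact this
      have h4 := hzcen _ h3
      calc x * (g * z * g⁻¹) = g * ((g⁻¹ * x * g) * z) * g⁻¹ := by group
        _ = g * (z * (g⁻¹ * x * g)) * g⁻¹ := by rw [h4]
        _ = (g * z * g⁻¹) * x := by group
    rcases hcen _ h1 h2 with h3 | h3
    · exfalso
      apply L.z_ne
      have : z = g⁻¹ * (g * z * g⁻¹) * g := by group
      rw [this, h3]; group
    · calc g * z = g * z * g⁻¹ * g := by group
        _ = z * g := by rw [h3]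
  have htop := Sylow.normalizer_sup_eq_top P
  rw [← hP'] at htop
  rw [eq_top_iff, ← htop]
  exact sup_le (hnorm.trans hC) le_rfl

end Finite

end Cfsg.Agent.Lib.PGroup.LargeFz
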