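import Mathlib
import Cfsg.Agent.Lib.PGroup.ZJControl

/-!
# Alperin's fusion theorem, in the form of `Good`

To prove that a subgroup `T` controls strong fusion in a Sylow subgroup `S` it suffices to treat
normalizers of fully normalized subgroups, under the induction hypothesis for larger subgroups.
-/

set_option autoImplicit false

namespace Cfsg.Agent.Lib.PGroup.AlperinGood

open Subgroup Cfsg.Agent.Lib.PGroup.ZJ Cfsg.Agent.Lib.PGroup.ZJControl
open Cfsg.Agent.Lib.PGroup.Replacement (mem_normalizer_of_conj_mem card_lt_of_lt)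

variable {G : Type*} [Group G] [Finite G] {p : ℕ} [Fact p.Prime]

/-- Alperin's fusion theorem in the `Good` form. -/
theorem control_alperin (S : Sylow p G) (X : Subgroup G)
    (htop : normalizer ((S : Subgroup G) : Set G) ≤ X)
    (hFNstep : ∀ B : Subgroup G, B < (S : Subgroup G) → FN S B →
      (∀ B' : Subgroup G, B' ≤ (S : Subgroup G) → Nat.card B < Nat.card B' → ∀ g' : G,
        (∀ b ∈ B', g' * b * g'⁻¹ ∈ (S : Subgroup G)) → Good X g' B') →
      ∀ l ∈ normalizer (B : Set G), Good X l B) :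
    ∀ (n : ℕ) (B : Subgroup G) (g : G), Nat.card (S : Subgroup G) - Nat.card B = n →
      B ≤ (S : Subgroup G) → (∀ b ∈ B, g * b * g⁻¹ ∈ (S : Subgroup G)) → Good X g B := by
  intro n
  induction n using Nat.strong_induction_on with
  | _ n IHn =>
    intro B g hn hBS hgB
    by_cases hBeq : B = (S : Subgroup G)
    · refine ⟨g, htop ?_, fun _ _ => rfl⟩
      apply mem_normalizer_of_conj_mem
      intro x hx
      rw [← hBeq] at hx
      exact hgB x hx
    have hBlt : B < (S : Subgroup G) := lt_of_le_of_ne hBS hBeq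
    have hBcard := card_lt_of_lt hBlt
    have IH : ∀ B' : Subgroup G, B' ≤ (S : Subgroup G) → Nat.card B < Nat.card B' → ∀ g' : G,
        (∀ b ∈ B', g' * b * g'⁻¹ ∈ (S : Subgroup G)) → Good X g' B' := by
      intro B' hB' hc g' hg'
      have h2 : Nat.card B' ≤ Nat.card (S : Subgroup G) := Subgroup.card_le_of_le hB'
      exact IHn _ (by omega) B' g' rfl hB' hg'
    have hlt_norm : ∀ C : Subgroup G, C ≤ (S : Subgroup G) → Nat.card C = Nat.card B →
        C < (S : Subgroup G) ⊓ normalizer (C : Set G) := by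
      intro C hC hcC
      have hClt : C < (S : Subgroup G) := by
        refine lt_of_le_of_ne hC ?_
        intro h
        rw [h] at hcC
        omega
      obtain ⟨x, hxS, hxC, hxN⟩ := Cfsg.Agent.Lib.PGroup.Basic.exists_mem_normalizer_of_lt
          (S.isPGroup') hClt
      refine lt_of_le_of_ne (le_inf hC Subgroup.le_normalizer) ?_
      intro h
      exact hxC (h ▸ (Subgroup.mem_inf.mpr ⟨hxS, hxN⟩))
    -- Step 1
    set B₁ := B.map (MulAut.conj g).toMonoidHom with hB₁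
    have hB₁S : B₁ ≤ (S : Subgroup G) := by
      rintro _ ⟨b, hb, rfl⟩
      exact hgB b hb
    have hB₁c : Nat.card B₁ = Nat.card B := card_map_conj g B
    obtain ⟨u, hu, hFN⟩ := exists_FN_conj (Q := B₁) S
    have hM₁ := hlt_norm B₁ hB₁S hB₁c
    obtain ⟨xu, hxu, hxue⟩ := IH _ inf_le_left (by rw [← hB₁c]; exact card_lt_of_lt hM₁) u hu
    set B₂ := B₁.map (MulAut.conj u).toMonoidHom with hB₂
    have hB₂S : B₂ ≤ (S : Subgroup G) := by
      rintro _ ⟨c, hc, rfl⟩
      exact hu c (hM₁.le hc)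
    have hB₂c : Nat.card B₂ = Nat.card B := by rw [hB₂, card_map_conj, hB₁c]
    -- Step 2
    set g₂ := u * g with hg₂
    have hg₂b : ∀ b ∈ B, g₂ * b * g₂⁻¹ ∈ B₂ := by
      intro b hb
      refine ⟨g * b * g⁻¹, ⟨b, hb, rfl⟩, ?_⟩
      simp only [MulEquiv.coe_toMonoidHom, MulAut.conj_apply, hg₂]
      group
    have hM₀ := hlt_norm B hBS rfl
    set M₀ := (S : Subgroup G) ⊓ normalizer (B : Set G) with hM₀def
    set U := M₀.map (MulAut.conj g₂).toMonoidHom with hU
    have hB₂map : B₂ = B.map (MulAut.conj g₂).toMonoidHom := by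
      rw [hB₂, hB₁, Subgroup.map_map]
      congr 1
      ext x
      simp [hg₂, MulAut.conj_apply, mul_assoc]
    have hUN : U ≤ normalizer (B₂ : Set G) := by
      rintro _ ⟨x, hx, rfl⟩
      rw [hB₂map]
      exact mem_normalizer_map_conj g₂ hx.2
    have hUp : IsPGroup p U := ((S.isPGroup').to_le inf_le_left).map _
    obtain ⟨l, hl, hlU⟩ := exists_conj_into hFN hUN hUp
    have hlg : ∀ x ∈ M₀, (l * g₂) * x * (l * g₂)⁻¹ ∈ (S : Subgroup G) := by
      intro x hx
      have h1 := (hlU _ ⟨x, hx, rfl⟩).1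
      have h2 : l * (MulAut.conj g₂).toMonoidHom x * l⁻¹ = (l * g₂) * x * (l * g₂)⁻¹ := by
        simp only [MulEquiv.coe_toMonoidHom, MulAut.conj_apply]; group
      rwa [h2] at h1
    obtain ⟨x₁, hx₁, hx₁e⟩ := IH M₀ inf_le_left (card_lt_of_lt hM₀) _ hlg
    -- Step 3
    have hlinv : l⁻¹ ∈ normalizer (B₂ : Set G) := inv_mem hl
    have hB₂lt : B₂ < (S : Subgroup G) := by
      refine lt_of_le_of_ne hB₂S ?_
      intro h
      rw [h] at hB₂c
      omega
    obtain ⟨x₂, hx₂, hx₂e⟩ := hFNstep B₂ hB₂lt hFN (by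
      intro B' hB' hc g' hg'
      rw [hB₂c] at hc
      exact IH B' hB' hc g' hg') l⁻¹ hlinv
    refine ⟨xu⁻¹ * x₂ * x₁, mul_mem (mul_mem (inv_mem hxu) hx₂) hx₁, ?_⟩
    intro b hb
    have h1 := hx₁e b (hM₀.le hb)
    have hc : (l * g₂) * b * (l * g₂)⁻¹ ∈ B₂ := by
      have h2 : (l * g₂) * b * (l * g₂)⁻¹ = l * (g₂ * b * g₂⁻¹) * l⁻¹ := by group
      rw [h2]
      exact (mem_normalizer_iff.mp hl _).mp (hg₂b b hb)
    have h3 := hx₂e _ hc
    have h4 : l⁻¹ * ((l * g₂) * b * (l * g₂)⁻¹) * l⁻¹⁻¹ = g₂ * b * g₂⁻¹ := by group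
    rw [h4, h1] at h3
    have hgb : g * b * g⁻¹ ∈ B₁ := ⟨b, hb, rfl⟩
    have h5 := hxue _ (hM₁.le hgb)
    have h6 : u * (g * b * g⁻¹) * u⁻¹ = g₂ * b * g₂⁻¹ := by
      rw [hg₂]; group
    rw [h6, h3] at h5
    have h7 : g * b * g⁻¹ = xu⁻¹ * (xu * (g * b * g⁻¹) * xu⁻¹) * xu := by group
    rw [h7, ← h5]
    group

theorem control_alperin' (S : Sylow p G) (X : Subgroup G)
    (htop : normalizer ((S : Subgroup G) : Set G) ≤ X)
    (hFNstep : ∀ B : Subgroup G, B < (S : Subgroup G) → FN S B →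
      (∀ B' : Subgroup G, B' ≤ (S : Subgroup G) → Nat.card B < Nat.card B' → ∀ g' : G,
        (∀ b ∈ B', g' * b * g'⁻¹ ∈ (S : Subgroup G)) → Good X g' B') →
      ∀ l ∈ normalizer (B : Set G), Good X l B)
    (B : Subgroup G) (g : G) (hB : B ≤ (S : Subgroup G))
    (hgB : ∀ b ∈ B, g * b * g⁻¹ ∈ (S : Subgroup G)) : Good X g B :=
  control_alperin S X htop hFNstep _ B g rfl hB hgB

end Cfsg.Agent.Lib.PGroup.AlperinGood
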