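import Mathlib

/-!
# Anisotropic pairs of quadratic forms over the field of two elements

By the Chevalley--Warning theorem, a pair of quadratic forms over `ZMod 2` without a nontrivial
common zero lives on a space of order at most `16`.  Group version: a class two group `D` with
central `W` of order `4`, in which `x ↦ x²` has kernel `W`, has order at most `64`.
-/

set_option autoImplicit false

namespace Cfsg.Agent.Lib.PGroup.AnisoQuad

open MvPolynomial

/-- A polynomial of degree at most two in five variables. -/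
noncomputable def quadPoly (c : Fin 5 → ZMod 2) (d : Fin 5 → Fin 5 → ZMod 2) :
    MvPolynomial (Fin 5) (ZMod 2) :=
  C (c 0) * X 0 + C (c 1) * X 1 + C (c 2) * X 2 + C (c 3) * X 3 + C (c 4) * X 4 +
  C (d 0 1) * (X 0 * X 1) + C (d 0 2) * (X 0 * X 2) + C (d 0 3) * (X 0 * X 3) +
  C (d 0 4) * (X 0 * X 4) + C (d 1 2) * (X 1 * X 2) + C (d 1 3) * (X 1 * X 3) +
  C (d 1 4) * (X 1 * X 4) + C (d 2 3) * (X 2 * X 3) + C (d 2 4) * (X 2 * X 4) +
  C (d 3 4) * (X 3 * X 4)

theorem quadPoly_degree (c : Fin 5 → ZMod 2) (d : Fin 5 → Fin 5 → ZMod 2) :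
    (quadPoly c d).totalDegree ≤ 2 := by
  have hadd : ∀ p q : MvPolynomial (Fin 5) (ZMod 2), p.totalDegree ≤ 2 → q.totalDegree ≤ 2 →
      (p + q).totalDegree ≤ 2 := fun p q hp hq =>
    (totalDegree_add p q).trans (max_le hp hq)
  have h1 : ∀ (a : ZMod 2) (i : Fin 5), (C a * X i : MvPolynomial (Fin 5) (ZMod 2)).totalDegree ≤ 2 := by
    intro a i
    refine (totalDegree_mul _ _).trans ?_
    rw [totalDegree_C, totalDegree_X]
    norm_num
  have h2 : ∀ (a : ZMod 2) (i j : Fin 5),
      (C a * (X i * X j) : MvPolynomial (Fin 5) (ZMod 2)).totalDegree ≤ 2 := by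
    intro a i j
    refine (totalDegree_mul _ _).trans ?_
    rw [totalDegree_C, zero_add]
    refine (totalDegree_mul _ _).trans ?_
    rw [totalDegree_X, totalDegree_X]
  unfold quadPoly
  exact hadd _ _ (hadd _ _ (hadd _ _ (hadd _ _ (hadd _ _ (hadd _ _ (hadd _ _ (hadd _ _ (hadd _ _
    (hadd _ _ (hadd _ _ (hadd _ _ (hadd _ _ (hadd _ _ (h1 _ _) (h1 _ _)) (h1 _ _)) (h1 _ _)) (h1 _ _))
    (h2 _ _ _)) (h2 _ _ _)) (h2 _ _ _)) (h2 _ _ _)) (h2 _ _ _)) (h2 _ _ _)) (h2 _ _ _)) (h2 _ _ _))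
    (h2 _ _ _)) (h2 _ _ _)

/-- Chevalley--Warning for a pair of quadratic forms. -/
theorem card_le_sixteen {V : Type*} [AddCommGroup V] [Module (ZMod 2) V] [Finite V]
    (q₁ q₂ : V → ZMod 2) (B₁ B₂ : V → V → ZMod 2)
    (hB₁l : ∀ u u' v, B₁ (u + u') v = B₁ u v + B₁ u' v)
    (hB₁r : ∀ u v v', B₁ u (v + v') = B₁ u v + B₁ u v')
    (hB₂l : ∀ u u' v, B₂ (u + u') v = B₂ u v + B₂ u' v)
    (hB₂r : ∀ u v v', B₂ u (v + v') = B₂ u v + B₂ u v')
    (hq₁ : ∀ u v, q₁ (u + v) = q₁ u + q₁ v + B₁ u v)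
    (hq₂ : ∀ u v, q₂ (u + v) = q₂ u + q₂ v + B₂ u v)
    (han : ∀ v, q₁ v = 0 → q₂ v = 0 → v = 0) : Nat.card V ≤ 16 := by
  classical
  haveI : Module.Finite (ZMod 2) V := Module.Finite.of_finite
  have hcard : Nat.card V = 2 ^ Module.finrank (ZMod 2) V := by
    have h := Module.natCard_eq_pow_finrank (K := ZMod 2) (V := V)
    simpa [ZMod.card] using h
  by_contra hcon
  have hfr : 5 ≤ Module.finrank (ZMod 2) V := by
    by_contra h5
    have h6 : Module.finrank (ZMod 2) V ≤ 4 := by omega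
    have h7 : 2 ^ Module.finrank (ZMod 2) V ≤ 2 ^ 4 := Nat.pow_le_pow_right (by norm_num) h6
    rw [← hcard] at h7
    exact hcon (by simpa using h7)
  -- five independent vectors
  let b := Module.finBasis (ZMod 2) V
  let ι : Fin 5 → Fin (Module.finrank (ZMod 2) V) := Fin.castLE hfr
  have hι : Function.Injective ι := Fin.castLE_injective hfr
  let e : Fin 5 → V := fun i => b (ι i)
  have hind : LinearIndependent (ZMod 2) e := b.linearIndependent.comp ι hι
  -- scalar rules
  have hs : ∀ (q : V → ZMod 2) (B : V → V → ZMod 2),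
      (∀ u v, q (u + v) = q u + q v + B u v) →
      (∀ u u' v, B (u + u') v = B u v + B u' v) →
      (∀ u v v', B u (v + v') = B u v + B u v') →
      ∀ (a : Fin 5 → ZMod 2), q (∑ i, a i • e i) =
        eval a (quadPoly (fun i => q (e i)) (fun i j => B (e i) (e j))) := by
    intro q B hq hBl hBr a
    have h0 : q 0 = 0 := by
      have h1 := hq 0 0
      have h2 : B 0 0 = 0 := by
        have := hBl 0 0 0
        simpa using this
      simp only [add_zero, h2] at h1
      have h3 : q 0 + q 0 = 0 := CharTwo.add_self_eq_zero _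
      rw [h3] at h1
      exact h1
    have hB0l : ∀ v, B 0 v = 0 := by
      intro v
      have := hBl 0 0 v
      simpa using this
    have hB0r : ∀ v, B v 0 = 0 := by
      intro v
      have := hBr v 0 0
      simpa using this
    have hc01 : ∀ c : ZMod 2, c = 0 ∨ c = 1 := by decide
    have hqs : ∀ (c : ZMod 2) (u : V), q (c • u) = c * q u := by
      intro c u
      rcases hc01 c with rfl | rfl
      · simp [h0]
      · simp
    have hBsl : ∀ (c : ZMod 2) (u v : V), B (c • u) v = c * B u v := by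
      intro c u v
      rcases hc01 c with rfl | rfl
      · simp [hB0l]
      · simp
    have hBsr : ∀ (c : ZMod 2) (u v : V), B u (c • v) = c * B u v := by
      intro c u v
      rcases hc01 c with rfl | rfl
      · simp [hB0r]
      · simp
    rw [Fin.sum_univ_five]
    simp only [quadPoly, map_add, map_mul, eval_C, eval_X, hq, hBl, hBr, hqs, hBsl, hBsr]
    ring
  have hdeg : (quadPoly (fun i => q₁ (e i)) (fun i j => B₁ (e i) (e j))).totalDegree +
      (quadPoly (fun i => q₂ (e i)) (fun i j => B₂ (e i) (e j))).totalDegree <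
      Fintype.card (Fin 5) := by
    have h1 := quadPoly_degree (fun i => q₁ (e i)) (fun i j => B₁ (e i) (e j))
    have h2 := quadPoly_degree (fun i => q₂ (e i)) (fun i j => B₂ (e i) (e j))
    simp only [Fintype.card_fin]
    omega
  haveI : Fact (Nat.Prime 2) := ⟨Nat.prime_two⟩
  have hcw := char_dvd_card_solutions_of_add_lt 2 hdeg
  -- the zero solution
  have hz : ∀ (q : V → ZMod 2) (B : V → V → ZMod 2),
      (∀ u v, q (u + v) = q u + q v + B u v) →
      (∀ u u' v, B (u + u') v = B u v + B u' v) →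
      (∀ u v v', B u (v + v') = B u v + B u v') →
      eval (0 : Fin 5 → ZMod 2) (quadPoly (fun i => q (e i)) (fun i j => B (e i) (e j))) = 0 := by
    intro q B hq hBl hBr
    simp [quadPoly]
  obtain ⟨S, hS⟩ : ∃ S, S = { x : Fin 5 → ZMod 2 //
      eval x (quadPoly (fun i => q₁ (e i)) (fun i j => B₁ (e i) (e j))) = 0 ∧
      eval x (quadPoly (fun i => q₂ (e i)) (fun i j => B₂ (e i) (e j))) = 0 } := ⟨_, rfl⟩
  have hsol0 : ∃ a : Fin 5 → ZMod 2, a ≠ 0 ∧
      eval a (quadPoly (fun i => q₁ (e i)) (fun i j => B₁ (e i) (e j))) = 0 ∧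
      eval a (quadPoly (fun i => q₂ (e i)) (fun i j => B₂ (e i) (e j))) = 0 := by
    by_contra hno
    push Not at hno
    have hall : ∀ x : { x : Fin 5 → ZMod 2 //
        eval x (quadPoly (fun i => q₁ (e i)) (fun i j => B₁ (e i) (e j))) = 0 ∧
        eval x (quadPoly (fun i => q₂ (e i)) (fun i j => B₂ (e i) (e j))) = 0 },
        x = ⟨0, hz q₁ B₁ hq₁ hB₁l hB₁r, hz q₂ B₂ hq₂ hB₂l hB₂r⟩ := by
      rintro ⟨x, hx1, hx2⟩
      apply Subtype.ext
      by_contra hx0
      exact hno x hx0 hx1 hx2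
    have hcard1 := Fintype.card_eq_one_of_forall_eq hall
    rw [hcard1] at hcw
    omega
  obtain ⟨a, ha0, ha1, ha2⟩ := hsol0
  rw [← hs q₁ B₁ hq₁ hB₁l hB₁r] at ha1
  rw [← hs q₂ B₂ hq₂ hB₂l hB₂r] at ha2
  have hzero := han _ ha1 ha2
  apply ha0
  have := (Fintype.linearIndependent_iff.mp hind) a hzero
  funext i
  exact this i

/-- Coordinates on a four-group of exponent two, as functions on the ambient group. -/
theorem exists_coords {D : Type*} [Group D] [Finite D] (W : Subgroup D)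
    (hW2 : ∀ w ∈ W, w ^ 2 = 1) (hcard : Nat.card W = 4) :
    ∃ l₁ l₂ : D → ZMod 2, (∀ u ∈ W, ∀ v ∈ W, l₁ (u * v) = l₁ u + l₁ v) ∧
      (∀ u ∈ W, ∀ v ∈ W, l₂ (u * v) = l₂ u + l₂ v) ∧
      ∀ w ∈ W, l₁ w = 0 → l₂ w = 0 → w = 1 := by
  classical
  have hc : ∀ a ∈ W, ∀ b ∈ W, a * b = b * a := by
    intro a ha b hb
    have h1 := hW2 _ (W.mul_mem ha hb)
    have h2 := hW2 _ ha
    have h3 := hW2 _ hb
    rw [pow_two] at h1 h2 h3
    calc a * b = a * (a * b * (a * b)) * b := by rw [h1]; simp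
      _ = (a * a) * (b * a) * (b * b) := by group
      _ = b * a := by rw [h2, h3]; simp
  letI instW : CommGroup W :=
    { (inferInstance : Group W) with mul_comm := fun a b => Subtype.ext (hc a a.2 b b.2) }
  letI instM : Module (ZMod 2) (Additive W) := AddCommGroup.zmodModule (n := 2) (by
    intro x
    induction x using Additive.rec with
    | ofMul x =>
      rw [← ofMul_pow]
      have : x ^ 2 = 1 := Subtype.ext (hW2 x x.2)
      rw [this]
      rfl)
  haveI : Module.Finite (ZMod 2) (Additive W) := Module.Finite.of_finite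
  have hcd : Nat.card (Additive W) = 2 ^ Module.finrank (ZMod 2) (Additive W) := by
    have h := Module.natCard_eq_pow_finrank (K := ZMod 2) (V := Additive W)
    simpa [ZMod.card] using h
  have hfr : Module.finrank (ZMod 2) (Additive W) = 2 := by
    have h1 : Nat.card (Additive W) = 4 := by
      rw [← hcard]; exact Nat.card_congr Additive.toMul
    rw [h1] at hcd
    have h2 : (2 : ℕ) ^ 2 = 2 ^ Module.finrank (ZMod 2) (Additive W) := by
      rw [← hcd]; norm_num
    exact (Nat.pow_right_injective (le_refl 2) h2).symm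
  let b := Module.finBasisOfFinrankEq (ZMod 2) (Additive W) hfr
  refine ⟨fun x => if h : x ∈ W then b.coord 0 (Additive.ofMul ⟨x, h⟩) else 0,
    fun x => if h : x ∈ W then b.coord 1 (Additive.ofMul ⟨x, h⟩) else 0, ?_, ?_, ?_⟩
  · intro u hu v hv
    simp only [hu, hv, W.mul_mem hu hv, dif_pos]
    rw [← map_add, ← ofMul_mul]
    rfl
  · intro u hu v hv
    simp only [hu, hv, W.mul_mem hu hv, dif_pos]
    rw [← map_add, ← ofMul_mul]
    rfl
  · intro w hw h1 h2
    simp only [hw, dif_pos] at h1 h2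
    have h3 : Additive.ofMul (⟨w, hw⟩ : W) = 0 := by
      apply b.ext_elem
      intro i
      have hi : i = 0 ∨ i = 1 := by
        fin_cases i <;> simp
      rcases hi with rfl | rfl
      · simpa using h1
      · simpa using h2
    have h4 : (⟨w, hw⟩ : W) = 1 := h3
    exact congrArg Subtype.val h4

/-- The group version of the Chevalley--Warning bound. -/
theorem card_quotient_le {D : Type*} [Group D] [Finite D] (W : Subgroup D) [W.Normal]
    (hWc : ∀ w ∈ W, ∀ x : D, w * x = x * w) (hsq : ∀ x : D, x ^ 2 ∈ W)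
    (hcomm : ∀ x y : D, x * y * x⁻¹ * y⁻¹ ∈ W) (hW2 : ∀ w ∈ W, w ^ 2 = 1)
    (hcard : Nat.card W = 4) (haniso : ∀ x : D, x ^ 2 = 1 → x ∈ W) :
    Nat.card (D ⧸ W) ≤ 16 := by
  classical
  obtain ⟨l₁, l₂, hl₁, hl₂, hl⟩ := exists_coords W hW2 hcard
  letI instQ : CommGroup (D ⧸ W) :=
    { (inferInstance : Group (D ⧸ W)) with
      mul_comm := by
        intro p q
        obtain ⟨a, rfl⟩ := QuotientGroup.mk_surjective p
        obtain ⟨b, rfl⟩ := QuotientGroup.mk_surjective q
        have h1 : ((a * b * a⁻¹ * b⁻¹ : D) : D ⧸ W) = 1 := (QuotientGroup.eq_one_iff _).mpr (hcomm a b)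
        rw [QuotientGroup.mk_mul, QuotientGroup.mk_mul, QuotientGroup.mk_mul, QuotientGroup.mk_inv,
          QuotientGroup.mk_inv] at h1
        have h2 := mul_inv_eq_one.mp h1
        exact (mul_inv_eq_iff_eq_mul.mp h2) }
  letI instM : Module (ZMod 2) (Additive (D ⧸ W)) := AddCommGroup.zmodModule (n := 2) (by
    intro x
    induction x using Additive.rec with
    | ofMul x =>
      obtain ⟨a, rfl⟩ := QuotientGroup.mk_surjective x
      rw [← ofMul_pow]
      have : ((a : D ⧸ W)) ^ 2 = 1 := by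
        rw [← QuotientGroup.mk_pow]
        exact (QuotientGroup.eq_one_iff _).mpr (hsq a)
      rw [this]
      rfl)
  -- a section
  let s : Additive (D ⧸ W) → D := fun v => Quotient.out (Additive.toMul v)
  have hs : ∀ v, ((s v : D) : D ⧸ W) = Additive.toMul v := fun v => QuotientGroup.out_eq' _
  have hsadd : ∀ u v, ∃ w ∈ W, s (u + v) = s u * s v * w := by
    intro u v
    refine ⟨(s u * s v)⁻¹ * s (u + v), ?_, by group⟩
    rw [← QuotientGroup.eq, QuotientGroup.mk_mul, hs, hs, hs]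
    rfl
  have hcw : ∀ w ∈ W, w * w = 1 := fun w hw => by rw [← pow_two]; exact hW2 w hw
  -- commutator identities
  let cm : D → D → D := fun x y => x * y * x⁻¹ * y⁻¹
  have hcm_central : ∀ x y z : D, cm x y * z = z * cm x y := fun x y z => hWc _ (hcomm x y) z
  have hcml : ∀ x x' y : D, cm (x * x') y = cm x y * cm x' y := by
    intro x x' y
    show x * x' * y * (x * x')⁻¹ * y⁻¹ = cm x y * (x' * y * x'⁻¹ * y⁻¹)
    have h1 : x * (x' * y * x'⁻¹ * y⁻¹) * x⁻¹ = x' * y * x'⁻¹ * y⁻¹ := by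
      have := hcm_central x' y x
      show x * cm x' y * x⁻¹ = cm x' y
      rw [← this]; group
    calc x * x' * y * (x * x')⁻¹ * y⁻¹
        = (x * (x' * y * x'⁻¹ * y⁻¹) * x⁻¹) * cm x y := by
          show _ = _ * (x * y * x⁻¹ * y⁻¹)
          group
      _ = cm x' y * cm x y := by rw [h1]
      _ = cm x y * cm x' y := hcm_central _ _ _
  have hcmr : ∀ x y y' : D, cm x (y * y') = cm x y * cm x y' := by
    intro x y y'
    have hinv : ∀ a b : D, cm a b = cm b a := by
      intro a b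
      have h1 : cm a b * cm b a = 1 := by
        show a * b * a⁻¹ * b⁻¹ * (b * a * b⁻¹ * a⁻¹) = 1
        group
      have h2 := hcw _ (hcomm a b)
      have h3 : cm a b * cm a b = 1 := h2
      exact mul_left_cancel (h3.trans h1.symm)
    rw [hinv x (y * y'), hcml, hinv y x, hinv y' x]
  have hcmw : ∀ (x y w : D), w ∈ W → cm x (y * w) = cm x y := by
    intro x y w hw
    rw [hcmr]
    have : cm x w = 1 := by
      show x * w * x⁻¹ * w⁻¹ = 1
      rw [← hWc w hw x]; group
    rw [this, mul_one]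
  have hcmw' : ∀ (x y w : D), w ∈ W → cm (x * w) y = cm x y := by
    intro x y w hw
    rw [hcml]
    have : cm w y = 1 := by
      show w * y * w⁻¹ * y⁻¹ = 1
      rw [hWc w hw y]; group
    rw [this, mul_one]
  have hsqmul : ∀ x y : D, (x * y) ^ 2 = x ^ 2 * y ^ 2 * cm y x := by
    intro x y
    have h1 := hcm_central y x (x ^ 2)
    have h2 := hcm_central y x (y ^ 2)
    calc (x * y) ^ 2 = x * (cm y x * (x * y)) * y := by
          show _ = x * (y * x * y⁻¹ * x⁻¹ * (x * y)) * y
          rw [pow_two]; group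
      _ = x * (x * y * cm y x) * y := by rw [hcm_central]
      _ = (x * x) * (y * (cm y x * y)) := by simp only [mul_assoc]
      _ = (x * x) * (y * (y * cm y x)) := by rw [hcm_central y x y]
      _ = x ^ 2 * y ^ 2 * cm y x := by simp only [pow_two, mul_assoc]
  have hsqw : ∀ (x w : D), w ∈ W → (x * w) ^ 2 = x ^ 2 := by
    intro x w hw
    rw [hsqmul, hW2 w hw, mul_one]
    have : cm w x = 1 := by
      show w * x * w⁻¹ * x⁻¹ = 1
      rw [hWc w hw x]; group
    rw [this, mul_one]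
  have key : ∀ l : D → ZMod 2, (∀ u ∈ W, ∀ v ∈ W, l (u * v) = l u + l v) →
      (∀ u u' v, l (cm (s v) (s (u + u'))) = l (cm (s v) (s u)) + l (cm (s v) (s u'))) ∧
      (∀ u v v', l (cm (s (v + v')) (s u)) = l (cm (s v) (s u)) + l (cm (s v') (s u))) ∧
      (∀ u v, l ((s (u + v)) ^ 2) = l ((s u) ^ 2) + l ((s v) ^ 2) + l (cm (s v) (s u))) := by
    intro l hl
    refine ⟨?_, ?_, ?_⟩
    · intro u u' v
      obtain ⟨w, hw, hww⟩ := hsadd u u'
      rw [hww, hcmw _ _ _ hw, hcmr, hl _ (hcomm _ _) _ (hcomm _ _)]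
    · intro u v v'
      obtain ⟨w, hw, hww⟩ := hsadd v v'
      rw [hww, hcmw' _ _ _ hw, hcml, hl _ (hcomm _ _) _ (hcomm _ _)]
    · intro u v
      obtain ⟨w, hw, hww⟩ := hsadd u v
      rw [hww, hsqw _ _ hw, hsqmul, hl _ (W.mul_mem (hsq _) (hsq _)) _ (hcomm _ _),
        hl _ (hsq _) _ (hsq _)]
  obtain ⟨k₁, k₂, k₃⟩ := key l₁ hl₁
  obtain ⟨m₁, m₂, m₃⟩ := key l₂ hl₂
  have h := card_le_sixteen (V := Additive (D ⧸ W))
    (fun v => l₁ ((s v) ^ 2)) (fun v => l₂ ((s v) ^ 2))
    (fun u v => l₁ (cm (s v) (s u))) (fun u v => l₂ (cm (s v) (s u)))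
    k₁ k₂ m₁ m₂ k₃ m₃ (by
      intro v h1 h2
      have h3 := hl _ (hsq (s v)) h1 h2
      have h4 := haniso _ h3
      have h5 : ((s v : D) : D ⧸ W) = 1 := (QuotientGroup.eq_one_iff _).mpr h4
      rw [hs] at h5
      exact h5)
  have h6 : Nat.card (Additive (D ⧸ W)) = Nat.card (D ⧸ W) :=
    Nat.card_congr Additive.toMul
  rwa [h6] at h

end Cfsg.Agent.Lib.PGroup.AnisoQuad
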