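import Mathlib
import Cfsg.Prelude.Def_CaseTheorems
import Cfsg.Agent.Lib.Basic.PCore
import Cfsg.Agent.Lib.Solvable.PSeries
import Cfsg.Agent.S0215

/-!
# Automorphisms fixing a Sylow `2`-subgroup pointwise

Groundwork for Glauberman's theorem: in a group with trivial odd core the automorphisms fixing a
Sylow `2`-subgroup pointwise have abelian Sylow `2`-subgroups with a normal complement.
-/

set_option autoImplicit false
set_option linter.unusedSectionVars false

namespace Cfsg.Agent.Lib.PGroup.CentAut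

open Subgroup Cfsg
open scoped Pointwise

/-- `x` has `2`-power order. -/
def IsTwo {H : Type*} [Group H] (x : H) : Prop := ∃ k : ℕ, x ^ (2 ^ k) = 1

section Basic

variable {H : Type*} [Group H]

theorem IsTwo.eq_one_of_odd {x : H} (h2 : IsTwo x) (hodd : Odd (orderOf x)) : x = 1 := by
  obtain ⟨k, hk⟩ := h2
  have h1 : orderOf x ∣ 2 ^ k := orderOf_dvd_of_pow_eq_one hk
  obtain ⟨j, -, hj⟩ := (Nat.dvd_prime_pow Nat.prime_two).mp h1
  rcases j with _ | j
  · simpa using hj
  · rw [hj, pow_succ] at hodd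
    exact absurd hodd (Nat.not_odd_iff_even.mpr (even_two.mul_left _))

theorem isTwo_iff_isPGroup {x : H} [Finite H] : IsTwo x ↔ IsPGroup 2 (zpowers x) := by
  constructor
  · rintro ⟨k, hk⟩
    rw [IsPGroup.iff_card]
    have h1 : orderOf x ∣ 2 ^ k := orderOf_dvd_of_pow_eq_one hk
    obtain ⟨j, -, hj⟩ := (Nat.dvd_prime_pow Nat.prime_two).mp h1
    exact ⟨j, by rw [Nat.card_zpowers, hj]⟩
  · intro h
    rw [IsPGroup.iff_card] at h
    obtain ⟨k, hk⟩ := h
    refine ⟨k, ?_⟩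
    rw [Nat.card_zpowers] at hk
    rw [← hk]
    exact pow_orderOf_eq_one x

theorem isTwo_of_mem {P : Subgroup H} (hP : IsPGroup 2 P) {x : H} (hx : x ∈ P) : IsTwo x := by
  obtain ⟨k, hk⟩ := hP ⟨x, hx⟩
  refine ⟨k, ?_⟩
  have := congrArg Subtype.val hk
  simpa using this

end Basic

section Struct

variable {H : Type*} [Group H] [Finite H]

/-- In a finite group whose elements of `2`-power order are central, the odd core consists exactly
of the elements of odd order, it contains all commutators and every element is a `2`-element modulo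
it. -/
theorem struct_of_central (hz : ∀ x : H, IsTwo x → ∀ y : H, x * y = y * x) :
    (∀ x : H, x ∈ oddCore H ↔ Odd (orderOf x)) ∧
    (∀ x y : H, x * y * x⁻¹ * y⁻¹ ∈ oddCore H) ∧
    (∀ x : H, ∃ p : H, IsTwo p ∧ x * p⁻¹ ∈ oddCore H) := by
  classical
  obtain ⟨P⟩ : Nonempty (Sylow 2 H) := inferInstance
  have hPc : ∀ p ∈ (P : Subgroup H), ∀ y : H, p * y = y * p := fun p hp y =>
    hz p (isTwo_of_mem P.isPGroup' hp) y
  have hP : normalizer (P : Set H) ≤ centralizer (P : Set H) := by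
    intro n _
    rw [mem_centralizer_iff]
    intro p hp
    exact hPc p hp n
  have hcomp := MonoidHom.ker_transferSylow_isComplement' P hP
  have hodd : ¬ 2 ∣ Nat.card (MonoidHom.transferSylow P hP).ker :=
    MonoidHom.not_dvd_card_ker_transferSylow P hP
  set N := (MonoidHom.transferSylow P hP).ker with hN
  have hNn : N.Normal := MonoidHom.normal_ker _
  have hNc : (Nat.card N).Coprime 2 := by
    rw [Nat.coprime_comm, Nat.Prime.coprime_iff_not_dvd Nat.prime_two]
    exact hodd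
  have hNle : N ≤ oddCore H := Cfsg.Agent.Lib.Basic.PCore.le_pPrimeCore hNn hNc
  have hdec : ∀ x : H, ∃ n ∈ N, ∃ p ∈ (P : Subgroup H), x = n * p := by
    intro x
    have h1 : x ∈ ((N : Set H) * ((P : Subgroup H) : Set H)) := by
      rw [hcomp.mul_eq]
      trivial
    obtain ⟨n, hn, p, hp, rfl⟩ := Set.mem_mul.mp h1
    exact ⟨n, hn, p, hp, rfl⟩
  have hOodd : ∀ x ∈ oddCore H, Odd (orderOf x) := by
    intro x hx
    have h1 : (Nat.card (oddCore H)).Coprime 2 :=
      Cfsg.Agent.Lib.Solvable.PSeries.pPrimeCore_coprime 2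
    have h2 : orderOf x ∣ Nat.card (oddCore H) := by
      have := Subgroup.orderOf_dvd_natCard (oddCore H) hx
      exact this
    have h3 : (orderOf x).Coprime 2 := h1.coprime_dvd_left h2
    exact Nat.Coprime.odd_of_right h3
  have hdisj := hcomp.disjoint
  refine ⟨fun x => ⟨hOodd x, fun hx => ?_⟩, fun x y => ?_, fun x => ?_⟩
  · obtain ⟨n, hn, p, hp, rfl⟩ := hdec x
    have hc : Commute n p := ((hPc p hp n)).symm
    have h1 : (n * p) ^ orderOf (n * p) = 1 := pow_orderOf_eq_one _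
    rw [hc.mul_pow] at h1
    have h2 : p ^ orderOf (n * p) ∈ N := by
      have : p ^ orderOf (n * p) = (n ^ orderOf (n * p))⁻¹ := (eq_inv_of_mul_eq_one_right h1)
      rw [this]
      exact inv_mem (pow_mem hn _)
    have h3 : p ^ orderOf (n * p) ∈ (P : Subgroup H) := pow_mem hp _
    have h4 : p ^ orderOf (n * p) = 1 := by
      have := (Subgroup.disjoint_def.mp hdisj) h2 h3
      exact this
    have h5 : IsTwo p := isTwo_of_mem P.isPGroup' hp
    have h6 : p = 1 := by
      apply h5.eq_one_of_odd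
      exact Odd.of_dvd_nat hx (orderOf_dvd_of_pow_eq_one h4)
    subst h6
    rw [mul_one]
    exact hNle hn
  · obtain ⟨n, hn, p, hp, rfl⟩ := hdec x
    obtain ⟨m, hm, q, hq, rfl⟩ := hdec y
    have e : n * p * (m * q) * (n * p)⁻¹ * (m * q)⁻¹ = n * m * n⁻¹ * m⁻¹ := by
      have h1 := hPc p hp m
      have h2 := hPc q hq n
      have h3 := hPc p hp q
      have h4 : ∀ y, q⁻¹ * y = y * q⁻¹ := by
        intro y
        have := hPc q hq y
        rw [inv_mul_eq_iff_eq_mul, ← mul_assoc, this, mul_assoc, mul_inv_cancel, mul_one]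
      have h5 : ∀ y, p⁻¹ * y = y * p⁻¹ := by
        intro y
        have := hPc p hp y
        rw [inv_mul_eq_iff_eq_mul, ← mul_assoc, this, mul_assoc, mul_inv_cancel, mul_one]
      calc n * p * (m * q) * (n * p)⁻¹ * (m * q)⁻¹
          = n * (p * m) * q * p⁻¹ * n⁻¹ * q⁻¹ * m⁻¹ := by group
        _ = n * m * (p * q) * p⁻¹ * n⁻¹ * q⁻¹ * m⁻¹ := by rw [h1]; group
        _ = n * m * (q * p) * p⁻¹ * n⁻¹ * q⁻¹ * m⁻¹ := by rw [h3]
        _ = n * m * q * n⁻¹ * q⁻¹ * m⁻¹ := by group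
        _ = n * m * (q * n⁻¹) * q⁻¹ * m⁻¹ := by group
        _ = n * m * (n⁻¹ * q) * q⁻¹ * m⁻¹ := by rw [hPc q hq n⁻¹]
        _ = n * m * n⁻¹ * m⁻¹ := by group
    rw [e]
    apply hNle
    exact mul_mem (mul_mem (mul_mem hn hm) (inv_mem hn)) (inv_mem hm)
  · obtain ⟨n, hn, p, hp, rfl⟩ := hdec x
    refine ⟨p, isTwo_of_mem P.isPGroup' hp, ?_⟩
    rw [mul_inv_cancel_right]
    exact hNle hn

end Struct

section Main

variable {G : Type*} [Group G] [Finite G]

/-- A subgroup `Q ≤ S` all of whose centralizing `2`-elements lie in `Q`. -/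
def Cen (S Q : Subgroup G) : Prop :=
  Q ≤ S ∧ ∀ x ∈ centralizer (Q : Set G), IsTwo x → x ∈ Q

/-- The centralizer of a `Cen` subgroup has central `2`-elements. -/
theorem Cen.central {S Q : Subgroup G} (hQ : Cen S Q) (x : ↥(centralizer (Q : Set G)))
    (hx : IsTwo x) (y : ↥(centralizer (Q : Set G))) : x * y = y * x := by
  apply Subtype.ext
  have h1 : (x : G) ∈ Q := by
    apply hQ.2 x x.2
    obtain ⟨k, hk⟩ := hx
    exact ⟨k, by simpa using congrArg Subtype.val hk⟩
  exact mem_centralizer_iff.mp y.2 _ h1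

/-- Odd-order structure for the centralizer, in `G`-language. -/
theorem Cen.struct {S Q : Subgroup G} (hQ : Cen S Q) :
    (∀ x : ↥(centralizer (Q : Set G)), x ∈ oddCore ↥(centralizer (Q : Set G)) ↔
      Odd (orderOf (x : G))) ∧
    (∀ x y : ↥(centralizer (Q : Set G)), x * y * x⁻¹ * y⁻¹ ∈ oddCore ↥(centralizer (Q : Set G))) ∧
    (∀ x : ↥(centralizer (Q : Set G)), ∃ p : ↥(centralizer (Q : Set G)), (p : G) ∈ Q ∧
      x * p⁻¹ ∈ oddCore ↥(centralizer (Q : Set G))) := by
  obtain ⟨h1, h2, h3⟩ := struct_of_central (hQ.central)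
  refine ⟨fun x => ?_, h2, fun x => ?_⟩
  · rw [h1, Subgroup.orderOf_coe]
  · obtain ⟨p, hp, hp'⟩ := h3 x
    refine ⟨p, ?_, hp'⟩
    apply hQ.2 p p.2
    obtain ⟨k, hk⟩ := hp
    exact ⟨k, by simpa using congrArg Subtype.val hk⟩

variable {S : Subgroup G}

/-- `φ` fixes `S` pointwise. -/
def Fixes (S : Subgroup G) (φ : MulAut G) : Prop := ∀ s ∈ S, φ s = s

theorem Fixes.map_centralizer {φ : MulAut G} (hφ : Fixes S φ) {Q : Subgroup G} (hQS : Q ≤ S)
    {c : G} (hc : c ∈ centralizer (Q : Set G)) : φ c ∈ centralizer (Q : Set G) := by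
  rw [mem_centralizer_iff] at hc ⊢
  intro q hq
  have h1 := hc q hq
  have h2 := congrArg φ h1
  simpa [map_mul, hφ q (hQS hq)] using h2

theorem Fixes.cocycle_mem {φ : MulAut G} (hφ : Fixes S φ) {Q : Subgroup G} (hQS : Q ≤ S)
    {y : G} (hy : y ∈ normalizer (Q : Set G)) : y⁻¹ * φ y ∈ centralizer (Q : Set G) := by
  rw [mem_centralizer_iff]
  intro q hq
  have h1 : y * q * y⁻¹ ∈ Q := (mem_normalizer_iff.mp hy q).mp hq
  have h2 : φ (y * q * y⁻¹) = y * q * y⁻¹ := hφ _ (hQS h1)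
  rw [map_mul, map_mul, map_inv, hφ q (hQS hq)] at h2
  have h3 : φ y * q = y * q * y⁻¹ * φ y := by
    rw [← h2]; group
  calc q * (y⁻¹ * φ y) = y⁻¹ * (y * q * y⁻¹ * φ y) := by group
    _ = y⁻¹ * (φ y * q) := by rw [h3]
    _ = y⁻¹ * φ y * q := by group

/-- The restriction of `φ` to a centralizer. -/
def Fixes.res {φ : MulAut G} (hφ : Fixes S φ) {Q : Subgroup G} (hQS : Q ≤ S)
    (c : ↥(centralizer (Q : Set G))) : ↥(centralizer (Q : Set G)) :=
  ⟨φ c, hφ.map_centralizer hQS c.2⟩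

/-- `c⁻¹ φ(c)` lies in the odd core of the centralizer of a `Cen` subgroup. -/
theorem Fixes.inv_mul_res_mem {φ : MulAut G} (hφ : Fixes S φ) {Q : Subgroup G} (hQ : Cen S Q)
    (c : ↥(centralizer (Q : Set G))) :
    c⁻¹ * hφ.res hQ.1 c ∈ oddCore ↥(centralizer (Q : Set G)) := by
  obtain ⟨h1, h2, h3⟩ := hQ.struct
  obtain ⟨p, hp, ho⟩ := h3 c
  have hpfix : hφ.res hQ.1 p = p := Subtype.ext (hφ _ (hQ.1 hp))
  set o := c * p⁻¹ with ho'
  have hmul : ∀ a b : ↥(centralizer (Q : Set G)), hφ.res hQ.1 (a * b) = hφ.res hQ.1 a * hφ.res hQ.1 b :=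
    fun a b => Subtype.ext (by simp [Fixes.res])
  have hinv : ∀ a : ↥(centralizer (Q : Set G)), hφ.res hQ.1 a⁻¹ = (hφ.res hQ.1 a)⁻¹ :=
    fun a => Subtype.ext (by simp [Fixes.res])
  have hres : hφ.res hQ.1 o = hφ.res hQ.1 c * p⁻¹ := by
    rw [ho', hmul, hinv, hpfix]
  have hoo : hφ.res hQ.1 o ∈ oddCore ↥(centralizer (Q : Set G)) := by
    rw [h1]
    have : ((hφ.res hQ.1 o : ↥(centralizer (Q : Set G))) : G) = φ (o : G) := rfl
    rw [this, MulEquiv.orderOf_eq]
    exact (h1 o).mp ho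
  have e : c⁻¹ * hφ.res hQ.1 c = p⁻¹ * (o⁻¹ * hφ.res hQ.1 o) * p := by
    rw [hres, ho']
    group
  rw [e]
  have hn : (oddCore ↥(centralizer (Q : Set G))).Normal := inferInstance
  have := hn.conj_mem _ (mul_mem (inv_mem ho) hoo) p⁻¹
  simpa using this

/-- `c φ(c)⁻¹` has odd order. -/
theorem Fixes.odd_mul_inv {φ : MulAut G} (hφ : Fixes S φ) {Q : Subgroup G} (hQ : Cen S Q)
    {c : G} (hc : c ∈ centralizer (Q : Set G)) : Odd (orderOf (c * (φ c)⁻¹)) := by
  obtain ⟨h1, -, -⟩ := hQ.struct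
  have h2 := hφ.inv_mul_res_mem hQ ⟨c, hc⟩
  rw [h1] at h2
  have e : c * (φ c)⁻¹ = c * (c⁻¹ * φ c)⁻¹ * c⁻¹ := by group
  rw [e]
  have h3 : orderOf (c * (c⁻¹ * φ c)⁻¹ * c⁻¹) = orderOf (c⁻¹ * φ c) := by
    have h4 := (MulAut.conj c).orderOf_eq (c⁻¹ * φ c)⁻¹
    rw [MulAut.conj_apply] at h4
    rw [h4, orderOf_inv]
  rw [h3]
  exact h2

/-- `w` acts trivially modulo odd cores on the normalizers of `Cen` subgroups. -/
def Triv (S : Subgroup G) (w : MulAut G) : Prop :=
  ∀ Q, Cen S Q → ∀ y ∈ normalizer (Q : Set G), Odd (orderOf (y⁻¹ * w y))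

section Control

variable {w : MulAut G} (hfix : Fixes S w) (htriv : Triv S w) (hw : ∀ x, w (w x) = x)

include hfix htriv hw

/-- Local step: for a `Cen` subgroup, the action of its normalizer is realized in `C(w)`. -/
theorem centric_step {Q : Subgroup G} (hQ : Cen S Q) {n : G} (hn : n ∈ normalizer (Q : Set G)) :
    ∃ g₁ : G, w g₁ = g₁ ∧ ∀ b ∈ Q, n * b * n⁻¹ = g₁ * b * g₁⁻¹ := by
  set o := n⁻¹ * w n with ho
  have hodd : Odd (orderOf o) := htriv Q hQ n hn
  have hoc : o ∈ centralizer (Q : Set G) := hfix.cocycle_mem hQ.1 hn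
  have hwo : w o = o⁻¹ := by
    rw [ho, map_mul, map_inv, hw]
    group
  obtain ⟨r, hr⟩ := hodd
  set p := o ^ (r + 1) with hp
  have hpp : p * p = o := by
    have h1 : o ^ (2 * r + 1) = 1 := by rw [← hr]; exact pow_orderOf_eq_one o
    calc p * p = o ^ (2 * r + 1) * o := by
          rw [hp, ← pow_add, ← pow_succ]; congr 1; ring
      _ = o := by rw [h1, one_mul]
  have hwp : w p = p⁻¹ := by
    rw [hp, map_pow, hwo, inv_pow]
  have hpc : p ∈ centralizer (Q : Set G) := pow_mem hoc _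
  refine ⟨n * p, ?_, ?_⟩
  · rw [map_mul, hwp]
    have h1 : w n = n * o := by rw [ho]; group
    rw [h1, ← hpp]
    group
  · intro b hb
    have h1 : b * p = p * b := mem_centralizer_iff.mp hpc b hb
    calc n * b * n⁻¹ = n * (p * b * p⁻¹) * n⁻¹ := by
          rw [← h1]; group
      _ = n * p * b * (n * p)⁻¹ := by group

end Control

theorem centralizer_le_normalizer' {B : Subgroup G} {c : G} (hc : c ∈ centralizer (B : Set G)) :
    c ∈ normalizer (B : Set G) := by
  rw [mem_normalizer_iff]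
  intro x
  constructor
  · intro hx
    have h1 := mem_centralizer_iff.mp hc x hx
    have : c * x * c⁻¹ = x := by rw [← h1]; group
    rwa [this]
  · intro hx
    have h1 := mem_centralizer_iff.mp hc _ hx
    have : x = c * x * c⁻¹ := by
      have h2 : c * x * c⁻¹ * c = c * (c * x * c⁻¹) := h1
      have h3 : c * x = c * (c * x * c⁻¹) := by rw [← h2]; group
      exact mul_left_cancel h3
    rw [this]; exact hx

/-- Conjugate of a subgroup. -/
def cj (k : G) (H : Subgroup G) : Subgroup G := H.map (MulAut.conj k).toMonoidHom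

theorem mem_cj {k x : G} {H : Subgroup G} : x ∈ cj k H ↔ k⁻¹ * x * k ∈ H := by
  constructor
  · rintro ⟨h, hh, rfl⟩
    have : k⁻¹ * ((MulAut.conj k).toMonoidHom h) * k = h := by
      simp [MulAut.conj_apply]; group
    rw [this]; exact hh
  · intro hx
    refine ⟨_, hx, ?_⟩
    simp [MulAut.conj_apply]; group

theorem conj_mem_cj {k x : G} {H : Subgroup G} (hx : x ∈ H) : k * x * k⁻¹ ∈ cj k H := by
  rw [mem_cj]
  have : k⁻¹ * (k * x * k⁻¹) * k = x := by group
  rw [this]; exact hx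

theorem card_cj (k : G) (H : Subgroup G) : Nat.card (cj k H) = Nat.card H :=
  Subgroup.card_map_of_injective (MulAut.conj k).injective

theorem isPGroup_cj {k : G} {H : Subgroup G} (hH : IsPGroup 2 H) : IsPGroup 2 (cj k H) :=
  hH.map _

theorem cj_le_of {k : G} {H L : Subgroup G} (h : ∀ x ∈ H, k * x * k⁻¹ ∈ L) : cj k H ≤ L := by
  intro y hy
  have h1 := h _ (mem_cj.mp hy)
  have : k * (k⁻¹ * y * k) * k⁻¹ = y := by group
  rwa [this] at h1

theorem mem_normalizer_cj {k n : G} {H : Subgroup G} :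
    n ∈ normalizer (cj k H : Set G) ↔ k⁻¹ * n * k ∈ normalizer (H : Set G) := by
  rw [mem_normalizer_iff, mem_normalizer_iff]
  constructor
  · intro h x
    have h1 := h (k * x * k⁻¹)
    rw [mem_cj, mem_cj] at h1
    have e1 : k⁻¹ * (k * x * k⁻¹) * k = x := by group
    have e2 : k⁻¹ * (n * (k * x * k⁻¹) * n⁻¹) * k = (k⁻¹ * n * k) * x * (k⁻¹ * n * k)⁻¹ := by group
    rwa [e1, e2] at h1
  · intro h x
    have h1 := h (k⁻¹ * x * k)
    rw [mem_cj, mem_cj]
    have e2 : k⁻¹ * (n * x * n⁻¹) * k = (k⁻¹ * n * k) * (k⁻¹ * x * k) * (k⁻¹ * n * k)⁻¹ := by group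
    rwa [e2]

/-- Conjugacy of `2`-subgroups into a maximal `2`-subgroup of `N`. -/
theorem exists_conj_into {N P U : Subgroup G} (hPN : P ≤ N) (hP2 : IsPGroup 2 P)
    (hPmax : ∀ V : Subgroup G, V ≤ N → IsPGroup 2 V → P ≤ V → V = P)
    (hU : IsPGroup 2 U) (hUN : U ≤ N) : ∃ n ∈ N, ∀ u ∈ U, n * u * n⁻¹ ∈ P := by
  classical
  let P₀ : Sylow 2 ↥N :=
    { toSubgroup := P.subgroupOf N
      isPGroup' := hP2.comap_of_injective N.subtype Subtype.val_injective
      is_maximal' := by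
        intro Q hQ hle
        have h1 : Q.map N.subtype = P := by
          apply hPmax
          · rintro _ ⟨x, -, rfl⟩; exact x.2
          · exact hQ.map _
          · intro x hx
            exact ⟨⟨x, hPN hx⟩, hle ((mem_subgroupOf).mpr hx), rfl⟩
        apply le_antisymm
        · intro x hx
          rw [mem_subgroupOf, ← h1]
          exact ⟨x, hx, rfl⟩
        · exact hle }
  have hU' : IsPGroup 2 (U.subgroupOf N) := hU.comap_of_injective N.subtype Subtype.val_injective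
  obtain ⟨R, hR⟩ := hU'.exists_le_sylow
  obtain ⟨n, hn⟩ := MulAction.exists_smul_eq ↥N R P₀
  refine ⟨n, n.2, fun u hu => ?_⟩
  have h1 : (⟨u, hUN hu⟩ : ↥N) ∈ R := hR ((mem_subgroupOf).mpr hu)
  have h2 : n * ⟨u, hUN hu⟩ * n⁻¹ ∈ (n • R : Sylow 2 ↥N) := by
    rw [Sylow.smul_def]
    change _ ∈ (MulAut.conj n • (R : Subgroup ↥N))
    exact ⟨_, h1, rfl⟩
  rw [hn] at h2
  exact h2

theorem exists_max_two (N : Subgroup G) :
    ∃ P : Subgroup G, P ≤ N ∧ IsPGroup 2 P ∧
      ∀ V : Subgroup G, V ≤ N → IsPGroup 2 V → P ≤ V → V = P := by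
  haveI : Fact (Nat.Prime 2) := ⟨Nat.prime_two⟩
  obtain ⟨P, -, hP⟩ := (Set.toFinite {X : Subgroup G | X ≤ N ∧ IsPGroup 2 X}).exists_le_maximal
    (a := ⊥) ⟨bot_le, IsPGroup.of_bot⟩
  refine ⟨P, hP.prop.1, hP.prop.2, fun V h1 h2 h3 => ?_⟩
  exact le_antisymm (hP.le_of_ge ⟨h1, h2⟩ h3) h3

/-- `B` is "fully normalized" in `S`. -/
def FN (S B : Subgroup G) : Prop :=
  ∀ U : Subgroup G, IsPGroup 2 U → U ≤ normalizer (B : Set G) →
    ∃ n ∈ normalizer (B : Set G), ∀ u ∈ U, n * u * n⁻¹ ∈ S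

section SylowS

variable (hS2 : IsPGroup 2 S) (hSmax : ∀ V : Subgroup G, IsPGroup 2 V → S ≤ V → V = S)

include hS2 hSmax

theorem exists_conj_into_S {U : Subgroup G} (hU : IsPGroup 2 U) :
    ∃ k : G, ∀ u ∈ U, k * u * k⁻¹ ∈ S := by
  obtain ⟨k, -, hk⟩ := exists_conj_into (N := ⊤) (P := S) (U := U) le_top hS2
    (fun V _ h2 h3 => hSmax V h2 h3) hU le_top
  exact ⟨k, hk⟩

/-- Every `B ≤ S` has a fully normalized conjugate in `S`. -/
theorem exists_FN {B : Subgroup G} (hB : B ≤ S) :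
    ∃ k : G, cj k B ≤ S ∧ FN S (cj k B) := by
  haveI : Fact (Nat.Prime 2) := ⟨Nat.prime_two⟩
  obtain ⟨P, hPN, hP2, hPmax⟩ := exists_max_two (normalizer (B : Set G))
  have hB2 : IsPGroup 2 B := hS2.to_le hB
  have hBP : B ≤ P := by
    have h1 : IsPGroup 2 (P ⊔ B : Subgroup G) := hP2.to_sup_of_normal_right' hB2 hPN
    have h2 : P ⊔ B = P := hPmax _ (sup_le hPN le_normalizer) h1 le_sup_left
    rw [← h2]; exact le_sup_right
  obtain ⟨k, hk⟩ := exists_conj_into_S hS2 hSmax hP2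
  refine ⟨k, cj_le_of fun x hx => hk x (hBP hx), ?_⟩
  intro U hU hUN
  have hU1 : IsPGroup 2 (cj k⁻¹ U) := isPGroup_cj hU
  have hU1N : cj k⁻¹ U ≤ normalizer (B : Set G) := by
    intro x hx
    rw [mem_cj, inv_inv] at hx
    have h1 := hUN hx
    rw [mem_normalizer_cj] at h1
    have e : k⁻¹ * (k * x * k⁻¹) * k = x := by group
    rwa [e] at h1
  obtain ⟨n₀, hn₀, hn₀'⟩ := exists_conj_into hPN hP2 hPmax hU1 hU1N
  refine ⟨k * n₀ * k⁻¹, ?_, fun u hu => ?_⟩
  · rw [mem_normalizer_cj]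
    have e : k⁻¹ * (k * n₀ * k⁻¹) * k = n₀ := by group
    rwa [e]
  · have h1 : k⁻¹ * u * k ∈ cj k⁻¹ U := by
      rw [mem_cj, inv_inv]
      have e : k * (k⁻¹ * u * k) * k⁻¹ = u := by group
      rwa [e]
    have h2 := hk _ (hn₀' _ h1)
    have e : k * (n₀ * (k⁻¹ * u * k) * n₀⁻¹) * k⁻¹ = k * n₀ * k⁻¹ * u * (k * n₀ * k⁻¹)⁻¹ := by group
    rwa [e] at h2

end SylowS

section Fusion

variable {w : MulAut G} (hfix : Fixes S w) (htriv : Triv S w) (hw : ∀ x, w (w x) = x)

/-- The induction hypothesis of the control theorem. -/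
def CtrlAbove (S : Subgroup G) (w : MulAut G) (c : ℕ) : Prop :=
  ∀ D : Subgroup G, D ≤ S → c < Nat.card D → ∀ g : G, (∀ b ∈ D, g * b * g⁻¹ ∈ S) →
    ∃ g₁ : G, w g₁ = g₁ ∧ ∀ b ∈ D, g * b * g⁻¹ = g₁ * b * g₁⁻¹

include hfix htriv hw

/-- Automizers of fully normalized subgroups are realized in `C(w)`. -/
theorem normalizer_step (hS2 : IsPGroup 2 S) {B : Subgroup G} (hBS : B ≤ S) (hFN : FN S B)
    (hIH : CtrlAbove S w (Nat.card B)) {n : G} (hn : n ∈ normalizer (B : Set G)) :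
    ∃ g₁ : G, w g₁ = g₁ ∧ ∀ b ∈ B, n * b * n⁻¹ = g₁ * b * g₁⁻¹ := by
  haveI : Fact (Nat.Prime 2) := ⟨Nat.prime_two⟩
  set C := centralizer (B : Set G) with hC
  have hCN : C ≤ normalizer (B : Set G) := by
    intro c hc
    rw [mem_normalizer_iff]
    intro x
    constructor
    · intro hx
      have h1 := mem_centralizer_iff.mp hc x hx
      have : c * x * c⁻¹ = x := by rw [← h1]; group
      rwa [this]
    · intro hx
      have h1 := mem_centralizer_iff.mp hc _ hx
      have : x = c * x * c⁻¹ := by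
        have h2 : c * x * c⁻¹ * c = c * (c * x * c⁻¹) := h1
        have h3 : c * x = c * (c * x * c⁻¹) := by rw [← h2]; group
        exact mul_left_cancel h3
      rw [this]; exact hx
  have hCnorm : ∀ m ∈ normalizer (B : Set G), ∀ c ∈ C, m * c * m⁻¹ ∈ C := by
    intro m hm c hc
    rw [hC, mem_centralizer_iff]
    intro b hb
    have h1 : m⁻¹ * b * m ∈ B := by
      have h2 := (mem_normalizer_iff.mp (inv_mem hm) b).mp hb
      simpa using h2
    have h2 := mem_centralizer_iff.mp hc _ h1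
    have h3 : b * (m * c * m⁻¹) = m * ((m⁻¹ * b * m) * c) * m⁻¹ := by group
    have h4 : (m * c * m⁻¹) * b = m * (c * (m⁻¹ * b * m)) * m⁻¹ := by group
    rw [h3, h4, h2]
  set CS := S ⊓ C with hCS
  have hCS2 : IsPGroup 2 CS := hS2.to_le inf_le_left
  have hCSmax : ∀ V : Subgroup G, V ≤ C → IsPGroup 2 V → CS ≤ V → V = CS := by
    intro V hVC hV2 hle
    obtain ⟨n₀, hn₀, hn₀'⟩ := hFN V hV2 (hVC.trans hCN)
    have h1 : cj n₀ V ≤ CS := cj_le_of fun x hx => ⟨hn₀' x hx, hCnorm n₀ hn₀ x (hVC hx)⟩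
    have h2 := Subgroup.card_le_of_le h1
    rw [card_cj] at h2
    exact (Subgroup.eq_of_le_of_card_ge hle h2).symm
  -- move the centralizer part back into `S`
  have hV : cj n CS ≤ C := cj_le_of fun x hx => hCnorm n hn x hx.2
  obtain ⟨c, hcC, hc⟩ := exists_conj_into (N := C) (P := CS) inf_le_right hCS2 hCSmax
    (isPGroup_cj hCS2) hV
  set n' := c * n with hn'
  have hn'b : ∀ b ∈ B, n' * b * n'⁻¹ = n * b * n⁻¹ := by
    intro b hb
    have h1 : n * b * n⁻¹ ∈ B := (mem_normalizer_iff.mp hn b).mp hb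
    have h2 := mem_centralizer_iff.mp hcC _ h1
    calc n' * b * n'⁻¹ = c * (n * b * n⁻¹) * c⁻¹ := by rw [hn']; group
      _ = (n * b * n⁻¹) * c * c⁻¹ := by rw [← h2]
      _ = n * b * n⁻¹ := by group
  have hn'CS : ∀ x ∈ CS, n' * x * n'⁻¹ ∈ CS := by
    intro x hx
    have h1 := hc _ (conj_mem_cj (k := n) hx)
    have e : c * (n * x * n⁻¹) * c⁻¹ = n' * x * n'⁻¹ := by rw [hn']; group
    rwa [e] at h1
  set D := B ⊔ CS with hD
  have hDS : D ≤ S := sup_le hBS inf_le_left
  have hDconj : ∀ x ∈ D, n' * x * n'⁻¹ ∈ S := by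
    have h1 : D ≤ S.comap (MulAut.conj n').toMonoidHom := by
      apply sup_le
      · intro b hb
        change (MulAut.conj n') b ∈ S
        rw [MulAut.conj_apply, hn'b b hb]
        exact hBS ((mem_normalizer_iff.mp hn b).mp hb)
      · intro x hx
        change (MulAut.conj n') x ∈ S
        rw [MulAut.conj_apply]
        exact (hn'CS x hx).1
    intro x hx
    have := h1 hx
    simpa [MulAut.conj_apply] using this
  by_cases hcard : Nat.card B < Nat.card D
  · obtain ⟨g₁, hg₁, hg₁'⟩ := hIH D hDS hcard n' hDconj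
    refine ⟨g₁, hg₁, fun b hb => ?_⟩
    rw [← hn'b b hb]
    exact hg₁' b (le_sup_left (a := B) (b := CS) hb)
  · have hDB : B = D := Subgroup.eq_of_le_of_card_ge le_sup_left (not_lt.mp hcard)
    have hCSB : CS ≤ B := by rw [hDB]; exact le_sup_right
    have hQ : Cen S B := by
      refine ⟨hBS, fun x hx h2 => ?_⟩
      have hz : IsPGroup 2 (zpowers x) := isTwo_iff_isPGroup.mp h2
      have hzC : zpowers x ≤ C := (zpowers_le).mpr hx
      obtain ⟨n₀, hn₀, hn₀'⟩ := hFN _ hz (hzC.trans hCN)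
      have h3 : n₀ * x * n₀⁻¹ ∈ CS := ⟨hn₀' x (mem_zpowers x), hCnorm n₀ hn₀ x hx⟩
      have h4 := hCSB h3
      exact (mem_normalizer_iff.mp hn₀ x).mpr h4
    exact centric_step hfix htriv hw hQ hn

/-- Normalizer growth in a `2`-group. -/
theorem exists_growth (hS2 : IsPGroup 2 S) {B : Subgroup G} (hBS : B ≤ S) (hne : B ≠ S) :
    Nat.card B < Nat.card (normalizer (B : Set G) ⊓ S : Subgroup G) := by
  have hnil : Group.IsNilpotent ↥S := hS2.isNilpotent
  have hlt : B.subgroupOf S < ⊤ := by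
    rw [lt_top_iff_ne_top]
    intro h
    apply hne
    apply le_antisymm hBS
    intro x hx
    have : (⟨x, hx⟩ : ↥S) ∈ B.subgroupOf S := by rw [h]; trivial
    exact mem_subgroupOf.mp this
  have h1 := Group.normalizerCondition_of_isNilpotent _ hlt
  obtain ⟨x, hx, hxB⟩ := SetLike.exists_of_lt h1
  have hxN : (x : G) ∈ normalizer (B : Set G) := by
    rw [mem_normalizer_iff]
    intro y
    constructor
    · intro hy
      have h2 := (mem_normalizer_iff.mp hx ⟨y, hBS hy⟩).mp ((mem_subgroupOf).mpr hy)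
      exact mem_subgroupOf.mp h2
    · intro hy
      have hyS : y ∈ S := by
        have h3 := mul_mem (mul_mem (inv_mem x.2) (hBS hy)) x.2
        simpa [mul_assoc] using h3
      have h2 := (mem_normalizer_iff.mp hx ⟨y, hyS⟩).mpr ((mem_subgroupOf).mpr hy)
      exact mem_subgroupOf.mp h2
  have hle : B ≤ normalizer (B : Set G) ⊓ S := le_inf le_normalizer hBS
  by_contra hcon
  have h3 := Subgroup.eq_of_le_of_card_ge hle (not_lt.mp hcon)
  apply hxB
  rw [mem_subgroupOf, h3]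
  exact ⟨hxN, x.2⟩

/-- Conjugation onto a fully normalized subgroup is realized in `C(w)`. -/
theorem reach_step (hS2 : IsPGroup 2 S) {B : Subgroup G} (hBS : B ≤ S) (hFN : FN S B)
    (hIH : CtrlAbove S w (Nat.card B)) {B' : Subgroup G} (hB'S : B' ≤ S) {k : G}
    (hk : cj k B' = B) :
    ∃ g₁ : G, w g₁ = g₁ ∧ ∀ b ∈ B', k * b * k⁻¹ = g₁ * b * g₁⁻¹ := by
  haveI : Fact (Nat.Prime 2) := ⟨Nat.prime_two⟩
  have hcardB : Nat.card B' = Nat.card B := by rw [← hk, card_cj]
  by_cases hne : B' = S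
  · subst hne
    have hBeq : B = B' := by
      apply Subgroup.eq_of_le_of_card_ge hBS
      exact hcardB.le
    subst hBeq
    have hkN : k ∈ normalizer ((B : Subgroup G) : Set G) := by
      rw [mem_normalizer_iff]
      intro x
      constructor
      · intro hx
        have h1 : k * x * k⁻¹ ∈ cj k B := conj_mem_cj hx
        rwa [hk] at h1
      · intro hx
        have h1 : k * x * k⁻¹ ∈ cj k B := by rwa [hk]
        have h2 := mem_cj.mp h1
        have e : k⁻¹ * (k * x * k⁻¹) * k = x := by group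
        rwa [e] at h2
    exact normalizer_step hfix htriv hw hS2 hBS hFN hIH hkN
  · have hgrow := exists_growth hfix htriv hw hS2 hB'S hne
    set M := normalizer (B' : Set G) ⊓ S with hM
    have hM2 : IsPGroup 2 M := hS2.to_le inf_le_right
    have hUN : cj k M ≤ normalizer (B : Set G) := by
      intro x hx
      rw [← hk, mem_normalizer_cj]
      exact (mem_cj.mp hx).1
    obtain ⟨n, hn, hn'⟩ := hFN _ (isPGroup_cj hM2) hUN
    have hconjM : ∀ x ∈ M, (n * k) * x * (n * k)⁻¹ ∈ S := by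
      intro x hx
      have h1 := hn' _ (conj_mem_cj (k := k) hx)
      have e : n * (k * x * k⁻¹) * n⁻¹ = (n * k) * x * (n * k)⁻¹ := by group
      rwa [e] at h1
    obtain ⟨g', hg', hg'x⟩ := hIH M inf_le_right (by rw [← hcardB]; exact hgrow) (n * k) hconjM
    obtain ⟨g'', hg'', hg''x⟩ := normalizer_step hfix htriv hw hS2 hBS hFN hIH (inv_mem hn)
    refine ⟨g'' * g', by rw [map_mul, hg', hg''], fun b hb => ?_⟩
    have hbM : b ∈ M := ⟨le_normalizer hb, hB'S hb⟩
    have hy : k * b * k⁻¹ ∈ B := by rw [← hk]; exact conj_mem_cj hb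
    have hny : n * (k * b * k⁻¹) * n⁻¹ ∈ B := (mem_normalizer_iff.mp hn _).mp hy
    have h1 := hg'x b hbM
    have h2 := hg''x _ hny
    calc k * b * k⁻¹ = n⁻¹ * (n * (k * b * k⁻¹) * n⁻¹) * (n⁻¹)⁻¹ := by group
      _ = g'' * (n * (k * b * k⁻¹) * n⁻¹) * g''⁻¹ := h2
      _ = g'' * ((n * k) * b * (n * k)⁻¹) * g''⁻¹ := by congr 2; group
      _ = g'' * (g' * b * g'⁻¹) * g''⁻¹ := by rw [h1]
      _ = g'' * g' * b * (g'' * g')⁻¹ := by group

/-- **Control of fusion**: `C(w)` realizes every conjugation between subgroups of `S`. -/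
theorem control (hS2 : IsPGroup 2 S) (hSmax : ∀ V : Subgroup G, IsPGroup 2 V → S ≤ V → V = S) :
    ∀ (B : Subgroup G), B ≤ S → ∀ g : G, (∀ b ∈ B, g * b * g⁻¹ ∈ S) →
      ∃ g₁ : G, w g₁ = g₁ ∧ ∀ b ∈ B, g * b * g⁻¹ = g₁ * b * g₁⁻¹ := by
  intro B
  induction' hd : Nat.card S - Nat.card B using Nat.strong_induction_on with d ih generalizing B
  intro hBS g hg
  have hIH : CtrlAbove S w (Nat.card B) := by
    intro D hDS hlt g' hg'
    have h1 : Nat.card D ≤ Nat.card S := Subgroup.card_le_of_le hDS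
    exact ih (Nat.card S - Nat.card D) (by omega) D rfl hDS g' hg'
  obtain ⟨k, hkS, hFN⟩ := exists_FN hS2 hSmax hBS
  have hcard : Nat.card (cj k B) = Nat.card B := card_cj k B
  have hIH' : CtrlAbove S w (Nat.card (cj k B)) := by rw [hcard]; exact hIH
  obtain ⟨g₁, hg₁, hg₁b⟩ := reach_step hfix htriv hw hS2 hkS hFN hIH' hBS rfl
  have hB₂ : cj g B ≤ S := cj_le_of hg
  have hk₂ : cj (k * g⁻¹) (cj g B) = cj k B := by
    ext x
    rw [mem_cj, mem_cj, mem_cj]
    have e : g⁻¹ * ((k * g⁻¹)⁻¹ * x * (k * g⁻¹)) * g = k⁻¹ * x * k := by group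
    rw [e]
  obtain ⟨g₂, hg₂, hg₂b⟩ := reach_step hfix htriv hw hS2 hkS hFN hIH' hB₂ hk₂
  refine ⟨g₂⁻¹ * g₁, by rw [map_mul, map_inv, hg₁, hg₂], fun b hb => ?_⟩
  have h1 := hg₂b _ (conj_mem_cj (k := g) hb)
  have h2 := hg₁b b hb
  have e : k * g⁻¹ * (g * b * g⁻¹) * (k * g⁻¹)⁻¹ = k * b * k⁻¹ := by group
  rw [e, h2] at h1
  calc g * b * g⁻¹ = g₂⁻¹ * (g₂ * (g * b * g⁻¹) * g₂⁻¹) * g₂ := by group
    _ = g₂⁻¹ * (g₁ * b * g₁⁻¹) * g₂ := by rw [← h1]
    _ = g₂⁻¹ * g₁ * b * (g₂⁻¹ * g₁)⁻¹ := by group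

/-- The key lemma: `w` cannot move anything "into `S`". -/
theorem isolated (hS2 : IsPGroup 2 S) (hSmax : ∀ V : Subgroup G, IsPGroup 2 V → S ≤ V → V = S)
    (h : G) (hh : h * (w h)⁻¹ ∈ S) : w h = h := by
  haveI : Fact (Nat.Prime 2) := ⟨Nat.prime_two⟩
  by_contra hne
  -- normal form: the subgroup of fixed points
  let G₁ : Subgroup G :=
    { carrier := {g | w g = g}
      one_mem' := map_one w
      mul_mem' := fun {a b} ha hb => by
        simp only [Set.mem_setOf_eq] at *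
        rw [map_mul, ha, hb]
      inv_mem' := fun {a} ha => by
        simp only [Set.mem_setOf_eq] at *
        rw [map_inv, ha] }
  have hG₁ : ∀ g, g ∈ G₁ ↔ w g = g := fun _ => Iff.rfl
  have hSG₁ : S ≤ G₁ := fun s hs => hfix s hs
  have hctrl := control hfix htriv hw hS2 hSmax
  -- the element `s`
  obtain ⟨s, hsdef⟩ : ∃ s, s = h * (w h)⁻¹ := ⟨_, rfl⟩
  have hsS : s ∈ S := hsdef ▸ hh
  have hs1 : s ≠ 1 := by
    intro h1
    rw [hsdef, mul_inv_eq_one] at h1
    exact hne h1.symm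
  have hss : s * s = 1 := by
    have h1 : w s = s := hfix s hsS
    have h2 : w s = s⁻¹ := by
      rw [hsdef, map_mul, map_inv, hw]
      group
    rw [h1] at h2
    nth_rewrite 1 [h2]
    exact inv_mul_cancel s
  have hsinv : s⁻¹ = s := inv_eq_of_mul_eq_one_left hss
  -- fully centralized conjugate of `s`
  have hzs : zpowers s ≤ S := (zpowers_le).mpr hsS
  obtain ⟨k, hkS, hFN⟩ := exists_FN hS2 hSmax hzs
  obtain ⟨g₁, hg₁, hg₁s⟩ := hctrl (zpowers s) hzs k
    (fun b hb => hkS (conj_mem_cj (k := k) hb))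
  set t := k * s * k⁻¹ with ht
  have htg : t = g₁ * s * g₁⁻¹ := hg₁s s (mem_zpowers s)
  have htS : t ∈ S := hkS (conj_mem_cj (k := k) (mem_zpowers s))
  have ht1 : t ≠ 1 := by
    intro h1
    rw [ht] at h1
    apply hs1
    have : s = k⁻¹ * (k * s * k⁻¹) * k := by group
    rw [this, h1]; group
  have htt : t * t = 1 := by
    rw [ht]
    calc k * s * k⁻¹ * (k * s * k⁻¹) = k * (s * s) * k⁻¹ := by group
      _ = 1 := by rw [hss]; group
  -- `h' = g₁ h`
  set h' := g₁ * h with hh'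
  have hh't : h' * (w h')⁻¹ = t := by
    rw [hh', map_mul, hg₁, htg, hsdef]
    group
  -- the normalizer of `⟨t⟩` is the centralizer of `t`
  have hzt : zpowers t = cj k (zpowers s) := by
    ext x
    rw [mem_cj, mem_zpowers_iff, mem_zpowers_iff]
    constructor
    · rintro ⟨j, rfl⟩
      refine ⟨j, ?_⟩
      rw [ht, conj_zpow]
      group
    · rintro ⟨j, hj⟩
      refine ⟨j, ?_⟩
      rw [ht, conj_zpow, hj]
      group
  have hFC : ∀ U : Subgroup G, IsPGroup 2 U → U ≤ centralizer ({t} : Set G) →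
      ∃ c ∈ centralizer ({t} : Set G), ∀ u ∈ U, c * u * c⁻¹ ∈ S := by
    intro U hU hUC
    have hUN : U ≤ normalizer (cj k (zpowers s) : Set G) := by
      rw [← hzt]
      intro u hu
      rw [mem_normalizer_iff]
      have hut : u * t * u⁻¹ = t := by
        have h1 := mem_centralizer_iff.mp (hUC hu) t rfl
        rw [← h1]; group
      intro x
      rw [mem_zpowers_iff, mem_zpowers_iff]
      constructor
      · rintro ⟨j, rfl⟩
        exact ⟨j, by rw [← conj_zpow, hut]⟩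
      · rintro ⟨j, hj⟩
        refine ⟨j, ?_⟩
        have h2 : (u * t ^ j * u⁻¹) = u * x * u⁻¹ := by
          rw [← conj_zpow, hut]; exact hj
        exact mul_left_cancel (a := u) (mul_right_cancel (b := u⁻¹) h2)
    obtain ⟨c, hc, hc'⟩ := hFN U hU hUN
    refine ⟨c, ?_, hc'⟩
    rw [← hzt] at hc
    rw [mem_centralizer_singleton_iff]
    have h1 : c * t * c⁻¹ ∈ zpowers t := (mem_normalizer_iff.mp hc t).mp (mem_zpowers t)
    -- the only involution in `⟨t⟩` is `t`
    obtain ⟨j, hj⟩ := mem_zpowers_iff.mp h1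
    have htord : orderOf t = 2 := orderOf_eq_prime (by rw [pow_two]; exact htt) ht1
    have h2 : (c * t * c⁻¹) ≠ 1 := by
      intro h3
      apply ht1
      have : t = c⁻¹ * (c * t * c⁻¹) * c := by group
      rw [this, h3]; group
    have h3 : c * t * c⁻¹ = t := by
      rcases Int.even_or_odd j with ⟨i, rfl⟩ | ⟨i, rfl⟩
      · exfalso
        apply h2
        rw [← hj, ← two_mul, zpow_mul, zpow_two]
        rw [htt, one_zpow]
      · rw [← hj, zpow_add, zpow_mul, zpow_two, htt, one_zpow, one_mul, zpow_one]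
    have h4 : c * t = t * c := by
      nth_rewrite 2 [← h3]
      group
    exact h4
  -- `B = C_S(t)`
  set B : Subgroup G := S ⊓ centralizer ({t} : Set G) with hB
  have htB : t ∈ B := ⟨htS, mem_centralizer_singleton_iff.mpr rfl⟩
  have hB2 : IsPGroup 2 B := hS2.to_le inf_le_left
  -- `B` is `Cen`
  have hBCen : Cen S B := by
    refine ⟨inf_le_left, fun x hx h2x => ?_⟩
    have hxt : x ∈ centralizer ({t} : Set G) := by
      rw [mem_centralizer_singleton_iff]
      exact (mem_centralizer_iff.mp hx t htB).symm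
    have hz2 : IsPGroup 2 (zpowers x) := isTwo_iff_isPGroup.mp h2x
    have hzB : zpowers x ≤ normalizer (B : Set G) :=
      (zpowers_le).mpr (centralizer_le_normalizer' hx)
    have hU2 : IsPGroup 2 (zpowers x ⊔ B : Subgroup G) := hz2.to_sup_of_normal_right' hB2 hzB
    have hUC : (zpowers x ⊔ B : Subgroup G) ≤ centralizer ({t} : Set G) :=
      sup_le ((zpowers_le).mpr hxt) inf_le_right
    obtain ⟨c, hc, hc'⟩ := hFC _ hU2 hUC
    have hcB : cj c B ≤ B := cj_le_of fun b hb => by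
      refine ⟨hc' b (le_sup_right (a := zpowers x) hb), ?_⟩
      exact Subgroup.mul_mem _ (Subgroup.mul_mem _ hc hb.2) (Subgroup.inv_mem _ hc)
    have hcBeq : cj c B = B := Subgroup.eq_of_le_of_card_ge hcB (by rw [card_cj])
    have h3 : c * x * c⁻¹ ∈ B := by
      refine ⟨hc' x (le_sup_left (b := B) (mem_zpowers x)), ?_⟩
      exact Subgroup.mul_mem _ (Subgroup.mul_mem _ hc hxt) (Subgroup.inv_mem _ hc)
    rw [← hcBeq] at h3
    have h4 := mem_cj.mp h3
    have e : c⁻¹ * (c * x * c⁻¹) * c = x := by group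
    rwa [e] at h4
  -- the twisted fixed points
  have htinv : t⁻¹ = t := inv_eq_of_mul_eq_one_left htt
  have hwh' : w h' = t * h' := by
    have h1 : h' * (w h')⁻¹ = t := hh't
    have h2 : (w h') = t⁻¹ * h' := by rw [← h1]; group
    rw [h2, htinv]
  have hBG₁ : cj h'⁻¹ B ≤ G₁ := cj_le_of fun b hb => by
    rw [hG₁, inv_inv]
    have hbt : b * t = t * b := (mem_centralizer_singleton_iff.mp hb.2)
    have hwb : w b = b := hfix b hb.1
    rw [map_mul, map_mul, map_inv, hwb, hwh']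
    calc (t * h')⁻¹ * b * (t * h') = h'⁻¹ * (t⁻¹ * (b * t)) * h' := by group
      _ = h'⁻¹ * (t⁻¹ * (t * b)) * h' := by rw [hbt]
      _ = h'⁻¹ * b * h' := by group
  obtain ⟨g₂, hg₂, hg₂'⟩ := exists_conj_into (N := G₁) (P := S) hSG₁ hS2
    (fun V _ h2 h3 => hSmax V h2 h3) (isPGroup_cj hB2) hBG₁
  have hg₂w : w g₂ = g₂ := hg₂
  set h'' := h' * g₂⁻¹ with hh''
  have hh''t : h'' * (w h'')⁻¹ = t := by
    rw [hh'', map_mul, map_inv, hg₂w, ← hh't]
    group
  have hconj : ∀ b ∈ B, h''⁻¹ * b * (h''⁻¹)⁻¹ ∈ S := by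
    intro b hb
    have h1 := hg₂' _ (conj_mem_cj (k := h'⁻¹) hb)
    have e : g₂ * (h'⁻¹ * b * h'⁻¹⁻¹) * g₂⁻¹ = h''⁻¹ * b * (h''⁻¹)⁻¹ := by
      rw [hh'']; group
    rwa [e] at h1
  obtain ⟨g₃, hg₃, hg₃b⟩ := hctrl B inf_le_left h''⁻¹ hconj
  set e := h'' * g₃ with he
  have heC : e ∈ centralizer (B : Set G) := by
    rw [mem_centralizer_iff]
    intro b hb
    have h1 := hg₃b b hb
    have h2 : b = h'' * (g₃ * b * g₃⁻¹) * h''⁻¹ := by
      rw [← h1]; group
    calc b * e = h'' * (g₃ * b * g₃⁻¹) * h''⁻¹ * e := by rw [← h2]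
      _ = e * b := by rw [he]; group
  have het : e * (w e)⁻¹ = t := by
    rw [he, map_mul, hg₃, ← hh''t]
    group
  have hodd := hfix.odd_mul_inv hBCen heC
  rw [het, orderOf_eq_prime (by rw [pow_two]; exact htt) ht1] at hodd
  exact absurd hodd (by decide)

end Fusion

/-- The `Z*`-step: an involutory automorphism fixing `S` pointwise, trivial on the normalizers of
`Cen` subgroups modulo odd cores, is trivial when `O(G) = 1`. -/
theorem eq_one_of_triv (hO : ∀ N : Subgroup G, N.Normal → Odd (Nat.card N) → N = ⊥) (T : Sylow 2 G)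
    {w : MulAut G} (hfix : Fixes (T : Subgroup G) w) (htriv : Triv (T : Subgroup G) w)
    (hw2 : w * w = 1) : w = 1 := by
  classical
  by_contra hne
  have hw : ∀ x, w (w x) = x := fun x => by
    have := congrArg (fun f : MulAut G => f x) hw2
    simpa [MulAut.mul_apply] using this
  have hS2 := T.isPGroup'
  have hSmax : ∀ V : Subgroup G, IsPGroup 2 V → (T : Subgroup G) ≤ V → V = T :=
    fun V h1 h2 => T.is_maximal' h1 h2
  have hiso := isolated hfix htriv hw hS2 hSmax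
  let φ : ↥(zpowers w) →* MulAut G := (zpowers w).subtype
  let H := SemidirectProduct G (↥(zpowers w)) φ
  haveI : Finite H := Finite.of_equiv _ SemidirectProduct.equivProd.symm
  let ι : G →* H := SemidirectProduct.inl
  have hι : Function.Injective ι := SemidirectProduct.inl_injective
  let u : H := SemidirectProduct.inr ⟨w, mem_zpowers w⟩
  have hconj : ∀ g : G, u * ι g * u⁻¹ = ι (w g) := fun g => by
    have := SemidirectProduct.inl_aut (φ := φ) (⟨w, mem_zpowers w⟩ : ↥(zpowers w)) g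
    have e : u⁻¹ = SemidirectProduct.inr (⟨w, mem_zpowers w⟩ : ↥(zpowers w))⁻¹ := by
      simp [u, map_inv]
    rw [e]
    exact this.symm
  have hu2 : u * u = 1 := by
    have : (⟨w, mem_zpowers w⟩ : ↥(zpowers w)) * ⟨w, mem_zpowers w⟩ = 1 := Subtype.ext hw2
    simp only [u, ← map_mul, this, map_one]
  have hu1 : u ≠ 1 := by
    intro h
    apply hne
    have h1 := congrArg SemidirectProduct.right h
    have h2 : (⟨w, mem_zpowers w⟩ : ↥(zpowers w)) = 1 := by simpa [u] using h1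
    exact congrArg Subtype.val h2
  have huord : orderOf u = 2 := orderOf_eq_prime (by rw [pow_two]; exact hu2) hu1
  have huinv : u⁻¹ = u := inv_eq_of_mul_eq_one_left hu2
  -- a Sylow subgroup containing `S` and `u`
  let S₀ : Subgroup H := (T : Subgroup G).map ι
  have hS₀2 : IsPGroup 2 S₀ := hS2.map ι
  have hz2 : IsPGroup 2 (zpowers u) := by
    rw [IsPGroup.iff_card]
    exact ⟨1, by rw [Nat.card_zpowers, huord, pow_one]⟩
  have hzN : zpowers u ≤ normalizer (S₀ : Set H) := by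
    rw [zpowers_le, mem_normalizer_iff]
    have key : ∀ g : G, g ∈ (T : Subgroup G) → u * ι g * u⁻¹ = ι g := fun g hg => by
      rw [hconj, hfix g hg]
    intro x
    constructor
    · rintro ⟨g, hg, rfl⟩
      exact ⟨g, hg, (key g hg).symm⟩
    · rintro ⟨g, hg, hx⟩
      have hx' : u * x * u⁻¹ = ι g := hx.symm
      have h3 : x = u * ι g * u⁻¹ := by
        rw [← hx', huinv]
        calc x = (u * u) * x * (u * u) := by rw [hu2]; group
          _ = _ := by group
      rw [h3, key g hg]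
      exact ⟨g, hg, rfl⟩
  have hsup : IsPGroup 2 (zpowers u ⊔ S₀ : Subgroup H) := hz2.to_sup_of_normal_right' hS₀2 hzN
  obtain ⟨P, hP⟩ := hsup.exists_le_sylow
  have huP : u ∈ (P : Subgroup H) := hP (le_sup_left (a := zpowers u) (mem_zpowers u))
  have hSP : S₀ ≤ P := le_sup_right.trans hP
  have hPG : ∀ g : G, ι g ∈ (P : Subgroup H) → g ∈ (T : Subgroup G) := by
    intro g hg
    have h1 : IsPGroup 2 ((P : Subgroup H).comap ι) := P.isPGroup'.comap_of_injective ι hι
    have h2 : (T : Subgroup G) ≤ (P : Subgroup H).comap ι := fun x hx => hSP ⟨x, hx, rfl⟩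
    have h3 := T.is_maximal' h1 h2
    have h4 : g ∈ (P : Subgroup H).comap ι := hg
    rwa [h3] at h4
  -- isolation of `u`
  have hisoU : ∀ g : H, g * u * g⁻¹ ∈ (P : Subgroup H) → g * u * g⁻¹ = u := by
    intro g hg
    have hdec : g = ι g.left * SemidirectProduct.inr g.right := (SemidirectProduct.inl_left_mul_inr_right g).symm
    have hcomm : (SemidirectProduct.inr g.right : H) * u = u * SemidirectProduct.inr g.right := by
      have hrc : g.right * (⟨w, mem_zpowers w⟩ : ↥(zpowers w)) = ⟨w, mem_zpowers w⟩ * g.right := by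
        apply Subtype.ext
        obtain ⟨k, hk⟩ := mem_zpowers_iff.mp g.right.2
        change (g.right : MulAut G) * w = w * g.right
        rw [← hk]
        exact (Commute.refl w).zpow_left k
      simp only [u, ← map_mul, hrc]
    set h := g.left with hh
    have e1 : g * u * g⁻¹ = ι h * u * (ι h)⁻¹ := by
      rw [hdec, mul_inv_rev]
      calc ι h * SemidirectProduct.inr g.right * u * ((SemidirectProduct.inr g.right)⁻¹ * (ι h)⁻¹)
          = ι h * (SemidirectProduct.inr g.right * u) * (SemidirectProduct.inr g.right)⁻¹ * (ι h)⁻¹ := by group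
        _ = ι h * (u * SemidirectProduct.inr g.right) * (SemidirectProduct.inr g.right)⁻¹ * (ι h)⁻¹ := by rw [hcomm]
        _ = _ := by group
    have e2 : ι h * u * (ι h)⁻¹ = ι (h * (w h)⁻¹) * u := by
      have h3 : u * (ι h)⁻¹ * u⁻¹ = ι (w h)⁻¹ := by
        rw [← map_inv, hconj, map_inv]
      rw [map_mul, ← h3]
      simp [mul_assoc]
    rw [e1, e2] at hg ⊢
    have h4 : ι (h * (w h)⁻¹) ∈ (P : Subgroup H) := by
      have := mul_mem hg (inv_mem huP)
      simpa using this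
    have h5 := hiso h (hPG _ h4)
    rw [h5, mul_inv_cancel, map_one, one_mul]
  obtain ⟨N, hNn, hNodd, hNc⟩ := Cfsg.Agent.S0215.result P u huord huP hisoU
  -- the odd normal subgroup dies in `G`
  have hM : N.comap ι = ⊥ := by
    apply hO _ (hNn.comap ι)
    have h1 : Nat.card (N.comap ι) ∣ Nat.card N :=
      Subgroup.card_dvd_of_injective (ι.subgroupComap N) (fun a b hab => Subtype.ext (hι (congrArg Subtype.val hab)))
    exact Odd.of_dvd_nat hNodd h1
  apply hne
  ext x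
  have h1 : u * ι x * u⁻¹ * (ι x)⁻¹ ∈ N := hNc (ι x)
  rw [hconj, ← map_inv, ← map_mul] at h1
  have h2 : w x * x⁻¹ ∈ N.comap ι := h1
  rw [hM, mem_bot] at h2
  simpa [mul_inv_eq_one] using h2

section Assembly

/-- The cocycle of `a` at `y`. -/
def coc {S : Subgroup G} {a : MulAut G} (ha : Fixes S a) {Q : Subgroup G} (hQ : Cen S Q) (y : G)
    (hy : y ∈ normalizer (Q : Set G)) : ↥(centralizer (Q : Set G)) :=
  ⟨y⁻¹ * a y, ha.cocycle_mem hQ.1 hy⟩

theorem coc_mul {S : Subgroup G} {a b : MulAut G} (ha : Fixes S a) (hb : Fixes S b)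
    (hab : Fixes S (a * b)) {Q : Subgroup G} (hQ : Cen S Q) (y : G)
    (hy : y ∈ normalizer (Q : Set G)) :
    (QuotientGroup.mk (coc hab hQ y hy) : ↥(centralizer (Q : Set G)) ⧸ oddCore ↥(centralizer (Q : Set G))) =
      QuotientGroup.mk (coc ha hQ y hy) * QuotientGroup.mk (coc hb hQ y hy) := by
  rw [← QuotientGroup.mk_mul, QuotientGroup.eq]
  have h1 := ha.inv_mul_res_mem hQ (coc hb hQ y hy)
  have hn : (oddCore ↥(centralizer (Q : Set G))).Normal := inferInstance
  have e : (coc hab hQ y hy)⁻¹ * (coc ha hQ y hy * coc hb hQ y hy) =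
      (ha.res hQ.1 (coc hb hQ y hy)⁻¹ * coc hb hQ y hy) := by
    apply Subtype.ext
    simp only [coc, Fixes.res, Subgroup.coe_mul, Subgroup.coe_inv, MulAut.mul_apply, map_mul, map_inv]
    group
  rw [e]
  have h2 : ha.res hQ.1 (coc hb hQ y hy)⁻¹ * coc hb hQ y hy =
      ((coc hb hQ y hy)⁻¹ * ha.res hQ.1 (coc hb hQ y hy))⁻¹ := by
    apply Subtype.ext
    simp only [Fixes.res, Subgroup.coe_mul, Subgroup.coe_inv, map_inv]
    group
  rw [h2]
  exact inv_mem h1

variable (hO : ∀ N : Subgroup G, N.Normal → Odd (Nat.card N) → N = ⊥) (T : Sylow 2 G)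
  (C : Subgroup (MulAut G)) (hC : ∀ φ : MulAut G, φ ∈ C ↔ ∀ s : G, s ∈ T → φ s = s)

/-- The index set of the cocycle homomorphism. -/
abbrev Idx (S : Subgroup G) := Σ Q : {Q : Subgroup G // Cen S Q}, ↥(normalizer ((Q : Subgroup G) : Set G))

/-- The target of the cocycle homomorphism. -/
abbrev Tgt (S : Subgroup G) :=
  (i : Idx S) → (↥(centralizer ((i.1 : Subgroup G) : Set G)) ⧸ oddCore ↥(centralizer ((i.1 : Subgroup G) : Set G)))

include hC

theorem fixes_of_mem {φ : MulAut G} (hφ : φ ∈ C) : Fixes (T : Subgroup G) φ :=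
  fun s hs => (hC φ).mp hφ s hs

/-- The cocycle homomorphism. -/
noncomputable def cocycleHom : ↥C →* Tgt (T : Subgroup G) :=
  MonoidHom.mk' (fun (φ : ↥C) (i : Idx (T : Subgroup G)) =>
      (QuotientGroup.mk (coc (fixes_of_mem T C hC φ.2) i.1.2 i.2 i.2.2) :
        ↥(centralizer ((i.1 : Subgroup G) : Set G)) ⧸ oddCore ↥(centralizer ((i.1 : Subgroup G) : Set G))))
    (by
      intro a b
      funext i
      exact coc_mul _ _ _ i.1.2 i.2 i.2.2)

theorem mem_ker_iff (φ : ↥C) :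
    φ ∈ (cocycleHom T C hC).ker ↔ Triv (T : Subgroup G) (φ : MulAut G) := by
  rw [MonoidHom.mem_ker]
  constructor
  · intro h Q hQ y hy
    have h1 := congrFun h ⟨⟨Q, hQ⟩, ⟨y, hy⟩⟩
    have h2 := (QuotientGroup.eq_one_iff _).mp h1
    exact (hQ.struct.1 _).mp h2
  · intro h
    funext i
    apply (QuotientGroup.eq_one_iff _).mpr
    exact (i.1.2.struct.1 _).mpr (h i.1.1 i.1.2 i.2 i.2.2)

/-- All commutators lie in the kernel. -/
theorem comm_mem_ker (a b : ↥C) : a * b * a⁻¹ * b⁻¹ ∈ (cocycleHom T C hC).ker := by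
  rw [MonoidHom.mem_ker, map_mul, map_mul, map_mul, map_inv, map_inv]
  funext i
  simp only [Pi.mul_apply, Pi.inv_apply, Pi.one_apply]
  obtain ⟨x, hx⟩ := QuotientGroup.mk_surjective (cocycleHom T C hC a i)
  obtain ⟨y, hy⟩ := QuotientGroup.mk_surjective (cocycleHom T C hC b i)
  rw [← hx, ← hy]
  rw [← QuotientGroup.mk_inv, ← QuotientGroup.mk_inv, ← QuotientGroup.mk_mul, ← QuotientGroup.mk_mul,
    ← QuotientGroup.mk_mul]
  exact (QuotientGroup.eq_one_iff _).mpr (i.1.2.struct.2.1 x y)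

/-- Powers landing in the kernel. -/
theorem pow_mem_ker (a : ↥C) : a ^ (Nat.card T) ∈ (cocycleHom T C hC).ker := by
  rw [MonoidHom.mem_ker, map_pow]
  funext i
  simp only [Pi.pow_apply, Pi.one_apply]
  obtain ⟨x, hx⟩ := QuotientGroup.mk_surjective (cocycleHom T C hC a i)
  rw [← hx]
  obtain ⟨p, hpQ, hp⟩ := i.1.2.struct.2.2 x
  have h1 : (QuotientGroup.mk x : ↥(centralizer ((i.1 : Subgroup G) : Set G)) ⧸ oddCore ↥(centralizer ((i.1 : Subgroup G) : Set G))) = QuotientGroup.mk p := by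
    rw [QuotientGroup.eq]
    have hn : (oddCore ↥(centralizer ((i.1 : Subgroup G) : Set G))).Normal := inferInstance
    have h2 := hn.conj_mem _ (inv_mem hp) x⁻¹
    have e : x⁻¹ * (x * p⁻¹)⁻¹ * x⁻¹⁻¹ = x⁻¹ * p := by group
    rwa [e] at h2
  rw [h1, ← QuotientGroup.mk_pow]
  apply (QuotientGroup.eq_one_iff _).mpr
  have h3 : (p : G) ^ Nat.card T = 1 := by
    have h4 : (⟨p, i.1.2.1 hpQ⟩ : ↥(T : Subgroup G)) ^ Nat.card T = 1 := pow_card_eq_one'
    have h4' := congrArg Subtype.val h4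
    rwa [Subgroup.coe_pow] at h4'
  have h5 : p ^ Nat.card T = 1 := Subtype.ext (by simpa using h3)
  rw [h5]
  exact one_mem _

include hO

/-- The kernel has no involutions, so it has odd order. -/
theorem odd_card_ker : Odd (Nat.card (cocycleHom T C hC).ker) := by
  haveI : Fact (Nat.Prime 2) := ⟨Nat.prime_two⟩
  by_contra hne
  rw [Nat.not_odd_iff_even, even_iff_two_dvd] at hne
  obtain ⟨x, hx⟩ := exists_prime_orderOf_dvd_card' (G := ↥(cocycleHom T C hC).ker) 2 hne
  have h2 : (x : ↥C) ∈ (cocycleHom T C hC).ker := x.2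
  have h3 := (mem_ker_iff T C hC _).mp h2
  have hfix := fixes_of_mem T C hC (x : ↥C).2
  have hsq : (((x : ↥C) : MulAut G)) * ((x : ↥C) : MulAut G) = 1 := by
    have h4 : x ^ 2 = 1 := orderOf_dvd_iff_pow_eq_one.mp (dvd_of_eq hx)
    have h5 := congrArg (fun y : ↥(cocycleHom T C hC).ker => (((y : ↥C) : MulAut G))) h4
    simpa [pow_two] using h5
  have h6 := eq_one_of_triv hO T hfix h3 hsq
  have h7 : x = 1 := Subtype.ext (Subtype.ext h6)
  rw [h7, orderOf_one] at hx
  exact absurd hx (by decide)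

/-- **Glauberman's theorem**, without the solvability clause. -/
theorem main_parts (P : Sylow 2 ↥C) :
    (∀ a b : ↥P, a * b = b * a) ∧
      ∃ N : Subgroup ↥C, N.Normal ∧ Subgroup.IsComplement' N (P : Subgroup ↥C) ∧ Odd (Nat.card N) ∧
        ∀ a b : ↥C, a * b * a⁻¹ * b⁻¹ ∈ N := by
  haveI : Fact (Nat.Prime 2) := ⟨Nat.prime_two⟩
  set K := (cocycleHom T C hC).ker with hK
  have hKn : K.Normal := MonoidHom.normal_ker _
  have hKodd : Odd (Nat.card K) := odd_card_ker hO T C hC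
  have hKorder : ∀ x ∈ K, Odd (orderOf x) := by
    intro x hx
    have h1 : orderOf x ∣ Nat.card K := Subgroup.orderOf_dvd_natCard K hx
    exact Odd.of_dvd_nat hKodd h1
  have hdisj : ∀ x, x ∈ K → x ∈ (P : Subgroup ↥C) → x = 1 := by
    intro x hx hxP
    exact (isTwo_of_mem P.isPGroup' hxP).eq_one_of_odd (hKorder x hx)
  refine ⟨fun a b => ?_, K, hKn, ?_, hKodd, comm_mem_ker T C hC⟩
  · have h1 := comm_mem_ker T C hC (a : ↥C) (b : ↥C)
    have h2 : (a : ↥C) * b * (a : ↥C)⁻¹ * (b : ↥C)⁻¹ ∈ (P : Subgroup ↥C) :=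
      mul_mem (mul_mem (mul_mem a.2 b.2) (inv_mem a.2)) (inv_mem b.2)
    have h3 := hdisj _ h1 h2
    apply Subtype.ext
    rw [Subgroup.coe_mul, Subgroup.coe_mul]
    have h4 := mul_inv_eq_one.mp h3
    have h5 := mul_inv_eq_iff_eq_mul.mp h4
    exact h5
  · -- the quotient is a `2`-group
    have hq : IsPGroup 2 (↥C ⧸ K) := by
      intro x
      obtain ⟨a, rfl⟩ := QuotientGroup.mk_surjective x
      obtain ⟨n, hn⟩ := IsPGroup.iff_card.mp T.isPGroup'
      refine ⟨n, ?_⟩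
      rw [← hn, ← QuotientGroup.mk_pow]
      exact (QuotientGroup.eq_one_iff _).mpr (pow_mem_ker T C hC a)
    obtain ⟨e, he⟩ := IsPGroup.iff_card.mp hq
    have hindex : K.index = 2 ^ e := by
      rw [Subgroup.index_eq_card]; exact he
    have hcardC : Nat.card ↥C = Nat.card K * 2 ^ e := by
      rw [← hindex, Subgroup.card_mul_index]
    have hfact : (Nat.card ↥C).factorization 2 = e := by
      have hK0 : Nat.card K ≠ 0 := Nat.card_pos.ne'
      rw [hcardC, Nat.factorization_mul hK0 (by positivity), Nat.Prime.factorization_pow Nat.prime_two]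
      have hk : (Nat.card K).factorization 2 = 0 :=
        Nat.factorization_eq_zero_of_not_dvd (by
          rw [← even_iff_two_dvd, Nat.not_even_iff_odd]; exact hKodd)
      simp [hk]
    have hP : Nat.card (P : Subgroup ↥C) = 2 ^ e := by
      rw [Sylow.card_eq_multiplicity, hfact]
    apply Subgroup.isComplement'_of_coprime
    · rw [hP]; exact hcardC.symm
    · rw [hP]
      apply Nat.Coprime.pow_right
      exact Nat.Coprime.symm ((Nat.Prime.coprime_iff_not_dvd Nat.prime_two).mpr (by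
        rw [← even_iff_two_dvd, Nat.not_even_iff_odd]; exact hKodd))

end Assembly

end Main

end Cfsg.Agent.Lib.PGroup.CentAut
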