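import Mathlib
import Cfsg.Agent.Lib.PGroup.Basic
import Cfsg.Agent.Lib.PGroup.Critical
import Cfsg.Agent.Lib.PGroup.RankTwo
import Cfsg.Agent.Lib.PGroup.NormalRank
import Cfsg.Agent.Lib.PGroup.HuppertA
import Cfsg.Agent.Lib.PGroup.HuppertC
import Cfsg.Agent.Lib.PGroup.RankTwoThree.CentralOmega

/-!
Chief factors of `p`-groups of rank two under an invariance predicate: they have order at most
`p ^ 2` (`p` odd).
-/

set_option autoImplicit false

namespace Cfsg.Agent.Lib.PGroup.ChiefRankTwo

open Subgroup
open scoped commutatorElement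

universe u

theorem map_subtype_char {X : Type*} [Group X] {A : Subgroup X} [hA : A.Characteristic]
    (L : Subgroup A) [hL : L.Characteristic] : (L.map A.subtype).Characteristic := by
  rw [characteristic_iff_map_le]
  intro φ
  have hφ : ∀ a ∈ A, φ a ∈ A := fun a ha => (characteristic_iff_map_le.1 hA φ) ⟨a, ha, rfl⟩
  have hφ' : ∀ a ∈ A, φ.symm a ∈ A := fun a ha => (characteristic_iff_map_le.1 hA φ.symm) ⟨a, ha, rfl⟩
  let ψ : A ≃* A :=
    { toFun := fun a => ⟨φ a, hφ a a.2⟩
      invFun := fun a => ⟨φ.symm a, hφ' a a.2⟩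
      left_inv := fun a => Subtype.ext (φ.symm_apply_apply a)
      right_inv := fun a => Subtype.ext (φ.apply_symm_apply a)
      map_mul' := fun a b => Subtype.ext (φ.map_mul a b) }
  rintro _ ⟨_, ⟨l, hl, rfl⟩, rfl⟩
  exact ⟨ψ l, (characteristic_iff_map_le.1 hL ψ) ⟨l, hl, rfl⟩, rfl⟩

variable {X : Type*} [Group X] [Finite X] {p : ℕ} [hp : Fact p.Prime]

theorem comm_mem_of_relIndex (hX : IsPGroup p X) {N K : Subgroup X} [hN : N.Normal] [hK : K.Normal]
    (hKN : K ≤ N) (hidx : K.relIndex N = p) (x : X) {n : X} (hn : n ∈ N) : ⁅x, n⁆ ∈ K := by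
  have hY : IsPGroup p (X ⧸ K) := hX.to_quotient K
  let Nb : Subgroup (X ⧸ K) := N.map (QuotientGroup.mk' K)
  haveI hNb : Nb.Normal := hN.map _ (QuotientGroup.mk'_surjective K)
  have hcard : Nat.card Nb = p := by
    rw [← hidx]
    exact (Critical.relIndex_eq_card_map K N).symm
  have hne : Nb ≠ ⊥ := by
    intro h
    rw [h, Subgroup.card_bot] at hcard
    exact hp.out.one_lt.ne hcard
  have hcen := Basic.inf_center_ne_bot hY hne
  have hle : Nb ≤ center (X ⧸ K) := by
    obtain ⟨c, hc, hc1⟩ := Subgroup.bot_or_exists_ne_one _ |>.resolve_left hcen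
    have hcN : c ∈ Nb := (Subgroup.mem_inf.1 hc).1
    have hcZ : c ∈ center (X ⧸ K) := (Subgroup.mem_inf.1 hc).2
    haveI : Fact (Nat.card Nb).Prime := ⟨by rw [hcard]; exact hp.out⟩
    have hz : zpowers (⟨c, hcN⟩ : Nb) = ⊤ := by
      apply eq_top_of_card_eq
      rw [Nat.card_zpowers]
      have := orderOf_dvd_natCard (⟨c, hcN⟩ : Nb)
      rw [hcard] at this ⊢
      rcases (Nat.dvd_prime hp.out).1 this with h | h
      · rw [orderOf_eq_one_iff] at h
        exact absurd (congrArg Subtype.val h) hc1
      · exact h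
    intro b hb
    have hb' : (⟨b, hb⟩ : Nb) ∈ zpowers (⟨c, hcN⟩ : Nb) := by rw [hz]; trivial
    obtain ⟨k, hk⟩ := Subgroup.mem_zpowers_iff.1 hb'
    have e : b = c ^ k := by
      have := congrArg Subtype.val hk
      simpa using this.symm
    rw [e]
    exact Subgroup.zpow_mem _ hcZ k
  have hnN : ((n : X) : X ⧸ K) ∈ Nb := ⟨n, hn, rfl⟩
  have hzz := hle hnN
  rw [← QuotientGroup.eq_one_iff]
  have hcomm : ((x : X) : X ⧸ K) * (n : X ⧸ K) = (n : X ⧸ K) * (x : X ⧸ K) :=
    (Subgroup.mem_center_iff.1 hzz) _
  rw [commutatorElement_def, QuotientGroup.mk_mul, QuotientGroup.mk_mul, QuotientGroup.mk_mul,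
    QuotientGroup.mk_inv, QuotientGroup.mk_inv, hcomm]
  group

/-- Index bound through fibers. -/
theorem index_le_of_fibers {T : Type*} [Finite T] (A : Subgroup X) (f : X → T)
    (h : ∀ x y, f x = f y → x⁻¹ * y ∈ A) : A.index ≤ Nat.card T := by
  classical
  let g : X ⧸ A → T := fun q => f q.out
  have hg : Function.Injective g := by
    intro a b hab
    have h1 := h _ _ hab
    have h2 : (a.out : X ⧸ A) = (b.out : X ⧸ A) := QuotientGroup.eq.2 h1
    rwa [QuotientGroup.out_eq', QuotientGroup.out_eq'] at h2
  exact Nat.card_le_card_of_injective g hg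

/-- One step up in a `p`-group. -/
theorem eq_of_step (hX : IsPGroup p X) {D K S : Subgroup X} (hc : Nat.card D ≤ Nat.card K * p)
    (hKS : K ≤ S) (hSD : S ≤ D) {g : X} (hgS : g ∈ S) (hgK : g ∉ K) : S = D := by
  have hlt : K < S := lt_of_le_of_ne hKS (fun h => hgK (h ▸ hgS))
  have h1 := HuppertA.card_mul_prime_le_of_lt hX hlt
  exact Subgroup.eq_of_le_of_card_ge hSD (le_trans hc h1)

theorem bound_of_metacyclic {X : Type u} [Group X] [Finite X] {R : Subgroup X} [hR : R.Normal]
    (hm : Cfsg.IsMetacyclic X) (hpow : ∀ x : X, x ^ p ∈ R) : R.index ≤ p ^ 2 := by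
  have h1 : Cfsg.IsMetacyclic (X ⧸ R) :=
    HuppertA.metacyclic_of_surjective (QuotientGroup.mk' R) (QuotientGroup.mk'_surjective R) hm
  have h2 : ∀ y : X ⧸ R, y ^ p = 1 := by
    intro y
    obtain ⟨y, rfl⟩ := QuotientGroup.mk_surjective y
    rw [← QuotientGroup.mk_pow]
    exact (QuotientGroup.eq_one_iff _).2 (hpow y)
  exact HuppertA.card_le_of_metacyclic_exponent hp.out.pos h1 h2

/-- The passage to a characteristic subgroup covering the chief factor. -/
theorem restrict_chief {X : Type u} [Group X] {Inv : Subgroup X → Prop}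
    (hinf : ∀ H K, Inv H → Inv K → Inv (H ⊓ K)) (hsup : ∀ H K, Inv H → Inv K → Inv (H ⊔ K))
    {R A : Subgroup X} [hRn : R.Normal] (hR : Inv R) (hRne : R ≠ ⊤) (hAI : Inv A) (hAR : A ⊔ R = ⊤)
    (hchief : ∀ L, Inv L → R ≤ L → L = R ∨ L = ⊤) :
    R.subgroupOf A ≠ ⊤ ∧ Inv ((R.subgroupOf A).map A.subtype) ∧
      ∀ L : Subgroup A, Inv (L.map A.subtype) → R.subgroupOf A ≤ L → L = R.subgroupOf A ∨ L = ⊤ := by
  have hmapR : (R.subgroupOf A).map A.subtype = R ⊓ A := by
    rw [Subgroup.subgroupOf_map_subtype]
  refine ⟨?_, ?_, ?_⟩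
  · intro h
    apply hRne
    have hle : A ≤ R := Subgroup.subgroupOf_eq_top.1 h
    rw [← hAR, sup_of_le_right hle]
  · rw [hmapR]; exact hinf _ _ hR hAI
  · intro L hL hRL
    rcases hchief (L.map A.subtype ⊔ R) (hsup _ _ hL hR) le_sup_right with h | h
    · left
      apply le_antisymm _ hRL
      intro l hl
      have : (l : X) ∈ R := by
        rw [← h]
        exact Subgroup.mem_sup_left ⟨l, hl, rfl⟩
      exact this
    · right
      rw [eq_top_iff]
      intro a _
      have haT : (a : X) ∈ L.map A.subtype ⊔ R := by rw [h]; trivial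
      obtain ⟨l, hl, r, hr, hlr⟩ := Subgroup.mem_sup_of_normal_right.1 haT
      obtain ⟨l', hl', rfl⟩ := hl
      have hrA : r ∈ A := by
        have e : r = (l' : X)⁻¹ * a := by
          rw [← hlr]
          simp
        rw [e]
        exact A.mul_mem (A.inv_mem l'.2) a.2
      have hrL : (⟨r, hrA⟩ : A) ∈ L := hRL hr
      have e2 : a = l' * ⟨r, hrA⟩ := Subtype.ext hlr.symm
      rw [e2]
      exact L.mul_mem hl' hrL

/-- The main estimate: chief factors of `p`-groups of rank at most two have order at most `p ^ 2`. -/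
theorem main (hp2 : p ≠ 2) : ∀ (n : ℕ) (X : Type u) [Group X] [Finite X], Nat.card X = n →
    IsPGroup p X → Cfsg.PRankLE p 2 X → ∀ Inv : Subgroup X → Prop,
    (∀ H : Subgroup X, H.Characteristic → Inv H) →
    (∀ H K, Inv H → Inv K → Inv (H ⊔ K)) → (∀ H K, Inv H → Inv K → Inv (H ⊓ K)) →
    ∀ R : Subgroup X, Inv R → R ≠ ⊤ → (∀ L, Inv L → R ≤ L → L = R ∨ L = ⊤) → R.index ≤ p ^ 2 := by
  intro n
  induction n using Nat.strong_induction_on with
  | _ n ih =>
  intro X _ _ hn hX hrk Inv hchar hsup hinf R hR hRne hchief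
  classical
  have hpp := hp.out
  -- the Frattini quotient
  have hfr : frattini X ≤ R := by
    rcases hchief (R ⊔ frattini X) (hsup _ _ hR (hchar _ inferInstance)) le_sup_left with h | h
    · rw [← h]; exact le_sup_right
    · exact absurd (frattini_nongenerating h) hRne
  have h0 := (Basic.frattini_le_iff hX).1 hfr
  haveI hRn : R.Normal := by
    refine ⟨fun a ha g => ?_⟩
    have := R.mul_mem (h0.2 g a) ha
    have e : g * a * g⁻¹ * a⁻¹ * a = g * a * g⁻¹ := by group
    rwa [commutatorElement_def, e] at this
  -- the passage to proper characteristic subgroups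
  have key : ∀ A : Subgroup X, A.Characteristic → A ≠ ⊤ → A ⊔ R = ⊤ → R.index ≤ p ^ 2 := by
    intro A hAc hAne hAR
    haveI := hAc
    have hAI := hchar A hAc
    obtain ⟨h1, h2, h3⟩ := restrict_chief hinf hsup hR hRne hAI hAR hchief
    have hlt : Nat.card A < n := by
      rw [← hn]
      have := NormalRank.card_lt_of_lt (lt_top_iff_ne_top.2 hAne)
      rwa [Subgroup.card_top] at this
    have hidx : (R.subgroupOf A).index = R.index := by
      have e1 : (R.subgroupOf A).index = R.relIndex A := rfl
      rw [e1, ← Subgroup.relIndex_sup_right, hAR, Subgroup.relIndex_top_right]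
    rw [← hidx]
    refine ih _ hlt A rfl (hX.to_subgroup A) (RankTwo.prankLE_subgroup hrk A)
      (fun L => Inv (L.map A.subtype)) ?_ ?_ ?_ _ h2 h1 h3
    · intro L hL
      exact hchar _ (map_subtype_char L)
    · intro L K hL hK
      have : (L ⊔ K).map A.subtype = L.map A.subtype ⊔ K.map A.subtype := Subgroup.map_sup _ _ _
      simp only [this]
      exact hsup _ _ hL hK
    · intro L K hL hK
      have : (L ⊓ K).map A.subtype = L.map A.subtype ⊓ K.map A.subtype :=
        Subgroup.map_inf _ _ _ A.subtype_injective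
      simp only [this]
      exact hinf _ _ hL hK
  -- the critical subgroup
  obtain ⟨H, hHc, h1, h2, h3⟩ := Critical.exists_critical hX
  haveI := hHc
  have hmul : ∀ x ∈ H, ∀ y ∈ H, (x * y) ^ p = x ^ p * y ^ p := fun x hx y hy =>
    Critical.critical_mul_pow hX h1 h2 (Critical.prime_dvd_choose_two hp2) hx hy
  let D : Subgroup X := NormalRank.omegaSub p H hmul
  have hDmem : ∀ x, x ∈ D ↔ x ∈ H ∧ x ^ p = 1 := fun x => Iff.rfl
  have hDc : D.Characteristic := by
    rw [characteristic_iff_map_le]
    rintro φ _ ⟨x, hx, rfl⟩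
    refine (hDmem _).2 ⟨(characteristic_iff_map_le.1 hHc φ) ⟨x, ((hDmem x).1 hx).1, rfl⟩, ?_⟩
    change (φ x) ^ p = 1
    rw [← map_pow, ((hDmem x).1 hx).2, map_one]
  haveI := hDc
  haveI hDn : D.Normal := inferInstance
  have hXne : ∃ x : X, x ∉ R := by
    by_contra hall
    push Not at hall
    exact hRne (eq_top_iff.2 (fun x _ => hall x))
  have hDpG : IsPGroup p D := hX.to_subgroup D
  have hDexp : ∀ x : D, x ^ p = 1 := fun x => Subtype.ext ((hDmem _).1 x.2).2
  have hD3 : Nat.card D ≤ p ^ 3 :=
    RankTwo.card_le_of_exponent hDpG hDexp (RankTwo.prankLE_subgroup hrk D)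
  obtain ⟨k, hk⟩ := IsPGroup.iff_card.1 hDpG
  have hk3 : k ≤ 3 := by
    rw [hk] at hD3
    exact (Nat.pow_le_pow_iff_right hpp.one_lt).1 hD3
  -- `H` is not trivial
  have hHne : H ≠ ⊥ := by
    intro h
    have h4 : centralizer ((H : Subgroup X) : Set X) = ⊤ := by
      rw [h]
      simp
    rw [h4, h] at h3
    obtain ⟨x, hx⟩ := hXne
    have : x ∈ (⊥ : Subgroup X) := h3 (Subgroup.mem_top x)
    rw [Subgroup.mem_bot] at this
    exact hx (this ▸ R.one_mem)
  have hHabFact : ∃ d ∈ D, d ≠ 1 := by
    have hHp : IsPGroup p H := hX.to_subgroup H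
    obtain ⟨m, hm⟩ := IsPGroup.iff_card.1 hHp
    have hm0 : m ≠ 0 := by
      rintro rfl
      rw [pow_zero] at hm
      exact hHne ((Subgroup.card_eq_one).1 hm)
    obtain ⟨x, hx⟩ := exists_prime_orderOf_dvd_card' (G := H) p (by rw [hm]; exact dvd_pow_self _ hm0)
    refine ⟨x, (hDmem _).2 ⟨x.2, ?_⟩, ?_⟩
    · have := pow_orderOf_eq_one x
      rw [hx] at this
      exact congrArg Subtype.val this
    · intro h
      have h5 : x = 1 := Subtype.ext h
      rw [h5, orderOf_one] at hx
      exact hpp.one_lt.ne hx
  have hk0 : k ≠ 0 := by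
    rintro rfl
    rw [pow_zero] at hk
    obtain ⟨d, hd, hd1⟩ := hHabFact
    have := (Subgroup.card_eq_one).1 hk
    rw [this, Subgroup.mem_bot] at hd
    exact hd1 hd
  -- the centralizer of `D`
  let A : Subgroup X := centralizer (D : Set X)
  have hAmem : ∀ x, x ∈ A ↔ ∀ d ∈ D, d * x = x * d := fun x => Subgroup.mem_centralizer_iff
  have hAc : A.Characteristic := by
    rw [characteristic_iff_map_le]
    rintro φ _ ⟨x, hx, rfl⟩
    refine (hAmem _).2 (fun d hd => ?_)
    have hd' : φ.symm d ∈ D := (characteristic_iff_map_le.1 hDc φ.symm) ⟨d, hd, rfl⟩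
    have h5 := (hAmem x).1 hx _ hd'
    have h6 := congrArg φ h5
    simpa using h6
  haveI := hAc
  haveI hAn : A.Normal := inferInstance
  have hAR := hchief (A ⊔ R) (hsup _ _ (hchar _ hAc) hR) le_sup_right
  have hbound_of_le : ∀ T : Subgroup X, T ≤ R → T.index ≤ p → R.index ≤ p ^ 2 := by
    intro T hTR hT
    have h5 : R.index ≤ T.index := Nat.le_of_dvd (Nat.pos_of_ne_zero Subgroup.index_ne_zero_of_finite)
      (Subgroup.index_dvd_of_le hTR)
    have h6 : p ≤ p ^ 2 := Nat.le_self_pow (by norm_num) p
    omega
  rcases (by omega : k = 1 ∨ k = 2 ∨ k = 3) with rfl | rfl | rfl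
  · -- `H` is cyclic
    have hHcyc : IsCyclic H := by
      by_contra hnc
      obtain ⟨E, hEH, _, hEe, hEc⟩ := NormalRank.exists_normal_rank_two hp2 hX H hnc
      have hED : E ≤ D := fun x hx => (hDmem x).2 ⟨hEH hx, hEe.2 x hx⟩
      have h5 := Subgroup.card_le_of_le hED
      rw [hk, hEc, pow_one] at h5
      have h6 : p < p ^ 2 := by nlinarith [hpp.two_le]
      omega
    haveI hHab : IsMulCommutative H := by
      haveI := hHcyc
      exact ⟨⟨fun a b => mul_comm' a b⟩⟩
    have hcent : centralizer ((H : Subgroup X) : Set X) = H := by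
      apply le_antisymm h3
      intro x hx
      rw [Subgroup.mem_centralizer_iff]
      intro y hy
      have := hHab.is_comm.comm ⟨y, hy⟩ ⟨x, hx⟩
      exact congrArg Subtype.val this
    haveI hHn : H.Normal := inferInstance
    let φ : X →* MulAut H := MulAut.conjNormal
    have hker : φ.ker = H := by
      refine Eq.trans ?_ hcent
      ext x
      rw [MonoidHom.mem_ker, Subgroup.mem_centralizer_iff]
      constructor
      · intro h y hy
        have h5 := congrArg (fun ψ : MulAut H => ((ψ ⟨y, hy⟩ : H) : X)) h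
        simp only [φ, MulAut.conjNormal_apply, MulAut.one_apply] at h5
        calc y * x = x * y * x⁻¹ * x := by rw [h5]
          _ = x * y := by group
      · intro h
        ext y
        simp only [φ, MulAut.conjNormal_apply, MulAut.one_apply]
        rw [← h y y.2]
        group
    obtain ⟨m, hm⟩ := IsPGroup.iff_card.1 (hX.to_subgroup H)
    have hautc : IsCyclic (MulAut H) := by
      have hu : IsCyclic (ZMod (Nat.card H))ˣ := by
        rw [hm]
        exact ZMod.isCyclic_units_of_prime_pow p hpp hp2 m
      exact isCyclic_of_injective (IsCyclic.mulAutMulEquiv H).toMonoidHom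
        (IsCyclic.mulAutMulEquiv H).injective
    have hmeta : Cfsg.IsMetacyclic X := by
      refine ⟨φ.ker, inferInstance, by rw [hker]; exact hHcyc, ?_⟩
      exact isCyclic_of_injective (QuotientGroup.kerLift φ) (QuotientGroup.kerLift_injective φ)
    exact bound_of_metacyclic hmeta h0.1
  · -- `D` has order `p ^ 2`
    have hDab : IsMulCommutative D := IsPGroup.isMulCommutative_of_card_eq_prime_sq hk
    obtain ⟨Z₀, hZD, hZn, hZc⟩ := Critical.exists_normal_le_card hX D (k := 1)
      (by rw [hk, pow_one]; exact dvd_pow_self _ (by norm_num))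
    haveI := hZn
    rw [pow_one] at hZc
    have hZcen : ∀ z ∈ Z₀, ∀ x : X, x * z = z * x := by
      intro z hz x
      have hrel : (⊥ : Subgroup X).relIndex Z₀ = p := by
        rw [Subgroup.relIndex_bot_left, hZc]
      have := comm_mem_of_relIndex hX bot_le hrel x hz
      rw [Subgroup.mem_bot, commutatorElement_eq_one_iff_mul_comm] at this
      exact this
    have hrelZ : Z₀.relIndex D = p := by
      have := Critical.card_eq_mul_relIndex hZD
      rw [hk, hZc] at this
      have h5 : p * p = p * Z₀.relIndex D := by rw [← this, sq]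
      exact (Nat.eq_of_mul_eq_mul_left hpp.pos h5).symm
    -- an element of `D` off `Z₀`
    obtain ⟨d, hdD, hdZ⟩ : ∃ d ∈ D, d ∉ Z₀ := by
      by_contra hall
      push Not at hall
      have := Subgroup.card_le_of_le (show D ≤ Z₀ from hall)
      rw [hk, hZc] at this
      have h6 : p < p ^ 2 := by nlinarith [hpp.two_le]
      omega
    have hstep : ∀ g : X, g * d = d * g → g ∈ A := by
      intro g hg
      have hS : D ⊓ centralizer ({g} : Set X) = D := by
        refine eq_of_step hX (K := Z₀) (g := d) ?_ ?_ inf_le_left ?_ hdZ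
        · rw [hk, hZc, sq]
        · refine le_inf hZD ?_
          intro z hz
          rw [Subgroup.mem_centralizer_singleton_iff]
          exact (hZcen z hz g).symm
        · refine Subgroup.mem_inf.2 ⟨hdD, ?_⟩
          rw [Subgroup.mem_centralizer_singleton_iff]
          exact hg.symm
      refine (hAmem g).2 (fun y hy => ?_)
      have h5 : y ∈ D ⊓ centralizer ({g} : Set X) := by rw [hS]; exact hy
      exact Subgroup.mem_centralizer_singleton_iff.1 (Subgroup.mem_inf.1 h5).2
    have hAidx : A.index ≤ p := by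
      have hmem : ∀ x : X, ⁅x, d⁆ ∈ Z₀ := fun x => comm_mem_of_relIndex hX hZD hrelZ x hdD
      have := index_le_of_fibers A (fun x => (⟨⁅x, d⁆, hmem x⟩ : Z₀)) (by
        intro x y hxy
        apply hstep
        have h5 : ⁅x, d⁆ = ⁅y, d⁆ := congrArg Subtype.val hxy
        simp only [commutatorElement_def] at h5
        have h6 : x * d * x⁻¹ = y * d * y⁻¹ := mul_right_cancel h5
        have h7 : d * (x⁻¹ * y) = x⁻¹ * (x * d * x⁻¹) * y := by group
        rw [h7, h6]
        group)
      rwa [hZc] at this
    rcases hAR with hAR | hAR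
    · exact hbound_of_le A (by rw [← hAR]; exact le_sup_left) hAidx
    · by_cases hAtop : A = ⊤
      · -- `D` is central
        have hDcen : D ≤ center X := by
          intro z hz
          rw [Subgroup.mem_center_iff]
          intro g
          have hg : g ∈ A := by rw [hAtop]; trivial
          exact ((hAmem g).1 hg z hz).symm
        have hElem : Cfsg.IsElementaryAbelian p D := ⟨hDab, fun a ha => ((hDmem a).1 ha).2⟩
        have hiff : ∀ x : X, x ^ p = 1 ↔ x ∈ D := by
          intro x
          constructor
          · intro hx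
            have hcom : ∀ a ∈ D, x * a = a * x := fun a ha =>
              (Subgroup.mem_center_iff.1 (hDcen ha)) x
            have hE := Basic.IsElementaryAbelian.sup_zpowers hElem hx hcom
            have hcard := hrk _ hE.1 hE.2
            have hle : D ≤ D ⊔ zpowers x := le_sup_left
            have heq : D = D ⊔ zpowers x := Subgroup.eq_of_le_of_card_ge hle (by rw [hk]; exact hcard)
            rw [heq]
            exact Subgroup.mem_sup_right (Subgroup.mem_zpowers x)
          · intro hx
            exact ((hDmem x).1 hx).2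
        have hmeta : Cfsg.IsMetacyclic X := by
          rcases Nat.lt_or_ge 3 p with hp5 | hp3
          · refine HuppertA.metacyclic_of_card_omegaOne_le hp5 hX ?_
            have hle : Cfsg.omegaOne p (⊤ : Subgroup X) ≤ D := by
              rw [Cfsg.omegaOne, Subgroup.closure_le]
              rintro x ⟨_, hx⟩
              exact (hiff x).1 hx
            have := Subgroup.card_le_of_le hle
            rwa [hk] at this
          · have hp3' : p = 3 := by
              have := hpp.two_le
              omega
            subst hp3'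
            exact RankTwoThree.metacyclic_of_central_omega _ X hX D hDcen hiff (by rw [hk]; norm_num) rfl
        exact bound_of_metacyclic hmeta h0.1
      · exact key A hAc hAtop hAR
  · -- `D` has order `p ^ 3`
    have hDna : ¬ IsMulCommutative D := by
      intro hc
      have h5 := hrk D hc (fun a ha => ((hDmem a).1 ha).2)
      rw [hk] at h5
      have h6 : p ^ 2 < p ^ 3 := Nat.pow_lt_pow_right hpp.one_lt (by norm_num)
      omega
    obtain ⟨W, hWD, hWn, hWc⟩ := Critical.exists_normal_le_card hX D (k := 2)
      (by rw [hk]; exact pow_dvd_pow _ (by norm_num))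
    haveI := hWn
    obtain ⟨Z₀, hZW, hZn, hZc⟩ := Critical.exists_normal_le_card hX W (k := 1)
      (by rw [hWc]; exact pow_dvd_pow _ (by norm_num))
    haveI := hZn
    rw [pow_one] at hZc
    have hZcen : ∀ z ∈ Z₀, ∀ x : X, x * z = z * x := by
      intro z hz x
      have hrel : (⊥ : Subgroup X).relIndex Z₀ = p := by
        rw [Subgroup.relIndex_bot_left, hZc]
      have := comm_mem_of_relIndex hX bot_le hrel x hz
      rw [Subgroup.mem_bot, commutatorElement_eq_one_iff_mul_comm] at this
      exact this
    have hrelZ : Z₀.relIndex W = p := by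
      have := Critical.card_eq_mul_relIndex hZW
      rw [hWc, hZc] at this
      have h5 : p * p = p * Z₀.relIndex W := by rw [← this, sq]
      exact (Nat.eq_of_mul_eq_mul_left hpp.pos h5).symm
    have hrelW : W.relIndex D = p := by
      have := Critical.card_eq_mul_relIndex hWD
      rw [hk, hWc] at this
      have h5 : p ^ 2 * p = p ^ 2 * W.relIndex D := by rw [← this]; ring
      exact (Nat.eq_of_mul_eq_mul_left (pow_pos hpp.pos 2) h5).symm
    obtain ⟨w, hwW, hwZ⟩ : ∃ w ∈ W, w ∉ Z₀ := by
      by_contra hall
      push Not at hall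
      have := Subgroup.card_le_of_le (show W ≤ Z₀ from hall)
      rw [hWc, hZc] at this
      have h6 : p < p ^ 2 := by nlinarith [hpp.two_le]
      omega
    obtain ⟨e, heD, heW⟩ : ∃ e ∈ D, e ∉ W := by
      by_contra hall
      push Not at hall
      have := Subgroup.card_le_of_le (show D ≤ W from hall)
      rw [hk, hWc] at this
      have h6 : p ^ 2 < p ^ 3 := Nat.pow_lt_pow_right hpp.one_lt (by norm_num)
      omega
    have hstep : ∀ g : X, g * w = w * g → g * e = e * g → g ∈ A := by
      intro g hgw hge
      have hS1 : W ⊓ centralizer ({g} : Set X) = W := by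
        refine eq_of_step hX (K := Z₀) (g := w) ?_ ?_ inf_le_left ?_ hwZ
        · rw [hWc, hZc, sq]
        · refine le_inf hZW ?_
          intro z hz
          rw [Subgroup.mem_centralizer_singleton_iff]
          exact (hZcen z hz g).symm
        · refine Subgroup.mem_inf.2 ⟨hwW, ?_⟩
          rw [Subgroup.mem_centralizer_singleton_iff]
          exact hgw.symm
      have hS2 : D ⊓ centralizer ({g} : Set X) = D := by
        refine eq_of_step hX (K := W) (g := e) ?_ ?_ inf_le_left ?_ heW
        · rw [hk, hWc, pow_succ]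
        · refine le_inf hWD ?_
          intro z hz
          have h5 : z ∈ W ⊓ centralizer ({g} : Set X) := by rw [hS1]; exact hz
          exact (Subgroup.mem_inf.1 h5).2
        · refine Subgroup.mem_inf.2 ⟨heD, ?_⟩
          rw [Subgroup.mem_centralizer_singleton_iff]
          exact hge.symm
      refine (hAmem g).2 (fun y hy => ?_)
      have h5 : y ∈ D ⊓ centralizer ({g} : Set X) := by rw [hS2]; exact hy
      exact Subgroup.mem_centralizer_singleton_iff.1 (Subgroup.mem_inf.1 h5).2
    have hAidx : A.index ≤ p ^ 3 := by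
      have hmem1 : ∀ x : X, ⁅x, w⁆ ∈ Z₀ := fun x => comm_mem_of_relIndex hX hZW hrelZ x hwW
      have hmem2 : ∀ x : X, ⁅x, e⁆ ∈ W := fun x => comm_mem_of_relIndex hX hWD hrelW x heD
      have := index_le_of_fibers A (fun x => ((⟨⁅x, w⁆, hmem1 x⟩ : Z₀), (⟨⁅x, e⁆, hmem2 x⟩ : W))) (by
        intro x y hxy
        have h5 : ⁅x, w⁆ = ⁅y, w⁆ := congrArg (fun t => ((t.1 : Z₀) : X)) hxy
        have h5' : ⁅x, e⁆ = ⁅y, e⁆ := congrArg (fun t => ((t.2 : W) : X)) hxy
        apply hstep
        · simp only [commutatorElement_def] at h5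
          have h6 : x * w * x⁻¹ = y * w * y⁻¹ := mul_right_cancel h5
          have h7 : w * (x⁻¹ * y) = x⁻¹ * (x * w * x⁻¹) * y := by group
          rw [h7, h6]
          group
        · simp only [commutatorElement_def] at h5'
          have h6 : x * e * x⁻¹ = y * e * y⁻¹ := mul_right_cancel h5'
          have h7 : e * (x⁻¹ * y) = x⁻¹ * (x * e * x⁻¹) * y := by group
          rw [h7, h6]
          group)
      rw [Nat.card_prod, hZc, hWc] at this
      calc A.index ≤ p * p ^ 2 := this
        _ = p ^ 3 := by ring
    have hAne : A ≠ ⊤ := by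
      intro h
      apply hDna
      refine ⟨⟨fun a b => Subtype.ext ?_⟩⟩
      have hb : (b : X) ∈ A := by rw [h]; trivial
      exact (hAmem b).1 hb a a.2
    rcases hAR with hAR | hAR
    · have hAleR : A ≤ R := by rw [← hAR]; exact le_sup_left
      rcases hchief (D ⊔ R) (hsup _ _ (hchar _ hDc) hR) le_sup_right with hDR | hDR
      · have hDleR : D ≤ R := by rw [← hDR]; exact le_sup_left
        -- the index of `A D`
        have hT : A ⊔ D ≤ R := sup_le hAleR hDleR
        refine hbound_of_le _ hT ?_
        have h5 : A.relIndex (D ⊔ A) = A.relIndex D := Subgroup.relIndex_sup_right D A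
        have h6 : A.relIndex (A ⊔ D) * (A ⊔ D).index = A.index :=
          Subgroup.relIndex_mul_index le_sup_left
        rw [sup_comm, h5, sup_comm] at h6
        -- the center of `D` has order at most `p`
        have h7 : Nat.card (A.subgroupOf D) ≤ p := by
          by_contra hcon
          push Not at hcon
          have hZ1c : Nat.card (A ⊓ D : Subgroup X) = Nat.card (A.subgroupOf D) := by
            rw [← Subgroup.subgroupOf_map_subtype]
            exact Subgroup.card_map_of_injective D.subtype_injective
          obtain ⟨m, hm⟩ := IsPGroup.iff_card.1 (hDpG.to_subgroup (A.subgroupOf D))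
          have hm2 : 2 ≤ m := by
            by_contra hlt
            have hm1 : m ≤ 1 := by omega
            have : p ^ m ≤ p ^ 1 := Nat.pow_le_pow_right hpp.pos hm1
            rw [← hm, pow_one] at this
            omega
          have hZ1big : p ^ 2 ≤ Nat.card (A ⊓ D : Subgroup X) := by
            rw [hZ1c, hm]
            exact Nat.pow_le_pow_right hpp.pos hm2
          apply hDna
          have hDA : ∀ a ∈ D, a ∈ A := by
            intro a ha
            by_cases haZ : a ∈ A ⊓ D
            · exact (Subgroup.mem_inf.1 haZ).1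
            · have hS : D ⊓ centralizer ({a} : Set X) = D := by
                refine eq_of_step hX (K := A ⊓ D) (g := a) ?_ ?_ inf_le_left ?_ haZ
                · rw [hk, pow_succ]
                  exact Nat.mul_le_mul_right _ hZ1big
                · refine le_inf inf_le_right ?_
                  intro z hz
                  rw [Subgroup.mem_centralizer_singleton_iff]
                  exact ((hAmem z).1 (Subgroup.mem_inf.1 hz).1 a ha).symm
                · refine Subgroup.mem_inf.2 ⟨ha, ?_⟩
                  rw [Subgroup.mem_centralizer_singleton_iff]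
              refine (hAmem a).2 (fun y hy => ?_)
              have h5 : y ∈ D ⊓ centralizer ({a} : Set X) := by rw [hS]; exact hy
              exact Subgroup.mem_centralizer_singleton_iff.1 (Subgroup.mem_inf.1 h5).2
          exact ⟨⟨fun a b => Subtype.ext ((hAmem b).1 (hDA b b.2) a a.2)⟩⟩
        have h8 : A.relIndex D * Nat.card (A.subgroupOf D) = p ^ 3 := by
          have h9 := (A.subgroupOf D).index_mul_card
          rw [hk] at h9
          exact h9
        have h10 : p ^ 2 ≤ A.relIndex D := by
          by_contra hlt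
          push Not at hlt
          have h11 : A.relIndex D * Nat.card (A.subgroupOf D) < p ^ 2 * p :=
            Nat.mul_lt_mul_of_lt_of_le hlt h7 hpp.pos
          rw [h8] at h11
          have h12 : p ^ 2 * p = p ^ 3 := by ring
          omega
        have h13 : p ^ 2 * (A ⊔ D).index ≤ p ^ 2 * p := by
          calc p ^ 2 * (A ⊔ D).index ≤ A.relIndex D * (A ⊔ D).index := Nat.mul_le_mul_right _ h10
            _ = A.index := h6
            _ ≤ p ^ 3 := hAidx
            _ = p ^ 2 * p := by ring
        exact Nat.le_of_mul_le_mul_left h13 (pow_pos hpp.pos 2)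
      · -- `D` covers the quotient
        have h5 : R.index = (R.subgroupOf D).index := by
          have e1 : (R.subgroupOf D).index = R.relIndex D := rfl
          rw [e1, ← Subgroup.relIndex_sup_right, hDR, Subgroup.relIndex_top_right]
        rw [h5]
        -- `D ⊓ R` contains a commutator of `D`
        obtain ⟨a, b, hab⟩ : ∃ a b : D, a * b ≠ b * a := by
          by_contra hall
          push Not at hall
          exact hDna ⟨⟨hall⟩⟩
        have h6 : (⟨⁅(a : X), (b : X)⁆, D.mul_mem (D.mul_mem (D.mul_mem a.2 b.2) (D.inv_mem a.2))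
            (D.inv_mem b.2)⟩ : D) ∈ R.subgroupOf D := h0.2 _ _
        have h7 : (⟨⁅(a : X), (b : X)⁆, D.mul_mem (D.mul_mem (D.mul_mem a.2 b.2) (D.inv_mem a.2))
            (D.inv_mem b.2)⟩ : D) ≠ 1 := by
          intro h
          have h8 := congrArg Subtype.val h
          rw [Subgroup.coe_mk, Subgroup.coe_one, commutatorElement_eq_one_iff_mul_comm] at h8
          exact hab (Subtype.ext h8)
        have h8 : R.subgroupOf D ≠ ⊥ := by
          intro h
          rw [h, Subgroup.mem_bot] at h6
          exact h7 h6
        have h9 := (R.subgroupOf D).index_mul_card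
        rw [hk] at h9
        have h10 : p ≤ Nat.card (R.subgroupOf D) := by
          obtain ⟨m, hm⟩ := IsPGroup.iff_card.1 (hDpG.to_subgroup (R.subgroupOf D))
          rw [hm]
          have hm0 : m ≠ 0 := by
            rintro rfl
            rw [pow_zero] at hm
            exact h8 ((Subgroup.card_eq_one).1 hm)
          exact Nat.le_self_pow hm0 p
        have h11 : (R.subgroupOf D).index * p ≤ p ^ 2 * p := by
          calc (R.subgroupOf D).index * p ≤ (R.subgroupOf D).index * Nat.card (R.subgroupOf D) :=
                Nat.mul_le_mul_left _ h10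
            _ = p ^ 3 := h9
            _ = p ^ 2 * p := by ring
        exact Nat.le_of_mul_le_mul_right h11 hpp.pos
    · exact key A hAc hAne hAR

end Cfsg.Agent.Lib.PGroup.ChiefRankTwo
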