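import Mathlib
import Cfsg.Agent.Lib.PGroup.AlperinGood
import Cfsg.Agent.Lib.PGroup.QdRadical

/-!
# Local control of fusion lifts from a normal subgroup
-/

set_option autoImplicit false

namespace Cfsg.Agent.Lib.PGroup.ControlNormal

open Subgroup Cfsg.Agent.Lib.PGroup.ZJ Cfsg.Agent.Lib.PGroup.ZJControl
open Cfsg.Agent.Lib.PGroup.AlperinGood
open Cfsg.Agent.Lib.PGroup.QdControl (frattini_fusion eq_one_of_pow_of_pgroup)
open Cfsg.Agent.Lib.PGroup.QdRadical (exists_mul_of_mem_sup)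
open Cfsg.Agent.Lib.PGroup.Replacement (mem_normalizer_of_conj_mem card_lt_of_lt)
open Cfsg.Agent.Lib.Basic.PCore

variable {p : ℕ} [Fact p.Prime]

section Frat

variable {G : Type*} [Group G] [Finite G]

/-- An element whose `p`-power lies in `K`, of order prime to `p`, lies in `K`. -/
theorem mem_of_pow_of_coprime {K : Subgroup G} {t : G} {r c : ℕ} (hr : ¬ p ∣ r) (h1 : t ^ r = 1)
    (h2 : t ^ p ^ c ∈ K) : t ∈ K := by
  have hp : p.Prime := Fact.out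
  have hco : Nat.Coprime (p ^ c) r := Nat.Coprime.pow_left _ ((Nat.Prime.coprime_iff_not_dvd hp).mpr hr)
  have hgcd := Nat.gcd_eq_gcd_ab (p ^ c) r
  rw [hco.gcd_eq_one] at hgcd
  have h3 : t = (t ^ p ^ c) ^ (Nat.gcdA (p ^ c) r) := by
    have h4 : t ^ ((p ^ c : ℕ) * Nat.gcdA (p ^ c) r + r * Nat.gcdB (p ^ c) r : ℤ) = t := by
      rw [← hgcd]
      simp
    rw [zpow_add, zpow_mul, zpow_mul, zpow_natCast, zpow_natCast, h1, one_zpow, mul_one] at h4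
    exact h4.symm
  rw [h3]
  exact zpow_mem h2 _

variable {B : Subgroup G}

local notation "LL" => normalizer (B : Set G)

theorem frattini_fn {S : Sylow p G} (hFN : FN S B)
    (D : Subgroup ↥(normalizer (B : Set G))) [hDn : D.Normal]
    (hCD : (centralizer (B : Set G)).subgroupOf (normalizer (B : Set G)) ≤ D)
    (hDp : ∀ x ∈ D, ∃ a : ℕ, (x : G) ^ p ^ a ∈ centralizer (B : Set G))
    {g : G} (hg : g ∈ normalizer (B : Set G)) :
    ∃ m ∈ normalizer (B : Set G),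
      m ∈ normalizer (((S : Subgroup G) ⊓ D.map (normalizer (B : Set G)).subtype : Subgroup G) : Set G) ∧
      ∀ b ∈ B, g * b * g⁻¹ = m * b * m⁻¹ := by
  obtain ⟨T, hT⟩ := exists_sylow_of_FN hFN
  set C := (centralizer (B : Set G)).subgroupOf LL with hC
  haveI hCn : C.Normal := inferInstance
  set φ := QuotientGroup.mk' C with hφ
  have hφs : Function.Surjective φ := QuotientGroup.mk'_surjective _
  obtain ⟨g₁, hg₁, g₂, hg₂, hge, -⟩ := frattini_fusion (M := D) (hM := hDn) T (B := ⊥) (g := ⟨g, hg⟩) bot_le (by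
    intro b hb
    rw [Subgroup.mem_bot] at hb
    simp [hb])
  have hDq : (D.map φ).Normal := hDn.map φ hφs
  have hDpg : IsPGroup p (D.map φ) := by
    rintro ⟨_, x, hx, rfl⟩
    obtain ⟨a, ha⟩ := hDp x hx
    refine ⟨a, Subtype.ext ?_⟩
    have h1 : (φ x) ^ p ^ a = 1 := by
      rw [← map_pow, hφ, QuotientGroup.mk'_apply, QuotientGroup.eq_one_iff, hC, Subgroup.mem_subgroupOf]
      simpa using ha
    simpa using h1
  have h1 : φ g₂ ∈ D.map φ := ⟨g₂, hg₂, rfl⟩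
  obtain ⟨t, ht, hte⟩ := pCore_le_sylow (T.mapSurjective hφs) (le_pCore hDq hDpg h1)
  have h4 : t⁻¹ * g₂ ∈ C := by
    rw [← QuotientGroup.eq]
    exact hte
  have htD : t ∈ D := by
    have h5 : t = g₂ * (t⁻¹ * g₂)⁻¹ := by group
    rw [h5]
    exact mul_mem hg₂ (inv_mem (hCD h4))
  have htN : t ∈ normalizer (((T : Subgroup ↥LL) ⊓ D : Subgroup ↥LL) : Set ↥LL) :=
    Subgroup.le_normalizer (Subgroup.mem_inf.mpr ⟨ht, htD⟩)
  have hmN : t * g₁ ∈ normalizer (((T : Subgroup ↥LL) ⊓ D : Subgroup ↥LL) : Set ↥LL) := mul_mem htN hg₁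
  refine ⟨((t * g₁ : ↥LL) : G), (t * g₁ : ↥LL).2, ?_, ?_⟩
  · apply mem_normalizer_of_conj_mem
    rintro x ⟨hxS, hxD⟩
    obtain ⟨x', hx', rfl⟩ := hxD
    have hx'T : x' ∈ (T : Subgroup ↥LL) := by
      have h5 : (x' : G) ∈ (T : Subgroup ↥LL).map (LL).subtype := by
        rw [hT]
        exact ⟨hxS, x'.2⟩
      obtain ⟨x'', hx'', h6⟩ := h5
      have h7 : x'' = x' := Subtype.ext h6
      rwa [← h7]
    have h5 := (mem_normalizer_iff.mp hmN x').mp (Subgroup.mem_inf.mpr ⟨hx'T, hx'⟩)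
    have h6 := Subgroup.mem_inf.mp h5
    refine Subgroup.mem_inf.mpr ⟨?_, ?_⟩
    · have h7 : (((t * g₁) * x' * (t * g₁)⁻¹ : ↥LL) : G) ∈ (T : Subgroup ↥LL).map (LL).subtype := ⟨_, h6.1, rfl⟩
      rw [hT] at h7
      exact h7.1
    · exact ⟨_, h6.2, rfl⟩
  · intro b hb
    have hge' : g = (g₂ : G) * (g₁ : G) := congrArg Subtype.val hge
    have hb₁ : (g₁ : G) * b * (g₁ : G)⁻¹ ∈ B := (mem_normalizer_iff.mp g₁.2 b).mp hb
    have hc : ((t⁻¹ * g₂ : ↥LL) : G) ∈ centralizer (B : Set G) := Subgroup.mem_subgroupOf.mp h4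
    have h5 := Subgroup.mem_centralizer_iff.mp hc _ hb₁
    simp only [Subgroup.coe_mul, Subgroup.coe_inv] at h5 ⊢
    rw [hge']
    have h6 : (g₂ : G) * (g₁ : G) * b * ((g₂ : G) * (g₁ : G))⁻¹ =
        (t : G) * (((t : G)⁻¹ * g₂) * ((g₁ : G) * b * (g₁ : G)⁻¹) * ((t : G)⁻¹ * g₂)⁻¹) * (t : G)⁻¹ := by
      group
    rw [h6, ← h5]
    group

end Frat

section Main

variable {G : Type*} [Group G] [Finite G] {N : Subgroup G} [hN : N.Normal] (S : Sylow p G)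
  {W : Subgroup G}

theorem fr_step (hWN : normalizer (((S : Subgroup G) ⊓ N : Subgroup G) : Set G) ≤ normalizer (W : Set G))
    (hctl : ∀ A : Subgroup G, A ≤ (S : Subgroup G) ⊓ N → ∀ n ∈ N,
      (∀ a ∈ A, n * a * n⁻¹ ∈ (S : Subgroup G) ⊓ N) →
        ∃ h ∈ normalizer (W : Set G), ∀ a ∈ A, n * a * n⁻¹ = h * a * h⁻¹)
    {B₀ : Subgroup G} (hB₀ : B₀ ≤ (S : Subgroup G) ⊓ N) {g : G}
    (hg : ∀ b ∈ B₀, g * b * g⁻¹ ∈ (S : Subgroup G)) :
    ∃ h ∈ normalizer (W : Set G), ∀ b ∈ B₀, g * b * g⁻¹ = h * b * h⁻¹ := by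
  obtain ⟨g₁, hg₁, g₂, hg₂, rfl, hg₁B⟩ := frattini_fusion (M := N) S (hB₀.trans inf_le_left) hg
  obtain ⟨h, hh, he⟩ := hctl (B₀.map (MulAut.conj g₁).toMonoidHom) (by
      rintro _ ⟨b, hb, rfl⟩
      exact Subgroup.mem_inf.mpr ⟨hg₁B b hb, hN.conj_mem _ (hB₀ hb).2 _⟩) g₂ hg₂ (by
      rintro _ ⟨b, hb, rfl⟩
      have h1 := hg b hb
      have h2 : g₂ * (MulAut.conj g₁).toMonoidHom b * g₂⁻¹ = g₂ * g₁ * b * (g₂ * g₁)⁻¹ := by
        simp only [MulEquiv.coe_toMonoidHom, MulAut.conj_apply]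
        group
      rw [h2]
      exact Subgroup.mem_inf.mpr ⟨h1, hN.conj_mem _ (hB₀ hb).2 _⟩)
  refine ⟨h * g₁, mul_mem hh (hWN hg₁), fun b hb => ?_⟩
  have h3 := he _ ⟨b, hb, rfl⟩
  simp only [MulEquiv.coe_toMonoidHom, MulAut.conj_apply] at h3
  calc g₂ * g₁ * b * (g₂ * g₁)⁻¹ = g₂ * (g₁ * b * g₁⁻¹) * g₂⁻¹ := by group
    _ = h * (g₁ * b * g₁⁻¹) * h⁻¹ := h3
    _ = _ := by group

/-- The subgroup of `L` acting on `B₀` as an element of `W`. -/
def actW (B₀ W L : Subgroup G) : Subgroup ↥L where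
  carrier := {y | ∃ w ∈ W ⊓ normalizer (B₀ : Set G), ∀ z ∈ B₀, (y : G) * z * (y : G)⁻¹ = w * z * w⁻¹}
  mul_mem' := by
    rintro y₁ y₂ ⟨w₁, hw₁, e₁⟩ ⟨w₂, hw₂, e₂⟩
    refine ⟨w₁ * w₂, mul_mem hw₁ hw₂, fun z hz => ?_⟩
    have hz' : w₂ * z * w₂⁻¹ ∈ B₀ := (mem_normalizer_iff.mp (Subgroup.mem_inf.mp hw₂).2 z).mp hz
    calc ((y₁ * y₂ : ↥L) : G) * z * ((y₁ * y₂ : ↥L) : G)⁻¹ = (y₁ : G) * ((y₂ : G) * z * (y₂ : G)⁻¹) * (y₁ : G)⁻¹ := by
          simp only [Subgroup.coe_mul]; group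
      _ = (y₁ : G) * (w₂ * z * w₂⁻¹) * (y₁ : G)⁻¹ := by rw [e₂ z hz]
      _ = w₁ * (w₂ * z * w₂⁻¹) * w₁⁻¹ := e₁ _ hz'
      _ = _ := by group
  one_mem' := ⟨1, one_mem _, by simp⟩
  inv_mem' := by
    rintro y ⟨w, hw, e⟩
    refine ⟨w⁻¹, inv_mem hw, fun z hz => ?_⟩
    have hz' : w⁻¹ * z * w⁻¹⁻¹ ∈ B₀ := (mem_normalizer_iff.mp (inv_mem (Subgroup.mem_inf.mp hw).2) z).mp hz
    have h1 := e _ hz'
    have h2 : (y : G) * (w⁻¹ * z * w⁻¹⁻¹) * (y : G)⁻¹ = z := by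
      rw [h1]
      group
    have h3 : (w⁻¹ * z * w⁻¹⁻¹) = (y : G)⁻¹ * z * (y : G) := by
      calc w⁻¹ * z * w⁻¹⁻¹ = (y : G)⁻¹ * ((y : G) * (w⁻¹ * z * w⁻¹⁻¹) * (y : G)⁻¹) * (y : G) := by group
        _ = _ := by rw [h2]
    rw [h3]
    simp

theorem actW_pow (hq : ∀ x : G, ∃ a : ℕ, x ^ p ^ a ∈ N) {B : Subgroup G}
    (hB : B ≤ (S : Subgroup G)) (hW : W ≤ (S : Subgroup G))
    {y : ↥(normalizer (B : Set G))} (hy : y ∈ actW (B ⊓ N) W (normalizer (B : Set G))) :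
    ∃ a : ℕ, (y : G) ^ p ^ a ∈ centralizer (B : Set G) := by
  have hp : p.Prime := Fact.out
  have hpos : orderOf y ≠ 0 := (orderOf_pos y).ne'
  obtain ⟨a, r, hr, hyr⟩ := Nat.exists_eq_pow_mul_and_not_dvd hpos p hp.ne_one
  refine ⟨a, ?_⟩
  have htr0 : (y ^ p ^ a) ^ r = 1 := by
    rw [← pow_mul, ← hyr, pow_orderOf_eq_one]
  have htD : y ^ p ^ a ∈ actW (B ⊓ N) W (normalizer (B : Set G)) := pow_mem hy _
  have hcoe : (y : G) ^ p ^ a = ((y ^ p ^ a : ↥(normalizer (B : Set G))) : G) := rfl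
  rw [hcoe]
  generalize y ^ p ^ a = t at htr0 htD
  have htr : (t : G) ^ r = 1 := congrArg Subtype.val htr0
  obtain ⟨w, hw, e⟩ := htD
  have hwS : w ∈ (S : Subgroup G) := hW (Subgroup.mem_inf.mp hw).1
  obtain ⟨c, hc⟩ := S.isPGroup' ⟨w, hwS⟩
  have hc' : w ^ p ^ c = 1 := congrArg Subtype.val hc
  have hwN : w ∈ normalizer ((B ⊓ N : Subgroup G) : Set G) := (Subgroup.mem_inf.mp hw).2
  have hpowk : ∀ k : ℕ, ∀ z ∈ B ⊓ N, (t : G) ^ k * z * ((t : G) ^ k)⁻¹ = w ^ k * z * (w ^ k)⁻¹ := by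
    intro k
    induction k with
    | zero => intro z _; simp
    | succ k ih =>
      intro z hz
      have h1 := e z hz
      have h2 : w * z * w⁻¹ ∈ B ⊓ N := (mem_normalizer_iff.mp hwN z).mp hz
      calc (t : G) ^ (k + 1) * z * ((t : G) ^ (k + 1))⁻¹
          = (t : G) ^ k * ((t : G) * z * (t : G)⁻¹) * ((t : G) ^ k)⁻¹ := by rw [pow_succ]; group
        _ = (t : G) ^ k * (w * z * w⁻¹) * ((t : G) ^ k)⁻¹ := by rw [h1]
        _ = w ^ k * (w * z * w⁻¹) * (w ^ k)⁻¹ := ih _ h2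
        _ = _ := by rw [pow_succ]; group
  have h1 : (t : G) ∈ centralizer ((B ⊓ N : Subgroup G) : Set G) := by
    refine mem_of_pow_of_coprime hr htr (c := c) ?_
    rw [mem_centralizer_iff]
    intro z hz
    have h2 := hpowk (p ^ c) z hz
    rw [hc'] at h2
    simp only [one_mul, inv_one, mul_one] at h2
    rw [mul_inv_eq_iff_eq_mul] at h2
    exact h2.symm
  have htN : (t : G) ∈ N := by
    obtain ⟨f, hf⟩ := hq t
    exact mem_of_pow_of_coprime hr htr hf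
  rw [mem_centralizer_iff]
  intro b hb
  have hdB : (t : G) * b * (t : G)⁻¹ * b⁻¹ ∈ B :=
    mul_mem ((mem_normalizer_iff.mp t.2 b).mp hb) (inv_mem hb)
  have hdN : (t : G) * b * (t : G)⁻¹ * b⁻¹ ∈ N := by
    have h2 : (t : G) * b * (t : G)⁻¹ * b⁻¹ = (t : G) * (b * (t : G)⁻¹ * b⁻¹) := by group
    rw [h2]
    exact mul_mem htN (hN.conj_mem _ (inv_mem htN) b)
  set d := (t : G) * b * (t : G)⁻¹ * b⁻¹ with hd
  have hdz : d ∈ B ⊓ N := Subgroup.mem_inf.mpr ⟨hdB, hdN⟩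
  have htd : d * (t : G) = (t : G) * d := mem_centralizer_iff.mp h1 d hdz
  have hk : ∀ k : ℕ, (t : G) ^ k * b * ((t : G) ^ k)⁻¹ = d ^ k * b := by
    intro k
    induction k with
    | zero => simp
    | succ k ih =>
      have htb : (t : G) * b * (t : G)⁻¹ = d * b := by rw [hd]; group
      have hdk : (t : G) ^ k * d * ((t : G) ^ k)⁻¹ = d := by
        have : Commute ((t : G) ^ k) d := (Commute.pow_left (show Commute (t : G) d from htd.symm) k)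
        rw [this.eq]
        group
      calc (t : G) ^ (k + 1) * b * ((t : G) ^ (k + 1))⁻¹
          = (t : G) ^ k * ((t : G) * b * (t : G)⁻¹) * ((t : G) ^ k)⁻¹ := by
            rw [pow_succ]; group
        _ = (t : G) ^ k * (d * b) * ((t : G) ^ k)⁻¹ := by rw [htb]
        _ = ((t : G) ^ k * d * ((t : G) ^ k)⁻¹) * ((t : G) ^ k * b * ((t : G) ^ k)⁻¹) := by group
        _ = d * (d ^ k * b) := by rw [hdk, ih]
        _ = _ := by rw [pow_succ]; group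
  have h2 := hk r
  rw [htr] at h2
  simp only [one_mul, inv_one, mul_one] at h2
  have hdr : d ^ r = 1 := by
    have h3 : d ^ r * b = 1 * b := by rw [← h2, one_mul]
    exact mul_right_cancel h3
  obtain ⟨u, hu⟩ := S.isPGroup' ⟨d, hB hdB⟩
  have hd1 : d = 1 := eq_one_of_pow_of_pgroup hr hdr (congrArg Subtype.val hu)
  rw [hd, mul_inv_eq_one, mul_inv_eq_iff_eq_mul] at hd1
  exact hd1.symm

theorem actW_normal
    (hWN : normalizer (((S : Subgroup G) ⊓ N : Subgroup G) : Set G) ≤ normalizer (W : Set G))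
    (hctl : ∀ A : Subgroup G, A ≤ (S : Subgroup G) ⊓ N → ∀ n ∈ N,
      (∀ a ∈ A, n * a * n⁻¹ ∈ (S : Subgroup G) ⊓ N) →
        ∃ h ∈ normalizer (W : Set G), ∀ a ∈ A, n * a * n⁻¹ = h * a * h⁻¹)
    {B : Subgroup G} (hB : B ≤ (S : Subgroup G)) :
    (actW (B ⊓ N) W (normalizer (B : Set G))).Normal := by
  constructor
  rintro y ⟨w, hw, e⟩ g
  have hg₀ : ∀ z ∈ B ⊓ N, (g : G) * z * (g : G)⁻¹ ∈ B ⊓ N := by
    intro z hz
    have hz' := Subgroup.mem_inf.mp hz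
    exact Subgroup.mem_inf.mpr ⟨(mem_normalizer_iff.mp g.2 z).mp hz'.1, hN.conj_mem _ hz'.2 _⟩
  have hg₀' : ∀ z ∈ B ⊓ N, (g : G)⁻¹ * z * (g : G) ∈ B ⊓ N := by
    intro z hz
    have hz' := Subgroup.mem_inf.mp hz
    have h1 := (mem_normalizer_iff.mp (inv_mem g.2) z).mp hz'.1
    have h2 := hN.conj_mem _ hz'.2 (g : G)⁻¹
    rw [inv_inv] at h1 h2
    exact Subgroup.mem_inf.mpr ⟨h1, h2⟩
  obtain ⟨h', hh', he'⟩ := fr_step S hWN hctl (B₀ := B ⊓ N) (inf_le_inf_right _ hB) (g := g)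
    (fun b hb => hB (Subgroup.mem_inf.mp (hg₀ b hb)).1)
  have hh'B₀ : h' ∈ normalizer ((B ⊓ N : Subgroup G) : Set G) :=
    mem_normalizer_of_conj_mem (fun z hz => by
      rw [← he' z hz]
      exact hg₀ z hz)
  have hw' := Subgroup.mem_inf.mp hw
  refine ⟨h' * w * h'⁻¹, Subgroup.mem_inf.mpr ⟨(mem_normalizer_iff.mp hh' w).mp hw'.1,
    mul_mem (mul_mem hh'B₀ hw'.2) (inv_mem hh'B₀)⟩, fun z hz => ?_⟩
  have hz' := hg₀' z hz
  have e1 := he' _ hz'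
  have e2 := e _ hz'
  have hwz : w * ((g : G)⁻¹ * z * (g : G)) * w⁻¹ ∈ B ⊓ N := (mem_normalizer_iff.mp hw'.2 _).mp hz'
  have e3 := he' _ hwz
  have e4 : h' * ((g : G)⁻¹ * z * (g : G)) * h'⁻¹ = z := by
    rw [← e1]
    group
  calc ((g * y * g⁻¹ : ↥(normalizer (B : Set G))) : G) * z * ((g * y * g⁻¹ : ↥(normalizer (B : Set G))) : G)⁻¹
      = (g : G) * ((y : G) * ((g : G)⁻¹ * z * (g : G)) * (y : G)⁻¹) * (g : G)⁻¹ := by
        simp only [Subgroup.coe_mul, Subgroup.coe_inv]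
        group
    _ = (g : G) * (w * ((g : G)⁻¹ * z * (g : G)) * w⁻¹) * (g : G)⁻¹ := by rw [e2]
    _ = h' * (w * ((g : G)⁻¹ * z * (g : G)) * w⁻¹) * h'⁻¹ := e3
    _ = (h' * w * h'⁻¹) * (h' * ((g : G)⁻¹ * z * (g : G)) * h'⁻¹) * (h' * w * h'⁻¹)⁻¹ := by group
    _ = _ := by rw [e4]

/-- Fusion control lifts to a group with `G / N` a `p`-group. -/
theorem control_normal (hq : ∀ x : G, ∃ a : ℕ, x ^ p ^ a ∈ N)
    (hWR : W ≤ (S : Subgroup G) ⊓ N)
    (hWN : normalizer (((S : Subgroup G) ⊓ N : Subgroup G) : Set G) ≤ normalizer (W : Set G))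
    (hctl : ∀ A : Subgroup G, A ≤ (S : Subgroup G) ⊓ N → ∀ n ∈ N,
      (∀ a ∈ A, n * a * n⁻¹ ∈ (S : Subgroup G) ⊓ N) →
        ∃ h ∈ normalizer (W : Set G), ∀ a ∈ A, n * a * n⁻¹ = h * a * h⁻¹)
    (B : Subgroup G) (g : G) (hB : B ≤ (S : Subgroup G))
    (hgB : ∀ b ∈ B, g * b * g⁻¹ ∈ (S : Subgroup G)) : Good (normalizer (W : Set G)) g B := by
  have hWS : W ≤ (S : Subgroup G) := hWR.trans inf_le_left
  have hSR : normalizer ((S : Subgroup G) : Set G) ≤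
      normalizer (((S : Subgroup G) ⊓ N : Subgroup G) : Set G) := by
    intro g hg
    apply mem_normalizer_of_conj_mem
    intro x hx
    have hx' := Subgroup.mem_inf.mp hx
    exact Subgroup.mem_inf.mpr ⟨(mem_normalizer_iff.mp hg x).mp hx'.1, hN.conj_mem _ hx'.2 _⟩
  have hSW : (S : Subgroup G) ≤ normalizer (W : Set G) :=
    (Subgroup.le_normalizer.trans hSR).trans hWN
  refine control_alperin' S _ (hSR.trans hWN) ?_ B g hB hgB
  intro B hBlt hFN IH l hl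
  have hB := hBlt.le
  have hB₀ : B ⊓ N ≤ (S : Subgroup G) ⊓ N := inf_le_inf_right _ hB
  have hl₀ : ∀ z ∈ B ⊓ N, l * z * l⁻¹ ∈ B ⊓ N := by
    intro z hz
    have hz' := Subgroup.mem_inf.mp hz
    exact Subgroup.mem_inf.mpr ⟨(mem_normalizer_iff.mp hl z).mp hz'.1, hN.conj_mem _ hz'.2 _⟩
  by_cases hWB : W ≤ B
  · obtain ⟨h', hh', he'⟩ := fr_step S hWN hctl hB₀ (g := l)
      (fun b hb => hB (Subgroup.mem_inf.mp (hl₀ b hb)).1)
    refine ⟨l, ?_, fun _ _ => rfl⟩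
    apply mem_normalizer_of_conj_mem
    intro w hw
    have hwB₀ : w ∈ B ⊓ N := Subgroup.mem_inf.mpr ⟨hWB hw, (Subgroup.mem_inf.mp (hWR hw)).2⟩
    rw [he' w hwB₀]
    exact (mem_normalizer_iff.mp hh' w).mp hw
  · haveI hDn : (actW (B ⊓ N) W (normalizer (B : Set G))).Normal := actW_normal S hWN hctl hB
    haveI hBn : (B.subgroupOf (normalizer (B : Set G))).Normal :=
      Subgroup.normal_subgroupOf_of_le_normalizer le_rfl
    have hEn : (B.subgroupOf (normalizer (B : Set G)) ⊔ actW (B ⊓ N) W (normalizer (B : Set G))).Normal :=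
      Subgroup.sup_normal _ _
    have hCE : (centralizer (B : Set G)).subgroupOf (normalizer (B : Set G)) ≤
        B.subgroupOf (normalizer (B : Set G)) ⊔ actW (B ⊓ N) W (normalizer (B : Set G)) := by
      intro c hc
      refine (le_sup_right : actW (B ⊓ N) W (normalizer (B : Set G)) ≤ _) ?_
      refine ⟨1, one_mem _, fun z hz => ?_⟩
      have h1 := mem_centralizer_iff.mp (Subgroup.mem_subgroupOf.mp hc) z (Subgroup.mem_inf.mp hz).1
      rw [← h1]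
      simp
    have hEp : ∀ x ∈ B.subgroupOf (normalizer (B : Set G)) ⊔ actW (B ⊓ N) W (normalizer (B : Set G)),
        ∃ a : ℕ, (x : G) ^ p ^ a ∈ centralizer (B : Set G) := by
      intro x hx
      rw [← SetLike.mem_coe, Subgroup.mul_normal] at hx
      obtain ⟨b₁, hb₁, y, hy, rfl⟩ := Set.mem_mul.mp hx
      obtain ⟨c, hc⟩ := S.isPGroup' ⟨b₁, hB (Subgroup.mem_subgroupOf.mp hb₁)⟩
      have hc' : b₁ ^ p ^ c = 1 := by
        apply Subtype.ext
        have h0 := congrArg Subtype.val hc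
        simpa using h0
      have h1 : (b₁ * y) ^ p ^ c ∈ actW (B ⊓ N) W (normalizer (B : Set G)) := by
        rw [← QuotientGroup.eq_one_iff]
        have h2 : ((y : ↥(normalizer (B : Set G))) : ↥(normalizer (B : Set G)) ⧸ actW (B ⊓ N) W (normalizer (B : Set G))) = 1 :=
          (QuotientGroup.eq_one_iff y).mpr hy
        have h4 : ((b₁ * y : ↥(normalizer (B : Set G))) : ↥(normalizer (B : Set G)) ⧸ actW (B ⊓ N) W (normalizer (B : Set G))) =
            ((b₁ : ↥(normalizer (B : Set G))) : ↥(normalizer (B : Set G)) ⧸ actW (B ⊓ N) W (normalizer (B : Set G))) := by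
          rw [QuotientGroup.mk_mul, h2, mul_one]
        rw [QuotientGroup.mk_pow, h4, ← QuotientGroup.mk_pow, hc']
        rfl
      obtain ⟨a, ha⟩ := actW_pow S hq hB hWS h1
      refine ⟨c + a, ?_⟩
      rw [pow_add, pow_mul]
      exact ha
    obtain ⟨m, hmL, hmN, hme⟩ := @frattini_fn p _ G _ _ B S hFN _ hEn hCE hEp l hl
    have hBB₂ : B ≤ (S : Subgroup G) ⊓ (B.subgroupOf (normalizer (B : Set G)) ⊔
        actW (B ⊓ N) W (normalizer (B : Set G))).map (normalizer (B : Set G)).subtype := fun b hb =>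
      Subgroup.mem_inf.mpr ⟨hB hb, ⟨⟨b, Subgroup.le_normalizer hb⟩,
        (le_sup_left : B.subgroupOf (normalizer (B : Set G)) ≤ _) (Subgroup.mem_subgroupOf.mpr hb), rfl⟩⟩
    have hlt : B < (S : Subgroup G) ⊓ (B.subgroupOf (normalizer (B : Set G)) ⊔
        actW (B ⊓ N) W (normalizer (B : Set G))).map (normalizer (B : Set G)).subtype := by
      have hlt0 : B < W ⊔ B := lt_of_le_of_ne le_sup_right (fun h => hWB (h ▸ le_sup_left))
      have hWBp : IsPGroup p ↥(W ⊔ B) := S.isPGroup'.to_le (sup_le hWS hB)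
      obtain ⟨x, hxP, hxB, hxN⟩ := Cfsg.Agent.Lib.PGroup.Basic.exists_mem_normalizer_of_lt hWBp hlt0
      obtain ⟨w, hw, b, hb, rfl⟩ := exists_mul_of_mem_sup (hB.trans hSW) hxP
      have hwN : w ∈ normalizer (B : Set G) := by
        have h1 : w = (w * b) * b⁻¹ := by group
        rw [h1]
        exact mul_mem hxN (inv_mem (Subgroup.le_normalizer hb))
      have hwB : w ∉ B := fun h => hxB (mul_mem h hb)
      refine lt_of_le_of_ne hBB₂ (fun h => hwB ?_)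
      rw [h]
      have hwN₀ : w ∈ normalizer ((B ⊓ N : Subgroup G) : Set G) := by
        apply mem_normalizer_of_conj_mem
        intro z hz
        have hz' := Subgroup.mem_inf.mp hz
        exact Subgroup.mem_inf.mpr ⟨(mem_normalizer_iff.mp hwN z).mp hz'.1, hN.conj_mem _ hz'.2 _⟩
      exact Subgroup.mem_inf.mpr ⟨hWS hw, ⟨⟨w, hwN⟩,
        (le_sup_right : actW (B ⊓ N) W (normalizer (B : Set G)) ≤ _)
          ⟨w, Subgroup.mem_inf.mpr ⟨hw, hwN₀⟩, fun _ _ => rfl⟩, rfl⟩⟩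
    obtain ⟨x, hx, hxe⟩ := IH _ inf_le_left (card_lt_of_lt hlt) m
      (fun b hb => (Subgroup.mem_inf.mp ((mem_normalizer_iff.mp hmN b).mp hb)).1)
    exact ⟨x, hx, fun b hb => (hme b hb).trans (hxe b (hBB₂ hb))⟩

end Main

end Cfsg.Agent.Lib.PGroup.ControlNormal
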