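import Mathlib
import Cfsg.Agent.Lib.Char.CliffordCorr
import Cfsg.Agent.Lib.Char.Values
import Cfsg.Agent.Lib.Char.Integrality

/-!
# Auxiliary lemmas: constituents, norm two, and a parity argument
-/

set_option autoImplicit false
set_option linter.style.haveILetI false

namespace Cfsg.Agent.Lib.PGroup.DegGraphAux

open Cfsg Cfsg.Agent.Lib.Char.Basic Cfsg.Agent.Lib.Char.Ortho Cfsg.Agent.Lib.Char.Induced
  Cfsg.Agent.Lib.Char.CliffordCorr
open scoped ComplexConjugate

universe u

variable {G : Type u} [Group G] [Fintype G]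

/-- Removing an irreducible constituent from a character leaves a character. -/
theorem isCharacter_sub_constituent {ψ β : G → ℂ} (hψ : IsCharacter G ψ)
    (hβ : IsIrrCharacter G β) (h : classInner ψ β ≠ 0) : IsCharacter G (ψ - β) := by
  classical
  obtain ⟨m, hm⟩ := exists_nat_decomp hψ
  let β₀ : IrrCharacter G := ⟨β, hβ⟩
  have hmβ : (m β₀ : ℂ) = classInner ψ β := by
    have := classInner_sum_irr (G := G) (fun ν => (m ν : ℂ)) β₀
    rw [← this]
    congr 1
    rw [hm]
    exact Finset.sum_congr rfl (fun ν _ => by rw [Nat.cast_smul_eq_nsmul])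
  have hm0 : m β₀ ≠ 0 := by
    intro h0
    rw [h0] at hmβ
    exact h (by simpa using hmβ.symm)
  obtain ⟨k, hk⟩ : ∃ k, m β₀ = k + 1 := ⟨m β₀ - 1, by omega⟩
  let Ξ : G → ℂ := ∑ ν ∈ Finset.univ.erase β₀, m ν • (ν : G → ℂ)
  have hΞ : IsCharacter G Ξ := by
    refine isCharacter_finset_sum _ (fun ν _ => ?_)
    exact isCharacter_nsmul (isCharacter_of_isIrrCharacter ν.2) _
  have hdec : ψ - β = k • β + Ξ := by
    rw [hm, ← Finset.add_sum_erase _ _ (Finset.mem_univ β₀), hk]
    show ((k + 1) • β + Ξ) - β = k • β + Ξ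
    rw [add_smul, one_smul]
    abel
  rw [hdec]
  exact isCharacter_add (isCharacter_nsmul (isCharacter_of_isIrrCharacter hβ) k) hΞ

/-- A character of norm two is a sum of two irreducible characters. -/
theorem exists_two_of_norm_two {ξ : G → ℂ} (hξ : IsCharacter G ξ) (h1 : ξ 1 ≠ 0)
    (h : classInner ξ ξ = 2) :
    ∃ χ₁ χ₂ : G → ℂ, IsIrrCharacter G χ₁ ∧ IsIrrCharacter G χ₂ ∧ ξ = χ₁ + χ₂ := by
  obtain ⟨χ₁, hχ₁, hne⟩ := exists_irr_constituent hξ h1
  have hΞ := isCharacter_sub_constituent hξ hχ₁ hne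
  obtain ⟨n, hn⟩ := exists_nat_classInner_of_isCharacter hξ (isCharacter_of_isIrrCharacter hχ₁)
  obtain ⟨k, hk⟩ := exists_nat_classInner_of_isCharacter hΞ hΞ
  have hn' : classInner χ₁ ξ = n := by
    rw [← classInner_conj_symm, hn]
    simp
  have hnorm : classInner (ξ - χ₁) (ξ - χ₁) = 2 - n - n + 1 := by
    rw [classInner_sub_left, classInner_sub_right, classInner_sub_right, h, hn, hn',
      classInner_irr_self hχ₁]
    ring
  have hn0 : n ≠ 0 := by
    rintro rfl
    exact hne (by simpa using hn)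
  have hnat : k + 2 * n = 3 := by
    have : ((k + 2 * n : ℕ) : ℂ) = ((3 : ℕ) : ℂ) := by
      push_cast
      rw [← hk, hnorm]
      ring
    exact_mod_cast this
  have hk1 : k = 1 := by omega
  refine ⟨χ₁, ξ - χ₁, hχ₁, isIrrCharacter_of_classInner_self_eq_one hΞ ?_, by abel⟩
  rw [hk, hk1]
  simp

/-! ### Parity -/

/-- A fixed point free permutation of `2`-power order moves an even number of points. -/
theorem even_card_of_perm {X : Type*} [Finite X] (π : Equiv.Perm X) (k : ℕ) (hk : π ^ 2 ^ k = 1)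
    (hfix : ∀ x, π x ≠ x) : Even (Nat.card X) := by
  classical
  let P : Subgroup (Equiv.Perm X) := Subgroup.zpowers π
  have hP : IsPGroup 2 P := by
    rintro ⟨y, n, rfl⟩
    refine ⟨k, ?_⟩
    apply Subtype.ext
    simp only [Subgroup.coe_pow, Subgroup.coe_one]
    show ((π ^ n) ^ 2 ^ k) = 1
    rw [← zpow_natCast, ← zpow_mul, mul_comm, zpow_mul, zpow_natCast, hk, one_zpow]
  haveI : Fact (Nat.Prime 2) := ⟨Nat.prime_two⟩
  have h1 := hP.card_modEq_card_fixedPoints X
  have h2 : IsEmpty (MulAction.fixedPoints P X) := by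
    refine ⟨fun x => ?_⟩
    have := x.2 ⟨π, Subgroup.mem_zpowers π⟩
    exact hfix x.1 this
  have h3 : Nat.card (MulAction.fixedPoints P X) = 0 := Nat.card_of_isEmpty
  rw [h3] at h1
  exact Nat.even_iff.2 (by simpa [Nat.ModEq] using h1)

/-- The sum of an invariant function over a set with a fixed point free permutation of `2`-power
order is twice an algebraic integer. -/
theorem exists_half {X : Type*} [Fintype X] (π : Equiv.Perm X) (k : ℕ) (hk : π ^ 2 ^ k = 1)
    (hfix : ∀ x, π x ≠ x) (f : X → ℂ) (hf : ∀ x, f (π x) = f x)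
    (hint : ∀ x, IsIntegral ℤ (f x)) : ∃ A : ℂ, IsIntegral ℤ A ∧ ∑ x, f x = 2 * A := by
  classical
  have heven : ∀ v : ℂ, Even (Nat.card {x // f x = v}) := by
    intro v
    have hp : ∀ x, f (π x) = v ↔ f x = v := fun x => by rw [hf]
    refine even_card_of_perm (π.subtypePerm hp) k ?_ ?_
    · rw [Equiv.Perm.subtypePerm_pow]
      ext x
      simp [hk]
    · rintro ⟨x, hx⟩ h
      exact hfix x (congrArg Subtype.val h)
  choose m hm using heven
  refine ⟨∑ v ∈ Finset.univ.image f, (m v : ℂ) * v, ?_, ?_⟩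
  · refine IsIntegral.sum _ fun v hv => ?_
    obtain ⟨x, -, rfl⟩ := Finset.mem_image.1 hv
    exact (isIntegral_natCast _).mul (hint x)
  · rw [← Finset.sum_fiberwise_of_maps_to (g := f) (t := Finset.univ.image f)
      (fun x _ => Finset.mem_image_of_mem f (Finset.mem_univ x)), Finset.mul_sum]
    refine Finset.sum_congr rfl fun v _ => ?_
    have h1 : ∀ x ∈ Finset.univ.filter (fun x => f x = v), f x = v := fun x hx =>
      (Finset.mem_filter.1 hx).2
    rw [Finset.sum_congr rfl h1, Finset.sum_const, nsmul_eq_mul]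
    have h2 : (Finset.univ.filter (fun x => f x = v)).card = Nat.card {x // f x = v} := by
      rw [Nat.card_eq_fintype_card, Fintype.card_subtype]
    rw [h2, hm v]
    push_cast
    ring

theorem arith_aux : ∀ d₁ < 29, d₁ ∣ 6048 → (28 - d₁) ∣ 6048 → (1 + d₁) % 2 = 0 →
    (1 + (28 - d₁)) % 2 = 0 → d₁ ≠ 1 → (28 - d₁) ≠ 1 → 21 ∣ d₁ ∨ 21 ∣ (28 - d₁) := by
  intro d hd
  interval_cases d <;> norm_num

end Cfsg.Agent.Lib.PGroup.DegGraphAux
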