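import Mathlib
import Cfsg.Prelude.Def_DegreeGraph
import Cfsg.Agent.Lib.Char.CliffordCorr
import Cfsg.Agent.Lib.Char.LinearChars
import Cfsg.Agent.Lib.Char.IndRep
import Cfsg.Agent.Lib.Char.BrauerSCNum
import Cfsg.Agent.Lib.Char.PDerived
import Cfsg.Agent.Lib.Char.DegreeDvd
import Cfsg.Agent.Lib.Char.Burnside2

/-!
# Solvable groups of order `6048` with prescribed degree graphs

Two solvable groups `X × Y` of order `6048`: both have irreducible degrees divisible by `14` and by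
`21`, one has a degree divisible by `6`, the other has none.
-/

set_option autoImplicit false
set_option linter.style.haveILetI false

namespace Cfsg.Agent.Lib.PGroup.DegGraphH

open Cfsg Cfsg.Agent.Lib.Char.Basic Cfsg.Agent.Lib.Char.Ortho Cfsg.Agent.Lib.Char.Induced
  Cfsg.Agent.Lib.Char.IndRep Cfsg.Agent.Lib.Char.Clifford Cfsg.Agent.Lib.Char.CliffordCorr
  Cfsg.Agent.Lib.Char.LinearChars
open scoped ComplexConjugate

universe u v

/-! ### Clifford theory for a linear character -/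

/-- If `ψ` is a linear character of a normal subgroup whose inertia group lies in `K`, some
irreducible character has degree divisible by `|G : K|`. -/
theorem exists_irr_index_dvd {G : Type u} [Group G] [Fintype G] (N : Subgroup G) [hN : N.Normal]
    (ψ : N →* ℂˣ) (K : Subgroup G)
    (hK : ∀ g : G, (∀ n : N, ψ ⟨g * n * g⁻¹, hN.conj_mem n n.2 g⟩ = ψ n) → g ∈ K) :
    ∃ χ : G → ℂ, IsIrrCharacter G χ ∧ ∃ m : ℕ, χ 1 = m ∧ K.index ∣ m := by
  classical
  haveI : Fintype N := Fintype.ofFinite _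
  let ϑ : N → ℂ := fun n => ((ψ n : ℂˣ) : ℂ)
  have hϑ : IsIrrCharacter N ϑ := isIrr_of_hom ψ
  have hϑ1 : ϑ 1 = 1 := by simp [ϑ]
  have hind : IsCharacter G (indFun N ϑ) :=
    isCharacter_indFun N (isCharacter_of_isIrrCharacter hϑ)
  have h1 : indFun N ϑ 1 ≠ 0 := by
    rw [indFun_one, hϑ1, mul_one]
    exact_mod_cast Subgroup.index_ne_zero_of_finite
  obtain ⟨χ, hχ, hne⟩ := exists_irr_constituent hind h1
  have hχc : IsCharacter G χ := isCharacter_of_isIrrCharacter hχ
  rw [frobenius_reciprocity N ϑ χ (isClassFunction_of_isCharacter hχc)] at hne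
  have hcon : classInner (fun n : N => χ n) ϑ ≠ 0 := by
    intro h0
    apply hne
    rw [← classInner_conj_symm, h0]
    simp
  let T : Subgroup G :=
    { carrier := {g | ∀ n : N, ψ ⟨g * n * g⁻¹, hN.conj_mem n n.2 g⟩ = ψ n}
      one_mem' := fun n => by simp
      mul_mem' := fun {a b} ha hb n => by
        have h2 := ha ⟨b * n * b⁻¹, hN.conj_mem n n.2 b⟩
        have h3 := hb n
        rw [← h3, ← h2]
        congr 1
        apply Subtype.ext
        simp only [mul_inv_rev]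
        group
      inv_mem' := fun {a} ha n => by
        have h2 := ha ⟨a⁻¹ * n * a⁻¹⁻¹, hN.conj_mem n n.2 a⁻¹⟩
        rw [← h2]
        congr 1
        apply Subtype.ext
        simp only [inv_inv]
        group }
  have hT : ∀ g : G, g ∈ T ↔ ∀ n : N, ϑ ⟨g * n * g⁻¹, hN.conj_mem (n : G) n.2 g⟩ = ϑ n := by
    intro g
    constructor
    · intro h n
      simp only [ϑ]
      rw [h n]
    · intro h n
      exact Units.ext (h n)
  have hTK : T ≤ K := fun g hg => hK g hg
  have hχ1 := apply_one_eq N ϑ T hϑ hT hχ hcon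
  obtain ⟨e, he⟩ := exists_nat_classInner_of_isCharacter
    (isCharacter_restrict hχc N) (isCharacter_of_isIrrCharacter hϑ)
  have he' : classInner (fun n : N => χ n) ϑ = e := he
  rw [he', hϑ1, mul_one] at hχ1
  refine ⟨χ, hχ, e * T.index, ?_, ?_⟩
  · rw [hχ1]
    push_cast
    ring
  · exact Dvd.dvd.mul_left (Subgroup.index_dvd_of_le hTK) e

/-! ### Tensor products of characters of direct factors -/

theorem classInner_prod {A : Type u} {B : Type v} [Group A] [Group B] [Fintype A] [Fintype B]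
    (α α' : A → ℂ) (β β' : B → ℂ) :
    classInner (fun z : A × B => α z.1 * β z.2) (fun z : A × B => α' z.1 * β' z.2) =
      classInner α α' * classInner β β' := by
  classical
  simp only [classInner_def, Nat.card_prod, Fintype.sum_prod_type]
  push_cast
  rw [mul_inv]
  simp only [map_mul]
  rw [mul_mul_mul_comm]
  congr 1
  rw [Finset.sum_mul_sum]
  refine Finset.sum_congr rfl fun a _ => Finset.sum_congr rfl fun b _ => ?_
  ring

theorem isIrr_tensor {A : Type u} {B : Type v} [Group A] [Group B] [Fintype A] [Fintype B]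
    {α : A → ℂ} {β : B → ℂ} (hα : IsIrrCharacter A α) (hβ : IsIrrCharacter B β) :
    IsIrrCharacter (A × B) (fun z : A × B => α z.1 * β z.2) := by
  have h1 : IsCharacter (A × B) (fun z : A × B => α z.1) :=
    isCharacter_comp_hom (isCharacter_of_isIrrCharacter hα) (MonoidHom.fst A B)
  have h2 : IsCharacter (A × B) (fun z : A × B => β z.2) :=
    isCharacter_comp_hom (isCharacter_of_isIrrCharacter hβ) (MonoidHom.snd A B)
  have h3 := isCharacter_mul h1 h2
  refine isIrrCharacter_of_classInner_self_eq_one h3 ?_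
  show classInner (fun z : A × B => α z.1 * β z.2) (fun z : A × B => α z.1 * β z.2) = 1
  rw [classInner_prod, classInner_irr_self hα, classInner_irr_self hβ, one_mul]

/-! ### The groups `Tri t` of order `108` -/

/-- The endomorphism of the units: the identity when `t` holds, trivial otherwise. -/
def del (t : Bool) : (ZMod 3)ˣ →* (ZMod 3)ˣ := if t then MonoidHom.id _ else 1

/-- Upper triangular matrices `[[δ a, b, c], [0, d, e], [0, 0, 1]]` together with `a`. -/
@[ext] structure Tri (t : Bool) where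
  a : (ZMod 3)ˣ
  d : (ZMod 3)ˣ
  b : ZMod 3
  c : ZMod 3
  e : ZMod 3

namespace Tri

variable {t : Bool}

instance : Mul (Tri t) :=
  ⟨fun x y => ⟨x.a * y.a, x.d * y.d, (del t x.a : ZMod 3) * y.b + x.b * y.d,
    (del t x.a : ZMod 3) * y.c + x.b * y.e + x.c, x.d * y.e + x.e⟩⟩

instance : One (Tri t) := ⟨⟨1, 1, 0, 0, 0⟩⟩

instance : Inv (Tri t) :=
  ⟨fun x => ⟨x.a⁻¹, x.d⁻¹, -((del t x.a⁻¹ : (ZMod 3)ˣ) : ZMod 3) * x.b * (x.d⁻¹ : (ZMod 3)ˣ),
    -((del t x.a⁻¹ : (ZMod 3)ˣ) : ZMod 3) * x.c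
      - (-((del t x.a⁻¹ : (ZMod 3)ˣ) : ZMod 3) * x.b * (x.d⁻¹ : (ZMod 3)ˣ)) * x.e,
    -((x.d⁻¹ : (ZMod 3)ˣ) : ZMod 3) * x.e⟩⟩

@[simp] theorem mul_a (x y : Tri t) : (x * y).a = x.a * y.a := rfl
@[simp] theorem mul_d (x y : Tri t) : (x * y).d = x.d * y.d := rfl
@[simp] theorem mul_b (x y : Tri t) : (x * y).b = (del t x.a : ZMod 3) * y.b + x.b * y.d := rfl
@[simp] theorem mul_c (x y : Tri t) :
    (x * y).c = (del t x.a : ZMod 3) * y.c + x.b * y.e + x.c := rfl
@[simp] theorem mul_e (x y : Tri t) : (x * y).e = x.d * y.e + x.e := rfl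
@[simp] theorem one_a : (1 : Tri t).a = 1 := rfl
@[simp] theorem one_d : (1 : Tri t).d = 1 := rfl
@[simp] theorem one_b : (1 : Tri t).b = 0 := rfl
@[simp] theorem one_c : (1 : Tri t).c = 0 := rfl
@[simp] theorem one_e : (1 : Tri t).e = 0 := rfl
@[simp] theorem inv_a (x : Tri t) : (x⁻¹).a = x.a⁻¹ := rfl
@[simp] theorem inv_d (x : Tri t) : (x⁻¹).d = x.d⁻¹ := rfl
theorem inv_b (x : Tri t) : (x⁻¹).b =
    -((del t x.a⁻¹ : (ZMod 3)ˣ) : ZMod 3) * x.b * (x.d⁻¹ : (ZMod 3)ˣ) := rfl
theorem inv_c (x : Tri t) : (x⁻¹).c = -((del t x.a⁻¹ : (ZMod 3)ˣ) : ZMod 3) * x.c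
      - (-((del t x.a⁻¹ : (ZMod 3)ˣ) : ZMod 3) * x.b * (x.d⁻¹ : (ZMod 3)ˣ)) * x.e := rfl
theorem inv_e (x : Tri t) : (x⁻¹).e = -((x.d⁻¹ : (ZMod 3)ˣ) : ZMod 3) * x.e := rfl

theorem del_mul_del_inv (u : (ZMod 3)ˣ) :
    ((del t u⁻¹ : (ZMod 3)ˣ) : ZMod 3) * (del t u : (ZMod 3)ˣ) = 1 := by
  rw [← Units.val_mul, ← map_mul, inv_mul_cancel, map_one, Units.val_one]

theorem val_inv_mul (u : (ZMod 3)ˣ) : ((u⁻¹ : (ZMod 3)ˣ) : ZMod 3) * u = 1 := by
  rw [← Units.val_mul, inv_mul_cancel, Units.val_one]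

instance : Group (Tri t) :=
  Group.ofLeftAxioms
    (fun x y z => by
      ext <;> simp only [mul_a, mul_d, mul_b, mul_c, mul_e, map_mul, Units.val_mul, mul_assoc] <;> ring)
    (fun x => by
      ext <;> simp [map_one])
    (fun x => by
      have h1 := del_mul_del_inv (t := t) x.a
      have h2 := val_inv_mul x.d
      ext
      · simp
      · simp
      · simp only [mul_b, inv_a, inv_b, one_b]
        linear_combination ((-((del t x.a⁻¹ : (ZMod 3)ˣ) : ZMod 3)) * x.b) * h2 +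
          ((del t x.a⁻¹ : (ZMod 3)ˣ) : ZMod 3) * x.b
      · simp only [mul_c, inv_a, inv_b, inv_c, one_c]
        ring
      · simp only [mul_e, inv_d, inv_e, one_e]
        ring)

/-- The product decomposition of `Tri t`. -/
def equivProd : Tri t ≃ (ZMod 3)ˣ × (ZMod 3)ˣ × ZMod 3 × ZMod 3 × ZMod 3 where
  toFun x := (x.a, x.d, x.b, x.c, x.e)
  invFun p := ⟨p.1, p.2.1, p.2.2.1, p.2.2.2.1, p.2.2.2.2⟩
  left_inv _ := rfl
  right_inv _ := rfl

noncomputable instance : Fintype (Tri t) := Fintype.ofEquiv _ equivProd.symm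

theorem card_units3 : Nat.card (ZMod 3)ˣ = 2 := by
  rw [Nat.card_eq_fintype_card, ZMod.card_units_eq_totient]
  rfl

theorem card_zmod3 : Nat.card (ZMod 3) = 3 := by
  rw [Nat.card_eq_fintype_card, ZMod.card]

theorem card_eq : Nat.card (Tri t) = 108 := by
  rw [Nat.card_congr equivProd]
  simp only [Nat.card_prod, card_units3, card_zmod3]

/-- The translations. -/
def N (t : Bool) : Subgroup (Tri t) where
  carrier := {x | x.a = 1 ∧ x.d = 1 ∧ x.b = 0}
  mul_mem' := by
    rintro x y ⟨h1, h2, h3⟩ ⟨h4, h5, h6⟩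
    refine ⟨by simp [h1, h4], by simp [h2, h5], by simp [h3, h6]⟩
  one_mem' := ⟨rfl, rfl, rfl⟩
  inv_mem' := by
    rintro x ⟨h1, h2, h3⟩
    refine ⟨by simp [h1], by simp [h2], ?_⟩
    show (x⁻¹).b = 0
    rw [inv_b, h3]
    ring

theorem mul_eq_of_mem_N (g n : Tri t) (hn : n ∈ N t) :
    g * n = (⟨1, 1, 0, (del t g.a : ZMod 3) * n.c + g.b * n.e, g.d * n.e⟩ : Tri t) * g := by
  obtain ⟨h1, h2, h3⟩ := hn
  ext <;> simp [h1, h2, h3] <;> ring

theorem conj_of_mem_N (g n : Tri t) (hn : n ∈ N t) :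
    g * n * g⁻¹ = (⟨1, 1, 0, (del t g.a : ZMod 3) * n.c + g.b * n.e, g.d * n.e⟩ : Tri t) := by
  rw [mul_eq_of_mem_N g n hn, mul_inv_cancel_right]

instance : (N t).Normal := ⟨fun n hn g => by
  rw [conj_of_mem_N g n hn]
  exact ⟨rfl, rfl, rfl⟩⟩

/-- A linear character from an additive function to `ZMod 3`. -/
noncomputable def linZ {G : Type*} [Group G] (f : G → ZMod 3) (hf : ∀ x y, f (x * y) = f x + f y) :
    G →* ℂˣ :=
  MonoidHom.mk' (fun x => Units.mk0 (ZMod.stdAddChar (N := 3) (f x))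
    (AddChar.val_isUnit _ _).ne_zero) (fun x y => by
      apply Units.ext
      simp only [Units.val_mul, Units.val_mk0, hf, AddChar.map_add_eq_mul])

theorem linZ_eq_iff {G : Type*} [Group G] {f : G → ZMod 3} (hf : ∀ x y, f (x * y) = f x + f y)
    (x y : G) : linZ f hf x = linZ f hf y ↔ f x = f y := by
  constructor
  · intro h
    have h2 := congrArg Units.val h
    exact ZMod.injective_stdAddChar h2
  · intro h
    apply Units.ext
    show ZMod.stdAddChar (f x) = ZMod.stdAddChar (f y)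
    rw [h]

/-- The inertia-group bound for the coordinate `c`. -/
def Kc (t : Bool) : Subgroup (Tri t) where
  carrier := {x | del t x.a = 1 ∧ x.b = 0}
  mul_mem' := by
    rintro x y ⟨h1, h3⟩ ⟨h4, h6⟩
    refine ⟨by simp [h1, h4], by simp [h3, h6]⟩
  one_mem' := ⟨map_one _, rfl⟩
  inv_mem' := by
    rintro x ⟨h1, h3⟩
    refine ⟨by simp [h1], ?_⟩
    show (x⁻¹).b = 0
    rw [inv_b, h3]
    ring

def Kd (t : Bool) : Subgroup (Tri t) where
  carrier := {x | x.d = 1}
  mul_mem' := by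
    rintro x y h1 h4
    show x.d * y.d = 1
    rw [h1, h4, one_mul]
  one_mem' := rfl
  inv_mem' := by
    rintro x h1
    show x.d⁻¹ = 1
    rw [h1, inv_one]

theorem N_c_add (x y : N t) : (x * y : N t).1.c = x.1.c + y.1.c := by
  have h : del t x.1.a = 1 := by rw [x.2.1, map_one]
  have h2 : x.1.b = 0 := x.2.2.2
  simp only [Subgroup.coe_mul, mul_c, h, h2, Units.val_one]
  ring

theorem N_e_add (x y : N t) : (x * y : N t).1.e = x.1.e + y.1.e := by
  have h : x.1.d = 1 := x.2.2.1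
  simp only [Subgroup.coe_mul, mul_e, h, Units.val_one]
  ring

theorem mkN_mem (c e : ZMod 3) : (⟨1, 1, 0, c, e⟩ : Tri t) ∈ N t := ⟨rfl, rfl, rfl⟩

theorem exists_irr_Kc (t : Bool) : ∃ χ : Tri t → ℂ, IsIrrCharacter (Tri t) χ ∧
    ∃ m : ℕ, χ 1 = m ∧ (Kc t).index ∣ m := by
  refine exists_irr_index_dvd (N t) (linZ (fun n : N t => n.1.c) N_c_add) (Kc t) ?_
  intro g hg
  have key : ∀ n : N t, (del t g.a : ZMod 3) * n.1.c + g.b * n.1.e = n.1.c := by
    intro n
    have := (linZ_eq_iff N_c_add _ _).1 (hg n)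
    simpa [conj_of_mem_N g n.1 n.2] using this
  have h1 := key ⟨_, mkN_mem 1 0⟩
  have h2 := key ⟨_, mkN_mem 0 1⟩
  simp only [mul_one, mul_zero, add_zero, zero_add] at h1 h2
  exact ⟨Units.ext (by simpa using h1), h2⟩

theorem exists_irr_Kd (t : Bool) : ∃ χ : Tri t → ℂ, IsIrrCharacter (Tri t) χ ∧
    ∃ m : ℕ, χ 1 = m ∧ (Kd t).index ∣ m := by
  refine exists_irr_index_dvd (N t) (linZ (fun n : N t => n.1.e) N_e_add) (Kd t) ?_
  intro g hg
  have key : ∀ n : N t, (g.d : ZMod 3) * n.1.e = n.1.e := by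
    intro n
    have := (linZ_eq_iff N_e_add _ _).1 (hg n)
    simpa [conj_of_mem_N g n.1 n.2] using this
  have h2 := key ⟨_, mkN_mem 0 1⟩
  simp only [mul_one] at h2
  exact Units.ext (by simpa using h2)

theorem del_true (u : (ZMod 3)ˣ) : del true u = u := rfl
theorem del_false (u : (ZMod 3)ˣ) : del false u = 1 := rfl

theorem index_Kc_true : (Kc true).index = 6 := by
  have e : Kc true ≃ (ZMod 3)ˣ × ZMod 3 × ZMod 3 :=
    { toFun := fun x => (x.1.d, x.1.c, x.1.e)
      invFun := fun p => ⟨⟨1, p.1, 0, p.2.1, p.2.2⟩, map_one _, rfl⟩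
      left_inv := fun x => by
        obtain ⟨x, h1, h2⟩ := x
        apply Subtype.ext
        rw [del_true] at h1
        ext <;> simp [h1, h2]
      right_inv := fun _ => rfl }
  have h := Subgroup.card_mul_index (Kc true)
  rw [Nat.card_congr e, card_eq] at h
  simp only [Nat.card_prod, card_units3, card_zmod3] at h
  omega

theorem index_Kc_false : (Kc false).index = 3 := by
  have e : Kc false ≃ (ZMod 3)ˣ × (ZMod 3)ˣ × ZMod 3 × ZMod 3 :=
    { toFun := fun x => (x.1.a, x.1.d, x.1.c, x.1.e)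
      invFun := fun p => ⟨⟨p.1, p.2.1, 0, p.2.2.1, p.2.2.2⟩, rfl, rfl⟩
      left_inv := fun x => by
        obtain ⟨x, h1, h2⟩ := x
        apply Subtype.ext
        ext <;> simp [h2]
      right_inv := fun _ => rfl }
  have h := Subgroup.card_mul_index (Kc false)
  rw [Nat.card_congr e, card_eq] at h
  simp only [Nat.card_prod, card_units3, card_zmod3] at h
  omega

theorem index_Kd (t : Bool) : (Kd t).index = 2 := by
  have e : Kd t ≃ (ZMod 3)ˣ × ZMod 3 × ZMod 3 × ZMod 3 :=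
    { toFun := fun x => (x.1.a, x.1.b, x.1.c, x.1.e)
      invFun := fun p => ⟨⟨p.1, 1, p.2.1, p.2.2.1, p.2.2.2⟩, rfl⟩
      left_inv := fun x => by
        obtain ⟨x, h1⟩ := x
        apply Subtype.ext
        have h1' : x.d = 1 := h1
        ext <;> simp [h1']
      right_inv := fun _ => rfl }
  have h := Subgroup.card_mul_index (Kd t)
  rw [Nat.card_congr e, card_eq] at h
  simp only [Nat.card_prod, card_units3, card_zmod3] at h
  omega

theorem central_false (a : (ZMod 3)ˣ) (c : ZMod 3) (y : Tri false) :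
    y * (⟨a, 1, 0, c, 0⟩ : Tri false) = (⟨a, 1, 0, c, 0⟩ : Tri false) * y := by
  ext <;> simp [del_false, mul_comm] <;> ring

end Tri

/-! ### The affine group of a field -/

/-- The affine group `x ↦ u x + t`. -/
@[ext] structure AGL (F : Type*) [Field F] where
  u : Fˣ
  t : F

namespace AGL

variable {F : Type*} [Field F]

instance : Mul (AGL F) := ⟨fun x y => ⟨x.u * y.u, (x.u : F) * y.t + x.t⟩⟩
instance : One (AGL F) := ⟨⟨1, 0⟩⟩
instance : Inv (AGL F) := ⟨fun x => ⟨x.u⁻¹, -((x.u⁻¹ : Fˣ) : F) * x.t⟩⟩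

@[simp] theorem mul_u (x y : AGL F) : (x * y).u = x.u * y.u := rfl
@[simp] theorem mul_t (x y : AGL F) : (x * y).t = (x.u : F) * y.t + x.t := rfl
@[simp] theorem one_u : (1 : AGL F).u = 1 := rfl
@[simp] theorem one_t : (1 : AGL F).t = 0 := rfl
@[simp] theorem inv_u (x : AGL F) : (x⁻¹).u = x.u⁻¹ := rfl
theorem inv_t (x : AGL F) : (x⁻¹).t = -((x.u⁻¹ : Fˣ) : F) * x.t := rfl

instance : Group (AGL F) :=
  Group.ofLeftAxioms
    (fun x y z => by
      ext <;> simp only [mul_u, mul_t, Units.val_mul, mul_assoc] <;> ring)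
    (fun x => by
      ext <;> simp)
    (fun x => by
      ext
      · simp
      · simp only [mul_t, inv_u, inv_t, one_t]
        ring)

/-- The product decomposition of `AGL F`. -/
def equivProd : AGL F ≃ Fˣ × F where
  toFun x := (x.u, x.t)
  invFun p := ⟨p.1, p.2⟩
  left_inv _ := rfl
  right_inv _ := rfl

noncomputable instance [Fintype F] : Fintype (AGL F) := by
  classical
  exact Fintype.ofEquiv _ equivProd.symm

/-- The translations. -/
def N (F : Type*) [Field F] : Subgroup (AGL F) where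
  carrier := {x | x.u = 1}
  mul_mem' := by
    rintro x y h1 h2
    show x.u * y.u = 1
    rw [h1, h2, one_mul]
  one_mem' := rfl
  inv_mem' := by
    rintro x h1
    show x.u⁻¹ = 1
    rw [h1, inv_one]

theorem mul_eq_of_mem_N (g n : AGL F) (hn : n ∈ N F) :
    g * n = (⟨1, (g.u : F) * n.t⟩ : AGL F) * g := by
  have h1 : n.u = 1 := hn
  ext <;> simp [h1] <;> ring

theorem conj_of_mem_N (g n : AGL F) (hn : n ∈ N F) :
    g * n * g⁻¹ = (⟨1, (g.u : F) * n.t⟩ : AGL F) := by
  rw [mul_eq_of_mem_N g n hn, mul_inv_cancel_right]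

instance : (N F).Normal := ⟨fun n hn g => by
  rw [conj_of_mem_N g n hn]
  rfl⟩

theorem card_eq [Fintype F] (hF : Fintype.card F = 8) : Nat.card (AGL F) = 56 := by
  classical
  rw [Nat.card_congr equivProd, Nat.card_prod, Nat.card_eq_fintype_card, Nat.card_eq_fintype_card,
    Fintype.card_units, hF]

theorem card_N [Fintype F] (hF : Fintype.card F = 8) : Nat.card (N F) = 8 := by
  have e : N F ≃ F :=
    { toFun := fun x => x.1.t
      invFun := fun t => ⟨⟨1, t⟩, rfl⟩
      left_inv := fun x => by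
        obtain ⟨x, h1⟩ := x
        apply Subtype.ext
        have h1' : x.u = 1 := h1
        ext <;> simp [h1']
      right_inv := fun _ => rfl }
  rw [Nat.card_congr e, Nat.card_eq_fintype_card, hF]

theorem index_N [Fintype F] (hF : Fintype.card F = 8) : (N F).index = 7 := by
  have h := Subgroup.card_mul_index (N F)
  rw [card_N hF, card_eq hF] at h
  omega

theorem N_t_add (x y : N F) : (x * y : N F).1.t = x.1.t + y.1.t := by
  have h : x.1.u = 1 := x.2
  simp only [Subgroup.coe_mul, mul_t, h, Units.val_one]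
  ring

/-- A linear character from an additive character. -/
noncomputable def linA {G A : Type*} [Group G] [AddCommGroup A] (ψ : AddChar A ℂ) (f : G → A)
    (hf : ∀ x y, f (x * y) = f x + f y) : G →* ℂˣ :=
  MonoidHom.mk' (fun x => Units.mk0 (ψ (f x)) (AddChar.val_isUnit _ _).ne_zero) (fun x y => by
      apply Units.ext
      simp only [Units.val_mul, Units.val_mk0, hf, AddChar.map_add_eq_mul])

theorem exists_irr_index [Fintype F] (hF : Fintype.card F = 8) :
    ∃ χ : AGL F → ℂ, IsIrrCharacter (AGL F) χ ∧ ∃ m : ℕ, χ 1 = m ∧ 7 ∣ m := by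
  classical
  have h10 : (1 : F) ≠ 0 := one_ne_zero
  obtain ⟨ψ, hψ⟩ : ∃ ψ : AddChar F ℂ, ψ 1 ≠ 1 := (AddChar.exists_apply_ne_zero).2 h10
  rw [← index_N hF]
  refine exists_irr_index_dvd (N F) (linA ψ (fun n : N F => n.1.t) N_t_add) (N F) ?_
  intro g hg
  by_contra hne
  have hg1 : (g.u : F) - 1 ≠ 0 := by
    intro h0
    apply hne
    apply Units.ext
    simpa [sub_eq_zero] using h0
  have key : ∀ n : N F, ψ ((g.u : F) * n.1.t) = ψ n.1.t := by
    intro n
    have h2 := congrArg Units.val (hg n)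
    simpa [linA, conj_of_mem_N g n.1 n.2] using h2
  let t₀ : F := ((g.u : F) - 1)⁻¹
  have h3 := key ⟨⟨1, t₀⟩, rfl⟩
  have h4 : (g.u : F) * t₀ = t₀ + 1 := by
    simp only [t₀]
    field_simp
    ring
  simp only [h4, AddChar.map_add_eq_mul] at h3
  have h5 : ψ t₀ ≠ 0 := (AddChar.val_isUnit _ _).ne_zero
  exact hψ (mul_left_cancel₀ h5 (by rw [h3, mul_one]))

end AGL

/-! ### No degree divisible by `6` in the second group -/

open Cfsg.Agent.Lib.Char.PDerived in
theorem no_six {F : Type*} [Field F] [Fintype F] (hF : Fintype.card F = 8)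
    {χ : AGL F × Tri false → ℂ} (hχ : IsIrrCharacter (AGL F × Tri false) χ) {m : ℕ}
    (hm : χ 1 = m) : ¬ 6 ∣ m := by
  classical
  intro h6
  let M : Subgroup (AGL F × Tri false) := (AGL.N F).prod ⊤
  haveI : M.Normal := Subgroup.prod_normal _ _
  haveI : Fintype M := Fintype.ofFinite _
  have hχc := isCharacter_of_isIrrCharacter hχ
  have h0 := irr_apply_one_ne_zero hχ
  obtain ⟨ϑ, hϑ, hcon⟩ := exists_irr_constituent (isCharacter_restrict hχc M)
    (by simpa using h0)
  obtain ⟨e, he, hed⟩ := Cfsg.Agent.Lib.Char.DegreeDvd.exists_degree_ratio M hχ hϑ hcon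
  obtain ⟨k, hk0, hk⟩ := irr_degree_pos hϑ
  have hidx : M.index = 7 := by
    simp [M, Subgroup.index_prod, AGL.index_N hF]
  rw [hidx] at hed
  have hmk : m = e * k := by
    have : (m : ℂ) = ((e * k : ℕ) : ℂ) := by
      rw [← hm, he, hk]
      push_cast
      ring
    exact_mod_cast this
  have he7 : e = 1 ∨ e = 7 := (Nat.dvd_prime (by norm_num)).1 hed
  have h6k : 6 ∣ k := by
    rw [hmk] at h6
    rcases he7 with rfl | rfl
    · simpa using h6
    · exact (Nat.Coprime.dvd_mul_left (by norm_num)).1 h6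
  have hk6 : 6 ≤ k := Nat.le_of_dvd hk0 h6k
  -- the centre of `M` is large
  have hcardM : Nat.card M = 864 := by
    have h1 : Nat.card M = Nat.card (AGL.N F) * Nat.card (⊤ : Subgroup (Tri false)) := by
      rw [← Nat.card_prod]
      exact Nat.card_congr (Subgroup.prodEquiv _ _).toEquiv
    rw [h1, AGL.card_N hF, Nat.card_congr Subgroup.topEquiv.toEquiv, Tri.card_eq]
  let f : F × (ZMod 3)ˣ × ZMod 3 → Subgroup.center M := fun p =>
    ⟨⟨((⟨1, p.1⟩ : AGL F), (⟨p.2.1, 1, 0, p.2.2, 0⟩ : Tri false)), ⟨rfl, trivial⟩⟩, by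
      rw [Subgroup.mem_center_iff]
      rintro ⟨⟨x, y⟩, hx, -⟩
      apply Subtype.ext
      apply Prod.ext
      · have hx' : x.u = 1 := hx
        show x * _ = _ * x
        ext <;> simp [hx'] <;> ring
      · exact Tri.central_false _ _ _⟩
  have hf : Function.Injective f := by
    rintro ⟨t, a, c⟩ ⟨t', a', c'⟩ h
    have h1 := congrArg (fun z : Subgroup.center M => z.1.1.1.t) h
    have h2 := congrArg (fun z : Subgroup.center M => z.1.1.2.a) h
    have h3 := congrArg (fun z : Subgroup.center M => z.1.1.2.c) h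
    simp only [f] at h1 h2 h3
    rw [h1, h2, h3]
  have hcen : 48 ≤ Nat.card (Subgroup.center M) := by
    have h1 := Nat.card_le_card_of_injective f hf
    have h2 : Nat.card (F × (ZMod 3)ˣ × ZMod 3) = 48 := by
      simp only [Nat.card_prod, Tri.card_units3, Tri.card_zmod3]
      rw [Nat.card_eq_fintype_card, hF]
    omega
  have hb := deg_sq_mul_card_center_le hϑ
  rw [hk, hcardM, Complex.norm_natCast] at hb
  have hb2 : ((k : ℝ)) ^ 2 * (Nat.card (Subgroup.center M) : ℝ) ≤ 864 := by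
    exact_mod_cast hb
  have hb3 : k ^ 2 * Nat.card (Subgroup.center M) ≤ 864 := by exact_mod_cast hb2
  have hb4 : k ^ 2 * 48 ≤ k ^ 2 * Nat.card (Subgroup.center M) := Nat.mul_le_mul_left _ hcen
  nlinarith

/-! ### The two witnesses -/

/-- Some irreducible character has degree divisible by `n`. -/
def HasDeg (G : Type u) [Group G] (n : ℕ) : Prop := ∃ d ∈ charDegrees G, n ∣ d

theorem hasDeg_of {G : Type u} [Group G] {n : ℕ} {χ : G → ℂ} (hχ : IsIrrCharacter G χ) {m : ℕ}
    (hm : χ 1 = m) (hn : n ∣ m) : HasDeg G n := by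
  refine ⟨m, ⟨⟨χ, hχ⟩, ?_⟩, hn⟩
  simp [charDegree, hm]

theorem charDegree_of {G : Type u} [Group G] {χ : G → ℂ} {m : ℕ} (hm : χ 1 = m) :
    charDegree χ = m := by
  simp [charDegree, hm]

theorem isSolvable_AGL {F : Type*} [Field F] [Fintype F] (hF : Fintype.card F = 8) :
    Group.IsSolvable (AGL F) :=
  Cfsg.Agent.Lib.Char.Burnside2.isSolvable_of_card_eq (p := 2) (q := 7) (by norm_num) (by norm_num)
    56 (AGL F) 3 1 (AGL.card_eq hF) (by rw [AGL.card_eq hF]; norm_num)

theorem isSolvable_Tri (t : Bool) : Group.IsSolvable (Tri t) :=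
  Cfsg.Agent.Lib.Char.Burnside2.isSolvable_of_card_eq (p := 2) (q := 3) (by norm_num) (by norm_num)
    108 (Tri t) 2 3 Tri.card_eq (by rw [Tri.card_eq]; norm_num)

theorem card_prod_eq {F : Type*} [Field F] [Fintype F] (hF : Fintype.card F = 8) (t : Bool) :
    Nat.card (AGL F × Tri t) = 6048 := by
  rw [Nat.card_prod, AGL.card_eq hF, Tri.card_eq]

theorem hasDeg_prod {F : Type*} [Field F] [Fintype F] (hF : Fintype.card F = 8) (t : Bool)
    {n : ℕ} {β : Tri t → ℂ} (hβ : IsIrrCharacter (Tri t) β) {m : ℕ} (hm : β 1 = m) (hn : n ∣ 7 * m) :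
    HasDeg (AGL F × Tri t) n := by
  obtain ⟨α, hα, k, hk, h7⟩ := AGL.exists_irr_index hF
  refine hasDeg_of (isIrr_tensor hα hβ) (m := k * m) ?_ ?_
  · show α 1 * β 1 = _
    rw [hk, hm]
    push_cast
    rfl
  · exact hn.trans (Nat.mul_dvd_mul h7 dvd_rfl)

theorem hasDeg_true {F : Type*} [Field F] [Fintype F] (hF : Fintype.card F = 8) :
    HasDeg (AGL F × Tri true) 14 ∧ HasDeg (AGL F × Tri true) 21 ∧ HasDeg (AGL F × Tri true) 6 := by
  obtain ⟨β, hβ, m, hm, h⟩ := Tri.exists_irr_Kc true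
  rw [Tri.index_Kc_true] at h
  refine ⟨hasDeg_prod hF true hβ hm ?_, hasDeg_prod hF true hβ hm ?_, hasDeg_prod hF true hβ hm ?_⟩
  · obtain ⟨k, rfl⟩ := h
    exact ⟨3 * k, by ring⟩
  · obtain ⟨k, rfl⟩ := h
    exact ⟨2 * k, by ring⟩
  · obtain ⟨k, rfl⟩ := h
    exact ⟨7 * k, by ring⟩

theorem hasDeg_false {F : Type*} [Field F] [Fintype F] (hF : Fintype.card F = 8) :
    HasDeg (AGL F × Tri false) 14 ∧ HasDeg (AGL F × Tri false) 21 ∧
      ¬ HasDeg (AGL F × Tri false) 6 := by
  obtain ⟨β, hβ, m, hm, h⟩ := Tri.exists_irr_Kc false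
  rw [Tri.index_Kc_false] at h
  obtain ⟨β', hβ', m', hm', h'⟩ := Tri.exists_irr_Kd false
  rw [Tri.index_Kd] at h'
  refine ⟨hasDeg_prod hF false hβ' hm' ?_, hasDeg_prod hF false hβ hm ?_, ?_⟩
  · obtain ⟨k, rfl⟩ := h'
    exact ⟨k, by ring⟩
  · obtain ⟨k, rfl⟩ := h
    exact ⟨k, by ring⟩
  · rintro ⟨d, ⟨χ, rfl⟩, h6⟩
    obtain ⟨k, -, hk⟩ := irr_degree_pos χ.2
    rw [charDegree_of hk] at h6
    exact no_six hF χ.2 hk h6

/-! ### The degree graph is determined by three divisibility facts -/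

/-- The data determining the degree graph of a group whose degrees divide `6048`. -/
structure Shape (G : Type u) [Group G] : Prop where
  dvd : ∀ d ∈ charDegrees G, d ∣ 6048
  h14 : HasDeg G 14
  h21 : HasDeg G 21

theorem Shape.mem_primes {G : Type u} [Group G] (hG : Shape G) (p : ℕ) :
    p ∈ degreePrimes G ↔ p = 2 ∨ p = 3 ∨ p = 7 := by
  constructor
  · rintro ⟨hp, d, hd, hpd⟩
    have h1 : p ∣ 2 ^ 5 * 3 ^ 3 * 7 := by
      have := hG.dvd d hd
      exact hpd.trans (by simpa using this)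
    rcases (Nat.Prime.dvd_mul hp).1 h1 with h2 | h2
    · rcases (Nat.Prime.dvd_mul hp).1 h2 with h3 | h3
      · left
        exact (Nat.prime_dvd_prime_iff_eq hp (by norm_num)).1 (hp.dvd_of_dvd_pow h3)
      · right; left
        exact (Nat.prime_dvd_prime_iff_eq hp (by norm_num)).1 (hp.dvd_of_dvd_pow h3)
    · right; right
      exact (Nat.prime_dvd_prime_iff_eq hp (by norm_num)).1 h2
  · obtain ⟨d, hd, h14⟩ := hG.h14
    obtain ⟨d', hd', h21⟩ := hG.h21
    rintro (rfl | rfl | rfl)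
    · exact ⟨by norm_num, d, hd, (by norm_num : 2 ∣ 14).trans h14⟩
    · exact ⟨by norm_num, d', hd', (by norm_num : 3 ∣ 21).trans h21⟩
    · exact ⟨by norm_num, d, hd, (by norm_num : 7 ∣ 14).trans h14⟩

theorem Shape.adj_iff {G : Type u} [Group G] (hG : Shape G) (p q : ℕ) :
    (degreeGraph G).Adj p q ↔ ((p = 2 ∧ q = 7) ∨ (p = 7 ∧ q = 2) ∨ (p = 3 ∧ q = 7) ∨ (p = 7 ∧ q = 3))
      ∨ (((p = 2 ∧ q = 3) ∨ (p = 3 ∧ q = 2)) ∧ HasDeg G 6) := by
  constructor
  · rintro ⟨hne, hp, hq, d, hd, hpq⟩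
    have h1 : p ∈ degreePrimes G := ⟨hp, d, hd, (Nat.dvd_mul_right p q).trans hpq⟩
    have h2 : q ∈ degreePrimes G := ⟨hq, d, hd, (Nat.dvd_mul_left q p).trans hpq⟩
    rw [hG.mem_primes] at h1 h2
    rcases h1 with rfl | rfl | rfl <;> rcases h2 with rfl | rfl | rfl <;>
      first
        | (exact absurd rfl hne)
        | (left; simp; done)
        | (right; exact ⟨by simp, d, hd, hpq⟩)
  · obtain ⟨d, hd, h14⟩ := hG.h14
    obtain ⟨d', hd', h21⟩ := hG.h21
    rintro ((⟨rfl, rfl⟩ | ⟨rfl, rfl⟩ | ⟨rfl, rfl⟩ | ⟨rfl, rfl⟩) | ⟨(⟨rfl, rfl⟩ | ⟨rfl, rfl⟩), d'', hd'', h6⟩)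
    · exact ⟨by norm_num, by norm_num, by norm_num, d, hd, h14⟩
    · exact ⟨by norm_num, by norm_num, by norm_num, d, hd, h14⟩
    · exact ⟨by norm_num, by norm_num, by norm_num, d', hd', h21⟩
    · exact ⟨by norm_num, by norm_num, by norm_num, d', hd', h21⟩
    · exact ⟨by norm_num, by norm_num, by norm_num, d'', hd'', h6⟩
    · exact ⟨by norm_num, by norm_num, by norm_num, d'', hd'', h6⟩

theorem Shape.primes_eq {G₁ : Type u} {G₂ : Type v} [Group G₁] [Group G₂] (h₁ : Shape G₁)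
    (h₂ : Shape G₂) : degreePrimes G₁ = degreePrimes G₂ := by
  ext p
  rw [h₁.mem_primes, h₂.mem_primes]

theorem Shape.graph_eq {G₁ : Type u} {G₂ : Type v} [Group G₁] [Group G₂] (h₁ : Shape G₁)
    (h₂ : Shape G₂) (h : HasDeg G₁ 6 ↔ HasDeg G₂ 6) : degreeGraph G₁ = degreeGraph G₂ := by
  ext p q
  rw [h₁.adj_iff, h₂.adj_iff, h]

theorem shape_of_card {G : Type u} [Group G] [Fintype G] (hc : Nat.card G = 6048)
    (h14 : HasDeg G 14) (h21 : HasDeg G 21) : Shape G := by
  refine ⟨?_, h14, h21⟩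
  rintro d ⟨χ, rfl⟩
  obtain ⟨k, -, hk⟩ := irr_degree_pos χ.2
  rw [charDegree_of hk, ← hc]
  exact Cfsg.Agent.Lib.Char.BrauerSCNum.degree_dvd χ k hk

/-- The solvable witness, given the degree facts of a group `L`. -/
theorem exists_witness {L : Type u} [Group L] [Fintype L] (hc : Nat.card L = 6048)
    (h14 : HasDeg L 14) (h21 : HasDeg L 21) :
    ∃ (H : Type) (_ : Group H) (_ : Fintype H), Group.IsSolvable H ∧ Nat.card H = 6048 ∧
      degreePrimes H = degreePrimes L ∧ degreeGraph H = degreeGraph L := by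
  classical
  have hL := shape_of_card hc h14 h21
  let F := GaloisField 2 3
  haveI : Fintype F := Fintype.ofFinite _
  have hF : Fintype.card F = 8 := by
    rw [← Nat.card_eq_fintype_card]
    exact GaloisField.card 2 3 (by norm_num)
  haveI := isSolvable_AGL hF
  by_cases h6 : HasDeg L 6
  · haveI := isSolvable_Tri true
    obtain ⟨a, b, c⟩ := hasDeg_true hF
    have hH : Shape (AGL F × Tri true) := shape_of_card (card_prod_eq hF true) a b
    refine ⟨AGL F × Tri true, inferInstance, inferInstance, inferInstance, card_prod_eq hF true,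
      hH.primes_eq hL, hH.graph_eq hL ⟨fun _ => h6, fun _ => c⟩⟩
  · haveI := isSolvable_Tri false
    obtain ⟨a, b, c⟩ := hasDeg_false hF
    have hH : Shape (AGL F × Tri false) := shape_of_card (card_prod_eq hF false) a b
    refine ⟨AGL F × Tri false, inferInstance, inferInstance, inferInstance, card_prod_eq hF false,
      hH.primes_eq hL, hH.graph_eq hL ⟨fun h => absurd h c, fun h => absurd h h6⟩⟩

end Cfsg.Agent.Lib.PGroup.DegGraphH
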