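import Mathlib
import Cfsg.Agent.Lib.Classical.Herm.SU3Sylow
import Cfsg.Agent.Lib.Classical.Herm.SU3Invol

/-!
# Geometry of `SU₃(3)`: the stabiliser of an isotropic point

`F` is a field with nine elements, `G = SU 3 F 3`. For a hyperbolic pair `(e, f)`:
`B e` is the stabiliser of the line through `e`, `U e` is the stabiliser of the vector `e`.
`G = B ⊔ B w B`, `|B| = 216`, `|U| = 27`, and the elements of `B` fixing the line through `f` are
a torus parametrised by `Fˣ`.
-/

set_option autoImplicit false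
set_option linter.unusedSectionVars false
set_option linter.unusedSimpArgs false
set_option linter.unusedVariables false
set_option linter.style.haveILetI false

open scoped Matrix
open Cfsg
open Cfsg.Agent.Lib.Classical.Herm.Basic Cfsg.Agent.Lib.Classical.Herm.Form
open Cfsg.Agent.Lib.Classical.Herm.GU Cfsg.Agent.Lib.Classical.Herm.SU
open Cfsg.Agent.Lib.Classical.Herm.Tv Cfsg.Agent.Lib.Classical.Herm.SU3Sylow
open Cfsg.Agent.Lib.Classical.Herm.SU3Invol Cfsg.Agent.Lib.Classical.Herm.TI2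

namespace Cfsg.Agent.Lib.PGroup.DegGraphU33

variable {F : Type*} [Field F] [Fintype F]

local notation "⟪" x ", " y "⟫" => hermForm _ _ 3 x y

section FieldFacts

variable (hF : Fintype.card F = 3 ^ 2)
include hF

theorem pow_nine (a : F) : a ^ 9 = a := by
  have := FiniteField.pow_card a
  rwa [hF] at this

theorem eq_one_of_cube {a : F} (h : a ^ 3 = 1) : a = 1 := by
  have h1 : (a - 1) ^ 3 = 0 := by
    rw [pow_q_sub hF, h, one_pow, sub_self]
  exact sub_eq_zero.mp (pow_eq_zero_iff (by norm_num) |>.mp h1)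

theorem eq_inv_cube {a a' : F} (h : a * a' ^ 3 = 1) : a' = (a⁻¹) ^ 3 := by
  have h0 : a ≠ 0 := left_ne_zero_of_mul_eq_one h
  have h1 : a' ^ 3 = a⁻¹ := by
    field_simp
    linear_combination h
  rw [← h1, ← pow_mul]
  exact (pow_nine hF a').symm

end FieldFacts

section Pair

variable (hF : Fintype.card F = 3 ^ 2)

omit [Fintype F] in
theorem colMat_mulVec (a b c v : Fin 3 → F) : colMat a b c *ᵥ v = v 0 • a + v 1 • b + v 2 • c := by
  funext i
  simp [colMat, Matrix.mulVec, dotProduct, Fin.sum_univ_three]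
  ring

include hF

theorem det_colMat_ne {e f w : Fin 3 → F} (ht : IsTriple 3 e f w) : (colMat e f w).det ≠ 0 := by
  intro h0
  obtain ⟨v, hv, hv0⟩ := Matrix.exists_mulVec_eq_zero_iff.2 h0
  rw [colMat_mulVec] at hv0
  have hfe := ht.hfe hF
  have hew := ht.hew hF
  have hfw := ht.hfw hF
  have h1 := congrArg (fun z => ⟪z, e⟫) hv0
  have h2 := congrArg (fun z => ⟪z, f⟫) hv0
  have h3 := congrArg (fun z => ⟪z, w⟫) hv0
  simp only [hermForm_add_left, hermForm_smul_left, hermForm_zero_left, ht.he, ht.hwe, hfe, ht.hef,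
    ht.hf, ht.hwf, hew, hfw, ht.hww, mul_zero, mul_one, add_zero, zero_add] at h1 h2 h3
  apply hv
  funext i
  fin_cases i
  · exact h2
  · exact h1
  · exact h3

/-- An element fixing a hyperbolic pair is trivial. -/
theorem eq_one_of_fix_pair {e f : Fin 3 → F} (he : ⟪e, e⟫ = 0) (hf : ⟪f, f⟫ = 0) (hef : ⟪e, f⟫ = 1)
    {g : SU 3 F 3} (h1 : act g e = e) (h2 : act g f = f) : g = 1 := by
  obtain ⟨w, ht⟩ := exists_triple_of_pair hF he hf hef
  have hgw_e : ⟪act g w, e⟫ = 0 := by
    conv_lhs => rw [← h1]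
    rw [h_act, ht.hwe]
  have hgw_f : ⟪act g w, f⟫ = 0 := by
    conv_lhs => rw [← h2]
    rw [h_act, ht.hwf]
  have hdec := ht.decomp hF (act g w)
  rw [hgw_e, hgw_f, zero_smul, zero_smul, zero_add, zero_add] at hdec
  set ν := ⟪act g w, w⟫ with hν
  have hm : mat g * colMat e f w = colMat e f w * Matrix.diagonal ![1, 1, ν] := by
    rw [mul_colMat, colMat_mul_diagonal, h1, h2, hdec, one_smul, one_smul]
  have hD := det_colMat_ne hF ht
  have hdet := congrArg Matrix.det hm
  rw [Matrix.det_mul, Matrix.det_mul, Matrix.det_diagonal, Fin.prod_univ_three] at hdet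
  have hg1 : (mat g).det = 1 := g.1.2
  rw [hg1, one_mul] at hdet
  have hν1 : ν = 1 := by
    have h3 : (colMat e f w).det * (ν - 1) = 0 := by
      simp at hdet
      linear_combination -hdet
    rcases mul_eq_zero.mp h3 with h4 | h4
    · exact absurd h4 hD
    · exact sub_eq_zero.mp h4
  rw [hν1, one_smul] at hdec
  apply ext_act
  intro z
  rw [act_one]
  conv_lhs => rw [ht.decomp hF z]
  rw [act_add, act_add, act_smul, act_smul, act_smul, h1, h2, hdec]
  exact (ht.decomp hF z).symm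

omit hF in
theorem rel_of_pair {e f : Fin 3 → F} (hef : ⟪e, f⟫ = 1) {g : SU 3 F 3} {a a' : F}
    (h1 : act g e = a • e) (h2 : act g f = a' • f) : a * a' ^ 3 = 1 := by
  have h3 := h_act g e f
  rw [h1, h2, hermForm_smul_left, hermForm_smul_right, hef] at h3
  simpa using h3

/-- The torus of a hyperbolic pair. -/
theorem exists_torus_elt {e f : Fin 3 → F} (he : ⟪e, e⟫ = 0) (hf : ⟪f, f⟫ = 0) (hef : ⟪e, f⟫ = 1)
    (a : Fˣ) : ∃ t : SU 3 F 3, act t e = (a : F) • e ∧ act t f = (((a⁻¹ : Fˣ) : F) ^ 3) • f := by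
  have ha : (a : F) ≠ 0 := a.ne_zero
  have h9 := pow_nine hF (a : F)
  have h8 : (a : F) ^ 8 = 1 := by
    apply mul_left_cancel₀ ha
    rw [mul_one, ← pow_succ']
    exact h9
  have hrel : (a : F) * (((a⁻¹ : Fˣ) : F) ^ 3) ^ 3 = 1 := by
    rw [← pow_mul, Units.val_inv_eq_inv_val]
    norm_num
    field_simp
    exact h8.symm
  obtain ⟨t, -, h1, h2⟩ := reach_pair (n := 3) hF (Or.inr ⟨le_rfl, le_rfl⟩) he hf hef
    (x' := (a : F) • e) (y' := (((a⁻¹ : Fˣ) : F) ^ 3) • f)
    (by rw [hermForm_smul_left, hermForm_smul_right, he]; simp)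
    (by rw [hermForm_smul_left, hermForm_smul_right, hf]; simp)
    (by rw [hermForm_smul_left, hermForm_smul_right, hef, mul_one]; exact hrel)
  exact ⟨t, h1, h2⟩

/-- The swap of a hyperbolic pair. -/
theorem exists_swap {e f : Fin 3 → F} (he : ⟪e, e⟫ = 0) (hf : ⟪f, f⟫ = 0) (hef : ⟪e, f⟫ = 1) :
    ∃ t : SU 3 F 3, act t e = f ∧ act t f = e := by
  obtain ⟨t, -, h1, h2⟩ := reach_pair (n := 3) hF (Or.inr ⟨le_rfl, le_rfl⟩) he hf hef
    hf he (hermForm_symm_one hF hef)
  exact ⟨t, h1, h2⟩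

end Pair

/-! ### The stabilisers -/

/-- The stabiliser of the line through `e`. -/
def B (e : Fin 3 → F) : Subgroup (SU 3 F 3) where
  carrier := {g | ∃ c : Fˣ, act g e = (c : F) • e}
  mul_mem' := by
    rintro a b ⟨c, hc⟩ ⟨c', hc'⟩
    refine ⟨c * c', ?_⟩
    rw [act_mul, hc', act_smul, hc, smul_smul, Units.val_mul, mul_comm]
  one_mem' := ⟨1, by simp⟩
  inv_mem' := by
    rintro a ⟨c, hc⟩
    refine ⟨c⁻¹, ?_⟩
    have h1 := act_inv_act a e
    rw [hc, act_smul] at h1
    calc act a⁻¹ e = ((c⁻¹ : Fˣ) : F) • ((c : F) • act a⁻¹ e) := by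
          rw [smul_smul]
          simp
      _ = _ := by rw [h1]

/-- The stabiliser of the vector `e`. -/
def U (e : Fin 3 → F) : Subgroup (SU 3 F 3) where
  carrier := {g | act g e = e}
  mul_mem' := by
    rintro a b ha hb
    show act (a * b) e = e
    rw [act_mul, show act b e = e from hb, show act a e = e from ha]
  one_mem' := act_one e
  inv_mem' := by
    rintro a ha
    show act a⁻¹ e = e
    conv_lhs => rw [← show act a e = e from ha]
    exact act_inv_act a e

theorem mem_B {e : Fin 3 → F} {g : SU 3 F 3} : g ∈ B e ↔ ∃ c : Fˣ, act g e = (c : F) • e := Iff.rfl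
theorem mem_U {e : Fin 3 → F} {g : SU 3 F 3} : g ∈ U e ↔ act g e = e := Iff.rfl

theorem U_le_B (e : Fin 3 → F) : U e ≤ B e := fun g hg => ⟨1, by rw [Units.val_one, one_smul]; exact hg⟩

section Char

variable {e : Fin 3 → F} (he0 : e ≠ 0)

/-- The eigenvalue of an element of `B e`. -/
noncomputable def cFun (b : B e) : Fˣ := Classical.choose b.2

theorem act_cFun (b : B e) : act b.1 e = (cFun b : F) • e := Classical.choose_spec b.2

include he0

theorem unit_eq_of_smul_eq {c c' : F} (h : c • e = c' • e) : c = c' :=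
  smul_left_injective F he0 h

theorem cFun_eq {b : B e} {c : Fˣ} (h : act b.1 e = (c : F) • e) : cFun b = c := by
  apply Units.ext
  apply unit_eq_of_smul_eq he0
  rw [← act_cFun, h]

theorem cFun_mul (a b : B e) : cFun (a * b) = cFun a * cFun b := by
  apply cFun_eq he0
  rw [Subgroup.coe_mul, act_mul, act_cFun b, act_smul, act_cFun a, smul_smul, Units.val_mul, mul_comm]

/-- The eigenvalue homomorphism. -/
noncomputable def cHom : B e →* Fˣ := MonoidHom.mk' cFun (cFun_mul he0)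

theorem cHom_apply (b : B e) : cHom he0 b = cFun b := rfl

theorem act_cHom (b : B e) : act b.1 e = (cHom he0 b : F) • e := act_cFun b

theorem cHom_eq {b : B e} {c : Fˣ} (h : act b.1 e = (c : F) • e) : cHom he0 b = c := cFun_eq he0 h

theorem mem_ker_cHom {b : B e} : cHom he0 b = 1 ↔ b.1 ∈ U e := by
  constructor
  · intro h
    have h1 := act_cHom he0 b
    rw [h] at h1
    show act b.1 e = e
    simpa using h1
  · intro h
    apply cHom_eq he0
    have h1 : act b.1 e = e := h
    simpa using h1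

end Char

/-- A hyperbolic pair. -/
structure HP (e f : Fin 3 → F) : Prop where
  he : ⟪e, e⟫ = 0
  hf : ⟪f, f⟫ = 0
  hef : ⟪e, f⟫ = 1

namespace HP

variable {e f : Fin 3 → F} (H : HP e f)

include H

theorem e_ne_zero : e ≠ 0 := by
  rintro rfl
  have := H.hef
  rw [hermForm_zero_left] at this
  exact zero_ne_one this

variable (hF : Fintype.card F = 3 ^ 2)
include hF

/-- An element outside `B e` moves `e` to a vector with a multiple forming a hyperbolic pair
with `e`. -/
theorem exists_partner_of_notMem {x : SU 3 F 3} (hx : x ∉ B e) :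
    ∃ t : Fˣ, ⟪e, (t : F) • act x e⟫ = 1 ∧ ⟪(t : F) • act x e, (t : F) • act x e⟫ = 0 := by
  set v := act x e with hv
  have hvv : ⟪v, v⟫ = 0 := by rw [hv, h_act]; exact H.he
  have hv0 : v ≠ 0 := act_ne_zero x H.e_ne_zero
  obtain ⟨w, ht⟩ := exists_triple_of_pair hF H.he H.hf H.hef
  have hve : ⟪v, e⟫ ≠ 0 := by
    intro h0
    have h1 := ht.eq_smul_of_perp hF hvv h0
    have h2 : ⟪v, f⟫ ≠ 0 := by
      intro h3
      rw [h3, zero_smul] at h1
      exact hv0 h1
    exact hx ⟨Units.mk0 _ h2, h1⟩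
  have hev : ⟪e, v⟫ ≠ 0 := fun h0 => hve (hermForm_symm_zero hF h0)
  refine ⟨(Units.mk0 _ hev)⁻¹ ^ 3, ?_, ?_⟩
  · rw [hermForm_smul_right]
    have h9 := pow_nine hF ((⟪e, v⟫)⁻¹)
    simp only [Units.val_pow_eq_pow_val, Units.val_inv_eq_inv_val, Units.val_mk0, ← pow_mul]
    norm_num at h9 ⊢
    rw [h9]
    exact inv_mul_cancel₀ hev
  · rw [hermForm_smul_left, hermForm_smul_right, hvv]
    simp

/-- The two double cosets. -/
theorem two_double {w₀ : SU 3 F 3} (hw : act w₀ e = f) {x : SU 3 F 3} (hx : x ∉ B e) :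
    ∃ h₁ h₂ : B e, x = (h₁ : SU 3 F 3) * w₀ * h₂ := by
  obtain ⟨t, h1, h2⟩ := H.exists_partner_of_notMem hF hx
  obtain ⟨b₁, -, hb1, hb2⟩ := reach_pair (n := 3) hF (Or.inr ⟨le_rfl, le_rfl⟩) H.he H.hf H.hef
    H.he h2 h1
  have hb1m : b₁ ∈ B e := ⟨1, by rw [hb1, Units.val_one, one_smul]⟩
  refine ⟨⟨b₁, hb1m⟩, ⟨(b₁ * w₀)⁻¹ * x, ⟨t⁻¹, ?_⟩⟩, ?_⟩
  · rw [act_mul]
    have h3 : act (b₁ * w₀) (((t⁻¹ : Fˣ) : F) • e) = act x e := by
      rw [act_smul, act_mul, hw, hb2, smul_smul]
      simp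
    rw [← h3, act_inv_act]
  · simp only
    group

/-- Elements fixing the lines of `e` and `f` are in the torus. -/
theorem exists_tau (a : Fˣ) : ∃ t : B e, act t.1 e = (a : F) • e ∧
    act t.1 f = (((a⁻¹ : Fˣ) : F) ^ 3) • f := by
  obtain ⟨t, h1, h2⟩ := exists_torus_elt hF H.he H.hf H.hef a
  exact ⟨⟨t, ⟨a, h1⟩⟩, h1, h2⟩

/-- The torus element. -/
noncomputable def tau (a : Fˣ) : B e := Classical.choose (H.exists_tau hF a)

theorem tau_e (a : Fˣ) : act (H.tau hF a).1 e = (a : F) • e :=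
  (Classical.choose_spec (H.exists_tau hF a)).1

theorem tau_f (a : Fˣ) : act (H.tau hF a).1 f = (((a⁻¹ : Fˣ) : F) ^ 3) • f :=
  (Classical.choose_spec (H.exists_tau hF a)).2

theorem cHom_tau (a : Fˣ) : cHom H.e_ne_zero (H.tau hF a) = a :=
  cHom_eq H.e_ne_zero (H.tau_e hF a)

theorem tau_injective : Function.Injective (H.tau hF) := fun a b h => by
  rw [← H.cHom_tau hF a, ← H.cHom_tau hF b, h]

theorem eq_tau {h : B e} {c' : F} (hc : act h.1 f = c' • f) :
    h = H.tau hF (cHom H.e_ne_zero h) := by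
  set c := cHom H.e_ne_zero h with hc0
  have h1 : act h.1 e = (c : F) • e := act_cHom H.e_ne_zero h
  have hrel := rel_of_pair H.hef h1 hc
  have hc' : c' = ((c⁻¹ : Fˣ) : F) ^ 3 := by
    rw [Units.val_inv_eq_inv_val]
    exact eq_inv_cube hF hrel
  have h2 : act (H.tau hF c).1 e = act h.1 e := by rw [H.tau_e, h1]
  have h3 : act (H.tau hF c).1 f = act h.1 f := by rw [H.tau_f, hc, hc']
  have h4 : (H.tau hF c).1⁻¹ * h.1 = 1 := by
    apply eq_one_of_fix_pair hF H.he H.hf H.hef
    · rw [act_mul, ← h2, act_inv_act]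
    · rw [act_mul, ← h3, act_inv_act]
  apply Subtype.ext
  exact (inv_mul_eq_one.mp h4).symm

/-- The unipotent radical is normal in `B e`. -/
theorem conj_mem_U {b : SU 3 F 3} (hb : b ∈ B e) {u : SU 3 F 3} (hu : u ∈ U e) :
    b * u * b⁻¹ ∈ U e := by
  obtain ⟨c, hc⟩ := hb
  have hu' : act u e = e := hu
  have h1 : act b⁻¹ e = ((c⁻¹ : Fˣ) : F) • e := by
    have h2 := act_inv_act b e
    rw [hc, act_smul] at h2
    calc act b⁻¹ e = ((c⁻¹ : Fˣ) : F) • ((c : F) • act b⁻¹ e) := by
          rw [smul_smul]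
          simp
      _ = _ := by rw [h2]
  show act (b * u * b⁻¹) e = e
  rw [act_mul, act_mul, h1, act_smul, hu', act_smul, hc, smul_smul]
  simp

/-- A nontrivial element of `U e` fixes no other isotropic point. -/
theorem mem_B_of_conj {u : SU 3 F 3} (hu : u ∈ U e) (hu1 : u ≠ 1) {x : SU 3 F 3}
    (hy : x⁻¹ * u * x ∈ B e) : x ∈ B e := by
  by_contra hx
  obtain ⟨c, hc⟩ := hy
  have hu' : act u e = e := hu
  obtain ⟨t, h1, h2⟩ := H.exists_partner_of_notMem hF hx
  set v := act x e with hv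
  have huv : act u v = (c : F) • v := by
    have h3 : act u v = act x (act (x⁻¹ * u * x) e) := by
      rw [act_mul, act_mul, act_act_inv]
    rw [h3, hc, act_smul]
  have hform : ⟪e, (t : F) • v⟫ = ⟪e, ((c : F) • ((t : F) • v))⟫ := by
    have h4 := h_act u e ((t : F) • v)
    rw [hu', act_smul, huv, smul_comm] at h4
    exact h4.symm
  have hc1 : (c : F) ^ 3 = 1 := by
    rw [hermForm_smul_right (c := (c : F)), h1, mul_one] at hform
    exact hform.symm
  have hc2 : (c : F) = 1 := eq_one_of_cube hF hc1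
  apply hu1
  apply eq_one_of_fix_pair hF H.he h2 h1 hu'
  rw [act_smul, huv, hc2, one_smul]

/-- Centraliser of a regular torus element in `U e`. -/
theorem eq_one_of_comm {a : Fˣ} (ha : (a : F) ^ 4 ≠ 1) {u : SU 3 F 3} (hu : u ∈ U e)
    (hc : (H.tau hF a).1 * u * (H.tau hF a).1⁻¹ = u) : u = 1 := by
  set t := (H.tau hF a).1 with ht0
  have hu' : act u e = e := hu
  have h1 : act t f = (((a⁻¹ : Fˣ) : F) ^ 3) • f := H.tau_f hF a
  obtain ⟨w, ht⟩ := exists_triple_of_pair hF H.he H.hf H.hef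
  have hfe := ht.hfe hF
  have hew := ht.hew hF
  have hfw := ht.hfw hF
  set c' := ((a⁻¹ : Fˣ) : F) ^ 3 with hc'
  set v := act u f with hv
  have htv : act t v = c' • v := by
    have h2 : t * u = u * t := by
      calc t * u = (t * u * t⁻¹) * t := by group
        _ = u * t := by rw [hc]
    rw [hv, ← act_mul, h2, act_mul, h1, act_smul]
  have ha0 : (a : F) ≠ 0 := a.ne_zero
  have h8 : (a : F) ^ 8 = 1 := by
    apply mul_left_cancel₀ ha0
    rw [mul_one, ← pow_succ']
    exact pow_nine hF _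
  have hc4 : c' * c' ^ 3 ≠ 1 := by
    rw [hc', Units.val_inv_eq_inv_val]
    intro h3
    apply ha
    have h4 : ((a : F)⁻¹) ^ 12 = 1 := by
      rw [← h3]
      ring
    have h5 : (a : F) ^ 12 = 1 := by
      rw [inv_pow] at h4
      exact inv_eq_one.mp h4
    calc (a : F) ^ 4 = (a : F) ^ 12 * ((a : F) ^ 8)⁻¹ := by
          field_simp
      _ = 1 := by rw [h5, h8]; simp
  have hv1 : ⟪v, f⟫ = 0 := by
    have h2 := h_act t v f
    rw [htv, h1, hermForm_smul_left, hermForm_smul_right] at h2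
    have h3 : (c' * c' ^ 3 - 1) * ⟪v, f⟫ = 0 := by linear_combination h2
    rcases mul_eq_zero.mp h3 with h4 | h4
    · exact absurd (sub_eq_zero.mp h4) hc4
    · exact h4
  have hv2 : ⟪v, e⟫ = 1 := by
    have h2 := h_act u f e
    rw [hu', hfe] at h2
    exact h2
  have hdec := ht.decomp hF v
  rw [hv1, hv2, zero_smul, one_smul, zero_add] at hdec
  set ν := ⟪v, w⟫ with hν
  have hvv : ⟪v, v⟫ = 0 := by rw [hv, h_act]; exact H.hf
  have hν0 : ν = 0 := by
    rw [hdec, hermForm_add_left, hermForm_smul_left, hermForm_add_right hF, hermForm_add_right hF,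
      hermForm_smul_right, hermForm_smul_right, H.hf, hfw, ht.hwf, ht.hww] at hvv
    have h3 : ν ^ 4 = 0 := by linear_combination hvv
    exact pow_eq_zero_iff (by norm_num) |>.mp h3
  rw [hν0, zero_smul, add_zero] at hdec
  exact eq_one_of_fix_pair hF H.he H.hf H.hef hu' hdec

theorem tau_pow_eight (a : Fˣ) : (H.tau hF a).1 ^ 8 = 1 := by
  have h1 : ∀ n : ℕ, act ((H.tau hF a).1 ^ n) e = ((a : F) ^ n) • e := by
    intro n
    induction n with
    | zero => simp
    | succ n ih =>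
      rw [pow_succ', act_mul, ih, act_smul, H.tau_e, smul_smul, pow_succ']
      ring_nf
  have h2 : ∀ n : ℕ, act ((H.tau hF a).1 ^ n) f = ((((a⁻¹ : Fˣ) : F) ^ 3) ^ n) • f := by
    intro n
    induction n with
    | zero => simp
    | succ n ih =>
      rw [pow_succ', act_mul, ih, act_smul, H.tau_f, smul_smul, pow_succ']
      ring_nf
  have h8 : ∀ b : F, b ≠ 0 → b ^ 8 = 1 := by
    intro b hb
    apply mul_left_cancel₀ hb
    rw [mul_one, ← pow_succ']
    exact pow_nine hF _
  apply eq_one_of_fix_pair hF H.he H.hf H.hef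
  · rw [h1, h8 _ a.ne_zero, one_smul]
  · rw [h2, ← pow_mul, mul_comm, pow_mul, h8 _ (Units.ne_zero _), one_pow, one_smul]

end HP

/-! ### Orders -/

theorem card_G (hF : Fintype.card F = 3 ^ 2) : Nat.card (SU 3 F 3) = 6048 := by
  have h := card_SU hF (n := 3) (by norm_num)
  have h2 : (∏ i ∈ Finset.range 3, (if Even i then 3 ^ (i + 1) + 1 else 3 ^ (i + 1) - 1)) = 896 := by
    decide
  rw [h2] at h
  norm_num at h
  omega

/-- The action on nonzero isotropic vectors. -/
@[instance_reducible] def actIso : MulAction (SU 3 F 3) (IsoVec F 3 3) where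
  smul g x := ⟨act g x.1, act_ne_zero _ x.2.1, by rw [h_act]; exact x.2.2⟩
  one_smul x := Subtype.ext (act_one _)
  mul_smul a b x := Subtype.ext (act_mul _ _ _)

theorem card_U (hF : Fintype.card F = 3 ^ 2) {e : Fin 3 → F} (he : ⟪e, e⟫ = 0) (he0 : e ≠ 0) :
    Nat.card (U e) = 27 := by
  classical
  letI := actIso (F := F)
  let x₀ : IsoVec F 3 3 := ⟨e, he0, he⟩
  have hstab : MulAction.stabilizer (SU 3 F 3) x₀ = U e := by
    ext g
    rw [MulAction.mem_stabilizer_iff, mem_U]
    exact Subtype.ext_iff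
  have horb : MulAction.orbit (SU 3 F 3) x₀ = Set.univ := by
    ext y
    simp only [Set.mem_univ, iff_true]
    obtain ⟨t, -, ht⟩ := reach_iso (n := 3) hF (by norm_num) he y.2.2 he0 y.2.1
    exact ⟨t, Subtype.ext ht⟩
  have hidx := MulAction.index_stabilizer (SU 3 F 3) x₀
  rw [hstab, horb, Set.ncard_univ, card_isoVec_eq hF] at hidx
  norm_num at hidx
  have h1 := Subgroup.card_mul_index (U e)
  rw [hidx, card_G hF] at h1
  omega

theorem card_B (hF : Fintype.card F = 3 ^ 2) {e f : Fin 3 → F} (H : HP e f) :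
    Nat.card (B e) = 216 := by
  classical
  have he0 := H.e_ne_zero
  have hsurj : Function.Surjective (cHom he0) := fun a => ⟨H.tau hF a, H.cHom_tau hF a⟩
  have h1 := Subgroup.card_mul_index (cHom he0).ker
  rw [Subgroup.index_ker, MonoidHom.range_eq_top.2 hsurj, Nat.card_congr Subgroup.topEquiv.toEquiv,
    Nat.card_eq_fintype_card (α := Fˣ), Fintype.card_units, hF] at h1
  have e1 : (cHom he0).ker ≃ U e :=
    { toFun := fun x => ⟨x.1.1, (mem_ker_cHom he0).1 x.2⟩
      invFun := fun u => ⟨⟨u.1, U_le_B e u.2⟩, (mem_ker_cHom he0).2 u.2⟩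
      left_inv := fun _ => rfl
      right_inv := fun _ => rfl }
  rw [Nat.card_congr e1, card_U hF H.he he0] at h1
  omega

theorem index_B (hF : Fintype.card F = 3 ^ 2) {e f : Fin 3 → F} (H : HP e f) :
    (B e).index = 28 := by
  have h1 := Subgroup.card_mul_index (B e)
  rw [card_B hF H, card_G hF] at h1
  omega

theorem exists_HP (hF : Fintype.card F = 3 ^ 2) : ∃ e f : Fin 3 → F, HP e f := by
  have h1 : Nat.card (IsoVec F 3 3) = 224 := by
    rw [card_isoVec_eq hF]
    norm_num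
  have h2 : Nonempty (IsoVec F 3 3) := by
    haveI : Finite (IsoVec F 3 3) := inferInstance
    apply (Nat.card_pos_iff.1 (by omega)).1
  obtain ⟨⟨e, he0, he⟩⟩ := h2
  obtain ⟨f, w, ht⟩ := exists_triple hF he he0
  exact ⟨e, f, ⟨ht.he, ht.hf, ht.hef⟩⟩

end Cfsg.Agent.Lib.PGroup.DegGraphU33
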