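import Mathlib
import Cfsg.Agent.Lib.Char.Mackey
import Cfsg.Agent.Lib.Char.LinearChars
import Cfsg.Agent.Lib.Char.IndRep
import Cfsg.Agent.Lib.Char.BrauerSCNum
import Cfsg.Agent.Lib.PGroup.DegGraphAux
import Cfsg.Agent.Lib.PGroup.DegGraphU33
import Cfsg.Agent.Lib.PGroup.DegGraphH
import Cfsg.Agent.Lib.Classical.Herm.Simple

/-!
# Two irreducible degrees of `SU₃(3)`

The characters induced from linear characters of the stabiliser of an isotropic point of `SU₃(3)`
have degree `28`: one of them is irreducible, and one of them is the sum of irreducible characters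
of degrees `7` and `21`.
-/

set_option autoImplicit false
set_option linter.unusedSectionVars false
set_option linter.unusedSimpArgs false
set_option linter.unusedVariables false
set_option linter.style.haveILetI false

open scoped Matrix ComplexConjugate Classical
open Cfsg
open Cfsg.Agent.Lib.Classical.Herm.Basic Cfsg.Agent.Lib.Classical.Herm.Form
open Cfsg.Agent.Lib.Classical.Herm.GU Cfsg.Agent.Lib.Classical.Herm.SU
open Cfsg.Agent.Lib.Classical.Herm.Tv Cfsg.Agent.Lib.Classical.Herm.SU3Sylow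
open Cfsg.Agent.Lib.Char.Basic Cfsg.Agent.Lib.Char.Ortho Cfsg.Agent.Lib.Char.Induced
  Cfsg.Agent.Lib.Char.IndRep Cfsg.Agent.Lib.Char.Mackey Cfsg.Agent.Lib.Char.CliffordCorr
  Cfsg.Agent.Lib.Char.LinearChars
open Cfsg.Agent.Lib.PGroup.DegGraphU33 Cfsg.Agent.Lib.PGroup.DegGraphAux
  Cfsg.Agent.Lib.PGroup.DegGraphH

namespace Cfsg.Agent.Lib.PGroup.DegGraphU33Char

variable {F : Type*} [Field F] [Fintype F]

noncomputable local instance instG : Fintype (SU 3 F 3) := Fintype.ofFinite _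
noncomputable local instance instK (K : Subgroup (SU 3 F 3)) : Fintype K := Fintype.ofFinite _

variable {e f : Fin 3 → F} (H : HP e f) (hF : Fintype.card F = 3 ^ 2)

/-- The linear character of `B e` attached to a character of `Fˣ`. -/
noncomputable def thHom (lam : Fˣ →* ℂˣ) : B e →* ℂˣ := lam.comp (cHom H.e_ne_zero)

/-- The linear character of `B e`, as a function. -/
noncomputable def th (lam : Fˣ →* ℂˣ) : B e → ℂ := fun b => ((thHom H lam b : ℂˣ) : ℂ)

theorem th_apply (lam : Fˣ →* ℂˣ) (b : B e) :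
    th H lam b = ((lam (cHom H.e_ne_zero b) : ℂˣ) : ℂ) := rfl

theorem isIrr_th (lam : Fˣ →* ℂˣ) : IsIrrCharacter (B e) (th H lam) := isIrr_of_hom _

theorem isChar_th (lam : Fˣ →* ℂˣ) : IsCharacter (B e) (th H lam) :=
  isCharacter_of_isIrrCharacter (isIrr_th H lam)

theorem isChar_xi (lam : Fˣ →* ℂˣ) : IsCharacter (SU 3 F 3) (indFun (B e) (th H lam)) :=
  isCharacter_indFun _ (isChar_th H lam)

include H hF

theorem xi_one (lam : Fˣ →* ℂˣ) : indFun (B e) (th H lam) 1 = 28 := by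
  rw [indFun_one, index_B hF H, th_apply, map_one, map_one]
  simp

omit H in
theorem unit_pow_eight (a : Fˣ) : a ^ 8 = 1 := by
  have h := pow_card_eq_one (x := a)
  rwa [Fintype.card_units, hF] at h

omit H in
theorem lam_pow_eight (lam : Fˣ →* ℂˣ) (a : Fˣ) : ((lam a : ℂˣ) : ℂ) ^ 8 = 1 := by
  rw [← Units.val_pow_eq_pow_val, ← map_pow, unit_pow_eight hF, map_one, Units.val_one]

omit H in
theorem conj_lam (lam : Fˣ →* ℂˣ) (a : Fˣ) : conj ((lam a : ℂˣ) : ℂ) = ((lam a : ℂˣ) : ℂ)⁻¹ :=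
  (Complex.inv_eq_conj (Complex.norm_eq_one_of_pow_eq_one (lam_pow_eight hF lam a)
    (by norm_num))).symm

theorem mackey_eq {w₀ : SU 3 F 3} (hw1 : act w₀ e = f) (lam : Fˣ →* ℂˣ) :
    mackeySum (B e) (th H lam) (th H lam) w₀ = ∑ a : Fˣ, ((lam a : ℂˣ) : ℂ) ^ 4 := by
  classical
  unfold mackeySum
  symm
  have hinv : act w₀⁻¹ f = e := by
    rw [← hw1, act_inv_act]
  refine Fintype.sum_of_injective (H.tau hF) (H.tau_injective hF) _ _ ?_ ?_
  · intro h hh
    by_cases hy : w₀⁻¹ * h.1 * w₀ ∈ B e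
    · exfalso
      apply hh
      obtain ⟨c', hc'⟩ := hy
      have h1 : act h.1 f = (c' : F) • f := by
        calc act h.1 f = act w₀ (act (w₀⁻¹ * h.1 * w₀) e) := by
              rw [act_mul, act_mul, hw1, act_act_inv]
          _ = (c' : F) • f := by rw [hc', act_smul, hw1]
      exact ⟨_, (H.eq_tau hF h1).symm⟩
    · rw [extendByZero_of_notMem _ _ hy]
      simp
  · intro a
    set t := H.tau hF a with ht
    have h2 : act (w₀⁻¹ * t.1 * w₀) e = (((a⁻¹ ^ 3 : Fˣ)) : F) • e := by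
      rw [act_mul, act_mul, hw1, ht, H.tau_f, act_smul, hinv, Units.val_pow_eq_pow_val]
    have h3 : w₀⁻¹ * t.1 * w₀ ∈ B e := ⟨_, h2⟩
    have hth : th H lam t = ((lam a : ℂˣ) : ℂ) := by rw [th_apply, ht, H.cHom_tau]
    have hth2 : th H lam ⟨_, h3⟩ = ((lam (a⁻¹ ^ 3) : ℂˣ) : ℂ) := by
      rw [th_apply, cHom_eq H.e_ne_zero (b := ⟨_, h3⟩) h2]
    rw [extendByZero_of_mem _ _ h3, hth, hth2]
    simp only [map_pow, map_inv, Units.val_pow_eq_pow_val, Units.val_inv_eq_inv_val, map_inv₀,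
      conj_lam hF]
    have h0 : ((lam a : ℂˣ) : ℂ) ≠ 0 := (lam a).ne_zero
    field_simp

theorem norm_xi {w₀ : SU 3 F 3} (hw1 : act w₀ e = f) (lam : Fˣ →* ℂˣ) :
    classInner (indFun (B e) (th H lam)) (indFun (B e) (th H lam)) =
      1 + (∑ a : Fˣ, ((lam a : ℂˣ) : ℂ) ^ 4) / 8 := by
  have hcl := isClassFunction_of_isCharacter (isChar_th H lam)
  rw [classInner_indFun_indFun_two_double (B e) _ _ hcl hcl w₀
    (fun x hx => H.two_double hF hw1 hx), mackey_eq H hF hw1, classInner_irr_self (isIrr_th H lam),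
    card_B hF H, card_G hF]
  push_cast
  ring

omit H hF in
theorem sum_pow_four_eq_zero (lam : Fˣ →* ℂˣ) {a₀ : Fˣ} (h : ((lam a₀ : ℂˣ) : ℂ) ^ 4 ≠ 1) :
    ∑ a : Fˣ, ((lam a : ℂˣ) : ℂ) ^ 4 = 0 := by
  have h1 : ∑ a : Fˣ, ((lam a : ℂˣ) : ℂ) ^ 4 =
      ((lam a₀ : ℂˣ) : ℂ) ^ 4 * ∑ a : Fˣ, ((lam a : ℂˣ) : ℂ) ^ 4 := by
    rw [Finset.mul_sum]
    refine (Fintype.sum_equiv (Equiv.mulLeft a₀) _ _ fun a => ?_).symm
    simp only [Equiv.coe_mulLeft, map_mul, Units.val_mul, mul_pow]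
  have h2 : (((lam a₀ : ℂˣ) : ℂ) ^ 4 - 1) * ∑ a : Fˣ, ((lam a : ℂˣ) : ℂ) ^ 4 = 0 := by
    linear_combination -h1
  rcases mul_eq_zero.mp h2 with h3 | h3
  · exact absurd (sub_eq_zero.mp h3) h
  · exact h3

/-- The irreducible character of degree `28`. -/
theorem isIrr_xi {w₀ : SU 3 F 3} (hw1 : act w₀ e = f) (lam : Fˣ →* ℂˣ) {a₀ : Fˣ}
    (h : ((lam a₀ : ℂˣ) : ℂ) ^ 4 ≠ 1) : IsIrrCharacter (SU 3 F 3) (indFun (B e) (th H lam)) := by
  refine isIrrCharacter_of_classInner_self_eq_one (isChar_xi H lam) ?_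
  rw [norm_xi H hF hw1, sum_pow_four_eq_zero lam h]
  simp

/-- The norm in the quadratic case. -/
theorem norm_xi_two {w₀ : SU 3 F 3} (hw1 : act w₀ e = f) (lam : Fˣ →* ℂˣ)
    (h : ∀ a : Fˣ, ((lam a : ℂˣ) : ℂ) ^ 4 = 1) :
    classInner (indFun (B e) (th H lam)) (indFun (B e) (th H lam)) = 2 := by
  rw [norm_xi H hF hw1, Finset.sum_congr rfl (fun a _ => h a), Finset.sum_const, Finset.card_univ,
    Fintype.card_units, hF]
  norm_num

/-! ### Values on the unipotent radical -/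

theorem xi_on_U (lam : Fˣ →* ℂˣ) {u : SU 3 F 3} (hu : u ∈ U e) (hu1 : u ≠ 1) :
    indFun (B e) (th H lam) u = 1 := by
  classical
  have hterm : ∀ x : SU 3 F 3, extendByZero (B e) (th H lam) (x⁻¹ * u * x) =
      if x ∈ B e then 1 else 0 := by
    intro x
    split_ifs with hx
    · have hm : x⁻¹ * u * x ∈ B e :=
        (B e).mul_mem ((B e).mul_mem ((B e).inv_mem hx) (U_le_B e hu)) hx
      rw [extendByZero_of_mem _ _ hm, th_apply]
      have h1 : (⟨x⁻¹ * u * x, hm⟩ : B e) = (⟨x, hx⟩ : B e)⁻¹ * ⟨u, U_le_B e hu⟩ * ⟨x, hx⟩ := rfl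
      have h2 : cHom H.e_ne_zero (⟨u, U_le_B e hu⟩ : B e) = 1 :=
        (mem_ker_cHom H.e_ne_zero).2 hu
      have h3 : cHom H.e_ne_zero ((⟨x, hx⟩ : B e)⁻¹ * ⟨u, U_le_B e hu⟩ * ⟨x, hx⟩) = 1 := by
        rw [map_mul, map_mul, map_inv, h2, mul_one, inv_mul_cancel]
      rw [h1, h3, map_one, Units.val_one]
    · have hm : x⁻¹ * u * x ∉ B e := fun h => hx (H.mem_B_of_conj hF hu hu1 h)
      rw [extendByZero_of_notMem _ _ hm]
  rw [indFun_apply, Finset.sum_congr rfl (fun x _ => hterm x), Finset.sum_boole]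
  have hc : (Finset.univ.filter (fun x : SU 3 F 3 => x ∈ B e)).card = Nat.card (B e) := by
    rw [Nat.card_eq_fintype_card, Fintype.card_subtype]
  rw [hc, card_B hF H]
  norm_num

/-- The multiplicity of the trivial character of `U e` in `ξ`. -/
theorem classInner_xi_U (lam : Fˣ →* ℂˣ) :
    classInner (fun u : U e => indFun (B e) (th H lam) u) (1 : U e → ℂ) = 2 := by
  classical
  have hterm : ∀ u : U e, indFun (B e) (th H lam) u * conj ((1 : U e → ℂ) u) =
      1 + if u = 1 then 27 else 0 := by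
    intro u
    split_ifs with h
    · rw [h]
      simp only [OneMemClass.coe_one, xi_one H hF, Pi.one_apply, map_one, mul_one]
      norm_num
    · rw [xi_on_U H hF lam u.2 (fun h1 => h (Subtype.ext h1))]
      simp
  rw [classInner_def, Finset.sum_congr rfl (fun u _ => hterm u), Finset.sum_add_distrib,
    Finset.sum_ite_eq', Finset.sum_const, Finset.card_univ, ← Nat.card_eq_fintype_card,
    card_U hF H.he H.e_ne_zero]
  norm_num

omit hF in
/-- A constituent of `ξ` contains the trivial character of `U e`. -/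
theorem exists_classInner_U {lam : Fˣ →* ℂˣ} {χ : SU 3 F 3 → ℂ} (hχ : IsCharacter (SU 3 F 3) χ)
    (hc : classInner (indFun (B e) (th H lam)) χ ≠ 0) :
    ∃ n : ℕ, classInner (fun u : U e => χ u) (1 : U e → ℂ) = ((n + 1 : ℕ) : ℂ) := by
  classical
  rw [frobenius_reciprocity _ _ _ (isClassFunction_of_isCharacter hχ)] at hc
  have hc' : classInner (fun b : B e => χ b) (th H lam) ≠ 0 := by
    intro h0
    apply hc
    rw [← classInner_conj_symm, h0]
    simp
  have hΞ := isCharacter_sub_constituent (isCharacter_restrict hχ (B e)) (isIrr_th H lam) hc'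
  let incl : U e →* B e := Subgroup.inclusion (U_le_B e)
  have hτ := isCharacter_comp_hom hΞ incl
  obtain ⟨n, hn⟩ := exists_nat_classInner_of_isCharacter hτ (isCharacter_one (G := U e))
  refine ⟨n, ?_⟩
  have hsplit : (fun u : U e => χ u) =
      (fun u : U e => ((fun b : B e => χ b) - th H lam) (incl u)) + (1 : U e → ℂ) := by
    funext u
    have h1 : cHom H.e_ne_zero (incl u) = 1 := (mem_ker_cHom H.e_ne_zero).2 u.2
    simp only [Pi.add_apply, Pi.sub_apply, Pi.one_apply, th_apply, h1, map_one, Units.val_one]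
    simp [incl]
  have h11 : classInner (1 : U e → ℂ) (1 : U e → ℂ) = 1 := by
    have h2 : IsIrrCharacter (U e) (1 : U e → ℂ) := by
      have := isIrr_of_hom (1 : U e →* ℂˣ)
      simpa [Pi.one_def] using this
    exact classInner_irr_self h2
  rw [hsplit, classInner_add_left, hn, h11]
  push_cast
  rfl

/-- The parity lemma. -/
theorem parity {a : Fˣ} (ha : (a : F) ^ 4 ≠ 1) {χ : SU 3 F 3 → ℂ} (hχ : IsCharacter (SU 3 F 3) χ)
    {m d : ℕ} (hm : classInner (fun u : U e => χ u) (1 : U e → ℂ) = m) (hd : χ 1 = d) :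
    Even (m + d) := by
  classical
  set t := (H.tau hF a).1 with ht
  have htB : t ∈ B e := (H.tau hF a).2
  let P : SU 3 F 3 → Prop := fun x => x ∈ U e ∧ x ≠ 1
  let c : Equiv.Perm (SU 3 F 3) := (MulAut.conj t).toEquiv
  have hc : ∀ x, c x = t * x * t⁻¹ := fun x => rfl
  have hcn : ∀ (n : ℕ) (x : SU 3 F 3), (c ^ n) x = t ^ n * x * (t ^ n)⁻¹ := by
    intro n x
    induction n with
    | zero => simp
    | succ n ih =>
      rw [pow_succ', Equiv.Perm.mul_apply, ih, hc, pow_succ']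
      group
  have hP : ∀ x, P (c x) ↔ P x := by
    intro x
    rw [hc]
    constructor
    · rintro ⟨h1, h2⟩
      refine ⟨?_, fun h3 => h2 (by rw [h3]; group)⟩
      have h3 := H.conj_mem_U hF ((B e).inv_mem htB) h1
      have h4 : t⁻¹ * (t * x * t⁻¹) * t⁻¹⁻¹ = x := by group
      rwa [h4] at h3
    · rintro ⟨h1, h2⟩
      refine ⟨H.conj_mem_U hF htB h1, fun h3 => h2 ?_⟩
      have h4 : x = t⁻¹ * (t * x * t⁻¹) * t := by group
      rw [h4, h3]
      group
  let π : Equiv.Perm {x // P x} := c.subtypePerm hP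
  have hπ : π ^ 2 ^ 3 = 1 := by
    rw [Equiv.Perm.subtypePerm_pow]
    ext x
    have h8 : t ^ 8 = 1 := H.tau_pow_eight hF a
    simp only [Equiv.Perm.subtypePerm_apply, Equiv.Perm.one_apply]
    rw [hcn]
    norm_num [h8]
  have hfix : ∀ x, π x ≠ x := by
    rintro ⟨x, hx1, hx2⟩ h
    have h1 : t * x * t⁻¹ = x := congrArg Subtype.val h
    exact hx2 (H.eq_one_of_comm hF ha hx1 h1)
  have hcl := isClassFunction_of_isCharacter hχ
  obtain ⟨A, hA, hsum⟩ := exists_half π 3 hπ hfix (fun x => χ x.1)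
    (fun x => hcl x.1 t) (fun x => Cfsg.Agent.Lib.Char.Values.IsCharacter.isIntegral hχ x.1)
  -- the sum over `U e`
  have hU : ∑ u : U e, χ u = χ 1 + ∑ x : {x // P x}, χ x.1 := by
    rw [Fintype.sum_eq_add_sum_subtype_ne _ (1 : U e)]
    congr 1
    refine Fintype.sum_equiv
      { toFun := fun u => ⟨u.1.1, u.1.2, fun h => u.2 (Subtype.ext h)⟩
        invFun := fun x => ⟨⟨x.1, x.2.1⟩, fun h => x.2.2 (congrArg Subtype.val h)⟩
        left_inv := fun _ => rfl
        right_inv := fun _ => rfl } _ _ fun u => rfl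
  have h27 : ∑ u : U e, χ u = 27 * m := by
    rw [classInner_def, card_U hF H.he H.e_ne_zero] at hm
    have h1 : ∑ g : U e, χ g * conj ((1 : U e → ℂ) g) = ∑ u : U e, χ u := by
      refine Finset.sum_congr rfl fun u _ => ?_
      simp
    rw [h1] at hm
    push_cast at hm
    rw [← hm]
    field_simp
  have hrel : ((27 * m + d : ℕ) : ℂ) / ((2 : ℕ) : ℂ) = d + A := by
    push_cast
    rw [← h27, hU, hsum, hd]
    field_simp
    ring
  have hdvd : 2 ∣ 27 * m + d := by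
    apply Cfsg.Agent.Lib.Char.Integrality.natCast_dvd_of_isIntegral_div (by norm_num)
    rw [hrel]
    exact (isIntegral_natCast _).add hA
  rw [Nat.even_iff]
  omega

/-- The degree facts for the stabiliser of a hyperbolic pair. -/
theorem hasDeg_of_pair {w₀ : SU 3 F 3} (hw1 : act w₀ e = f) :
    HasDeg (SU 3 F 3) 14 ∧ HasDeg (SU 3 F 3) 21 := by
  classical
  -- a generator of `Fˣ`
  obtain ⟨g, hg⟩ := IsCyclic.exists_generator (α := Fˣ)
  have ho : orderOf g = 8 := by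
    rw [orderOf_eq_card_of_forall_mem_zpowers hg, Nat.card_eq_fintype_card, Fintype.card_units, hF]
    rfl
  have hg4 : g ^ 4 ≠ 1 := by
    intro h
    have := orderOf_dvd_of_pow_eq_one h
    rw [ho] at this
    omega
  have hg4' : (g : F) ^ 4 ≠ 1 := by
    intro h
    apply hg4
    apply Units.ext
    simpa using h
  obtain ⟨μ, hμ⟩ : ∃ μ : Fˣ →* ℂˣ, μ (g ^ 4) ≠ 1 :=
    CommGroup.exists_apply_ne_one_of_hasEnoughRootsOfUnity Fˣ ℂ hg4
  have hμ4 : ((μ g : ℂˣ) : ℂ) ^ 4 ≠ 1 := by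
    intro h
    apply hμ
    apply Units.ext
    rw [map_pow, Units.val_pow_eq_pow_val, h, Units.val_one]
  have hirr := isIrr_xi H hF hw1 μ hμ4
  have h14 : HasDeg (SU 3 F 3) 14 :=
    hasDeg_of hirr (m := 28) (by rw [xi_one H hF]; norm_num) (by norm_num)
  refine ⟨h14, ?_⟩
  -- the quadratic character
  let lam : Fˣ →* ℂˣ := μ ^ 4
  have hlamv : ∀ a, ((lam a : ℂˣ) : ℂ) = ((μ a : ℂˣ) : ℂ) ^ 4 := fun a => by
    simp [lam]
  have hlam : ∀ a : Fˣ, ((lam a : ℂˣ) : ℂ) ^ 4 = 1 := by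
    intro a
    rw [hlamv, ← pow_mul]
    have h8 := lam_pow_eight hF μ a
    calc ((μ a : ℂˣ) : ℂ) ^ (4 * 4) = (((μ a : ℂˣ) : ℂ) ^ 8) ^ 2 := by ring
      _ = 1 := by rw [h8, one_pow]
  have hlamg : lam g ≠ 1 := by
    intro h
    apply hμ
    rw [map_pow]
    have := h
    simpa [lam] using this
  have hnorm := norm_xi_two H hF hw1 lam hlam
  have hxi1 : indFun (B e) (th H lam) 1 = 28 := xi_one H hF lam
  obtain ⟨χ₁, χ₂, h₁, h₂, hsum⟩ := exists_two_of_norm_two (isChar_xi H lam)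
    (by rw [hxi1]; norm_num) hnorm
  have hc₁ := isCharacter_of_isIrrCharacter h₁
  have hc₂ := isCharacter_of_isIrrCharacter h₂
  have hcon₁ : classInner (indFun (B e) (th H lam)) χ₁ ≠ 0 := by
    obtain ⟨k, hk⟩ := exists_nat_classInner_of_isCharacter hc₂ hc₁
    rw [hsum, classInner_add_left, classInner_irr_self h₁, hk]
    exact_mod_cast Nat.succ_ne_zero k ∘ (by rw [add_comm]; exact id)
  have hcon₂ : classInner (indFun (B e) (th H lam)) χ₂ ≠ 0 := by
    obtain ⟨k, hk⟩ := exists_nat_classInner_of_isCharacter hc₁ hc₂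
    rw [hsum, classInner_add_left, classInner_irr_self h₂, hk]
    exact_mod_cast Nat.succ_ne_zero k
  obtain ⟨n₁, hn₁⟩ := exists_classInner_U H hc₁ hcon₁
  obtain ⟨n₂, hn₂⟩ := exists_classInner_U H hc₂ hcon₂
  have hn : n₁ = 0 ∧ n₂ = 0 := by
    have h2 := classInner_xi_U H hF lam
    have h3 : (fun u : U e => indFun (B e) (th H lam) u) =
        (fun u : U e => χ₁ u) + (fun u : U e => χ₂ u) := by
      rw [hsum]
      rfl
    rw [h3, classInner_add_left, hn₁, hn₂] at h2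
    have h4 : n₁ + 1 + (n₂ + 1) = 2 := by exact_mod_cast h2
    omega
  obtain ⟨d₁, hd₁0, hd₁⟩ := irr_degree_pos h₁
  obtain ⟨d₂, hd₂0, hd₂⟩ := irr_degree_pos h₂
  have hsumd : d₁ + d₂ = 28 := by
    have h3 := congrFun hsum 1
    rw [hxi1, Pi.add_apply, hd₁, hd₂] at h3
    have : ((d₁ + d₂ : ℕ) : ℂ) = ((28 : ℕ) : ℂ) := by
      push_cast
      rw [← h3]
    exact_mod_cast this
  have hp₁ := parity H hF hg4' hc₁ (m := 1) (d := d₁) (by rw [hn₁, hn.1]) hd₁
  have hp₂ := parity H hF hg4' hc₂ (m := 1) (d := d₂) (by rw [hn₂, hn.2]) hd₂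
  have hdvd₁ : d₁ ∣ 6048 := by
    have := Cfsg.Agent.Lib.Char.BrauerSCNum.degree_dvd (⟨χ₁, h₁⟩ : IrrCharacter (SU 3 F 3)) d₁ hd₁
    rwa [card_G hF] at this
  have hdvd₂ : d₂ ∣ 6048 := by
    have := Cfsg.Agent.Lib.Char.BrauerSCNum.degree_dvd (⟨χ₂, h₂⟩ : IrrCharacter (SU 3 F 3)) d₂ hd₂
    rwa [card_G hF] at this
  -- no linear constituent
  have hlin : ∀ χ : SU 3 F 3 → ℂ, IsIrrCharacter (SU 3 F 3) χ →
      classInner (indFun (B e) (th H lam)) χ ≠ 0 → χ 1 ≠ 1 := by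
    intro χ hχ hne h1
    obtain ⟨φ, rfl⟩ := exists_hom_of_isCharacter_one (isCharacter_of_isIrrCharacter hχ) h1
    have hφ : ∀ x, φ x = 1 := by
      intro x
      have h2 : commutator (SU 3 F 3) ≤ φ.ker := Abelianization.commutator_subset_ker φ
      rw [Cfsg.Agent.Lib.Classical.Herm.Simple.perfect hF (by norm_num) (by norm_num)] at h2
      exact h2 (Subgroup.mem_top x)
    have hone := isIrr_of_hom (1 : B e →* ℂˣ)
    rw [frobenius_reciprocity _ _ _
      (isClassFunction_of_isCharacter (isCharacter_of_isIrrCharacter hχ))] at hne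
    apply hne
    have h3 : (fun h : B e => (fun g => ((φ g : ℂˣ) : ℂ)) (h : SU 3 F 3)) =
        (fun h : B e => (((1 : B e →* ℂˣ) h : ℂˣ) : ℂ)) := by
      funext h
      simp [hφ]
    rw [h3]
    refine classInner_irr_of_ne (isIrr_th H lam) hone ?_
    intro h4
    have h5 := congrFun h4 (H.tau hF g)
    rw [th_apply, H.cHom_tau] at h5
    apply hlamg
    apply Units.ext
    simpa using h5
  have hne₁ : d₁ ≠ 1 := by
    rintro rfl
    exact hlin χ₁ h₁ hcon₁ (by rw [hd₁]; simp)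
  have hne₂ : d₂ ≠ 1 := by
    rintro rfl
    exact hlin χ₂ h₂ hcon₂ (by rw [hd₂]; simp)
  have hd₂' : d₂ = 28 - d₁ := by omega
  have h21 := arith_aux d₁ (by omega) hdvd₁ (by rw [← hd₂']; exact hdvd₂)
    (Nat.even_iff.1 hp₁) (by rw [← hd₂']; exact Nat.even_iff.1 hp₂) hne₁ (by rw [← hd₂']; exact hne₂)
  rcases h21 with h21 | h21
  · exact hasDeg_of h₁ hd₁ h21
  · rw [← hd₂'] at h21
    exact hasDeg_of h₂ hd₂ h21

omit H in
/-- The degree facts for `SU₃(3)`. -/
theorem hasDeg_SU : HasDeg (SU 3 F 3) 14 ∧ HasDeg (SU 3 F 3) 21 := by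
  obtain ⟨e, f, H⟩ := exists_HP hF
  obtain ⟨w₀, hw1, -⟩ := exists_swap hF H.he H.hf H.hef
  exact hasDeg_of_pair H hF hw1

end Cfsg.Agent.Lib.PGroup.DegGraphU33Char
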