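import Cfsg.Agent.Lib.ChevWC.Word
import Cfsg.Agent.Lib.ChevOrder.BruhatForm

/-!
Gradings of the coordinate module of a Chevalley datum attached to functions on the roots, the
subgroups generated by the positive roots of high coefficient at a fixed fundamental root, and the
coordinates of their elements at the lowest layer.
-/

set_option autoImplicit false
set_option linter.unusedSectionVars false

namespace Cfsg.Agent.Lib.PGroup.E8CoreGr

open Cfsg.Lie Cfsg.Agent.Lib.ChevBN.Elem Cfsg.Agent.Lib.ChevBN.Entries Cfsg.Agent.Lib.ChevBN.Table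
open Cfsg.Agent.Lib.ChevBN.Collect Cfsg.Agent.Lib.ChevBN.Rel Cfsg.Agent.Lib.ChevBN.Torus
open Cfsg.Agent.Lib.ChevBN.Monomial Cfsg.Agent.Lib.ChevBN.Core Cfsg.Agent.Lib.ChevBN.Pair
open Cfsg.Agent.Lib.ChevBN.Stmts Cfsg.Agent.Lib.ChevBN.Levi
open Cfsg.Agent.Lib.BNPair.Basic Cfsg.Agent.Lib.ChevOrder.Chev

variable {D : ChevalleyDatum} {F : Type*} [Field F] {η : ℕ → ℕ → ℤ}

/-- The grading on the coordinates attached to a function on the roots. -/
def dg (D : ChevalleyDatum) (Φ : ℕ → ℤ) : D.Idx → ℤ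
  | Sum.inl _ => 0
  | Sum.inr s => Φ s.val

/-- A matrix raises the grading by at least `K`. -/
def Lv (Φ : ℕ → ℤ) (K : ℤ) (M : Matrix D.Idx D.Idx F) : Prop :=
  ∀ a b, M a b ≠ 0 → dg D Φ b + K ≤ dg D Φ a

theorem Lv.add {Φ : ℕ → ℤ} {K : ℤ} {M M' : Matrix D.Idx D.Idx F} (h : Lv Φ K M) (h' : Lv Φ K M') :
    Lv Φ K (M + M') := by
  intro a b hne
  by_cases h0 : M a b = 0
  · rw [Matrix.add_apply, h0, zero_add] at hne
    exact h' a b hne
  · exact h a b h0

theorem Lv.mul {Φ : ℕ → ℤ} {K K' : ℤ} {M M' : Matrix D.Idx D.Idx F} (h : Lv Φ K M)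
    (h' : Lv Φ K' M') : Lv Φ (K + K') (M * M') := by
  intro a b hne
  rw [Matrix.mul_apply] at hne
  obtain ⟨l, -, hl⟩ := Finset.exists_ne_zero_of_sum_ne_zero hne
  have h1 := h a l (left_ne_zero_of_mul hl)
  have h2 := h' l b (right_ne_zero_of_mul hl)
  linarith

theorem Lv.mono {Φ : ℕ → ℤ} {K K' : ℤ} {M : Matrix D.Idx D.Idx F} (hKK : K' ≤ K) (h : Lv Φ K M) :
    Lv Φ K' M := by
  intro a b hne
  have := h a b hne
  linarith

/-- An element of `GL` is at level `K`. -/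
def LvG (Φ : ℕ → ℤ) (K : ℤ) (g : GL D.Idx F) : Prop := Lv Φ K ((g : Matrix D.Idx D.Idx F) - 1)

theorem LvG_one (Φ : ℕ → ℤ) (K : ℤ) : LvG Φ K (1 : GL D.Idx F) := by
  intro a b hne
  simp at hne

theorem LvG_mul {Φ : ℕ → ℤ} {K : ℤ} (hK : 0 ≤ K) {x y : GL D.Idx F} (hx : LvG Φ K x)
    (hy : LvG Φ K y) : LvG Φ K (x * y) := by
  have e : ((x * y : GL D.Idx F) : Matrix D.Idx D.Idx F) - 1 =
      ((x : Matrix D.Idx D.Idx F) - 1) + ((y : Matrix D.Idx D.Idx F) - 1) +
        ((x : Matrix D.Idx D.Idx F) - 1) * ((y : Matrix D.Idx D.Idx F) - 1) := by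
    rw [Units.val_mul]
    noncomm_ring
  unfold LvG
  rw [e]
  exact (hx.add hy).add ((hx.mul hy).mono (by linarith))

/-- Linearity of a function on the roots, as needed for root elements. -/
structure LinG (D : ChevalleyDatum) (Φ : ℕ → ℤ) : Prop where
  neg : ∀ r < D.nroots, Φ (D.neg r) = - Φ r
  chain : ∀ r < D.nroots, ∀ e ∈ (D.chain.getD r #[]).toList, ∀ q ∈ e.2.toList, Φ q.1 = Φ r + Φ e.1

theorem Lv_x {Φ : ℕ → ℤ} (hΦ : LinG D Φ) {s : ℕ} (hs : s < D.nroots) {K : ℤ} (h0 : 0 ≤ Φ s)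
    (hK : K ≤ Φ s) (t : F) : Lv Φ K (D.x F s t - 1) := by
  intro a b hne
  rw [Matrix.sub_apply] at hne
  rcases b with j | c
  · rcases a with i | u
    · exfalso
      apply hne
      rw [x_inl_inl hs t i j, Matrix.one_apply]
      by_cases h : i = j
      · simp [h]
      · simp [h]
    · have h1 : (1 : Matrix D.Idx D.Idx F) (Sum.inr u) (Sum.inl j) = 0 :=
        Matrix.one_apply_ne (by simp)
      rw [x_inr_inl hs t u j, h1, sub_zero] at hne
      by_cases hu : u.val = s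
      · simp only [dg, zero_add]
        rw [hu]
        exact hK
      · rw [if_neg hu] at hne
        exact absurd rfl hne
  · by_cases hcs : c.val = s
    · have hce : c = ⟨s, hs⟩ := Fin.ext hcs
      subst hce
      exfalso
      apply hne
      rcases a with i | u
      · have h1 : (1 : Matrix D.Idx D.Idx F) (Sum.inl i) (Sum.inr ⟨s, hs⟩) = 0 :=
          Matrix.one_apply_ne (by simp)
        rw [x_inl_inr_self hs t i, h1, sub_zero]
      · rw [x_inr_inr_self hs t u, Matrix.one_apply]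
        by_cases hu : u.val = s
        · have : u = ⟨s, hs⟩ := Fin.ext hu
          simp [this]
        · have : u ≠ ⟨s, hs⟩ := fun h => hu (by rw [h])
          simp [hu, this]
    · by_cases hcn : c.val = D.neg s
      · rcases a with i | u
        · simp only [dg]
          rw [hcn, hΦ.neg s hs]
          linarith
        · rw [x_inr_inr_neg hs t u c hcs hcn, Matrix.one_apply] at hne
          by_cases huc : u = c
          · subst huc
            simp at hne
          · have h2 : (Sum.inr u : D.Idx) ≠ Sum.inr c := by simpa using huc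
            rw [if_neg huc, if_neg h2, sub_zero] at hne
            by_cases hu : u.val = s
            · simp only [dg]
              rw [hcn, hΦ.neg s hs, hu]
              linarith
            · rw [if_neg hu] at hne
              exact absurd rfl hne
      · rcases a with i | u
        · exfalso
          apply hne
          have h1 : (1 : Matrix D.Idx D.Idx F) (Sum.inl i) (Sum.inr c) = 0 :=
            Matrix.one_apply_ne (by simp)
          rw [x_inl_inr_gen hs t i c hcs hcn, h1, sub_zero]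
        · rw [x_inr_inr_gen hs t u c hcs hcn, Matrix.one_apply] at hne
          have h3 : ((D.chainCoeff s c.val u.val).map fun km => ((km.2 : ℤ) : F) * t ^ km.1).sum ≠ 0 := by
            intro h4
            apply hne
            rw [h4, add_zero]
            by_cases huc : u = c
            · subst huc
              simp
            · have h2 : (Sum.inr u : D.Idx) ≠ Sum.inr c := by simpa using huc
              rw [if_neg huc, if_neg h2, sub_zero]
          obtain ⟨e, he, he1, q, hq, hq1⟩ := mem_chain_of_ne_zero h3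
          have h5 := hΦ.chain s hs e he q hq
          rw [he1, hq1] at h5
          simp only [dg]
          rw [h5]
          linarith

theorem LvG_X (hA : AddRel D F) {Φ : ℕ → ℤ} (hΦ : LinG D Φ) {s : ℕ} (hs : s < D.nroots) {K : ℤ}
    (h0 : 0 ≤ Φ s) (hK : K ≤ Φ s) (t : F) : LvG Φ K (X hA s t) := by
  unfold LvG
  rw [coe_X]
  exact Lv_x hΦ hs h0 hK t

theorem LvG_gen (hA : AddRel D F) {Φ : ℕ → ℤ} (hΦ : LinG D Φ) {Ψ : Set ℕ} {K : ℤ} (hK : 0 ≤ K)
    (h : ∀ s ∈ Ψ, s < D.nroots ∧ K ≤ Φ s) {x : GL D.Idx F} (hx : x ∈ gen hA Ψ) : LvG Φ K x := by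
  refine gen_induction hA (P := fun x => LvG Φ K x) (LvG_one Φ K) ?_ ?_ hx
  · intro s hs t
    obtain ⟨h1, h2⟩ := h s hs
    exact LvG_X hA hΦ h1 (by linarith) h2 t
  · intro a b ha hb
    exact LvG_mul hK ha hb

/-- A root element at a root of negative value is not at level `0`. -/
theorem nonneg_of_LvG_X (hA : AddRel D F) {Φ : ℕ → ℤ} (hΦ : LinG D Φ) {q : ℕ} (hq : q < D.nroots)
    (hnl : D.neg q < D.nroots) (hne : D.neg q ≠ q) {t : F} (ht : t ≠ 0)
    (h : LvG Φ 0 (X hA q t)) : 0 ≤ Φ q := by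
  have h1 := h (Sum.inr ⟨q, hq⟩) (Sum.inr ⟨D.neg q, hnl⟩) (by
    rw [Matrix.sub_apply, coe_X, x_inr_inr_neg hq t _ _ hne rfl, Matrix.one_apply]
    have h2 : (⟨q, hq⟩ : Fin D.nroots) ≠ ⟨D.neg q, hnl⟩ := by
      intro h3
      exact hne (congrArg Fin.val h3).symm
    have h3 : (Sum.inr ⟨q, hq⟩ : D.Idx) ≠ Sum.inr ⟨D.neg q, hnl⟩ := by simpa using h2
    rw [if_neg h2, if_neg h3, if_pos rfl, sub_zero]
    exact neg_ne_zero.mpr (pow_ne_zero 2 ht))
  simp only [dg] at h1
  rw [hΦ.neg q hq] at h1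
  linarith

section Conj

variable (hR : Sys D F η) (hT : Tbl D)
include hR hT

/-- Conjugation by `A q` when it is an involution. -/
theorem LvG_conj_A {q : ℕ} (hq : q < D.rank) (hinv : (A hR q)⁻¹ = A hR q) {Φ Φ' : ℕ → ℤ}
    (hΦ : ∀ s < D.nroots, Φ' s = Φ (D.reflectRoot q s)) {K : ℤ} {y : GL D.Idx F}
    (hy : LvG Φ K y) : LvG Φ' K (A hR q * y * (A hR q)⁻¹) := by
  set n : Matrix D.Idx D.Idx F := D.nMat F (D.simple q) 1 with hn
  have hAn : ((A hR q : GL D.Idx F) : Matrix D.Idx D.Idx F) = n := coe_A hR q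
  have hnn : n * n = 1 := by
    have h1 : A hR q * A hR q = 1 := by
      nth_rw 2 [← hinv]
      exact mul_inv_cancel _
    have h2 := congrArg (fun g : GL D.Idx F => (g : Matrix D.Idx D.Idx F)) h1
    simpa [Units.val_mul, hAn] using h2
  have e : ((A hR q * y * (A hR q)⁻¹ : GL D.Idx F) : Matrix D.Idx D.Idx F) - 1 =
      n * ((y : Matrix D.Idx D.Idx F) - 1) * n := by
    rw [hinv, Units.val_mul, Units.val_mul, hAn]
    rw [Matrix.mul_sub, Matrix.sub_mul, Matrix.mul_one, hnn]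
  -- the shape of `n`
  have hs1 : ∀ a l, n a l ≠ 0 → dg D Φ' a = dg D Φ l := by
    intro a l hne
    rcases a with i | u
    · rcases l with j | s
      · rfl
      · exact absurd (hR.nshape₂ q hq i s) hne
    · rcases l with j | s
      · exact absurd (hR.nshape₁ q hq j u) hne
      · have hu : u.val = D.reflectRoot q s := by
          by_contra h
          exact hne (hR.nshape₃ q hq s u h)
        simp only [dg]
        rw [hΦ u.val u.isLt, hu, hT.w_w q hq s s.isLt]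
  have hs2 : ∀ m b, n m b ≠ 0 → dg D Φ m = dg D Φ' b := by
    intro m b hne
    rcases m with i | u
    · rcases b with j | s
      · rfl
      · exact absurd (hR.nshape₂ q hq i s) hne
    · rcases b with j | s
      · exact absurd (hR.nshape₁ q hq j u) hne
      · have hu : u.val = D.reflectRoot q s := by
          by_contra h
          exact hne (hR.nshape₃ q hq s u h)
        simp only [dg]
        rw [hΦ s.val s.isLt, hu]
  unfold LvG
  rw [e]
  intro a b hne
  rw [Matrix.mul_apply] at hne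
  obtain ⟨m, -, hm⟩ := Finset.exists_ne_zero_of_sum_ne_zero hne
  have hm1 := left_ne_zero_of_mul hm
  have hm2 := right_ne_zero_of_mul hm
  rw [Matrix.mul_apply] at hm1
  obtain ⟨l, -, hl⟩ := Finset.exists_ne_zero_of_sum_ne_zero hm1
  have hl1 := left_ne_zero_of_mul hl
  have hl2 := right_ne_zero_of_mul hl
  have h3 := hy l m hl2
  rw [hs1 a l hl1, ← hs2 m b hm2]
  exact h3

/-- Propagation of gradings along the reflections. -/
theorem LvG_of_words {𝒩 : Set (GL D.Idx F)} {K : ℤ} {J : Set ℕ}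
    (hinv : ∀ j ∈ J, j < D.rank → (A hR j)⁻¹ = A hR j)
    (hnorm : ∀ j ∈ J, j < D.rank → ∀ x ∈ 𝒩, A hR j * x * (A hR j)⁻¹ ∈ 𝒩) :
    ∀ (L : List ℕ), (∀ j ∈ L, j ∈ J ∧ j < D.rank) → ∀ Ψ : ℕ → ℤ, (∀ x ∈ 𝒩, LvG Ψ K x) →
      ∀ x ∈ 𝒩, LvG (fun u => Ψ (L.foldr D.reflectRoot u)) K x := by
  intro L
  induction L with
  | nil =>
    intro _ Ψ h x hx
    exact h x hx
  | cons j L ih =>
    intro hL Ψ h x hx
    have hj := hL j (by simp)
    refine ih (fun i hi => hL i (by simp [hi])) (fun u => Ψ (D.reflectRoot j u)) ?_ x hx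
    intro y hy
    have h1 := hnorm j hj.1 hj.2 y hy
    have h2 := LvG_conj_A hR hT (Φ := Ψ) (Φ' := fun u => Ψ (D.reflectRoot j u)) hj.2
      (hinv j hj.1 hj.2) (fun s _ => rfl) (h _ h1)
    have e : A hR j * (A hR j * y * (A hR j)⁻¹) * (A hR j)⁻¹ = y := by
      have h3 : A hR j * A hR j = 1 := by
        nth_rw 2 [← hinv j hj.1 hj.2]
        exact mul_inv_cancel _
      have h4 : (A hR j)⁻¹ * (A hR j)⁻¹ = 1 := by
        rw [hinv j hj.1 hj.2]
        exact h3
      calc A hR j * (A hR j * y * (A hR j)⁻¹) * (A hR j)⁻¹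
          = (A hR j * A hR j) * y * ((A hR j)⁻¹ * (A hR j)⁻¹) := by group
        _ = y := by rw [h3, h4]; group
    rwa [e] at h2

end Conj

/-- Elements at level `K` in both directions form a subgroup. -/
def LvS (Φ : ℕ → ℤ) (K : ℤ) (hK : 0 ≤ K) : Subgroup (GL D.Idx F) where
  carrier := {g | LvG Φ K g ∧ LvG Φ K g⁻¹}
  mul_mem' := by
    rintro a b ⟨ha1, ha2⟩ ⟨hb1, hb2⟩
    refine ⟨LvG_mul hK ha1 hb1, ?_⟩
    rw [mul_inv_rev]
    exact LvG_mul hK hb2 ha2
  one_mem' := by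
    refine ⟨LvG_one Φ K, ?_⟩
    rw [inv_one]
    exact LvG_one Φ K
  inv_mem' := by
    rintro a ⟨h1, h2⟩
    refine ⟨h2, ?_⟩
    rw [inv_inv]
    exact h1

theorem LvG_dgMat {Φ : ℕ → ℤ} (χ : Fin D.nroots → F) : Lv Φ 0 (dgMat D χ - 1) := by
  intro a b hne
  by_cases hab : a = b
  · subst hab
    simp
  · exfalso
    apply hne
    rw [Matrix.sub_apply, dgMat, Matrix.diagonal_apply_ne _ hab, Matrix.one_apply_ne hab, sub_zero]

section Main

variable (hR : Sys D F η) (hT : Tbl D)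
include hR hT

/-- The torus is at level `0`. -/
theorem H_le_LvS (Φ : ℕ → ℤ) : D.diagonalSubgroup F ≤ LvS Φ 0 le_rfl := by
  intro h hh
  obtain ⟨κ, -, h1, -⟩ := exists_of_mem_H hR hT hh
  obtain ⟨κ', -, h2, -⟩ := exists_of_mem_H hR hT (Subgroup.inv_mem _ hh)
  refine ⟨?_, ?_⟩
  · unfold LvG
    rw [h1]
    exact LvG_dgMat _
  · unfold LvG
    rw [h2]
    exact LvG_dgMat _

/-- Generated subgroups are at level `K` in both directions. -/
theorem gen_le_LvS {Φ : ℕ → ℤ} (hΦ : LinG D Φ) {Ψ : Set ℕ} {K : ℤ} (hK : 0 ≤ K)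
    (h : ∀ s ∈ Ψ, s < D.nroots ∧ K ≤ Φ s) : gen hR.toAddRel Ψ ≤ LvS Φ K hK := by
  refine gen_le _ ?_
  intro r hr t
  obtain ⟨h1, h2⟩ := h r hr
  refine ⟨LvG_X _ hΦ h1 (by linarith) h2 t, ?_⟩
  rw [X_inv]
  exact LvG_X _ hΦ h1 (by linarith) h2 _

/-- A subgroup generated by `B` and reflections: the Bruhat decomposition forces an element at
level `0` for a regular grading into `B`. -/
theorem mem_B_of_Lv {Λ : ℕ → ℤ} (hΛ : LinG D Λ) (hpos : ∀ r, D.IsPosRoot r → 1 ≤ Λ r)
    {x : GL D.Idx F} (hx : x ∈ D.group F) (h1 : LvG Λ 0 x) (h2 : LvG Λ 0 x⁻¹) :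
    x ∈ D.borelSubgroup F := by
  have hBL : D.borelSubgroup F ≤ LvS Λ 0 le_rfl := by
    refine sup_le ?_ (H_le_LvS hR hT Λ)
    rw [posUnipotent_eq hR.toAddRel]
    exact gen_le_LvS hR hT hΛ le_rfl (fun s hs => ⟨hs.1, by have := hpos s hs; linarith⟩)
  obtain ⟨b, hb, n, hn, u, hu, rfl⟩ := Cfsg.Agent.Lib.ChevOrder.BruhatForm.exists_form hR hT hx
  have hub : u ∈ D.borelSubgroup F :=
    U_le_B hR hT (Cfsg.Agent.Lib.ChevOrder.BruhatForm.gen_Psi_le_U hR hT n hu)
  have hx' : b * n * u ∈ LvS Λ 0 (le_rfl : (0 : ℤ) ≤ 0) := ⟨h1, h2⟩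
  have hnL : n ∈ LvS Λ 0 (le_rfl : (0 : ℤ) ≤ 0) := by
    have e : n = b⁻¹ * (b * n * u) * u⁻¹ := by group
    rw [e]
    exact Subgroup.mul_mem _ (Subgroup.mul_mem _ (Subgroup.inv_mem _ (hBL hb)) hx')
      (Subgroup.inv_mem _ (hBL hub))
  have hnB : n ∈ D.borelSubgroup F := by
    have hnG : n ∈ D.group F := N_le_G hR hT hn
    set nn : ↥(D.group F) := ⟨n, hnG⟩ with hnn
    have hnN : nn ∈ (pair hR hT).N := (mem_PN hR hT).2 hn
    rcases hk : len (pair hR hT) nn with _ | k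
    · exact (mem_PB hR hT).1 ((len_eq_zero_iff hnN).1 hk)
    · exfalso
      obtain ⟨s, hs, n', hn', he, hk'⟩ := decomp_right hnN hk
      obtain ⟨i, rfl⟩ := ee_surj hR hT s hs
      have hp := hT.simple_lt i.2
      have hn'G := (mem_PN hR hT).1 hn'
      obtain ⟨σ, hneg, hσ⟩ := N_le_moving hR hT hn'G
      have hpσ := Cfsg.Agent.Lib.ChevOrder.BruhatForm.pos_of_ascent hR hT hn' i (by
        rw [← he, hk, hk']
        omega) hneg hσ
      obtain ⟨κ, hκ, h3⟩ := hσ (negF hT (alphaR hT i))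
      have hnval : n = (n' : GL D.Idx F) * A hR i := by
        have := congrArg Subtype.val he
        simpa using this
      have hX : X hR.toAddRel (D.simple i) (1 : F) ∈ LvS Λ 0 (le_rfl : (0 : ℤ) ≤ 0) := by
        have hr : D.simple i ∈ {r | D.IsPosRoot r} := hT.simple_pos i i.2
        refine gen_le_LvS hR hT hΛ le_rfl (fun s hs => ⟨hs.1, ?_⟩) (X_mem_gen _ hr 1)
        have := hpos s hs
        linarith
      have hy : n * X hR.toAddRel (D.simple i) 1 * n⁻¹ ∈ LvS Λ 0 (le_rfl : (0 : ℤ) ≤ 0) :=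
        Subgroup.mul_mem _ (Subgroup.mul_mem _ hnL hX) (Subgroup.inv_mem _ hnL)
      have e : n * X hR.toAddRel (D.simple i) 1 * n⁻¹ =
          X hR.toAddRel (σ (negF hT (alphaR hT i)))
            (κ * ((η i (D.simple i) : F) * 1)) := by
        have e1 : n * X hR.toAddRel (D.simple i) 1 * n⁻¹ =
            (n' : GL D.Idx F) * (A hR i * X hR.toAddRel (D.simple i) 1 * (A hR i)⁻¹) *
              (n' : GL D.Idx F)⁻¹ := by
          rw [hnval]
          group
        rw [e1, A_conj_X hR i.2 hp, hT.w_simple i i.2]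
        exact h3 _
      rw [e, hneg] at hy
      have hnegq : D.IsNegRoot ((negF hT (σ (alphaR hT i)) : Fin D.nroots) : ℕ) :=
        hT.neg_of_pos hpσ
      have hql : ((negF hT (σ (alphaR hT i)) : Fin D.nroots) : ℕ) < D.nroots := hnegq.1
      have h5 := nonneg_of_LvG_X hR.toAddRel hΛ hql (hT.neg_lt hql)
        (fun h => hT.pos_ne_neg (hT.pos_of_neg hnegq) hnegq h)
        (mul_ne_zero hκ (mul_ne_zero (eta_ne hR i.2 hp) one_ne_zero)) hy.1
      have h6 : Λ ((negF hT (σ (alphaR hT i)) : Fin D.nroots) : ℕ) = - Λ (σ (alphaR hT i)) :=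
        hΛ.neg _ (σ (alphaR hT i)).isLt
      have h7 := hpos _ hpσ
      omega
  exact Subgroup.mul_mem _ (Subgroup.mul_mem _ hb hnB) hub

end Main

/-! ### The subgroups attached to a fundamental root -/

/-- The positive roots with coefficient at least `k` at `q`. -/
def Sk (D : ChevalleyDatum) (q : ℕ) (k : ℤ) : Set ℕ := {r | D.IsPosRoot r ∧ k ≤ cr D r q}

/-- The subgroup generated by the root elements of `Sk`. -/
def Wk (hA : AddRel D F) (q : ℕ) (k : ℤ) : Subgroup (GL D.Idx F) := gen hA (Sk D q k)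

theorem Wk_anti (hA : AddRel D F) (q : ℕ) {k k' : ℤ} (h : k ≤ k') : Wk hA q k' ≤ Wk hA q k :=
  gen_mono hA (fun _ hr => ⟨hr.1, le_trans h hr.2⟩)

theorem Wk_le_U (hA : AddRel D F) (q : ℕ) (k : ℤ) : Wk hA q k ≤ D.posUnipotent F := by
  rw [posUnipotent_eq hA]
  exact gen_mono hA (fun _ hr => hr.1)

section Layers

variable {q : ℕ} (hq : q < D.rank) (hL : LinG D (fun r => cr D r q))
variable (hR : Sys D F η) (hT : Tbl D) (hT2 : Tbl2 D)
include hq hL hR hT hT2

theorem chainRoot_add {r s i k : ℕ} (hr : r < D.nroots) (h : D.chainRoot r s i = some k) :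
    cr D k q = cr D r q + cr D s q := by
  obtain ⟨p, hp, rfl⟩ := Cfsg.Agent.Lib.ChevBN.Fast.chainRoot_mem h
  obtain ⟨e, he, rfl, hp'⟩ := Cfsg.Agent.Lib.ChevBN.Fast.mem_chainEntry hp
  exact hL.chain r hr e he p hp'

theorem comm_level {a s : ℕ} (ha : D.IsPosRoot a) (hs : D.IsPosRoot s) (has : a ≠ s)
    {c : ℕ × ℤ × ℕ × ℕ} (hc : c ∈ D.commTerms a s) : cr D s q ≤ cr D c.1 q := by
  have ha0 := cr_nonneg ha q
  have hs0 := cr_nonneg hs q
  simp only [ChevalleyDatum.commTerms, List.mem_filterMap, List.mem_cons, List.not_mem_nil,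
    or_false, Option.map_eq_some_iff] at hc
  obtain ⟨d, hd, k, hk, rfl⟩ := hc
  have h1 : ∀ j k, D.chainRoot a s j = some k → cr D s q ≤ cr D k q := by
    intro j k h
    rw [chainRoot_add hq hL hR hT hT2 ha.1 h]
    linarith
  have h2 : ∀ j k, D.chainRoot s a j = some k → cr D s q ≤ cr D k q := by
    intro j k h
    rw [chainRoot_add hq hL hR hT hT2 hs.1 h]
    linarith
  rcases hd with rfl | rfl | rfl | rfl | rfl | rfl | rfl
  · exact h1 _ _ hk
  · exact h1 _ _ hk
  · exact h2 _ _ hk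
  · exact h1 _ _ hk
  · exact h2 _ _ hk
  · simp only [Option.bind_eq_some_iff] at hk
    obtain ⟨k₀, hk₀, hk⟩ := hk
    have h3 := chain3_pos hT ha hs has hk₀
    rw [chainRoot_add hq hL hR hT hT2 h3.1 hk]
    have := cr_nonneg h3 q
    linarith
  · simp only [Option.bind_eq_some_iff] at hk
    obtain ⟨k₀, hk₀, hk⟩ := hk
    have h3 := chain3_pos hT hs ha has.symm hk₀
    rw [chainRoot_add hq hL hR hT hT2 h3.1 hk]
    have := h2 _ _ hk₀
    linarith

theorem comm_Sk {k : ℤ} {a s : ℕ} (ha : D.IsPosRoot a) (hs : s ∈ Sk D q k) (has : a ≠ s)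
    {c : ℕ × ℤ × ℕ × ℕ} (hc : c ∈ D.commTerms a s) : c.1 ∈ Sk D q k :=
  ⟨(hT.comm_keys a s ha hs.1 has c hc).2.2.1, le_trans hs.2 (comm_level hq hL hR hT hT2 ha hs.1 has hc)⟩

theorem X_norm_Wk {k : ℤ} {a : ℕ} (ha : D.IsPosRoot a) (t : F) {g : GL D.Idx F}
    (hg : g ∈ Wk hR.toAddRel q k) :
    (X hR.toAddRel a t)⁻¹ * g * X hR.toAddRel a t ∈ Wk hR.toAddRel q k := by
  by_cases haS : a ∈ Sk D q k
  · have hm : X hR.toAddRel a t ∈ Wk hR.toAddRel q k := X_mem_gen _ haS t
    exact Subgroup.mul_mem _ (Subgroup.mul_mem _ (Subgroup.inv_mem _ hm) hg) hm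
  · refine conj_mem_gen (commPos hR) ha (fun s hs => ⟨hs.1, ?_⟩) ?_ t hg
    · rintro rfl
      exact haS hs
    · intro s hs c hc
      refine comm_Sk hq hL hR hT hT2 ha hs ?_ hc
      rintro rfl
      exact haS hs

theorem H_norm_Wk {k : ℤ} {h g : GL D.Idx F} (hh : h ∈ D.diagonalSubgroup F)
    (hg : g ∈ Wk hR.toAddRel q k) : h * g * h⁻¹ ∈ Wk hR.toAddRel q k := by
  obtain ⟨κ, hκ, -, h1⟩ := exists_of_mem_H hR hT hh
  refine gen_induction hR.toAddRel (P := fun u => h * u * h⁻¹ ∈ Wk hR.toAddRel q k)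
    (by simp) ?_ ?_ hg
  · intro r hr t
    rw [h1 r hr.1.1 t]
    exact X_mem_gen _ hr _
  · intro a b ha hb
    have e : h * (a * b) * h⁻¹ = (h * a * h⁻¹) * (h * b * h⁻¹) := by group
    rw [e]
    exact Subgroup.mul_mem _ ha hb

/-- The reflections away from `q` preserve the layers. -/
theorem w_Sk {k : ℤ} (hk : 1 ≤ k) {j : ℕ} (hj : j ≠ q) (hl : j < D.rank) {s : ℕ}
    (hs : s ∈ Sk D q k) : D.reflectRoot j s ∈ Sk D q k := by
  refine ⟨hT.w_pos j hl s hs.1 ?_, ?_⟩
  · rintro rfl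
    have h1 := hs.2
    rw [hT.coroot_simple j hl q hq, if_neg hj] at h1
    omega
  · rw [hT.coroot_w j hl s hs.1.1 q hq, if_neg (Ne.symm hj), sub_zero]
    exact hs.2

theorem A_norm_Wk {k : ℤ} (hk : 1 ≤ k) {j : ℕ} (hj : j ≠ q) (hl : j < D.rank) {g : GL D.Idx F}
    (hg : g ∈ Wk hR.toAddRel q k) : A hR j * g * (A hR j)⁻¹ ∈ Wk hR.toAddRel q k := by
  refine gen_induction hR.toAddRel (P := fun u => A hR j * u * (A hR j)⁻¹ ∈ Wk hR.toAddRel q k)
    (by simp) ?_ ?_ hg
  · intro r hr t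
    rw [A_conj_X hR hl hr.1.1]
    exact X_mem_gen _ (w_Sk hq hL hR hT hT2 hk hj hl hr) _
  · intro a b ha hb
    have e : A hR j * (a * b) * (A hR j)⁻¹ =
        (A hR j * a * (A hR j)⁻¹) * (A hR j * b * (A hR j)⁻¹) := by group
    rw [e]
    exact Subgroup.mul_mem _ ha hb

theorem A_inv_norm_Wk {k : ℤ} (hk : 1 ≤ k) {j : ℕ} (hj : j ≠ q) (hl : j < D.rank) {g : GL D.Idx F}
    (hg : g ∈ Wk hR.toAddRel q k) : (A hR j)⁻¹ * g * A hR j ∈ Wk hR.toAddRel q k := by
  refine gen_induction hR.toAddRel (P := fun u => (A hR j)⁻¹ * u * A hR j ∈ Wk hR.toAddRel q k)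
    (by simp) ?_ ?_ hg
  · intro r hr t
    rw [A_inv_conj_X hR hT hl hr.1.1]
    exact X_mem_gen _ (w_Sk hq hL hR hT hT2 hk hj hl hr) _
  · intro a b ha hb
    have e : (A hR j)⁻¹ * (a * b) * A hR j =
        ((A hR j)⁻¹ * a * A hR j) * ((A hR j)⁻¹ * b * A hR j) := by group
    rw [e]
    exact Subgroup.mul_mem _ ha hb

/-- The parabolic normalises the subgroups. -/
theorem parabolic_norm_Wk {k : ℤ} (hk : 1 ≤ k) :
    D.parabolicSubgroup F {j | j ≠ q} ≤
      Subgroup.normalizer (Wk hR.toAddRel q k : Set (GL D.Idx F)) := by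
  rw [parabolic_eq hR hT]
  refine sup_le (sup_le ?_ ?_) ?_
  · rw [posUnipotent_eq hR.toAddRel]
    refine gen_le _ ?_
    intro r hr t
    apply mem_norm_of hR hT hT2
    · intro g hg
      have := X_norm_Wk hq hL hR hT hT2 hr (-t) hg
      simpa using this
    · intro g hg
      exact X_norm_Wk hq hL hR hT hT2 hr t hg
  · intro h hh
    apply mem_norm_of hR hT hT2
    · intro g hg
      exact H_norm_Wk hq hL hR hT hT2 hh hg
    · intro g hg
      have := H_norm_Wk hq hL hR hT hT2 (Subgroup.inv_mem _ hh) hg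
      simpa using this
  · rw [NJ, Subgroup.closure_le]
    rintro x ⟨j, hj, hl, rfl⟩
    apply mem_norm_of hR hT hT2
    · intro g hg
      exact A_norm_Wk hq hL hR hT hT2 hk hj hl hg
    · intro g hg
      exact A_inv_norm_Wk hq hL hR hT hT2 hk hj hl hg

theorem Lv_of_Wk {k : ℤ} (hk : 0 ≤ k) {x : GL D.Idx F} (hx : x ∈ Wk hR.toAddRel q k) :
    LvG (fun r => cr D r q) k x :=
  LvG_gen _ hL hk (fun s hs => ⟨hs.1.1, hs.2⟩) hx

/-- The parabolic is at level `0`. -/
theorem parabolic_Lv {x : GL D.Idx F} (hx : x ∈ D.parabolicSubgroup F {j | j ≠ q}) :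
    LvG (fun r => cr D r q) 0 x := by
  have hle : D.parabolicSubgroup F {j | j ≠ q} ≤ LvS (fun r => cr D r q) 0 le_rfl := by
    rw [parabolic_eq_gen hR hT, closure_matrix_eq hR.toAddRel]
    refine sup_le (H_le_LvS hR hT _) (gen_le_LvS hR hT hL le_rfl ?_)
    rintro s (hs | hs)
    · exact ⟨hs.1, cr_nonneg hs q⟩
    · refine ⟨hs.1, ?_⟩
      have h1 : cr D s q = 0 := hs.2 q hq (by simp)
      exact le_of_eq h1.symm
  exact (hle hx).1

/-- Coordinates at the lowest layer. -/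
theorem entry_X {r s : ℕ} (hr : D.IsPosRoot r) (hs : D.IsPosRoot s) (i : Fin D.rank) (t : F) :
    (X hR.toAddRel s t : Matrix D.Idx D.Idx F) (Sum.inl i) (Sum.inr ⟨D.neg r, hT.neg_lt hr.1⟩) =
      if s = r then ((cr D r i.val : ℤ) : F) * t else 0 := by
  rw [coe_X]
  by_cases h : s = r
  · subst h
    rw [if_pos rfl]
    exact x_inl_inr_neg hs.1 t i _ (fun h => hT.pos_ne_neg hs (hT.neg_of_pos hs) h.symm) rfl
  · rw [if_neg h]
    refine x_inl_inr_gen hs.1 t i _ (fun h2 => hT.pos_ne_neg hs (hT.neg_of_pos hr) h2.symm) ?_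
    intro h2
    exact h (hT.neg_inj hs.1 hr.1 h2.symm)

/-- Additivity of the coordinates. -/
theorem entry_mul {k : ℤ} (hk : 1 ≤ k) {r : ℕ} (hr : D.IsPosRoot r) (hrk : cr D r q = k)
    (i : Fin D.rank) {x y : GL D.Idx F} (hx : LvG (fun r => cr D r q) k x)
    (hy : LvG (fun r => cr D r q) k y) :
    ((x * y : GL D.Idx F) : Matrix D.Idx D.Idx F) (Sum.inl i) (Sum.inr ⟨D.neg r, hT.neg_lt hr.1⟩) =
      (x : Matrix D.Idx D.Idx F) (Sum.inl i) (Sum.inr ⟨D.neg r, hT.neg_lt hr.1⟩) +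
      (y : Matrix D.Idx D.Idx F) (Sum.inl i) (Sum.inr ⟨D.neg r, hT.neg_lt hr.1⟩) := by
  set c : Fin D.nroots := ⟨D.neg r, hT.neg_lt hr.1⟩ with hc
  have hm : (((x : Matrix D.Idx D.Idx F) - 1) * ((y : Matrix D.Idx D.Idx F) - 1))
      (Sum.inl i) (Sum.inr c) = 0 := by
    by_contra hne
    have h1 := hx.mul hy _ _ hne
    simp only [dg] at h1
    have h2 : cr D c.val q = - cr D r q := hL.neg r hr.1
    rw [h2, hrk] at h1
    omega
  have e : ((x * y : GL D.Idx F) : Matrix D.Idx D.Idx F) =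
      (x : Matrix D.Idx D.Idx F) + (y : Matrix D.Idx D.Idx F) - 1 +
        ((x : Matrix D.Idx D.Idx F) - 1) * ((y : Matrix D.Idx D.Idx F) - 1) := by
    rw [Units.val_mul]
    noncomm_ring
  rw [e, Matrix.add_apply, hm, add_zero, Matrix.sub_apply, Matrix.add_apply]
  have h3 : (1 : Matrix D.Idx D.Idx F) (Sum.inl i) (Sum.inr c) = 0 :=
    Matrix.one_apply_ne (by simp)
  rw [h3, sub_zero]

/-- The coordinates of an ordered product. -/
theorem entry_ordered {k : ℤ} (hk : 1 ≤ k) {r : ℕ} (hr : D.IsPosRoot r) (hrk : cr D r q = k)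
    (i : Fin D.rank) (t : ℕ → F) : ∀ L : List ℕ, (∀ s ∈ L, s ∈ Sk D q k) → L.Nodup →
      (W hR.toAddRel (L.map fun s => (s, t s)) : Matrix D.Idx D.Idx F) (Sum.inl i)
        (Sum.inr ⟨D.neg r, hT.neg_lt hr.1⟩) =
      if r ∈ L then ((cr D r i.val : ℤ) : F) * t r else 0 := by
  intro L
  induction L with
  | nil =>
    intro _ _
    simp only [List.map_nil, W_nil, Units.val_one, List.not_mem_nil, if_false]
    exact Matrix.one_apply_ne (by simp)
  | cons a L ih =>
    intro hS hN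
    have hN' := List.nodup_cons.mp hN
    have hSa : a ∈ Sk D q k := hS a (by simp)
    have hSL : ∀ s ∈ L, s ∈ Sk D q k := fun s hs => hS s (by simp [hs])
    have hk0 : 0 ≤ k := by omega
    simp only [List.map_cons, W_cons]
    rw [entry_mul hq hL hR hT hT2 hk hr hrk i (Lv_of_Wk hq hL hR hT hT2 hk0 (X_mem_gen _ hSa _))
      (Lv_of_Wk hq hL hR hT hT2 hk0 (W_mem_gen _ (by
        intro p hp
        obtain ⟨s, hs, rfl⟩ := List.mem_map.mp hp
        exact hSL s hs))), ih hSL hN'.2, entry_X hq hL hR hT hT2 hr hSa.1]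
    by_cases har : a = r
    · subst har
      simp [hN'.1]
    · have h1 : r ≠ a := Ne.symm har
      simp [har, h1]

/-- An element of `Wk` with vanishing coordinates at the lowest layer lies in the next subgroup. -/
theorem kernel {k : ℤ} (hk : 1 ≤ k) {x : GL D.Idx F} (hx : x ∈ Wk hR.toAddRel q k)
    (h0 : ∀ r (hr : D.IsPosRoot r), cr D r q = k → ∀ i : Fin D.rank,
      (x : Matrix D.Idx D.Idx F) (Sum.inl i) (Sum.inr ⟨D.neg r, hT.neg_lt hr.1⟩) = 0) :
    x ∈ Wk hR.toAddRel q (k + 1) := by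
  classical
  let L : List ℕ := D.posRoots.filter (fun r => k ≤ cr D r q)
  have hLm : ∀ r, r ∈ L ↔ r ∈ Sk D q k := by
    intro r
    simp only [L, List.mem_filter, decide_eq_true_eq, mem_posRoots, Sk, Set.mem_ofPred_eq]
  have hsorted : L.Pairwise (· < ·) := List.Pairwise.filter _ posRoots_sorted
  have hgen : Wk hR.toAddRel q k = gen hR.toAddRel {r | r ∈ L} := by
    unfold Wk
    congr 1
    ext r
    exact (hLm r).symm
  rw [hgen] at hx
  obtain ⟨t, rfl⟩ := exists_ordered hT (commPos hR) L hsorted (fun r hr => ((hLm r).1 hr).1) (by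
    intro r hr s hs hrs c hc
    rw [hLm] at hr hs ⊢
    exact comm_Sk hq hL hR hT hT2 hr.1 hs (ne_of_lt hrs) hc) _ hx
  have hnodup : L.Nodup := hsorted.imp (fun h => ne_of_lt h)
  have ht : ∀ r ∈ L, cr D r q = k → t r = 0 := by
    intro r hr hrk
    have hS := (hLm r).1 hr
    obtain ⟨i, hi⟩ := Tbl.exists_coroot_ne (F := F) hT hS.1.1
    have h1 := h0 r hS.1 hrk i
    rw [entry_ordered hq hL hR hT hT2 hk hS.1 hrk i t L (fun s hs => (hLm s).1 hs) hnodup,
      if_pos hr] at h1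
    exact (mul_eq_zero.mp h1).resolve_left hi
  have hall : ∀ L' : List ℕ, (∀ r ∈ L', r ∈ L) →
      W hR.toAddRel (L'.map fun r => (r, t r)) ∈ Wk hR.toAddRel q (k + 1) := by
    intro L'
    induction L' with
    | nil => intro _; exact Subgroup.one_mem _
    | cons a L' ih =>
      intro h
      simp only [List.map_cons, W_cons]
      refine Subgroup.mul_mem _ ?_ (ih fun r hr => h r (by simp [hr]))
      have ha := h a (by simp)
      have hS := (hLm a).1 ha
      by_cases hak : cr D a q = k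
      · rw [ht a ha hak, X_zero]
        exact Subgroup.one_mem _
      · refine X_mem_gen _ (show a ∈ Sk D q (k + 1) from ⟨hS.1, ?_⟩) _
        have := hS.2
        omega
  exact hall L (fun r hr => hr)

end Layers

end Cfsg.Agent.Lib.PGroup.E8CoreGr
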