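import Cfsg.Agent.Lib.ChevBN.FastData2

/-!
Table facts about the root system of type E8 and the grading at its branch node, read off the packed
tables.
-/

set_option autoImplicit false

namespace Cfsg.Agent.Lib.PGroup.E8CoreTab

open Cfsg.Lie Cfsg.Agent.Lib.ChevBN.Table Cfsg.Agent.Lib.ChevBN.Fast Cfsg.Agent.Lib.ChevBN.FastData

set_option maxRecDepth 100000

/-- Coroot coefficient. -/
def rF (r j : ℕ) : ℤ := tabE8.R chevE8 r j

/-- Reflected root. -/
def wF (i s : ℕ) : ℕ := tabE8.W chevE8 i s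

/-- The coefficient at the branch node. -/
def cF (r : ℕ) : ℤ := rF r 3

/-- A regular dominant grading. -/
def lamF (r : ℕ) : ℤ :=
  2 * rF r 0 + 6 * rF r 1 + 6 * rF r 2 + rF r 3 + rF r 4 + rF r 5 + rF r 6 + rF r 7

/-- The grading at the branch node twisted by the reflection at the branch node and a word. -/
def dF (L : List ℕ) (u : ℕ) : ℤ := cF (wF 3 (L.foldr wF u))

/-- Additivity of the coroot coefficients along the chains, as a check. -/
def chkAdd : Bool :=
  decide (chevE8.chain.size = 240) &&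
    chevE8.chain.toList.zipIdx.all fun row => row.1.toList.all fun e =>
      decide (e.1 < 240) && e.2.toList.all fun q => decide (q.1 < 240) &&
        (List.range 8).all fun j => decide (rF q.1 j = rF row.2 j + rF e.1 j)

theorem chkAdd_true : chkAdd = true := by decide +kernel

/-- Words moving a root of a layer to the root used for that layer. -/
def wordTab : Array (List ℕ) := #[[], [], [], [], [], [], [], [], [], [], [], [], [], [], [], [], [], [], [], [], [], [], [], [], [], [], [], [], [], [], [], [], [], [], [], [], [], [], [], [], [], [], [], [], [], [], [], [], [], [], [], [], [], [], [], [], [], [], [], [], [], [], [], [], [], [], [], [], [], [], [], [], [], [], [], [], [], [], [], [], [], [], [], [], [], [], [], [], [], [], [], [], [], [], [], [], [], [], [], [], [], [], [], [], [], [], [], [], [], [], [], [], [], [], [], [], [], [], [], [], [], [], [], [], [], [], [], [], [], [], [], [4], [4, 5], [4, 5, 6], [4, 5, 6, 7], [], [2],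 [2, 4], [2, 4, 5], [2, 4, 5, 6], [2, 4, 5, 6, 7], [], [1], [1, 4], [1, 4, 5], [1, 4, 5, 6], [1, 4, 5, 6, 7], [1, 2], [1, 2, 4], [1, 2, 4, 5], [1, 2, 4, 5, 6], [1, 2, 4, 5, 6, 7], [], [5], [5, 6], [5, 6, 7], [5, 4], [5, 4, 6], [5, 4, 6, 7], [5, 4, 6, 5], [5, 4, 6, 5, 7], [5, 4, 6, 5, 7, 6], [], [], [2, 0], [2, 0, 4], [2, 0, 4, 5], [2, 0, 4, 5, 6], [2, 0, 4, 5, 6, 7], [1, 2, 0], [1, 2, 0, 4], [1, 2, 0, 4, 5], [1, 2, 0, 4, 5, 6], [1, 2, 0, 4, 5, 6, 7], [0], [0, 5], [0, 5, 6], [0, 5, 6, 7], [0, 5, 4], [0, 5, 4, 6], [0, 5, 4, 6, 7], [0, 5, 4, 6, 5], [0, 5, 4, 6, 5, 7], [0, 5, 4, 6, 5, 7, 6], [0, 2], [0, 2, 5], [0, 2, 5, 6], [0, 2, 5, 6, 7], [0, 2, 5, 4], [0, 2, 5, 4, 6], [0, 2, 5, 4, 6, 7], [0, 2, 5, 4, 6, 5], [0, 2, 5, 4, 6, 5, 7], [0, 2, 5, 4, 6, 5, 7, 6], [], [6], [6, 7], [6, 5], [6, 5, 7], [6, 5, 7, 6], [6, 5, 4], [6, 5, 4, 7], [6, 5, 4, 7, 6], [6, 5, 4, 7, 6, 5], [1], [1, 6], [1, 6, 7], [1, 6, 5], [1, 6, 5, 7], [1, 6, 5, 7, 6], [1, 6, 5, 4], [1,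 6, 5, 4, 7], [1, 6, 5, 4, 7, 6], [1, 6, 5, 4, 7, 6, 5], [], [7], [7, 6], [7, 6, 5], [7, 6, 5, 4], [2], [2, 7], [2, 7, 6], [2, 7, 6, 5], [2, 7, 6, 5, 4], [], [1], [2, 0], [2, 0, 7], [2, 0, 7, 6], [2, 0, 7, 6, 5], [2, 0, 7, 6, 5, 4], [0], [0, 2], [0, 1], [0, 1, 2], [], [4], [4, 5], [4, 5, 6], [4, 5, 6, 7]]

/-- The word of a root. -/
def word (r : ℕ) : List ℕ := wordTab.getD r []

/-- The check for the words. -/
def chkWord : Bool :=
  (List.range 240).all fun r => decide (r < 120) || decide (cF r < 1) ||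
    ((word r).all (fun j => decide (j ≠ 3) && decide (j < 8)) &&
      decide (dF (word r) (239 - r) + (if cF r = 1 then 0 else cF r) = 1))

theorem chkWord_true : chkWord = true := by decide +kernel

/-- The identity expressing `lamF` through twisted gradings. -/
def chkLam : Bool :=
  (List.range 240).all fun u => decide (lamF u = cF u + 4 * dF [] u + 2 * dF [4, 2] u +
      2 * dF [4, 5, 1] u + dF [4] u + dF [4, 5, 6] u) && (decide (u < 120) || decide (1 ≤ lamF u))

theorem chkLam_true : chkLam = true := by decide +kernel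

/-- Bounds for the grading. -/
def chkBd : Bool :=
  (List.range 240).all fun r => decide (cF r ≤ 6) &&
    (decide (r < 120) || decide (cF r < 2) || decide (cF r ≤ cF (wF 3 r) + 1))

theorem chkBd_true : chkBd = true := by decide +kernel

theorem cF_top : cF 239 = 6 := by decide +kernel

end Cfsg.Agent.Lib.PGroup.E8CoreTab

namespace Cfsg.Agent.Lib.PGroup.E8CoreTab

open Cfsg.Lie Cfsg.Agent.Lib.ChevBN.Table Cfsg.Agent.Lib.ChevBN.Fast Cfsg.Agent.Lib.ChevBN.FastData

theorem nroots_eq : chevE8.nroots = 240 := rfl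

theorem rank_eq : chevE8.rank = 8 := rfl

theorem cr_eq' {r j : ℕ} (hr : r < 240) (hj : j < 8) : cr chevE8 r j = rF r j :=
  cr_eq hR_E8 hr hj

theorem w_eq {i s : ℕ} (hi : i < 8) (hs : s < 240) : chevE8.reflectRoot i s = wF i s := by
  have := List.all_eq_true.mp (hW_E8 i hi) s (List.mem_range.mpr hs)
  simpa [wF] using this

theorem neg_eq' {r : ℕ} (hr : r < 240) : chevE8.neg r = 239 - r := neg_eq hN_E8 hr

/-- The coefficient at the branch node. -/
def cc (r : ℕ) : ℤ := cr chevE8 r 3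

/-- A regular dominant grading. -/
def lam (r : ℕ) : ℤ :=
  2 * cr chevE8 r 0 + 6 * cr chevE8 r 1 + 6 * cr chevE8 r 2 + cr chevE8 r 3 + cr chevE8 r 4 +
    cr chevE8 r 5 + cr chevE8 r 6 + cr chevE8 r 7

/-- The grading at the branch node twisted by the reflection at the branch node and a word. -/
def dd (L : List ℕ) (u : ℕ) : ℤ := cc (chevE8.reflectRoot 3 (L.foldr chevE8.reflectRoot u))

theorem cc_eq {r : ℕ} (hr : r < 240) : cc r = cF r := cr_eq' hr (by omega)

theorem lam_eq' {r : ℕ} (hr : r < 240) : lam r = lamF r := by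
  simp only [lam, lamF, cr_eq' hr (show 0 < 8 by omega), cr_eq' hr (show 1 < 8 by omega),
    cr_eq' hr (show 2 < 8 by omega), cr_eq' hr (show 3 < 8 by omega),
    cr_eq' hr (show 4 < 8 by omega), cr_eq' hr (show 5 < 8 by omega),
    cr_eq' hr (show 6 < 8 by omega), cr_eq' hr (show 7 < 8 by omega)]

theorem wlt {i s : ℕ} (hi : i < 8) (hs : s < 240) : chevE8.reflectRoot i s < 240 :=
  tbl_chevE8.w_lt i hi s hs

theorem foldr_eq {L : List ℕ} (hL : ∀ j ∈ L, j < 8) {u : ℕ} (hu : u < 240) :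
    L.foldr chevE8.reflectRoot u = L.foldr wF u ∧ L.foldr chevE8.reflectRoot u < 240 := by
  induction L with
  | nil => exact ⟨rfl, hu⟩
  | cons a L ih =>
    obtain ⟨h1, h2⟩ := ih fun j hj => hL j (by simp [hj])
    have ha : a < 8 := hL a (by simp)
    simp only [List.foldr_cons]
    rw [w_eq ha h2, h1]
    refine ⟨rfl, ?_⟩
    rw [← h1, ← w_eq ha h2]
    exact wlt ha h2

theorem dd_eq {L : List ℕ} (hL : ∀ j ∈ L, j < 8) {u : ℕ} (hu : u < 240) : dd L u = dF L u := by
  obtain ⟨h1, h2⟩ := foldr_eq hL hu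
  rw [dd, dF, h1, cc_eq (wlt (by omega) (by rwa [← h1])), w_eq (by omega) (by rwa [← h1])]

theorem pos_iff {r : ℕ} (hr : r < 240) : chevE8.IsPosRoot r ↔ 120 ≤ r :=
  isPos_iff tbl_chevE8.good hr

theorem pos_lt {r : ℕ} (hr : chevE8.IsPosRoot r) : r < 240 := hr.1

theorem add_spec {r : ℕ} (hr : r < 240) {e : ℕ × Array (ℕ × ℤ)}
    (he : e ∈ (chevE8.chain.getD r #[]).toList) {q : ℕ × ℤ} (hq : q ∈ e.2.toList) {j : ℕ}
    (hj : j < 8) : cr chevE8 q.1 j = cr chevE8 r j + cr chevE8 e.1 j := by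
  have h := chkAdd_true
  simp only [chkAdd, Bool.and_eq_true, decide_eq_true_eq, List.all_eq_true, List.mem_range] at h
  obtain ⟨h1, h2⟩ := h
  have hr'' : r < chevE8.chain.size := by omega
  have hm : (chevE8.chain.toList[r]'(by simpa using hr''), r) ∈ chevE8.chain.toList.zipIdx := by
    rw [List.mem_zipIdx_iff_getElem?]
    simp [hr'']
  have h4' : chevE8.chain.getD r #[] = chevE8.chain.toList[r]'(by simpa using hr'') := by
    rw [Array.getD_eq_getD_getElem?]
    simp [hr'']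
  rw [h4'] at he
  obtain ⟨he1, h5⟩ := h2 _ hm e he
  obtain ⟨hq1, h6⟩ := h5 q hq
  rw [cr_eq' hq1 hj, cr_eq' hr hj, cr_eq' he1 hj]
  exact h6 j hj

theorem lam_pos {r : ℕ} (hr : chevE8.IsPosRoot r) : 1 ≤ lam r := by
  have hl := hr.1
  have h := chkLam_true
  simp only [chkLam, List.all_eq_true, List.mem_range, Bool.and_eq_true, decide_eq_true_eq,
    Bool.or_eq_true] at h
  have h2 := (pos_iff hl).1 hr
  rw [lam_eq' hl]
  rcases (h r hl).2 with h3 | h3
  · omega
  · exact h3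

theorem lam_eq {u : ℕ} (hu : u < 240) : lam u = cc u + 4 * dd [] u + 2 * dd [4, 2] u +
    2 * dd [4, 5, 1] u + dd [4] u + dd [4, 5, 6] u := by
  have h := chkLam_true
  simp only [chkLam, List.all_eq_true, List.mem_range, Bool.and_eq_true, decide_eq_true_eq] at h
  rw [lam_eq' hu, cc_eq hu, dd_eq (by simp) hu, dd_eq (by simp) hu, dd_eq (by simp) hu,
    dd_eq (by simp) hu, dd_eq (by simp) hu]
  exact (h u hu).1

theorem word_spec {r : ℕ} (hr : chevE8.IsPosRoot r) (hc : 1 ≤ cc r) :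
    (∀ j ∈ word r, j ≠ 3 ∧ j < 8) ∧
      dd (word r) (chevE8.neg r) + (if cc r = 1 then 0 else cc r) = 1 := by
  have hl := hr.1
  have h := chkWord_true
  simp only [chkWord, List.all_eq_true, List.mem_range, Bool.and_eq_true, decide_eq_true_eq,
    Bool.or_eq_true] at h
  have h2 := (pos_iff hl).1 hr
  rw [cc_eq hl] at hc ⊢
  rcases h r hl with (h3 | h3) | h3
  · omega
  · omega
  · have hL : ∀ j ∈ word r, j ≠ 3 ∧ j < 8 := by
      intro j hj
      have := h3.1 j hj
      simpa using this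
    refine ⟨hL, ?_⟩
    rw [neg_eq' hl, dd_eq (fun j hj => (hL j hj).2) (by omega)]
    exact h3.2

theorem cc_le {r : ℕ} (hr : r < 240) : cc r ≤ 6 := by
  have h := chkBd_true
  simp only [chkBd, List.all_eq_true, List.mem_range, Bool.and_eq_true, decide_eq_true_eq] at h
  rw [cc_eq hr]
  exact (h r hr).1

theorem cc_w {r : ℕ} (hr : chevE8.IsPosRoot r) (hc : 2 ≤ cc r) :
    cc r ≤ cc (chevE8.reflectRoot 3 r) + 1 := by
  have hl := hr.1
  have h := chkBd_true
  simp only [chkBd, List.all_eq_true, List.mem_range, Bool.and_eq_true, decide_eq_true_eq,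
    Bool.or_eq_true] at h
  have h2 := (pos_iff hl).1 hr
  rw [w_eq (by omega) hl, cc_eq hl, cc_eq (by rw [← w_eq (by omega) hl]; exact wlt (by omega) hl)]
  rw [cc_eq hl] at hc
  rcases (h r hl).2 with (h3 | h3) | h3
  · omega
  · omega
  · exact h3

theorem cc_239 : cc 239 = 6 := by
  rw [cc_eq (by omega)]
  exact cF_top

theorem pos_239 : chevE8.IsPosRoot 239 := (pos_iff (by omega)).2 (by omega)

end Cfsg.Agent.Lib.PGroup.E8CoreTab
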