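import Cfsg.Agent.Lib.PGroup.E8CoreGr
import Cfsg.Agent.Lib.PGroup.E8CoreTab
import Cfsg.Agent.Lib.ChevWC.Data
import Cfsg.Agent.Lib.Chevalley.Tbl.E8Sys

/-!
The iterated cores of a maximal parabolic subgroup of `E8(2)` at the branch node and its conjugate
by the reflection at that node.
-/

set_option autoImplicit false
set_option linter.unusedSectionVars false

namespace Cfsg.Agent.Lib.PGroup.E8CoreMain

open Cfsg.Lie Cfsg.Agent.Lib.ChevBN.Elem Cfsg.Agent.Lib.ChevBN.Entries Cfsg.Agent.Lib.ChevBN.Table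
open Cfsg.Agent.Lib.ChevBN.Collect Cfsg.Agent.Lib.ChevBN.Rel Cfsg.Agent.Lib.ChevBN.Torus
open Cfsg.Agent.Lib.ChevBN.Monomial Cfsg.Agent.Lib.ChevBN.Core Cfsg.Agent.Lib.ChevBN.Pair
open Cfsg.Agent.Lib.ChevBN.Stmts Cfsg.Agent.Lib.ChevBN.Levi Cfsg.Agent.Lib.ChevBN.FastData
open Cfsg.Agent.Lib.BNPair.Basic Cfsg.Agent.Lib.BNPair.Parabolic Cfsg.Agent.Lib.ChevOrder.Chev
open Cfsg.Agent.Lib.PGroup.E8CoreGr Cfsg.Agent.Lib.PGroup.E8CoreTab

/-! ### Generalities on cores -/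

section Core

variable {G : Type*} [Group G]

/-- The core in `M` of `K`, as a subgroup of the ambient group. -/
def coreOf (K M : Subgroup G) : Subgroup G := (K.subgroupOf M).normalCore.map M.subtype

theorem mem_coreOf {K M : Subgroup G} {x : G} :
    x ∈ coreOf K M ↔ x ∈ M ∧ ∀ h ∈ M, h * x * h⁻¹ ∈ K := by
  constructor
  · rintro ⟨y, hy, rfl⟩
    refine ⟨y.2, fun h hh => ?_⟩
    have h1 := hy ⟨h, hh⟩
    exact Subgroup.mem_subgroupOf.1 h1
  · rintro ⟨hx, h⟩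
    exact ⟨⟨x, hx⟩, fun b => Subgroup.mem_subgroupOf.2 (h b b.2), rfl⟩

theorem coreOf_conj {K M : Subgroup G} {x a : G} (hx : x ∈ coreOf K M) (ha : a ∈ M) :
    a * x * a⁻¹ ∈ coreOf K M := by
  rw [mem_coreOf] at hx ⊢
  refine ⟨M.mul_mem (M.mul_mem ha hx.1) (M.inv_mem ha), fun h hh => ?_⟩
  have e : h * (a * x * a⁻¹) * h⁻¹ = (h * a) * x * (h * a)⁻¹ := by group
  rw [e]
  exact hx.2 _ (M.mul_mem hh ha)

/-- The conjugate of a subgroup. -/
def Cn (g : G) (K : Subgroup G) : Subgroup G := K.map (MulAut.conj g).toMonoidHom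

theorem mem_Cn {g x : G} {K : Subgroup G} : x ∈ Cn g K ↔ g⁻¹ * x * g ∈ K := by
  constructor
  · rintro ⟨y, hy, rfl⟩
    have e : g⁻¹ * ((MulAut.conj g).toMonoidHom y) * g = y := by
      simp [MulAut.conj_apply]
      group
    rwa [e]
  · intro h
    refine ⟨_, h, ?_⟩
    simp [MulAut.conj_apply]
    group

theorem Cn_coreOf {g : G} (hg : g * g = 1) {M₁ M₂ A B : Subgroup G} (hM : M₂ = Cn g M₁)
    (hB : B = Cn g A) : coreOf (A ⊓ B) M₂ = Cn g (coreOf (A ⊓ B) M₁) := by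
  have hginv : g⁻¹ = g := inv_eq_of_mul_eq_one_left hg
  have hK : ∀ y, y ∈ A ⊓ B → g * y * g⁻¹ ∈ A ⊓ B := by
    intro y hy
    obtain ⟨h1, h2⟩ := Subgroup.mem_inf.1 hy
    subst hB
    refine Subgroup.mem_inf.2 ⟨?_, ?_⟩
    · have := mem_Cn.1 h2
      rwa [hginv] at this ⊢
    · rw [mem_Cn]
      have e : g⁻¹ * (g * y * g⁻¹) * g = y := by group
      rwa [e]
  have hg' : g⁻¹ * g⁻¹ = 1 := by
    rw [hginv]
    exact hg
  subst hM
  ext x
  rw [mem_coreOf, mem_Cn (K := coreOf (A ⊓ B) M₁), mem_coreOf, mem_Cn]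
  constructor
  · rintro ⟨h1, h2⟩
    refine ⟨h1, fun h hh => ?_⟩
    have h3 := h2 (g * h * g⁻¹) (by
      rw [mem_Cn]
      have e : g⁻¹ * (g * h * g⁻¹) * g = h := by group
      rwa [e])
    have h4 := hK _ h3
    have e : h * (g⁻¹ * x * g) * h⁻¹ =
        g * (g * h * g⁻¹ * x * (g * h * g⁻¹)⁻¹) * g⁻¹ := by
      calc h * (g⁻¹ * x * g) * h⁻¹ = h * g⁻¹ * x * g * h⁻¹ := by group
        _ = (g * g) * h * g⁻¹ * x * g * h⁻¹ * (g⁻¹ * g⁻¹) := by rw [hg, hg']; group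
        _ = g * (g * h * g⁻¹ * x * (g * h * g⁻¹)⁻¹) * g⁻¹ := by group
    rw [e]
    exact h4
  · rintro ⟨h1, h2⟩
    refine ⟨h1, fun h hh => ?_⟩
    have hh' := mem_Cn.1 hh
    have h3 := h2 _ hh'
    have h4 := hK _ h3
    have e : h * x * h⁻¹ = g * (g⁻¹ * h * g * (g⁻¹ * x * g) * (g⁻¹ * h * g)⁻¹) * g⁻¹ := by group
    rw [e]
    exact h4

/-- The pairs of the iterated cores. -/
def seqP (M₁ M₂ : Subgroup G) : ℕ → Subgroup G × Subgroup G
  | 0 => (M₁, M₂)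
  | n + 1 => (coreOf ((seqP M₁ M₂ n).1 ⊓ (seqP M₁ M₂ n).2) M₁,
      coreOf ((seqP M₁ M₂ n).1 ⊓ (seqP M₁ M₂ n).2) M₂)

theorem seqP_symm {g : G} (hg : g * g = 1) {M₁ M₂ : Subgroup G} (hM : M₂ = Cn g M₁) (n : ℕ) :
    (seqP M₁ M₂ n).2 = Cn g (seqP M₁ M₂ n).1 := by
  induction n with
  | zero => exact hM
  | succ n ih => exact Cn_coreOf hg hM ih

end Core

/-! ### The grading at the branch node -/

theorem hq3 : (3 : ℕ) < chevE8.rank := by decide +kernel

theorem hle8 {j : ℕ} (h : j < 8) : j < chevE8.rank := h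

theorem linC : LinG chevE8 (fun r => cr chevE8 r 3) :=
  ⟨fun r hr => tbl_chevE8.coroot_neg r hr 3 hq3, fun _ hr _ he _ hq => add_spec hr he hq (by omega)⟩

theorem linLam : LinG chevE8 lam := by
  refine ⟨fun r hr => ?_, fun r hr e he q hq => ?_⟩
  · have h : ∀ j < 8, cr chevE8 (chevE8.neg r) j = - cr chevE8 r j :=
      fun j hj => tbl_chevE8.coroot_neg r hr j hj
    simp only [lam, h 0 (by omega), h 1 (by omega), h 2 (by omega), h 3 (by omega),
      h 4 (by omega), h 5 (by omega), h 6 (by omega), h 7 (by omega)]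
    ring
  · have h : ∀ j < 8, cr chevE8 q.1 j = cr chevE8 r j + cr chevE8 e.1 j :=
      fun j hj => add_spec hr he hq hj
    simp only [lam, h 0 (by omega), h 1 (by omega), h 2 (by omega), h 3 (by omega),
      h 4 (by omega), h 5 (by omega), h 6 (by omega), h 7 (by omega)]
    ring

theorem dg_lam (a : chevE8.Idx) : dg chevE8 lam a = dg chevE8 (fun r => cr chevE8 r 3) a +
    4 * dg chevE8 (dd []) a + 2 * dg chevE8 (dd [4, 2]) a + 2 * dg chevE8 (dd [4, 5, 1]) a +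
    dg chevE8 (dd [4]) a + dg chevE8 (dd [4, 5, 6]) a := by
  rcases a with i | s
  · simp [dg]
  · simpa only [dg, cc] using lam_eq s.isLt

abbrev F2 : Type := ZMod 2

theorem neg_one_F2 : (-1 : F2) = 1 := by decide

variable {η : ℕ → ℕ → ℤ} (hR : Sys chevE8 F2 η)
include hR

theorem A_inv (j : ℕ) : (A hR j)⁻¹ = A hR j := by
  rw [A, nG_inv, neg_one_F2]

theorem A_mul_self (j : ℕ) : A hR j * A hR j = 1 := by
  nth_rw 2 [← A_inv hR j]
  exact mul_inv_cancel _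

theorem H_trivial {h : GL chevE8.Idx F2} (hh : h ∈ chevE8.diagonalSubgroup F2) : h = 1 := by
  obtain ⟨κ, hκ, h1, -⟩ := exists_of_mem_H hR tbl_chevE8 hh
  have h2 : (fun s : Fin chevE8.nroots => κ s) = fun _ => (1 : F2) := by
    funext s
    have h3 := hκ s
    have h4 : ∀ x : F2, x ≠ 0 → x = 1 := by decide
    exact h4 _ h3
  apply Units.ext
  rw [h1, h2, dgMat_one]
  rfl

theorem borel_eq : chevE8.borelSubgroup F2 = chevE8.posUnipotent F2 := by
  refine le_antisymm (sup_le le_rfl ?_) le_sup_left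
  intro h hh
  rw [H_trivial hR hh]
  exact Subgroup.one_mem _

/-- The index set of the Levi subgroup. -/
def JJ : Set ℕ := {j | j ≠ 3}

/-- The parabolic subgroup. -/
def PP : Subgroup (GL chevE8.Idx F2) := chevE8.parabolicSubgroup F2 JJ

theorem PP_le_G : PP ≤ chevE8.group F2 := by
  rw [PP, parabolic_eq hR tbl_chevE8]
  refine sup_le (B_N_G hR tbl_chevE8).1 ?_
  refine le_trans ?_ (B_N_G hR tbl_chevE8).2.1
  rw [NJ, Subgroup.closure_le]
  rintro g ⟨j, -, hl, rfl⟩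
  exact A_mem_N hR tbl_chevE8 hl

/-- The subgroups of the filtration. -/
def WW (k : ℤ) : Subgroup (GL chevE8.Idx F2) := Wk hR.toAddRel 3 k

theorem WW_le_U (k : ℤ) : WW hR k ≤ chevE8.posUnipotent F2 := Wk_le_U _ _ _

theorem WW_le_PP (k : ℤ) : WW hR k ≤ PP :=
  le_trans (WW_le_U hR k) (U_le_parabolic hR tbl_chevE8 _)

theorem Lv_of_WW {k : ℤ} (hk : 0 ≤ k) {x : GL chevE8.Idx F2} (hx : x ∈ WW hR k) :
    LvG (fun r => cr chevE8 r 3) k x :=
  Lv_of_Wk hq3 linC hR tbl_chevE8 tbl2_chevE8 hk hx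

/-- A subgroup normalised by the reflections away from the branch node whose conjugate by the
reflection at the branch node is at level `K` loses its lowest layer. -/
theorem kill {N : Subgroup (GL chevE8.Idx F2)} {K k : ℤ} (hk : 1 ≤ k)
    (hKk : (k = 1 ∧ K = 0) ∨ (2 ≤ k ∧ K = k)) (hNW : N ≤ WW hR k)
    (hnorm : ∀ j ∈ JJ, j < chevE8.rank → ∀ x ∈ N, A hR j * x * (A hR j)⁻¹ ∈ N)
    (hg : ∀ x ∈ N, LvG (fun r => cr chevE8 r 3) K (A hR 3 * x * (A hR 3)⁻¹)) : N ≤ WW hR (k + 1) := by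
  intro x hx
  refine kernel hq3 linC hR tbl_chevE8 tbl2_chevE8 hk (hNW hx) ?_
  intro r hr hrk i
  have hbase : ∀ y ∈ (N : Set (GL chevE8.Idx F2)),
      LvG (fun u => cr chevE8 (chevE8.reflectRoot 3 u) 3) K y := by
    intro y hy
    have h1 := LvG_conj_A hR tbl_chevE8 (Φ := fun r => cr chevE8 r 3)
      (Φ' := fun u => cr chevE8 (chevE8.reflectRoot 3 u) 3) hq3 (A_inv hR 3) (fun _ _ => rfl)
      (hg y hy)
    have e : A hR 3 * (A hR 3 * y * (A hR 3)⁻¹) * (A hR 3)⁻¹ = y := by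
      rw [A_inv]
      calc A hR 3 * (A hR 3 * y * A hR 3) * A hR 3
          = (A hR 3 * A hR 3) * y * (A hR 3 * A hR 3) := by group
        _ = y := by rw [A_mul_self]; group
    rwa [e] at h1
  have hc : 1 ≤ cc r := by
    change 1 ≤ cr chevE8 r 3
    omega
  obtain ⟨hword, hval⟩ := word_spec hr hc
  have h1 := LvG_of_words hR tbl_chevE8 (𝒩 := (N : Set (GL chevE8.Idx F2))) (J := JJ)
    (fun j _ _ => A_inv hR j) hnorm (word r)
    (fun j hj => ⟨(hword j hj).1, (hword j hj).2⟩) _ hbase x hx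
  by_contra hne
  have h2 := h1 (Sum.inl i) (Sum.inr ⟨chevE8.neg r, tbl_chevE8.neg_lt hr.1⟩) (by
    rw [Matrix.sub_apply, Matrix.one_apply_ne (by simp), sub_zero]
    exact hne)
  simp only [dg] at h2
  have h3 : dd (word r) (chevE8.neg r) =
      cr chevE8 (chevE8.reflectRoot 3 ((word r).foldr chevE8.reflectRoot (chevE8.neg r))) 3 := rfl
  rw [← h3] at h2
  have h4 : cc r = k := hrk
  rcases hKk with ⟨rfl, rfl⟩ | ⟨h5, rfl⟩
  · rw [if_pos h4] at hval
    omega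
  · rw [if_neg (by omega), h4] at hval
    omega

/-- The first core. -/
theorem base {N : Subgroup (GL chevE8.Idx F2)} (hNP : N ≤ PP)
    (hnorm : ∀ j ∈ JJ, j < chevE8.rank → ∀ x ∈ N, A hR j * x * (A hR j)⁻¹ ∈ N)
    (hg : ∀ x ∈ N, A hR 3 * x * (A hR 3)⁻¹ ∈ PP) : N ≤ WW hR 2 := by
  have hP0 : ∀ x ∈ PP, LvG (fun r => cr chevE8 r 3) 0 x := fun x hx =>
    parabolic_Lv hq3 linC hR tbl_chevE8 tbl2_chevE8 hx
  have hbase : ∀ y ∈ (N : Set (GL chevE8.Idx F2)),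
      LvG (fun u => cr chevE8 (chevE8.reflectRoot 3 u) 3) 0 y := by
    intro y hy
    have h1 := LvG_conj_A hR tbl_chevE8 (Φ := fun r => cr chevE8 r 3)
      (Φ' := fun u => cr chevE8 (chevE8.reflectRoot 3 u) 3) hq3 (A_inv hR 3) (fun _ _ => rfl)
      (hP0 _ (hg y hy))
    have e : A hR 3 * (A hR 3 * y * (A hR 3)⁻¹) * (A hR 3)⁻¹ = y := by
      rw [A_inv]
      calc A hR 3 * (A hR 3 * y * A hR 3) * A hR 3
          = (A hR 3 * A hR 3) * y * (A hR 3 * A hR 3) := by group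
        _ = y := by rw [A_mul_self]; group
    rwa [e] at h1
  have hword : ∀ L : List ℕ, (∀ j ∈ L, j ≠ 3 ∧ j < 8) → ∀ x ∈ (N : Set (GL chevE8.Idx F2)),
      LvG (dd L) 0 x := by
    intro L hL x hx
    exact LvG_of_words hR tbl_chevE8 (𝒩 := (N : Set (GL chevE8.Idx F2))) (J := JJ)
      (fun j _ _ => A_inv hR j) hnorm L (fun j hj => ⟨(hL j hj).1, (hL j hj).2⟩) _ hbase x hx
  have hlam : ∀ x ∈ N, LvG lam 0 x := by
    intro x hx a b hne
    have h0 := hP0 x (hNP hx) a b hne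
    have h1 := hword [] (by simp) x hx a b hne
    have h2 := hword [4, 2] (by simp) x hx a b hne
    have h3 := hword [4, 5, 1] (by simp) x hx a b hne
    have h4 := hword [4] (by simp) x hx a b hne
    have h5 := hword [4, 5, 6] (by simp) x hx a b hne
    rw [dg_lam a, dg_lam b]
    omega
  have hU : N ≤ chevE8.posUnipotent F2 := by
    intro x hx
    rw [← borel_eq hR]
    exact mem_B_of_Lv hR tbl_chevE8 linLam (fun r hr => lam_pos hr) (PP_le_G hR (hNP hx))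
      (hlam x hx) (hlam _ (Subgroup.inv_mem _ hx))
  have hrad : N ≤ chevE8.unipotentRadical F2 JJ :=
    Cfsg.Agent.Lib.ChevWC.Word.le_radical hR tbl_chevE8 tbl2_chevE8
      (fun r hr q hq => Cfsg.Agent.Lib.ChevWC.Data.wtabE8.desc r hr.1 hr q hq) hU hnorm
  have hW1 : N ≤ WW hR 1 := by
    refine le_trans hrad ?_
    rw [radical_eq hR tbl_chevE8]
    refine gen_mono _ ?_
    rintro s ⟨hs1, hs2⟩
    refine ⟨hs1, ?_⟩
    obtain ⟨i, hi, hiJ, hne⟩ := exists_of_not_inRootSub hs1.1 hs2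
    have hi3 : i = 3 := by
      by_contra h
      exact hiJ h
    subst hi3
    have := cr_nonneg hs1 3
    omega
  have h9 := kill hR (k := 1) (K := 0) (by norm_num) (Or.inl ⟨rfl, rfl⟩) hW1 hnorm
    (fun x hx => hP0 _ (hg x hx))
  have e : (1 : ℤ) + 1 = 2 := by norm_num
  rwa [e] at h9

/-- The conjugate by the reflection at the branch node goes one step down. -/
theorem g_conj {k : ℤ} (hk : 2 ≤ k) {x : GL chevE8.Idx F2} (hx : x ∈ WW hR k) :
    A hR 3 * x * (A hR 3)⁻¹ ∈ WW hR (k - 1) := by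
  refine gen_induction hR.toAddRel (P := fun u => A hR 3 * u * (A hR 3)⁻¹ ∈ WW hR (k - 1))
    (by simp) ?_ ?_ hx
  · intro r hr t
    rw [A_conj_X hR hq3 hr.1.1]
    refine X_mem_gen _ (show chevE8.reflectRoot 3 r ∈ Sk chevE8 3 (k - 1) from ⟨?_, ?_⟩) _
    · refine tbl_chevE8.w_pos 3 hq3 r hr.1 ?_
      rintro rfl
      have h1 := hr.2
      rw [tbl_chevE8.coroot_simple 3 hq3 3 hq3, if_pos rfl] at h1
      omega
    · have h1 := cc_w hr.1 (show 2 ≤ cr chevE8 r 3 by have := hr.2; omega)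
      have h2 : cc r = cr chevE8 r 3 := rfl
      have h3 : cc (chevE8.reflectRoot 3 r) = cr chevE8 (chevE8.reflectRoot 3 r) 3 := rfl
      have := hr.2
      omega
  · intro a b ha hb
    have e : A hR 3 * (a * b) * (A hR 3)⁻¹ =
        (A hR 3 * a * (A hR 3)⁻¹) * (A hR 3 * b * (A hR 3)⁻¹) := by group
    rw [e]
    exact Subgroup.mul_mem _ ha hb

theorem WW_norm {k : ℤ} (hk : 1 ≤ k) {h x : GL chevE8.Idx F2} (hh : h ∈ PP) (hx : x ∈ WW hR k) :
    h * x * h⁻¹ ∈ WW hR k := by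
  have h1 := parabolic_norm_Wk hq3 linC hR tbl_chevE8 tbl2_chevE8 hk hh
  exact (Subgroup.mem_normalizer_iff.mp h1 x).mp hx

theorem WW_seven : WW hR 7 = ⊥ := by
  rw [WW, Wk, gen, Subgroup.closure_eq_bot_iff]
  rintro g ⟨r, hr, _⟩
  have h1 := cc_le hr.1.1
  have h2 := hr.2
  have h3 : cc r = cr chevE8 r 3 := rfl
  omega

theorem X_239_mem : X hR.toAddRel 239 1 ∈ WW hR 6 :=
  X_mem_gen _ (show 239 ∈ Sk chevE8 3 6 from ⟨pos_239, le_of_eq cc_239.symm⟩) _

theorem X_239_ne : X hR.toAddRel 239 (1 : F2) ≠ 1 := by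
  intro h
  have := Cfsg.Agent.Lib.ChevOrder.BruhatForm.X_ne_one hR tbl_chevE8 pos_239 h
  exact one_ne_zero this

theorem not_mem_PP {t : F2} (ht : t ≠ 0) : X hR.toAddRel (chevE8.neg (chevE8.simple 3)) t ∉ PP := by
  intro h
  have hp := tbl_chevE8.simple_pos 3 hq3
  have hneg := tbl_chevE8.neg_of_pos hp
  have h1 := nonneg_of_LvG_X hR.toAddRel linC hneg.1 (tbl_chevE8.neg_lt hneg.1)
    (fun h2 => tbl_chevE8.pos_ne_neg (tbl_chevE8.pos_of_neg hneg) hneg h2) ht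
    (parabolic_Lv hq3 linC hR tbl_chevE8 tbl2_chevE8 h)
  have h2 := tbl_chevE8.coroot_neg _ hp.1 3 hq3
  have h3 := tbl_chevE8.coroot_simple 3 hq3 3 hq3
  rw [if_pos rfl] at h3
  have h4 : 0 ≤ cr chevE8 (chevE8.neg (chevE8.simple 3)) 3 := h1
  rw [h2, h3] at h4
  omega

/-! ### The group `E8(2)` -/

/-- The group. -/
abbrev GG : Type := ↥(chevE8.group F2)

/-- The maximal parabolic subgroup at the branch node. -/
def MM : Subgroup GG := PP.subgroupOf (chevE8.group F2)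

/-- The reflection at the branch node. -/
noncomputable def gg : GG := ee hR tbl_chevE8 ⟨3, hq3⟩

/-- The filtration in the group. -/
def WT (k : ℤ) : Subgroup GG := (WW hR k).subgroupOf (chevE8.group F2)

theorem coe_gg : ((gg hR : GG) : GL chevE8.Idx F2) = A hR 3 := rfl

theorem gg_sq : gg hR * gg hR = 1 := Subtype.ext (A_mul_self hR 3)

theorem gg_inv : (gg hR)⁻¹ = gg hR := inv_eq_of_mul_eq_one_left (gg_sq hR)

theorem ee_mem_MM {j : Fin chevE8.rank} (hj : j.val ≠ 3) : ee hR tbl_chevE8 j ∈ MM := by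
  refine Subgroup.mem_subgroupOf.2 ?_
  show A hR j.val ∈ PP
  rw [PP, parabolic_eq hR tbl_chevE8]
  exact Subgroup.mem_sup_right (A_mem_NJ hR hj j.2)

omit hR in
theorem mem_MM {x : GG} : x ∈ MM ↔ (x : GL chevE8.Idx F2) ∈ PP := Subgroup.mem_subgroupOf

theorem mem_WT {k : ℤ} {x : GG} : x ∈ WT hR k ↔ (x : GL chevE8.Idx F2) ∈ WW hR k :=
  Subgroup.mem_subgroupOf

/-- The upper bound, for any subgroup. -/
theorem core_conj_A {K : Subgroup GG} {j : ℕ} (hj : j ∈ JJ) (hl : j < chevE8.rank)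
    {x : GL chevE8.Idx F2} (hx : x ∈ (coreOf K MM).map (chevE8.group F2).subtype) :
    A hR j * x * (A hR j)⁻¹ ∈ (coreOf K MM).map (chevE8.group F2).subtype := by
  obtain ⟨y, hy, rfl⟩ := hx
  exact ⟨ee hR tbl_chevE8 ⟨j, hl⟩ * y * (ee hR tbl_chevE8 ⟨j, hl⟩)⁻¹,
    coreOf_conj hy (ee_mem_MM hR hj), rfl⟩

theorem step (k : ℤ) (hk : 2 ≤ k) : coreOf (WT hR k ⊓ Cn (gg hR) (WT hR k)) MM = WT hR (k + 1) := by
  ext x
  constructor
  · intro hx
    set K := WT hR k ⊓ Cn (gg hR) (WT hR k) with hK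
    set N : Subgroup (GL chevE8.Idx F2) := (coreOf K MM).map (chevE8.group F2).subtype with hN
    have hNW : N ≤ WW hR k := by
      rintro _ ⟨y, hy, rfl⟩
      have h1 := (mem_coreOf.1 hy).2 1 (Subgroup.one_mem _)
      have h2 : y ∈ K := by simpa using h1
      exact mem_WT hR |>.1 (Subgroup.mem_inf.1 h2).1
    have hg : ∀ y ∈ N, LvG (fun r => cr chevE8 r 3) k (A hR 3 * y * (A hR 3)⁻¹) := by
      rintro _ ⟨y, hy, rfl⟩
      have h1 := (mem_coreOf.1 hy).2 1 (Subgroup.one_mem _)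
      have h2 : y ∈ K := by simpa using h1
      have h3 := mem_Cn.1 (Subgroup.mem_inf.1 h2).2
      rw [gg_inv] at h3
      refine Lv_of_WW hR (by omega) ?_
      have h4 := mem_WT hR |>.1 h3
      rw [A_inv]
      exact h4
    have h5 := kill hR (by omega) (Or.inr ⟨hk, rfl⟩) hNW (fun j hj hl y hy => core_conj_A hR hj hl hy) hg
    exact mem_WT hR |>.2 (h5 ⟨x, hx, rfl⟩)
  · intro hx
    have hx' := mem_WT hR |>.1 hx
    rw [mem_coreOf]
    refine ⟨mem_MM.2 (WW_le_PP hR _ hx'), fun h hh => ?_⟩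
    have h1 : ((h * x * h⁻¹ : GG) : GL chevE8.Idx F2) ∈ WW hR (k + 1) :=
      WW_norm hR (by omega) (mem_MM.1 hh) hx'
    refine Subgroup.mem_inf.2 ⟨mem_WT hR |>.2 (Wk_anti _ _ (by omega) h1), ?_⟩
    rw [mem_Cn, gg_inv, mem_WT]
    have h2 := g_conj hR (by omega) h1
    rw [A_inv] at h2
    have e : k + 1 - 1 = k := by omega
    rwa [e] at h2

theorem step0 : coreOf (MM ⊓ Cn (gg hR) MM) MM = WT hR 2 := by
  ext x
  constructor
  · intro hx
    set K := MM ⊓ Cn (gg hR) MM with hK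
    set N : Subgroup (GL chevE8.Idx F2) := (coreOf K MM).map (chevE8.group F2).subtype with hN
    have hNP : N ≤ PP := by
      rintro _ ⟨y, hy, rfl⟩
      exact mem_MM.1 (mem_coreOf.1 hy).1
    have hg : ∀ y ∈ N, A hR 3 * y * (A hR 3)⁻¹ ∈ PP := by
      rintro _ ⟨y, hy, rfl⟩
      have h1 := (mem_coreOf.1 hy).2 1 (Subgroup.one_mem _)
      have h2 : y ∈ K := by simpa using h1
      have h3 := mem_Cn.1 (Subgroup.mem_inf.1 h2).2
      rw [gg_inv] at h3
      have h4 := mem_MM.1 h3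
      rw [A_inv]
      exact h4
    have h5 := base hR hNP (fun j hj hl y hy => core_conj_A hR hj hl hy) hg
    exact mem_WT hR |>.2 (h5 ⟨x, hx, rfl⟩)
  · intro hx
    have hx' := mem_WT hR |>.1 hx
    rw [mem_coreOf]
    refine ⟨mem_MM.2 (WW_le_PP hR _ hx'), fun h hh => ?_⟩
    have h1 : ((h * x * h⁻¹ : GG) : GL chevE8.Idx F2) ∈ WW hR 2 :=
      WW_norm hR (by omega) (mem_MM.1 hh) hx'
    refine Subgroup.mem_inf.2 ⟨mem_MM.2 (WW_le_PP hR _ h1), ?_⟩
    rw [mem_Cn, gg_inv, mem_MM]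
    have h2 := g_conj hR (by omega) h1
    rw [A_inv] at h2
    exact WW_le_PP hR _ h2

set_option maxRecDepth 100000 in
theorem seq_val : ∀ n : ℕ, 1 ≤ n → n ≤ 6 →
    (seqP MM (Cn (gg hR) MM) n).1 = WT hR ((n : ℤ) + 1) := by
  intro n hn
  induction n, hn using Nat.le_induction with
  | base =>
    intro _
    have h := step0 hR
    have e : (((1 : ℕ) : ℤ) + 1) = 2 := by norm_num
    rw [e, ← h]
    rfl
  | succ n hn ih =>
    intro hn6
    have h1 := ih (by omega)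
    have h2 := seqP_symm (G := GG) (g := gg hR)
      (by
        apply Subtype.ext
        exact A_mul_self hR 3) (M₁ := MM) (M₂ := Cn (gg hR) MM) rfl n
    have h3 : (seqP MM (Cn (gg hR) MM) (n + 1)).1 =
        coreOf ((seqP MM (Cn (gg hR) MM) n).1 ⊓ (seqP MM (Cn (gg hR) MM) n).2) MM := rfl
    rw [h3, h2, h1, step hR _ (by omega)]
    push_cast
    rfl

theorem isCoatom_MM : IsCoatom MM := by
  have hp := tbl_chevE8.simple_pos 3 hq3
  have hneg := tbl_chevE8.neg_of_pos hp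
  refine ⟨?_, ?_⟩
  · intro h
    have hG : X hR.toAddRel (chevE8.neg (chevE8.simple 3)) 1 ∈ chevE8.group F2 :=
      X_mem_G hR tbl_chevE8 hneg.1 1
    have h1 : (⟨_, hG⟩ : GG) ∈ MM := by
      rw [h]
      trivial
    have h2 := mem_MM.1 h1
    exact not_mem_PP hR one_ne_zero h2
  · intro M hlt
    have hBM : (pair hR tbl_chevE8).B ≤ M := fun b hb => hlt.le (mem_MM.2 (by
      rw [PP, parabolic_eq hR tbl_chevE8]
      exact Subgroup.mem_sup_left ((mem_PB hR tbl_chevE8).1 hb)))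
    have hM := eq_parabolic_of_le hBM
    by_cases h3 : gg hR ∈ M
    · have hS : {s | s ∈ (pair hR tbl_chevE8).S ∧ s ∈ M} = (pair hR tbl_chevE8).S := by
        ext s
        refine ⟨fun h => h.1, fun hs => ⟨hs, ?_⟩⟩
        obtain ⟨i, rfl⟩ := ee_surj hR tbl_chevE8 s hs
        by_cases hi : i.val = 3
        · have : i = ⟨3, hq3⟩ := Fin.ext hi
          rw [this]
          exact h3
        · exact hlt.le (ee_mem_MM hR hi)
      rw [hM, hS, parabolic_S]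
    · exfalso
      apply hlt.not_ge
      rw [hM]
      refine sup_le ?_ ?_
      · intro b hb
        refine mem_MM.2 ?_
        rw [PP, parabolic_eq hR tbl_chevE8]
        exact Subgroup.mem_sup_left ((mem_PB hR tbl_chevE8).1 hb)
      · rw [Subgroup.closure_le]
        rintro s ⟨hs, hsM⟩
        obtain ⟨i, rfl⟩ := ee_surj hR tbl_chevE8 s hs
        refine ee_mem_MM hR ?_
        intro hi
        have : i = ⟨3, hq3⟩ := Fin.ext hi
        rw [this] at hsM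
        exact h3 hsM

theorem MM_ne : MM ≠ Cn (gg hR) MM := by
  intro h
  have hp := tbl_chevE8.simple_pos 3 hq3
  have hG : X hR.toAddRel (chevE8.simple 3) 1 ∈ chevE8.group F2 := X_mem_G hR tbl_chevE8 hp.1 1
  have h1 : (⟨_, hG⟩ : GG) ∈ MM :=
    mem_MM.2 (U_le_parabolic hR tbl_chevE8 _ (X_mem_U hR tbl_chevE8 hp 1))
  have h2 : gg hR * ⟨_, hG⟩ * (gg hR)⁻¹ ∈ Cn (gg hR) MM := by
    rw [mem_Cn]
    have e : (gg hR)⁻¹ * (gg hR * ⟨_, hG⟩ * (gg hR)⁻¹) * gg hR = ⟨_, hG⟩ := by group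
    rwa [e]
  rw [← h] at h2
  have h3 := mem_MM.1 h2
  have h4 : ((gg hR * ⟨_, hG⟩ * (gg hR)⁻¹ : GG) : GL chevE8.Idx F2) =
      A hR 3 * X hR.toAddRel (chevE8.simple 3) 1 * (A hR 3)⁻¹ := rfl
  rw [h4, A_conj_X hR hq3 hp.1, tbl_chevE8.w_simple 3 hq3] at h3
  exact not_mem_PP hR (mul_ne_zero (eta_ne hR hq3 hp.1) one_ne_zero) h3

theorem core_MM : MM.normalCore = ⊥ := by
  have hle : MM.normalCore ≤ WT hR 2 := by
    intro x hx
    rw [← step0 hR, mem_coreOf]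
    have hn : (MM.normalCore).Normal := inferInstance
    refine ⟨Subgroup.normalCore_le _ hx, fun h _ => ?_⟩
    have h1 := hn.conj_mem x hx h
    refine Subgroup.mem_inf.2 ⟨Subgroup.normalCore_le _ h1, ?_⟩
    rw [mem_Cn]
    have h2 := hn.conj_mem _ h1 (gg hR)⁻¹
    rw [inv_inv] at h2
    exact Subgroup.normalCore_le _ h2
  have hB : MM.normalCore ≤ (chevE8.borelSubgroup F2).subgroupOf (chevE8.group F2) := fun x hx =>
    Subgroup.mem_subgroupOf.2 (U_le_B hR tbl_chevE8 (WW_le_U hR _ (mem_WT hR |>.1 (hle hx))))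
  have h1 := Subgroup.normal_le_normalCore.2 hB
  rw [Cfsg.Agent.Lib.ChevBN.Opp.core_eq_bot hR tbl_chevE8 tbl2_chevE8] at h1
  exact le_bot_iff.1 h1

theorem A_six : (seqP MM (Cn (gg hR) MM) 6).1 = ⊥ := by
  rw [seq_val hR 6 (by omega) (by omega)]
  have e : (((6 : ℕ) : ℤ) + 1) = 7 := by norm_num
  rw [e, WT, WW_seven]
  exact Subgroup.bot_subgroupOf _

theorem A_five : (seqP MM (Cn (gg hR) MM) 5).1 ≠ ⊥ := by
  rw [seq_val hR 5 (by omega) (by omega)]
  have e : (((5 : ℕ) : ℤ) + 1) = 6 := by norm_num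
  rw [e]
  intro h
  have hG : X hR.toAddRel 239 1 ∈ chevE8.group F2 := X_mem_G hR tbl_chevE8 pos_239.1 1
  have h1 : (⟨_, hG⟩ : GG) ∈ WT hR 6 := mem_WT hR |>.2 (X_239_mem hR)
  rw [h, Subgroup.mem_bot] at h1
  exact X_239_ne hR (congrArg Subtype.val h1)

omit hR in
/-- The example. -/
theorem main : ∃ (G : Type) (_ : Group G) (_ : Finite G) (M₁ M₂ : Subgroup G) (g : G)
    (A B : ℕ → Subgroup G),
    IsCoatom M₁ ∧ M₂ = M₁.map (MulAut.conj g).toMonoidHom ∧ M₁ ≠ M₂ ∧ M₁.normalCore = ⊥ ∧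
      A 0 = M₁ ∧ B 0 = M₂ ∧
      (∀ i, A (i + 1) = ((A i ⊓ B i).subgroupOf M₁).normalCore.map M₁.subtype) ∧
      (∀ i, B (i + 1) = ((A i ⊓ B i).subgroupOf M₂).normalCore.map M₂.subtype) ∧
      A 6 = ⊥ ∧ A 5 ≠ ⊥ := by
  have hR : Sys chevE8 F2 _ := Cfsg.Agent.Lib.Chevalley.Tbl.E8.sys
  exact ⟨GG, inferInstance, inferInstance, MM, Cn (gg hR) MM, gg hR,
    fun n => (seqP MM (Cn (gg hR) MM) n).1, fun n => (seqP MM (Cn (gg hR) MM) n).2,
    isCoatom_MM hR, rfl, MM_ne hR, core_MM hR, rfl, rfl, fun _ => rfl, fun _ => rfl,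
    A_six hR, A_five hR⟩

end Cfsg.Agent.Lib.PGroup.E8CoreMain
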