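import Cfsg.Agent.Lib.PGroup.ExtraRank
import Cfsg.Prelude.Def_KGroupFacts
import Cfsg.Prelude.Def_Classical
import Mathlib

/-!
# The outer automorphism group of an extraspecial 2-group

`Out(E)` is the full isometry group of the squaring form on `E / Z(E)`, written in coordinates.
-/

set_option autoImplicit false
open scoped commutatorElement

namespace Cfsg.Agent.Lib.PGroup.ExtraOut

open Cfsg.Agent.Lib.PGroup.ExtraQuad Cfsg.Agent.Lib.PGroup.ExtraClass

open Matrix (mulVec)

universe u v

section Iso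

variable {ι : Type*} [Fintype ι] {E : Type u} {E' : Type v} [Group E] [Group E'] [Finite E]
  [Finite E'] {Z : Subgroup E} {Z' : Subgroup E'}

/-- Two quadratic pairs with generating tuples with the same squares and commutators and
the right order: an isomorphism carrying one tuple to the other. -/
theorem exists_mulEquiv_of_tuples (h : QuadPair E Z) (h' : QuadPair E' Z') (e : ι → E) (e' : ι → E')
    (hgen : Subgroup.closure (Set.range e ∪ (Z : Set E)) = ⊤)
    (hgen' : Subgroup.closure (Set.range e' ∪ (Z' : Set E')) = ⊤)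
    (hq : ∀ i, (e i) ^ 2 = 1 ↔ (e' i) ^ 2 = 1)
    (hB : ∀ i j, ⁅e i, e j⁆ = 1 ↔ ⁅e' i, e' j⁆ = 1)
    (hcard : Nat.card E = Nat.card E')
    (hcard2 : 2 ^ (Fintype.card ι + 1) ≤ Nat.card E) : ∃ f : E ≃* E', ∀ i, f (e i) = e' i := by
  classical
  obtain ⟨z, hz, hz1⟩ := h.exists_ne_one
  obtain ⟨z', hz', hz1'⟩ := h'.exists_ne_one
  let g : ι → E × E' := fun i => (e i, e' i)
  let c : E × E' := (z, z')
  let S : Set (E × E') := Set.range g ∪ {c}
  let K : Subgroup (E × E') := Subgroup.closure S
  have hB' : ∀ i j, sgn ⁅e i, e j⁆ = sgn ⁅e' i, e' j⁆ := by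
    intro i j
    by_cases h1 : ⁅e i, e j⁆ = 1
    · rw [h1, (hB i j).1 h1, sgn_one, sgn_one]
    · rw [sgn_of_ne h1, sgn_of_ne (fun h2 => h1 ((hB i j).2 h2))]
  have hq' : ∀ i, sgn ((e i) ^ 2) = sgn ((e' i) ^ 2) := by
    intro i
    by_cases h1 : (e i) ^ 2 = 1
    · rw [h1, (hq i).1 h1, sgn_one, sgn_one]
    · rw [sgn_of_ne h1, sgn_of_ne (fun h2 => h1 ((hq i).2 h2))]
  -- commutators on generators against everything
  have F1a : ∀ s ∈ S, ∀ q ∈ K, sgn ⁅s.1, q.1⁆ = sgn ⁅s.2, q.2⁆ := by
    intro s hs q hq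
    induction hq using Subgroup.closure_induction with
    | mem q hq =>
      rcases hs with ⟨i, rfl⟩ | hs
      · rcases hq with ⟨j, rfl⟩ | hq
        · exact hB' i j
        · rw [Set.mem_singleton_iff] at hq
          subst hq
          simp only [g, c]
          rw [h.comm_symm z (e i), QuadPair.comm_eq_one_of_mem_center (h.le_center hz),
            h'.comm_symm z' (e' i), QuadPair.comm_eq_one_of_mem_center (h'.le_center hz'),
            sgn_one, sgn_one]
      · rw [Set.mem_singleton_iff] at hs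
        subst hs
        simp only [c]
        rw [QuadPair.comm_eq_one_of_mem_center (h.le_center hz),
          QuadPair.comm_eq_one_of_mem_center (h'.le_center hz'), sgn_one, sgn_one]
    | one => simp [sgn_one]
    | mul a b _ _ ha hb =>
      simp only [Prod.fst_mul, Prod.snd_mul]
      rw [h.sgn_comm_mul_right, h'.sgn_comm_mul_right, ha, hb]
    | inv a _ ha =>
      simp only [Prod.fst_inv, Prod.snd_inv]
      rw [sgn_comm_inv_right h, sgn_comm_inv_right h', ha]
  have F1 : ∀ p ∈ K, ∀ q ∈ K, sgn ⁅p.1, q.1⁆ = sgn ⁅p.2, q.2⁆ := by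
    intro p hp q hq
    induction hp using Subgroup.closure_induction with
    | mem p hp => exact F1a p hp q hq
    | one => simp [sgn_one]
    | mul a b _ _ ha hb =>
      simp only [Prod.fst_mul, Prod.snd_mul]
      rw [h.sgn_comm_mul_left, h'.sgn_comm_mul_left, ha, hb]
    | inv a _ ha =>
      simp only [Prod.fst_inv, Prod.snd_inv]
      rw [sgn_comm_inv_left h, sgn_comm_inv_left h', ha]
  have F2 : ∀ p ∈ K, sgn (p.1 ^ 2) = sgn (p.2 ^ 2) := by
    intro p hp
    induction hp using Subgroup.closure_induction with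
    | mem p hp =>
      rcases hp with ⟨i, rfl⟩ | hp
      · exact hq' i
      · rw [Set.mem_singleton_iff] at hp
        subst hp
        simp only [c]
        rw [h.sq_eq_one_of_mem hz, h'.sq_eq_one_of_mem hz', sgn_one, sgn_one]
    | one => simp [sgn_one]
    | mul a b ha hb ha' hb' =>
      simp only [Prod.fst_mul, Prod.snd_mul]
      rw [h.sgn_sq_mul, h'.sgn_sq_mul, ha', hb', F1 b hb a ha]
    | inv a _ ha =>
      simp only [Prod.fst_inv, Prod.snd_inv]
      rw [inv_pow, inv_pow, sgn_inv, sgn_inv, ha]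
  have hcK : c ∈ K := Subgroup.subset_closure (Or.inr rfl)
  -- `{1, c}` contains squares and commutators
  have hone_or : ∀ (a : E) (a' : E'), a ∈ Z → a' ∈ Z' → sgn a = sgn a' →
      ((a, a') : E × E') = 1 ∨ ((a, a') : E × E') = c := by
    intro a a' ha ha' hs
    by_cases h1 : a = 1
    · left
      rw [h1, sgn_one] at hs
      have := sgn_eq_one_iff.1 hs.symm
      rw [h1, this]; rfl
    · right
      rw [sgn_of_ne h1] at hs
      have h2 := eq_of_sgn_eq h hz hz1 ha (sgn_of_ne h1)
      have h3 := eq_of_sgn_eq h' hz' hz1' ha' hs.symm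
      rw [h2, h3]
  have F3 : ∀ p ∈ K, p ^ 2 = 1 ∨ p ^ 2 = c := by
    intro p hp
    have := hone_or _ _ (h.sq_mem p.1) (h'.sq_mem p.2) (F2 p hp)
    simpa [Prod.ext_iff] using this
  have F4 : ∀ p ∈ K, ∀ q ∈ K, ⁅p, q⁆ = 1 ∨ ⁅p, q⁆ = c := by
    intro p hp q hq
    have := hone_or _ _ (h.comm_mem p.1 q.1) (h'.comm_mem p.2 q.2) (F1 p hp q hq)
    simpa [Prod.ext_iff, commutatorElement_def] using this
  -- the order bound
  have hbound : ∀ s : Finset ι,
      Nat.card (Subgroup.closure ((g '' s) ∪ {c}) : Subgroup (E × E')) ≤ 2 ^ (s.card + 1) := by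
    intro s
    induction s using Finset.induction_on with
    | empty =>
      simp only [Finset.coe_empty, Set.image_empty, Set.empty_union, Finset.card_empty, zero_add,
        pow_one]
      rw [← Subgroup.zpowers_eq_closure]
      rw [Nat.card_zpowers]
      have hc2 : c ^ 2 = 1 := by
        ext
        · exact h.sq_eq_one_of_mem hz
        · exact h'.sq_eq_one_of_mem hz'
      exact orderOf_le_of_pow_eq_one (by norm_num) hc2
    | insert i s his ih =>
      set H := Subgroup.closure ((g '' s) ∪ {c}) with hH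
      have hcH : c ∈ H := Subgroup.subset_closure (Or.inr rfl)
      have hHK : H ≤ K := by
        rw [hH, Subgroup.closure_le]
        rintro a (⟨j, -, rfl⟩ | ha)
        · exact Subgroup.subset_closure (Or.inl ⟨j, rfl⟩)
        · rw [Set.mem_singleton_iff] at ha
          rw [ha]; exact hcK
      have hgK : g i ∈ K := Subgroup.subset_closure (Or.inl ⟨i, rfl⟩)
      have hle : Subgroup.closure ((g '' (insert i s : Finset ι)) ∪ {c}) ≤ H ⊔ Subgroup.zpowers (g i) := by
        rw [Subgroup.closure_le]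
        rintro a (⟨j, hj, rfl⟩ | ha)
        · rw [Finset.mem_coe, Finset.mem_insert] at hj
          rcases hj with rfl | hj
          · exact (le_sup_right : Subgroup.zpowers (g j) ≤ _) (Subgroup.mem_zpowers _)
          · exact (le_sup_left : H ≤ _) (Subgroup.subset_closure (Or.inl ⟨j, hj, rfl⟩))
        · rw [Set.mem_singleton_iff] at ha
          rw [ha]
          exact (le_sup_left : H ≤ _) hcH
      have hcard1 := card_sup_zpowers_le H (g i) (by
          intro u hu
          have h1 : g i * u * (g i)⁻¹ = ⁅g i, u⁆ * u := by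
            rw [commutatorElement_def]; group
          rw [h1]
          refine H.mul_mem ?_ hu
          rcases F4 (g i) hgK u (hHK hu) with h2 | h2
          · rw [h2]; exact H.one_mem
          · rw [h2]; exact hcH) (by
          rcases F3 (g i) hgK with h2 | h2
          · rw [h2]; exact H.one_mem
          · rw [h2]; exact hcH)
      calc _ ≤ Nat.card (H ⊔ Subgroup.zpowers (g i) : Subgroup (E × E')) := Subgroup.card_le_of_le hle
        _ ≤ 2 * Nat.card H := hcard1
        _ ≤ 2 * 2 ^ (s.card + 1) := Nat.mul_le_mul_left 2 ih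
        _ = 2 ^ ((insert i s : Finset ι).card + 1) := by
            rw [Finset.card_insert_of_notMem his]; ring
  have hKcard : Nat.card K ≤ 2 ^ (Fintype.card ι + 1) := by
    have h1 := hbound Finset.univ
    have h2 : (g '' (Finset.univ : Finset ι)) ∪ {c} = S := by
      simp [S, Set.image_univ]
    rw [h2] at h1
    exact h1
  -- the projections
  let φ₁ : K →* E := (MonoidHom.fst E E').comp K.subtype
  let φ₂ : K →* E' := (MonoidHom.snd E E').comp K.subtype
  have hgK : ∀ i, g i ∈ K := fun i => Subgroup.subset_closure (Or.inl ⟨i, rfl⟩)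
  have hs₁ : Function.Surjective φ₁ := by
    rw [← MonoidHom.range_eq_top, eq_top_iff, ← hgen, Subgroup.closure_le]
    rintro a (⟨i, rfl⟩ | ha)
    · exact ⟨⟨g i, hgK i⟩, rfl⟩
    · by_cases h1 : a = 1
      · rw [h1]; exact Subgroup.one_mem _
      · rw [h.eq_of_ne_one ha hz h1 hz1]
        exact ⟨⟨c, hcK⟩, rfl⟩
  have hs₂ : Function.Surjective φ₂ := by
    rw [← MonoidHom.range_eq_top, eq_top_iff, ← hgen', Subgroup.closure_le]
    rintro a (⟨i, rfl⟩ | ha)
    · exact ⟨⟨g i, hgK i⟩, rfl⟩
    · by_cases h1 : a = 1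
      · rw [h1]; exact Subgroup.one_mem _
      · rw [h'.eq_of_ne_one ha hz' h1 hz1']
        exact ⟨⟨c, hcK⟩, rfl⟩
  have hKle : Nat.card K ≤ Nat.card E := hKcard.trans hcard2
  have hEle : Nat.card E ≤ Nat.card K := Nat.card_le_card_of_surjective φ₁ hs₁
  have hKE : Nat.card K = Nat.card E := le_antisymm hKle hEle
  have hb₁ : Function.Bijective φ₁ := (Nat.bijective_iff_surjective_and_card φ₁).2 ⟨hs₁, hKE⟩
  have hb₂ : Function.Bijective φ₂ :=
    (Nat.bijective_iff_surjective_and_card φ₂).2 ⟨hs₂, hKE.trans hcard⟩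
  refine ⟨(MulEquiv.ofBijective φ₁ hb₁).symm.trans (MulEquiv.ofBijective φ₂ hb₂), fun i => ?_⟩
  have h1 : (MulEquiv.ofBijective φ₁ hb₁).symm (e i) = ⟨g i, hgK i⟩ := by
    rw [MulEquiv.symm_apply_eq]
    rfl
  rw [MulEquiv.trans_apply, h1]
  rfl


end Iso

section Coord

/-- The value in `ZMod 2` of an element (intended for a central subgroup of order two). -/
noncomputable def ev {E : Type u} [Group E] (c : E) : ZMod 2 := by
  classical exact if c = 1 then 0 else 1

section EvBasic

variable {E : Type u} [Group E]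

lemma ev_one : ev (1 : E) = 0 := by simp [ev]

lemma ev_of_ne {c : E} (h : c ≠ 1) : ev c = 1 := by simp [ev, h]

lemma ev_eq_zero_iff {c : E} : ev c = 0 ↔ c = 1 := by
  constructor
  · intro h
    by_contra h1
    rw [ev_of_ne h1] at h
    exact one_ne_zero h
  · rintro rfl
    exact ev_one

lemma ev_inv (c : E) : ev c⁻¹ = ev c := by
  by_cases h : c = 1
  · subst h; simp
  · rw [ev_of_ne h, ev_of_ne (inv_ne_one.2 h)]

lemma zmod2_add_self (a : ZMod 2) : a + a = 0 := by
  revert a; decide

lemma zmod2_cases (a : ZMod 2) : a = 0 ∨ a = 1 := by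
  revert a; decide

lemma neg_eq_self_zmod2 (a : ZMod 2) : -a = a := by
  revert a; decide

lemma ev_mul {Z : Subgroup E} (h : QuadPair E Z) {c d : E} (hc : c ∈ Z) (hd : d ∈ Z) :
    ev (c * d) = ev c + ev d := by
  by_cases hc1 : c = 1
  · subst hc1; simp [ev_one]
  by_cases hd1 : d = 1
  · subst hd1; simp [ev_one]
  have hcd := h.eq_of_ne_one hc hd hc1 hd1
  subst hcd
  rw [h.mul_self_eq_one_of_mem hc, ev_one, zmod2_add_self]

lemma ev_eq_iff {Z : Subgroup E} (h : QuadPair E Z) {c d : E} (hc : c ∈ Z) (hd : d ∈ Z) :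
    ev c = ev d ↔ c = d := by
  constructor
  · intro he
    by_cases hc1 : c = 1
    · rw [hc1, ev_one] at he
      rw [hc1, ev_eq_zero_iff.1 he.symm]
    · have hd1 : d ≠ 1 := by
        rintro rfl
        rw [ev_one] at he
        exact hc1 (ev_eq_zero_iff.1 he)
      exact h.eq_of_ne_one hc hd hc1 hd1
  · rintro rfl; rfl

lemma pow_two_eq_one_iff_ev {c : E} : c = 1 ↔ ev c = 0 := ev_eq_zero_iff.symm

end EvBasic

/-- Additive subgroups of `ZMod 2`-vectors containing all basis vectors are everything. -/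
lemma mem_of_single {ι : Type*} [Fintype ι] [DecidableEq ι] (R : AddSubgroup (ι → ZMod 2))
    (hR : ∀ a, (Pi.single a 1 : ι → ZMod 2) ∈ R) (v : ι → ZMod 2) : v ∈ R := by
  rw [← Finset.univ_sum_single v]
  refine R.sum_mem fun a _ => ?_
  rcases zmod2_cases (v a) with h | h
  · rw [h, Pi.single_zero]; exact R.zero_mem
  · rw [h]; exact hR a

/-- Data of a coordinate system on `E / Z(E)` with the squaring form given by `Q`. -/
structure CoordData {E : Type u} [Group E] {ι : Type} [Fintype ι] [DecidableEq ι]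
    (star : ι → ι) (e : ι → E) (Q : (ι → ZMod 2) → ZMod 2) : Prop where
  quad : QuadPair E (Subgroup.center E)
  star_star : ∀ a, star (star a) = a
  gen : Subgroup.closure (Set.range e ∪ (Subgroup.center E : Set E)) = ⊤
  dual : ∀ a b, ⁅e a, e (star b)⁆ = 1 ↔ a ≠ b
  polar : ∀ u v, Q (u + v) = Q u + Q v + ∑ a, u a * v (star a)
  diag : ∀ a, Q (Pi.single a 1) = ev ((e a) ^ 2)
  card : Nat.card E = 2 ^ (Fintype.card ι + 1)

/-- The coordinates of an element. -/
noncomputable def coord {E : Type u} [Group E] {ι : Type} (star : ι → ι) (e : ι → E) (x : E) :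
    ι → ZMod 2 :=
  fun j => ev ⁅x, e (star j)⁆

namespace CoordData

variable {E : Type u} [Group E] {ι : Type} [Fintype ι] [DecidableEq ι]
  {star : ι → ι} {e : ι → E} {Q : (ι → ZMod 2) → ZMod 2} (D : CoordData star e Q)
include D

lemma coord_mul (x y : E) : coord star e (x * y) = coord star e x + coord star e y := by
  funext j
  simp only [coord, Pi.add_apply]
  rw [D.quad.comm_mul_left, ev_mul D.quad (D.quad.comm_mem _ _) (D.quad.comm_mem _ _)]

omit D [Fintype ι] [DecidableEq ι] in
lemma coord_one : coord star e (1 : E) = 0 := by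
  funext j
  simp [coord, ev_one]

lemma coord_inv (x : E) : coord star e x⁻¹ = coord star e x := by
  have h1 := D.coord_mul x⁻¹ x
  rw [inv_mul_cancel, coord_one] at h1
  funext j
  have h2 := congrFun h1 j
  simp only [Pi.zero_apply, Pi.add_apply] at h2
  rcases zmod2_cases (coord star e x⁻¹ j) with h3 | h3 <;>
    rcases zmod2_cases (coord star e x j) with h4 | h4 <;> simp_all

lemma coord_e (a : ι) : coord star e (e a) = Pi.single a 1 := by
  funext b
  simp only [coord]
  by_cases hab : a = b
  · subst hab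
    have h1 : ⁅e a, e (star a)⁆ ≠ 1 := fun h => (D.dual a a).1 h rfl
    rw [ev_of_ne h1, Pi.single_eq_same]
  · have h1 : ⁅e a, e (star b)⁆ = 1 := (D.dual a b).2 hab
    rw [h1, ev_one, Pi.single_eq_of_ne (fun h => hab h.symm)]

lemma coord_surj : Function.Surjective (coord star e : E → ι → ZMod 2) := by
  intro v
  let R : AddSubgroup (ι → ZMod 2) :=
    { carrier := Set.range (coord star e : E → ι → ZMod 2)
      add_mem' := by
        rintro _ _ ⟨x, rfl⟩ ⟨y, rfl⟩
        exact ⟨x * y, D.coord_mul x y⟩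
      zero_mem' := ⟨1, coord_one⟩
      neg_mem' := by
        rintro _ ⟨x, rfl⟩
        refine ⟨x, ?_⟩
        funext j
        exact (neg_eq_self_zmod2 _).symm }
  exact mem_of_single R (fun a => ⟨e a, D.coord_e a⟩) v

lemma coord_eq_zero_iff (x : E) : coord star e x = 0 ↔ x ∈ Subgroup.center E := by
  constructor
  · intro hx
    have h1 : ∀ a, ⁅x, e a⁆ = 1 := by
      intro a
      have h2 := congrFun hx (star a)
      simp only [coord, D.star_star, Pi.zero_apply] at h2
      exact ev_eq_zero_iff.1 h2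
    have h2 : (⊤ : Subgroup E) ≤ Subgroup.centralizer ({x} : Set E) := by
      rw [← D.gen, Subgroup.closure_le]
      rintro g (⟨a, rfl⟩ | hg)
      · rw [SetLike.mem_coe, Subgroup.mem_centralizer_singleton_iff]
        have := h1 a
        rw [commutatorElement_eq_one_iff_mul_comm] at this
        exact this.symm
      · rw [SetLike.mem_coe, Subgroup.mem_centralizer_singleton_iff]
        exact ((Subgroup.mem_center_iff.1 hg) x).symm
    rw [Subgroup.mem_center_iff]
    intro g
    have := h2 (Subgroup.mem_top g)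
    rw [Subgroup.mem_centralizer_singleton_iff] at this
    exact this
  · intro hx
    funext j
    simp only [coord, Pi.zero_apply]
    rw [QuadPair.comm_eq_one_of_mem_center hx, ev_one]

lemma coord_eq_iff (x y : E) : coord star e x = coord star e y ↔ x⁻¹ * y ∈ Subgroup.center E := by
  rw [← D.coord_eq_zero_iff, D.coord_mul, D.coord_inv]
  constructor
  · intro h; rw [h]; funext j; exact zmod2_add_self _
  · intro h
    funext j
    have h2 := congrFun h j
    simp only [Pi.zero_apply, Pi.add_apply] at h2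
    rcases zmod2_cases (coord star e x j) with h3 | h3 <;>
      rcases zmod2_cases (coord star e y j) with h4 | h4 <;> simp_all

/-- The commutator in coordinates. -/
lemma ev_comm (x y : E) : ev ⁅y, x⁆ = ∑ a, coord star e x a * coord star e y (star a) := by
  have htop : x ∈ Subgroup.closure (Set.range e ∪ (Subgroup.center E : Set E)) := by
    rw [D.gen]; exact Subgroup.mem_top x
  induction htop using Subgroup.closure_induction with
  | mem x hx =>
    rcases hx with ⟨b, rfl⟩ | hx
    · rw [D.coord_e]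
      simp only [Pi.single_apply, ite_mul, one_mul, zero_mul, Finset.sum_ite_eq',
        Finset.mem_univ, if_true]
      simp only [coord, D.star_star]
    · have h0 : coord star e x = 0 := (D.coord_eq_zero_iff x).2 hx
      rw [h0, D.quad.comm_symm x y, QuadPair.comm_eq_one_of_mem_center hx, ev_one]
      simp
  | one => simp [coord_one, ev_one]
  | mul a b _ _ ha hb =>
    rw [D.quad.comm_mul_right, ev_mul D.quad (D.quad.comm_mem _ _) (D.quad.comm_mem _ _), ha, hb,
      D.coord_mul, ← Finset.sum_add_distrib]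
    refine Finset.sum_congr rfl fun c _ => ?_
    simp only [Pi.add_apply]
    ring
  | inv a _ ha =>
    rw [D.coord_inv, ← ha]
    have h1 := D.quad.comm_mul_right a⁻¹ a y
    rw [inv_mul_cancel, commutatorElement_one_right] at h1
    have h2 : ev ⁅y, a⁻¹⁆ + ev ⁅y, a⁆ = 0 := by
      rw [← ev_mul D.quad (D.quad.comm_mem _ _) (D.quad.comm_mem _ _), ← h1, ev_one]
    rcases zmod2_cases (ev ⁅y, a⁻¹⁆) with h3 | h3 <;>
      rcases zmod2_cases (ev ⁅y, a⁆) with h4 | h4 <;> simp_all

/-- The form in coordinates. -/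
lemma Q_coord (x : E) : Q (coord star e x) = ev (x ^ 2) := by
  have h00 : Q 0 = 0 := by
    have := D.polar 0 0
    simp only [add_zero, Pi.zero_apply, zero_mul, Finset.sum_const_zero] at this
    rw [zmod2_add_self] at this
    exact this
  have htop : x ∈ Subgroup.closure (Set.range e ∪ (Subgroup.center E : Set E)) := by
    rw [D.gen]; exact Subgroup.mem_top x
  induction htop using Subgroup.closure_induction with
  | mem x hx =>
    rcases hx with ⟨b, rfl⟩ | hx
    · rw [D.coord_e]
      exact D.diag b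
    · rw [(D.coord_eq_zero_iff x).2 hx, h00, D.quad.sq_eq_one_of_mem hx, ev_one]
  | one => simp [coord_one, ev_one, h00]
  | mul a b _ _ ha hb =>
    rw [D.coord_mul, D.polar, ha, hb, ← D.ev_comm, D.quad.sq_mul,
      ev_mul D.quad (Subgroup.mul_mem _ (D.quad.comm_mem _ _) (D.quad.sq_mem _)) (D.quad.sq_mem _),
      ev_mul D.quad (D.quad.comm_mem _ _) (D.quad.sq_mem _)]
    ring
  | inv a _ ha =>
    rw [D.coord_inv, ha, inv_pow, ev_inv]

lemma map_center_mem (φ : MulAut E) {c : E} (hc : c ∈ Subgroup.center E) :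
    φ c ∈ Subgroup.center E := by
  rw [Subgroup.mem_center_iff] at hc ⊢
  intro g
  have := hc (φ.symm g)
  have h2 := congrArg φ this
  simpa using h2

/-- A section of the coordinates. -/
noncomputable def sec : (ι → ZMod 2) → E := Function.surjInv D.coord_surj

lemma coord_sec (v : ι → ZMod 2) : coord star e (D.sec v) = v := Function.surjInv_eq D.coord_surj v

lemma coord_map_congr (φ : MulAut E) {x y : E} (hxy : coord star e x = coord star e y) :
    coord star e (φ x) = coord star e (φ y) := by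
  rw [D.coord_eq_iff] at hxy ⊢
  have := D.map_center_mem φ hxy
  simpa [map_mul, map_inv] using this

/-- The linear map induced by an automorphism. -/
noncomputable def Lmap (φ : MulAut E) : (ι → ZMod 2) →ₗ[ZMod 2] (ι → ZMod 2) where
  toFun v := coord star e (φ (D.sec v))
  map_add' u v := by
    rw [← D.coord_mul, ← map_mul]
    apply D.coord_map_congr
    rw [D.coord_mul, D.coord_sec, D.coord_sec, D.coord_sec]
  map_smul' c v := by
    rcases zmod2_cases c with rfl | rfl
    · simp only [zero_smul, RingHom.id_apply]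
      rw [D.coord_map_congr φ (x := D.sec 0) (y := 1) (by rw [D.coord_sec, coord_one]), map_one,
        coord_one]
    · simp

lemma Lmap_coord (φ : MulAut E) (x : E) : D.Lmap φ (coord star e x) = coord star e (φ x) := by
  show coord star e (φ (D.sec (coord star e x))) = coord star e (φ x)
  exact D.coord_map_congr φ (D.coord_sec _)

/-- The matrix of an automorphism. -/
noncomputable def Mat (φ : MulAut E) : Matrix ι ι (ZMod 2) := LinearMap.toMatrix' (D.Lmap φ)

lemma Mat_coord (φ : MulAut E) (x : E) :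
    (D.Mat φ).mulVec (coord star e x) = coord star e (φ x) := by
  rw [Mat, LinearMap.toMatrix'_mulVec, D.Lmap_coord]

lemma Mat_ext {A B : Matrix ι ι (ZMod 2)}
    (h : ∀ x, A.mulVec (coord star e x) = B.mulVec (coord star e x)) : A = B := by
  apply Matrix.mulVec_injective
  funext v
  obtain ⟨x, rfl⟩ := D.coord_surj v
  exact h x

/-- The matrix map as a monoid hom. -/
noncomputable def MatHom : MulAut E →* Matrix ι ι (ZMod 2) where
  toFun := D.Mat
  map_one' := by
    apply D.Mat_ext
    intro x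
    rw [D.Mat_coord, Matrix.one_mulVec]
    rfl
  map_mul' φ ψ := by
    apply D.Mat_ext
    intro x
    rw [← Matrix.mulVec_mulVec, D.Mat_coord, D.Mat_coord, D.Mat_coord]
    rfl

lemma sq_eq_one_map (φ : MulAut E) (x : E) : (φ x) ^ 2 = 1 ↔ x ^ 2 = 1 := by
  rw [← map_pow]
  exact map_eq_one_iff φ φ.injective

lemma ev_sq_map (φ : MulAut E) (x : E) : ev ((φ x) ^ 2) = ev (x ^ 2) := by
  by_cases h : x ^ 2 = 1
  · rw [h, (D.sq_eq_one_map φ x).2 h]
  · rw [ev_of_ne h, ev_of_ne (fun h2 => h ((D.sq_eq_one_map φ x).1 h2))]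

/-- The isometry attached to an automorphism. -/
noncomputable def Psi : MulAut E →* Cfsg.isometryGroup (ZMod 2) Q :=
  (MonoidHom.toHomUnits D.MatHom).codRestrict _ (by
    intro φ u _
    obtain ⟨x, rfl⟩ := D.coord_surj u
    show Q ((D.Mat φ).mulVec (coord star e x)) = Q (coord star e x)
    rw [D.Mat_coord, D.Q_coord, D.Q_coord, D.ev_sq_map])

lemma Psi_coe (φ : MulAut E) :
    (((D.Psi φ : Cfsg.isometryGroup (ZMod 2) Q) : Matrix.GeneralLinearGroup ι (ZMod 2)) :
      Matrix ι ι (ZMod 2)) = D.Mat φ := rfl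

lemma fix_center (φ : MulAut E) {c : E} (hc : c ∈ Subgroup.center E) : φ c = c := by
  by_cases h1 : c = 1
  · rw [h1, map_one]
  · exact D.quad.eq_of_ne_one (D.map_center_mem φ hc) hc
      (fun h => h1 (φ.injective (by rw [h, map_one]))) h1

lemma ker_Psi : D.Psi.ker = Cfsg.Inn E := by
  ext φ
  rw [MonoidHom.mem_ker]
  constructor
  · intro hφ
    have hM : D.Mat φ = 1 := by
      have := congrArg (fun g : Cfsg.isometryGroup (ZMod 2) Q =>
        ((g : Matrix.GeneralLinearGroup ι (ZMod 2)) : Matrix ι ι (ZMod 2))) hφ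
      exact this
    have hcoord : ∀ x, coord star e (φ x) = coord star e x := by
      intro x
      rw [← D.Mat_coord, hM, Matrix.one_mulVec]
    have hmem : ∀ x, φ x * x⁻¹ ∈ Subgroup.center E := by
      intro x
      have := (D.coord_eq_iff _ _).1 (hcoord x)
      have h2 := Subgroup.inv_mem _ this
      have h3 : (φ x * x⁻¹) = x * ((φ x)⁻¹ * x)⁻¹ * x⁻¹ := by group
      rw [h3]
      exact Subgroup.Normal.conj_mem inferInstance _ h2 x
    let v : ι → ZMod 2 := fun a => ev (φ (e (star a)) * (e (star a))⁻¹)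
    let g : E := D.sec v
    have hg : ∀ a, ⁅g, e a⁆ = φ (e a) * (e a)⁻¹ := by
      intro a
      have h1 := congrFun (D.coord_sec v) (star a)
      simp only [coord, D.star_star, v] at h1
      exact (ev_eq_iff D.quad (D.quad.comm_mem _ _) (hmem _)).1 h1
    refine ⟨g, ?_⟩
    have hle : (⊤ : Subgroup E) ≤
        MonoidHom.eqLocus (MulAut.conj g).toMonoidHom φ.toMonoidHom := by
      rw [← D.gen, Subgroup.closure_le]
      rintro x (⟨a, rfl⟩ | hx)
      · show (MulAut.conj g) (e a) = φ (e a)
        have h1 := hg a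
        rw [commutatorElement_def] at h1
        rw [MulAut.conj_apply]
        calc g * e a * g⁻¹ = (g * e a * g⁻¹ * (e a)⁻¹) * e a := by group
          _ = (φ (e a) * (e a)⁻¹) * e a := by rw [h1]
          _ = φ (e a) := by group
      · show (MulAut.conj g) x = φ x
        rw [MulAut.conj_apply, D.fix_center φ hx, (Subgroup.mem_center_iff.1 hx) g]
        group
    ext x
    exact hle (Subgroup.mem_top x)
  · rintro ⟨g, rfl⟩
    apply Subtype.ext
    apply Units.ext
    show D.Mat (MulAut.conj g) = 1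
    apply D.Mat_ext
    intro x
    rw [D.Mat_coord, Matrix.one_mulVec, eq_comm, D.coord_eq_iff, MulAut.conj_apply]
    have h1 : x⁻¹ * (g * x * g⁻¹) = ⁅x⁻¹, g⁆ := by
      rw [commutatorElement_def]; group
    rw [h1]
    exact D.quad.comm_mem _ _

lemma surj_Psi [Finite E] : Function.Surjective D.Psi := by
  rintro ⟨g, hg⟩
  have hQ : ∀ u, Q ((g : Matrix ι ι (ZMod 2)).mulVec u) = Q u := fun u => hg u u
  set M : Matrix ι ι (ZMod 2) := (g : Matrix ι ι (ZMod 2)) with hM
  set Mi : Matrix ι ι (ZMod 2) :=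
    ((g⁻¹ : Matrix.GeneralLinearGroup ι (ZMod 2)) : Matrix ι ι (ZMod 2)) with hMi
  have hMMi : M * Mi = 1 := g.mul_inv
  let e' : ι → E := fun a => D.sec (M.mulVec (Pi.single a 1))
  have hce' : ∀ a, coord star e (e' a) = M.mulVec (Pi.single a 1) := fun a => D.coord_sec _
  -- generation
  have hgen' : Subgroup.closure (Set.range e' ∪ (Subgroup.center E : Set E)) = ⊤ := by
    set H := Subgroup.closure (Set.range e' ∪ (Subgroup.center E : Set E)) with hH
    have hZH : Subgroup.center E ≤ H := fun c hc => Subgroup.subset_closure (Or.inr hc)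
    let T : AddSubgroup (ι → ZMod 2) :=
      { carrier := {w | ∃ x ∈ H, coord star e x = M.mulVec w}
        add_mem' := by
          rintro u v ⟨x, hx, hxu⟩ ⟨y, hy, hyv⟩
          exact ⟨x * y, H.mul_mem hx hy, by rw [D.coord_mul, hxu, hyv, Matrix.mulVec_add]⟩
        zero_mem' := ⟨1, H.one_mem, by rw [coord_one, Matrix.mulVec_zero]⟩
        neg_mem' := by
          rintro u ⟨x, hx, hxu⟩
          refine ⟨x, hx, ?_⟩
          rw [hxu, Matrix.mulVec_neg]
          funext j
          exact (neg_eq_self_zmod2 _).symm }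
    have hT : ∀ w, w ∈ T := mem_of_single T
      (fun a => ⟨e' a, Subgroup.subset_closure (Or.inl ⟨a, rfl⟩), hce' a⟩)
    rw [eq_top_iff]
    intro x _
    obtain ⟨y, hy, hyx⟩ := hT (Mi.mulVec (coord star e x))
    rw [Matrix.mulVec_mulVec, hMMi, Matrix.one_mulVec] at hyx
    have h1 : y⁻¹ * x ∈ H := hZH ((D.coord_eq_iff y x).1 hyx)
    have : x = y * (y⁻¹ * x) := by group
    rw [this]
    exact H.mul_mem hy h1
  have hqq : ∀ a, (e a) ^ 2 = 1 ↔ (e' a) ^ 2 = 1 := by
    intro a
    rw [pow_two_eq_one_iff_ev, pow_two_eq_one_iff_ev (c := (e' a) ^ 2), ← D.Q_coord, ← D.Q_coord,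
      hce', hQ, D.coord_e]
  have hcomm : ∀ x y : E, ev ⁅y, x⁆ =
      Q (coord star e x + coord star e y) + Q (coord star e x) + Q (coord star e y) := by
    intro x y
    rw [D.polar, D.ev_comm]
    have h1 := zmod2_add_self (Q (coord star e x))
    have h2 := zmod2_add_self (Q (coord star e y))
    linear_combination -h1 - h2
  have hBB : ∀ a b, ⁅e a, e b⁆ = 1 ↔ ⁅e' a, e' b⁆ = 1 := by
    intro a b
    rw [pow_two_eq_one_iff_ev, pow_two_eq_one_iff_ev (c := ⁅e' a, e' b⁆), hcomm, hcomm, hce', hce',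
      D.coord_e, D.coord_e, ← Matrix.mulVec_add, hQ, hQ, hQ]
  obtain ⟨f, hf⟩ := exists_mulEquiv_of_tuples D.quad D.quad e e' D.gen hgen' hqq hBB rfl
    (le_of_eq D.card.symm)
  refine ⟨f, Subtype.ext (Units.ext ?_)⟩
  show D.Mat f = M
  have hcol : ∀ a, (D.Mat f).mulVec (Pi.single a 1) = M.mulVec (Pi.single a 1) := by
    intro a
    have := D.Mat_coord f (e a)
    rwa [D.coord_e, hf, hce'] at this
  ext i j
  have := congrFun (hcol j) i
  simpa [Matrix.mulVec_single_one] using this

theorem main [Finite E] : Nonempty (Cfsg.Out E ≃* Cfsg.isometryGroup (ZMod 2) Q) :=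
  ⟨(QuotientGroup.quotientMulEquivOfEq D.ker_Psi.symm).trans
    (QuotientGroup.quotientKerEquivOfSurjective D.Psi D.surj_Psi)⟩

end CoordData

end Coord

section Types

variable {E : Type u} [Group E]

/-- Plus type: coordinates from a standard tuple. -/
lemma coordData_plus {n : ℕ} (h : QuadPair E (Subgroup.center E)) {x y : Fin n → E}
    (ht : StdTuple (Subgroup.center E) false x y) (hcard : Nat.card E = 2 ^ (2 * n + 1)) :
    CoordData (Sum.swap : Fin n ⊕ Fin n → Fin n ⊕ Fin n) (Sum.elim x y)
      (Cfsg.quadFormPlus n (ZMod 2)) where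
  quad := h
  star_star := Sum.swap_swap
  gen := by rw [Set.Sum.elim_range]; exact ht.gen
  dual := by
    rintro (a | a) (b | b)
    · simp only [Sum.swap_inl, Sum.elim_inl, Sum.elim_inr, ne_eq, Sum.inl.injEq]
      exact ht.xy a b
    · simp [ht.xx]
    · simp [ht.yy]
    · simp only [Sum.swap_inr, Sum.elim_inl, Sum.elim_inr, ne_eq, Sum.inr.injEq]
      rw [h.comm_symm (x b) (y a)]
      exact (ht.xy b a).trans (by rw [ne_comm])
  polar := by
    intro u v
    simp only [Cfsg.quadFormPlus, Pi.add_apply, Fintype.sum_sum_type, Sum.swap_inl, Sum.swap_inr]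
    rw [← Finset.sum_add_distrib, ← Finset.sum_add_distrib, ← Finset.sum_add_distrib]
    refine Finset.sum_congr rfl fun i _ => ?_
    ring
  diag := by
    rintro (a | a)
    · have h1 : (x a) ^ 2 = 1 := (ht.sqx a).2 (by simp)
      simp [Cfsg.quadFormPlus, h1, ev_one, Pi.single_apply]
    · have h1 : (y a) ^ 2 = 1 := (ht.sqy a).2 (by simp)
      simp [Cfsg.quadFormPlus, h1, ev_one, Pi.single_apply]
  card := by
    rw [hcard]
    simp only [Fintype.card_sum, Fintype.card_fin]
    congr 1
    omega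

/-- The involution on the index set of the minus type form. -/
def starMinus {m : ℕ} : (Fin m ⊕ Fin m) ⊕ Fin 2 → (Fin m ⊕ Fin m) ⊕ Fin 2
  | .inl s => .inl s.swap
  | .inr i => .inr (1 - i)

/-- The tuple of the minus type form. -/
def eMinus {m : ℕ} (x y : Fin (m + 1) → E) : (Fin m ⊕ Fin m) ⊕ Fin 2 → E
  | .inl (.inl i) => x i.succ
  | .inl (.inr i) => y i.succ
  | .inr i => if i = 0 then x 0 else y 0

lemma coordData_minus {m : ℕ} (h : QuadPair E (Subgroup.center E)) {x y : Fin (m + 1) → E}
    (ht : StdTuple (Subgroup.center E) true x y) (hcard : Nat.card E = 2 ^ (2 * (m + 1) + 1)) :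
    CoordData (starMinus (m := m)) (eMinus x y)
      (Cfsg.quadFormMinus m (ZMod 2) 1 1) where
  quad := h
  star_star := by
    rintro (s | i)
    · simp [starMinus]
    · simp only [starMinus]
      congr 1
      fin_cases i <;> rfl
  gen := by
    rw [← ht.gen]
    congr 1
    ext g
    simp only [Set.mem_union, Set.mem_range]
    constructor
    · rintro (⟨(⟨a⟩ | ⟨a⟩) | a, rfl⟩ | hg)
      · exact Or.inl (Or.inl ⟨a.succ, rfl⟩)
      · exact Or.inl (Or.inr ⟨a.succ, rfl⟩)
      · fin_cases a
        · exact Or.inl (Or.inl ⟨0, rfl⟩)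
        · exact Or.inl (Or.inr ⟨0, rfl⟩)
      · exact Or.inr hg
    · rintro ((⟨a, rfl⟩ | ⟨a, rfl⟩) | hg)
      · refine Fin.cases ?_ (fun b => ?_) a
        · exact Or.inl ⟨Sum.inr 0, rfl⟩
        · exact Or.inl ⟨Sum.inl (Sum.inl b), rfl⟩
      · refine Fin.cases ?_ (fun b => ?_) a
        · exact Or.inl ⟨Sum.inr 1, rfl⟩
        · exact Or.inl ⟨Sum.inl (Sum.inr b), rfl⟩
      · exact Or.inr hg
  dual := by
    have hxx := ht.xx
    have hyy := ht.yy
    have hxy := ht.xy
    have hyx : ∀ i j, ⁅y i, x j⁆ = 1 ↔ j ≠ i := by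
      intro i j
      rw [h.comm_symm (x j) (y i)]
      exact ht.xy j i
    have hsucc : ∀ i : Fin m, i.succ ≠ 0 := Fin.succ_ne_zero
    have hinj : ∀ i j : Fin m, i.succ ≠ j.succ ↔ i ≠ j := fun i j => by simp
    rintro ((i | i) | k) ((j | j) | l)
    · simp [eMinus, starMinus, hxy, hinj]
    · simp [eMinus, starMinus, hxx]
    · fin_cases l
      · simp [eMinus, starMinus, hxy]
      · simp [eMinus, starMinus, hxx]
    · simp [eMinus, starMinus, hyy]
    · simp [eMinus, starMinus, hyx, hinj, ne_comm]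
    · fin_cases l
      · simp [eMinus, starMinus, hyy]
      · simp [eMinus, starMinus, hyx, (hsucc _).symm]
    · fin_cases k
      · simp [eMinus, starMinus, hxy, (hsucc _).symm]
      · simp [eMinus, starMinus, hyy]
    · fin_cases k
      · simp [eMinus, starMinus, hxx]
      · simp [eMinus, starMinus, hyx, hsucc]
    · fin_cases k <;> fin_cases l
      · simp [eMinus, starMinus, hxy]
      · simp [eMinus, starMinus, hxx]
      · simp [eMinus, starMinus, hyy]
      · simp [eMinus, starMinus, hyx]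
  polar := by
    intro u v
    simp only [Cfsg.quadFormMinus, Pi.add_apply, Fintype.sum_sum_type, Fin.sum_univ_two, starMinus,
      Sum.swap_inl, Sum.swap_inr, sub_zero, sub_self]
    have key : ∑ i : Fin m, (u (Sum.inl (Sum.inl i)) + v (Sum.inl (Sum.inl i))) *
        (u (Sum.inl (Sum.inr i)) + v (Sum.inl (Sum.inr i))) =
        ∑ i : Fin m, u (Sum.inl (Sum.inl i)) * u (Sum.inl (Sum.inr i)) +
        ∑ i : Fin m, v (Sum.inl (Sum.inl i)) * v (Sum.inl (Sum.inr i)) +
        (∑ i : Fin m, u (Sum.inl (Sum.inl i)) * v (Sum.inl (Sum.inr i)) +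
        ∑ i : Fin m, u (Sum.inl (Sum.inr i)) * v (Sum.inl (Sum.inl i))) := by
      rw [← Finset.sum_add_distrib, ← Finset.sum_add_distrib, ← Finset.sum_add_distrib]
      refine Finset.sum_congr rfl fun i _ => ?_
      ring
    have h2 : (2 : ZMod 2) = 0 := rfl
    rw [key]
    linear_combination (u (Sum.inr 0) * v (Sum.inr 0) + u (Sum.inr 1) * v (Sum.inr 1)) * h2
  diag := by
    have h0x : (x 0) ^ 2 ≠ 1 := fun h1 => ((ht.sqx 0).1 h1) (by simp)
    have h0y : (y 0) ^ 2 ≠ 1 := fun h1 => ((ht.sqy 0).1 h1) (by simp)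
    have h1x : ∀ i : Fin m, (x i.succ) ^ 2 = 1 := fun i => (ht.sqx _).2 (by simp)
    have h1y : ∀ i : Fin m, (y i.succ) ^ 2 = 1 := fun i => (ht.sqy _).2 (by simp)
    rintro ((i | i) | k)
    · simp [Cfsg.quadFormMinus, eMinus, h1x, ev_one, Pi.single_apply]
    · simp [Cfsg.quadFormMinus, eMinus, h1y, ev_one, Pi.single_apply]
    · fin_cases k
      · simp [Cfsg.quadFormMinus, eMinus, ev_of_ne h0x, Pi.single_apply]
      · simp [Cfsg.quadFormMinus, eMinus, ev_of_ne h0y, Pi.single_apply]
  card := by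
    rw [hcard]
    simp only [Fintype.card_sum, Fintype.card_fin]
    congr 1
    omega

end Types

/-- The statement: `Out` of an extraspecial 2-group is the full orthogonal group of the right type. -/
theorem out_extraspecial {E : Type u} [Group E] [Finite E] (hE : Cfsg.IsExtraspecial 2 E) (n : ℕ)
    (hn : 1 ≤ n) (hcard : Nat.card E = 2 ^ (2 * n + 1)) :
    ((∃ A : Subgroup E, Cfsg.IsElementaryAbelian 2 A ∧ Nat.card ↥A = 2 ^ (n + 1)) →
      Nonempty (Cfsg.Out E ≃* Cfsg.isometryGroup (ZMod 2) (Cfsg.quadFormPlus n (ZMod 2)))) ∧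
    ((¬ ∃ A : Subgroup E, Cfsg.IsElementaryAbelian 2 A ∧ Nat.card ↥A = 2 ^ (n + 1)) →
      Nonempty (Cfsg.Out E ≃* Cfsg.isometryGroup (ZMod 2) (Cfsg.quadFormMinus (n - 1) (ZMod 2) 1 1))) := by
  have h := quadPair_of_extraspecial hE
  obtain ⟨A₀, hA₀, hmax⟩ := exists_max_elementary E
  obtain ⟨ε, -, hε, x, y, ht⟩ := exists_std n E h hcard
  have hr := ExtraRank.rank_analysis h hcard hA₀ hmax
  constructor
  · rintro ⟨A, hA, hAc⟩
    have hpos : 0 < gaussT E := by
      rcases hr with ⟨-, h2⟩ | ⟨h1, -⟩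
      · rw [h2]; positivity
      · have h3 := hmax A hA
        rw [hAc, h1] at h3
        have h4 : (2:ℕ) ^ n < 2 ^ (n + 1) := Nat.pow_lt_pow_right (by norm_num) (by omega)
        omega
    have hε' : ε = false := hε.2 hpos
    subst hε'
    exact (coordData_plus h ht hcard).main
  · intro hno
    have hε' : ε = true := by
      rcases hr with ⟨h1, -⟩ | ⟨-, h2⟩
      · exact absurd ⟨A₀, hA₀, h1⟩ hno
      · cases ε with
        | true => rfl
        | false =>
          have := hε.1 rfl
          rw [h2] at this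
          have h5 : (0:ℤ) < 2 ^ (n + 1) := by positivity
          linarith
    subst hε'
    obtain ⟨m, rfl⟩ : ∃ m, n = m + 1 := ⟨n - 1, by omega⟩
    exact (coordData_minus h ht hcard).main

end Cfsg.Agent.Lib.PGroup.ExtraOut
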