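import Cfsg.Agent.Lib.PGroup.ExtraClass
import Cfsg.Prelude.Def_CaseTheorems
import Mathlib

/-!
# The 2-rank of an extraspecial 2-group and the sign of its Gauss sum
-/

set_option autoImplicit false
open scoped commutatorElement

namespace Cfsg.Agent.Lib.PGroup.ExtraRank

open Cfsg.Agent.Lib.PGroup.ExtraQuad Cfsg.Agent.Lib.PGroup.ExtraClass

variable {E : Type*} [Group E] {Z : Subgroup E}

open Classical in
/-- Orthogonality over a subgroup. -/
lemma sum_sgn_comm_subgroup (h : QuadPair E Z) (A : Subgroup E) [Fintype A] (x : E) :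
    ∑ a : A, sgn ⁅(a : E), x⁆ =
      if x ∈ Subgroup.centralizer (A : Set E) then (Fintype.card A : ℤ) else 0 := by
  split_ifs with hx
  · have : ∀ a : A, ⁅(a : E), x⁆ = 1 := fun a => by
      rw [commutatorElement_eq_one_iff_mul_comm]
      exact Subgroup.mem_centralizer_iff.1 hx a a.2
    simp [this, sgn_one]
  · rw [Subgroup.mem_centralizer_iff] at hx
    push Not at hx
    obtain ⟨a₀, ha₀, hax⟩ := hx
    refine QuadPair.sum_sgn_of_ne (fun a : A => sgn ⁅(a : E), x⁆)
      (fun a b => ?_) ⟨a₀, ha₀⟩ (sgn_of_ne ?_)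
    · simp only [Subgroup.coe_mul]
      rw [h.sgn_comm_mul_left]
    · intro h1
      rw [commutatorElement_eq_one_iff_mul_comm] at h1
      exact hax h1

/-- Double counting: `|A| |C(A)| = 2 |E|` when `Z(E) ≤ A`. -/
lemma card_mul_card_centralizer [Finite E] (h : QuadPair E (Subgroup.center E)) (A : Subgroup E)
    (hZA : Subgroup.center E ≤ A) :
    Nat.card A * Nat.card (Subgroup.centralizer (A : Set E)) = 2 * Nat.card E := by
  classical
  letI : Fintype E := Fintype.ofFinite E
  letI : Fintype A := Fintype.ofFinite A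
  have h1 : ∑ a : A, ∑ x : E, sgn ⁅(a : E), x⁆ = ∑ x : E, ∑ a : A, sgn ⁅(a : E), x⁆ :=
    Finset.sum_comm
  simp only [h.sum_sgn_comm, sum_sgn_comm_subgroup h] at h1
  rw [sum_subgroup A (fun a => if a ∈ Subgroup.center E then (Fintype.card E : ℤ) else 0)] at h1
  have h2 : ∀ g : E, (if g ∈ A then (if g ∈ Subgroup.center E then (Fintype.card E : ℤ) else 0) else 0)
      = if g ∈ Subgroup.center E then (Fintype.card E : ℤ) else 0 := by
    intro g
    by_cases hg : g ∈ Subgroup.center E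
    · simp [hg, hZA hg]
    · simp [hg]
  simp only [h2] at h1
  rw [Finset.sum_ite, Finset.sum_ite] at h1
  simp only [Finset.sum_const_zero, add_zero, Finset.sum_const, nsmul_eq_mul] at h1
  have h3 : (Finset.univ.filter (fun g : E => g ∈ Subgroup.center E)).card = 2 := by
    have := h.card_eq
    rw [Nat.card_eq_fintype_card, Fintype.card_subtype] at this
    exact this
  have h4 : (Finset.univ.filter (fun g : E => g ∈ Subgroup.centralizer (A : Set E))).card =
      Nat.card (Subgroup.centralizer (A : Set E)) := by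
    rw [Nat.card_eq_fintype_card, Fintype.card_subtype]
  rw [h3, h4] at h1
  rw [Nat.card_eq_fintype_card (α := A), Nat.card_eq_fintype_card (α := E)]
  have h5 : (Fintype.card A : ℤ) * Nat.card (Subgroup.centralizer (A : Set E)) =
      2 * Fintype.card E := by
    push_cast at h1
    linarith
  exact_mod_cast h5

/-- The Gauss sum is computed on the centralizer of a subgroup of involutions. -/
lemma gaussT_centralizer [Finite E] (h : QuadPair E Z) (A : Subgroup E) (hA : ∀ a ∈ A, a ^ 2 = 1) :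
    gaussT E = gaussT (Subgroup.centralizer (A : Set E)) := by
  classical
  letI : Fintype E := Fintype.ofFinite E
  letI : Fintype A := Fintype.ofFinite A
  rw [gaussT_subgroup, gaussT_eq]
  have hApos : (Fintype.card A : ℤ) ≠ 0 := by
    have : 0 < Fintype.card A := Fintype.card_pos
    positivity
  apply mul_left_cancel₀ hApos
  have h1 : ∑ a : A, ∑ x : E, sgn ((x * (a : E)) ^ 2) = (Fintype.card A : ℤ) * ∑ x : E, sgn (x ^ 2) := by
    have : ∀ a : A, ∑ x : E, sgn ((x * (a : E)) ^ 2) = ∑ x : E, sgn (x ^ 2) := fun a =>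
      Equiv.sum_comp (Equiv.mulRight (a : E)) (fun x => sgn (x ^ 2))
    simp only [this, Finset.sum_const, Finset.card_univ, nsmul_eq_mul]
  rw [← h1]
  have h2 : ∀ (a : A) (x : E), sgn ((x * (a : E)) ^ 2) = sgn ⁅(a : E), x⁆ * sgn (x ^ 2) := by
    intro a x
    rw [h.sgn_sq_mul, hA a a.2, sgn_one, mul_one]
  simp only [h2]
  rw [Finset.sum_comm, Finset.mul_sum]
  refine Finset.sum_congr rfl fun x _ => ?_
  rw [← Finset.sum_mul, sum_sgn_comm_subgroup h]
  split_ifs <;> ring

section Max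

variable [Finite E] (h : QuadPair E (Subgroup.center E))
include h

/-- A maximum elementary abelian subgroup contains every commuting involution. -/
lemma mem_of_max {A : Subgroup E} (hA : Cfsg.IsElementaryAbelian 2 A)
    (hmax : ∀ B : Subgroup E, Cfsg.IsElementaryAbelian 2 B → Nat.card B ≤ Nat.card A)
    {x : E} (hx2 : x ^ 2 = 1) (hxA : ∀ a ∈ A, x * a = a * x) : x ∈ A := by
  have h1 := Cfsg.Agent.Lib.PGroup.Basic.IsElementaryAbelian.sup_zpowers hA hx2 hxA
  have h2 := hmax _ h1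
  have h3 : A = A ⊔ Subgroup.zpowers x := Subgroup.eq_of_le_of_card_ge le_sup_left h2
  rw [h3]
  exact (le_sup_right : Subgroup.zpowers x ≤ _) (Subgroup.mem_zpowers x)

/-- The three-vector lemma: the anisotropic quotient has order at most 4. -/
lemma card_centralizer_le {A : Subgroup E} (hZA : Subgroup.center E ≤ A)
    (hanis : ∀ g ∈ Subgroup.centralizer (A : Set E), g ∉ A → sgn (g ^ 2) = -1) :
    Nat.card (Subgroup.centralizer (A : Set E)) ≤ 4 * Nat.card A := by
  by_contra hlt
  push Not at hlt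
  set W := Subgroup.centralizer (A : Set E) with hW
  have hcomm_mem : ∀ g h' : E, ⁅g, h'⁆ ∈ Subgroup.center E := h.comm_mem
  -- element a
  obtain ⟨a, haW, haA⟩ : ∃ a ∈ W, a ∉ A := by
    by_contra hall
    push Not at hall
    have : W ≤ A := hall
    have h1 := Subgroup.card_le_of_le this
    omega
  have hAW : ∀ g ∈ W, ∀ h' ∈ A, g * h' * g⁻¹ = h' := by
    intro g hg h' hh'
    have := (Subgroup.mem_centralizer_iff.1 hg) h' hh'
    rw [← this]; group
  set A₁ := A ⊔ Subgroup.zpowers a with hA₁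
  have hA_A₁ : A ≤ A₁ := le_sup_left
  have haA₁ : a ∈ A₁ := (le_sup_right : Subgroup.zpowers a ≤ _) (Subgroup.mem_zpowers a)
  have hcard1 : Nat.card A₁ ≤ 2 * Nat.card A := by
    refine card_sup_zpowers_le A a ?_ (hZA (h.sq_mem a))
    intro u hu
    rw [hAW a haW u hu]; exact hu
  obtain ⟨b, hbW, hbA₁⟩ : ∃ b ∈ W, b ∉ A₁ := by
    by_contra hall
    push Not at hall
    have : W ≤ A₁ := hall
    have h1 := Subgroup.card_le_of_le this
    omega
  set A₂ := A₁ ⊔ Subgroup.zpowers b with hA₂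
  have hA₁_A₂ : A₁ ≤ A₂ := le_sup_left
  have hbA₂ : b ∈ A₂ := (le_sup_right : Subgroup.zpowers b ≤ _) (Subgroup.mem_zpowers b)
  have hcard2 : Nat.card A₂ ≤ 2 * Nat.card A₁ := by
    refine card_sup_zpowers_le A₁ b ?_ (hA_A₁ (hZA (h.sq_mem b)))
    intro u hu
    have h1 : b * u * b⁻¹ = ⁅b, u⁆ * u := by rw [commutatorElement_def]; group
    rw [h1]
    exact A₁.mul_mem (hA_A₁ (hZA (h.comm_mem b u))) hu
  obtain ⟨c, hcW, hcA₂⟩ : ∃ c ∈ W, c ∉ A₂ := by
    by_contra hall
    push Not at hall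
    have : W ≤ A₂ := hall
    have h1 := Subgroup.card_le_of_le this
    omega
  -- membership facts
  have hbA : b ∉ A := fun hb => hbA₁ (hA_A₁ hb)
  have hcA : c ∉ A := fun hc => hcA₂ (hA₁_A₂ (hA_A₁ hc))
  have habA : a * b ∉ A := by
    intro hab
    apply hbA₁
    have : b = a⁻¹ * (a * b) := by group
    rw [this]
    exact A₁.mul_mem (A₁.inv_mem haA₁) (hA_A₁ hab)
  have hacA : a * c ∉ A := by
    intro hac
    apply hcA₂
    have : c = a⁻¹ * (a * c) := by group
    rw [this]
    exact A₂.mul_mem (hA₁_A₂ (A₁.inv_mem haA₁)) (hA₁_A₂ (hA_A₁ hac))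
  have hbcA : b * c ∉ A := by
    intro hbc
    apply hcA₂
    have : c = b⁻¹ * (b * c) := by group
    rw [this]
    exact A₂.mul_mem (A₂.inv_mem hbA₂) (hA₁_A₂ (hA_A₁ hbc))
  have habcA : a * b * c ∉ A := by
    intro habc
    apply hcA₂
    have : c = b⁻¹ * a⁻¹ * (a * b * c) := by group
    rw [this]
    exact A₂.mul_mem (A₂.mul_mem (A₂.inv_mem hbA₂) (hA₁_A₂ (A₁.inv_mem haA₁)))
      (hA₁_A₂ (hA_A₁ habc))
  have s1 := hanis a haW haA
  have s2 := hanis b hbW hbA
  have s3 := hanis c hcW hcA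
  have s4 := hanis (a * b) (W.mul_mem haW hbW) habA
  have s5 := hanis (a * c) (W.mul_mem haW hcW) hacA
  have s6 := hanis (b * c) (W.mul_mem hbW hcW) hbcA
  have s7 := hanis (a * b * c) (W.mul_mem (W.mul_mem haW hbW) hcW) habcA
  rw [h.sgn_sq_mul, s1, s2] at s4
  rw [h.sgn_sq_mul, s1, s3] at s5
  rw [h.sgn_sq_mul, s2, s3] at s6
  have h1 : sgn ⁅b, a⁆ = -1 := by linarith
  have h2 : sgn ⁅c, a⁆ = -1 := by linarith
  have h3 : sgn ⁅c, b⁆ = -1 := by linarith
  rw [h.sgn_sq_mul, h.sgn_comm_mul_right, h2, h3, s3, h.sgn_sq_mul, h1, s1, s2] at s7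
  norm_num at s7

open Classical in
/-- The sum over `W = C(A)` in the anisotropic situation. -/
lemma gaussT_eq_of_anisotropic {A : Subgroup E} (hAW : A ≤ Subgroup.centralizer (A : Set E))
    (hA : ∀ a ∈ A, a ^ 2 = 1)
    (hanis : ∀ g ∈ Subgroup.centralizer (A : Set E), g ∉ A → sgn (g ^ 2) = -1) :
    gaussT E = 2 * Nat.card A - Nat.card (Subgroup.centralizer (A : Set E)) := by
  letI : Fintype E := Fintype.ofFinite E
  rw [gaussT_centralizer h A hA, gaussT_subgroup]
  have h1 : ∀ g : E, (if g ∈ Subgroup.centralizer (A : Set E) then sgn (g ^ 2) else 0) =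
      (if g ∈ A then (2:ℤ) else 0) - (if g ∈ Subgroup.centralizer (A : Set E) then (1:ℤ) else 0) := by
    intro g
    by_cases hg : g ∈ A
    · simp [hg, hAW hg, hA g hg, sgn_one]
    · by_cases hg' : g ∈ Subgroup.centralizer (A : Set E)
      · simp only [hg, hg', if_true, if_false, hanis g hg' hg]
        norm_num
      · simp [hg, hg']
  simp only [h1]
  rw [Finset.sum_sub_distrib, Finset.sum_ite, Finset.sum_ite]
  simp only [Finset.sum_const_zero, add_zero, Finset.sum_const, nsmul_eq_mul, mul_one]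
  have h2 : (Finset.univ.filter (fun g : E => g ∈ A)).card = Nat.card A := by
    rw [Nat.card_eq_fintype_card, Fintype.card_subtype]
  have h3 : (Finset.univ.filter (fun g : E => g ∈ Subgroup.centralizer (A : Set E))).card =
      Nat.card (Subgroup.centralizer (A : Set E)) := by
    rw [Nat.card_eq_fintype_card, Fintype.card_subtype]
  rw [h2, h3]
  ring

/-- The main analysis: a maximum elementary abelian subgroup and the sign of the Gauss sum. -/
theorem rank_analysis {m : ℕ} (hcard : Nat.card E = 2 ^ (2 * m + 1)) {A : Subgroup E}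
    (hA : Cfsg.IsElementaryAbelian 2 A)
    (hmax : ∀ B : Subgroup E, Cfsg.IsElementaryAbelian 2 B → Nat.card B ≤ Nat.card A) :
    (Nat.card A = 2 ^ (m + 1) ∧ gaussT E = 2 ^ (m + 1)) ∨
      (Nat.card A = 2 ^ m ∧ gaussT E = -2 ^ (m + 1)) := by
  have hZA : Subgroup.center E ≤ A := by
    intro u hu
    exact mem_of_max h hA hmax (h.sq_eq_one_of_mem hu)
      (fun a _ => (Subgroup.mem_center_iff.1 hu a).symm)
  have hAW : A ≤ Subgroup.centralizer (A : Set E) := by
    intro a ha
    rw [Subgroup.mem_centralizer_iff]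
    intro b hb
    exact (Cfsg.Agent.Lib.PGroup.Basic.isElementaryAbelian_iff.1 hA).1 b hb a ha
  have hanis : ∀ g ∈ Subgroup.centralizer (A : Set E), g ∉ A → sgn (g ^ 2) = -1 := by
    intro g hg hgA
    apply sgn_of_ne
    intro hg2
    exact hgA (mem_of_max h hA hmax hg2 (fun a ha => ((Subgroup.mem_centralizer_iff.1 hg) a ha).symm))
  have h1 := card_mul_card_centralizer h A hZA
  have h2 := card_centralizer_le h hZA hanis
  have h3 := gaussT_eq_of_anisotropic h hAW hA.2 hanis
  have hle := Subgroup.card_le_of_le hAW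
  rw [hcard] at h1
  -- the orders are powers of two
  have hp : 2 ^ (2 * m + 2) = Nat.card A * Nat.card (Subgroup.centralizer (A : Set E)) := by
    rw [h1, pow_succ 2 (2 * m + 1)]; ring
  obtain ⟨a, ha⟩ : ∃ a, Nat.card A = 2 ^ a := by
    have h4 : Nat.card A ∣ 2 ^ (2 * m + 2) := Dvd.intro _ hp.symm
    obtain ⟨a, -, ha⟩ := (Nat.dvd_prime_pow Nat.prime_two).1 h4
    exact ⟨a, ha⟩
  obtain ⟨b, hb⟩ : ∃ b, Nat.card (Subgroup.centralizer (A : Set E)) = 2 ^ b := by
    have h4 : Nat.card (Subgroup.centralizer (A : Set E)) ∣ 2 ^ (2 * m + 2) :=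
      Dvd.intro_left _ hp.symm
    obtain ⟨b, -, hb⟩ := (Nat.dvd_prime_pow Nat.prime_two).1 h4
    exact ⟨b, hb⟩
  rw [ha, hb] at h1 h2 hle
  rw [ha, hb] at h3
  have hab : a + b = 2 * m + 2 := by
    have : (2:ℕ) ^ (a + b) = 2 ^ (2 * m + 2) := by
      rw [pow_add, h1, pow_succ 2 (2 * m + 1)]; ring
    exact Nat.pow_right_injective (le_refl 2) this
  have hableb : a ≤ b := (Nat.pow_le_pow_iff_right (by norm_num)).1 hle
  have hb2 : b ≤ a + 2 := by
    have : (2:ℕ) ^ b ≤ 2 ^ (a + 2) := by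
      rw [pow_add]; omega
    exact (Nat.pow_le_pow_iff_right (by norm_num)).1 this
  rcases (by omega : (a = m + 1 ∧ b = m + 1) ∨ (a = m ∧ b = m + 2)) with ⟨rfl, rfl⟩ | ⟨rfl, rfl⟩
  · left
    refine ⟨ha, ?_⟩
    rw [h3]; push_cast; ring
  · right
    refine ⟨ha, ?_⟩
    rw [h3]; push_cast; ring

end Max

/-- The sign of the Gauss sum and the 2-rank. -/
theorem gauss_pos_iff_not_pRankLE [Finite E] (h : QuadPair E (Subgroup.center E)) {m : ℕ}
    (hcard : Nat.card E = 2 ^ (2 * m + 1)) : 0 < gaussT E ↔ ¬ Cfsg.PRankLE 2 m E := by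
  obtain ⟨A, hA, hmax⟩ := exists_max_elementary E
  have hiff : Cfsg.PRankLE 2 m E ↔ Nat.card A ≤ 2 ^ m := by
    constructor
    · intro hr
      exact hr A hA.1 hA.2
    · intro hle B hB hB2
      exact (hmax B ⟨hB, hB2⟩).trans hle
  rw [hiff]
  rcases rank_analysis h hcard hA hmax with ⟨h1, h2⟩ | ⟨h1, h2⟩
  · rw [h1, h2]
    have h3 : (2:ℕ) ^ m < 2 ^ (m + 1) := Nat.pow_lt_pow_right (by norm_num) (by omega)
    constructor
    · intro _; omega
    · intro _; positivity
  · rw [h1, h2]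
    have h3 : (0:ℤ) < 2 ^ (m + 1) := by positivity
    constructor
    · intro h4; linarith
    · intro h4; exact absurd le_rfl h4

end Cfsg.Agent.Lib.PGroup.ExtraRank
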