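import Mathlib
import Cfsg.Agent.Lib.PGroup.QuatSL23

/-!
# `GL₂(3)` as `SL₂(3)` extended by an outer involution: automorphisms of `SL₂(3)` and recognition
-/

set_option autoImplicit false

namespace Cfsg.Agent.Lib.PGroup.GL23

open Subgroup Cfsg.Agent.Lib.PGroup.QuatSL23

/-- Conjugation by `diag(1,-1)` on `SL₂(3)`. -/
def tau (x : SL23) : SL23 :=
  ⟨!![x.1 0 0, -x.1 0 1; -x.1 1 0, x.1 1 1], by
    rw [Matrix.det_fin_two_of]
    have h := x.2
    rw [Matrix.det_fin_two] at h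
    linear_combination h⟩

def tauHom : SL23 →* SL23 where
  toFun := tau
  map_one' := by decide +kernel
  map_mul' := by decide +kernel

theorem tau_tau : ∀ x : SL23, tau (tau x) = x := by decide +kernel

/-- The automorphisms of `SL₂(3)` on generators. -/
def RelP (a b : SL23) : Prop := a ^ 2 ≠ 1 ∧ a ^ 4 = 1 ∧ b ≠ 1 ∧ b ^ 3 = 1 ∧ (a * b * b) ^ 3 = 1

def ConjP (a b : SL23) : Prop :=
  ∃ u : SL23, (u * i₀ * u⁻¹ = a ∧ u * y₀ * u⁻¹ = b) ∨ (u * tau i₀ * u⁻¹ = a ∧ u * tau y₀ * u⁻¹ = b)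

instance (a b : SL23) : Decidable (RelP a b) := by unfold RelP; infer_instance
instance (a b : SL23) : Decidable (ConjP a b) := by unfold ConjP; infer_instance

theorem aut_table : ∀ a b : SL23, RelP a b → ConjP a b := by
  decide +kernel

theorem gen_table : ∀ x : SL23, ∃ k k' : Fin 4, ∃ l : Fin 3,
    x = i₀ ^ k.val * (y₀ * i₀ * y₀⁻¹) ^ k'.val * y₀ ^ l.val := by
  decide +kernel

theorem closure_gen : Subgroup.closure ({i₀, y₀} : Set SL23) = ⊤ := by
  rw [eq_top_iff]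
  intro x _
  obtain ⟨k, k', l, rfl⟩ := gen_table x
  have hi : i₀ ∈ Subgroup.closure ({i₀, y₀} : Set SL23) := subset_closure (by simp)
  have hy : y₀ ∈ Subgroup.closure ({i₀, y₀} : Set SL23) := subset_closure (by simp)
  exact mul_mem (mul_mem (pow_mem hi _) (pow_mem (mul_mem (mul_mem hy hi) (inv_mem hy)) _)) (pow_mem hy _)

theorem rel_i2 : i₀ ^ 2 ≠ 1 := by decide +kernel
theorem rel_i4 : i₀ ^ 4 = 1 := by decide +kernel
theorem rel_y3 : y₀ ^ 3 = 1 := by decide +kernel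
theorem rel_iy : (i₀ * y₀ * y₀) ^ 3 = 1 := by decide +kernel

/-- Every automorphism of `SL₂(3)` is inner, or inner composed with `tau`. -/
theorem aut_class (α : SL23 ≃* SL23) :
    ∃ u : SL23, (∀ x, α x = u * x * u⁻¹) ∨ (∀ x, α x = u * tau x * u⁻¹) := by
  have h1 : (α i₀) ^ 2 ≠ 1 := by
    rw [← map_pow]
    intro h
    exact rel_i2 (α.injective (by rw [h, map_one]))
  have h2 : (α i₀) ^ 4 = 1 := by rw [← map_pow, rel_i4, map_one]
  have h3 : α y₀ ≠ 1 := by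
    intro h
    exact y₀_ne (α.injective (by rw [h, map_one]))
  have h4 : (α y₀) ^ 3 = 1 := by rw [← map_pow, rel_y3, map_one]
  have h5 : (α i₀ * α y₀ * α y₀) ^ 3 = 1 := by
    rw [← map_mul, ← map_mul, ← map_pow, rel_iy, map_one]
  obtain ⟨u, hu | hu⟩ := aut_table _ _ ⟨h1, h2, h3, h4, h5⟩
  · refine ⟨u, Or.inl ?_⟩
    have hh : (α : SL23 →* SL23) = (MulAut.conj u).toMonoidHom := by
      apply MonoidHom.eq_of_eqOn_dense closure_gen
      rintro x (rfl | rfl)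
      · simpa [MulAut.conj_apply] using hu.1.symm
      · simpa [MulAut.conj_apply] using hu.2.symm
    intro x
    have := congrArg (fun f : SL23 →* SL23 => f x) hh
    simpa [MulAut.conj_apply] using this
  · refine ⟨u, Or.inr ?_⟩
    have hh : (α : SL23 →* SL23) = (MulAut.conj u).toMonoidHom.comp tauHom := by
      apply MonoidHom.eq_of_eqOn_dense closure_gen
      rintro x (rfl | rfl)
      · simpa [MulAut.conj_apply, tauHom] using hu.1.symm
      · simpa [MulAut.conj_apply, tauHom] using hu.2.symm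
    intro x
    have := congrArg (fun f : SL23 →* SL23 => f x) hh
    simpa [MulAut.conj_apply, tauHom] using this

theorem tau_central : ∀ u : SL23, (∀ x : SL23, (tau u)⁻¹ * u⁻¹ * x = x * ((tau u)⁻¹ * u⁻¹)) →
    (tau u)⁻¹ * u⁻¹ = 1 := by decide +kernel

theorem invol_table : ∀ x y : SL23, x ^ 2 = 1 → y ^ 2 = 1 → x ≠ 1 → y ≠ 1 → x = y := by decide +kernel

/-- The outer involution in `GL₂(3)`. -/
def x₀ : GL (Fin 2) (ZMod 3) :=
  ⟨!![1, 0; 0, -1], !![1, 0; 0, -1], by decide +kernel, by decide +kernel⟩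

theorem x₀_sq : x₀ * x₀ = 1 := by decide +kernel

theorem x₀_conj : ∀ x : SL23, x₀ * Matrix.SpecialLinearGroup.toGL x =
    Matrix.SpecialLinearGroup.toGL (tau x) * x₀ := by decide +kernel

theorem x₀_not : ∀ x : SL23, Matrix.SpecialLinearGroup.toGL x * x₀ ≠ 1 := by decide +kernel

theorem card_GL : Nat.card (GL (Fin 2) (ZMod 3)) = 48 := by
  rw [Matrix.card_GL_field, ZMod.card]
  simp [Fin.prod_univ_two]

section recognition

variable {G : Type*} [Group G]

/-- Extension by one of an identification of a subgroup with `SL₂(3)`. -/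
noncomputable def extE (L : Subgroup G) (e : L ≃* SL23) (g : G) : SL23 := by
  classical
  exact if h : g ∈ L then e ⟨g, h⟩ else 1

variable {L : Subgroup G} {e : L ≃* SL23}

theorem extE_of {x : G} (hx : x ∈ L) : extE L e x = e ⟨x, hx⟩ := by
  unfold extE
  exact dif_pos hx

theorem extE_mul {x y : G} (hx : x ∈ L) (hy : y ∈ L) : extE L e (x * y) = extE L e x * extE L e y := by
  rw [extE_of hx, extE_of hy, extE_of (mul_mem hx hy), ← map_mul]
  rfl

theorem extE_one : extE L e 1 = 1 := by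
  rw [extE_of (one_mem L)]
  exact map_one e

theorem extE_inv {x : G} (hx : x ∈ L) : extE L e x⁻¹ = (extE L e x)⁻¹ := by
  rw [extE_of hx, extE_of (inv_mem hx), ← map_inv]
  rfl

theorem extE_inj {x y : G} (hx : x ∈ L) (hy : y ∈ L) (h : extE L e x = extE L e y) : x = y := by
  rw [extE_of hx, extE_of hy] at h
  exact congrArg Subtype.val (e.injective h)

theorem extE_surj (u : SL23) : ∃ x ∈ L, extE L e x = u := by
  refine ⟨(e.symm u : L), (e.symm u).2, ?_⟩
  rw [extE_of (e.symm u).2]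
  simp

/-- Putting an outer involution in normal form. -/
theorem normal_form [Finite G] [hLn : L.Normal] (hC : ∀ c, (∀ x ∈ L, c * x = x * c) → c ∈ L)
    (t₁ : G) (ht₁ : t₁ ∉ L) (ht₁2 : t₁ * t₁ = 1) :
    ∃ t : G, t ∉ L ∧ t * t = 1 ∧ ∀ x ∈ L, extE L e (t * x * t⁻¹) = tau (extE L e x) := by
  let α : SL23 ≃* SL23 := e.symm.trans ((MulAut.conjNormal t₁).trans e)
  have hα : ∀ x ∈ L, α (extE L e x) = extE L e (t₁ * x * t₁⁻¹) := by
    intro x hx
    rw [extE_of hx, extE_of (hLn.conj_mem x hx t₁)]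
    show e (MulAut.conjNormal t₁ (e.symm (e ⟨x, hx⟩))) = _
    rw [MulEquiv.symm_apply_apply]
    congr 1
  obtain ⟨u, hu⟩ := aut_class α
  obtain ⟨l, hl, hlu⟩ := extE_surj (L := L) (e := e) u
  have hconj : ∀ x ∈ L, extE L e (l⁻¹ * t₁ * x * (l⁻¹ * t₁)⁻¹) = u⁻¹ * α (extE L e x) * u := by
    intro x hx
    have h1 : l⁻¹ * t₁ * x * (l⁻¹ * t₁)⁻¹ = l⁻¹ * ((t₁ * x * t₁⁻¹) * l) := by group
    rw [h1, extE_mul (inv_mem hl) (mul_mem (hLn.conj_mem x hx t₁) hl),
      extE_mul (hLn.conj_mem x hx t₁) hl, extE_inv hl, hlu, hα x hx]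
    group
  have hcL : ∀ c, c ∈ L → l * c ∈ L := fun c hc => mul_mem hl hc
  rcases hu with hu | hu
  · exfalso
    apply ht₁
    have h1 : l⁻¹ * t₁ ∈ L := by
      apply hC
      intro x hx
      have h2 : extE L e (l⁻¹ * t₁ * x * (l⁻¹ * t₁)⁻¹) = extE L e x := by
        rw [hconj x hx, hu]
        group
      have h3 : l⁻¹ * t₁ * x * (l⁻¹ * t₁)⁻¹ ∈ L := by
        rw [show l⁻¹ * t₁ * x * (l⁻¹ * t₁)⁻¹ = l⁻¹ * ((t₁ * x * t₁⁻¹) * l) by group]
        exact mul_mem (inv_mem hl) (mul_mem (hLn.conj_mem x hx t₁) hl)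
      have h4 := extE_inj h3 hx h2
      calc l⁻¹ * t₁ * x = (l⁻¹ * t₁ * x * (l⁻¹ * t₁)⁻¹) * (l⁻¹ * t₁) := by group
        _ = x * (l⁻¹ * t₁) := by rw [h4]
    have h5 := mul_mem hl h1
    simpa using h5
  · have htL : l⁻¹ * t₁ ∉ L := by
      intro h
      apply ht₁
      have h5 := mul_mem hl h
      simpa using h5
    have hcL2 : ∀ x ∈ L, l⁻¹ * t₁ * x * (l⁻¹ * t₁)⁻¹ ∈ L := fun x hx => hLn.conj_mem x hx _
    have hact : ∀ x ∈ L, extE L e (l⁻¹ * t₁ * x * (l⁻¹ * t₁)⁻¹) = tau (extE L e x) := by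
      intro x hx
      rw [hconj x hx, hu]
      group
    refine ⟨l⁻¹ * t₁, htL, ?_, hact⟩
    -- the square
    have hsq : l⁻¹ * t₁ * (l⁻¹ * t₁) = l⁻¹ * (t₁ * l⁻¹ * t₁⁻¹) := by
      have h1 : t₁⁻¹ = t₁ := inv_eq_of_mul_eq_one_left ht₁2
      rw [h1]
      group
    have hsqL : l⁻¹ * t₁ * (l⁻¹ * t₁) ∈ L := by
      rw [hsq]
      exact mul_mem (inv_mem hl) (hLn.conj_mem _ (inv_mem hl) _)
    have hw : extE L e (l⁻¹ * t₁ * (l⁻¹ * t₁)) = (tau u)⁻¹ * u⁻¹ := by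
      rw [hsq, extE_mul (inv_mem hl) (hLn.conj_mem _ (inv_mem hl) _), ← hα _ (inv_mem hl),
        extE_inv hl, hlu, hu]
      have h2 : tau u⁻¹ = (tau u)⁻¹ := map_inv tauHom u
      rw [h2]
      group
    have hcentral : ∀ v : SL23, (tau u)⁻¹ * u⁻¹ * v = v * ((tau u)⁻¹ * u⁻¹) := by
      intro v
      obtain ⟨x, hx, rfl⟩ := extE_surj (L := L) (e := e) v
      rw [← hw, ← extE_mul hsqL hx, ← extE_mul hx hsqL]
      congr 1
      have h1 := hact _ (hcL2 x hx)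
      rw [hact x hx, tau_tau] at h1
      have h3 := extE_inj (hcL2 _ (hcL2 x hx)) hx h1
      calc l⁻¹ * t₁ * (l⁻¹ * t₁) * x
          = (l⁻¹ * t₁ * (l⁻¹ * t₁ * x * (l⁻¹ * t₁)⁻¹) * (l⁻¹ * t₁)⁻¹) * (l⁻¹ * t₁ * (l⁻¹ * t₁)) := by
            group
        _ = x * (l⁻¹ * t₁ * (l⁻¹ * t₁)) := by rw [h3]
    have h1 := tau_central u hcentral
    rw [h1, ← extE_one (L := L) (e := e)] at hw
    exact extE_inj hsqL (one_mem L) hw

/-- Recognition of `GL₂(3)`. -/
theorem gl_of_data [Finite G] (hmul : ∀ x, x ∉ L → ∀ y, y ∉ L → x * y ∈ L)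
    (t : G) (ht : t ∉ L) (ht2 : t * t = 1) (hL : ∀ x ∈ L, t * x * t⁻¹ ∈ L)
    (hact : ∀ x ∈ L, extE L e (t * x * t⁻¹) = tau (extE L e x))
    (hcard : Nat.card G = 48) : Nonempty (G ≃* GL (Fin 2) (ZMod 3)) := by
  classical
  let ι := (Matrix.SpecialLinearGroup.toGL : SL23 →* GL (Fin 2) (ZMod 3))
  let Ψ : G → GL (Fin 2) (ZMod 3) := fun g =>
    if g ∈ L then ι (extE L e g) else ι (extE L e (g * t)) * x₀
  have hΨ1 : ∀ g, g ∈ L → Ψ g = ι (extE L e g) := fun g hg => if_pos hg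
  have hΨ2 : ∀ g, g ∉ L → Ψ g = ι (extE L e (g * t)) * x₀ := fun g hg => if_neg hg
  have hinvt : t⁻¹ = t := inv_eq_of_mul_eq_one_left ht2
  have hm1 : ∀ x ∈ L, ∀ y, y ∉ L → x * y ∉ L := by
    intro x hx y hy h
    apply hy
    have := mul_mem (inv_mem hx) h
    simpa using this
  have hm2 : ∀ x, x ∉ L → ∀ y ∈ L, x * y ∉ L := by
    intro x hx y hy h
    apply hx
    have := mul_mem h (inv_mem hy)
    simpa using this
  have hconjι : ∀ x ∈ L, x₀ * ι (extE L e x) = ι (extE L e (t * x * t⁻¹)) * x₀ := by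
    intro x hx
    rw [hact x hx]
    exact x₀_conj _
  have hmulΨ : ∀ g h, Ψ (g * h) = Ψ g * Ψ h := by
    intro g h
    by_cases hg : g ∈ L <;> by_cases hh : h ∈ L
    · rw [hΨ1 _ (mul_mem hg hh), hΨ1 _ hg, hΨ1 _ hh, extE_mul hg hh, map_mul]
    · rw [hΨ2 _ (hm1 g hg h hh), hΨ1 _ hg, hΨ2 _ hh, mul_assoc g, extE_mul hg (hmul h hh t ht),
        map_mul, mul_assoc]
    · rw [hΨ2 _ (hm2 g hg h hh), hΨ2 _ hg, hΨ1 _ hh, mul_assoc (ι _), hconjι h hh, ← mul_assoc,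
        ← map_mul, ← extE_mul (hmul g hg t ht) (hL h hh)]
      congr 3
      rw [hinvt]
      calc g * h * t = g * 1 * h * t := by group
        _ = g * (t * t) * h * t := by rw [ht2]
        _ = g * t * (t * h * t) := by group
    · rw [hΨ1 _ (hmul g hg h hh), hΨ2 _ hg, hΨ2 _ hh]
      have h1 : x₀ * (ι (extE L e (h * t)) * x₀) = ι (extE L e (t * (h * t) * t⁻¹)) := by
        rw [← mul_assoc, hconjι _ (hmul h hh t ht), mul_assoc, x₀_sq, mul_one]
      rw [mul_assoc (ι _), h1, ← map_mul, ← extE_mul (hmul g hg t ht) (hL _ (hmul h hh t ht))]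
      congr 2
      rw [hinvt]
      calc g * h = g * 1 * h * 1 := by group
        _ = g * (t * t) * h * (t * t) := by rw [ht2]
        _ = g * t * (t * (h * t) * t) := by group
  let Ψh : G →* GL (Fin 2) (ZMod 3) := MonoidHom.mk' Ψ hmulΨ
  have hinj : Function.Injective Ψh := by
    rw [injective_iff_map_eq_one]
    intro g hg
    have hg' : Ψ g = 1 := hg
    by_cases hgL : g ∈ L
    · rw [hΨ1 _ hgL] at hg'
      have h1 : extE L e g = 1 :=
        Matrix.SpecialLinearGroup.toGL_injective (by rw [map_one]; exact hg')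
      rw [← extE_one (L := L) (e := e)] at h1
      exact extE_inj hgL (one_mem L) h1
    · rw [hΨ2 _ hgL] at hg'
      exact absurd hg' (x₀_not _)
  have hbij : Function.Bijective Ψh :=
    (Nat.bijective_iff_injective_and_card Ψh).2 ⟨hinj, by rw [hcard, card_GL]⟩
  exact ⟨MulEquiv.ofBijective Ψh hbij⟩

end recognition

end Cfsg.Agent.Lib.PGroup.GL23
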