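import Mathlib
import Cfsg.Agent.Lib.PGroup.QdControl
import Cfsg.Agent.Lib.PGroup.GTFunctor

/-!
# Control of strong fusion for an abstract characteristic operator and for selection functors
-/

namespace Cfsg.Agent.Lib.PGroup.GenControl

open Subgroup Cfsg.Agent.Lib.PGroup.ZJ Cfsg.Agent.Lib.PGroup.ZJCore Cfsg.Agent.Lib.PGroup.ZJControl
open Cfsg.Agent.Lib.PGroup.QdControl Cfsg.Agent.Lib.PGroup.GTFunctor
open Cfsg.Agent.Lib.PGroup.Replacement (mem_normalizer_of_conj_mem card_lt_of_lt)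
open Cfsg.Agent.Lib.Components.PConstrained Cfsg.Agent.Lib.Basic.PCore
open scoped commutatorElement Pointwise

universe u

section Abstract

variable {G : Type*} [Group G] [Finite G] {p : ℕ} [Fact p.Prime]

/-- An operator on subgroups with `Z R ≤ R`, stable under elements normalizing `R`. -/
structure CharOp (Z : Subgroup G → Subgroup G) : Prop where
  le : ∀ R, Z R ≤ R
  conj : ∀ (g : G) (R : Subgroup G), (∀ x ∈ R, g * x * g⁻¹ ∈ R) → ∀ x ∈ Z R, g * x * g⁻¹ ∈ Z R

/-- The second induction. -/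
theorem E_claimF (S : Sylow p G) {Z : Subgroup G → Subgroup G} (hZ : CharOp Z)
    (F : Subgroup G → Prop)
    (hfam : ∀ Q : Subgroup G, Q ≤ (S : Subgroup G) → ∀ u : G,
      F ((Z ((S : Subgroup G) ⊓ normalizer (Q : Set G))).map (MulAut.conj u).toMonoidHom))
    (hloc : ∀ Q : Subgroup G, Q ≤ (S : Subgroup G) → Q ≠ ⊥ → F Q → FN S Q →
      ∀ y ∈ normalizer (Q : Set G), ∀ B : Subgroup G,
        B ≤ (S : Subgroup G) ⊓ normalizer (Q : Set G) →
        (∀ b ∈ B, y * b * y⁻¹ ∈ (S : Subgroup G) ⊓ normalizer (Q : Set G)) →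
        ∃ y₁ ∈ normalizer (Z ((S : Subgroup G) ⊓ normalizer (Q : Set G)) : Set G),
          ∀ b ∈ B, y * b * y⁻¹ = y₁ * b * y₁⁻¹)
    (hne : ∀ Q : Subgroup G, Q ≤ (S : Subgroup G) →
      Z ((S : Subgroup G) ⊓ normalizer (Q : Set G)) ≠ ⊥)
    (m : ℕ)
    (IH : ∀ B' : Subgroup G, B' ≤ (S : Subgroup G) → m < Nat.card B' → ∀ g : G,
      (∀ b ∈ B', g * b * g⁻¹ ∈ (S : Subgroup G)) → Good (normalizer (Z (S : Subgroup G) : Set G)) g B') :
    ∀ (n : ℕ) (Q : Subgroup G) (y : G) (B : Subgroup G),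
      Nat.card (S : Subgroup G) - Nat.card ((S : Subgroup G) ⊓ normalizer (Q : Set G) : Subgroup G) = n →
      Q ≤ (S : Subgroup G) → Q ≠ ⊥ → F Q → FN S Q → y ∈ normalizer (Q : Set G) →
      B ≤ (S : Subgroup G) ⊓ normalizer (Q : Set G) → Nat.card B = m →
      (∀ b ∈ B, y * b * y⁻¹ ∈ (S : Subgroup G) ⊓ normalizer (Q : Set G)) →
      Good (normalizer (Z (S : Subgroup G) : Set G)) y B := by
  intro n
  induction n using Nat.strong_induction_on with
  | _ n IHn =>
    intro Q y B hn hQS hQ1 hFQ hFN hy hB hBm hyB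
    obtain ⟨y₁, hy₁, hy₁e⟩ := hloc Q hQS hQ1 hFQ hFN y hy B hB hyB
    set T := (S : Subgroup G) ⊓ normalizer (Q : Set G) with hT
    by_cases hTS : T = (S : Subgroup G)
    · refine ⟨y₁, ?_, hy₁e⟩
      rw [hTS] at hy₁
      exact hy₁
    · have hTlt : T < (S : Subgroup G) := lt_of_le_of_ne inf_le_left hTS
      set V := Z T with hV
      have hVne : V ≠ ⊥ := hne Q hQS
      have hVT : V ≤ T := hZ.le _
      -- elements of `S` normalizing `T` normalize `V`
      have hnormV : ∀ s ∈ (S : Subgroup G), s ∈ normalizer (T : Set G) → s ∈ normalizer (V : Set G) := by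
        intro s hs hsT
        apply mem_normalizer_of_conj_mem
        intro x hx
        exact hZ.conj s T (fun x hx => (mem_normalizer_iff.mp hsT x).mp hx) x hx
      set M := (S : Subgroup G) ⊓ normalizer (V : Set G) with hM
      have hTM : T ≤ M := fun t ht =>
        Subgroup.mem_inf.mpr ⟨ht.1, hnormV t ht.1 (Subgroup.le_normalizer ht)⟩
      have hTMlt : T < M := by
        obtain ⟨x, hxS, hxT, hxN⟩ := Cfsg.Agent.Lib.PGroup.Basic.exists_mem_normalizer_of_lt
          (S.isPGroup') hTlt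
        exact lt_of_le_of_ne hTM (fun h => hxT (h ▸ (Subgroup.mem_inf.mpr ⟨hxS, hnormV x hxS hxN⟩)))
      have hcTM := card_lt_of_lt hTMlt
      obtain ⟨u, hu, hFN'⟩ := exists_FN_conj (Q := V) S
      set V' := V.map (MulAut.conj u).toMonoidHom with hV'
      have hV'S : V' ≤ (S : Subgroup G) := by
        rintro _ ⟨v, hv, rfl⟩
        exact hu v (hTM (hVT hv))
      have hV'ne : V' ≠ ⊥ := by
        intro h
        apply hVne
        rwa [hV', Subgroup.map_eq_bot_iff_of_injective _ (MulAut.conj u).injective] at h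
      set T'' := (S : Subgroup G) ⊓ normalizer (V' : Set G) with hT''
      have hMT'' : M.map (MulAut.conj u).toMonoidHom ≤ T'' := by
        rintro _ ⟨x, hx, rfl⟩
        exact Subgroup.mem_inf.mpr ⟨hu x hx, mem_normalizer_map_conj u hx.2⟩
      have hcard : Nat.card M ≤ Nat.card T'' := by
        rw [← card_map_conj u M]
        exact Subgroup.card_le_of_le hMT''
      have hT''S : Nat.card T'' ≤ Nat.card (S : Subgroup G) := Subgroup.card_le_of_le inf_le_left
      have hmM : m < Nat.card M := by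
        rw [← hBm]
        exact lt_of_le_of_lt (Subgroup.card_le_of_le hB) hcTM
      obtain ⟨xu, hxu, hxue⟩ := IH M inf_le_left hmM u hu
      set y' := u * y₁ * u⁻¹ with hy'
      set B' := B.map (MulAut.conj u).toMonoidHom with hB'
      have hy'N : y' ∈ normalizer (V' : Set G) := mem_normalizer_map_conj u hy₁
      have hB'T : B' ≤ T'' := by
        rintro _ ⟨b, hb, rfl⟩
        exact hMT'' ⟨b, hTM (hB hb), rfl⟩
      have hB'm : Nat.card B' = m := by rw [hB', card_map_conj, hBm]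
      have hy'B : ∀ c ∈ B', y' * c * y'⁻¹ ∈ T'' := by
        rintro _ ⟨b, hb, rfl⟩
        have h1 : y' * ((MulAut.conj u).toMonoidHom b) * y'⁻¹ = u * (y * b * y⁻¹) * u⁻¹ := by
          rw [hy₁e b hb, hy']
          simp only [MulEquiv.coe_toMonoidHom, MulAut.conj_apply]
          group
        rw [h1]
        exact hMT'' ⟨_, hTM (hyB b hb), rfl⟩
      have hn' : Nat.card (S : Subgroup G) - Nat.card T'' < n := by
        have h2 : Nat.card T < Nat.card (S : Subgroup G) := card_lt_of_lt hTlt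
        omega
      obtain ⟨x₂, hx₂, hx₂e⟩ := IHn _ hn' V' y' B' rfl hV'S hV'ne (hfam Q hQS u) hFN' hy'N hB'T hB'm hy'B
      refine ⟨xu⁻¹ * x₂ * xu, mul_mem (mul_mem (inv_mem hxu) hx₂) hxu, ?_⟩
      intro b hb
      have h1 := hxue b (hTM (hB hb))
      have h2 := hxue (y * b * y⁻¹) (hTM (hyB b hb))
      have h3 := hx₂e ((MulAut.conj u).toMonoidHom b) ⟨b, hb, rfl⟩
      have h4 : (MulAut.conj u).toMonoidHom b = xu * b * xu⁻¹ := by
        rw [← h1]; rfl
      rw [h4] at h3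
      have h5 : y' * (xu * b * xu⁻¹) * y'⁻¹ = u * (y * b * y⁻¹) * u⁻¹ := by
        rw [← h4, hy₁e b hb, hy']
        simp only [MulEquiv.coe_toMonoidHom, MulAut.conj_apply]
        group
      rw [h5, h2] at h3
      -- `xu d xu⁻¹ = x₂ xu b xu⁻¹ x₂⁻¹`
      have h6 : y * b * y⁻¹ = xu⁻¹ * (xu * (y * b * y⁻¹) * xu⁻¹) * xu := by group
      rw [h6, h3]
      group

/-- The main induction. -/
theorem control_mainF (S : Sylow p G) {Z : Subgroup G → Subgroup G} (hZ : CharOp Z)
    (F : Subgroup G → Prop)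
    (hfam : ∀ Q : Subgroup G, Q ≤ (S : Subgroup G) → ∀ u : G,
      F ((Z ((S : Subgroup G) ⊓ normalizer (Q : Set G))).map (MulAut.conj u).toMonoidHom))
    (hloc : ∀ Q : Subgroup G, Q ≤ (S : Subgroup G) → Q ≠ ⊥ → F Q → FN S Q →
      ∀ y ∈ normalizer (Q : Set G), ∀ B : Subgroup G,
        B ≤ (S : Subgroup G) ⊓ normalizer (Q : Set G) →
        (∀ b ∈ B, y * b * y⁻¹ ∈ (S : Subgroup G) ⊓ normalizer (Q : Set G)) →
        ∃ y₁ ∈ normalizer (Z ((S : Subgroup G) ⊓ normalizer (Q : Set G)) : Set G),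
          ∀ b ∈ B, y * b * y⁻¹ = y₁ * b * y₁⁻¹)
    (hne : ∀ Q : Subgroup G, Q ≤ (S : Subgroup G) →
      Z ((S : Subgroup G) ⊓ normalizer (Q : Set G)) ≠ ⊥)
    (hby : ∀ Q : Subgroup G, Q ≤ (S : Subgroup G) → Q ≠ ⊥ → ¬ F Q → FN S Q →
      ∀ y ∈ normalizer (Q : Set G),
      (∀ B' : Subgroup G, B' ≤ (S : Subgroup G) → Nat.card Q < Nat.card B' → ∀ g : G,
        (∀ b ∈ B', g * b * g⁻¹ ∈ (S : Subgroup G)) → Good (normalizer (Z (S : Subgroup G) : Set G)) g B') →
      Good (normalizer (Z (S : Subgroup G) : Set G)) y Q) :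
    ∀ (n : ℕ) (B : Subgroup G) (g : G), Nat.card (S : Subgroup G) - Nat.card B = n →
      B ≤ (S : Subgroup G) → (∀ b ∈ B, g * b * g⁻¹ ∈ (S : Subgroup G)) →
      Good (normalizer (Z (S : Subgroup G) : Set G)) g B := by
  intro n
  induction n using Nat.strong_induction_on with
  | _ n IHn =>
    intro B g hn hBS hgB
    set X := normalizer (Z (S : Subgroup G) : Set G) with hX
    by_cases hB1 : B = ⊥
    · refine ⟨1, one_mem _, ?_⟩
      intro b hb
      rw [hB1, Subgroup.mem_bot] at hb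
      simp [hb]
    by_cases hBeq : B = (S : Subgroup G)
    · -- `g` normalizes `S`, hence `Z (S : Subgroup G)`.
      refine ⟨g, ?_, fun _ _ => rfl⟩
      apply mem_normalizer_of_conj_mem
      intro x hx
      refine hZ.conj g _ (fun d hd => ?_) x hx
      have hdB : d ∈ B := by rw [hBeq]; exact hd
      exact hgB d hdB
    have hBlt : B < (S : Subgroup G) := lt_of_le_of_ne hBS hBeq
    have hBcard := card_lt_of_lt hBlt
    -- the induction hypothesis in usable form
    have IH : ∀ B' : Subgroup G, B' ≤ (S : Subgroup G) → Nat.card B < Nat.card B' → ∀ g' : G,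
        (∀ b ∈ B', g' * b * g'⁻¹ ∈ (S : Subgroup G)) → Good X g' B' := by
      intro B' hB' hc g' hg'
      have h2 : Nat.card B' ≤ Nat.card (S : Subgroup G) := Subgroup.card_le_of_le hB'
      exact IHn _ (by omega) B' g' rfl hB' hg'
    have hlt_norm : ∀ C : Subgroup G, C ≤ (S : Subgroup G) → Nat.card C = Nat.card B →
        C < (S : Subgroup G) ⊓ normalizer (C : Set G) := by
      intro C hC hcC
      have hClt : C < (S : Subgroup G) := by
        refine lt_of_le_of_ne hC ?_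
        intro h
        rw [h] at hcC
        omega
      obtain ⟨x, hxS, hxC, hxN⟩ := Cfsg.Agent.Lib.PGroup.Basic.exists_mem_normalizer_of_lt
          (S.isPGroup') hClt
      refine lt_of_le_of_ne (le_inf hC Subgroup.le_normalizer) ?_
      intro h
      exact hxC (h ▸ (Subgroup.mem_inf.mpr ⟨hxS, hxN⟩))
    -- Step 1
    set B₁ := B.map (MulAut.conj g).toMonoidHom with hB₁
    have hB₁S : B₁ ≤ (S : Subgroup G) := by
      rintro _ ⟨b, hb, rfl⟩
      exact hgB b hb
    have hB₁c : Nat.card B₁ = Nat.card B := card_map_conj g B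
    obtain ⟨u, hu, hFN⟩ := exists_FN_conj (Q := B₁) S
    have hM₁ := hlt_norm B₁ hB₁S hB₁c
    obtain ⟨xu, hxu, hxue⟩ := IH _ inf_le_left (by rw [← hB₁c]; exact card_lt_of_lt hM₁) u hu
    set B₂ := B₁.map (MulAut.conj u).toMonoidHom with hB₂
    have hB₂S : B₂ ≤ (S : Subgroup G) := by
      rintro _ ⟨c, hc, rfl⟩
      exact hu c (hM₁.le hc)
    have hB₂c : Nat.card B₂ = Nat.card B := by rw [hB₂, card_map_conj, hB₁c]
    have hB₂ne : B₂ ≠ ⊥ := by
      intro h
      rw [hB₂, Subgroup.map_eq_bot_iff_of_injective _ (MulAut.conj u).injective, hB₁,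
        Subgroup.map_eq_bot_iff_of_injective _ (MulAut.conj g).injective] at h
      exact hB1 h
    -- Step 2
    set g₂ := u * g with hg₂
    have hg₂b : ∀ b ∈ B, g₂ * b * g₂⁻¹ ∈ B₂ := by
      intro b hb
      refine ⟨g * b * g⁻¹, ⟨b, hb, rfl⟩, ?_⟩
      simp only [MulEquiv.coe_toMonoidHom, MulAut.conj_apply, hg₂]
      group
    have hM₀ := hlt_norm B hBS rfl
    set M₀ := (S : Subgroup G) ⊓ normalizer (B : Set G) with hM₀def
    set U := M₀.map (MulAut.conj g₂).toMonoidHom with hU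
    have hB₂map : B₂ = B.map (MulAut.conj g₂).toMonoidHom := by
      rw [hB₂, hB₁, Subgroup.map_map]
      congr 1
      ext x
      simp [hg₂, MulAut.conj_apply, mul_assoc]
    have hUN : U ≤ normalizer (B₂ : Set G) := by
      rintro _ ⟨x, hx, rfl⟩
      rw [hB₂map]
      exact mem_normalizer_map_conj g₂ hx.2
    have hUp : IsPGroup p U := ((S.isPGroup').to_le inf_le_left).map _
    obtain ⟨l, hl, hlU⟩ := exists_conj_into hFN hUN hUp
    have hlg : ∀ x ∈ M₀, (l * g₂) * x * (l * g₂)⁻¹ ∈ (S : Subgroup G) := by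
      intro x hx
      have h1 := (hlU _ ⟨x, hx, rfl⟩).1
      have h2 : l * (MulAut.conj g₂).toMonoidHom x * l⁻¹ = (l * g₂) * x * (l * g₂)⁻¹ := by
        simp only [MulEquiv.coe_toMonoidHom, MulAut.conj_apply]; group
      rwa [h2] at h1
    obtain ⟨x₁, hx₁, hx₁e⟩ := IH M₀ inf_le_left (card_lt_of_lt hM₀) _ hlg
    -- Step 3
    have hlinv : l⁻¹ ∈ normalizer (B₂ : Set G) := inv_mem hl
    have hB₂T : B₂ ≤ (S : Subgroup G) ⊓ normalizer (B₂ : Set G) := le_inf hB₂S Subgroup.le_normalizer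
    have hl2 : ∀ c ∈ B₂, l⁻¹ * c * l⁻¹⁻¹ ∈ (S : Subgroup G) ⊓ normalizer (B₂ : Set G) := by
      intro c hc
      exact hB₂T ((mem_normalizer_iff.mp hlinv c).mp hc)
    obtain ⟨x₂, hx₂, hx₂e⟩ : Good X l⁻¹ B₂ := by
      by_cases hFB : F B₂
      · exact E_claimF S hZ F hfam hloc hne (Nat.card B) IH _ B₂ l⁻¹ B₂ rfl hB₂S hB₂ne hFB hFN
          hlinv hB₂T hB₂c hl2
      · refine hby B₂ hB₂S hB₂ne hFB hFN l⁻¹ hlinv ?_
        intro B' hB' hc g' hg'
        rw [hB₂c] at hc
        exact IH B' hB' hc g' hg'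
    refine ⟨xu⁻¹ * x₂ * x₁, mul_mem (mul_mem (inv_mem hxu) hx₂) hx₁, ?_⟩
    intro b hb
    have h1 := hx₁e b (hM₀.le hb)
    have hc : (l * g₂) * b * (l * g₂)⁻¹ ∈ B₂ := by
      have h2 : (l * g₂) * b * (l * g₂)⁻¹ = l * (g₂ * b * g₂⁻¹) * l⁻¹ := by group
      rw [h2]
      exact (mem_normalizer_iff.mp hl _).mp (hg₂b b hb)
    have h3 := hx₂e _ hc
    have h4 : l⁻¹ * ((l * g₂) * b * (l * g₂)⁻¹) * l⁻¹⁻¹ = g₂ * b * g₂⁻¹ := by group
    rw [h4, h1] at h3
    have hgb : g * b * g⁻¹ ∈ B₁ := ⟨b, hb, rfl⟩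
    have h5 := hxue _ (hM₁.le hgb)
    have h6 : u * (g * b * g⁻¹) * u⁻¹ = g₂ * b * g₂⁻¹ := by
      rw [hg₂]; group
    rw [h6, h3] at h5
    have h7 : g * b * g⁻¹ = xu⁻¹ * (xu * (g * b * g⁻¹) * xu⁻¹) * xu := by group
    rw [h7, ← h5]
    group


end Abstract

section Generic

variable {p : ℕ} [Fact p.Prime]

/-- The control property for a selection functor `W`. -/
def QCW (p : ℕ) [Fact p.Prime] (W : ∀ (G : Type u) [Group G], Subgroup G → Subgroup G)
    (G : Type u) [Group G] : Prop :=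
  ∀ (S : Sylow p G) (B : Subgroup G) (g : G), B ≤ (S : Subgroup G) →
    (∀ b ∈ B, g * b * g⁻¹ ∈ (S : Subgroup G)) →
    Good (normalizer (W G (S : Subgroup G) : Set G)) g B

variable {G : Type u} [Group G] [Finite G] {W : ∀ (G : Type u) [Group G], Subgroup G → Subgroup G}
  (hW : SelFun.{u} p W)

include hW

/-- Transfer from a subgroup. -/
theorem good_of_subgroupW (L : Subgroup G) (hL : QCW p W ↥L) (T : Sylow p ↥L) {y : G} (hy : y ∈ L)
    {B : Subgroup G} (hB : B ≤ (T : Subgroup L).map L.subtype)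
    (hyB : ∀ b ∈ B, y * b * y⁻¹ ∈ (T : Subgroup L).map L.subtype) :
    ∃ x ∈ L, x ∈ normalizer (W G ((T : Subgroup L).map L.subtype) : Set G) ∧
      ∀ b ∈ B, y * b * y⁻¹ = x * b * x⁻¹ := by
  have hBL : B ≤ L := hB.trans (Subgroup.map_subtype_le _)
  have hmem : ∀ x : L, (x : G) ∈ (T : Subgroup L).map L.subtype → x ∈ (T : Subgroup L) := by
    rintro x ⟨x', hx', hxe⟩
    have : x' = x := Subtype.ext hxe
    rwa [← this]
  obtain ⟨x, hx, e⟩ := hL T (B.subgroupOf L) ⟨y, hy⟩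
    (fun b hb => hmem b (hB hb))
    (fun b hb => hmem _ (hyB b hb))
  have hZ := hW.map ↥L G L.subtype (T : Subgroup L) (fun x _ h => Subtype.ext h)
  refine ⟨x, x.2, ?_, ?_⟩
  · rw [← hZ]
    apply mem_normalizer_of_conj_mem
    rintro _ ⟨z, hz, rfl⟩
    exact ⟨x * z * x⁻¹, (mem_normalizer_iff.mp hx z).mp hz, rfl⟩
  · intro b hb
    exact congrArg Subtype.val (e ⟨b, hBL hb⟩ hb)


/-- Transfer from a subgroup containing the Sylow subgroup. -/
theorem good_of_leW (S : Sylow p G) {L : Subgroup G} (h : (S : Subgroup G) ≤ L) (hL : QCW p W ↥L)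
    {y : G} (hy : y ∈ L) {B : Subgroup G} (hB : B ≤ (S : Subgroup G))
    (hyB : ∀ b ∈ B, y * b * y⁻¹ ∈ (S : Subgroup G)) :
    Good (normalizer (W G (S : Subgroup G) : Set G)) y B := by
  have hm := map_sylow_subtype S h
  obtain ⟨x, -, hx, e⟩ := good_of_subgroupW hW L hL (S.subtype h) hy (B := B) (by rw [hm]; exact hB)
    (by rw [hm]; exact hyB)
  rw [hm] at hx
  exact ⟨x, hx, e⟩

/-- The Sylow subgroup normalizes `W S`. -/
theorem sylow_le_normalizerW (S : Sylow p G) :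
    (S : Subgroup G) ≤ normalizer (W G (S : Subgroup G) : Set G) := fun s hs =>
  mem_normalizer_of_conj_mem fun _ hx =>
    hW.conj_mem (fun _ hy => mul_mem (mul_mem hs hy) (inv_mem hs)) hx

/-- An element normalizing `S` normalizes `W S`. -/
theorem normalizer_le_normalizerW (S : Sylow p G) {g : G} (hg : ∀ s ∈ (S : Subgroup G), g * s * g⁻¹ ∈ (S : Subgroup G)) :
    g ∈ normalizer (W G (S : Subgroup G) : Set G) :=
  mem_normalizer_of_conj_mem fun _ hx => hW.conj_mem hg hx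


/-- The induction step modulo `O_{p'}(G)`. -/
theorem good_of_coreW (hQ : QCW p W (G ⧸ Cfsg.pPrimeCore p G)) (S : Sylow p G) (B : Subgroup G) (g : G)
    (hB : B ≤ (S : Subgroup G)) (hgB : ∀ b ∈ B, g * b * g⁻¹ ∈ (S : Subgroup G)) :
    Good (normalizer (W G (S : Subgroup G) : Set G)) g B := by
  set O := Cfsg.pPrimeCore p G with hO
  set φ := QuotientGroup.mk' O with hφ
  have hφs : Function.Surjective φ := QuotientGroup.mk'_surjective _
  have hSp : IsPGroup p (S : Subgroup G) := S.isPGroup'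
  let S' : Sylow p (G ⧸ O) := S.mapSurjective hφs
  have hS' : (S' : Subgroup _) = (S : Subgroup G).map φ := rfl
  have hinj := hinj_core hSp
  set Z := W G (S : Subgroup G) with hZ
  have hZS : Z ≤ (S : Subgroup G) := hW.le _ _
  have hZp : IsPGroup p Z := hSp.to_le hZS
  have hZm : Z.map φ = W (G ⧸ O) (S' : Subgroup _) := by
    rw [hS']; exact hW.map G (G ⧸ O) φ _ hinj
  obtain ⟨x', hx', e'⟩ := hQ S' (B.map φ) (φ g) (Subgroup.map_mono hB) (by
    rintro _ ⟨b, hb, rfl⟩
    rw [hS']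
    exact ⟨g * b * g⁻¹, hgB b hb, by simp only [map_mul, map_inv]⟩)
  obtain ⟨x, rfl⟩ := hφs x'
  -- correct `x` into `N(Z)`
  have hZN : Z ≤ normalizer (O : Set G) := by
    rw [Subgroup.normalizer_eq_top_iff.mpr inferInstance]; exact le_top
  have hleZ : Z.map (MulAut.conj x).toMonoidHom ≤ O ⊔ Z := by
    rintro _ ⟨z, hz, rfl⟩
    have h1 : φ x * φ z * (φ x)⁻¹ ∈ Z.map φ := by
      rw [hZm]
      refine (mem_normalizer_iff.mp hx' _).mp ?_
      rw [← hZm]
      exact ⟨z, hz, rfl⟩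
    obtain ⟨w, hw, hwe⟩ := h1
    have h2 : (MulAut.conj x).toMonoidHom z = (x * z * x⁻¹ * w⁻¹) * w := by
      simp only [MulEquiv.coe_toMonoidHom, MulAut.conj_apply]; group
    rw [h2]
    refine Subgroup.mul_mem_sup ?_ hw
    rw [← QuotientGroup.ker_mk' O, MonoidHom.mem_ker, map_mul, map_mul, map_mul, map_inv, map_inv, ← hφ,
      hwe]
    group
  have hcardZ : Nat.card (Z.map (MulAut.conj x).toMonoidHom) = Nat.card Z := card_map_conj x Z
  obtain ⟨n, hn, hnZ⟩ := Cfsg.Agent.Lib.Coprime.Coset.exists_conj_eq_of_card_eq hZN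
    (coprime_card_pgroup_core hZp) (Or.inl (isPGroup_isSolvable hZp)) hleZ hcardZ
  set x₁ := n⁻¹ * x with hx₁
  have hφn : φ n = 1 := by
    rw [← MonoidHom.mem_ker, QuotientGroup.ker_mk']; exact hn
  have hφx₁ : φ x₁ = φ x := by
    rw [hx₁, map_mul, map_inv, hφn]; simp
  have hx₁N : x₁ ∈ normalizer (Z : Set G) := by
    apply mem_normalizer_of_conj_mem
    intro z hz
    have h1 : x * z * x⁻¹ ∈ Z.map (MulAut.conj n).toMonoidHom := by
      rw [hnZ]
      exact ⟨z, hz, rfl⟩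
    obtain ⟨w, hw, hwe⟩ := h1
    have h2 : n * w * n⁻¹ = x * z * x⁻¹ := hwe
    have h3 : x₁ * z * x₁⁻¹ = w := by
      rw [hx₁]
      calc n⁻¹ * x * z * (n⁻¹ * x)⁻¹ = n⁻¹ * (x * z * x⁻¹) * n := by group
        _ = w := by rw [← h2]; group
    rw [h3]
    exact hw
  obtain ⟨x₂, hx₂, e₂⟩ := core_descent S (sylow_le_normalizerW hW S) hx₁N hB hgB (by
    intro b hb
    change _ ∈ O
    rw [← QuotientGroup.ker_mk' O, MonoidHom.mem_ker, map_mul, map_mul, map_mul, map_inv, map_inv,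
      map_mul, map_mul, map_inv]
    have h1 := e' (φ b) ⟨b, hb, rfl⟩
    rw [← hφ, hφx₁, h1]
    group)
  exact ⟨x₂, hx₂, e₂⟩


/-- The case `O_p(G) = 1`. -/
theorem good_of_pCore_botW (hcore : Cfsg.pCore p G = ⊥) (hsub : ∀ L : Subgroup G, L ≠ ⊤ → QCW p W ↥L)
    (S : Sylow p G) (B : Subgroup G) (g : G) (hB : B ≤ (S : Subgroup G))
    (hgB : ∀ b ∈ B, g * b * g⁻¹ ∈ (S : Subgroup G)) :
    Good (normalizer (W G (S : Subgroup G) : Set G)) g B := by
  by_cases hS : (S : Subgroup G) = ⊥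
  · refine ⟨1, one_mem _, fun b hb => ?_⟩
    have : b = 1 := by
      have := hB hb
      rwa [hS, Subgroup.mem_bot] at this
    simp [this]
  have hch : CharOp (W G) := ⟨hW.le G, fun g R hg x hx => hW.conj_mem hg hx⟩
  refine control_mainF S hch (fun _ => True) (fun _ _ _ => trivial) ?_ ?_ ?_ _ B g rfl hB hgB
  · intro Q hQS hQ1 _ hFN y hy B₀ hB₀ hyB₀
    have hL : normalizer (Q : Set G) ≠ ⊤ := by
      intro h
      have hn : Q.Normal := Subgroup.normalizer_eq_top_iff.mp h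
      exact hQ1 (le_bot_iff.mp (hcore ▸ le_pCore hn ((S.isPGroup').to_le hQS)))
    obtain ⟨T, hT⟩ := exists_sylow_of_FN hFN
    obtain ⟨x, -, hx, e⟩ := good_of_subgroupW hW _ (hsub _ hL) T hy (B := B₀) (by rw [hT]; exact hB₀)
      (by rw [hT]; exact hyB₀)
    rw [hT] at hx
    exact ⟨x, hx, e⟩
  · intro Q hQS
    refine hW.ne_bot G _ ((S.isPGroup').to_le inf_le_left) ?_
    have h := inf_ne_bot S (strongly_closed_self (S : Subgroup G)) hS hQS
    rwa [inf_left_idem] at h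
  · intro Q _ _ h
    exact absurd trivial h

/-- The case of a proper `N(S ∩ M)` and `MS`. -/
theorem good_of_frattiniW {M : Subgroup G} [hM : M.Normal] (S : Sylow p G)
    (h1 : QCW p W ↥(normalizer (((S : Subgroup G) ⊓ M : Subgroup G) : Set G))) (h2 : QCW p W ↥(M ⊔ (S : Subgroup G)))
    (B : Subgroup G) (g : G) (hB : B ≤ (S : Subgroup G))
    (hgB : ∀ b ∈ B, g * b * g⁻¹ ∈ (S : Subgroup G)) :
    Good (normalizer (W G (S : Subgroup G) : Set G)) g B := by
  obtain ⟨g₁, hg₁, g₂, hg₂, rfl, hg₁B⟩ := frattini_fusion (M := M) S hB hgB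
  have hSN : (S : Subgroup G) ≤ normalizer (((S : Subgroup G) ⊓ M : Subgroup G) : Set G) := by
    intro s hs
    apply mem_normalizer_of_conj_mem
    rintro x ⟨hx1, hx2⟩
    exact Subgroup.mem_inf.mpr ⟨mul_mem (mul_mem hs hx1) (inv_mem hs), hM.conj_mem x hx2 s⟩
  have hG1 := good_of_leW hW S hSN h1 hg₁ hB hg₁B
  set B' := B.map (MulAut.conj g₁).toMonoidHom with hB'
  have hB'S : B' ≤ (S : Subgroup G) := by
    rintro _ ⟨b, hb, rfl⟩
    exact hg₁B b hb
  have hG2 : Good (normalizer (W G (S : Subgroup G) : Set G)) g₂ B' := by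
    refine good_of_leW hW S le_sup_right h2 ((le_sup_left : M ≤ M ⊔ (S : Subgroup G)) hg₂) hB'S ?_
    rintro _ ⟨b, hb, rfl⟩
    have := hgB b hb
    have h3 : g₂ * (MulAut.conj g₁).toMonoidHom b * g₂⁻¹ = g₂ * g₁ * b * (g₂ * g₁)⁻¹ := by
      simp only [MulEquiv.coe_toMonoidHom, MulAut.conj_apply]; group
    rw [h3]
    exact this
  exact Good.comp hG1 hG2 (fun b hb => ⟨b, hb, rfl⟩)


/-- The step for a fully normalized `B ≥ V`. -/
theorem good_of_FN_stepW {V B : Subgroup G} [hV : V.Normal] (hVp : IsPGroup p V)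
    (hq : IsPGroup p (G ⧸ centralizer (V : Set G))) (hquo : QCW p W (G ⧸ V)) (S : Sylow p G)
    (hX : QCW p W ↥(normalizer (((W (G ⧸ V) ((S : Subgroup G).map (QuotientGroup.mk' V))).comap
      (QuotientGroup.mk' V) : Subgroup G) : Set G)))
    (hVB : V ≤ B) (hB : B ≤ (S : Subgroup G)) (hFN : FN S B) {g : G}
    (hgB : ∀ b ∈ B, g * b * g⁻¹ ∈ (S : Subgroup G)) :
    Good (normalizer (W G (S : Subgroup G) : Set G)) g B := by
  set φ := QuotientGroup.mk' V with hφ
  have hφs : Function.Surjective φ := QuotientGroup.mk'_surjective _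
  let S' : Sylow p (G ⧸ V) := S.mapSurjective hφs
  have hS' : (S' : Subgroup _) = (S : Subgroup G).map φ := rfl
  set X := (W (G ⧸ V) ((S : Subgroup G).map φ)).comap φ with hXdef
  obtain ⟨x', hx', e'⟩ := hquo S' (B.map φ) (φ g) (Subgroup.map_mono hB) (by
    rintro _ ⟨b, hb, rfl⟩
    rw [hS']
    exact ⟨g * b * g⁻¹, hgB b hb, by simp only [map_mul, map_inv]⟩)
  obtain ⟨x, rfl⟩ := hφs x'
  have hxN : x ∈ normalizer (X : Set G) := by
    apply mem_normalizer_of_conj_mem
    intro z hz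
    change φ (x * z * x⁻¹) ∈ W (G ⧸ V) ((S : Subgroup G).map φ)
    rw [map_mul, map_mul, map_inv]
    exact (mem_normalizer_iff.mp hx' _).mp hz
  have hSN : (S : Subgroup G) ≤ normalizer (X : Set G) := by
    intro s hs
    apply mem_normalizer_of_conj_mem
    intro z hz
    change φ (s * z * s⁻¹) ∈ W (G ⧸ V) ((S : Subgroup G).map φ)
    rw [map_mul, map_mul, map_inv]
    exact (mem_normalizer_iff.mp (sylow_le_normalizerW hW S' (show φ s ∈ (S' : Subgroup _) from
      ⟨s, hs, rfl⟩)) _).mp hz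
  -- `x b x⁻¹ ≡ g b g⁻¹ mod V`
  have hmod : ∀ b ∈ B, (x * b * x⁻¹) * (g * b * g⁻¹)⁻¹ ∈ V := by
    intro b hb
    have h1 := e' (φ b) ⟨b, hb, rfl⟩
    rw [← QuotientGroup.ker_mk' V, MonoidHom.mem_ker, ← hφ]
    simp only [map_mul, map_inv]
    rw [mul_inv_eq_one]
    exact h1.symm
  have hxB : ∀ b ∈ B, x * b * x⁻¹ ∈ (S : Subgroup G) := by
    intro b hb
    have h1 : x * b * x⁻¹ = ((x * b * x⁻¹) * (g * b * g⁻¹)⁻¹) * (g * b * g⁻¹) := by group
    rw [h1]
    exact mul_mem (hB (hVB (hmod b hb))) (hgB b hb)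
  obtain ⟨x₁, hx₁, e₁⟩ := good_of_leW hW S hSN hX hxN hB hxB
  set c := x⁻¹ * g with hc
  have hcmod : ∀ b ∈ B, c * b * c⁻¹ * b⁻¹ ∈ V := by
    intro b hb
    have h1 : c * b * c⁻¹ * b⁻¹ = x⁻¹ * ((x * b * x⁻¹) * (g * b * g⁻¹)⁻¹)⁻¹ * x⁻¹⁻¹ := by
      rw [hc]; group
    rw [h1]
    exact hV.conj_mem _ (inv_mem (hmod b hb)) _
  have hcN : c ∈ normalizer (B : Set G) := by
    apply mem_normalizer_of_conj_mem
    intro b hb
    have h1 : c * b * c⁻¹ = (c * b * c⁻¹ * b⁻¹) * b := by group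
    rw [h1]
    exact mul_mem (hVB (hcmod b hb)) hb
  obtain ⟨d, hd, hde⟩ := exists_sylow_factor hVp hq hFN hcN hcmod
  refine ⟨x₁ * d, mul_mem hx₁ (sylow_le_normalizerW hW S hd.1), fun b hb => ?_⟩
  have h1 : d * b * d⁻¹ ∈ B := (mem_normalizer_iff.mp hd.2 b).mp hb
  have h2 := e₁ _ h1
  calc g * b * g⁻¹ = x * (c * b * c⁻¹) * x⁻¹ := by rw [hc]; group
    _ = x * (d * b * d⁻¹) * x⁻¹ := by rw [hde b hb]
    _ = x₁ * (d * b * d⁻¹) * x₁⁻¹ := h2
    _ = _ := by group


/-- Descending induction on `|B|`, when `G / C(V)` is a `p`-group. -/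
theorem good_of_pGroupQuotW {V : Subgroup G} [hV : V.Normal] (hVp : IsPGroup p V)
    (hq : IsPGroup p (G ⧸ centralizer (V : Set G))) (hquo : QCW p W (G ⧸ V)) (S : Sylow p G)
    (hVS : V ≤ (S : Subgroup G))
    (hX : QCW p W ↥(normalizer (((W (G ⧸ V) ((S : Subgroup G).map (QuotientGroup.mk' V))).comap
      (QuotientGroup.mk' V) : Subgroup G) : Set G))) :
    ∀ (n : ℕ) (B : Subgroup G) (g : G), Nat.card (S : Subgroup G) - Nat.card B = n →
      B ≤ (S : Subgroup G) → (∀ b ∈ B, g * b * g⁻¹ ∈ (S : Subgroup G)) →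
      Good (normalizer (W G (S : Subgroup G) : Set G)) g B := by
  intro n
  induction n using Nat.strong_induction_on with
  | _ n IHn =>
    intro B g hn hB hgB
    have IH : ∀ B' : Subgroup G, B' ≤ (S : Subgroup G) → Nat.card B < Nat.card B' → ∀ g' : G,
        (∀ b ∈ B', g' * b * g'⁻¹ ∈ (S : Subgroup G)) →
        Good (normalizer (W G (S : Subgroup G) : Set G)) g' B' := by
      intro B' hB' hc g' hg'
      have h2 : Nat.card B' ≤ Nat.card (S : Subgroup G) := Subgroup.card_le_of_le hB'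
      exact IHn _ (by omega) B' g' rfl hB' hg'
    by_cases hVB : V ≤ B
    swap
    · -- enlarge `B` by `V`
      have hlt : B < B ⊔ V := lt_of_le_of_ne le_sup_left (fun h => hVB (h ▸ le_sup_right))
      have hle : B ⊔ V ≤ (S : Subgroup G) := sup_le hB hVS
      refine Good.mono (IH _ hle (card_lt_of_lt hlt) g ?_) le_sup_left
      intro x hx
      rw [← SetLike.mem_coe, Subgroup.mul_normal] at hx
      obtain ⟨b, hb, v, hv, rfl⟩ := Set.mem_mul.mp hx
      have h1 : g * (b * v) * g⁻¹ = (g * b * g⁻¹) * (g * v * g⁻¹) := by group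
      rw [h1]
      exact mul_mem (hgB b hb) (hVS (hV.conj_mem v hv g))
    by_cases hBS : B = (S : Subgroup G)
    · refine Good.of_mem B (normalizer_le_normalizerW hW S ?_)
      intro s hs
      rw [← hBS] at hs
      rw [← hBS]
      obtain h1 := hgB s hs
      -- `g` maps `S` into `S`
      rw [hBS] at hs ⊢
      exact h1
    have hlt : B < (S : Subgroup G) := lt_of_le_of_ne hB hBS
    have hM₀ : B < (S : Subgroup G) ⊓ normalizer (B : Set G) := by
      obtain ⟨x, hxS, hxC, hxN⟩ := Cfsg.Agent.Lib.PGroup.Basic.exists_mem_normalizer_of_lt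
        (S.isPGroup') hlt
      refine lt_of_le_of_ne (le_inf hB Subgroup.le_normalizer) ?_
      intro h
      exact hxC (h ▸ (Subgroup.mem_inf.mpr ⟨hxS, hxN⟩))
    obtain ⟨u, hu, hFN⟩ := exists_FN_conj (Q := B) S
    have hGu := IH _ inf_le_left (card_lt_of_lt hM₀) u hu
    set B₂ := B.map (MulAut.conj u).toMonoidHom with hB₂
    have hB₂S : B₂ ≤ (S : Subgroup G) := by
      rintro _ ⟨b, hb, rfl⟩
      exact hu b (hM₀.le hb)
    have hVB₂ : V ≤ B₂ := by
      intro v hv
      refine ⟨u⁻¹ * v * u⁻¹⁻¹, hVB (hV.conj_mem v hv _), ?_⟩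
      simp only [MulEquiv.coe_toMonoidHom, MulAut.conj_apply]; group
    have hg₂ : ∀ c ∈ B₂, (g * u⁻¹) * c * (g * u⁻¹)⁻¹ ∈ (S : Subgroup G) := by
      rintro _ ⟨b, hb, rfl⟩
      have h1 : (g * u⁻¹) * (MulAut.conj u).toMonoidHom b * (g * u⁻¹)⁻¹ = g * b * g⁻¹ := by
        simp only [MulEquiv.coe_toMonoidHom, MulAut.conj_apply]; group
      rw [h1]
      exact hgB b hb
    have hG2 := good_of_FN_stepW hW hVp hq hquo S hX hVB₂ hB₂S hFN hg₂
    have := Good.comp (Good.mono hGu hM₀.le) hG2 (fun b hb => ⟨b, hb, rfl⟩)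
    simpa using this


theorem qcw_step
    (hnorm : ∀ S : Sylow p G, centralizer (Cfsg.pCore p G : Set G) ≤ Cfsg.pCore p G → (W G (S : Subgroup G)).Normal)
    (hsub : ∀ L : Subgroup G, L ≠ ⊤ → QCW p W ↥L)
    (hquo : ∀ (N : Subgroup G) [N.Normal], N ≠ ⊥ → QCW p W (G ⧸ N)) : QCW p W G := by
  intro S B g hB hgB
  by_cases hO : Cfsg.pPrimeCore p G = ⊥
  swap
  · exact good_of_coreW hW (hquo _ hO) S B g hB hgB
  set V := Cfsg.pCore p G with hVdef
  by_cases hV : V = ⊥
  · exact good_of_pCore_botW hW hV hsub S B g hB hgB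
  have hVp : IsPGroup p V := pCore_isPGroup p
  have hVS : V ≤ (S : Subgroup G) := pCore_le_sylow S
  haveI hVn : V.Normal := inferInstance
  set M := centralizer (V : Set G) with hM
  haveI hMn : M.Normal := inferInstance
  by_cases hMS : M ⊔ (S : Subgroup G) = ⊤
  · by_cases hSV : (S : Subgroup G) ≤ V
    · have hSeq : (S : Subgroup G) = V := le_antisymm hSV hVS
      refine Good.of_mem B (normalizer_le_normalizerW hW S ?_)
      intro s hs
      rw [hSeq] at hs ⊢
      exact hVn.conj_mem s hs g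
    · have hq : IsPGroup p (G ⧸ M) := isPGroup_quotient_of_sup S hMS
      have hX : QCW p W ↥(normalizer (((W (G ⧸ V) ((S : Subgroup G).map (QuotientGroup.mk' V))).comap
          (QuotientGroup.mk' V) : Subgroup G) : Set G)) := by
        apply hsub
        intro htop
        set φ := QuotientGroup.mk' V with hφ
        set X := (W (G ⧸ V) ((S : Subgroup G).map φ)).comap φ with hXdef
        have hXn : X.Normal := Subgroup.normalizer_eq_top_iff.mp htop
        have hXS : X ≤ (S : Subgroup G) := by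
          intro z hz
          obtain ⟨s, hs, hse⟩ := hW.le _ _ hz
          have h1 : z = s * (s⁻¹ * z) := by group
          rw [h1]
          refine mul_mem hs (hVS ?_)
          rw [← QuotientGroup.ker_mk' V, MonoidHom.mem_ker, map_mul, map_inv, ← hφ, hse]
          simp
        have hXV : X ≤ V := le_pCore hXn ((S.isPGroup').to_le hXS)
        have hZ : W (G ⧸ V) ((S : Subgroup G).map φ) = ⊥ := by
          rw [eq_bot_iff]
          intro y hy
          obtain ⟨z, rfl⟩ := QuotientGroup.mk'_surjective V y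
          have h1 : z ∈ V := hXV hy
          rw [Subgroup.mem_bot]
          exact (QuotientGroup.eq_one_iff z).mpr h1
        have hSbot : (S : Subgroup G).map φ = ⊥ := by
          by_contra hne
          exact hW.ne_bot _ _ ((S.isPGroup').map φ) hne hZ
        apply hSV
        intro s hs
        have h1 : φ s ∈ (S : Subgroup G).map φ := ⟨s, hs, rfl⟩
        rw [hSbot, Subgroup.mem_bot] at h1
        exact (QuotientGroup.eq_one_iff s).mp h1
      exact good_of_pGroupQuotW hW hVp hq (hquo V hV) S hVS hX _ B g rfl hB hgB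
  · by_cases h2 : (S : Subgroup G) ⊓ M ≤ V
    · have hc : centralizer (V : Set G) ≤ V := centralizer_le_of_inf_le hO S h2
      have hn : (W G (S : Subgroup G)).Normal := hnorm S hc
      refine Good.of_mem B ?_
      rw [Subgroup.normalizer_eq_top_iff.mpr hn]
      trivial
    · have hN : normalizer (((S : Subgroup G) ⊓ M : Subgroup G) : Set G) ≠ ⊤ := by
        intro htop
        have hn := Subgroup.normalizer_eq_top_iff.mp htop
        exact h2 (le_pCore hn ((S.isPGroup').to_le inf_le_left))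
      exact good_of_frattiniW hW S (hsub _ hN) (hsub _ hMS) B g hB hgB


end Generic

end Cfsg.Agent.Lib.PGroup.GenControl
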