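import Mathlib
import Cfsg.Agent.Lib.PGroup.GenControl
import Cfsg.Agent.Lib.PGroup.QdSplit
import Cfsg.Agent.S0274

/-!
# `Z(J_e(S))` in `Qd(p)`-free groups: normality in constrained groups, and control of strong fusion
-/

namespace Cfsg.Agent.Lib.PGroup.GenControlZC

open Subgroup Cfsg.Agent.Lib.PGroup.ZJ Cfsg.Agent.Lib.PGroup.ZJCore Cfsg.Agent.Lib.PGroup.ZJControl
open Cfsg.Agent.Lib.PGroup.QdControl Cfsg.Agent.Lib.PGroup.GTFunctor Cfsg.Agent.Lib.PGroup.GenControl
open Cfsg.Agent.Lib.PGroup.QdSplit Cfsg.Agent.Lib.PGroup.QuadG Cfsg.Agent.Lib.PGroup.GTOdd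
open Cfsg.Agent.Lib.PGroup.Replacement (mem_normalizer_of_conj_mem card_lt_of_lt)
open Cfsg.Agent.Lib.Components.PConstrained Cfsg.Agent.Lib.Basic.PCore
open Matrix
open scoped commutatorElement Pointwise MatrixGroups

universe u

variable {p : ℕ} [Fact p.Prime]

/-! ### The section `SL₂(p)` of `Qd(p)` -/

theorem aff_inj {A B : SL(2, ZMod p)} {v w : Fin 2 → ZMod p} (h : aff A v = aff B w) : A = B := by
  have h' : (aff A v).1 = (aff B w).1 := congrArg Subtype.val h
  rw [aff_coe, aff_coe] at h'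
  apply Subtype.ext
  ext i j
  have := congrFun (congrFun h' (Fin.castLE (by omega) i)) (Fin.castLE (by omega) j)
  fin_cases i <;> fin_cases j <;> simpa using this

/-- The `SL₂(p)`-component of an element of `Qd(p)`. -/
noncomputable def qdA (m : qd p) : SL(2, ZMod p) := Classical.choose (exists_aff_of_mem_qd m.2)

theorem qdA_spec (m : qd p) : ∃ v, (m : SL(3, ZMod p)) = aff (qdA m) v :=
  Classical.choose_spec (exists_aff_of_mem_qd m.2)

/-- The projection of `Qd(p)` on `SL₂(p)`. -/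
noncomputable def qdToSL (p : ℕ) [Fact p.Prime] : qd p →* SL(2, ZMod p) where
  toFun m := qdA m
  map_one' := by
    obtain ⟨v, hv⟩ := qdA_spec (1 : qd p)
    have h1 : (1 : SL(3, ZMod p)) = aff 1 0 := by
      apply Subtype.ext
      ext i j
      fin_cases i <;> fin_cases j <;> simp [aff]
    exact aff_inj (hv.symm.trans h1)
  map_mul' a b := by
    obtain ⟨v, hv⟩ := qdA_spec (a * b)
    obtain ⟨v₁, hv₁⟩ := qdA_spec a
    obtain ⟨v₂, hv₂⟩ := qdA_spec b
    have h4 : aff (qdA a) v₁ * aff (qdA b) v₂ = aff (qdA (a * b)) v := by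
      rw [← hv₁, ← hv₂]
      exact hv
    rw [aff_mul] at h4
    exact (aff_inj h4).symm

theorem qdToSL_surjective : Function.Surjective (qdToSL p) := by
  intro A
  refine ⟨⟨aff A 0, aff_mem_qd A 0⟩, ?_⟩
  obtain ⟨v, hv⟩ := qdA_spec ⟨aff A 0, aff_mem_qd A 0⟩
  exact (aff_inj hv).symm

/-- A subgroup-form `SL₂(p)`-free group is `Qd(p)`-free. -/
theorem not_sec_of_free {G : Type*} [Group G]
    (hfree : ¬ ∃ (H K : Subgroup G) (hK : (K.subgroupOf H).Normal),
      Nonempty ((H ⧸ K.subgroupOf H) ≃* SL(2, ZMod p))) : ¬ Sec (qd p) G := by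
  rintro ⟨K, Φ, hΦ⟩
  obtain ⟨R, hR, he⟩ := quotient_form (Φ := (qdToSL p).comp Φ) (qdToSL_surjective.comp hΦ)
  exact hfree ⟨K, R, hR, he⟩

/-- `SL₂(p)` has an involution, for odd `p`. -/
theorem exists_involution_SL (hp2 : p ≠ 2) : ∃ t : SL(2, ZMod p), t ≠ 1 ∧ t ^ 2 = 1 := by
  have hne : (2 : ZMod p) ≠ 0 := by
    intro h
    have h3 : ((2 : ℕ) : ZMod p) = 0 := by exact_mod_cast h
    rw [ZMod.natCast_eq_zero_iff] at h3
    exact hp2 ((Nat.prime_dvd_prime_iff_eq Fact.out Nat.prime_two).mp h3)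
  refine ⟨-1, ?_, neg_one_sq⟩
  intro h
  have h1 : ((-1 : SL(2, ZMod p)) : Matrix (Fin 2) (Fin 2) (ZMod p)) 0 0 =
      ((1 : SL(2, ZMod p)) : Matrix (Fin 2) (Fin 2) (ZMod p)) 0 0 := by
    rw [h]
  have e1 : ((-1 : SL(2, ZMod p)) : Matrix (Fin 2) (Fin 2) (ZMod p)) 0 0 =
      - ((1 : SL(2, ZMod p)) : Matrix (Fin 2) (Fin 2) (ZMod p)) 0 0 := by
    rw [SpecialLinearGroup.coe_neg]; rfl
  have e2 : ((1 : SL(2, ZMod p)) : Matrix (Fin 2) (Fin 2) (ZMod p)) 0 0 = 1 := by
    show (1 : Matrix (Fin 2) (Fin 2) (ZMod p)) 0 0 = 1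
    simp
  rw [e1, e2] at h1
  apply hne
  linear_combination -h1

/-- Odd-order groups are `Qd(p)`-free. -/
theorem not_sec_of_odd {G : Type*} [Group G] [Finite G] (hp2 : p ≠ 2) (hodd : Odd (Nat.card G)) :
    ¬ Sec (qd p) G := by
  rintro ⟨K, Φ, hΦ⟩
  obtain ⟨t, ht1, ht2⟩ := exists_involution_SL (p := p) hp2
  set f : K →* SL(2, ZMod p) := (qdToSL p).comp Φ with hf
  have hfs : Function.Surjective f := qdToSL_surjective.comp hΦ
  obtain ⟨x, rfl⟩ := hfs t
  have h3 : orderOf (f x) = 2 := orderOf_eq_prime ht2 ht1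
  have h4 : orderOf (f x) ∣ orderOf x := orderOf_map_dvd f x
  have h5 : orderOf (x : G) = orderOf x := Subgroup.orderOf_coe x
  have h6 : orderOf (x : G) ∣ Nat.card G := orderOf_dvd_natCard _
  have h7 : 2 ∣ Nat.card G := by
    rw [h3, ← h5] at h4
    exact h4.trans h6
  exact (Nat.not_even_iff_odd.mpr hodd) (even_iff_two_dvd.mpr h7)

/-! ### Constrained normal subgroups -/

section Constrained

variable {G : Type*} [Group G] [Finite G]

/-- A quadratic coprime element centralizes a normal `p`-subgroup. -/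
theorem comm_of_quadratic {R : Subgroup G} (hR : IsPGroup p R) {z : G} {r : ℕ} (hr : ¬ p ∣ r)
    (hzr : z ^ r = 1) {u : G} (hd : z * u * z⁻¹ * u⁻¹ ∈ R)
    (hc : z * (z * u * z⁻¹ * u⁻¹) = (z * u * z⁻¹ * u⁻¹) * z) : z * u = u * z := by
  set d := z * u * z⁻¹ * u⁻¹ with hddef
  have hk : ∀ k : ℕ, z ^ k * u * (z ^ k)⁻¹ = d ^ k * u := by
    intro k
    induction k with
    | zero => simp
    | succ k ih =>
      have hvk : z * d ^ k = d ^ k * z := Commute.pow_right (show Commute z d from hc) k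
      calc z ^ (k + 1) * u * (z ^ (k + 1))⁻¹ = z * (z ^ k * u * (z ^ k)⁻¹) * z⁻¹ := by
            rw [pow_succ']; group
        _ = z * (d ^ k * u) * z⁻¹ := by rw [ih]
        _ = d ^ k * (z * u * z⁻¹) := by
            rw [← mul_assoc z, hvk]; group
        _ = d ^ k * (d * u) := by
            rw [hddef]; group
        _ = d ^ (k + 1) * u := by rw [pow_succ]; group
  have hdr : d ^ r = 1 := by
    have := hk r
    rw [hzr] at this
    simpa using this.symm
  obtain ⟨s, hs⟩ := (IsPGroup.iff_orderOf.mp hR) ⟨d, hd⟩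
  have hds : d ^ p ^ s = 1 := by
    have h1 : orderOf d = p ^ s := by
      rw [← hs, Subgroup.orderOf_mk]
    rw [← h1, pow_orderOf_eq_one]
  have hd1 : d = 1 := eq_one_of_pow_of_pgroup hr hdr hds
  have h3 : z * u * z⁻¹ = u := by
    rw [hddef, mul_inv_eq_one] at hd1
    exact hd1
  exact mul_inv_eq_iff_eq_mul.mp h3

/-- If `C(R) ≤ R` for `R = O_p(G)`, then `C_C(R ∩ C)` is a `p`-group for a normal subgroup `C`. -/
theorem isPGroup_inf_centralizer (hc : centralizer (Cfsg.pCore p G : Set G) ≤ Cfsg.pCore p G)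
    (C : Subgroup G) [hCn : C.Normal] :
    IsPGroup p ↥(C ⊓ centralizer ((Cfsg.pCore p G ⊓ C : Subgroup G) : Set G)) := by
  set R := Cfsg.pCore p G with hRdef
  have hRp : IsPGroup p R := pCore_isPGroup p
  haveI hRn : R.Normal := inferInstance
  set D := R ⊓ C with hDdef
  haveI hDn : D.Normal := inferInstance
  set Y := C ⊓ centralizer (D : Set G) with hYdef
  haveI hYn : Y.Normal := inferInstance
  rw [IsPGroup.iff_orderOf]
  rintro ⟨y, hy⟩
  have hpos : orderOf y ≠ 0 := (orderOf_pos y).ne'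
  obtain ⟨a, r, hr, hyr⟩ := Nat.exists_eq_pow_mul_and_not_dvd hpos p (Fact.out : p.Prime).ne_one
  set z := y ^ p ^ a with hz
  have hzY : z ∈ Y := pow_mem hy _
  have hzr : z ^ r = 1 := by
    rw [hz, ← pow_mul, ← hyr, pow_orderOf_eq_one]
  have hzc : z ∈ centralizer (R : Set G) := by
    rw [Subgroup.mem_centralizer_iff]
    intro u hu
    have hd1 : z * u * z⁻¹ * u⁻¹ ∈ R := by
      have h1 : z * u * z⁻¹ * u⁻¹ = (z * u * z⁻¹) * u⁻¹ := rfl
      rw [h1]
      exact mul_mem (hRn.conj_mem u hu z) (inv_mem hu)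
    have hd2 : z * u * z⁻¹ * u⁻¹ ∈ Y := by
      have h1 : z * u * z⁻¹ * u⁻¹ = z * (u * z⁻¹ * u⁻¹) := by group
      rw [h1]
      exact mul_mem hzY (hYn.conj_mem _ (inv_mem hzY) u)
    have hd3 : z * u * z⁻¹ * u⁻¹ ∈ D := Subgroup.mem_inf.mpr ⟨hd1, hd2.1⟩
    have hd4 := Subgroup.mem_centralizer_iff.mp hzY.2 _ hd3
    have := comm_of_quadratic hRp hr hzr hd1 hd4.symm
    exact this.symm
  have hzR : z ∈ R := hc hzc
  obtain ⟨s, hs⟩ := (IsPGroup.iff_orderOf.mp hRp) ⟨z, hzR⟩
  have hzs : z ^ p ^ s = 1 := by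
    have h1 : orderOf z = p ^ s := by
      rw [← hs, Subgroup.orderOf_mk]
    rw [← h1, pow_orderOf_eq_one]
  have hz1 : z = 1 := eq_one_of_pow_of_pgroup hr hzr hzs
  have hy1 : orderOf y ∣ p ^ a := orderOf_dvd_of_pow_eq_one hz1
  obtain ⟨k, -, hk⟩ := (Nat.dvd_prime_pow (Fact.out : p.Prime)).mp hy1
  exact ⟨k, by rw [Subgroup.orderOf_mk]; exact hk⟩

/-- A normal subgroup of a constrained group is constrained. -/
theorem centralizer_pCore_of_normal (hc : centralizer (Cfsg.pCore p G : Set G) ≤ Cfsg.pCore p G)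
    (C : Subgroup G) [hCn : C.Normal] :
    centralizer (Cfsg.pCore p ↥C : Set ↥C) ≤ Cfsg.pCore p ↥C := by
  set R := Cfsg.pCore p G with hRdef
  have hRp : IsPGroup p R := pCore_isPGroup p
  haveI hRn : R.Normal := inferInstance
  set D := R ⊓ C with hDdef
  haveI hDn : D.Normal := inferInstance
  have hD' : D.subgroupOf C ≤ Cfsg.pCore p ↥C := by
    refine le_pCore inferInstance ?_
    exact isPGroup_subgroupOf (hRp.to_le inf_le_left)
  intro x hx
  have hxc : (x : G) ∈ C ⊓ centralizer (D : Set G) := by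
    refine Subgroup.mem_inf.mpr ⟨x.2, ?_⟩
    rw [Subgroup.mem_centralizer_iff]
    intro d hd
    have h1 : (⟨d, hd.2⟩ : C) ∈ Cfsg.pCore p ↥C := hD' (by
      rw [Subgroup.mem_subgroupOf]
      exact hd)
    have h2 := Subgroup.mem_centralizer_iff.mp hx _ h1
    exact congrArg Subtype.val h2
  have hYR : C ⊓ centralizer (D : Set G) ≤ R :=
    le_pCore inferInstance (isPGroup_inf_centralizer hc C)
  refine hD' ?_
  rw [Subgroup.mem_subgroupOf]
  exact Subgroup.mem_inf.mpr ⟨hYR hxc, x.2⟩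

end Constrained

/-! ### Normality of `Z(J_e(S))` -/

theorem stab_of_free {G : Type u} [Group G] [Finite G] (hp2 : p ≠ 2) (hfree : ¬ Sec (qd p) G) (P : Sylow p G) :
    Stab p G P := by
  intro R _ hR a _ hq
  by_contra hns
  refine hfree (sec_qd_of_not_stable (fun F _ _ _ H hH => Cfsg.Agent.S0274.result p hp2 H hH) hp2 R hR ?_)
  intro h
  exact hns (h a hq)

/-- **`Z(J_e(S))` is normal** in a constrained `Qd(p)`-free group, `p` odd. -/
theorem zc_normal (hp2 : p ≠ 2) : ∀ (n : ℕ) (G : Type u) [Group G] [Finite G], Nat.card G = n →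
    ¬ Sec (qd p) G → ∀ P : Sylow p G, centralizer (Cfsg.pCore p G : Set G) ≤ Cfsg.pCore p G →
    (ZC p (P : Subgroup G)).Normal := by
  intro n
  induction n using Nat.strong_induction_on with
  | _ n IH =>
    intro G _ _ hn hfree P hc
    classical
    have hst := stab_of_free hp2 hfree P
    set Z := ZC p (P : Subgroup G) with hZdef
    obtain ⟨V, hV, hmax⟩ := Set.exists_max_image {V : Subgroup G | V.Normal ∧ V ≤ Z}
      (fun V => Nat.card V) (Set.toFinite _) ⟨⊥, inferInstance, bot_le⟩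
    haveI hVn : V.Normal := hV.1
    by_cases h : Z ≤ V
    · have : Z = V := le_antisymm h hV.2
      rw [this]
      exact hVn
    by_cases hC : centralizer (V : Set G) = ⊤
    · exfalso
      have hVc : V ≤ center G := by
        intro z hz
        rw [Subgroup.mem_center_iff]
        intro g
        have : g ∈ centralizer (V : Set G) := by rw [hC]; trivial
        exact (Subgroup.mem_centralizer_iff.mp this z hz).symm
      obtain ⟨D, hDn, hDZ, hDV⟩ := zc_step hp2 P hc hst hVc hV.2 h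
      haveI := hDn
      have h1 : V < V ⊔ D := by
        refine lt_of_le_of_ne le_sup_left ?_
        intro he
        apply hDV
        rw [he]
        exact le_sup_right
      have h2 := hmax (V ⊔ D) ⟨inferInstance, sup_le hV.2 hDZ⟩
      have h3 := card_lt_of_lt h1
      omega
    · set C := centralizer (V : Set G) with hCdef
      haveI hCn : C.Normal := Subgroup.normal_centralizer
      have hJC : JJ p (P : Subgroup G) ≤ C := by
        intro u hu
        rw [hCdef, Subgroup.mem_centralizer_iff]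
        intro z hz
        exact (Subgroup.mem_centralizer_iff.mp (hV.2 hz).2 u hu).symm
      have hZC : Z ≤ C := inf_le_left.trans hJC
      obtain ⟨S', hS'⟩ := Cfsg.Agent.Lib.Basic.SylowUtil.exists_sylow_inf_normal P C
      have hZeq : ZC p ((P : Subgroup G) ⊓ C) = Z := by
        rw [hZdef, ZC, ZC, JJ_eq_of_le inf_le_left (le_inf (JJ_le p _) hJC)]
      have hmap : (ZC p (S' : Subgroup C)).map C.subtype = Z := by
        rw [ZC_map_hom C.subtype (fun x _ hx => Subtype.ext hx), hS', hZeq]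
      have hCcard := Cfsg.Agent.Lib.Thompson.QuadraticBase.card_lt_of_ne_top hC
      have hCn' : (ZC p (S' : Subgroup C)).Normal :=
        IH (Nat.card C) (hn ▸ hCcard) C rfl (fun h => hfree h.subgroup) S'
          (centralizer_pCore_of_normal hc C)
      have hWZ := selFun_ZC.{u} (p := p) (k := p) (Or.inr rfl)
      refine ⟨fun z hz g => ?_⟩
      obtain ⟨a, ha, m, hm, hg⟩ := Cfsg.Agent.Lib.Basic.SylowUtil.frattini_argument' S' g
      rw [hS'] at hm
      have h1 : m * z * m⁻¹ ∈ Z := by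
        rw [← hZeq] at hz ⊢
        exact hWZ.conj_mem (S := (P : Subgroup G) ⊓ C) (g := m)
          (fun x hx => (mem_normalizer_iff.mp hm x).mp hx) hz
      have h2 : a * (m * z * m⁻¹) * a⁻¹ ∈ Z := by
        rw [← hmap] at h1 ⊢
        obtain ⟨w, hw, hwe⟩ := h1
        refine ⟨⟨a, ha⟩ * w * ⟨a, ha⟩⁻¹, hCn'.conj_mem w hw _, ?_⟩
        simp only [Subgroup.coe_subtype, Subgroup.coe_mul, Subgroup.coe_inv] at hwe ⊢
        rw [hwe]
      have h3 : g * z * g⁻¹ = a * (m * z * m⁻¹) * a⁻¹ := by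
        rw [hg]; group
      rw [h3]
      exact h2

/-- **Glauberman's control theorem for `Z(J_e(S))`.** -/
theorem qcw_ZC (hp2 : p ≠ 2) : ∀ (n : ℕ) (G : Type u) [Group G] [Finite G], Nat.card G = n →
    ¬ Sec (qd p) G → QCW p (ZCF.{u} p) G := by
  intro n
  induction n using Nat.strong_induction_on with
  | _ n IH =>
    intro G _ _ hn hfree
    have hWZ := selFun_ZC.{u} (p := p) (k := p) (Or.inr rfl)
    refine qcw_step hWZ (fun S hc => zc_normal hp2 _ G rfl hfree S hc) ?_ ?_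
    · intro L hL
      have hlt : Nat.card L < n := by
        rw [← hn]
        exact card_lt_of_lt (lt_top_iff_ne_top.mpr hL) |>.trans_eq (by simp)
      exact IH _ hlt L rfl (fun h => hfree h.subgroup)
    · intro N _ hN
      have hlt : Nat.card (G ⧸ N) < n := by
        rw [← hn]
        have h1 : Nat.card G = Nat.card N * Nat.card (G ⧸ N) := by
          rw [Subgroup.card_eq_card_quotient_mul_card_subgroup N, mul_comm]
        have h2 : 1 < Nat.card N := by
          obtain ⟨⟨x, hx⟩, hx1⟩ := Subgroup.ne_bot_iff_exists_ne_one.mp hN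
          exact Finite.one_lt_card_iff_nontrivial.mpr ⟨⟨⟨x, hx⟩, 1, hx1⟩⟩
        have h3 : 0 < Nat.card (G ⧸ N) := Nat.card_pos
        rw [h1]
        nlinarith
      exact IH _ hlt (G ⧸ N) rfl (fun h => hfree (Sec.of_surj (QuotientGroup.mk'_surjective N) h))

end Cfsg.Agent.Lib.PGroup.GenControlZC
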