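import Mathlib
import Cfsg.Agent.Lib.PGroup.GenControlZC

/-!
# Control of strong fusion when only the normalizers of subgroups containing `Z(S)` are `SL₂(p)`-free
-/

namespace Cfsg.Agent.Lib.PGroup.GenControlSL

open Subgroup Cfsg.Agent.Lib.PGroup.ZJ Cfsg.Agent.Lib.PGroup.ZJCore Cfsg.Agent.Lib.PGroup.ZJControl
open Cfsg.Agent.Lib.PGroup.QdControl Cfsg.Agent.Lib.PGroup.GTFunctor Cfsg.Agent.Lib.PGroup.GenControl
open Cfsg.Agent.Lib.PGroup.GenControlZC
open Cfsg.Agent.Lib.PGroup.QdSplit Cfsg.Agent.Lib.PGroup.QuadG Cfsg.Agent.Lib.PGroup.QuadLocal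
open Cfsg.Agent.Lib.PGroup.Replacement (mem_normalizer_of_conj_mem card_lt_of_lt)
open Cfsg.Agent.Lib.Components.PConstrained Cfsg.Agent.Lib.Basic.PCore
open Matrix
open scoped commutatorElement Pointwise MatrixGroups

universe u

variable {p : ℕ} [Fact p.Prime] {G : Type u} [Group G] [Finite G]

/-- The section form for subgroups of a subgroup. -/
theorem not_sec_of_free_le {D : Subgroup G}
    (hfree : ¬ ∃ (H K : Subgroup G) (_ : (K.subgroupOf H).Normal), H ≤ D ∧
      Nonempty ((H ⧸ K.subgroupOf H) ≃* SL(2, ZMod p))) : ¬ Sec (qd p) D := by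
  intro h
  obtain ⟨K, Φ, hK, hΦ⟩ := h.of_subgroup
  obtain ⟨R, hR, he⟩ := quotient_form (Φ := (qdToSL p).comp Φ) (qdToSL_surjective.comp hΦ)
  exact hfree ⟨K, R, hR, hK, he⟩

/-- The family: subgroups with a conjugate between `Z(S)` and `S`. -/
def FF (S : Sylow p G) (Q : Subgroup G) : Prop :=
  ∃ u : G, (S : Subgroup G) ⊓ centralizer ((S : Subgroup G) : Set G) ≤ Q.map (MulAut.conj u).toMonoidHom ∧
    Q.map (MulAut.conj u).toMonoidHom ≤ (S : Subgroup G)

/-- Conjugates of `Q` have conjugate normalizers. -/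
theorem not_sec_normalizer_of_conj {Q : Subgroup G} (u : G)
    (h : ¬ Sec (qd p) ↥(normalizer ((Q.map (MulAut.conj u).toMonoidHom : Subgroup G) : Set G))) :
    ¬ Sec (qd p) ↥(normalizer (Q : Set G)) := by
  intro hs
  refine h (sec_of_injective (A := ↥(normalizer (Q : Set G))) ?j ?_ hs)
  case j =>
    exact ((MulAut.conj u).toMonoidHom.comp (normalizer (Q : Set G)).subtype).codRestrict _
      (fun x => mem_normalizer_map_conj u x.2)
  · intro a b hab
    have h1 : (MulAut.conj u) (a : G) = (MulAut.conj u) (b : G) := congrArg Subtype.val hab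
    exact Subtype.ext ((MulAut.conj u).injective h1)

/-- `Z(T) ≤ Z(J(T))`. -/
theorem cen_le_ZZ {T : Subgroup G} {x : G} (hx : x ∈ T) (hc : ∀ t ∈ T, t * x = x * t) : x ∈ ZZ 0 T := by
  apply mem_ZZ_of_forall
  intro U hU
  by_contra hxU
  -- `U ⊔ ⟨x⟩` is a larger abelian subgroup
  have hPP := PP_sup_zpowers (k := 0) hU.2.1 (x := x) (by simp) (fun a ha => (hc a (hU.1 ha)).symm)
  have hle : U ⊔ zpowers x ≤ T := sup_le hU.1 ((zpowers_le).mpr hx)
  have hlt : U < U ⊔ zpowers x := lt_of_le_of_ne le_sup_left (fun h => hxU (h ▸ (le_sup_right : zpowers x ≤ _) (mem_zpowers x)))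
  have h1 := hU.2.2 _ hle hPP
  have h2 := card_lt_of_lt hlt
  omega

theorem charOp_ZZ : CharOp (G := G) (ZZ 0) :=
  ⟨fun R => ZZ_le_self 0 R, fun g _ hg _ hx => conj_mem_ZZ hg hx⟩

/-- Elements of `Z(S)` lie in every `Z(J(S ∩ N(Q)))`, `Q ≤ S`. -/
theorem cen_le_ZZ_inf (S : Sylow p G) {Q : Subgroup G} (hQ : Q ≤ (S : Subgroup G)) :
    (S : Subgroup G) ⊓ centralizer ((S : Subgroup G) : Set G) ≤
      ZZ 0 ((S : Subgroup G) ⊓ normalizer (Q : Set G)) := by
  rintro x ⟨hx1, hx2⟩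
  have hc : ∀ s ∈ (S : Subgroup G), s * x = x * s := fun s hs =>
    Subgroup.mem_centralizer_iff.mp hx2 s hs
  have hxN : x ∈ normalizer (Q : Set G) := by
    apply mem_normalizer_of_conj_mem
    intro q hq
    rw [← hc q (hQ hq)]
    simpa using hq
  exact cen_le_ZZ ⟨hx1, hxN⟩ (fun t ht => hc t ht.1)

/-- The bypass: a fully normalized subgroup not containing `Z(S)`. -/
theorem bypass (S : Sylow p G) {Q : Subgroup G} (hQS : Q ≤ (S : Subgroup G)) {X : Subgroup G}
    (hZQ : ¬ (S : Subgroup G) ⊓ centralizer ((S : Subgroup G) : Set G) ≤ Q) (hFN : FN S Q)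
    {y : G} (hy : y ∈ normalizer (Q : Set G))
    (IH : ∀ B' : Subgroup G, B' ≤ (S : Subgroup G) → Nat.card Q < Nat.card B' → ∀ g : G,
      (∀ b ∈ B', g * b * g⁻¹ ∈ (S : Subgroup G)) → Good X g B') : Good X y Q := by
  set L := normalizer (Q : Set G) with hL
  obtain ⟨T, hT⟩ := exists_sylow_of_FN hFN
  set C' := (centralizer (Q : Set G)).subgroupOf L with hC'
  haveI hC'n : C'.Normal := inferInstance
  obtain ⟨Q₁, hQ₁⟩ := Cfsg.Agent.Lib.Basic.SylowUtil.exists_sylow_inf_normal T C'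
  obtain ⟨a, ha, n, hn, hyan⟩ := Cfsg.Agent.Lib.Basic.SylowUtil.frattini_argument' Q₁ (⟨y, hy⟩ : L)
  rw [hQ₁] at hn
  set P₀ := (S : Subgroup G) ⊓ centralizer (Q : Set G) with hP₀
  have hCL : centralizer (Q : Set G) ≤ L := centralizer_le_normalizer _
  have hmemT : ∀ x : L, (x : G) ∈ (S : Subgroup G) → x ∈ (T : Subgroup L) := by
    intro x hx
    have h1 : (x : G) ∈ (T : Subgroup L).map L.subtype := by
      rw [hT]
      exact ⟨hx, x.2⟩
    obtain ⟨x', hx', hxe⟩ := h1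
    have : x' = x := Subtype.ext hxe
    rwa [← this]
  have hmemS : ∀ x ∈ (T : Subgroup L), (x : G) ∈ (S : Subgroup G) := by
    intro x hx
    have h1 : (x : G) ∈ (T : Subgroup L).map L.subtype := ⟨x, hx, rfl⟩
    rw [hT] at h1
    exact h1.1
  have hnP : ∀ x ∈ P₀, (n : G) * x * (n : G)⁻¹ ∈ P₀ := by
    intro x hx
    have h1 : (⟨x, hCL hx.2⟩ : L) ∈ (T : Subgroup L) ⊓ C' :=
      Subgroup.mem_inf.mpr ⟨hmemT _ hx.1, by rw [hC', Subgroup.mem_subgroupOf]; exact hx.2⟩
    have h2 := (mem_normalizer_iff.mp hn _).mp h1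
    have h3 := (Subgroup.mem_inf.mp h2).1
    have h4 := (Subgroup.mem_inf.mp h2).2
    rw [hC', Subgroup.mem_subgroupOf] at h4
    exact Subgroup.mem_inf.mpr ⟨hmemS _ h3, h4⟩
  set Q' := Q ⊔ P₀ with hQ'
  have hQ'S : Q' ≤ (S : Subgroup G) := sup_le hQS inf_le_left
  have hlt : Q < Q' := by
    refine lt_of_le_of_ne le_sup_left ?_
    intro h
    apply hZQ
    rintro z ⟨hz1, hz2⟩
    have hzP : z ∈ P₀ := by
      refine Subgroup.mem_inf.mpr ⟨hz1, ?_⟩
      rw [Subgroup.mem_centralizer_iff]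
      intro q hq
      exact Subgroup.mem_centralizer_iff.mp hz2 q (hQS hq)
    rw [h]
    exact (le_sup_right : P₀ ≤ Q') hzP
  have hnQ' : ∀ b ∈ Q', (n : G) * b * (n : G)⁻¹ ∈ Q' := by
    have hle : Q' ≤ Q'.comap (MulAut.conj (n : G)).toMonoidHom := by
      refine sup_le ?_ ?_
      · intro q hq
        exact (le_sup_left : Q ≤ Q') ((mem_normalizer_iff.mp n.2 q).mp hq)
      · intro q hq
        exact (le_sup_right : P₀ ≤ Q') (hnP q hq)
    exact fun b hb => hle hb
  obtain ⟨x, hx, e⟩ := IH Q' hQ'S (card_lt_of_lt hlt) n (fun b hb => hQ'S (hnQ' b hb))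
  refine ⟨x, hx, fun b hb => ?_⟩
  have h1 := e b ((le_sup_left : Q ≤ Q') hb)
  rw [← h1]
  have hy' : y = (a : G) * (n : G) := by
    have := congrArg Subtype.val hyan
    simpa using this
  have ha' : (a : G) ∈ centralizer (Q : Set G) := by
    rw [hC', Subgroup.mem_subgroupOf] at ha
    exact ha
  have h2 : (n : G) * b * (n : G)⁻¹ ∈ Q := (mem_normalizer_iff.mp n.2 b).mp hb
  have h3 := Subgroup.mem_centralizer_iff.mp ha' _ h2
  rw [hy']
  calc (a : G) * (n : G) * b * ((a : G) * (n : G))⁻¹ = ((a : G) * ((n : G) * b * (n : G)⁻¹)) * (a : G)⁻¹ := by group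
    _ = (((n : G) * b * (n : G)⁻¹) * (a : G)) * (a : G)⁻¹ := by rw [← h3]
    _ = _ := by group

/-- **The control theorem.** -/
theorem good_of_family (hp : p ≠ 2) (S : Sylow p G)
    (hfree : ∀ P : Subgroup G, (S : Subgroup G) ⊓ centralizer ((S : Subgroup G) : Set G) ≤ P → P ≤ S →
      ¬ ∃ (H K : Subgroup G) (_ : (K.subgroupOf H).Normal), H ≤ normalizer (P : Set G) ∧
        Nonempty ((H ⧸ K.subgroupOf H) ≃* SL(2, ZMod p)))
    (B : Subgroup G) (g : G) (hB : B ≤ (S : Subgroup G))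
    (hgB : ∀ b ∈ B, g * b * g⁻¹ ∈ (S : Subgroup G)) :
    Good (normalizer (ZZ 0 (S : Subgroup G) : Set G)) g B := by
  by_cases hS : (S : Subgroup G) = ⊥
  · refine ⟨1, one_mem _, fun b hb => ?_⟩
    have : b = 1 := by
      have := hB hb
      rwa [hS, Subgroup.mem_bot] at this
    simp [this]
  refine control_mainF S charOp_ZZ (FF S) ?_ ?_ ?_ ?_ _ B g rfl hB hgB
  · intro Q hQ u
    refine ⟨u⁻¹, ?_, ?_⟩
    · rw [Subgroup.map_map]
      have h1 : ((MulAut.conj u⁻¹).toMonoidHom.comp (MulAut.conj u).toMonoidHom) = MonoidHom.id G := by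
        ext x
        simp [MulAut.conj_apply]
        group
      rw [h1, Subgroup.map_id]
      exact cen_le_ZZ_inf S hQ
    · rw [Subgroup.map_map]
      have h1 : ((MulAut.conj u⁻¹).toMonoidHom.comp (MulAut.conj u).toMonoidHom) = MonoidHom.id G := by
        ext x
        simp [MulAut.conj_apply]
        group
      rw [h1, Subgroup.map_id]
      exact (ZZ_le_self 0 _).trans inf_le_left
  · rintro Q hQS hQ1 ⟨u, h1, h2⟩ hFN y hy B₀ hB₀ hyB₀
    have hsec : ¬ Sec (qd p) ↥(normalizer (Q : Set G)) :=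
      not_sec_normalizer_of_conj u (not_sec_of_free_le (hfree _ h1 h2))
    obtain ⟨T, hT⟩ := exists_sylow_of_FN hFN
    obtain ⟨x, -, hx, e⟩ := good_of_subgroup _ (good_of_free hp hsec) T hy (B := B₀) (by rw [hT]; exact hB₀)
      (by rw [hT]; exact hyB₀)
    rw [hT] at hx
    exact ⟨x, hx, e⟩
  · intro Q hQS
    refine ZZ_ne_bot (Or.inl rfl) ((S.isPGroup').to_le inf_le_left) ?_
    have h := inf_ne_bot S (strongly_closed_self (S : Subgroup G)) hS hQS
    rwa [inf_left_idem] at h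
  · intro Q hQS _ hF hFN y hy IH
    refine bypass S hQS ?_ hFN hy IH
    intro hZQ
    apply hF
    have h1 : Q.map (MulAut.conj (1 : G)).toMonoidHom = Q := by
      have h2 : (MulAut.conj (1 : G)).toMonoidHom = MonoidHom.id G := by
        ext x
        simp [MulAut.conj_apply]
      rw [h2, Subgroup.map_id]
    refine ⟨1, ?_, ?_⟩
    · rw [h1]; exact hZQ
    · rw [h1]; exact hQS

end Cfsg.Agent.Lib.PGroup.GenControlSL
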