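import Mathlib

/-!
# A finite Jordan division algebra of matrices is a field

Let `𝓜` be an additive subgroup of the matrix ring `M_d(𝔽_p)` (or of `End(Y)` for a `d`-dimensional `Y`) of
`𝔽_p`-dimension `d`, containing `1`, with every nonzero element invertible with inverse in `𝓜`.
Then `𝓜` is commutative and closed under multiplication: it is a field.

The proof: Hua's identity gives `a b a ∈ 𝓜`. The generic element `X = Σ tᵢ mᵢ` has determinant of total degree
`≤ d` in `d` variables with only the trivial zero over `𝔽_p`, so by Chevalley-Warning it has no nonconstant proper factor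
vanishing at `0`; by Gauss's lemma the minimal polynomial of `X` over `𝔽_p(t)` divides the characteristic polynomial in
`𝔽_p[t][T]`, so it has full degree `d`. All powers of `X` lie in the span of `𝓜`, so this span is `𝔽_p(t)[X]`.
-/

set_option autoImplicit false

namespace Cfsg.Agent.Lib.PGroup.HuaField

open Polynomial

/-- **Hua's identity**: an additive subgroup of a ring closed under inverses is closed under `a, b ↦ a b a`. -/
theorem mul_mul_self_mem {R : Type*} [Ring R] (𝓜 : AddSubgroup R)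
    (hinv : ∀ a ∈ 𝓜, a ≠ 0 → ∃ a' ∈ 𝓜, a * a' = 1 ∧ a' * a = 1)
    {a b : R} (ha : a ∈ 𝓜) (hb : b ∈ 𝓜) : a * b * a ∈ 𝓜 := by
  by_cases ha0 : a = 0
  · simp [ha0, 𝓜.zero_mem]
  by_cases hb0 : b = 0
  · simp [hb0, 𝓜.zero_mem]
  obtain ⟨a', ha', ha1, ha2⟩ := hinv a ha ha0
  obtain ⟨b', hb', hb1, hb2⟩ := hinv b hb hb0
  by_cases hc0 : b' - a = 0
  · have : b' = a := sub_eq_zero.mp hc0
    subst this
    rw [mul_assoc, hb1, mul_one]
    exact ha
  obtain ⟨c', hc', hc1, hc2⟩ := hinv (b' - a) (𝓜.sub_mem hb' ha) hc0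
  have hd : a' + c' ∈ 𝓜 := 𝓜.add_mem ha' hc'
  have hprod : (a' + c') * ((b' - a) * b * a) = 1 := by
    have h1 : a' * (b' - a) * b * a = 1 - b * a := by
      rw [mul_sub, sub_mul, sub_mul, ha2, one_mul, mul_assoc a' b' b, hb2, mul_one, ha2]
    have h2 : c' * ((b' - a) * b * a) = b * a := by
      rw [mul_assoc (b' - a), ← mul_assoc c', hc2, one_mul]
    rw [add_mul, h2, ← mul_assoc, ← mul_assoc, h1]
    abel
  by_cases hd0 : a' + c' = 0
  · -- then the ring is trivial
    rw [hd0, zero_mul] at hprod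
    have : a * b * a = (a * b * a) * 1 := (mul_one _).symm
    rw [← hprod, mul_zero] at this
    rw [this]
    exact 𝓜.zero_mem
  obtain ⟨d', hd', hd1, hd2⟩ := hinv _ hd hd0
  have hd3 : d' = (b' - a) * b * a := by
    calc d' = d' * ((a' + c') * ((b' - a) * b * a)) := by rw [hprod, mul_one]
      _ = (d' * (a' + c')) * ((b' - a) * b * a) := (mul_assoc _ _ _).symm
      _ = _ := by rw [hd2, one_mul]
  have hfin : a * b * a = a - (b' - a) * b * a := by
    rw [sub_mul, sub_mul, hb2, one_mul]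
    abel
  rw [hfin]
  exact 𝓜.sub_mem ha (hd3 ▸ hd')

section Generic

variable {p d : ℕ} [hp : Fact p.Prime]

local notation "Fp" => ZMod p
local notation "A" d => MvPolynomial (Fin d) (ZMod p)

/-- The generic element of a family of matrices. -/
noncomputable def genericMat (m : Fin d → Matrix (Fin d) (Fin d) (ZMod p)) :
    Matrix (Fin d) (Fin d) (MvPolynomial (Fin d) (ZMod p)) :=
  ∑ i, (MvPolynomial.X i : MvPolynomial (Fin d) (ZMod p)) • (m i).map (MvPolynomial.C)

theorem genericMat_apply (m : Fin d → Matrix (Fin d) (Fin d) (ZMod p)) (r c : Fin d) :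
    genericMat m r c = ∑ i, MvPolynomial.X i * MvPolynomial.C (m i r c) := by
  simp [genericMat, Matrix.sum_apply]

theorem map_eval_genericMat (m : Fin d → Matrix (Fin d) (Fin d) (ZMod p)) (t : Fin d → ZMod p) :
    (genericMat m).map (MvPolynomial.eval t) = ∑ i, t i • m i := by
  ext r c
  simp [genericMat_apply, Matrix.sum_apply]

theorem det_genericMat_homog (m : Fin d → Matrix (Fin d) (Fin d) (ZMod p)) :
    (genericMat m).det.IsHomogeneous d := by
  rw [Matrix.det_apply]
  refine MvPolynomial.IsHomogeneous.sum _ _ _ ?_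
  intro σ _
  have h : (∏ i, genericMat m (σ i) i).IsHomogeneous (∑ i : Fin d, 1) := by
    refine MvPolynomial.IsHomogeneous.prod _ _ _ ?_
    intro i _
    rw [genericMat_apply]
    refine MvPolynomial.IsHomogeneous.sum _ _ _ ?_
    intro j _
    have := (MvPolynomial.isHomogeneous_X (ZMod p) j).mul
      (MvPolynomial.isHomogeneous_C (Fin d) (m j (σ i) i))
    simpa using this
  simp only [Finset.sum_const, Finset.card_univ, Fintype.card_fin, smul_eq_mul, mul_one] at h
  rcases Int.units_eq_one_or (Equiv.Perm.sign σ) with hs | hs <;> simp [hs, h, h.neg]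

/-- If no nonzero point is a zero of `det X`, the generic minimal polynomial has full degree. -/
theorem natDegree_minpoly_generic (hd0 : 0 < d) (m : Fin d → Matrix (Fin d) (Fin d) (ZMod p))
    (hN : ∀ t : Fin d → ZMod p, t ≠ 0 → (∑ i, t i • m i).det ≠ 0) :
    (minpoly (FractionRing (MvPolynomial (Fin d) (ZMod p)))
      ((genericMat m).map (algebraMap _ (FractionRing (MvPolynomial (Fin d) (ZMod p)))))).natDegree = d := by
  classical
  set R := MvPolynomial (Fin d) (ZMod p) with hR
  set K := FractionRing R with hK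
  set Xm := genericMat m with hXm
  set XK := Xm.map (algebraMap R K) with hXK
  have : Nonempty (Fin d) := ⟨⟨0, hd0⟩⟩
  have hinj : Function.Injective (algebraMap R K) := IsFractionRing.injective R K
  have hint : IsIntegral K XK := IsIntegral.of_finite K XK
  have hmonic := minpoly.monic hint
  have hdvd : minpoly K XK ∣ Xm.charpoly.map (algebraMap R K) := by
    apply minpoly.dvd
    rw [← Matrix.charpoly_map]
    exact Matrix.aeval_self_charpoly _
  obtain ⟨μ', hμ'⟩ := IsIntegrallyClosed.eq_map_mul_C_of_dvd K (Matrix.charpoly_monic Xm) hdvd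
  have hμ : μ'.map (algebraMap R K) = minpoly K XK := by
    rw [← hμ', hmonic.leadingCoeff, map_one, mul_one]
  have hμ'm : μ'.Monic := monic_of_injective hinj (by rw [hμ]; exact hmonic)
  have hdvd' : μ' ∣ Xm.charpoly := by
    rw [← map_dvd_map _ hinj hμ'm, hμ]
    exact hdvd
  obtain ⟨g', hg'⟩ := hdvd'
  have hg'm : g'.Monic := hμ'm.of_mul_monic_left (hg' ▸ Matrix.charpoly_monic Xm)
  have hdeg : μ'.natDegree + g'.natDegree = d := by
    have := Matrix.charpoly_natDegree_eq_dim Xm
    rw [hg', hμ'm.natDegree_mul hg'm] at this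
    simpa using this
  have hdegμ : (minpoly K XK).natDegree = μ'.natDegree := by
    rw [← hμ, natDegree_map_eq_of_injective hinj]
  -- the degree of `μ'` is positive
  have hr0 : μ'.natDegree ≠ 0 := by
    rw [← hdegμ]
    exact (minpoly.natDegree_pos hint).ne'
  rw [hdegμ]
  by_contra hne
  have hg0 : g'.natDegree ≠ 0 := by omega
  -- specialise at `t = 0`
  set φ : R →+* ZMod p := MvPolynomial.eval (0 : Fin d → ZMod p) with hφ
  have hX0 : Xm.map φ = 0 := by
    rw [hXm, hφ, map_eval_genericMat]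
    simp
  have hχ0 : (Xm.charpoly).map φ = X ^ d := by
    rw [← Matrix.charpoly_map, hX0]
    simp [Matrix.charpoly, Matrix.charmatrix]
  have hfac : (μ'.map φ) * (g'.map φ) = X ^ d := by
    rw [← Polynomial.map_mul, ← hg', hχ0]
  have hcoeff0 : ∀ q : R[X], q.Monic → q.natDegree ≠ 0 → q.map φ ∣ X ^ d → φ (q.coeff 0) = 0 := by
    intro q hq hq0 hdv
    obtain ⟨i, _, hi⟩ := (dvd_prime_pow prime_X d).1 hdv
    have hqm : (q.map φ).Monic := hq.map φ
    have h2 : q.map φ = X ^ i := eq_of_monic_of_associated hqm (monic_X_pow i) hi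
    have h3 : (q.map φ).natDegree = q.natDegree := hq.natDegree_map φ
    rw [h2, natDegree_X_pow] at h3
    have h4 : (q.map φ).coeff 0 = 0 := by
      rw [h2, coeff_X_pow, if_neg]
      omega
    rwa [coeff_map] at h4
  have hf0 := hcoeff0 μ' hμ'm hr0 ⟨_, hfac.symm⟩
  have hg00 := hcoeff0 g' hg'm hg0 ⟨_, (by rw [mul_comm]; exact hfac.symm)⟩
  set f := μ'.coeff 0 with hf
  set g := g'.coeff 0 with hg
  have hdet : Xm.det = (-1) ^ d * (f * g) := by
    rw [Matrix.det_eq_sign_charpoly_coeff, hg', mul_coeff_zero, Fintype.card_fin]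
  have hevdet : ∀ t : Fin d → ZMod p, MvPolynomial.eval t Xm.det = (∑ i, t i • m i).det := by
    intro t
    rw [← map_eval_genericMat, RingHom.map_det]
    rfl
  -- nonvanishing
  have hne0 : ∀ t : Fin d → ZMod p, t ≠ 0 → MvPolynomial.eval t f ≠ 0 ∧ MvPolynomial.eval t g ≠ 0 := by
    intro t ht
    have h1 := hN t ht
    rw [← hevdet, hdet, map_mul, map_mul] at h1
    constructor
    · intro h; apply h1; rw [h]; simp
    · intro h; apply h1; rw [h]; simp
  have htt : ∃ t : Fin d → ZMod p, t ≠ 0 := ⟨fun _ => 1, fun h => one_ne_zero (congrFun h ⟨0, hd0⟩)⟩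
  obtain ⟨t₀, ht₀⟩ := htt
  have hfne : f ≠ 0 := fun h => (hne0 t₀ ht₀).1 (by rw [h]; simp)
  have hgne : g ≠ 0 := fun h => (hne0 t₀ ht₀).2 (by rw [h]; simp)
  have hdegN : (f * g).totalDegree ≤ d := by
    have h1 : f * g = (-1) ^ d * Xm.det := by
      rw [hdet, ← mul_assoc, ← mul_pow]
      simp
    rw [h1]
    refine (MvPolynomial.totalDegree_mul _ _).trans ?_
    have h2 : ((-1 : R) ^ d).totalDegree = 0 := by
      have : ((-1 : R) ^ d) = MvPolynomial.C ((-1) ^ d) := by simp
      rw [this, MvPolynomial.totalDegree_C]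
    rw [h2, zero_add]
    exact (det_genericMat_homog m).totalDegree_le
  rw [MvPolynomial.totalDegree_mul_of_isDomain hfne hgne] at hdegN
  have hgdeg : g.totalDegree ≠ 0 := by
    intro h
    have h1 := MvPolynomial.totalDegree_eq_zero_iff_eq_C.1 h
    rw [h1, hφ, MvPolynomial.eval_C] at hg00
    apply hgne
    rw [h1, hg00, map_zero]
  have hfdeg : f.totalDegree < Fintype.card (Fin d) := by
    rw [Fintype.card_fin]; omega
  have hCW := char_dvd_card_solutions p hfdeg
  have hsub : Subsingleton { x : Fin d → ZMod p // MvPolynomial.eval x f = 0 } := by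
    constructor
    rintro ⟨x, hx⟩ ⟨y, hy⟩
    have hx0 : x = 0 := by
      by_contra h
      exact (hne0 x h).1 hx
    have hy0 : y = 0 := by
      by_contra h
      exact (hne0 y h).1 hy
    exact Subtype.ext (hx0.trans hy0.symm)
  have hne1 : Nonempty { x : Fin d → ZMod p // MvPolynomial.eval x f = 0 } := ⟨⟨0, hf0⟩⟩
  have hcard : Fintype.card { x : Fin d → ZMod p // MvPolynomial.eval x f = 0 } = 1 :=
    Fintype.card_eq_one_iff_nonempty_unique.2 ⟨⟨⟨⟨0, hf0⟩⟩, fun _ => Subsingleton.elim _ _⟩⟩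
  rw [hcard] at hCW
  exact hp.out.one_lt.ne' (Nat.dvd_one.1 hCW)

/-- Main commutativity statement in matrix form. -/
theorem commute_of_jordan (hd0 : 0 < d) (𝓜 : Submodule (ZMod p) (Matrix (Fin d) (Fin d) (ZMod p)))
    (h1 : (1 : Matrix (Fin d) (Fin d) (ZMod p)) ∈ 𝓜)
    (hU : ∀ a ∈ 𝓜, a ≠ 0 → a.det ≠ 0)
    (hJ : ∀ a ∈ 𝓜, ∀ b ∈ 𝓜, a * b * a ∈ 𝓜)
    (hd : Module.finrank (ZMod p) 𝓜 = d) :
    ∀ a ∈ 𝓜, ∀ b ∈ 𝓜, a * b = b * a := by
  classical
  set R := MvPolynomial (Fin d) (ZMod p) with hR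
  set K := FractionRing R with hK
  let bs : Module.Basis (Fin d) (ZMod p) 𝓜 := Module.finBasisOfFinrankEq (ZMod p) 𝓜 hd
  let m : Fin d → Matrix (Fin d) (Fin d) (ZMod p) := fun i => (bs i : Matrix (Fin d) (Fin d) (ZMod p))
  have hmem : ∀ i, m i ∈ 𝓜 := fun i => (bs i).2
  -- the sum is an element of `𝓜`
  have hsum : ∀ t : Fin d → ZMod p, (∑ i, t i • m i) = ((bs.equivFun.symm t : 𝓜) : Matrix (Fin d) (Fin d) (ZMod p)) := by
    intro t
    simp [Module.Basis.equivFun_symm_apply, m]
  have hN : ∀ t : Fin d → ZMod p, t ≠ 0 → (∑ i, t i • m i).det ≠ 0 := by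
    intro t ht
    rw [hsum]
    apply hU _ (Subtype.property _)
    intro h
    apply ht
    have : bs.equivFun.symm t = 0 := Subtype.ext h
    exact (bs.equivFun.symm.map_eq_zero_iff).1 this
  have hdeg := natDegree_minpoly_generic hd0 m hN
  let ι : ZMod p →+* K := (algebraMap R K).comp MvPolynomial.C
  have hι : Function.Injective ι := ι.injective
  let bar : Matrix (Fin d) (Fin d) (ZMod p) →+* Matrix (Fin d) (Fin d) K := ι.mapMatrix
  have hbar : ∀ x y, bar (x * y) = bar x * bar y := fun x y => map_mul bar x y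
  let L : Submodule K (Matrix (Fin d) (Fin d) K) := Submodule.span K (Set.range fun i => bar (m i))
  -- `𝓜` maps into `L`
  have hbarL : ∀ w ∈ 𝓜, bar w ∈ L := by
    intro w hw
    have h1 : w = ∑ i, bs.repr ⟨w, hw⟩ i • m i := by
      have h2 : ((∑ i, bs.repr ⟨w, hw⟩ i • bs i : 𝓜) : Matrix (Fin d) (Fin d) (ZMod p)) = w :=
        congrArg Subtype.val (bs.sum_repr ⟨w, hw⟩)
      simp only [AddSubmonoidClass.coe_finsetSum, Submodule.coe_smul] at h2
      exact h2.symm
    rw [h1, map_sum]
    refine Submodule.sum_mem _ (fun i _ => ?_)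
    have h3 : bar (bs.repr ⟨w, hw⟩ i • m i) = ι (bs.repr ⟨w, hw⟩ i) • bar (m i) := by
      ext r c
      simp [bar, RingHom.mapMatrix_apply, Matrix.map_apply]
    rw [h3]
    exact Submodule.smul_mem _ _ (Submodule.subset_span ⟨i, rfl⟩)
  -- triple products
  have htri₀ : ∀ x ∈ 𝓜, ∀ z ∈ 𝓜, ∀ y ∈ 𝓜, x * z * y + y * z * x ∈ 𝓜 := by
    intro x hx z hz y hy
    have h1 := hJ (x + y) (𝓜.add_mem hx hy) z hz
    have h2 := 𝓜.sub_mem (𝓜.sub_mem h1 (hJ x hx z hz)) (hJ y hy z hz)
    convert h2 using 1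
    noncomm_ring
  have htri : ∀ x ∈ L, ∀ z ∈ L, ∀ y ∈ L, x * z * y + y * z * x ∈ L := by
    intro x hx z hz y hy
    induction hx using Submodule.span_induction with
    | zero => simp
    | add x₁ x₂ _ _ h₁ h₂ =>
      have := L.add_mem h₁ h₂
      convert this using 1
      noncomm_ring
    | smul c x₁ _ h₁ =>
      have := L.smul_mem c h₁
      convert this using 1
      simp [smul_add]
    | mem x₁ hx₁ =>
      obtain ⟨i, rfl⟩ := hx₁
      induction hy using Submodule.span_induction with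
      | zero => simp
      | add y₁ y₂ _ _ h₁ h₂ =>
        have := L.add_mem h₁ h₂
        convert this using 1
        noncomm_ring
      | smul c y₁ _ h₁ =>
        have := L.smul_mem c h₁
        convert this using 1
        simp [smul_add]
      | mem y₁ hy₁ =>
        obtain ⟨j, rfl⟩ := hy₁
        induction hz using Submodule.span_induction with
        | zero => simp
        | add z₁ z₂ _ _ h₁ h₂ =>
          have := L.add_mem h₁ h₂
          convert this using 1
          noncomm_ring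
        | smul c z₁ _ h₁ =>
          have := L.smul_mem c h₁
          convert this using 1
          simp [smul_add]
        | mem z₁ hz₁ =>
          obtain ⟨k, rfl⟩ := hz₁
          have := hbarL _ (htri₀ _ (hmem i) _ (hmem k) _ (hmem j))
          simpa [hbar] using this
  have hsq : ∀ x ∈ L, ∀ z ∈ L, x * z * x ∈ L := by
    intro x hx z hz
    induction hx using Submodule.span_induction with
    | zero => simp
    | add x₁ x₂ hx₁ hx₂ h₁ h₂ =>
      have := L.add_mem (L.add_mem h₁ h₂) (htri _ hx₁ _ hz _ hx₂)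
      convert this using 1
      noncomm_ring
    | smul c x₁ _ h₁ =>
      have := L.smul_mem (c * c) h₁
      convert this using 1
      simp [smul_smul]
    | mem x₁ hx₁ =>
      obtain ⟨i, rfl⟩ := hx₁
      induction hz using Submodule.span_induction with
      | zero => simp
      | add z₁ z₂ _ _ h₁ h₂ =>
        have := L.add_mem h₁ h₂
        convert this using 1
        noncomm_ring
      | smul c z₁ _ h₁ =>
        have := L.smul_mem c h₁
        convert this using 1
        simp
      | mem z₁ hz₁ =>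
        obtain ⟨k, rfl⟩ := hz₁
        have := hbarL _ (hJ _ (hmem i) _ (hmem k))
        simpa [hbar] using this
  -- the generic element
  set XK : Matrix (Fin d) (Fin d) K := (genericMat m).map (algebraMap R K) with hXK
  have hXKsum : XK = ∑ i, (algebraMap R K (MvPolynomial.X i)) • bar (m i) := by
    ext r c
    simp [hXK, genericMat_apply, Matrix.sum_apply, bar, ι, RingHom.mapMatrix_apply, Matrix.map_apply]
    exact Finset.sum_congr rfl (fun i _ => by rw [Algebra.smul_def])
  have hXL : XK ∈ L := by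
    rw [hXKsum]
    exact Submodule.sum_mem _ (fun i _ => Submodule.smul_mem _ _ (Submodule.subset_span ⟨i, rfl⟩))
  have h1L : (1 : Matrix (Fin d) (Fin d) K) ∈ L := by
    have := hbarL 1 h1
    simpa using this
  have hpow : ∀ j : ℕ, XK ^ j ∈ L ∧ XK ^ (j + 1) ∈ L := by
    intro j
    induction j with
    | zero => simpa using ⟨h1L, hXL⟩
    | succ j ih =>
      refine ⟨ih.2, ?_⟩
      have := hsq _ hXL _ ih.1
      convert this using 1
      rw [pow_succ XK (j + 1), pow_succ' XK j]
  -- dimension count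
  have hli := linearIndependent_pow (K := K) XK
  let L' : Submodule K (Matrix (Fin d) (Fin d) K) :=
    Submodule.span K (Set.range fun i : Fin (minpoly K XK).natDegree => XK ^ (i : ℕ))
  have hL'le : L' ≤ L := by
    refine Submodule.span_le.2 ?_
    rintro _ ⟨i, rfl⟩
    exact (hpow i).1
  have hL'card : Module.finrank K L' = d := by
    rw [finrank_span_eq_card hli, Fintype.card_fin]
    exact hdeg
  have hLcard : Module.finrank K L ≤ d := by
    have := finrank_range_le_card (R := K) (fun i : Fin d => bar (m i))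
    rw [Fintype.card_fin] at this
    exact this
  have hLL' : L' = L := Submodule.eq_of_le_of_finrank_le hL'le (by omega)
  have hpoly : ∀ z ∈ L', ∃ q : K[X], aeval XK q = z := by
    intro z hz
    induction hz using Submodule.span_induction with
    | zero => exact ⟨0, by simp⟩
    | add z₁ z₂ _ _ h₁ h₂ =>
      obtain ⟨q₁, rfl⟩ := h₁
      obtain ⟨q₂, rfl⟩ := h₂
      exact ⟨q₁ + q₂, by simp⟩
    | smul c z₁ _ h₁ =>
      obtain ⟨q₁, rfl⟩ := h₁
      exact ⟨C c * q₁, by simp [Algebra.smul_def]⟩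
    | mem z₁ hz₁ =>
      obtain ⟨i, rfl⟩ := hz₁
      exact ⟨X ^ (i : ℕ), by simp⟩
  intro a ha b hb
  obtain ⟨q₁, hq₁⟩ := hpoly (bar a) (hLL' ▸ hbarL a ha)
  obtain ⟨q₂, hq₂⟩ := hpoly (bar b) (hLL' ▸ hbarL b hb)
  have hinj : Function.Injective bar := Matrix.map_injective hι
  apply hinj
  rw [hbar, hbar, ← hq₁, ← hq₂, ← map_mul, ← map_mul, mul_comm]

end Generic

section Endo

variable {p : ℕ} [hp : Fact p.Prime] {Y : Type*} [AddCommGroup Y] [Module (ZMod p) Y] [Finite Y]

/-- Commutativity in `End(Y)`. -/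
theorem commute_of_inverse_closed [Nontrivial Y] (𝓜 : Submodule (ZMod p) (Module.End (ZMod p) Y))
    (h1 : (1 : Module.End (ZMod p) Y) ∈ 𝓜)
    (hinv : ∀ a ∈ 𝓜, a ≠ 0 → ∃ a' ∈ 𝓜, a * a' = 1 ∧ a' * a = 1)
    (hd : Module.finrank (ZMod p) 𝓜 = Module.finrank (ZMod p) Y) :
    ∀ a ∈ 𝓜, ∀ b ∈ 𝓜, a * b = b * a := by
  classical
  have : Module.Finite (ZMod p) Y := Module.Finite.of_finite
  have hd0 : 0 < Module.finrank (ZMod p) Y := Module.finrank_pos
  set d := Module.finrank (ZMod p) Y with hdd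
  let bs : Module.Basis (Fin d) (ZMod p) Y := Module.finBasisOfFinrankEq (ZMod p) Y rfl
  let e := LinearMap.toMatrixAlgEquiv (R := ZMod p) bs
  let 𝓝 : Submodule (ZMod p) (Matrix (Fin d) (Fin d) (ZMod p)) := 𝓜.map e.toLinearMap
  have hmem : ∀ x, e x ∈ 𝓝 ↔ x ∈ 𝓜 := by
    intro x
    constructor
    · rintro ⟨y, hy, hxy⟩
      have : y = x := e.injective hxy
      exact this ▸ hy
    · intro hx
      exact ⟨x, hx, rfl⟩
  have hsurj : ∀ z ∈ 𝓝, ∃ x ∈ 𝓜, e x = z := by
    rintro z ⟨y, hy, rfl⟩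
    exact ⟨y, hy, rfl⟩
  have hfr : Module.finrank (ZMod p) 𝓝 = d := by
    have h : Module.finrank (ZMod p) 𝓝 = Module.finrank (ZMod p) 𝓜 :=
      LinearEquiv.finrank_map_eq e.toLinearEquiv 𝓜
    rw [h, hd]
  have := commute_of_jordan hd0 𝓝 ((hmem 1).2 h1 |> fun h => by simpa using h)
    (by
      intro a ha ha0
      obtain ⟨x, hx, rfl⟩ := hsurj a ha
      have hx0 : x ≠ 0 := by
        rintro rfl
        simp at ha0
      obtain ⟨x', _, h2, _⟩ := hinv x hx hx0
      have h3 : (e x).det * (e x').det = 1 := by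
        rw [← Matrix.det_mul, ← map_mul, h2, map_one, Matrix.det_one]
      exact left_ne_zero_of_mul_eq_one h3)
    (by
      intro a ha b hb
      obtain ⟨x, hx, rfl⟩ := hsurj a ha
      obtain ⟨y, hy, rfl⟩ := hsurj b hb
      rw [← map_mul, ← map_mul, hmem]
      exact mul_mul_self_mem 𝓜.toAddSubgroup hinv hx hy)
    hfr
  intro a ha b hb
  apply e.injective
  rw [map_mul, map_mul]
  exact this _ ((hmem a).2 ha) _ ((hmem b).2 hb)

/-- **Hua-field theorem**: an additive subgroup of `End(Y)` of dimension `dim Y`, containing `1`, closed under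
inverses of nonzero elements, is commutative and closed under multiplication. -/
theorem field_of_inverse_closed [Nontrivial Y] (𝓜 : Submodule (ZMod p) (Module.End (ZMod p) Y))
    (h1 : (1 : Module.End (ZMod p) Y) ∈ 𝓜)
    (hinv : ∀ a ∈ 𝓜, a ≠ 0 → ∃ a' ∈ 𝓜, a * a' = 1 ∧ a' * a = 1)
    (hd : Module.finrank (ZMod p) 𝓜 = Module.finrank (ZMod p) Y) :
    (∀ a ∈ 𝓜, ∀ b ∈ 𝓜, a * b = b * a) ∧ (∀ a ∈ 𝓜, ∀ b ∈ 𝓜, a * b ∈ 𝓜) := by
  classical
  have hcomm := commute_of_inverse_closed 𝓜 h1 hinv hd
  refine ⟨hcomm, ?_⟩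
  have hJ : ∀ a ∈ 𝓜, ∀ b ∈ 𝓜, a * b * a ∈ 𝓜 := fun a ha b hb =>
    mul_mul_self_mem 𝓜.toAddSubgroup hinv ha hb
  have hsq : ∀ a ∈ 𝓜, a * a ∈ 𝓜 := fun a ha => by
    have := hJ a ha 1 h1
    simpa using this
  intro a ha b hb
  by_cases h2 : p = 2
  · subst h2
    have h2' : ∀ x : Module.End (ZMod 2) Y, x + x = 0 := by
      intro x
      have : (2 : ZMod 2) • x = 0 := by
        rw [show (2 : ZMod 2) = 0 from rfl, zero_smul]
      rwa [two_smul] at this
    -- squaring on `𝓜` is injective
    let sq : 𝓜 → 𝓜 := fun s => ⟨s.1 * s.1, hsq _ s.2⟩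
    have hinj : Function.Injective sq := by
      rintro ⟨s, hs⟩ ⟨t, ht⟩ hst
      have h3 : s * s = t * t := congrArg Subtype.val hst
      have h4 : (s - t) * (s - t) = 0 := by
        have h5 : s * t = t * s := hcomm s hs t ht
        have h6 : (s - t) * (s - t) = s * s + t * t - (t * s + t * s) := by
          rw [mul_sub, sub_mul, sub_mul, h5]
          abel
        rw [h6, h2', h3, h2']
        simp
      by_cases h7 : s - t = 0
      · exact Subtype.ext (sub_eq_zero.1 h7)
      · obtain ⟨u, _, h8, _⟩ := hinv _ (𝓜.sub_mem hs ht) h7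
        exfalso
        apply h7
        calc s - t = (s - t) * ((s - t) * u) := by rw [h8, mul_one]
          _ = ((s - t) * (s - t)) * u := by rw [mul_assoc]
          _ = 0 := by rw [h4, zero_mul]
    have : Finite 𝓜 := Finite.of_injective (fun s : 𝓜 => (s : Y →ₗ[ZMod 2] Y).toFun)
      (fun x y h => Subtype.ext (LinearMap.ext (fun w => congrFun h w)))
    obtain ⟨⟨s, hs⟩, hsa⟩ := (Finite.injective_iff_surjective.1 hinj) ⟨a, ha⟩
    have h3 : s * s = a := congrArg Subtype.val hsa
    rw [← h3]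
    have h4 : s * s * b = s * b * s := by
      calc s * s * b = s * (s * b) := mul_assoc _ _ _
        _ = s * (b * s) := by rw [hcomm s hs b hb]
        _ = s * b * s := (mul_assoc _ _ _).symm
    rw [h4]
    exact hJ s hs b hb
  · have h3 : (2 : ZMod p) ≠ 0 := by
      intro h
      have : ((2 : ℕ) : ZMod p) = 0 := by exact_mod_cast h
      rw [ZMod.natCast_eq_zero_iff] at this
      exact h2 ((Nat.prime_dvd_prime_iff_eq hp.out Nat.prime_two).1 this)
    have h4 : (2 : ZMod p) • (a * b) = (a + b) * (a + b) - a * a - b * b := by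
      rw [two_smul, add_mul, mul_add, mul_add, hcomm b hb a ha]
      abel
    have h5 : (2 : ZMod p) • (a * b) ∈ 𝓜 := by
      rw [h4]
      exact 𝓜.sub_mem (𝓜.sub_mem (hsq _ (𝓜.add_mem ha hb)) (hsq a ha)) (hsq b hb)
    have h6 : a * b = (2 : ZMod p)⁻¹ • (2 : ZMod p) • (a * b) := by
      rw [smul_smul, inv_mul_cancel₀ h3, one_smul]
    rw [h6]
    exact 𝓜.smul_mem _ h5

end Endo

end Cfsg.Agent.Lib.PGroup.HuaField
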