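import Mathlib
import Cfsg.Agent.Lib.PGroup.KulakoffG

set_option autoImplicit false

/-!
# The number of elements of a given order with a noncyclic Sylow subgroup (`p` odd)

If `p` is odd and the Sylow `p`-subgroups of `G` are noncyclic, then for `s ≥ 2` and `m` prime to `p` the number
of elements of order `p^s m` is divisible by `p^s`.
-/

namespace Cfsg.Agent.Lib.PGroup.KulakoffE

open Subgroup Cfsg.Agent.Lib.PGroup.Kulakoff Cfsg.Agent.Lib.PGroup.KulakoffG

/-! ### Elements of order `n` and cyclic subgroups of order `n` -/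

section Count

variable {G : Type*} [Group G] [Finite G]

/-- The number of elements of order `n` is `φ(n)` times the number of cyclic subgroups of order `n`. -/
theorem card_order_eq (n : ℕ) :
    Nat.card {x : G // orderOf x = n} =
      n.totient * Nat.card {U : Subgroup G // IsCyclic U ∧ Nat.card U = n} := by
  classical
  haveI : Fintype {U : Subgroup G // IsCyclic U ∧ Nat.card U = n} := Fintype.ofFinite _
  let f : {x : G // orderOf x = n} → {U : Subgroup G // IsCyclic U ∧ Nat.card U = n} := fun x =>
    ⟨zpowers x.1, inferInstance, by rw [Nat.card_zpowers, x.2]⟩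
  have h1 : Nat.card {x : G // orderOf x = n} = Nat.card (Σ U, {x // f x = U}) :=
    Nat.card_congr (Equiv.sigmaFiberEquiv f).symm
  rw [h1, Nat.card_sigma]
  have hfib : ∀ U : {U : Subgroup G // IsCyclic U ∧ Nat.card U = n}, Nat.card {x // f x = U} = n.totient := by
    rintro ⟨U, hUc, hUn⟩
    have hnpos : 0 < n := hUn ▸ Nat.card_pos
    haveI : Fintype U := Fintype.ofFinite _
    have h2 : ((Finset.univ : Finset U).filter fun a => orderOf a = n).card = n.totient :=
      IsCyclic.card_orderOf_eq_totient (by rw [← Nat.card_eq_fintype_card, hUn])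
    rw [← h2, ← Fintype.card_subtype, ← Nat.card_eq_fintype_card]
    apply Nat.card_congr
    refine
      { toFun := fun x => ⟨⟨x.1.1, ?_⟩, ?_⟩
        invFun := fun u => ⟨⟨u.1.1, ?_⟩, ?_⟩
        left_inv := fun x => rfl
        right_inv := fun u => rfl }
    · have h3 : zpowers x.1.1 = U := congrArg Subtype.val x.2
      have h4 := mem_zpowers x.1.1
      rw [h3] at h4
      exact h4
    · show orderOf (⟨x.1.1, _⟩ : U) = n
      rw [Subgroup.orderOf_mk]
      exact x.1.2
    · have := u.2
      rwa [← Subgroup.orderOf_coe] at this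
    · apply Subtype.ext
      show zpowers u.1.1 = U
      apply Subgroup.eq_of_le_of_card_ge
      · rw [zpowers_le]
        exact u.1.2
      · rw [hUn, Nat.card_zpowers, Subgroup.orderOf_coe]
        exact u.2.ge
  rw [Finset.sum_congr rfl (fun U _ => hfib U), Finset.sum_const, Finset.card_univ, smul_eq_mul,
    mul_comm, Nat.card_eq_fintype_card]

/-- `φ(n)` divides the number of elements of order `n`. -/
theorem totient_dvd_card_order (n : ℕ) : n.totient ∣ Nat.card {x : G // orderOf x = n} :=
  ⟨_, card_order_eq n⟩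

/-- Elements of order `n` inside a subgroup. -/
theorem card_mem_order (L : Subgroup G) (n : ℕ) :
    Nat.card {x : G // x ∈ L ∧ orderOf x = n} = Nat.card {x : L // orderOf x = n} := by
  apply Nat.card_congr
  refine
    { toFun := fun x => ⟨⟨x.1, x.2.1⟩, by rw [Subgroup.orderOf_mk]; exact x.2.2⟩
      invFun := fun x => ⟨x.1.1, x.1.2, by rw [Subgroup.orderOf_coe]; exact x.2⟩
      left_inv := fun x => rfl
      right_inv := fun x => rfl }

end Count

/-! ### `p`-groups -/

section PGroupCase

universe u

variable {p : ℕ} [hp : Fact p.Prime]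

/-- For `p` odd: in a noncyclic group of order `p^b` the number of elements of order `p^s`, `s ≥ 2`, is divisible by
`p^s`. -/
theorem dvd_card_order_of_noncyclic (hodd : p ≠ 2) : ∀ b : ℕ, ∀ (G : Type u) [Group G] [Finite G],
    Nat.card G = p ^ b → ∀ s, 2 ≤ s → ¬ IsCyclic G → p ^ s ∣ Nat.card {x : G // orderOf x = p ^ s} := by
  classical
  have hpp := hp.out
  intro b
  induction b using Nat.strong_induction_on with
  | _ b ih =>
    intro G _ _ hG s hs hnc
    have hPG : IsPGroup p G := IsPGroup.of_card hG
    by_cases hsb : b ≤ s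
    · have : IsEmpty {x : G // orderOf x = p ^ s} := by
        refine ⟨fun x => ?_⟩
        have h1 : orderOf x.1 ∣ p ^ b := hG ▸ orderOf_dvd_natCard x.1
        rw [x.2] at h1
        have h2 := (Nat.pow_dvd_pow_iff_le_right hpp.one_lt).mp h1
        apply hnc
        apply isCyclic_of_orderOf_eq_card x.1
        rw [x.2, hG]
        congr 1
        omega
      rw [Nat.card_of_isEmpty]
      exact dvd_zero _
    push Not at hsb
    haveI : Fintype (G →* Multiplicative (ZMod p)) := Fintype.ofFinite _
    haveI : Fintype G := Fintype.ofFinite _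
    set D := Fintype.card (G →* Multiplicative (ZMod p)) with hD
    obtain ⟨D₂, hD₂⟩ : p ^ 2 ∣ D := by
      rw [hD, ← Nat.card_eq_fintype_card]
      exact sq_dvd_card_chi hPG hnc
    set e := Nat.card {x : G // orderOf x = p ^ s} with he
    set F : Subgroup G := ⨅ χ : G →* Multiplicative (ZMod p), χ.ker with hF
    have hmemF : ∀ x, x ∈ F ↔ ∀ χ : G →* Multiplicative (ZMod p), χ x = 1 := by
      intro x
      rw [hF, Subgroup.mem_iInf]
      rfl
    set f := Nat.card {x : G // x ∈ F ∧ orderOf x = p ^ s} with hf
    set term : (G →* Multiplicative (ZMod p)) → ℕ := fun χ =>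
      Nat.card {x : G // x ∈ χ.ker ∧ orderOf x = p ^ s} with hterm
    have key := double_count (A := G →* Multiplicative (ZMod p)) (B := G)
      (fun χ x => x ∈ χ.ker ∧ orderOf x = p ^ s)
    -- the values on the right
    have hy : ∀ x : G, p * Nat.card {χ : G →* Multiplicative (ZMod p) // x ∈ χ.ker ∧ orderOf x = p ^ s} =
        (if orderOf x = p ^ s then D else 0) + (if x ∈ F ∧ orderOf x = p ^ s then (p - 1) * D else 0) := by
      intro x
      by_cases h1 : orderOf x = p ^ s
      · have hc : Nat.card {χ : G →* Multiplicative (ZMod p) // x ∈ χ.ker ∧ orderOf x = p ^ s} =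
            Nat.card {χ : G →* Multiplicative (ZMod p) // χ x = 1} := by
          apply Nat.card_congr
          refine Equiv.subtypeEquivRight (fun χ => ?_)
          simp [h1, MonoidHom.mem_ker]
        rw [hc, if_pos h1]
        by_cases h2 : x ∈ F
        · rw [if_pos ⟨h2, h1⟩]
          have hall := (hmemF x).mp h2
          have hc2 : Nat.card {χ : G →* Multiplicative (ZMod p) // χ x = 1} = D := by
            rw [hD, ← Nat.card_eq_fintype_card]
            apply Nat.card_congr
            exact Equiv.subtypeUnivEquiv hall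
          rw [hc2]
          have hp1 : 1 ≤ p := hpp.pos
          calc p * D = (1 + (p - 1)) * D := by rw [Nat.add_sub_cancel' hp1]
            _ = D + (p - 1) * D := by ring
        · rw [if_neg (fun h => h2 h.1), add_zero]
          have hex : ∃ χ₀ : G →* Multiplicative (ZMod p), χ₀ x ≠ 1 := by
            by_contra hno
            push Not at hno
            exact h2 ((hmemF x).mpr hno)
          obtain ⟨χ₀, hχ₀⟩ := hex
          let ev : (G →* Multiplicative (ZMod p)) →* Multiplicative (ZMod p) :=
            { toFun := fun χ => χ x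
              map_one' := rfl
              map_mul' := fun _ _ => rfl }
          have hev : ev ≠ 1 := by
            intro h
            apply hχ₀
            have := congrArg (fun ψ => ψ χ₀) h
            exact this
          have hidx := index_ker hev
          have h3 := ev.ker.card_mul_index
          rw [hidx] at h3
          have hc3 : Nat.card ev.ker = Nat.card {χ : G →* Multiplicative (ZMod p) // χ x = 1} := rfl
          rw [← hc3, mul_comm, h3, hD, Nat.card_eq_fintype_card]
      · rw [if_neg h1, if_neg (fun h => h1 h.2), add_zero, mul_eq_zero]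
        right
        have : IsEmpty {χ : G →* Multiplicative (ZMod p) // x ∈ χ.ker ∧ orderOf x = p ^ s} :=
          ⟨fun χ => h1 χ.2.2⟩
        exact Nat.card_of_isEmpty
    -- the identity
    have hid : p * ∑ χ, term χ = D * e + (p - 1) * D * f := by
      have h1 : ∑ χ, term χ = _ := key
      rw [h1, Finset.mul_sum, Finset.sum_congr rfl (fun x _ => hy x), Finset.sum_add_distrib]
      congr 1
      · rw [he, card_subtype_eq_sum, Finset.mul_sum]
        refine Finset.sum_congr rfl (fun x _ => ?_)
        split_ifs <;> simp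
      · rw [hf, card_subtype_eq_sum, Finset.mul_sum]
        refine Finset.sum_congr rfl (fun x _ => ?_)
        split_ifs <;> simp
    -- the term at `χ = 1`
    have hone : term 1 = e := by
      apply Nat.card_congr
      refine Equiv.subtypeEquivRight (fun x => ?_)
      have : x ∈ (1 : G →* Multiplicative (ZMod p)).ker := by
        rw [MonoidHom.mem_ker]
        rfl
      simp [this]
    -- kernels
    have hker : ∀ χ : G →* Multiplicative (ZMod p), χ ≠ 1 → Nat.card χ.ker = p ^ (b - 1) := by
      intro χ hχ
      have h1 := χ.ker.card_mul_index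
      have e1 : p ^ b = p ^ (b - 1) * p := by
        rw [← pow_succ]
        congr 1
        omega
      rw [index_ker hχ, hG, e1] at h1
      exact Nat.eq_of_mul_eq_mul_right hpp.pos h1
    have htot : (p ^ s).totient = p ^ (s - 1) * (p - 1) :=
      Nat.totient_prime_pow hpp (by omega)
    -- divide the terms
    set C := ((Finset.univ.erase (1 : G →* Multiplicative (ZMod p))).filter
      (fun χ => IsCyclic χ.ker)).card with hC
    have hCdvd : p ∣ C := by
      by_cases hex : ∃ χ : G →* Multiplicative (ZMod p), χ ≠ 1 ∧ IsCyclic χ.ker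
      · obtain ⟨χ₁, hχ₁, hcyc⟩ := hex
        obtain ⟨x, hx⟩ := Cfsg.Agent.Lib.PGroup.CyclicMax.exists_zpowers_eq_of_isCyclic χ₁.ker hcyc
        have hordx : orderOf x = p ^ (b - 1) := by
          rw [← Nat.card_zpowers, hx, hker χ₁ hχ₁]
        have e1 : b = (b - 1) + 1 := by omega
        have hG' : Nat.card G = p ^ ((b - 1) + 1) := by rw [← e1]; exact hG
        obtain ⟨M₀, hM₀, hM₀nc, hM₀o⟩ := exists_noncyclic_complement hodd (b - 1) (by omega) hG' hnc x hordx
        have hfilter : (Finset.univ.erase (1 : G →* Multiplicative (ZMod p))).filter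
            (fun χ => IsCyclic χ.ker) = Finset.univ.filter (fun χ : G →* Multiplicative (ZMod p) => ¬ (M₀ ≤ χ.ker)) := by
          ext χ
          simp only [Finset.mem_filter, Finset.mem_erase, Finset.mem_univ, and_true, true_and]
          constructor
          · rintro ⟨hχ, hχc⟩ hle
            apply hM₀nc
            exact isCyclic_of_injective (Subgroup.inclusion hle) (Subgroup.inclusion_injective hle)
          · intro hle
            have hχ : χ ≠ 1 := by
              rintro rfl
              apply hle
              have hk : (1 : G →* Multiplicative (ZMod p)).ker = ⊤ := MonoidHom.ker_one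
              rw [hk]
              exact le_top
            refine ⟨hχ, ?_⟩
            have hex2 : ∃ g ∈ χ.ker, g ∉ M₀ := by
              by_contra hno
              push Not at hno
              have hkM : χ.ker ≤ M₀ := hno
              have hcardM : Nat.card M₀ ≤ p ^ (b - 1) := by
                have h1 : Nat.card M₀ ∣ p ^ ((b - 1) + 1) := hG' ▸ Subgroup.card_subgroup_dvd_card M₀
                obtain ⟨c, hc, hcM⟩ := (Nat.dvd_prime_pow hpp).mp h1
                rw [hcM]
                apply Nat.pow_le_pow_right hpp.pos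
                by_contra hlt
                have hc' : c = (b - 1) + 1 := by omega
                apply hM₀
                apply Subgroup.eq_top_of_card_eq
                rw [hcM, hG', hc']
              have : χ.ker = M₀ := by
                apply Subgroup.eq_of_le_of_card_ge hkM
                rw [hker χ hχ]
                exact hcardM
              exact hle this.ge
            obtain ⟨g, hgk, hgM⟩ := hex2
            apply isCyclic_of_orderOf_eq_card (⟨g, hgk⟩ : χ.ker)
            rw [Subgroup.orderOf_mk, hM₀o g hgM, hker χ hχ]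
        have hcount : C + Nat.card (Ysub p M₀) = D := by
          rw [hC, hfilter]
          have h1 : Nat.card (Ysub p M₀) = (Finset.univ.filter (fun χ : G →* Multiplicative (ZMod p) => M₀ ≤ χ.ker)).card := by
            rw [Nat.card_eq_fintype_card, Fintype.card_subtype]
            rfl
          rw [h1, add_comm]
          exact Finset.card_filter_add_card_filter_not _
        have hp1 : p ∣ Nat.card (Ysub p M₀) := prime_dvd_card_Ysub hPG hM₀
        have hp2 : p ∣ D := by
          rw [hD₂, pow_two, mul_assoc]
          exact Dvd.intro _ rfl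
        rw [← hcount] at hp2
        exact (Nat.dvd_add_left hp1).mp hp2
      · push Not at hex
        have : C = 0 := by
          rw [hC, Finset.card_eq_zero, Finset.filter_eq_empty_iff]
          intro χ hχ
          exact hex χ (Finset.ne_of_mem_erase hχ)
        rw [this]
        exact dvd_zero p
    have hterm2 : ∀ χ ∈ Finset.univ.erase (1 : G →* Multiplicative (ZMod p)),
        term χ = (if IsCyclic χ.ker then (p ^ s).totient else 0) + (if IsCyclic χ.ker then 0 else term χ) := by
      intro χ hχ
      have hχ' : χ ≠ 1 := Finset.ne_of_mem_erase hχ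
      by_cases hcyc : IsCyclic χ.ker
      · rw [if_pos hcyc, if_pos hcyc, add_zero]
        show Nat.card {x : G // x ∈ χ.ker ∧ orderOf x = p ^ s} = _
        rw [card_mem_order]
        haveI : Fintype χ.ker := Fintype.ofFinite _
        rw [Nat.card_eq_fintype_card, Fintype.card_subtype]
        apply IsCyclic.card_orderOf_eq_totient
        rw [← Nat.card_eq_fintype_card, hker χ hχ']
        exact pow_dvd_pow p (by omega)
      · rw [if_neg hcyc, if_neg hcyc, zero_add]
    have hsumdvd : p ^ s ∣ ∑ χ ∈ Finset.univ.erase (1 : G →* Multiplicative (ZMod p)), term χ := by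
      rw [Finset.sum_congr rfl hterm2, Finset.sum_add_distrib]
      apply dvd_add
      · rw [← Finset.sum_filter, Finset.sum_const, smul_eq_mul, ← hC, htot]
        obtain ⟨k, hk⟩ := hCdvd
        rw [hk]
        have e1 : p ^ s = p * p ^ (s - 1) := by
          rw [← pow_succ']
          congr 1
          omega
        rw [e1]
        exact ⟨k * (p - 1), by ring⟩
      · refine Finset.dvd_sum (fun χ hχ => ?_)
        by_cases hcyc : IsCyclic χ.ker
        · rw [if_pos hcyc]
          exact dvd_zero _
        · rw [if_neg hcyc]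
          show p ^ s ∣ Nat.card {x : G // x ∈ χ.ker ∧ orderOf x = p ^ s}
          rw [card_mem_order]
          exact ih (b - 1) (by omega) χ.ker (hker χ (Finset.ne_of_mem_erase hχ)) s hs hcyc
    -- `p^(s-1)` divides `f`
    have hfdvd : p ^ (s - 1) ∣ f := by
      rw [hf, card_mem_order]
      refine dvd_trans ?_ (totient_dvd_card_order (p ^ s))
      rw [htot]
      exact Dvd.intro _ rfl
    -- arithmetic
    have hsplit := Finset.add_sum_erase Finset.univ term (Finset.mem_univ (1 : G →* Multiplicative (ZMod p)))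
    rw [hone] at hsplit
    set S := ∑ χ ∈ Finset.univ.erase (1 : G →* Multiplicative (ZMod p)), term χ with hS
    rw [← hsplit, hD₂] at hid
    obtain ⟨S', hS'⟩ := hsumdvd
    obtain ⟨f', hf'⟩ := hfdvd
    have hp1 : 1 ≤ p := hpp.pos
    have e2 : p ^ s = p * p ^ (s - 1) := by
      rw [← pow_succ']
      congr 1
      omega
    -- work in the integers
    have hidZ : (e : ℤ) + (S : ℤ) = (p : ℤ) * D₂ * e + ((p : ℤ) - 1) * ((p : ℤ) * D₂) * f := by
      have h1 : ((p * (e + S) : ℕ) : ℤ) = ((p ^ 2 * D₂ * e + (p - 1) * (p ^ 2 * D₂) * f : ℕ) : ℤ) := by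
        rw [hid]
      push_cast [Nat.cast_sub hp1] at h1
      have hp0 : (p : ℤ) ≠ 0 := by exact_mod_cast hpp.ne_zero
      apply mul_left_cancel₀ hp0
      linear_combination h1
    have hdvdZ : ((p : ℤ) ^ s) ∣ (e : ℤ) * (1 - (p : ℤ) * D₂) := by
      refine ⟨((p : ℤ) - 1) * D₂ * f' - S', ?_⟩
      have hS2 : (S : ℤ) = (p : ℤ) ^ s * S' := by exact_mod_cast hS'
      have hf2 : (f : ℤ) = (p : ℤ) ^ (s - 1) * f' := by exact_mod_cast hf'
      have e3 : (p : ℤ) ^ s = (p : ℤ) * (p : ℤ) ^ (s - 1) := by exact_mod_cast e2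
      rw [hS2, hf2] at hidZ
      rw [e3] at hidZ ⊢
      linear_combination hidZ
    have hcop : IsCoprime ((p : ℤ) ^ s) (1 - (p : ℤ) * D₂) := by
      apply IsCoprime.pow_left
      exact ⟨D₂, 1, by ring⟩
    have := hcop.dvd_of_dvd_mul_right hdvdZ
    exact_mod_cast this

end PGroupCase

/-! ### General groups -/

section General

universe u

variable {G : Type u} [Group G] [Finite G] {p : ℕ} [hp : Fact p.Prime]

/-- The number of subgroups with a conjugation invariant property not normalized by a `p`-subgroup `K` is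
divisible by `p`. -/
theorem dvd_card_not_normalized (K : Subgroup G) (hK : IsPGroup p K) (A : Subgroup G → Prop)
    (hA : ∀ g ∈ K, ∀ U, A U → A (cj g U)) :
    p ∣ Nat.card {U : Subgroup G // A U ∧ ¬ K ≤ normalizer U} := by
  classical
  haveI : Fintype (Subgroup G) := Fintype.ofFinite _
  rw [card_subtype_eq_sum]
  apply dvd_sum_cj K p
  · intro g hg U
    by_cases hc : A U ∧ ¬ K ≤ normalizer U
    · rw [if_pos hc, if_pos]
      refine ⟨hA g hg U hc.1, ?_⟩
      intro h
      apply hc.2
      have hgK : cj g K = K := cj_eq_of_mem_normalizer (Subgroup.le_normalizer hg)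
      rw [cj_normalizer, ← hgK] at h
      rw [hgK] at h
      rw [← hgK] at h
      exact cj_le_iff.mp h
    · rw [if_neg hc]
      exact Nat.zero_le _
  · intro U hU
    have hc : A U ∧ ¬ K ≤ normalizer U := by
      by_contra hc
      exact hU (if_neg hc)
    apply mul_card_dvd_of_lt hK
    refine lt_of_le_of_ne inf_le_left ?_
    intro he
    exact hc.2 (inf_eq_left.mp he)

theorem isCyclic_cj {g : G} {U : Subgroup G} (hU : IsCyclic U) : IsCyclic (cj g U) :=
  isCyclic_of_surjective (Subgroup.equivMapOfInjective U _ (MulAut.conj g).injective)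
    (MulEquiv.surjective _)

/-- Cyclic subgroups inside a subgroup. -/
theorem card_cyclic_sub (L : Subgroup G) (n : ℕ) :
    Nat.card {U : Subgroup G // (U ≤ L ∧ IsCyclic U ∧ Nat.card U = n)} =
      Nat.card {U : Subgroup L // IsCyclic U ∧ Nat.card U = n} := by
  apply Nat.card_congr
  refine
    { toFun := fun U => ⟨U.1.subgroupOf L, ?_, ?_⟩
      invFun := fun U => ⟨U.1.map L.subtype, map_subtype_le _, ?_, ?_⟩
      left_inv := ?_
      right_inv := ?_ }
  · haveI := U.2.2.1
    exact isCyclic_of_surjective (Subgroup.subgroupOfEquivOfLe U.2.1).symm (MulEquiv.surjective _)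
  · rw [Nat.card_congr (Subgroup.subgroupOfEquivOfLe U.2.1).toEquiv]
    exact U.2.2.2
  · have := U.2.1
    exact isCyclic_of_surjective (Subgroup.equivMapOfInjective U.1 _ L.subtype_injective)
      (MulEquiv.surjective _)
  · rw [Nat.card_congr (Subgroup.equivMapOfInjective U.1 _ L.subtype_injective).symm.toEquiv]
    exact U.2.2
  · rintro ⟨U, hU⟩
    apply Subtype.ext
    ext x
    simp only [mem_map, mem_subgroupOf, subtype_apply]
    constructor
    · rintro ⟨y, hy, rfl⟩
      exact hy
    · intro hx
      exact ⟨⟨x, hU.1 hx⟩, hx, rfl⟩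
  · rintro ⟨U, hU⟩
    apply Subtype.ext
    ext x
    simp only [mem_subgroupOf, mem_map, subtype_apply]
    constructor
    · rintro ⟨y, hy, hyx⟩
      have : y = x := Subtype.ext hyx
      exact this ▸ hy
    · intro hx
      exact ⟨x, hx, rfl⟩

/-- For `p` odd and noncyclic Sylow `p`-subgroups, the number of cyclic subgroups of order `p^s`, `s ≥ 2`, is divisible by
`p`. -/
theorem dvd_card_cyclic (hodd : p ≠ 2) (P : Sylow p G) (hP : ¬ IsCyclic (P : Subgroup G)) (s : ℕ) (hs : 2 ≤ s) :
    p ∣ Nat.card {U : Subgroup G // IsCyclic U ∧ Nat.card U = p ^ s} := by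
  classical
  have hpp := hp.out
  haveI : Fintype (Subgroup G) := Fintype.ofFinite _
  have hPp : IsPGroup p (P : Subgroup G) := P.2
  have hinv1 : ∀ g ∈ (P : Subgroup G), ∀ U : Subgroup G, (IsCyclic U ∧ Nat.card U = p ^ s) →
      (IsCyclic (cj g U) ∧ Nat.card (cj g U) = p ^ s) := by
    intro g _ U hU
    exact ⟨isCyclic_cj hU.1, by rw [card_cj]; exact hU.2⟩
  have hinv2 : ∀ g ∈ (P : Subgroup G), ∀ U : Subgroup G, (U ≤ (P : Subgroup G) ∧ IsCyclic U ∧ Nat.card U = p ^ s) →
      (cj g U ≤ (P : Subgroup G) ∧ IsCyclic (cj g U) ∧ Nat.card (cj g U) = p ^ s) := by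
    intro g hg U hU
    have hgP : cj g (P : Subgroup G) = P := cj_eq_of_mem_normalizer (Subgroup.le_normalizer hg)
    refine ⟨?_, isCyclic_cj hU.2.1, by rw [card_cj]; exact hU.2.2⟩
    rw [← hgP]
    exact cj_le hU.1
  have h1 := dvd_card_not_normalized (P : Subgroup G) hPp _ hinv1
  have h2 := dvd_card_not_normalized (P : Subgroup G) hPp _ hinv2
  -- the count in `P`
  obtain ⟨b, hb⟩ := hPp.exists_card_eq
  have h3 : p ∣ Nat.card {U : Subgroup (P : Subgroup G) // IsCyclic U ∧ Nat.card U = p ^ s} := by
    have h4 := dvd_card_order_of_noncyclic hodd b (P : Subgroup G) hb s hs hP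
    rw [card_order_eq, Nat.totient_prime_pow hpp (by omega)] at h4
    set c := Nat.card {U : Subgroup (P : Subgroup G) // IsCyclic U ∧ Nat.card U = p ^ s}
    have e : p ^ s = p ^ (s - 1) * p := by
      rw [← pow_succ]
      congr 1
      omega
    rw [e, mul_assoc] at h4
    have h5 : p ∣ (p - 1) * c := Nat.dvd_of_mul_dvd_mul_left (pow_pos hpp.pos _) h4
    rcases (Nat.Prime.dvd_mul hpp).mp h5 with h6 | h6
    · exfalso
      have := Nat.le_of_dvd (by have := hpp.two_le; omega) h6
      have := hpp.two_le
      omega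
    · exact h6
  rw [← card_cyclic_sub] at h3
  -- comparison
  have hs1 : Nat.card {U : Subgroup G // IsCyclic U ∧ Nat.card U = p ^ s} =
      Nat.card {U : Subgroup G // (IsCyclic U ∧ Nat.card U = p ^ s) ∧ ¬ (P : Subgroup G) ≤ normalizer U} +
        Nat.card {U : Subgroup G // (IsCyclic U ∧ Nat.card U = p ^ s) ∧ (P : Subgroup G) ≤ normalizer U} := by
    rw [card_subtype_eq_sum, card_subtype_eq_sum, card_subtype_eq_sum, ← Finset.sum_add_distrib]
    refine Finset.sum_congr rfl (fun U _ => ?_)
    by_cases h : IsCyclic U ∧ Nat.card U = p ^ s <;> by_cases h' : (P : Subgroup G) ≤ normalizer U <;> simp [h, h']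
  have hs2 : Nat.card {U : Subgroup G // (U ≤ (P : Subgroup G) ∧ IsCyclic U ∧ Nat.card U = p ^ s)} =
      Nat.card {U : Subgroup G // (U ≤ (P : Subgroup G) ∧ IsCyclic U ∧ Nat.card U = p ^ s) ∧ ¬ (P : Subgroup G) ≤ normalizer U} +
        Nat.card {U : Subgroup G // (IsCyclic U ∧ Nat.card U = p ^ s) ∧ (P : Subgroup G) ≤ normalizer U} := by
    rw [card_subtype_eq_sum, card_subtype_eq_sum, card_subtype_eq_sum, ← Finset.sum_add_distrib]
    refine Finset.sum_congr rfl (fun U _ => ?_)
    by_cases h : IsCyclic U ∧ Nat.card U = p ^ s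
    · by_cases h' : (P : Subgroup G) ≤ normalizer U
      · have hle : U ≤ (P : Subgroup G) :=
          le_of_normalizes P (IsPGroup.of_card h.2) h'
        simp [h, h', hle]
      · by_cases hle : U ≤ (P : Subgroup G) <;> simp [h, h', hle]
    · have h3 : ¬ (U ≤ (P : Subgroup G) ∧ IsCyclic U ∧ Nat.card U = p ^ s) := fun h4 => h h4.2
      simp [h, h3]
  rw [hs2] at h3
  have h4 := (Nat.dvd_add_right h2).mp h3
  rw [hs1]
  exact dvd_add h1 h4

/-- For `p` odd and noncyclic Sylow `p`-subgroups, the number of elements of order `p^s`, `s ≥ 2`, is divisible by `p^s`. -/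
theorem dvd_card_order (hodd : p ≠ 2) (P : Sylow p G) (hP : ¬ IsCyclic (P : Subgroup G)) (s : ℕ) (hs : 2 ≤ s) :
    p ^ s ∣ Nat.card {x : G // orderOf x = p ^ s} := by
  have hpp := hp.out
  rw [card_order_eq, Nat.totient_prime_pow hpp (by omega)]
  obtain ⟨k, hk⟩ := dvd_card_cyclic hodd P hP s hs
  rw [hk]
  have e : p ^ s = p ^ (s - 1) * p := by
    rw [← pow_succ]
    congr 1
    omega
  rw [e]
  exact ⟨(p - 1) * k, by ring⟩

end General

/-! ### Elements of order `p^s m` -/

section Main

universe u

variable {G : Type u} [Group G] [Finite G] {p : ℕ} [hp : Fact p.Prime]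

/-- Pairs of commuting elements of coprime orders. -/
theorem card_order_mul (s m : ℕ) (hm : Nat.Coprime p m) :
    Nat.card {g : G // orderOf g = p ^ s * m} =
      Nat.card {q : G × G // orderOf q.1 = m ∧ orderOf q.2 = p ^ s ∧ Commute q.1 q.2} := by
  have hpp := hp.out
  have hco : Nat.Coprime m (p ^ s) := (Nat.Coprime.pow_left s hm).symm
  symm
  apply Nat.card_congr
  -- the exponents
  obtain ⟨a, ha1, ha2⟩ := Nat.chineseRemainder hco 1 0
  obtain ⟨b, hb1, hb2⟩ := Nat.chineseRemainder hco 0 1
  have hab : a + b ≡ 1 [MOD m * p ^ s] := by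
    rw [← Nat.modEq_and_modEq_iff_modEq_mul hco]
    constructor
    · simpa using ha1.add hb1
    · simpa using ha2.add hb2
  have hpowab : ∀ g : G, orderOf g = p ^ s * m → g ^ (a + b) = g := by
    intro g hg
    have : orderOf g = m * p ^ s := by rw [hg, mul_comm]
    have h1 := (pow_eq_pow_iff_modEq (x := g) (n := a + b) (m := 1)).mpr (this ▸ hab)
    simpa using h1
  refine Equiv.ofBijective
    (fun q => ⟨q.1.1 * q.1.2, ?_⟩) ⟨?_, ?_⟩
  · obtain ⟨⟨y, x⟩, h1, h2, h3⟩ := q
    show orderOf (y * x) = p ^ s * m
    rw [h3.orderOf_mul_eq_mul_orderOf_of_coprime (by rw [h1, h2]; exact hco), h1, h2, mul_comm]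
  · -- injective
    rintro ⟨⟨y, x⟩, h1, h2, h3⟩ ⟨⟨y', x'⟩, h1', h2', h3'⟩ h
    have he : y * x = y' * x' := congrArg Subtype.val h
    have hpart : ∀ (y x : G), orderOf y = m → orderOf x = p ^ s → Commute y x →
        (y * x) ^ a = y ∧ (y * x) ^ b = x := by
      intro y x h1 h2 h3
      constructor
      · rw [h3.mul_pow]
        have e1 : y ^ a = y := by
          have := (pow_eq_pow_iff_modEq (x := y) (n := a) (m := 1)).mpr (h1 ▸ ha1)
          simpa using this
        have e2 : x ^ a = 1 := by
          have := (pow_eq_pow_iff_modEq (x := x) (n := a) (m := 0)).mpr (h2 ▸ ha2)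
          simpa using this
        rw [e1, e2, mul_one]
      · rw [h3.mul_pow]
        have e1 : y ^ b = 1 := by
          have := (pow_eq_pow_iff_modEq (x := y) (n := b) (m := 0)).mpr (h1 ▸ hb1)
          simpa using this
        have e2 : x ^ b = x := by
          have := (pow_eq_pow_iff_modEq (x := x) (n := b) (m := 1)).mpr (h2 ▸ hb2)
          simpa using this
        rw [e1, e2, one_mul]
    have h4 := hpart y x h1 h2 h3
    have h5 := hpart y' x' h1' h2' h3'
    apply Subtype.ext
    show (y, x) = (y', x')
    rw [Prod.mk.injEq]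
    constructor
    · rw [← h4.1, ← h5.1, he]
    · rw [← h4.2, ← h5.2, he]
  · -- surjective
    rintro ⟨g, hg⟩
    have h1 : (g ^ a) ^ m = 1 := by
      rw [← pow_mul, ← orderOf_dvd_iff_pow_eq_one, hg, mul_comm a m]
      exact Nat.mul_comm m _ ▸ Nat.mul_dvd_mul_left m ((Nat.modEq_zero_iff_dvd).mp ha2)
    have h2 : (g ^ b) ^ (p ^ s) = 1 := by
      rw [← pow_mul, ← orderOf_dvd_iff_pow_eq_one, hg]
      exact Nat.mul_dvd_mul_right ((dvd_refl _)) m |>.trans (by
        have := (Nat.modEq_zero_iff_dvd).mp hb1
        rw [mul_comm b]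
        exact Nat.mul_dvd_mul_left _ this)
    have hc : Commute (g ^ a) (g ^ b) := (Commute.refl g).pow_pow a b
    have hu : orderOf (g ^ a) ∣ m := orderOf_dvd_of_pow_eq_one h1
    have hv : orderOf (g ^ b) ∣ p ^ s := orderOf_dvd_of_pow_eq_one h2
    have hcop : Nat.Coprime (orderOf (g ^ a)) (orderOf (g ^ b)) :=
      Nat.Coprime.coprime_dvd_left hu (Nat.Coprime.coprime_dvd_right hv hco)
    have hmul : g ^ a * g ^ b = g := by
      rw [← pow_add]
      exact hpowab g hg
    have hord := hc.orderOf_mul_eq_mul_orderOf_of_coprime hcop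
    rw [hmul, hg] at hord
    -- the orders
    have hmpos : 0 < m := by
      rcases Nat.eq_zero_or_pos m with h | h
      · subst h
        have := Nat.Coprime.eq_one_of_dvd hm (dvd_zero p)
        exact absurd this hpp.one_lt.ne'
      · exact h
    have hu' : orderOf (g ^ a) = m := by
      obtain ⟨k, hk⟩ := hu
      obtain ⟨l, hl⟩ := hv
      have h3 : p ^ s * m = (orderOf (g ^ a)) * (orderOf (g ^ b)) := hord
      have h4 : m * p ^ s = orderOf (g ^ a) * orderOf (g ^ b) * (k * l) := by
        calc m * p ^ s = (orderOf (g ^ a) * k) * (orderOf (g ^ b) * l) := by rw [← hk, ← hl]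
          _ = _ := by ring
      rw [mul_comm m, h3] at h4
      have hpos : 0 < orderOf (g ^ a) * orderOf (g ^ b) := by
        rw [← h3]
        exact Nat.mul_pos (pow_pos hpp.pos _) hmpos
      have h5 : k * l = 1 := by
        have := Nat.eq_of_mul_eq_mul_left hpos (h4.symm.trans (mul_one _).symm)
        exact this
      have hk1 : k = 1 := Nat.eq_one_of_mul_eq_one_right h5
      rw [hk, hk1, mul_one]
    have hv' : orderOf (g ^ b) = p ^ s := by
      rw [hu', mul_comm] at hord
      exact (Nat.eq_of_mul_eq_mul_left hmpos (by rw [hord])).symm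
    exact ⟨⟨(g ^ a, g ^ b), hu', hv', hc⟩, Subtype.ext hmul⟩

/-- The relation: `y` of order `m`, `x` of order `p^s`, commuting. -/
def RR (p s m : ℕ) (y x : G) : Prop := orderOf y = m ∧ orderOf x = p ^ s ∧ Commute y x

theorem RR_conj {s m : ℕ} (g : G) {y x : G} (h : RR p s m y x) :
    RR p s m (g * y * g⁻¹) (g * x * g⁻¹) := by
  obtain ⟨h1, h2, h3⟩ := h
  have hσ : ∀ z : G, g * z * g⁻¹ = MulAut.conj g z := fun z => rfl
  refine ⟨?_, ?_, ?_⟩
  · rw [hσ, MulEquiv.orderOf_eq]
    exact h1
  · rw [hσ, MulEquiv.orderOf_eq]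
    exact h2
  · rw [hσ, hσ]
    exact h3.map (MulAut.conj g)

theorem card_RR_le {s m : ℕ} (g y : G) :
    Nat.card {x // RR p s m y x} ≤ Nat.card {x // RR p s m (g * y * g⁻¹) x} := by
  refine Nat.card_le_card_of_injective (fun x => ⟨g * x.1 * g⁻¹, RR_conj g x.2⟩) ?_
  rintro ⟨x₁, h₁⟩ ⟨x₂, h₂⟩ h
  apply Subtype.ext
  have h3 : g * x₁ * g⁻¹ = g * x₂ * g⁻¹ := congrArg Subtype.val h
  exact mul_left_cancel (mul_right_cancel h3)

theorem card_RR_eq {s m : ℕ} (g y : G) :
    Nat.card {x // RR p s m (g * y * g⁻¹) x} = Nat.card {x // RR p s m y x} := by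
  refine le_antisymm ?_ (card_RR_le g y)
  have h := card_RR_le (p := p) (s := s) (m := m) g⁻¹ (g * y * g⁻¹)
  have e : g⁻¹ * (g * y * g⁻¹) * g⁻¹⁻¹ = y := by group
  rwa [e] at h

theorem card_RR_of_order {s m : ℕ} {y : G} (hy : orderOf y = m) :
    Nat.card {x // RR p s m y x} =
      Nat.card {x : Subgroup.centralizer ({y} : Set G) // orderOf x = p ^ s} := by
  apply Nat.card_congr
  refine
    { toFun := fun x => ⟨⟨x.1, ?_⟩, ?_⟩
      invFun := fun x => ⟨x.1.1, hy, ?_, ?_⟩
      left_inv := fun x => rfl
      right_inv := fun x => rfl }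
  · rw [Subgroup.mem_centralizer_singleton_iff]
    exact x.2.2.2.symm
  · rw [Subgroup.orderOf_mk]
    exact x.2.2.1
  · rw [Subgroup.orderOf_coe]
    exact x.2
  · have := x.1.2
    rw [Subgroup.mem_centralizer_singleton_iff] at this
    exact this.symm

/-- **The number of elements of order `p^s m`**, for `p` odd, noncyclic Sylow `p`-subgroups, `s ≥ 2`, `m` prime to `p`, is
divisible by `p^s`. -/
theorem main (hodd : p ≠ 2) (P : Sylow p G) (hP : ¬ IsCyclic (P : Subgroup G)) (s m : ℕ) (hs : 1 < s)
    (hm : Nat.Coprime p m) : p ^ s ∣ Nat.card {g : G // orderOf g = p ^ s * m} := by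
  classical
  have hpp := hp.out
  haveI : Fintype G := Fintype.ofFinite _
  rw [card_order_mul s m hm]
  have h1 : Nat.card {q : G × G // orderOf q.1 = m ∧ orderOf q.2 = p ^ s ∧ Commute q.1 q.2} =
      ∑ y : G, Nat.card {x // RR p s m y x} := by
    have := Nat.card_congr (Equiv.subtypeProdEquivSigmaSubtype (RR p s m (G := G)))
    rw [Nat.card_sigma] at this
    exact this
  rw [h1]
  set w : G → ℕ := fun y => Nat.card {x // RR p s m y x} with hw
  set T : G → Prop := fun y => ∀ g ∈ (P : Subgroup G), Commute g y with hT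
  have htot : (p ^ s).totient = p ^ (s - 1) * (p - 1) := Nat.totient_prime_pow hpp (by omega)
  -- the `P`-centralized `y`
  have hTdvd : ∀ y, T y → p ^ s ∣ w y := by
    intro y hy
    by_cases hord : orderOf y = m
    · rw [hw]
      simp only
      rw [card_RR_of_order hord]
      have hle : (P : Subgroup G) ≤ Subgroup.centralizer ({y} : Set G) := by
        intro g hg
        rw [Subgroup.mem_centralizer_singleton_iff]
        exact (hy g hg)
      apply dvd_card_order hodd (P.subtype hle) _ s hs
      intro hcyc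
      apply hP
      rw [Sylow.coe_subtype] at hcyc
      exact isCyclic_of_surjective (Subgroup.subgroupOfEquivOfLe hle) (MulEquiv.surjective _)
    · have : IsEmpty {x // RR p s m y x} := ⟨fun x => hord x.2.1⟩
      simp only [hw]
      rw [Nat.card_of_isEmpty]
      exact dvd_zero _
  -- all `y`
  have hall : ∀ y, p ^ (s - 1) ∣ w y := by
    intro y
    by_cases hord : orderOf y = m
    · simp only [hw]
      rw [card_RR_of_order hord]
      refine dvd_trans ?_ (totient_dvd_card_order (p ^ s))
      rw [htot]
      exact Dvd.intro _ rfl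
    · have : IsEmpty {x // RR p s m y x} := ⟨fun x => hord x.2.1⟩
      simp only [hw]
      rw [Nat.card_of_isEmpty]
      exact dvd_zero _
  -- the conjugation action of `P` on `G`
  let inst : MulAction (P : Subgroup G) G :=
    { smul := fun g y => (g : G) * y * (g : G)⁻¹
      one_smul := fun y => by
        show ((1 : (P : Subgroup G)) : G) * y * ((1 : (P : Subgroup G)) : G)⁻¹ = y
        simp
      mul_smul := fun g h y => by
        show ((g * h : (P : Subgroup G)) : G) * y * ((g * h : (P : Subgroup G)) : G)⁻¹ =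
          (g : G) * ((h : G) * y * (h : G)⁻¹) * (g : G)⁻¹
        simp only [Subgroup.coe_mul]
        group }
  have hsmul : ∀ (g : (P : Subgroup G)) (y : G), @HSMul.hSMul _ _ _ (@instHSMul _ _ inst.toSMul) g y = (g : G) * y * (g : G)⁻¹ :=
    fun _ _ => rfl
  have hTconj : ∀ g ∈ (P : Subgroup G), ∀ y, T y → T (g * y * g⁻¹) := by
    intro g hg y hy h hh
    have h2 : Commute (g⁻¹ * h * g) y := hy _ (mul_mem (mul_mem (inv_mem hg) hh) hg)
    have h3 : h * (g * y * g⁻¹) = g * y * g⁻¹ * h := by
      have h4 : (g⁻¹ * h * g) * y = y * (g⁻¹ * h * g) := h2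
      calc h * (g * y * g⁻¹) = g * ((g⁻¹ * h * g) * y) * g⁻¹ := by group
        _ = g * (y * (g⁻¹ * h * g)) * g⁻¹ := by rw [h4]
        _ = g * y * g⁻¹ * h := by group
    exact h3
  set w' : G → ℕ := fun y => if T y then 0 else w y / p ^ (s - 1) with hw'
  have hsum' : p ∣ ∑ y, w' y := by
    refine @dvd_sum_of_invariant _ _ _ inst _ w' p ?_ ?_
    · rintro ⟨g, hg⟩ y
      rw [hsmul]
      simp only [hw']
      have e1 : w (g * y * g⁻¹) = w y := card_RR_eq g y
      rw [e1]
      by_cases hy : T y
      · rw [if_pos hy, if_pos (hTconj g hg y hy)]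
      · have hy2 : ¬ T (g * y * g⁻¹) := by
          intro h
          apply hy
          have := hTconj g⁻¹ (inv_mem hg) _ h
          have e : g⁻¹ * (g * y * g⁻¹) * g⁻¹⁻¹ = y := by group
          rwa [e] at this
        rw [if_neg hy, if_neg hy2]
    · intro y hy
      have hTy : ¬ T y := by
        intro h
        apply hy
        simp only [hw']
        rw [if_pos h]
      have hPp : IsPGroup p (P : Subgroup G) := P.2
      letI := inst
      obtain ⟨n, hn⟩ := hPp.card_orbit y
      rw [hn]
      refine dvd_pow_self p ?_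
      rintro rfl
      apply hTy
      intro g hg
      rw [pow_zero] at hn
      have hsub : Subsingleton (MulAction.orbit (P : Subgroup G) y) :=
        (Nat.card_eq_one_iff_unique.mp hn).1
      have h2 : (⟨g, hg⟩ : (P : Subgroup G)) • y = y := by
        have := hsub.elim ⟨_, MulAction.mem_orbit y ⟨g, hg⟩⟩ ⟨y, MulAction.mem_orbit_self y⟩
        exact congrArg Subtype.val this
      have h3 : g * y * g⁻¹ = y := h2
      show g * y = y * g
      calc g * y = (g * y * g⁻¹) * g := by group
        _ = y * g := by rw [h3]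
  -- the decomposition
  have hdecomp : ∑ y, w y = ∑ y, (if T y then w y else 0) + p ^ (s - 1) * ∑ y, w' y := by
    rw [Finset.mul_sum, ← Finset.sum_add_distrib]
    refine Finset.sum_congr rfl (fun y _ => ?_)
    by_cases hy : T y
    · simp only [hw', if_pos hy]
      simp
    · simp only [hw', if_neg hy, zero_add]
      exact (Nat.mul_div_cancel' (hall y)).symm
  rw [hdecomp]
  apply dvd_add
  · refine Finset.dvd_sum (fun y _ => ?_)
    by_cases hy : T y
    · rw [if_pos hy]
      exact hTdvd y hy
    · rw [if_neg hy]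
      exact dvd_zero _
  · have e : p ^ s = p ^ (s - 1) * p := by
      rw [← pow_succ]
      congr 1
      omega
    rw [e]
    exact Nat.mul_dvd_mul_left _ hsum'

end Main

end Cfsg.Agent.Lib.PGroup.KulakoffE
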