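import Mathlib
import Cfsg.Agent.Lib.PGroup.KulakoffE

set_option autoImplicit false

namespace Cfsg.Agent.Lib.PGroup.KulakoffI

open Subgroup Cfsg.Agent.Lib.PGroup.Kulakoff

/-- Frobenius for involutions. -/
theorem two_dvd_card_sq_one (Q : Type*) [Group Q] [Finite Q] (h : 2 ∣ Nat.card Q) :
    2 ∣ Nat.card {q : Q // q ^ 2 = 1} := by
  classical
  haveI : Fintype Q := Fintype.ofFinite _
  haveI : Fact (Nat.Prime 2) := ⟨Nat.prime_two⟩
  let f : Function.End Q := fun x => x⁻¹
  have hf : f ^ 2 ^ 1 = 1 := by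
    funext x
    show f (f x) = x
    simp [f]
  have h1 := Equiv.Perm.card_fixedPoints_modEq (f := f) (p := 2) (n := 1) hf
  have h2 : Fintype.card (Function.fixedPoints f) = Nat.card {q : Q // q ^ 2 = 1} := by
    rw [← Nat.card_eq_fintype_card]
    apply Nat.card_congr
    refine Equiv.subtypeEquivRight fun x => ?_
    show x⁻¹ = x ↔ x ^ 2 = 1
    rw [sq, inv_eq_iff_mul_eq_one]
  rw [h2, ← Nat.card_eq_fintype_card] at h1
  exact (Nat.modEq_zero_iff_dvd.mp (h1.symm.trans (Nat.modEq_zero_iff_dvd.mpr h)))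

/-- The number of `x` with `x² ∈ W` is divisible by `8`. -/
theorem eight_dvd_card_sq_mem {R : Type*} [Group R] [Finite R] (W : Subgroup R) [hWn : W.Normal]
    (hW : Nat.card W = 4) (h8 : 8 ∣ Nat.card R) : 8 ∣ Nat.card {x : R // x ^ 2 ∈ W} := by
  classical
  have hcQ : Nat.card (R ⧸ W) * 4 = Nat.card R := by
    rw [← hW]
    exact (Subgroup.card_eq_card_quotient_mul_card_subgroup W).symm
  have h2Q : 2 ∣ Nat.card (R ⧸ W) := by
    rw [← hcQ] at h8
    have : 2 * 4 ∣ Nat.card (R ⧸ W) * 4 := h8
    exact Nat.dvd_of_mul_dvd_mul_right (by norm_num) this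
  obtain ⟨k, hk⟩ := two_dvd_card_sq_one (R ⧸ W) h2Q
  let t : Set (R ⧸ W) := {q | q ^ 2 = 1}
  have e1 := QuotientGroup.preimageMkEquivSubgroupProdSet W t
  have h3 : Nat.card {x : R // x ^ 2 ∈ W} = Nat.card (QuotientGroup.mk ⁻¹' t : Set R) := by
    apply Nat.card_congr
    refine Equiv.subtypeEquivRight fun x => ?_
    show x ^ 2 ∈ W ↔ ((x : R ⧸ W)) ^ 2 = 1
    rw [← QuotientGroup.mk_pow, QuotientGroup.eq_one_iff]
  rw [h3, Nat.card_congr e1, Nat.card_prod, hW]
  have h4 : Nat.card t = Nat.card {q : R ⧸ W // q ^ 2 = 1} := rfl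
  rw [h4, hk]
  exact ⟨k, by ring⟩

variable {G : Type*} [Group G] [Finite G]

omit [Finite G] in
theorem card_orbit_left [Finite G] (V : Subgroup G) (a : G) : Nat.card (MulAction.orbit V a) = Nat.card V := by
  symm
  apply Nat.card_eq_of_bijective (fun v : V => (⟨v • a, MulAction.mem_orbit a v⟩ : MulAction.orbit V a))
  constructor
  · intro v w h
    have h1 : v • a = w • a := congrArg Subtype.val h
    apply Subtype.ext
    exact mul_right_cancel (a := (v : G)) (b := a) (c := (w : G)) h1
  · rintro ⟨y, v, rfl⟩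
    exact ⟨v, rfl⟩

/-- A central subgroup of order `4` of exponent `2` in `R`: `4` divides the number of involutions of `R`. -/
theorem four_dvd_of_central (V R : Subgroup G) (hVc : Nat.card V = 4) (hV2 : ∀ x ∈ V, x ^ 2 = 1)
    (hVR : V ≤ R) (hcomm : ∀ v ∈ V, ∀ x ∈ R, v * x = x * v) :
    4 ∣ Nat.card {x : G // x ∈ R ∧ x ^ 2 = 1} := by
  classical
  haveI : Fintype G := Fintype.ofFinite _
  have h1 := dvd_sum_of_invariant (Γ := V) (α := G)
    (fun x => if x ∈ R ∧ x ^ 2 = 1 then 1 else 0) 4 ?_ ?_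
  · rw [Finset.sum_boole] at h1
    rw [Nat.card_eq_fintype_card, Fintype.card_subtype]
    exact_mod_cast h1
  · rintro ⟨v, hv⟩ a
    have hs : (⟨v, hv⟩ : V) • a = v * a := rfl
    rw [hs]
    have hiff : (v * a ∈ R ∧ (v * a) ^ 2 = 1) ↔ (a ∈ R ∧ a ^ 2 = 1) := by
      have hm : v * a ∈ R ↔ a ∈ R := Subgroup.mul_mem_cancel_left R (hVR hv)
      constructor
      · rintro ⟨h2, h3⟩
        have ha := hm.mp h2
        refine ⟨ha, ?_⟩
        have : Commute v a := hcomm v hv a ha
        rw [this.mul_pow, hV2 v hv, one_mul] at h3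
        exact h3
      · rintro ⟨h2, h3⟩
        refine ⟨hm.mpr h2, ?_⟩
        have : Commute v a := hcomm v hv a h2
        rw [this.mul_pow, hV2 v hv, one_mul]
        exact h3
    simp only [hiff]
  · intro a _
    rw [card_orbit_left, hVc]

theorem four_dvd_sq_one (V : Subgroup G) (hVn : V.Normal) (hVc : Nat.card V = 4) (hV2 : ∀ x ∈ V, x ^ 2 = 1)
    (m : ℕ) (hG : Nat.card G = 2 ^ m) (hcase : 4 ≤ m ∨ V ≤ center G) :
    4 ∣ Nat.card {x : G // x ^ 2 = 1} := by
  classical
  haveI : Fintype G := Fintype.ofFinite _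
  haveI : Fact (Nat.Prime 2) := ⟨Nat.prime_two⟩
  have hP : IsPGroup 2 G := IsPGroup.of_card hG
  by_cases hZ : V ≤ center G
  · have h1 := four_dvd_of_central V ⊤ hVc hV2 le_top
      (fun v hv x _ => ((mem_center_iff.mp (hZ hv)) x).symm)
    have h2 : Nat.card {x : G // x ∈ (⊤ : Subgroup G) ∧ x ^ 2 = 1} = Nat.card {x : G // x ^ 2 = 1} :=
      Nat.card_congr (Equiv.subtypeEquivRight (fun x => by simp))
    rwa [h2] at h1
  have hm : 4 ≤ m := hcase.resolve_right hZ
  have hVne : V ≠ ⊥ := by
    rintro rfl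
    rw [Subgroup.card_bot] at hVc
    omega
  obtain ⟨⟨z, hzV, hzZ⟩, hz1⟩ := Subgroup.ne_bot_iff_exists_ne_one.mp
    (Cfsg.Agent.Lib.PGroup.Basic.inf_center_ne_bot hP hVne)
  have hz1' : z ≠ 1 := fun h => hz1 (Subtype.ext h)
  obtain ⟨u, huV, huZ⟩ := SetLike.not_le_iff_exists.mp hZ
  have hzc : ∀ g : G, g * z = z * g := mem_center_iff.mp hzZ
  have hz2 := hV2 z hzV
  have hu2 := hV2 u huV
  have hu1 : u ≠ 1 := by
    rintro rfl
    exact huZ (one_mem _)
  have huz : u ≠ z := by
    rintro rfl
    exact huZ hzZ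
  have huzV : u * z ∈ V := mul_mem huV hzV
  have huz1 : u * z ≠ 1 := by
    intro h
    apply huz
    have h3 : z * z = 1 := by rw [← sq]; exact hz2
    calc u = u * z * z⁻¹ := by group
      _ = z⁻¹ := by rw [h, one_mul]
      _ = z := by rw [inv_eq_iff_mul_eq_one]; exact h3
  have huzz : u * z ≠ z := fun h => hu1 (mul_right_cancel (h.trans (one_mul z).symm))
  have huzu : u * z ≠ u := fun h => hz1' (mul_left_cancel (h.trans (mul_one u).symm))
  have hVenum : ∀ v ∈ V, v = 1 ∨ v = z ∨ v = u ∨ v = u * z := by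
    let F : Finset G := {1, z, u, u * z}
    have hFcard : F.card = 4 := by
      rw [Finset.card_insert_of_notMem, Finset.card_insert_of_notMem, Finset.card_insert_of_notMem,
        Finset.card_singleton]
      · simpa using huzu.symm
      · simp only [Finset.mem_insert, Finset.mem_singleton, not_or]
        exact ⟨huz.symm, huzz.symm⟩
      · simp only [Finset.mem_insert, Finset.mem_singleton, not_or]
        exact ⟨hz1'.symm, hu1.symm, huz1.symm⟩
    have hFV : ((F : Set G)) ⊆ (V : Set G) := by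
      intro w hw
      simp only [F, Finset.coe_insert, Finset.coe_singleton, Set.mem_insert_iff,
        Set.mem_singleton_iff] at hw
      rcases hw with rfl | rfl | rfl | rfl
      · exact one_mem _
      · exact hzV
      · exact huV
      · exact huzV
    have hcard : (V : Set G).ncard ≤ (F : Set G).ncard := by
      rw [Set.ncard_coe_finset, hFcard, ← Nat.card_coe_set_eq]
      exact hVc.le
    have heq := Set.eq_of_subset_of_ncard_le hFV hcard
    intro v hv
    have hv' : v ∈ (F : Set G) := by rw [heq]; exact hv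
    simpa [F] using hv'
  have hconj : ∀ g : G, g * u * g⁻¹ = u ∨ g * u * g⁻¹ = u * z := by
    intro g
    rcases hVenum _ (hVn.conj_mem u huV g) with h | h | h | h
    · exfalso
      apply hu1
      have : u = g⁻¹ * (g * u * g⁻¹) * g := by group
      rw [this, h]; simp
    · exfalso
      apply huz
      have : u = g⁻¹ * (g * u * g⁻¹) * g := by group
      rw [this, h, mul_assoc, ← hzc g, ← mul_assoc]; simp
    · exact Or.inl h
    · exact Or.inr h
  let C : Subgroup G := centralizer {u}
  have hCmem : ∀ g, g ∈ C ↔ g * u * g⁻¹ = u := by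
    intro g
    show g ∈ centralizer {u} ↔ _
    rw [Subgroup.mem_centralizer_singleton_iff, mul_inv_eq_iff_eq_mul]
  have hnotC : ∀ g, g ∉ C → g * u * g⁻¹ = u * z := by
    intro g hg
    rcases hconj g with h | h
    · exact absurd ((hCmem g).mpr h) hg
    · exact h
  have huC : ∀ g, g ∈ C → g * u = u * g := by
    intro g hg
    have := (hCmem g).mp hg
    rwa [mul_inv_eq_iff_eq_mul] at this
  have hVcomm : ∀ v ∈ V, ∀ x ∈ C, v * x = x * v := by
    intro v hv x hx
    rcases hVenum v hv with rfl | rfl | rfl | rfl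
    · simp
    · exact (hzc x).symm
    · exact (huC x hx).symm
    · rw [mul_assoc, (hzc x).symm, ← mul_assoc, (huC x hx).symm, mul_assoc]
  have hVC : V ≤ C := by
    intro v hv
    rw [hCmem, mul_inv_eq_iff_eq_mul]
    rcases hVenum v hv with rfl | rfl | rfl | rfl
    · simp
    · exact (hzc u).symm
    · rfl
    · rw [mul_assoc, (hzc u).symm]
  obtain ⟨g₀, hg₀⟩ : ∃ g₀, g₀ ∉ C := by
    by_contra hcon
    push Not at hcon
    apply huZ
    rw [mem_center_iff]
    exact fun g => huC g (hcon g)
  have hindex : C.index = 2 := by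
    rw [Subgroup.index_eq_two_iff]
    refine ⟨g₀, fun b => ?_⟩
    have h0 := hnotC g₀ hg₀
    have hact : (b * g₀) * u * (b * g₀)⁻¹ = (b * u * b⁻¹) * (b * z * b⁻¹) := by
      have : (b * g₀) * u * (b * g₀)⁻¹ = b * (g₀ * u * g₀⁻¹) * b⁻¹ := by group
      rw [this, h0]; group
    have hzb : b * z * b⁻¹ = z := by rw [hzc b]; group
    by_cases hb : b ∈ C
    · right
      refine ⟨hb, fun h => ?_⟩
      rw [hCmem, hact, (hCmem b).mp hb, hzb] at h
      exact huzu h
    · left
      refine ⟨?_, hb⟩
      rw [hCmem, hact, hnotC b hb, hzb, mul_assoc, ← sq, hz2, mul_one]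
  have hcardC : Nat.card C * 2 = 2 ^ m := by
    rw [← hG, ← hindex]
    exact Subgroup.card_mul_index C
  have h8G : 8 ∣ Nat.card G := by
    rw [hG]
    exact pow_dvd_pow 2 (show 3 ≤ m by omega)
  have h8C : 8 ∣ Nat.card C := by
    obtain ⟨e, rfl⟩ : ∃ e, m = e + 4 := ⟨m - 4, by omega⟩
    have : Nat.card C = 8 * 2 ^ e := by
      have h3 : Nat.card C * 2 = (8 * 2 ^ e) * 2 := by rw [hcardC]; ring
      exact Nat.eq_of_mul_eq_mul_right (by norm_num) h3
    rw [this]
    exact dvd_mul_right _ _
  have hE : 8 ∣ Nat.card {x : G // x ^ 2 ∈ V} := by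
    haveI := hVn
    exact eight_dvd_card_sq_mem V hVc h8G
  have hE₁ : 8 ∣ Nat.card {x : G // x ∈ C ∧ x ^ 2 ∈ V} := by
    haveI : (V.subgroupOf C).Normal := hVn.subgroupOf C
    have hW : Nat.card (V.subgroupOf C) = 4 := by
      rw [Nat.card_congr (Subgroup.subgroupOfEquivOfLe hVC).toEquiv, hVc]
    have h3 := eight_dvd_card_sq_mem (V.subgroupOf C) hW h8C
    have h4 : Nat.card {x : C // x ^ 2 ∈ V.subgroupOf C} = Nat.card {x : G // x ∈ C ∧ x ^ 2 ∈ V} := by
      apply Nat.card_congr
      refine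
        { toFun := fun x => ⟨x.1.1, x.1.2, x.2⟩
          invFun := fun x => ⟨⟨x.1, x.2.1⟩, x.2.2⟩
          left_inv := fun x => rfl
          right_inv := fun x => rfl }
    rwa [h4] at h3
  have hA := four_dvd_of_central V C hVc hV2 hVC hVcomm
  -- squares outside `C`
  have hCinv : ∀ x, x ∉ C → x⁻¹ ∉ C := fun x hx h => hx (by simpa using C.inv_mem h)
  have hsq : ∀ x, x ∉ C → (x * u) ^ 2 = x ^ 2 * z := by
    intro x hx
    have h3 := hnotC x⁻¹ (hCinv x hx)
    rw [inv_inv] at h3
    have h4 : (x * u) ^ 2 = x ^ 2 * (x⁻¹ * u * x) * u := by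
      rw [sq, sq]; group
    rw [h4, h3]
    have h5 : z * u = u * z := (hzc u).symm
    rw [mul_assoc, mul_assoc, h5, ← mul_assoc u u, ← sq, hu2, one_mul]
  have hmulC : ∀ x, x ∉ C → x * u ∉ C := by
    intro x hx h
    apply hx
    have : x = (x * u) * u⁻¹ := by group
    rw [this]
    exact mul_mem h (C.inv_mem (hVC huV))
  have huu : u * u = 1 := by rw [← sq]; exact hu2
  have hzz : z * z = 1 := by rw [← sq]; exact hz2
  -- counting
  let S : Finset G := Finset.univ.filter (fun x => x ^ 2 = 1)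
  let A : Finset G := Finset.univ.filter (fun x => x ∈ C ∧ x ^ 2 = 1)
  let B : Finset G := Finset.univ.filter (fun x => x ∉ C ∧ x ^ 2 = 1)
  let B' : Finset G := Finset.univ.filter (fun x => x ∉ C ∧ x ^ 2 = z)
  let E : Finset G := Finset.univ.filter (fun x => x ^ 2 ∈ V)
  let E₁ : Finset G := Finset.univ.filter (fun x => x ∈ C ∧ x ^ 2 ∈ V)
  let E₂ : Finset G := Finset.univ.filter (fun x => x ∉ C ∧ x ^ 2 ∈ V)
  have hS : Nat.card {x : G // x ^ 2 = 1} = S.card := by
    rw [Nat.card_eq_fintype_card, Fintype.card_subtype]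
  have hAc : Nat.card {x : G // x ∈ C ∧ x ^ 2 = 1} = A.card := by
    rw [Nat.card_eq_fintype_card, Fintype.card_subtype]
  have hEc : Nat.card {x : G // x ^ 2 ∈ V} = E.card := by
    rw [Nat.card_eq_fintype_card, Fintype.card_subtype]
  have hE₁c : Nat.card {x : G // x ∈ C ∧ x ^ 2 ∈ V} = E₁.card := by
    rw [Nat.card_eq_fintype_card, Fintype.card_subtype]
  have hSAB : S.card = A.card + B.card := by
    rw [← Finset.card_union_of_disjoint]
    · congr 1
      ext x
      simp only [S, A, B, Finset.mem_filter, Finset.mem_univ, true_and, Finset.mem_union]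
      tauto
    · rw [Finset.disjoint_left]
      intro x hx hx'
      simp only [A, B, Finset.mem_filter, Finset.mem_univ, true_and] at hx hx'
      exact hx'.1 hx.1
  have hEE : E.card = E₁.card + E₂.card := by
    rw [← Finset.card_union_of_disjoint]
    · congr 1
      ext x
      simp only [E, E₁, E₂, Finset.mem_filter, Finset.mem_univ, true_and, Finset.mem_union]
      tauto
    · rw [Finset.disjoint_left]
      intro x hx hx'
      simp only [E₁, E₂, Finset.mem_filter, Finset.mem_univ, true_and] at hx hx'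
      exact hx'.1 hx.1
  have hE₂B : E₂.card = B.card + B'.card := by
    rw [← Finset.card_union_of_disjoint]
    · congr 1
      ext x
      simp only [E₂, B, B', Finset.mem_filter, Finset.mem_univ, true_and, Finset.mem_union]
      constructor
      · rintro ⟨hx, hxV⟩
        rcases hVenum _ hxV with h | h | h | h
        · exact Or.inl ⟨hx, h⟩
        · exact Or.inr ⟨hx, h⟩
        · exfalso
          apply hx
          rw [hCmem, ← h]
          rw [← conj_pow]
          simp only [sq]
          group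
        · exfalso
          apply hx
          have hc2 : x * (u * z) * x⁻¹ = u * z := by
            rw [← h, ← conj_pow]
            simp only [sq]
            group
          rw [hCmem]
          have h6 : x * (u * z) * x⁻¹ = (x * u * x⁻¹) * z := by
            have : x * z * x⁻¹ = z := by rw [hzc x]; group
            calc x * (u * z) * x⁻¹ = (x * u * x⁻¹) * (x * z * x⁻¹) := by group
              _ = _ := by rw [this]
          rw [h6] at hc2
          exact mul_right_cancel hc2
      · rintro (⟨hx, h⟩ | ⟨hx, h⟩)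
        · exact ⟨hx, by rw [h]; exact one_mem _⟩
        · exact ⟨hx, by rw [h]; exact hzV⟩
    · rw [Finset.disjoint_left]
      intro x hx hx'
      simp only [B, B', Finset.mem_filter, Finset.mem_univ, true_and] at hx hx'
      exact hz1' (hx'.2.symm.trans hx.2)
  have hBB' : B.card = B'.card := by
    refine Finset.card_bij' (fun x _ => x * u) (fun x _ => x * u) ?_ ?_ ?_ ?_
    · intro x hx
      simp only [B, B', Finset.mem_filter, Finset.mem_univ, true_and] at hx ⊢
      refine ⟨hmulC x hx.1, ?_⟩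
      rw [hsq x hx.1, hx.2, one_mul]
    · intro x hx
      simp only [B, B', Finset.mem_filter, Finset.mem_univ, true_and] at hx ⊢
      refine ⟨hmulC x hx.1, ?_⟩
      rw [hsq x hx.1, hx.2, hzz]
    · intro x _
      rw [mul_assoc, huu, mul_one]
    · intro x _
      rw [mul_assoc, huu, mul_one]
  rw [hS, hSAB]
  rw [hAc] at hA
  refine dvd_add hA ?_
  rw [hEc] at hE
  rw [hE₁c] at hE₁
  have h8 : 8 ∣ E₂.card := by
    rw [hEE] at hE
    exact (Nat.dvd_add_right hE₁).mp hE
  rw [hE₂B, ← hBB'] at h8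
  omega

/-- The number of subgroups of order `2` is congruent to `3` modulo `4`, under the hypotheses above. -/
theorem card_sub_two_modEq (V : Subgroup G) (hVn : V.Normal) (hVc : Nat.card V = 4)
    (hV2 : ∀ x ∈ V, x ^ 2 = 1) (m : ℕ) (hG : Nat.card G = 2 ^ m) (hcase : 4 ≤ m ∨ V ≤ center G) :
    Nat.card {H : Subgroup G // Nat.card H = 2 ^ 1} ≡ 1 + 2 [MOD 2 ^ 2] := by
  classical
  haveI : Fintype G := Fintype.ofFinite _
  haveI : Fact (Nat.Prime 2) := ⟨Nat.prime_two⟩
  have h4 := four_dvd_sq_one V hVn hVc hV2 m hG hcase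
  have h1 := Cfsg.Agent.Lib.PGroup.KulakoffE.card_order_eq (G := G) 2
  have h2 : Nat.card {U : Subgroup G // IsCyclic U ∧ Nat.card U = 2} =
      Nat.card {H : Subgroup G // Nat.card H = 2 ^ 1} := by
    apply Nat.card_congr
    refine Equiv.subtypeEquivRight (fun U => ?_)
    constructor
    · rintro ⟨-, h⟩
      rw [h]; norm_num
    · intro h
      have h' : Nat.card U = 2 := by rw [h]; norm_num
      exact ⟨isCyclic_of_prime_card h', h'⟩
  rw [h2, Nat.totient_two, one_mul] at h1
  have h3 : Nat.card {x : G // x ^ 2 = 1} = Nat.card {x : G // orderOf x = 2} + 1 := by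
    rw [Nat.card_eq_fintype_card, Nat.card_eq_fintype_card, Fintype.card_subtype, Fintype.card_subtype]
    have : (Finset.univ.filter (fun x : G => x ^ 2 = 1)) =
        insert 1 (Finset.univ.filter (fun x : G => orderOf x = 2)) := by
      ext x
      simp only [Finset.mem_filter, Finset.mem_univ, true_and, Finset.mem_insert]
      constructor
      · intro hx
        by_cases hx1 : x = 1
        · exact Or.inl hx1
        · exact Or.inr (orderOf_eq_prime hx hx1)
      · rintro (rfl | hx)
        · simp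
        · rw [← hx]; exact pow_orderOf_eq_one x
    rw [this, Finset.card_insert_of_notMem]
    simp
  rw [← h1]
  rw [h3] at h4
  unfold Nat.ModEq
  omega

end Cfsg.Agent.Lib.PGroup.KulakoffI
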