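import Mathlib
import Cfsg.Agent.Lib.PGroup.KulakoffE
import Cfsg.Agent.Lib.PGroup.Taussky
import Cfsg.Agent.Lib.PGroup.NormalRank

set_option autoImplicit false

namespace Cfsg.Agent.Lib.PGroup.KulakoffV

open Subgroup Cfsg.Agent.Lib.PGroup.CyclicMax Cfsg.Agent.Lib.PGroup.CyclicMax2

variable {G : Type*} [Group G] [Finite G]

omit [Finite G] in
theorem mem_zpowers_of_sq {b y : G} (hb : b ^ 2 = 1) (hy : y ∈ zpowers b) : y = 1 ∨ y = b := by
  obtain ⟨k, rfl⟩ := hy
  rcases Int.even_or_odd' k with ⟨c, rfl | rfl⟩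
  · left
    show b ^ (2 * c) = 1
    rw [zpow_mul, zpow_ofNat, hb, one_zpow]
  · right
    show b ^ (2 * c + 1) = b
    rw [zpow_add, zpow_mul, zpow_ofNat, hb, one_zpow, one_mul, zpow_one]

/-- A modular involution yields a normal four-group. -/
theorem normal_four_of_modular {n : ℕ} {u b : G} (h : SC 2 n u) (hn : 3 ≤ n) (hbu : b ∉ zpowers u)
    (hb2 : b ^ 2 = 1) (hbact : b * u * b⁻¹ = u ^ (1 + 2 ^ (n - 1))) :
    ∃ V : Subgroup G, V.Normal ∧ Nat.card V = 4 ∧ ∀ x ∈ V, x ^ 2 = 1 := by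
  obtain ⟨N, hN⟩ : ∃ N, N = 2 ^ (n - 1) := ⟨_, rfl⟩
  rw [← hN] at hbact
  obtain ⟨x, hx⟩ : ∃ x, N = 4 * x := ⟨2 ^ (n - 3), by
    rw [hN]
    have : n - 1 = (n - 3) + 2 := by omega
    rw [this, pow_add]; ring⟩
  have hxpos : 0 < x := by
    have : 0 < N := by rw [hN]; positivity
    omega
  have hQ : 2 ^ n = 2 * N := by
    rw [hN, ← pow_succ']; congr 1; omega
  have hu := h.hu
  rw [hQ] at hu
  have hu1 : u ^ (2 * N) = 1 := by rw [← hu]; exact pow_orderOf_eq_one u
  set z := u ^ N with hz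
  have hz2 : z ^ 2 = 1 := by rw [hz, ← pow_mul, mul_comm]; exact hu1
  have hz1 : z ≠ 1 := by
    rw [hz]
    exact pow_ne_one_of_lt_orderOf (by omega) (by rw [hu]; omega)
  have hn1 : 1 ≤ n := by omega
  -- z is central
  have hzc : ∀ g : G, g * z * g⁻¹ = z := by
    intro g
    obtain ⟨k, hk⟩ := h.act g
    have hk1 := h.action_modEq_one Nat.prime_two hn1 hk
    have hkodd : k % 2 = 1 := hk1
    obtain ⟨t, rfl⟩ : ∃ t, k = 2 * t + 1 := ⟨k / 2, by omega⟩
    rw [hz, conj_pow_eq hk]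
    have : (2 * t + 1) * N = 2 * N * t + N := by ring
    rw [this, pow_add, pow_mul, hu1, one_pow, one_mul]
  have hbz : b * z = z * b := by
    have := hzc b
    rw [mul_inv_eq_iff_eq_mul] at this
    exact this
  haveI hzn : (zpowers z).Normal := by
    refine ⟨fun w hw g => ?_⟩
    rcases mem_zpowers_of_sq hz2 hw with hw' | hw'
    · rw [hw']; simp
    · rw [hw', hzc]; exact mem_zpowers z
  have hb1 : b ≠ 1 := by
    rintro rfl
    exact hbu (one_mem _)
  have hzu : z ∈ zpowers u := pow_mem (mem_zpowers u) _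
  have hzb : z ≠ b := by
    rintro rfl
    exact hbu hzu
  have hdisj : Disjoint (zpowers b) (zpowers z) := by
    rw [Subgroup.disjoint_def]
    intro y hy1 hy2
    rcases mem_zpowers_of_sq hb2 hy1 with rfl | rfl
    · rfl
    · rcases mem_zpowers_of_sq hz2 hy2 with h3 | h3
      · exact h3
      · exact absurd h3.symm hzb
  have hob : orderOf b = 2 := orderOf_eq_prime hb2 hb1
  have hoz : orderOf z = 2 := orderOf_eq_prime hz2 hz1
  have hconj : ∀ g : G, g * b * g⁻¹ = b ∨ g * b * g⁻¹ = z * b := by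
    intro g
    obtain ⟨k₁, h₁⟩ := h.act g
    obtain ⟨k₃, h₃⟩ := h.act g⁻¹
    obtain ⟨k₄, h₄⟩ := h.act b⁻¹
    have h13 : u ^ (k₁ * k₃) = u := by
      have := mul_conj_eq h₁ h₃
      rw [← this]; group
    have h24 : u ^ ((1 + N) * k₄) = u := by
      have := mul_conj_eq hbact h₄
      rw [← this]; group
    have hcu : (g * b * g⁻¹ * b⁻¹) * u * (g * b * g⁻¹ * b⁻¹)⁻¹ = u := by
      have h5 := mul_conj_eq (mul_conj_eq (mul_conj_eq h₁ hbact) h₃) h₄
      rw [h5]
      have : k₁ * (1 + N) * k₃ * k₄ = (k₁ * k₃) * ((1 + N) * k₄) := by ring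
      rw [this, pow_mul, h13, h24]
    have hcmem : g * b * g⁻¹ * b⁻¹ ∈ zpowers u := by
      apply h.cent
      rw [mul_inv_eq_iff_eq_mul] at hcu
      exact hcu
    obtain ⟨i, hi⟩ := SC.exists_nat_pow hcmem
    have hform : g * b * g⁻¹ = u ^ i * b := by
      rw [← hi]; group
    have hsq : (g * b * g⁻¹) ^ 2 = 1 := by rw [conj_pow, hb2]; simp
    rw [hform] at hsq
    have h6 : (u ^ i * b) ^ 2 = u ^ (i * (2 + N)) := by
      have h7 : b * u ^ i * b⁻¹ = u ^ ((1 + N) * i) := conj_pow_eq hbact i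
      have h8 : (u ^ i * b) ^ 2 = u ^ i * (b * u ^ i * b⁻¹) * b ^ 2 := by
        rw [sq, sq]; group
      rw [h8, h7, hb2, mul_one, ← pow_add]
      congr 1; ring
    rw [h6] at hsq
    have hdvd : 2 * N ∣ i * (2 + N) := by
      rw [← hu]
      exact orderOf_dvd_of_pow_eq_one hsq
    have hNi : N ∣ i := by
      have h9 : i * (2 + N) = 2 * (i * (1 + 2 * x)) := by rw [hx]; ring
      rw [h9] at hdvd
      have h10 : N ∣ i * (1 + 2 * x) := Nat.dvd_of_mul_dvd_mul_left (by norm_num) hdvd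
      have hco : Nat.Coprime N (1 + 2 * x) := by
        rw [hN]
        apply Nat.Coprime.pow_left
        exact Nat.coprime_two_left.mpr ⟨x, by ring⟩
      exact hco.dvd_of_dvd_mul_right h10
    obtain ⟨j, rfl⟩ := hNi
    have h11 : u ^ (N * j) = z ^ j := by rw [hz, pow_mul]
    rcases Nat.even_or_odd' j with ⟨c, rfl | rfl⟩
    · left
      rw [hform, h11, pow_mul, hz2, one_pow, one_mul]
    · right
      rw [hform, h11, pow_add, pow_mul, hz2, one_pow, one_mul, pow_one]
  refine ⟨zpowers b ⊔ zpowers z, ?_, ?_, ?_⟩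
  · refine ⟨fun w hw g => ?_⟩
    rw [mem_sup_of_normal_right] at hw
    obtain ⟨y, hy, v, hv, rfl⟩ := hw
    have e1 : g * (y * v) * g⁻¹ = (g * y * g⁻¹) * (g * v * g⁻¹) := by group
    rw [e1]
    have hv' : g * v * g⁻¹ ∈ (zpowers b ⊔ zpowers z : Subgroup G) :=
      (le_sup_right : zpowers z ≤ _) (hzn.conj_mem v hv g)
    refine mul_mem ?_ hv'
    rcases mem_zpowers_of_sq hb2 hy with hy' | hy'
    · rw [hy']; simp
    · rw [hy']
      rcases hconj g with h3 | h3
      · rw [h3]; exact (le_sup_left : zpowers b ≤ _) (mem_zpowers b)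
      · rw [h3]
        exact mul_mem ((le_sup_right : zpowers z ≤ _) (mem_zpowers z))
          ((le_sup_left : zpowers b ≤ _) (mem_zpowers b))
  · rw [card_sup_eq_of_disjoint _ _ hdisj, Nat.card_zpowers, Nat.card_zpowers, hob, hoz]
  · intro w hw
    rw [mem_sup_of_normal_right] at hw
    obtain ⟨y, hy, v, hv, rfl⟩ := hw
    have hzv : v = 1 ∨ v = z := mem_zpowers_of_sq hz2 hv
    rcases mem_zpowers_of_sq hb2 hy with hy' | hy'
    · rcases hzv with hv' | hv'
      · rw [hy', hv']; simp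
      · rw [hy', hv']; simpa using hz2
    · rcases hzv with hv' | hv'
      · rw [hy', hv']; simpa using hb2
      · have : Commute b z := hbz
        rw [hy', hv', this.mul_pow, hb2, hz2, one_mul]

/-- A noncyclic `2`-group of order `2^m` which is not of maximal class has a normal four-group. -/
theorem exists_normal_four_of_class (m : ℕ) (hG : Nat.card G = 2 ^ m) (hnc : ¬ IsCyclic G)
    (h2 : Group.nilpotencyClass G ≠ m - 1) :
    ∃ V : Subgroup G, V.Normal ∧ Nat.card V = 4 ∧ ∀ x ∈ V, x ^ 2 = 1 := by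
  haveI : Fact (Nat.Prime 2) := ⟨Nat.prime_two⟩
  have hP : IsPGroup 2 G := IsPGroup.of_card hG
  obtain ⟨A, hAn, hAc, hAs⟩ := exists_selfCentralizing hP
  haveI := hAn
  by_cases hcyc : IsCyclic A
  · obtain ⟨u, rfl⟩ := exists_zpowers_eq_of_isCyclic A hcyc
    obtain ⟨n, hn⟩ := (IsPGroup.iff_orderOf.mp hP) u
    have hsc : SC 2 n u := by
      refine ⟨hP, hn, ?_, ?_⟩
      · intro g
        have h1 : g * u * g⁻¹ ∈ zpowers u := hAn.conj_mem u (mem_zpowers u) g
        obtain ⟨k, hk⟩ := SC.exists_nat_pow h1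
        exact ⟨k, hk⟩
      · intro g hg
        rw [← SetLike.mem_coe, ← hAs, SetLike.mem_coe, Subgroup.mem_centralizer_iff]
        intro y hy
        obtain ⟨k, rfl⟩ := hy
        have : Commute g u := hg
        exact ((this.zpow_right k).eq).symm
    have hne : zpowers u ≠ ⊤ := by
      intro ht
      apply hnc
      exact ⟨⟨u, fun y => by
        have : y ∈ zpowers u := ht ▸ mem_top y
        exact this⟩⟩
    rcases hsc.even_case hne with ⟨hc, b, hb, hform⟩ | ⟨hn3, b, hb, hb2, hbact⟩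
    · exfalso
      have hm : m = n + 1 := by
        have := hG.symm.trans hc
        exact Nat.pow_right_injective (le_refl 2) this
      have hn2 := hsc.two_le Nat.prime_two hne
      have hMC : Cfsg.Agent.Lib.PGroup.Taussky.MC n u b := ⟨hn2, hsc, hc, hb, hform⟩
      apply h2
      rw [hMC.nilpotencyClass_eq, hm]
      simp
    · exact normal_four_of_modular hsc hn3 hb hb2 hbact
  · obtain ⟨E, -, hEn, hEe, hEc⟩ := Cfsg.Agent.Lib.PGroup.NormalRank.exists_elemAb_of_abelian_noncyclic hP A hAc hcyc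
    exact ⟨E, hEn, by rw [hEc]; norm_num, hEe.2⟩

end Cfsg.Agent.Lib.PGroup.KulakoffV
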