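import Mathlib
import Cfsg.Agent.Lib.PGroup.KulakoffI
import Cfsg.Agent.Lib.PGroup.KulakoffV

set_option autoImplicit false

/-!
# Twin kernels in `2`-groups with a normal four-group

Two characters with the same nontrivial restriction to a normal four-group have kernels with the same
number of subgroups of order `2^a`, modulo `4`, for `a ≥ 2`.
-/

namespace Cfsg.Agent.Lib.PGroup.KulakoffT

open Subgroup Cfsg.Agent.Lib.PGroup.Kulakoff
open scoped commutatorElement

theorem card_split {α : Type*} [Finite α] (p q : α → Prop) :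
    Nat.card {x // p x} = Nat.card {x // p x ∧ q x} + Nat.card {x // p x ∧ ¬ q x} := by
  classical
  haveI : Fintype α := Fintype.ofFinite _
  rw [Nat.card_eq_fintype_card, Nat.card_eq_fintype_card, Nat.card_eq_fintype_card,
    Fintype.card_subtype, Fintype.card_subtype, Fintype.card_subtype, ← Finset.card_union_of_disjoint]
  · congr 1
    ext x
    simp only [Finset.mem_filter, Finset.mem_univ, true_and, Finset.mem_union]
    tauto
  · rw [Finset.disjoint_left]
    intro x hx hx'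
    simp only [Finset.mem_filter, Finset.mem_univ, true_and] at hx hx'
    exact hx'.2 hx.2

variable {G : Type*} [Group G] [Finite G]

theorem card_sup_mul_card_inf (H W : Subgroup G) [W.Normal] :
    Nat.card (H ⊔ W : Subgroup G) * Nat.card (H ⊓ W : Subgroup G) = Nat.card H * Nat.card W := by
  have h1 : Nat.card (H ⊔ W : Subgroup G) = Nat.card W * W.relIndex (H ⊔ W) := by
    have := (W.subgroupOf (H ⊔ W)).card_mul_index
    rw [Nat.card_congr (subgroupOfEquivOfLe (le_sup_right : W ≤ H ⊔ W)).toEquiv] at this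
    exact this.symm
  have h2 : Nat.card H = Nat.card (H ⊓ W : Subgroup G) * (H ⊓ W).relIndex H := by
    have := ((H ⊓ W).subgroupOf H).card_mul_index
    rw [Nat.card_congr (subgroupOfEquivOfLe (inf_le_left : H ⊓ W ≤ H)).toEquiv] at this
    exact this.symm
  rw [relIndex_sup_right] at h1
  rw [inf_relIndex_left] at h2
  rw [h1, h2]
  ring

/-- A correspondence between subgroups of `T` above `T ⊓ W` and subgroups of `T ⊔ W` above `W`. -/
theorem corr (T W : Subgroup G) [hW : W.Normal] (r q : ℕ)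
    (hr : Nat.card W = r * Nat.card (T ⊓ W : Subgroup G)) :
    Nat.card {H : Subgroup G // H ≤ T ∧ T ⊓ W ≤ H ∧ Nat.card H = q} =
      Nat.card {L : Subgroup G // W ≤ L ∧ L ≤ T ⊔ W ∧ Nat.card L = r * q} := by
  have hc : 0 < Nat.card (T ⊓ W : Subgroup G) := Nat.card_pos
  have hrpos : 0 < r := by
    rcases Nat.eq_zero_or_pos r with rfl | h
    · rw [zero_mul] at hr
      have : 0 < Nat.card W := Nat.card_pos
      omega
    · exact h
  apply Nat.card_congr
  refine
    { toFun := fun H => ⟨H.1 ⊔ W, le_sup_right, sup_le_sup_right H.2.1 W, ?_⟩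
      invFun := fun L => ⟨L.1 ⊓ T, inf_le_right, le_inf (inf_le_right.trans L.2.1) inf_le_left, ?_⟩
      left_inv := ?_
      right_inv := ?_ }
  · obtain ⟨H, hHT, hHi, hHq⟩ := H
    have h1 := card_sup_mul_card_inf H W
    have h2 : H ⊓ W = T ⊓ W := by
      apply le_antisymm
      · exact inf_le_inf_right W hHT
      · exact le_inf hHi inf_le_right
    rw [h2, hr, hHq] at h1
    apply Nat.eq_of_mul_eq_mul_right hc
    rw [h1]
    ring
  · obtain ⟨L, hWL, hLT, hLq⟩ := L
    have hsup : (L ⊓ T) ⊔ W = L := by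
      apply le_antisymm
      · exact sup_le inf_le_left hWL
      · intro x hx
        have hx' := hLT hx
        rw [mem_sup_of_normal_right] at hx'
        obtain ⟨t, ht, w, hw, rfl⟩ := hx'
        have htL : t ∈ L := by
          have : t = (t * w) * w⁻¹ := by group
          rw [this]
          exact mul_mem hx (L.inv_mem (hWL hw))
        exact mul_mem ((le_sup_left : L ⊓ T ≤ _) ⟨htL, ht⟩) ((le_sup_right : W ≤ _) hw)
    have h1 := card_sup_mul_card_inf (L ⊓ T) W
    have h2 : (L ⊓ T) ⊓ W = T ⊓ W := by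
      apply le_antisymm
      · exact le_inf (inf_le_left.trans inf_le_right) inf_le_right
      · exact le_inf (le_inf (inf_le_right.trans hWL) inf_le_left) inf_le_right
    rw [hsup, h2, hr, hLq] at h1
    have h3 : (r * q) * Nat.card (T ⊓ W : Subgroup G) =
        (r * Nat.card (L ⊓ T : Subgroup G)) * Nat.card (T ⊓ W : Subgroup G) := by
      rw [h1]; ring
    have h4 := Nat.eq_of_mul_eq_mul_right hc h3
    exact (Nat.eq_of_mul_eq_mul_left hrpos h4).symm
  · rintro ⟨H, hHT, hHi, hHq⟩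
    apply Subtype.ext
    show (H ⊔ W) ⊓ T = H
    apply le_antisymm
    · rintro x ⟨hx, hxT⟩
      have hx : x ∈ H ⊔ W := hx
      rw [mem_sup_of_normal_right] at hx
      obtain ⟨h, hh, w, hw, rfl⟩ := hx
      have hwT : w ∈ T := by
        have : w = h⁻¹ * (h * w) := by group
        rw [this]
        exact mul_mem (T.inv_mem (hHT hh)) hxT
      exact mul_mem hh (hHi ⟨hwT, hw⟩)
    · exact le_inf le_sup_left hHT
  · rintro ⟨L, hWL, hLT, hLq⟩
    apply Subtype.ext
    show (L ⊓ T) ⊔ W = L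
    apply le_antisymm
    · exact sup_le inf_le_left hWL
    · intro x hx
      have hx' := hLT hx
      rw [mem_sup_of_normal_right] at hx'
      obtain ⟨t, ht, w, hw, rfl⟩ := hx'
      have htL : t ∈ L := by
        have : t = (t * w) * w⁻¹ := by group
        rw [this]
        exact mul_mem hx (L.inv_mem (hWL hw))
      exact mul_mem ((le_sup_left : L ⊓ T ≤ _) ⟨htL, ht⟩) ((le_sup_right : W ≤ _) hw)

omit [Finite G] in
theorem mem_zpowers_two {z y : G} (hz2 : z ^ 2 = 1) (hy : y ∈ zpowers z) : y = 1 ∨ y = z :=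
  Cfsg.Agent.Lib.PGroup.KulakoffV.mem_zpowers_of_sq hz2 hy

/-- Subgroups `H` of `L = H₀ × ⟨z⟩` of order `2^a` not containing `z`, when `H₀` is noncyclic. -/
theorem four_dvd_fiber (z : G) (hzc : ∀ g, g * z = z * g) (hz2 : z ^ 2 = 1) (hz1 : z ≠ 1)
    (a : ℕ) (ha : 2 ≤ a) (H₀ L : Subgroup G) (hL : H₀ ⊔ zpowers z = L) (hH₀ : Nat.card H₀ = 2 ^ a)
    (hzH₀ : z ∉ H₀) (hnc : ¬ IsCyclic H₀) :
    4 ∣ Nat.card {H : Subgroup G // H ≤ L ∧ Nat.card H = 2 ^ a ∧ z ∉ H} := by
  classical
  haveI : Fact (Nat.Prime 2) := ⟨Nat.prime_two⟩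
  haveI hzn : (zpowers z).Normal := by
    refine ⟨fun w hw g => ?_⟩
    rcases mem_zpowers_two hz2 hw with hw' | hw'
    · rw [hw']; simp
    · rw [hw', hzc g]
      have : z * g * g⁻¹ = z := by group
      rw [this]; exact mem_zpowers z
  have hoz : orderOf z = 2 := orderOf_eq_prime hz2 hz1
  have hinf : H₀ ⊓ zpowers z = ⊥ := by
    rw [eq_bot_iff]
    rintro y ⟨hy1, hy2⟩
    rcases mem_zpowers_two hz2 hy2 with h | h
    · rw [h]; exact one_mem _
    · rw [h] at hy1
      exact absurd hy1 hzH₀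
  have hcardL : Nat.card L = 2 ^ (a + 1) := by
    have h1 := card_sup_mul_card_inf H₀ (zpowers z)
    rw [hL, hinf, Subgroup.card_bot, mul_one, hH₀, Nat.card_zpowers, hoz] at h1
    rw [h1]; ring
  have hH₀L : H₀ ≤ L := hL ▸ le_sup_left
  have hLnc : ¬ IsCyclic L := by
    intro hc
    exact hnc (isCyclic_of_injective (Subgroup.inclusion hH₀L) (Subgroup.inclusion_injective hH₀L))
  -- `X`
  have hX := modEq_of_index (p := 2) (a + 1) a hcardL rfl hLnc
  rw [← card_sub_eq] at hX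
  -- `Y`
  obtain ⟨c, rfl⟩ : ∃ c, a = c + 1 := ⟨a - 1, by omega⟩
  have hY := modEq_of_index (p := 2) (c + 1) c hH₀ rfl hnc
  rw [← card_sub_eq] at hY
  have hcorr := corr H₀ (zpowers z) 2 (2 ^ c) (by rw [Nat.card_zpowers, hoz, hinf, Subgroup.card_bot])
  have hY1 : Nat.card {H : Subgroup G // H ≤ H₀ ∧ Nat.card H = 2 ^ c} =
      Nat.card {H : Subgroup G // H ≤ H₀ ∧ H₀ ⊓ zpowers z ≤ H ∧ Nat.card H = 2 ^ c} := by
    apply Nat.card_congr
    refine Equiv.subtypeEquivRight (fun H => ?_)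
    rw [hinf]
    simp
  have hY2 : Nat.card {L' : Subgroup G // zpowers z ≤ L' ∧ L' ≤ H₀ ⊔ zpowers z ∧ Nat.card L' = 2 * 2 ^ c} =
      Nat.card {H : Subgroup G // (H ≤ L ∧ Nat.card H = 2 ^ (c + 1)) ∧ z ∈ H} := by
    apply Nat.card_congr
    refine Equiv.subtypeEquivRight (fun H => ?_)
    rw [hL, zpowers_le, pow_succ' 2 c]
    tauto
  have hsplit := card_split (fun H : Subgroup G => H ≤ L ∧ Nat.card H = 2 ^ (c + 1)) (fun H => z ∈ H)
  have hY3 : Nat.card {H : Subgroup G // (H ≤ L ∧ Nat.card H = 2 ^ (c + 1)) ∧ z ∈ H} ≡ 1 + 2 [MOD 2 ^ 2] := by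
    rw [← hY2, ← hcorr, ← hY1]
    exact hY
  have hF : Nat.card {H : Subgroup G // H ≤ L ∧ Nat.card H = 2 ^ (c + 1) ∧ z ∉ H} =
      Nat.card {H : Subgroup G // (H ≤ L ∧ Nat.card H = 2 ^ (c + 1)) ∧ ¬ z ∈ H} := by
    apply Nat.card_congr
    refine Equiv.subtypeEquivRight (fun H => ?_)
    tauto
  rw [hF]
  rw [hsplit] at hX
  unfold Nat.ModEq at hX hY3
  omega

/-- In a `2`-group, the noncyclic subgroups of order `2^a` of `M` avoiding the central involution `z ∈ M` are `0 mod 4`. -/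
theorem four_dvd_noncyclic (z : G) (hzc : ∀ g, g * z = z * g) (hz2 : z ^ 2 = 1) (hz1 : z ≠ 1)
    (M : Subgroup G) (hzM : z ∈ M) (a : ℕ) (ha : 2 ≤ a) :
    4 ∣ Nat.card {H : Subgroup G // H ≤ M ∧ Nat.card H = 2 ^ a ∧ z ∉ H ∧ ¬ IsCyclic H} := by
  classical
  haveI : Fintype (Subgroup G) := Fintype.ofFinite _
  let B : Finset (Subgroup G) := Finset.univ.filter
    (fun H => H ≤ M ∧ Nat.card H = 2 ^ a ∧ z ∉ H ∧ ¬ IsCyclic H)
  have hB : Nat.card {H : Subgroup G // H ≤ M ∧ Nat.card H = 2 ^ a ∧ z ∉ H ∧ ¬ IsCyclic H} = B.card := by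
    rw [Nat.card_eq_fintype_card, Fintype.card_subtype]
  rw [hB]
  let f : Subgroup G → Subgroup G := fun H => H ⊔ zpowers z
  rw [Finset.card_eq_sum_card_image f B]
  apply Finset.dvd_sum
  intro L hL
  obtain ⟨H₀, hH₀, rfl⟩ := Finset.mem_image.mp hL
  simp only [B, Finset.mem_filter, Finset.mem_univ, true_and] at hH₀
  obtain ⟨hH₀M, hH₀c, hzH₀, hH₀nc⟩ := hH₀
  have h1 := four_dvd_fiber z hzc hz2 hz1 a ha H₀ (f H₀) rfl hH₀c hzH₀ hH₀nc
  have hzHz : zpowers z ≤ M := zpowers_le.mpr hzM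
  have h2 : Nat.card {H : Subgroup G // H ≤ f H₀ ∧ Nat.card H = 2 ^ a ∧ z ∉ H} =
      (B.filter (fun H => f H = f H₀)).card := by
    rw [Nat.card_eq_fintype_card, Fintype.card_subtype]
    congr 1
    ext H
    simp only [B, Finset.mem_filter, Finset.mem_univ, true_and]
    haveI hzn : (zpowers z).Normal := by
      refine ⟨fun w hw g => ?_⟩
      rcases mem_zpowers_two hz2 hw with hw' | hw'
      · rw [hw']; simp
      · rw [hw', hzc g]
        have : z * g * g⁻¹ = z := by group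
        rw [this]; exact mem_zpowers z
    have hoz : orderOf z = 2 := orderOf_eq_prime hz2 hz1
    have hinf : ∀ K : Subgroup G, z ∉ K → K ⊓ zpowers z = ⊥ := by
      intro K hK
      rw [eq_bot_iff]
      rintro y ⟨hy1, hy2⟩
      rcases mem_zpowers_two hz2 hy2 with h | h
      · rw [h]; exact one_mem _
      · rw [h] at hy1
        exact absurd hy1 hK
    have hcard : ∀ K : Subgroup G, z ∉ K → Nat.card (K ⊔ zpowers z : Subgroup G) = Nat.card K * 2 := by
      intro K hK
      have h3 := card_sup_mul_card_inf K (zpowers z)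
      rw [hinf K hK, Subgroup.card_bot, mul_one, Nat.card_zpowers, hoz] at h3
      exact h3
    have hfM : f H₀ ≤ M := sup_le hH₀M hzHz
    have hzf : zpowers z ≤ f H₀ := le_sup_right
    constructor
    · rintro ⟨hHL, hHc, hzH⟩
      have heq : f H = f H₀ := by
        apply Subgroup.eq_of_le_of_card_ge
        · exact sup_le hHL hzf
        · show Nat.card (H₀ ⊔ zpowers z : Subgroup G) ≤ Nat.card (H ⊔ zpowers z : Subgroup G)
          rw [hcard H₀ hzH₀, hcard H hzH, hH₀c, hHc]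
      refine ⟨⟨hHL.trans hfM, hHc, hzH, ?_⟩, heq⟩
      -- a cyclic complement forces `H₀` cyclic
      intro hcyc
      apply hH₀nc
      obtain ⟨h, rfl⟩ := Cfsg.Agent.Lib.PGroup.CyclicMax.exists_zpowers_eq_of_isCyclic H hcyc
      have hoh : orderOf h = 2 ^ a := by rw [← Nat.card_zpowers, hHc]
      have hh : h ∈ (H₀ ⊔ zpowers z : Subgroup G) := hHL (mem_zpowers h)
      rw [mem_sup_of_normal_right] at hh
      obtain ⟨g, hg, w, hw, rfl⟩ := hh
      have hwz : w ^ (2 ^ (a - 1)) = 1 := by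
        rcases mem_zpowers_two hz2 hw with h4 | h4
        · rw [h4]; simp
        · obtain ⟨e, he⟩ : ∃ e, a - 1 = e + 1 := ⟨a - 2, by omega⟩
          rw [h4, he, pow_succ', pow_mul, hz2, one_pow]
      have hcomm : Commute g w := by
        rcases mem_zpowers_two hz2 hw with h4 | h4
        · rw [h4]; exact Commute.one_right g
        · rw [h4]; exact hzc g
      have hpow : (g * w) ^ (2 ^ (a - 1)) = g ^ (2 ^ (a - 1)) := by
        rw [hcomm.mul_pow, hwz, mul_one]
      have e1 : a = (a - 1) + 1 := by omega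
      have hg1 : g ^ (2 ^ (a - 1)) ≠ 1 := by
        rw [← hpow]
        apply pow_ne_one_of_lt_orderOf
        · positivity
        · rw [hoh]
          exact Nat.pow_lt_pow_right (by norm_num) (by omega)
      have hg2 : g ^ (2 ^ ((a - 1) + 1)) = 1 := by
        have h5 : (g * w) ^ (2 ^ ((a - 1) + 1)) = 1 := by
          rw [← e1, ← hoh]
          exact pow_orderOf_eq_one _
        rw [pow_succ, pow_mul, hpow] at h5
        rw [pow_succ, pow_mul]
        exact h5
      haveI : Fact (Nat.Prime 2) := ⟨Nat.prime_two⟩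
      have hog : orderOf g = 2 ^ ((a - 1) + 1) := orderOf_eq_prime_pow hg1 hg2
      have heq2 : zpowers g = H₀ := by
        apply Subgroup.eq_of_le_of_card_ge
        · exact zpowers_le.mpr hg
        · rw [Nat.card_zpowers, hog, hH₀c, ← e1]
      rw [← heq2]
      infer_instance
    · rintro ⟨⟨_, hHc, hzH, _⟩, heq⟩
      refine ⟨?_, hHc, hzH⟩
      rw [← heq]
      exact le_sup_left
  rw [← h2]
  exact h1

/-- The number of generators of a family of cyclic subgroups of order `n`. -/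
theorem card_zpowers_pred (n : ℕ) (P : Subgroup G → Prop) (hP : ∀ U, P U → IsCyclic U ∧ Nat.card U = n) :
    Nat.card {x : G // P (zpowers x)} = n.totient * Nat.card {U : Subgroup G // P U} := by
  classical
  haveI : Fintype {U : Subgroup G // P U} := Fintype.ofFinite _
  let f : {x : G // P (zpowers x)} → {U : Subgroup G // P U} := fun x => ⟨zpowers x.1, x.2⟩
  have h1 : Nat.card {x : G // P (zpowers x)} = Nat.card (Σ U, {x // f x = U}) :=
    Nat.card_congr (Equiv.sigmaFiberEquiv f).symm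
  rw [h1, Nat.card_sigma]
  have hfib : ∀ U : {U : Subgroup G // P U}, Nat.card {x // f x = U} = n.totient := by
    rintro ⟨U, hU⟩
    obtain ⟨hUc, hUn⟩ := hP U hU
    have hnpos : 0 < n := hUn ▸ Nat.card_pos
    haveI : Fintype U := Fintype.ofFinite _
    have h2 : ((Finset.univ : Finset U).filter fun a => orderOf a = n).card = n.totient :=
      IsCyclic.card_orderOf_eq_totient (by rw [← Nat.card_eq_fintype_card, hUn])
    rw [← h2, ← Fintype.card_subtype, ← Nat.card_eq_fintype_card]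
    apply Nat.card_congr
    have key : ∀ x : G, x ∈ U → orderOf x = n → zpowers x = U := by
      intro x hx hxo
      apply Subgroup.eq_of_le_of_card_ge
      · rw [zpowers_le]
        exact hx
      · rw [hUn, Nat.card_zpowers, hxo]
    refine
      { toFun := fun x => ⟨⟨x.1.1, ?_⟩, ?_⟩
        invFun := fun u => ⟨⟨u.1.1, ?_⟩, ?_⟩
        left_inv := fun x => rfl
        right_inv := fun u => rfl }
    · have h3 : zpowers x.1.1 = U := congrArg Subtype.val x.2
      have h4 := mem_zpowers x.1.1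
      rw [h3] at h4
      exact h4
    · show orderOf (⟨x.1.1, _⟩ : U) = n
      rw [Subgroup.orderOf_mk]
      have h3 : zpowers x.1.1 = U := congrArg Subtype.val x.2
      have h4 : Nat.card (zpowers x.1.1) = Nat.card U := by rw [h3]
      rw [Nat.card_zpowers, hUn] at h4
      exact h4
    · have hu := u.2
      rw [← Subgroup.orderOf_coe] at hu
      rw [key u.1.1 u.1.2 hu]
      exact hU
    · apply Subtype.ext
      show zpowers u.1.1 = U
      have hu := u.2
      rw [← Subgroup.orderOf_coe] at hu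
      exact key u.1.1 u.1.2 hu
  rw [Finset.sum_congr rfl (fun U _ => hfib U), Finset.sum_const, Finset.card_univ, smul_eq_mul,
    mul_comm, Nat.card_eq_fintype_card]

/-- The property of generating a cyclic subgroup of order `2^a` which avoids `z`, for an involution `z`. -/
def QQ (z : G) (a : ℕ) (x : G) : Prop :=
  x ^ (2 ^ a) = 1 ∧ x ^ (2 ^ (a - 1)) ≠ 1 ∧ x ^ (2 ^ (a - 1)) ≠ z

omit [Finite G] in
theorem qq_iff (z : G) (hz2 : z ^ 2 = 1) (hz1 : z ≠ 1) (a : ℕ) (ha : 1 ≤ a) (x : G) :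
    QQ z a x ↔ orderOf x = 2 ^ a ∧ z ∉ zpowers x := by
  haveI : Fact (Nat.Prime 2) := ⟨Nat.prime_two⟩
  obtain ⟨c, rfl⟩ : ∃ c, a = c + 1 := ⟨a - 1, by omega⟩
  simp only [QQ, Nat.add_sub_cancel]
  constructor
  · rintro ⟨h1, h2, h3⟩
    have ho : orderOf x = 2 ^ (c + 1) := orderOf_eq_prime_pow h2 h1
    refine ⟨ho, ?_⟩
    rintro ⟨k, hk⟩
    simp only at hk
    -- `z = x ^ k`, `x ^ (2 k) = 1`
    have h4 : x ^ (2 * k) = 1 := by
      rw [mul_comm, zpow_mul, hk, zpow_ofNat]
      exact hz2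
    have h5 : ((2 ^ (c + 1) : ℕ) : ℤ) ∣ k * 2 := by
      rw [← ho]
      apply orderOf_dvd_iff_zpow_eq_one.mpr
      rw [mul_comm]; exact h4
    have h6 : ((2 ^ c : ℕ) : ℤ) ∣ k := by
      have e : ((2 ^ (c + 1) : ℕ) : ℤ) = ((2 ^ c : ℕ) : ℤ) * 2 := by push_cast; ring
      rw [e] at h5
      exact Int.dvd_of_mul_dvd_mul_right (by norm_num) h5
    obtain ⟨j, rfl⟩ := h6
    have h7 : x ^ (2 ^ c) = z ∨ x ^ (2 ^ c) = 1 ∨ z = 1 := by
      rw [zpow_mul, zpow_natCast] at hk
      set y := x ^ (2 ^ c) with hy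
      have hy2 : y ^ 2 = 1 := by
        rw [hy, ← pow_mul, ← pow_succ]
        exact h1
      rcases Int.even_or_odd' j with ⟨t, rfl | rfl⟩
      · right; right
        rw [← hk, zpow_mul, zpow_ofNat, hy2, one_zpow]
      · left
        rw [← hk, zpow_add, zpow_mul, zpow_ofNat, hy2, one_zpow, one_mul, zpow_one]
    rcases h7 with h7 | h7 | h7
    · exact h3 h7
    · exact h2 h7
    · exact hz1 h7
  · rintro ⟨ho, hz⟩
    refine ⟨?_, ?_, ?_⟩
    · rw [← ho]; exact pow_orderOf_eq_one x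
    · apply pow_ne_one_of_lt_orderOf
      · positivity
      · rw [ho]
        exact Nat.pow_lt_pow_right (by norm_num) (by omega)
    · intro h
      apply hz
      rw [← h]
      exact pow_mem (mem_zpowers x) _

/-- Cyclic subgroups of order `2^a` in `M` avoiding `z`, counted by elements. -/
theorem card_qq (z : G) (hz2 : z ^ 2 = 1) (hz1 : z ≠ 1) (M : Subgroup G) (a : ℕ) (ha : 1 ≤ a) :
    Nat.card {x : G // x ∈ M ∧ QQ z a x} =
      (2 ^ a).totient * Nat.card {U : Subgroup G // U ≤ M ∧ Nat.card U = 2 ^ a ∧ z ∉ U ∧ IsCyclic U} := by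
  have h1 := card_zpowers_pred (G := G) (2 ^ a)
    (fun U => U ≤ M ∧ Nat.card U = 2 ^ a ∧ z ∉ U ∧ IsCyclic U) (fun U hU => ⟨hU.2.2.2, hU.2.1⟩)
  rw [← h1]
  apply Nat.card_congr
  refine Equiv.subtypeEquivRight (fun x => ?_)
  rw [qq_iff z hz2 hz1 a ha, zpowers_le, Nat.card_zpowers]
  constructor
  · rintro ⟨h2, h3, h4⟩
    exact ⟨h2, h3, h4, inferInstance⟩
  · rintro ⟨h2, h3, h4, -⟩
    exact ⟨h2, h3, h4⟩

/-- The local data attached to a character nontrivial on a normal four-group. -/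
structure TD (V : Subgroup G) (χ : G →* Multiplicative (ZMod 2)) (z u : G) : Prop where
  hzV : z ∈ V
  huV : u ∈ V
  hz1 : z ≠ 1
  hzχ : χ z = 1
  huχ : χ u ≠ 1
  hz2 : z ^ 2 = 1
  hu2 : u ^ 2 = 1
  hzc : ∀ g, g * z = z * g
  henum : ∀ v ∈ V, v = 1 ∨ v = z ∨ v = u ∨ v = u * z
  hconj : ∀ g, g * u * g⁻¹ = u ∨ g * u * g⁻¹ = u * z

theorem chi_conj (χ : G →* Multiplicative (ZMod 2)) (g x : G) : χ (g * x * g⁻¹) = χ x := by
  rw [map_mul, map_mul, map_inv, mul_comm (χ g), mul_assoc, mul_inv_cancel, mul_one]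

theorem chi_mul_ne {a b : Multiplicative (ZMod 2)} (ha : a ≠ 1) (hb : b ≠ 1) : a * b = 1 := by
  revert a b
  decide

theorem exists_TD (V : Subgroup G) (hVn : V.Normal) (hVc : Nat.card V = 4) (hV2 : ∀ x ∈ V, x ^ 2 = 1)
    (χ : G →* Multiplicative (ZMod 2)) (u : G) (huV : u ∈ V) (huχ : χ u ≠ 1) : ∃ z, TD V χ z u := by
  classical
  haveI : Fintype V := Fintype.ofFinite _
  have hcard : Fintype.card (Multiplicative (ZMod 2)) < Fintype.card V := by
    have h1 : Fintype.card V = 4 := by rw [← Nat.card_eq_fintype_card, hVc]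
    rw [h1]
    decide
  obtain ⟨x, y, hxy, hχxy⟩ := Fintype.exists_ne_map_eq_of_card_lt (fun v : V => χ v.1) hcard
  refine ⟨x.1 * y.1⁻¹, ?_⟩
  set z := x.1 * y.1⁻¹ with hz
  have hzV : z ∈ V := mul_mem x.2 (V.inv_mem y.2)
  have hz1 : z ≠ 1 := by
    intro h
    apply hxy
    apply Subtype.ext
    rw [hz] at h
    exact mul_inv_eq_one.mp h
  have hzχ : χ z = 1 := by
    rw [hz, map_mul, map_inv, hχxy, mul_inv_cancel]
  have hu1 : u ≠ 1 := by
    rintro rfl
    exact huχ (map_one χ)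
  have huz : u ≠ z := by
    rintro rfl
    exact huχ hzχ
  have huzχ : χ (u * z) = χ u := by rw [map_mul, hzχ, mul_one]
  have huz1 : u * z ≠ 1 := by
    intro h
    apply huχ
    rw [← huzχ, h, map_one]
  have huzz : u * z ≠ z := fun h => hu1 (mul_right_cancel (h.trans (one_mul z).symm))
  have huzu : u * z ≠ u := fun h => hz1 (mul_left_cancel (h.trans (mul_one u).symm))
  have huzV : u * z ∈ V := mul_mem huV hzV
  have henum : ∀ v ∈ V, v = 1 ∨ v = z ∨ v = u ∨ v = u * z := by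
    let F : Finset G := {1, z, u, u * z}
    have hFcard : F.card = 4 := by
      rw [Finset.card_insert_of_notMem, Finset.card_insert_of_notMem, Finset.card_insert_of_notMem,
        Finset.card_singleton]
      · simpa using huzu.symm
      · simp only [Finset.mem_insert, Finset.mem_singleton, not_or]
        exact ⟨huz.symm, huzz.symm⟩
      · simp only [Finset.mem_insert, Finset.mem_singleton, not_or]
        exact ⟨hz1.symm, hu1.symm, huz1.symm⟩
    have hFV : ((F : Set G)) ⊆ (V : Set G) := by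
      intro w hw
      simp only [F, Finset.coe_insert, Finset.coe_singleton, Set.mem_insert_iff,
        Set.mem_singleton_iff] at hw
      rcases hw with rfl | rfl | rfl | rfl
      · exact one_mem _
      · exact hzV
      · exact huV
      · exact huzV
    have hcard : (V : Set G).ncard ≤ (F : Set G).ncard := by
      rw [Set.ncard_coe_finset, hFcard, ← Nat.card_coe_set_eq]
      exact hVc.le
    have heq := Set.eq_of_subset_of_ncard_le hFV hcard
    intro v hv
    have hv' : v ∈ (F : Set G) := by rw [heq]; exact hv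
    simpa [F] using hv'
  refine ⟨hzV, huV, hz1, hzχ, huχ, hV2 z hzV, hV2 u huV, ?_, henum, ?_⟩
  · intro g
    have h1 : χ (g * z * g⁻¹) = 1 := by rw [chi_conj, hzχ]
    rcases henum _ (hVn.conj_mem z hzV g) with h | h | h | h
    · exfalso
      apply hz1
      have : z = g⁻¹ * (g * z * g⁻¹) * g := by group
      rw [this, h]; simp
    · rwa [mul_inv_eq_iff_eq_mul] at h
    · rw [h] at h1
      exact absurd h1 huχ
    · rw [h, huzχ] at h1
      exact absurd h1 huχ
  · intro g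
    have h1 : χ (g * u * g⁻¹) = χ u := chi_conj χ g u
    rcases henum _ (hVn.conj_mem u huV g) with h | h | h | h
    · exfalso
      rw [h, map_one] at h1
      exact huχ h1.symm
    · exfalso
      rw [h, hzχ] at h1
      exact huχ h1.symm
    · exact Or.inl h
    · exact Or.inr h

namespace TD

variable {V : Subgroup G} {χ : G →* Multiplicative (ZMod 2)} {z u : G}

omit [Finite G] in
theorem sq_mul (h : TD V χ z u) (g : G) : (g * u) ^ 2 = g ^ 2 ∨ (g * u) ^ 2 = g ^ 2 * z := by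
  have e : (g * u) ^ 2 = g ^ 2 * (g⁻¹ * u * g⁻¹⁻¹) * u := by
    rw [sq, sq]; group
  have huu : u * u = 1 := by rw [← sq]; exact h.hu2
  rcases h.hconj g⁻¹ with h1 | h1
  · left
    rw [e, h1, mul_assoc, huu, mul_one]
  · right
    rw [e, h1]
    have h5 : z * u = u * z := (h.hzc u).symm
    rw [mul_assoc, mul_assoc, h5, ← mul_assoc u u, huu, one_mul]

omit [Finite G] in
theorem pow_twist (h : TD V χ z u) (g : G) (a : ℕ) (ha : 2 ≤ a) :
    (g * u) ^ (2 ^ (a - 1)) = g ^ (2 ^ (a - 1)) ∨ (g * u) ^ (2 ^ (a - 1)) = g ^ (2 ^ (a - 1)) * z := by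
  obtain ⟨c, rfl⟩ : ∃ c, a = c + 2 := ⟨a - 2, by omega⟩
  have e : c + 2 - 1 = c + 1 := by omega
  rw [e, pow_succ' 2 c, pow_mul, pow_mul]
  rcases h.sq_mul g with h1 | h1
  · left
    rw [h1]
  · have hcomm : Commute (g ^ 2) z := h.hzc _
    rw [h1, hcomm.mul_pow]
    rcases Nat.eq_zero_or_pos c with rfl | hc
    · right
      simp
    · left
      obtain ⟨d, rfl⟩ : ∃ d, c = d + 1 := ⟨c - 1, by omega⟩
      rw [pow_succ' 2 d, pow_mul z, h.hz2, one_pow, mul_one]

omit [Finite G] in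
theorem qq_mul (h : TD V χ z u) (g : G) (a : ℕ) (ha : 2 ≤ a) : QQ z a (g * u) ↔ QQ z a g := by
  have e : 2 ^ a = 2 ^ (a - 1) * 2 := by
    rw [← pow_succ]; congr 1; omega
  simp only [QQ]
  rw [e, pow_mul, pow_mul]
  rcases h.pow_twist g a ha with h1 | h1
  · rw [h1]
  · rw [h1]
    set y := g ^ (2 ^ (a - 1))
    have hzz : z * z = 1 := by rw [← sq]; exact h.hz2
    have hcomm : Commute y z := h.hzc _
    rw [hcomm.mul_pow, h.hz2, mul_one]
    have h2 : y * z ≠ 1 ↔ y ≠ z := by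
      rw [not_iff_not]
      constructor
      · intro h3
        calc y = y * z * z := by rw [mul_assoc, hzz, mul_one]
          _ = z := by rw [h3, one_mul]
      · intro h3
        rw [h3, hzz]
    have h3 : y * z ≠ z ↔ y ≠ 1 := by
      rw [not_iff_not]
      constructor
      · intro h4
        exact mul_right_cancel (h4.trans (one_mul z).symm)
      · intro h4
        rw [h4, one_mul]
    rw [h2, h3]
    tauto

end TD

/-- The twist bijection. -/
theorem card_qq_twin {V : Subgroup G} {χ₁ χ₂ : G →* Multiplicative (ZMod 2)} {z u : G}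
    (h₁ : TD V χ₁ z u) (h₂ : TD V χ₂ z u) (a : ℕ) (ha : 2 ≤ a) :
    Nat.card {x : G // x ∈ χ₁.ker ∧ QQ z a x} = Nat.card {x : G // x ∈ χ₂.ker ∧ QQ z a x} := by
  classical
  have huu : u * u = 1 := by rw [← sq]; exact h₁.hu2
  have aux : ∀ {ψ₁ ψ₂ : G →* Multiplicative (ZMod 2)}, TD V ψ₁ z u → TD V ψ₂ z u →
      ∀ x : G, x ∈ ψ₁.ker ∧ QQ z a x →
      (if ψ₂ x = 1 then x else x * u) ∈ ψ₂.ker ∧ QQ z a (if ψ₂ x = 1 then x else x * u) := by
    intro ψ₁ ψ₂ h1 h2 x hx
    by_cases hc : ψ₂ x = 1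
    · rw [if_pos hc]
      exact ⟨hc, hx.2⟩
    · rw [if_neg hc]
      refine ⟨?_, (h2.qq_mul x a ha).mpr hx.2⟩
      rw [MonoidHom.mem_ker, map_mul]
      exact chi_mul_ne hc h2.huχ
  have aux2 : ∀ {ψ₁ ψ₂ : G →* Multiplicative (ZMod 2)}, TD V ψ₁ z u → TD V ψ₂ z u →
      ∀ x : G, ψ₁ x = 1 → (if ψ₁ (if ψ₂ x = 1 then x else x * u) = 1
        then (if ψ₂ x = 1 then x else x * u) else (if ψ₂ x = 1 then x else x * u) * u) = x := by
    intro ψ₁ ψ₂ h1 h2 x hx
    by_cases hc : ψ₂ x = 1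
    · rw [if_pos hc, if_pos hx]
    · rw [if_neg hc]
      have h3 : ψ₁ (x * u) ≠ 1 := by
        rw [map_mul, hx, one_mul]
        exact h1.huχ
      rw [if_neg h3, mul_assoc, huu, mul_one]
  apply Nat.card_congr
  refine
    { toFun := fun x => ⟨if χ₂ x.1 = 1 then x.1 else x.1 * u, aux h₁ h₂ x.1 x.2⟩
      invFun := fun x => ⟨if χ₁ x.1 = 1 then x.1 else x.1 * u, aux h₂ h₁ x.1 x.2⟩
      left_inv := fun x => Subtype.ext (aux2 h₁ h₂ x.1 x.2.1)
      right_inv := fun x => Subtype.ext (aux2 h₂ h₁ x.1 x.2.1) }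

/-- The decomposition of the number of subgroups of order `2^a` of the kernel. -/
theorem card_decomp {V : Subgroup G} {χ : G →* Multiplicative (ZMod 2)} {z u : G} (h : TD V χ z u)
    (hVn : V.Normal) (hVc : Nat.card V = 4) (a : ℕ) :
    Nat.card {H : Subgroup G // H ≤ χ.ker ∧ Nat.card H = 2 ^ a} =
      Nat.card {L : Subgroup G // V ≤ L ∧ Nat.card L = 2 * 2 ^ a} +
      Nat.card {H : Subgroup G // H ≤ χ.ker ∧ Nat.card H = 2 ^ a ∧ z ∉ H ∧ ¬ IsCyclic H} +
      Nat.card {H : Subgroup G // H ≤ χ.ker ∧ Nat.card H = 2 ^ a ∧ z ∉ H ∧ IsCyclic H} := by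
  classical
  haveI := hVn
  have hinf : χ.ker ⊓ V = zpowers z := by
    apply le_antisymm
    · rintro v ⟨hv1, hv2⟩
      have hv1' : χ v = 1 := hv1
      rcases h.henum v hv2 with h1 | h1 | h1 | h1
      · rw [h1]; exact one_mem _
      · rw [h1]; exact mem_zpowers z
      · rw [h1] at hv1'
        exact absurd hv1' h.huχ
      · rw [h1, map_mul, h.hzχ, mul_one] at hv1'
        exact absurd hv1' h.huχ
    · rw [zpowers_le]
      exact ⟨h.hzχ, h.hzV⟩
  have hsup : χ.ker ⊔ V = ⊤ := by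
    rw [eq_top_iff]
    intro x _
    by_cases hx : χ x = 1
    · exact (le_sup_left : χ.ker ≤ _) hx
    · have h1 : x * u ∈ χ.ker := by
        rw [MonoidHom.mem_ker, map_mul]
        exact chi_mul_ne hx h.huχ
      have : x = (x * u) * u⁻¹ := by group
      rw [this]
      exact mul_mem ((le_sup_left : χ.ker ≤ _) h1) ((le_sup_right : V ≤ _) (V.inv_mem h.huV))
  have hoz : orderOf z = 2 := orderOf_eq_prime h.hz2 h.hz1
  have hc := corr χ.ker V 2 (2 ^ a) (by rw [hinf, Nat.card_zpowers, hoz, hVc])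
  have h1 := card_split (fun H : Subgroup G => H ≤ χ.ker ∧ Nat.card H = 2 ^ a) (fun H => z ∈ H)
  have h2 := card_split (fun H : Subgroup G => (H ≤ χ.ker ∧ Nat.card H = 2 ^ a) ∧ ¬ z ∈ H)
    (fun H => IsCyclic H)
  have e1 : Nat.card {H : Subgroup G // (H ≤ χ.ker ∧ Nat.card H = 2 ^ a) ∧ z ∈ H} =
      Nat.card {H : Subgroup G // H ≤ χ.ker ∧ χ.ker ⊓ V ≤ H ∧ Nat.card H = 2 ^ a} := by
    apply Nat.card_congr
    refine Equiv.subtypeEquivRight (fun H => ?_)
    rw [hinf, zpowers_le]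
    tauto
  have e2 : Nat.card {L : Subgroup G // V ≤ L ∧ L ≤ χ.ker ⊔ V ∧ Nat.card L = 2 * 2 ^ a} =
      Nat.card {L : Subgroup G // V ≤ L ∧ Nat.card L = 2 * 2 ^ a} := by
    apply Nat.card_congr
    refine Equiv.subtypeEquivRight (fun H => ?_)
    rw [hsup]
    simp
  have e3 : Nat.card {H : Subgroup G // H ≤ χ.ker ∧ Nat.card H = 2 ^ a ∧ z ∉ H ∧ ¬ IsCyclic H} =
      Nat.card {H : Subgroup G // ((H ≤ χ.ker ∧ Nat.card H = 2 ^ a) ∧ ¬ z ∈ H) ∧ ¬ IsCyclic H} := by
    apply Nat.card_congr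
    refine Equiv.subtypeEquivRight (fun H => ?_)
    tauto
  have e4 : Nat.card {H : Subgroup G // H ≤ χ.ker ∧ Nat.card H = 2 ^ a ∧ z ∉ H ∧ IsCyclic H} =
      Nat.card {H : Subgroup G // ((H ≤ χ.ker ∧ Nat.card H = 2 ^ a) ∧ ¬ z ∈ H) ∧ IsCyclic H} := by
    apply Nat.card_congr
    refine Equiv.subtypeEquivRight (fun H => ?_)
    tauto
  rw [h1, e1, hc, e2, h2, e3, e4]
  ring

/-- **The twin lemma.** -/
theorem twin (V : Subgroup G) (hVn : V.Normal) (hVc : Nat.card V = 4) (hV2 : ∀ x ∈ V, x ^ 2 = 1)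
    (χ₁ χ₂ : G →* Multiplicative (ZMod 2)) (hres : ∀ v ∈ V, χ₁ v = χ₂ v) (u : G) (huV : u ∈ V)
    (huχ : χ₁ u ≠ 1) (a : ℕ) (ha : 2 ≤ a) :
    Nat.card {H : Subgroup G // H ≤ χ₁.ker ∧ Nat.card H = 2 ^ a} ≡
      Nat.card {H : Subgroup G // H ≤ χ₂.ker ∧ Nat.card H = 2 ^ a} [MOD 4] := by
  obtain ⟨z, h₁⟩ := exists_TD V hVn hVc hV2 χ₁ u huV huχ
  have h₂ : TD V χ₂ z u :=
    { h₁ with
      hzχ := by rw [← hres z h₁.hzV]; exact h₁.hzχ
      huχ := by rw [← hres u huV]; exact huχ }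
  have d₁ := card_decomp h₁ hVn hVc a
  have d₂ := card_decomp h₂ hVn hVc a
  have n₁ := four_dvd_noncyclic z h₁.hzc h₁.hz2 h₁.hz1 χ₁.ker h₁.hzχ a ha
  have n₂ := four_dvd_noncyclic z h₂.hzc h₂.hz2 h₂.hz1 χ₂.ker h₂.hzχ a ha
  have q₁ := card_qq z h₁.hz2 h₁.hz1 χ₁.ker a (by omega)
  have q₂ := card_qq z h₂.hz2 h₂.hz1 χ₂.ker a (by omega)
  have qq := card_qq_twin h₁ h₂ a ha
  rw [q₁, q₂] at qq
  have hφ : 0 < (2 ^ a).totient := Nat.totient_pos.mpr (by positivity)
  have ht := Nat.eq_of_mul_eq_mul_left hφ qq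
  rw [d₁, d₂, ht]
  unfold Nat.ModEq
  omega

/-- A group with an elementary abelian subgroup of order `4` is not cyclic. -/
theorem not_isCyclic_of_four (V : Subgroup G) (hVc : Nat.card V = 4) (hV2 : ∀ x ∈ V, x ^ 2 = 1) :
    ¬ IsCyclic G := by
  intro hc
  haveI : IsCyclic V := Subgroup.isCyclic V
  obtain ⟨v, hv⟩ := IsCyclic.exists_generator (α := V)
  have h1 : orderOf v = 4 := by
    rw [← hVc]
    exact orderOf_eq_card_of_forall_mem_zpowers hv
  have h2 : v ^ 2 = 1 := Subtype.ext (hV2 v.1 v.2)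
  have h3 := orderOf_dvd_of_pow_eq_one h2
  rw [h1] at h3
  omega

universe u

/-- **Theorem N**: a `2`-group with a normal four-group has `≡ 3 (mod 4)` subgroups of order `2^a`, `2 ≤ a < b`. -/
theorem thmN : ∀ b : ℕ, ∀ (G : Type u) [Group G] [Finite G], Nat.card G = 2 ^ b →
    ∀ V : Subgroup G, V.Normal → Nat.card V = 4 → (∀ x ∈ V, x ^ 2 = 1) →
    ∀ a, 2 ≤ a → a < b → Nat.card {H : Subgroup G // Nat.card H = 2 ^ a} ≡ 1 + 2 [MOD 2 ^ 2] := by
  classical
  haveI : Fact (Nat.Prime 2) := ⟨Nat.prime_two⟩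
  intro b
  induction b using Nat.strong_induction_on with
  | _ b ih =>
    intro G _ _ hG V hVn hVc hV2 a ha hab
    have hnc := not_isCyclic_of_four V hVc hV2
    by_cases hab1 : a + 1 = b
    · exact modEq_of_index b a hG hab1 hnc
    have hab2 : a + 2 ≤ b := by omega
    have hPG : IsPGroup 2 G := IsPGroup.of_card hG
    haveI : Fintype (G →* Multiplicative (ZMod 2)) := Fintype.ofFinite _
    set term : (G →* Multiplicative (ZMod 2)) → ℕ := fun χ =>
      Nat.card {H : Subgroup G // H ≤ χ.ker ∧ Nat.card H = 2 ^ a} with hterm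
    have hdvd : 2 ^ 2 ∣ ∑ χ, term χ := sq_dvd_sum_ker b a hG hab2 hnc
    set D := Fintype.card (G →* Multiplicative (ZMod 2)) with hD
    have hDdvd : 2 ^ 2 ∣ D := by
      rw [hD, ← Nat.card_eq_fintype_card]
      exact sq_dvd_card_chi hPG hnc
    have hker : ∀ χ : G →* Multiplicative (ZMod 2), χ ≠ 1 → Nat.card χ.ker = 2 ^ (b - 1) := by
      intro χ hχ
      have h1 := χ.ker.card_mul_index
      have e : 2 ^ b = 2 ^ (b - 1) * 2 := by
        rw [← pow_succ]
        congr 1
        omega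
      rw [index_ker hχ, hG, e] at h1
      exact Nat.eq_of_mul_eq_mul_right (by norm_num) h1
    let Y := Ysub 2 V
    have hVne : V ≠ ⊤ := by
      rintro rfl
      rw [Subgroup.card_top, hG] at hVc
      have h1 : 2 ^ 3 ≤ 2 ^ b := Nat.pow_le_pow_right (by norm_num) (by omega)
      omega
    have hYeven : 2 ∣ Nat.card Y := prime_dvd_card_Ysub hPG hVne
    -- terms on `Y`
    have hterm1 : ∀ χ : G →* Multiplicative (ZMod 2), χ ≠ 1 → χ ∈ Y → term χ ≡ 1 + 2 [MOD 2 ^ 2] := by
      intro χ hχ hχY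
      have hle : V ≤ χ.ker := hχY
      have h1 : term χ = Nat.card {H : Subgroup χ.ker // Nat.card H = 2 ^ a} := card_sub_eq _ _
      rw [h1]
      refine ih (b - 1) (by omega) χ.ker (hker χ hχ) (V.subgroupOf χ.ker) (hVn.subgroupOf _) ?_ ?_ a ha (by omega)
      · rw [Nat.card_congr (Subgroup.subgroupOfEquivOfLe hle).toEquiv, hVc]
      · intro x hx
        apply Subtype.ext
        exact hV2 x.1 hx
    -- terms off `Y`
    have hterm2 : ∀ χ : G →* Multiplicative (ZMod 2), χ ∉ Y → term χ ≡ 1 [MOD 2] := by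
      intro χ hχY
      have hχ : χ ≠ 1 := by
        rintro rfl
        exact hχY (one_mem _)
      apply card_sub_modEq χ.ker 2 a Nat.prime_two
      rw [hker χ hχ]
      exact pow_dvd_pow 2 (by omega)
    let bb : (G →* Multiplicative (ZMod 2)) → ℕ := fun χ => if χ ∈ Y then 1 else (term χ % 4) / 2
    have hbb : ∀ χ : G →* Multiplicative (ZMod 2), χ ≠ 1 → ((term χ : ℕ) : ZMod 4) = 1 + 2 * ((bb χ : ℕ) : ZMod 4) := by
      intro χ hχ
      by_cases hχY : χ ∈ Y
      · have h1 := hterm1 χ hχ hχY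
        have h2 : ((term χ : ℕ) : ZMod 4) = ((1 + 2 : ℕ) : ZMod 4) := (ZMod.natCast_eq_natCast_iff _ _ _).mpr h1
        simp only [bb, if_pos hχY]
        rw [h2]
        push_cast
        ring
      · have h1 := hterm2 χ hχY
        have h3 : term χ % 2 = 1 := h1
        have h4 : term χ ≡ 1 + 2 * ((term χ % 4) / 2) [MOD 4] := by
          unfold Nat.ModEq
          omega
        have h2 : ((term χ : ℕ) : ZMod 4) = ((1 + 2 * ((term χ % 4) / 2) : ℕ) : ZMod 4) :=
          (ZMod.natCast_eq_natCast_iff _ _ _).mpr h4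
        simp only [bb, if_neg hχY]
        rw [h2]
        push_cast
        ring
    have hinv : ∀ (ψ : Y) (χ : G →* Multiplicative (ZMod 2)), bb (ψ • χ) = bb χ := by
      rintro ⟨ψ, hψ⟩ χ
      have hs : (⟨ψ, hψ⟩ : Y) • χ = ψ * χ := rfl
      rw [hs]
      have hiff : ψ * χ ∈ Y ↔ χ ∈ Y := Subgroup.mul_mem_cancel_left Y hψ
      by_cases hχY : χ ∈ Y
      · simp only [bb, if_pos hχY, if_pos (hiff.mpr hχY)]
      · simp only [bb, if_neg hχY, if_neg (fun h => hχY (hiff.mp h))]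
        obtain ⟨u, huV, huχ⟩ := SetLike.not_le_iff_exists.mp (show ¬ V ≤ χ.ker from hχY)
        have hψV : ∀ v ∈ V, ψ v = 1 := fun v hv => (hψ : V ≤ ψ.ker) hv
        have h1 := twin V hVn hVc hV2 χ (ψ * χ) (fun v hv => by
          rw [MonoidHom.mul_apply, hψV v hv, one_mul]) u huV huχ a ha
        have h2 : term (ψ * χ) % 4 = term χ % 4 := h1.symm
        rw [h2]
    have hbbdvd : 2 ∣ ∑ χ, bb χ := by
      apply dvd_sum_of_invariant (Γ := Y) bb 2 hinv
      intro χ _
      rw [Cfsg.Agent.Lib.PGroup.KulakoffI.card_orbit_left]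
      exact hYeven
    -- arithmetic in `ZMod 4`
    have h0 : ((∑ χ, term χ : ℕ) : ZMod 4) = 0 := (ZMod.natCast_eq_zero_iff _ _).mpr hdvd
    rw [← Finset.add_sum_erase _ _ (Finset.mem_univ (1 : G →* Multiplicative (ZMod 2)))] at h0
    push_cast at h0
    have hsum : ∑ χ ∈ Finset.univ.erase (1 : G →* Multiplicative (ZMod 2)), ((term χ : ℕ) : ZMod 4) =
        ∑ χ ∈ Finset.univ.erase (1 : G →* Multiplicative (ZMod 2)), (1 + 2 * ((bb χ : ℕ) : ZMod 4)) :=
      Finset.sum_congr rfl (fun χ hχ => hbb χ (Finset.ne_of_mem_erase hχ))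
    rw [hsum, Finset.sum_erase_eq_sub (Finset.mem_univ _), Finset.sum_add_distrib, ← Finset.mul_sum,
      Finset.sum_const, Finset.card_univ, ← hD] at h0
    have hb1 : bb 1 = 1 := by
      simp only [bb]
      rw [if_pos (one_mem Y)]
    have hDz : ((D : ℕ) : ZMod 4) = 0 := (ZMod.natCast_eq_zero_iff _ _).mpr hDdvd
    obtain ⟨k, hk⟩ := hbbdvd
    have hsumz : (∑ χ, ((bb χ : ℕ) : ZMod 4)) = 2 * (k : ZMod 4) := by
      have : ((∑ χ, bb χ : ℕ) : ZMod 4) = ((2 * k : ℕ) : ZMod 4) := by rw [hk]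
      push_cast at this
      exact this
    rw [hsumz, hb1, nsmul_eq_mul, hDz] at h0
    push_cast at h0
    have h4 : (2 * (2 * (k : ZMod 4))) = 0 := by
      have e : (4 : ZMod 4) = 0 := by decide
      calc (2 * (2 * (k : ZMod 4))) = 4 * (k : ZMod 4) := by ring
        _ = 0 := by rw [e, zero_mul]
    rw [h4] at h0
    have h1c : term 1 = Nat.card {H : Subgroup G // Nat.card H = 2 ^ a} := by
      apply Nat.card_congr
      refine Equiv.subtypeEquivRight (fun H => ?_)
      have hk : (1 : G →* Multiplicative (ZMod 2)).ker = ⊤ := MonoidHom.ker_one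
      rw [hk]
      simp
    rw [h1c] at h0
    have hfinal : ((Nat.card {H : Subgroup G // Nat.card H = 2 ^ a} : ℕ) : ZMod 4) = ((1 + 2 : ℕ) : ZMod 4) := by
      push_cast
      have e : (2 + 1 : ZMod 4) = 1 + 2 := by ring
      linear_combination h0
    exact (ZMod.natCast_eq_natCast_iff _ _ _).mp hfinal

/-- A nonabelian group of order `8` has class `2`. -/
theorem class_eq_two (hG : Nat.card G = 2 ^ 3) (hna : ∃ x y : G, x * y ≠ y * x) :
    Group.nilpotencyClass G = 2 := by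
  haveI : Fact (Nat.Prime 2) := ⟨Nat.prime_two⟩
  have hP : IsPGroup 2 G := IsPGroup.of_card hG
  haveI : Group.IsNilpotent G := hP.isNilpotent
  have hQ : ∀ x y : G ⧸ center G, x * y = y * x := by
    obtain ⟨k, hk0, hk⟩ := IsPGroup.card_center_eq_prime_pow hG (by norm_num)
    have hcQ : Nat.card (G ⧸ center G) * 2 ^ k = 2 ^ 3 := by
      rw [← hk, ← hG]
      exact (Subgroup.card_eq_card_quotient_mul_card_subgroup (center G)).symm
    have hk3 : k ≤ 3 := by
      by_contra hlt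
      have h1 : 2 ^ 4 ≤ 2 ^ k := Nat.pow_le_pow_right (by norm_num) (by omega)
      have h2 : 0 < Nat.card (G ⧸ center G) := Nat.card_pos
      nlinarith
    have hcyc : k = 2 ∨ k = 3 → IsCyclic (G ⧸ center G) := by
      intro hk'
      apply isCyclic_of_card_dvd_prime (p := 2)
      rcases hk' with rfl | rfl
      · have : Nat.card (G ⧸ center G) = 2 := by omega
        rw [this]
      · have : Nat.card (G ⧸ center G) = 1 := by omega
        rw [this]
        exact one_dvd _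
    by_cases hk1 : k = 1
    · subst hk1
      have : Nat.card (G ⧸ center G) = 2 ^ 2 := by omega
      exact (IsPGroup.isMulCommutative_of_card_eq_prime_sq this).is_comm.comm
    · haveI := hcyc (by omega)
      exact (IsCyclic.commGroup (α := G ⧸ center G)).mul_comm
  apply le_antisymm
  · rw [← Subgroup.upperCentralSeries_eq_top_iff_nilpotencyClass_le, eq_top_iff]
    intro x _
    rw [Subgroup.mem_upperCentralSeries_succ_iff]
    intro y
    show x * y * x⁻¹ * y⁻¹ ∈ Subgroup.upperCentralSeries G 1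
    rw [Subgroup.upperCentralSeries_one, ← QuotientGroup.eq_one_iff]
    have h1 := hQ (x : G ⧸ center G) (y : G ⧸ center G)
    push_cast
    rw [QuotientGroup.mk_mul, QuotientGroup.mk_mul, QuotientGroup.mk_mul, QuotientGroup.mk_inv,
      QuotientGroup.mk_inv, h1]
    group
  · by_contra hlt
    have hle : Group.nilpotencyClass G ≤ 1 := by omega
    have h1 := Subgroup.lowerCentralSeries_eq_bot_iff_nilpotencyClass_le.mpr hle
    rw [Subgroup.top_lowerCentralSeries_one] at h1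
    obtain ⟨x, y, hxy⟩ := hna
    apply hxy
    have h2 : ⁅x, y⁆ ∈ commutator G := by
      rw [_root_.commutator_def]
      exact Subgroup.commutator_mem_commutator (mem_top x) (mem_top y)
    rw [h1, Subgroup.mem_bot, commutatorElement_eq_one_iff_mul_comm] at h2
    exact h2

/-- The main theorem for `p = 2`. -/
theorem main_two (m : ℕ) (hG : Nat.card G = 2 ^ m) (hnc : ¬ IsCyclic G)
    (h2 : Group.nilpotencyClass G ≠ m - 1) (k : ℕ) (hk1 : 1 ≤ k) (hk2 : k < m) :
    Nat.card {H : Subgroup G // Nat.card H = 2 ^ k} ≡ 1 + 2 [MOD 2 ^ 2] := by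
  haveI : Fact (Nat.Prime 2) := ⟨Nat.prime_two⟩
  obtain ⟨V, hVn, hVc, hV2⟩ := Cfsg.Agent.Lib.PGroup.KulakoffV.exists_normal_four_of_class m hG hnc h2
  by_cases hk : 2 ≤ k
  · exact thmN m G hG V hVn hVc hV2 k hk hk2
  obtain rfl : k = 1 := by omega
  refine Cfsg.Agent.Lib.PGroup.KulakoffI.card_sub_two_modEq V hVn hVc hV2 m hG ?_
  by_contra hcon
  push Not at hcon
  obtain ⟨hm4, hVZ⟩ := hcon
  obtain ⟨u, huV, huZ⟩ := SetLike.not_le_iff_exists.mp hVZ
  have hna : ∃ x y : G, x * y ≠ y * x := by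
    rw [mem_center_iff] at huZ
    push Not at huZ
    obtain ⟨g, hg⟩ := huZ
    exact ⟨g, u, hg⟩
  obtain rfl | rfl : m = 2 ∨ m = 3 := by omega
  · obtain ⟨x, y, hxy⟩ := hna
    exact hxy ((IsPGroup.isMulCommutative_of_card_eq_prime_sq hG).is_comm.comm x y)
  · exact h2 (class_eq_two hG hna)

end Cfsg.Agent.Lib.PGroup.KulakoffT
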