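import Mathlib
import Cfsg.Prelude.Def_LocalEven
import Cfsg.Agent.Lib.PSL2.SylowU

/-!
# Natural `SL₂(F)`-modules inside a group: normalized frames

A `Frame F V L T` records that `L` acts on `V` (by conjugation, faithfully) as `SL₂(F)` on `F²`, with
`T` the subgroup corresponding to the upper unitriangular matrices. All the basic facts on the natural
module are read off in coordinates.
-/

set_option autoImplicit false

namespace Cfsg.Agent.Lib.PGroup.NatMod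

open Matrix Matrix.SpecialLinearGroup
open scoped MatrixGroups
open Cfsg.Agent.Lib.PSL2.Basic Cfsg.Agent.Lib.PSL2.SylowU

variable {G : Type*} [Group G] {F : Type*} [Field F]

lemma mulVec_zero' (A : SL(2, F)) (u : Fin 2 → F) :
    (A.1 *ᵥ u) 0 = A.1 0 0 * u 0 + A.1 0 1 * u 1 := by
  simp [Matrix.mulVec, dotProduct, Fin.sum_univ_two]

lemma mulVec_one' (A : SL(2, F)) (u : Fin 2 → F) :
    (A.1 *ᵥ u) 1 = A.1 1 0 * u 0 + A.1 1 1 * u 1 := by
  simp [Matrix.mulVec, dotProduct, Fin.sum_univ_two]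

lemma x_mulVec_zero (s : F) (u : Fin 2 → F) : ((x s : SL(2, F)).1 *ᵥ u) 0 = u 0 + s * u 1 := by
  simp [mulVec_zero']

lemma x_mulVec_one (s : F) (u : Fin 2 → F) : ((x s : SL(2, F)).1 *ᵥ u) 1 = u 1 := by
  simp [mulVec_one']

lemma vec2_ext {u v : Fin 2 → F} (h0 : u 0 = v 0) (h1 : u 1 = v 1) : u = v := by
  funext i
  fin_cases i
  · exact h0
  · exact h1

/-- Normalized coordinates for a natural module. -/
structure Frame (F : Type*) [Field F] (V L T : Subgroup G) where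
  hLV : L ≤ Subgroup.normalizer (V : Set G)
  ρ : L ≃* SL(2, F)
  ψ : V → (Fin 2 → F)
  ψ_mul : ∀ a b, ψ (a * b) = ψ a + ψ b
  ψ_bij : Function.Bijective ψ
  act : ∀ (l : L) (v w : V), (w : G) = l * v * (l : G)⁻¹ → ψ w = (ρ l).1 *ᵥ ψ v
  hT : ∀ t, t ∈ T ↔ ∃ l : L, (l : G) = t ∧ ρ l ∈ U F

namespace Frame

variable {V L T : Subgroup G} (fr : Frame F V L T)
include fr

lemma conj_mem (l : L) (v : V) : (l : G) * v * (l : G)⁻¹ ∈ V :=
  (Subgroup.mem_normalizer_iff.1 (fr.hLV l.2) v).1 v.2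

lemma ψ_one : fr.ψ 1 = 0 := by
  have h := fr.ψ_mul 1 1
  rw [mul_one] at h
  simpa using h

lemma ψ_inv (v : V) : fr.ψ v⁻¹ = - fr.ψ v := by
  have h := fr.ψ_mul v⁻¹ v
  rw [inv_mul_cancel, fr.ψ_one] at h
  exact (eq_neg_of_add_eq_zero_left h.symm)

lemma ψ_eq_zero {v : V} : fr.ψ v = 0 ↔ v = 1 :=
  ⟨fun h => fr.ψ_bij.1 (h.trans fr.ψ_one.symm), fun h => h ▸ fr.ψ_one⟩

lemma comm_elt (a b : V) : (a : G) * b = b * a := by
  have h : fr.ψ (a * b) = fr.ψ (b * a) := by rw [fr.ψ_mul, fr.ψ_mul, add_comm]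
  have := fr.ψ_bij.1 h
  exact congrArg Subtype.val this

/-- The conjugate in coordinates. -/
lemma ψ_conj (l : L) (v : V) :
    fr.ψ ⟨(l : G) * v * (l : G)⁻¹, fr.conj_mem l v⟩ = (fr.ρ l).1 *ᵥ fr.ψ v :=
  fr.act l v _ rfl

/-- Exists an element of `L` with a given image. -/
lemma exists_of_mat (A : SL(2, F)) : ∃ l : L, fr.ρ l = A := fr.ρ.surjective A

lemma exists_of_vec (u : Fin 2 → F) : ∃ v : V, fr.ψ v = u := fr.ψ_bij.2 u

/-- An element of `L` commutes with `v` iff its matrix fixes the coordinate vector. -/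
lemma comm_iff (l : L) (v : V) :
    (l : G) * v = v * l ↔ (fr.ρ l).1 *ᵥ fr.ψ v = fr.ψ v := by
  rw [← fr.ψ_conj]
  constructor
  · intro h
    congr 1
    apply Subtype.ext
    simp [h]
  · intro h
    have := congrArg Subtype.val (fr.ψ_bij.1 h)
    simp only at this
    calc (l : G) * v = ((l : G) * v * (l : G)⁻¹) * l := by group
      _ = v * l := by rw [this]

/-- commutator `[v, l]` lies in `V`. -/
lemma comm_mem (l : L) (v : V) : (v : G) * l * (v : G)⁻¹ * (l : G)⁻¹ ∈ V := by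
  have : (v : G) * l * (v : G)⁻¹ * (l : G)⁻¹ = v * ((l : G) * v * (l : G)⁻¹)⁻¹ := by group
  rw [this]
  exact V.mul_mem v.2 (V.inv_mem (fr.conj_mem l v))

lemma ψ_comm (l : L) (v : V) :
    fr.ψ ⟨(v : G) * l * (v : G)⁻¹ * (l : G)⁻¹, fr.comm_mem l v⟩ = fr.ψ v - (fr.ρ l).1 *ᵥ fr.ψ v := by
  have h : (⟨(v : G) * l * (v : G)⁻¹ * (l : G)⁻¹, fr.comm_mem l v⟩ : V)
      = v * (⟨(l : G) * v * (l : G)⁻¹, fr.conj_mem l v⟩ : V)⁻¹ := by
    apply Subtype.ext
    simp only [Subgroup.coe_mul, Subgroup.coe_inv]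
    group
  rw [h, fr.ψ_mul, fr.ψ_inv, fr.ψ_conj, sub_eq_add_neg]

lemma mem_T_of (l : L) (h : fr.ρ l ∈ U F) : (l : G) ∈ T := (fr.hT _).2 ⟨l, rfl, h⟩

lemma exists_of_mem_T {t : G} (ht : t ∈ T) : ∃ (l : L) (s : F), (l : G) = t ∧ fr.ρ l = x s := by
  obtain ⟨l, rfl, ⟨s, hs⟩⟩ := (fr.hT t).1 ht
  exact ⟨l, s, rfl, hs⟩

lemma le_L : T ≤ L := fun t ht => by
  obtain ⟨l, _, rfl, _⟩ := fr.exists_of_mem_T ht
  exact l.2

/-- Membership in `C_V(T)` in coordinates. -/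
lemma mem_cT {v : G} (hv : v ∈ V) : v ∈ Subgroup.centralizer (T : Set G) ↔ fr.ψ ⟨v, hv⟩ 1 = 0 := by
  rw [Subgroup.mem_centralizer_iff]
  constructor
  · intro h
    obtain ⟨l, hl⟩ := fr.exists_of_mat (x 1)
    have h1 := h l (fr.mem_T_of l (by rw [hl]; exact ⟨1, rfl⟩))
    have h2 := (fr.comm_iff l ⟨v, hv⟩).1 h1
    have h3 := congrFun h2 0
    rw [hl, x_mulVec_zero] at h3
    simpa using h3
  · intro h t ht
    obtain ⟨l, s, rfl, hs⟩ := fr.exists_of_mem_T ht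
    apply (fr.comm_iff l ⟨v, hv⟩).2
    rw [hs]
    apply vec2_ext
    · rw [x_mulVec_zero, h]; simp
    · rw [x_mulVec_one]

/-- A nonidentity element of `T` and the coordinates. -/
lemma mem_cs {v s : G} (hv : v ∈ V) (hs : s ∈ T) (hs1 : s ≠ 1) :
    v ∈ Subgroup.centralizer ({s} : Set G) ↔ fr.ψ ⟨v, hv⟩ 1 = 0 := by
  obtain ⟨l, b, rfl, hb⟩ := fr.exists_of_mem_T hs
  have hb0 : b ≠ 0 := by
    rintro rfl
    apply hs1
    have : l = 1 := fr.ρ.injective (by rw [hb, map_one, x_zero])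
    simp [this]
  rw [Subgroup.mem_centralizer_iff]
  constructor
  · intro h
    have h1 := h _ rfl
    have h2 := (fr.comm_iff l ⟨v, hv⟩).1 h1
    have h3 := congrFun h2 0
    rw [hb, x_mulVec_zero] at h3
    have : b * fr.ψ ⟨v, hv⟩ 1 = 0 := by simpa using h3
    exact (mul_eq_zero.1 this).resolve_left hb0
  · intro h t ht
    obtain rfl : t = _ := ht
    apply (fr.comm_iff l ⟨v, hv⟩).2
    rw [hb]
    apply vec2_ext
    · rw [x_mulVec_zero, h]; simp
    · rw [x_mulVec_one]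

/-- `C_V(T)` as a subgroup in coordinates. -/
lemma mem_K {v : G} : v ∈ V ⊓ Subgroup.centralizer (T : Set G) ↔ ∃ hv : v ∈ V, fr.ψ ⟨v, hv⟩ 1 = 0 := by
  constructor
  · rintro ⟨hv, h⟩
    exact ⟨hv, (fr.mem_cT hv).1 h⟩
  · rintro ⟨hv, h⟩
    exact ⟨hv, (fr.mem_cT hv).2 h⟩

/-- The commutator in coordinates, for `t = x s`. -/
lemma ψ_comm_x (l : L) (s : F) (hs : fr.ρ l = x s) (v : V) :
    fr.ψ ⟨(v : G) * l * (v : G)⁻¹ * (l : G)⁻¹, fr.comm_mem l v⟩ = ![- (s * fr.ψ v 1), 0] := by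
  rw [fr.ψ_comm, hs]
  apply vec2_ext
  · show fr.ψ v 0 - ((x s : SL(2, F)).1 *ᵥ fr.ψ v) 0 = - (s * fr.ψ v 1)
    rw [x_mulVec_zero]; ring
  · show fr.ψ v 1 - ((x s : SL(2, F)).1 *ᵥ fr.ψ v) 1 = 0
    rw [x_mulVec_one]; ring

/-- Commutators of `V` with `T` lie in `C_V(T)`. -/
lemma comm_mem_K {v t : G} (hv : v ∈ V) (ht : t ∈ T) :
    v * t * v⁻¹ * t⁻¹ ∈ V ⊓ Subgroup.centralizer (T : Set G) := by
  obtain ⟨l, s, rfl, hs⟩ := fr.exists_of_mem_T ht
  refine fr.mem_K.2 ⟨fr.comm_mem l ⟨v, hv⟩, ?_⟩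
  rw [fr.ψ_comm_x l s hs ⟨v, hv⟩]
  simp

/-- Every element of `C_V(T)` is a commutator `[v, l]` for `v` outside `C_V(T)`, `l ∈ T`. -/
lemma exists_comm_eq {k v : G} (hk : k ∈ V ⊓ Subgroup.centralizer (T : Set G)) (hv : v ∈ V)
    (hv1 : v ∉ Subgroup.centralizer (T : Set G)) : ∃ t ∈ T, k = v * t * v⁻¹ * t⁻¹ := by
  obtain ⟨hkV, hk1⟩ := fr.mem_K.1 hk
  have hy : fr.ψ ⟨v, hv⟩ 1 ≠ 0 := fun h => hv1 ((fr.mem_cT hv).2 h)
  obtain ⟨l, hl⟩ := fr.exists_of_mat (x (- (fr.ψ ⟨k, hkV⟩ 0) / fr.ψ ⟨v, hv⟩ 1))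
  refine ⟨l, fr.mem_T_of l (by rw [hl]; exact ⟨_, rfl⟩), ?_⟩
  have h := fr.ψ_comm_x l _ hl ⟨v, hv⟩
  have h2 : (⟨k, hkV⟩ : V) = ⟨_, fr.comm_mem l ⟨v, hv⟩⟩ := by
    apply fr.ψ_bij.1
    rw [h]
    funext i
    fin_cases i
    · show _ = - (_ * _)
      field_simp
      simp
    · show fr.ψ _ 1 = 0
      exact hk1
  exact congrArg Subtype.val h2

/-- Every element of `C_V(T)` is a commutator `[v, s]`, `s` fixed nonidentity in `T`. -/
lemma exists_comm_eq_s {k s : G} (hk : k ∈ V ⊓ Subgroup.centralizer (T : Set G)) (hs : s ∈ T) (hs1 : s ≠ 1) :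
    ∃ v ∈ V, k = v * s * v⁻¹ * s⁻¹ := by
  obtain ⟨hkV, hk1⟩ := fr.mem_K.1 hk
  obtain ⟨l, b, rfl, hb⟩ := fr.exists_of_mem_T hs
  have hb0 : b ≠ 0 := by
    rintro rfl
    apply hs1
    have : l = 1 := fr.ρ.injective (by rw [hb, map_one, x_zero])
    simp [this]
  obtain ⟨v, hv⟩ := fr.exists_of_vec ![0, - (fr.ψ ⟨k, hkV⟩ 0) / b]
  refine ⟨v, v.2, ?_⟩
  have h := fr.ψ_comm_x l _ hb v
  have h2 : (⟨k, hkV⟩ : V) = ⟨_, fr.comm_mem l v⟩ := by
    apply fr.ψ_bij.1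
    rw [h, hv]
    funext i
    fin_cases i
    · show _ = - (_ * _)
      simp
      field_simp
    · show fr.ψ _ 1 = 0
      exact hk1
  exact congrArg Subtype.val h2

/-- `[V, T] = C_V(T)`. -/
lemma commutator_eq_K (s : G) (hs : s ∈ T) (hs1 : s ≠ 1) :
    ⁅V, T⁆ = V ⊓ Subgroup.centralizer (T : Set G) := by
  apply le_antisymm
  · rw [Subgroup.commutator_le]
    intro v hv t ht
    have := fr.comm_mem_K hv ht
    simpa [commutatorElement_def] using this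
  · intro k hk
    obtain ⟨v, hv, rfl⟩ := fr.exists_comm_eq_s hk hs hs1
    exact Subgroup.commutator_mem_commutator hv hs

/-- `[V, ⟨s⟩] = C_V(T)`. -/
lemma commutator_zpowers_eq_K (s : G) (hs : s ∈ T) (hs1 : s ≠ 1) :
    ⁅V, Subgroup.zpowers s⁆ = V ⊓ Subgroup.centralizer (T : Set G) := by
  apply le_antisymm
  · rw [Subgroup.commutator_le]
    intro v hv t ht
    have ht' : t ∈ T := (Subgroup.zpowers_le.2 hs) ht
    have := fr.comm_mem_K hv ht'
    simpa [commutatorElement_def] using this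
  · intro k hk
    obtain ⟨v, hv, rfl⟩ := fr.exists_comm_eq_s hk hs hs1
    exact Subgroup.commutator_mem_commutator hv (Subgroup.mem_zpowers s)

/-- `[C_V(T), T] = 1`. -/
lemma commutator_K_T : ⁅V ⊓ Subgroup.centralizer (T : Set G), T⁆ = ⊥ := by
  rw [Subgroup.commutator_eq_bot_iff_le_centralizer]
  intro k hk
  rw [Subgroup.mem_centralizer_iff]
  intro t ht
  exact (Subgroup.mem_centralizer_iff.1 hk.2 t ht)


lemma card_V [Fintype F] : Nat.card V = Fintype.card F ^ 2 := by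
  rw [Nat.card_congr (Equiv.ofBijective fr.ψ fr.ψ_bij)]
  simp [Nat.card_eq_fintype_card]

lemma card_K [Fintype F] : Nat.card ↥(V ⊓ Subgroup.centralizer (T : Set G)) = Fintype.card F := by
  classical
  let f : ↥(V ⊓ Subgroup.centralizer (T : Set G)) → F := fun k => fr.ψ ⟨k.1, k.2.1⟩ 0
  have hf : Function.Bijective f := by
    constructor
    · intro a b hab
      obtain ⟨ha, ha1⟩ := fr.mem_K.1 a.2
      obtain ⟨hb, hb1⟩ := fr.mem_K.1 b.2
      have : (⟨a.1, ha⟩ : V) = ⟨b.1, hb⟩ := by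
        apply fr.ψ_bij.1
        exact vec2_ext hab (ha1.trans hb1.symm)
      exact Subtype.ext (congrArg (fun z : V => (z : G)) this)
    · intro c
      obtain ⟨v, hv⟩ := fr.exists_of_vec ![c, 0]
      refine ⟨⟨v.1, fr.mem_K.2 ⟨v.2, ?_⟩⟩, ?_⟩
      · show fr.ψ v 1 = 0
        rw [hv]; rfl
      · show fr.ψ v 0 = c
        rw [hv]; rfl
  rw [Nat.card_congr (Equiv.ofBijective f hf)]
  simp [Nat.card_eq_fintype_card]

/-- An upper triangular matrix normalizes `T`. -/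
lemma mem_normalizer_of_upper (l : L) (h : (fr.ρ l).1 1 0 = 0) : (l : G) ∈ Subgroup.normalizer (T : Set G) := by
  have key : ∀ (m : L) (t : G), (fr.ρ m).1 1 0 = 0 → t ∈ T → (m : G) * t * (m : G)⁻¹ ∈ T := by
    intro m t hm ht
    obtain ⟨l', s, rfl, hs⟩ := fr.exists_of_mem_T ht
    have : (m : G) * l' * (m : G)⁻¹ = ((m * l' * m⁻¹ : L) : G) := by simp
    rw [this]
    apply fr.mem_T_of
    rw [map_mul, map_mul, map_inv, hs, mem_U_iff_entries]
    have hd := det_entries (fr.ρ m)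
    rw [hm, mul_zero, sub_zero] at hd
    simp [hm]
    refine ⟨?_, ?_⟩ <;> linear_combination hd
  rw [Subgroup.mem_normalizer_iff]
  intro t
  refine ⟨key l t h, fun ht => ?_⟩
  have h2 := key l⁻¹ _ (by rw [map_inv]; simp [h]) ht
  simpa [mul_assoc] using h2

/-- A lower-left nonzero matrix: the conjugate of `T`, in coordinates. -/
lemma mem_c_conj (l : L) {v : G} (hv : v ∈ V) :
    v ∈ Subgroup.centralizer ((T.map (MulAut.conj (l : G)).toMonoidHom : Subgroup G) : Set G) ↔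
      - (fr.ρ l).1 1 0 * fr.ψ ⟨v, hv⟩ 0 + (fr.ρ l).1 0 0 * fr.ψ ⟨v, hv⟩ 1 = 0 := by
  have hv' : (l⁻¹ : L) * v * ((l⁻¹ : L) : G)⁻¹ ∈ V := fr.conj_mem l⁻¹ ⟨v, hv⟩
  have h1 : v ∈ Subgroup.centralizer ((T.map (MulAut.conj (l : G)).toMonoidHom : Subgroup G) : Set G) ↔
      (l⁻¹ : L) * v * ((l⁻¹ : L) : G)⁻¹ ∈ Subgroup.centralizer (T : Set G) := by
    simp only [Subgroup.mem_centralizer_iff]
    constructor
    · intro h t ht
      have := h ((l : G) * t * (l : G)⁻¹) ⟨t, ht, by simp⟩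
      simp only [InvMemClass.coe_inv, inv_inv]
      have h3 : (l : G) * (t * ((l : G)⁻¹ * v * l)) = (l : G) * (((l : G)⁻¹ * v * l) * t) := by
        calc (l : G) * (t * ((l : G)⁻¹ * v * l)) = ((l : G) * t * (l : G)⁻¹) * v * l := by group
          _ = v * ((l : G) * t * (l : G)⁻¹) * l := by rw [this]
          _ = (l : G) * (((l : G)⁻¹ * v * l) * t) := by group
      exact mul_left_cancel h3
    · rintro h _ ⟨t, ht, rfl⟩
      have h2 := h t ht
      simp only [InvMemClass.coe_inv, inv_inv] at h2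
      simp only [MulEquiv.coe_toMonoidHom, MulAut.conj_apply]
      calc (l : G) * t * (l : G)⁻¹ * v = (l : G) * (t * ((l : G)⁻¹ * v * l)) * (l : G)⁻¹ := by group
        _ = (l : G) * (((l : G)⁻¹ * v * l) * t) * (l : G)⁻¹ := by rw [h2]
        _ = v * ((l : G) * t * (l : G)⁻¹) := by group
  rw [h1, fr.mem_cT hv']
  have h2 := fr.ψ_conj l⁻¹ ⟨v, hv⟩
  simp only at h2
  rw [h2, mulVec_one', map_inv]
  simp

end Frame

/-- The fixed point property of unipotent elements. -/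
lemma pow_char_eq_one_of_fix {p : ℕ} [Fact p.Prime] [CharP F p] (A : SL(2, F)) {u : Fin 2 → F} (hu : u ≠ 0)
    (h : A.1 *ᵥ u = u) : A ^ p = 1 := by
  have htr : tr A = 2 := by
    have h1 : (A⁻¹).1 *ᵥ u = u := by
      conv_lhs => rw [← h]
      rw [Matrix.mulVec_mulVec]
      have : (A⁻¹).1 * A.1 = 1 := by
        rw [← Matrix.SpecialLinearGroup.coe_mul, inv_mul_cancel, Matrix.SpecialLinearGroup.coe_one]
      rw [this, Matrix.one_mulVec]
    have h2 := add_inv_eq A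
    have h3 : (A.1 + (A⁻¹).1) *ᵥ u = (tr A) • u := by
      rw [h2, Matrix.smul_mulVec, Matrix.one_mulVec]
    rw [Matrix.add_mulVec, h, h1] at h3
    obtain ⟨i, hi⟩ := Function.ne_iff.1 hu
    have h4 := congrFun h3 i
    simp only [Pi.add_apply, Pi.smul_apply, smul_eq_mul] at h4
    have h5 : (tr A - 2) * u i = 0 := by linear_combination -h4
    have h6 := (mul_eq_zero.1 h5).resolve_right hi
    linear_combination h6
  by_cases hA : A = 1
  · simp [hA]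
  · have := (Cfsg.Agent.Lib.PSL2.Unipotent.orderOf_eq_char_iff p A).2 ⟨htr, hA⟩
    rw [← this]
    exact pow_orderOf_eq_one A

section Frames

variable {V L T : Subgroup G} (fr : Frame F V L T)
include fr

/-- A non-identity element of order prime to `p` fixes no non-identity element. -/
lemma Frame.fixed_eq_bot {p : ℕ} [Fact p.Prime] [CharP F p] {l : G} (hl : l ∈ L) (h1 : l ≠ 1)
    (hc : (orderOf l).Coprime p) : V ⊓ Subgroup.centralizer ({l} : Set G) = ⊥ := by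
  rw [eq_bot_iff]
  rintro v ⟨hv, hvc⟩
  by_contra hne
  have hne' : v ≠ 1 := fun h => hne (by simp [h])
  have hu : fr.ψ ⟨v, hv⟩ ≠ 0 := fun h => hne' (by
    have := fr.ψ_eq_zero.1 h
    exact congrArg (fun z : V => (z : G)) this)
  have h2 := (fr.comm_iff ⟨l, hl⟩ ⟨v, hv⟩).1 (Subgroup.mem_centralizer_iff.1 hvc l rfl)
  have h3 := pow_char_eq_one_of_fix (p := p) _ hu h2
  have h4 : ((⟨l, hl⟩ : L)) ^ p = 1 := by
    apply fr.ρ.injective
    rw [map_pow, h3, map_one]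
  have h5 : l ^ p = 1 := by
    have := congrArg (fun z : L => (z : G)) h4
    simpa using this
  have h6 := orderOf_dvd_of_pow_eq_one h5
  have h7 : orderOf l = 1 := Nat.Coprime.eq_one_of_dvd hc h6
  exact h1 (orderOf_eq_one_iff.1 h7)

end Frames

lemma charP_of_card' {F : Type*} [Field F] [Fintype F] {p n : ℕ} [hp : Fact p.Prime] (hF : Fintype.card F = p ^ n) :
    CharP F p := by
  obtain ⟨p', hp'⟩ := CharP.exists F
  have hp'' : p'.Prime := CharP.char_is_prime F p'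
  obtain ⟨m, -, hm⟩ := FiniteField.card F p'
  have hn : n ≠ 0 := by
    rintro rfl
    have : 1 < Fintype.card F := Fintype.one_lt_card
    simp [hF] at this
  have hdvd : p' ∣ p ^ n := by
    rw [← hF, hm]
    exact dvd_pow_self p' m.ne_zero
  have := (Nat.prime_dvd_prime_iff_eq hp'' hp.out).1 (hp''.dvd_of_dvd_pow hdvd)
  rwa [this] at hp'

/-- Normalized frame for a natural module with a given Sylow subgroup. -/
theorem exists_frame {G : Type*} [Group G] [Finite G] {p : ℕ} [Fact p.Prime] {F : Type*} [Field F] [Fintype F]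
    (n : ℕ) (hF : Fintype.card F = p ^ n) (V L : Subgroup G) (hnat : Cfsg.IsNaturalSL2Module F V L)
    (hf : L ⊓ Subgroup.centralizer (V : Set G) = ⊥) (S : Sylow p ↥L) (T : Subgroup G)
    (hT : T = ((S : Subgroup ↥L).map L.subtype)) : Nonempty (Frame F V L T) := by
  classical
  obtain ⟨hLV, ρ₀, ψ₀, hsurj, hker, hact⟩ := hnat
  have hinj : Function.Injective ρ₀ := by
    rw [injective_iff_map_eq_one]
    intro a ha
    have h1 : a ∈ ρ₀.ker := ha
    rw [hker, Subgroup.mem_subgroupOf] at h1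
    have h2 : (a : G) ∈ L ⊓ Subgroup.centralizer (V : Set G) := ⟨a.2, h1⟩
    rw [hf, Subgroup.mem_bot] at h2
    exact Subtype.ext h2
  let e : L ≃* SL(2, F) := MulEquiv.ofBijective ρ₀ ⟨hinj, hsurj⟩
  haveI : CharP F p := charP_of_card' hF
  let S' : Sylow p SL(2, F) := S.mapSurjective (f := e.toMonoidHom) e.surjective
  obtain ⟨g, hg⟩ := MulAction.exists_smul_eq SL(2, F) S' (sylowU F p)
  have hU : ∀ l : L, (g * ρ₀ l * g⁻¹ ∈ U F ↔ l ∈ (S : Subgroup L)) := by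
    intro l
    have h1 : (U F : Subgroup SL(2, F)) = ((g • S' : Sylow p SL(2, F)) : Subgroup SL(2, F)) := by
      rw [hg]; rfl
    rw [h1, Sylow.coe_subgroup_smul]
    have h2 : g * ρ₀ l * g⁻¹ = MulAut.conj g • (ρ₀ l) := rfl
    rw [h2, Subgroup.smul_mem_pointwise_smul_iff]
    constructor
    · rintro ⟨b, hb, hbe⟩
      have : b = l := hinj hbe
      exact this ▸ hb
    · intro h
      exact ⟨l, h, rfl⟩
  have hginv : ∀ u : Fin 2 → F, (g⁻¹).1 *ᵥ (g.1 *ᵥ u) = u := by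
    intro u
    rw [Matrix.mulVec_mulVec, ← Matrix.SpecialLinearGroup.coe_mul, inv_mul_cancel,
      Matrix.SpecialLinearGroup.coe_one, Matrix.one_mulVec]
  have hginv' : ∀ u : Fin 2 → F, g.1 *ᵥ ((g⁻¹).1 *ᵥ u) = u := by
    intro u
    rw [Matrix.mulVec_mulVec, ← Matrix.SpecialLinearGroup.coe_mul, mul_inv_cancel,
      Matrix.SpecialLinearGroup.coe_one, Matrix.one_mulVec]
  refine ⟨{ hLV := hLV
            ρ := e.trans (MulAut.conj g)
            ψ := fun v => g.1 *ᵥ ψ₀ (Additive.ofMul v)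
            ψ_mul := ?_
            ψ_bij := ⟨?_, ?_⟩
            act := ?_
            hT := ?_ }⟩
  · intro a b
    rw [ofMul_mul, map_add, Matrix.mulVec_add]
  · intro a b hab
    have h1 := congrArg (fun u => (g⁻¹).1 *ᵥ u) hab
    simp only [hginv] at h1
    exact Additive.ofMul.injective (ψ₀.injective h1)
  · intro u
    refine ⟨Additive.toMul (ψ₀.symm ((g⁻¹).1 *ᵥ u)), ?_⟩
    show g.1 *ᵥ ψ₀ (Additive.ofMul (Additive.toMul (ψ₀.symm ((g⁻¹).1 *ᵥ u)))) = u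
    rw [ofMul_toMul, AddEquiv.apply_symm_apply, hginv']
  · intro l v w hw
    obtain ⟨w', hw', hpsi⟩ := hact l v
    have hww : w = w' := Subtype.ext (hw.trans hw'.symm)
    subst hww
    show g.1 *ᵥ ψ₀ (Additive.ofMul w) = (g * ρ₀ l * g⁻¹).1 *ᵥ (g.1 *ᵥ ψ₀ (Additive.ofMul v))
    have h3 : g * ρ₀ l * g⁻¹ * g = g * ρ₀ l := by group
    rw [hpsi, Matrix.mulVec_mulVec (ψ₀ (Additive.ofMul v)) (g * ρ₀ l * g⁻¹).1 g.1,
      ← Matrix.SpecialLinearGroup.coe_mul, h3,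
      Matrix.SpecialLinearGroup.coe_mul, ← Matrix.mulVec_mulVec]
  · intro t
    show _ ↔ ∃ l : L, (l : G) = t ∧ g * ρ₀ l * g⁻¹ ∈ U F
    simp only [hU]
    subst hT
    constructor
    · rintro ⟨l, hl, rfl⟩
      exact ⟨l, rfl, hl⟩
    · rintro ⟨l, rfl, hl⟩
      exact ⟨l, hl, rfl⟩

end Cfsg.Agent.Lib.PGroup.NatMod
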