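import Mathlib
import Cfsg.Agent.Lib.PSL2.SylowU

/-!
# Generation of `SL₂(F)`: root elements, and two Sylow `p`-subgroups.
-/

set_option autoImplicit false

namespace Cfsg.Agent.Lib.PGroup.SL2Gen

open Matrix Matrix.SpecialLinearGroup
open scoped MatrixGroups
open Cfsg.Agent.Lib.PSL2.Basic Cfsg.Agent.Lib.PSL2.SylowU Cfsg.Agent.Lib.PSL2.Unipotent

variable {F : Type*} [Field F]

/-- A subgroup containing all root elements is everything. -/
theorem eq_top_of_x_y {M : Subgroup SL(2, F)} (hx : ∀ t, x t ∈ M) (hy : ∀ t, y t ∈ M) : M = ⊤ := by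
  have key : ∀ A : SL(2, F), A.1 1 0 ≠ 0 → A ∈ M := by
    intro A hc
    have hd := det_entries A
    have : A = x ((A.1 0 0 - 1) / A.1 1 0) * y (A.1 1 0) * x ((A.1 1 1 - 1) / A.1 1 0) := by
      apply ext2
      · simp; field_simp; ring
      · simp; field_simp; linear_combination (-1 : F) * hd
      · simp
      · simp; field_simp; ring
    rw [this]
    exact M.mul_mem (M.mul_mem (hx _) (hy _)) (hx _)
  rw [eq_top_iff]
  intro A _
  by_cases hc : A.1 1 0 = 0
  · have hd := det_entries A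
    rw [hc, mul_zero, sub_zero] at hd
    have ha : A.1 0 0 ≠ 0 := left_ne_zero_of_mul_eq_one hd
    have h1 : y 1 * A ∈ M := key _ (by simp [hc, ha])
    have h2 := M.mul_mem (hy (-1)) h1
    have h3 : y (-1) * (y 1 * A) = A := by
      rw [← mul_assoc, ← y_add]; simp
    rwa [h3] at h2
  · exact key A hc

/-- A subgroup containing `U` and a trace two element outside `U` is everything. -/
theorem eq_top_of_U_of_tr {M : Subgroup SL(2, F)} (hU : U F ≤ M) {u : SL(2, F)} (hu : u ∈ M)
    (htr : tr u = 2) (huU : u ∉ U F) : M = ⊤ := by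
  have hx : ∀ t, x t ∈ M := fun t => hU ⟨t, rfl⟩
  have hc : u.1 1 0 ≠ 0 := by
    intro hc
    apply huU
    rw [mem_U_iff_entries]
    have hd := det_entries u
    rw [hc, mul_zero, sub_zero] at hd
    have ht : u.1 0 0 + u.1 1 1 = 2 := htr
    have h1 : (u.1 0 0 - 1) ^ 2 = 0 := by
      have : u.1 1 1 = 2 - u.1 0 0 := by linear_combination ht
      rw [this] at hd
      linear_combination -hd
    have h2 : u.1 0 0 = 1 := by
      have := pow_eq_zero_iff (two_ne_zero) |>.1 h1
      linear_combination this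
    refine ⟨h2, ?_, hc⟩
    rw [h2] at ht
    linear_combination ht
  set c := u.1 1 0 with hcdef
  -- the Weyl-type element
  have hd := det_entries u
  let w' : SL(2, F) := x (-(u.1 0 0) / c) * u * x (-(u.1 1 1) / c)
  have hw' : w' ∈ M := M.mul_mem (M.mul_mem (hx _) hu) (hx _)
  have h00 : w'.1 0 0 = 0 := by
    simp [w', ← hcdef]; field_simp; ring
  have h11 : w'.1 1 1 = 0 := by
    simp [w', ← hcdef]; field_simp; ring
  have h10 : w'.1 1 0 = c := by
    simp [w', ← hcdef]
  have hdw := det_entries w'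
  rw [h00, h11, h10] at hdw
  have h01 : w'.1 0 1 = - c⁻¹ := by
    field_simp
    linear_combination -hdw
  have hy : ∀ t, y t ∈ M := by
    intro t
    have h1 := M.mul_mem (M.mul_mem hw' (hx (- t / c ^ 2))) (M.inv_mem hw')
    have h2 : w' * x (- t / c ^ 2) * w'⁻¹ = y t := by
      apply ext2
      · simp [h00, h01, h10, h11]
        exact inv_mul_cancel₀ hc
      · simp [h00, h01, h10, h11]
      · simp [h00, h01, h10, h11]
        field_simp
      · simp [h00, h01, h10, h11]
        exact mul_inv_cancel₀ hc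
    rwa [h2] at h1
  exact eq_top_of_x_y hx hy

section Sylow

variable [Fintype F] (p : ℕ) [Fact p.Prime] [CharP F p]

/-- Two distinct Sylow `p`-subgroups of `SL₂(F)` generate it. -/
theorem sup_sylow_eq_top {Q₁ Q₂ : Sylow p SL(2, F)} (h : Q₁ ≠ Q₂) : (Q₁ : Subgroup SL(2, F)) ⊔ Q₂ = ⊤ := by
  obtain ⟨g, hg⟩ := MulAction.exists_smul_eq SL(2, F) Q₁ (sylowU F p)
  have hne : g • Q₁ ≠ g • Q₂ := fun e => h (smul_left_cancel g e)
  rw [hg] at hne
  have hle : ¬ ((g • Q₂ : Sylow p SL(2, F)) : Subgroup SL(2, F)) ≤ U F := by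
    intro hle
    apply hne
    exact Sylow.ext ((g • Q₂).3 (sylowU F p).2 hle)
  obtain ⟨u, hu, huU⟩ := SetLike.not_le_iff_exists.1 hle
  have htr : tr u = 2 := by
    obtain ⟨n, hn⟩ := IsPGroup.iff_orderOf.1 (g • Q₂).2 ⟨u, hu⟩
    apply tr_eq_two_of_pow_prime_pow p u n
    have := pow_orderOf_eq_one (⟨u, hu⟩ : ((g • Q₂ : Sylow p SL(2, F)) : Subgroup SL(2, F)))
    rw [hn] at this
    exact congrArg Subtype.val this
  let M : Subgroup SL(2, F) := ((g • Q₁ : Sylow p SL(2, F)) : Subgroup SL(2, F)) ⊔ ((g • Q₂ : Sylow p SL(2, F)) : Subgroup SL(2, F))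
  have hUM : U F ≤ M := by
    have h1 : (U F : Subgroup SL(2, F)) = ((g • Q₁ : Sylow p SL(2, F)) : Subgroup SL(2, F)) := by rw [hg]; rfl
    rw [h1]
    exact le_sup_left
  have hMtop : M = ⊤ := eq_top_of_U_of_tr hUM ((le_sup_right : _ ≤ M) hu) htr huU
  have h2 : M = ((Q₁ : Subgroup SL(2, F)) ⊔ Q₂).map (MulAut.conj g).toMonoidHom := by
    show _ ⊔ _ = _
    rw [Sylow.coe_subgroup_smul, Sylow.coe_subgroup_smul, Subgroup.map_sup]
    rfl
  rw [hMtop] at h2
  have h3 : (((Q₁ : Subgroup SL(2, F)) ⊔ Q₂).map (MulAut.conj g).toMonoidHom) =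
      (⊤ : Subgroup SL(2, F)).map (MulAut.conj g).toMonoidHom := by
    rw [← h2]
    ext z
    simp only [Subgroup.mem_top, Subgroup.mem_map, true_and, true_iff]
    exact ⟨(MulAut.conj g)⁻¹ z, by simp; group⟩
  exact Subgroup.map_injective (MulAut.conj g).injective h3

end Sylow

end Cfsg.Agent.Lib.PGroup.SL2Gen
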