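import Mathlib
import Cfsg.Agent.Lib.PGroup.SL2Gen

/-!
# Recognition of the natural `SL₂(F)`-module

An irreducible nontrivial `SL₂(F)`-module `W` on which the upper unitriangular group acts quadratically, or
with `|W| ≤ |C_W(U)|²`, is the natural module `F²`.
-/

set_option autoImplicit false
set_option linter.unusedSectionVars false
set_option linter.unusedVariables false

namespace Cfsg.Agent.Lib.PGroup.NatRec

open Matrix
open scoped MatrixGroups
open Cfsg.Agent.Lib.PSL2.Basic Cfsg.Agent.Lib.PSL2.SylowU Cfsg.Agent.Lib.PGroup.SL2Gen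

variable {F : Type*} [Field F]

/-- The monomial elements. -/
def nn (a : F) (ha : a ≠ 0) : SL(2, F) := sl2 0 (-a) a⁻¹ 0 (by field_simp; ring)

@[simp] lemma nn_00 (a : F) (ha : a ≠ 0) : (nn a ha).1 0 0 = 0 := rfl
@[simp] lemma nn_01 (a : F) (ha : a ≠ 0) : (nn a ha).1 0 1 = -a := rfl
@[simp] lemma nn_10 (a : F) (ha : a ≠ 0) : (nn a ha).1 1 0 = a⁻¹ := rfl
@[simp] lemma nn_11 (a : F) (ha : a ≠ 0) : (nn a ha).1 1 1 = 0 := rfl

/-- The base monomial element. -/
def n₁ : SL(2, F) := nn 1 one_ne_zero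

@[simp] lemma n₁_00 : (n₁ : SL(2, F)).1 0 0 = 0 := rfl
@[simp] lemma n₁_01 : (n₁ : SL(2, F)).1 0 1 = -1 := rfl
@[simp] lemma n₁_10 : (n₁ : SL(2, F)).1 1 0 = 1 := by simp [n₁]
@[simp] lemma n₁_11 : (n₁ : SL(2, F)).1 1 1 = 0 := rfl

lemma y_eq (a : F) (ha : a ≠ 0) : y a⁻¹ = x a * nn a ha * x a := by
  apply ext2 <;> simp <;> field_simp <;> ring

lemma nn_inv_y_nn (a : F) (ha : a ≠ 0) (c : F) : (nn a ha)⁻¹ * y c * nn a ha = x (-(a ^ 2 * c)) := by
  apply ext2 <;> simp <;> field_simp <;> ring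

lemma nn_mul_d (a : F) (ha : a ≠ 0) : nn a ha * d a ha = n₁ := by
  apply ext2 <;> simp <;> field_simp

lemma nn_mul_n₁_inv (a : F) (ha : a ≠ 0) : nn a ha * (n₁)⁻¹ = d a ha := by
  apply ext2 <;> simp <;> field_simp

lemma n₁_sq : (n₁ : SL(2, F)) * n₁ = d (-1) (neg_ne_zero.2 one_ne_zero) := by
  apply ext2 <;> simp

lemma y_eq_conj (c : F) : y c = n₁ * x (-c) * (n₁)⁻¹ := by
  apply ext2 <;> simp

lemma d_x (a : F) (ha : a ≠ 0) (t : F) : (d a ha)⁻¹ * x t * d a ha = x (a⁻¹ ^ 2 * t) := by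
  apply ext2 <;> simp <;> field_simp

lemma x_d (a : F) (ha : a ≠ 0) (t : F) : x t * d a ha = d a ha * x (a⁻¹ ^ 2 * t) := by
  apply ext2 <;> simp <;> field_simp

lemma y_d (a : F) (ha : a ≠ 0) (t : F) : y t * d a ha = d a ha * y (a ^ 2 * t) := by
  apply ext2 <;> simp <;> field_simp

/-- Inside a finite group, a submonoid is a subgroup: generators are enough. -/
lemma forall_of_x_n [Finite F] {P : SL(2, F) → Prop} (h1 : P 1) (hmul : ∀ a b, P a → P b → P (a * b))
    (hx : ∀ a, P (x a)) (hn : P n₁) : ∀ g, P g := by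
  classical
  haveI : Finite SL(2, F) := by
    haveI : Fintype F := Fintype.ofFinite F
    infer_instance
  have hpow : ∀ g, P g → ∀ m : ℕ, P (g ^ m) := by
    intro g hg m
    induction m with
    | zero => simpa using h1
    | succ k ih => rw [pow_succ]; exact hmul _ _ ih hg
  have hinv : ∀ g, P g → P g⁻¹ := by
    intro g hg
    have : g⁻¹ = g ^ (orderOf g - 1) := by
      apply inv_eq_of_mul_eq_one_left
      rw [← pow_succ, Nat.sub_add_cancel (orderOf_pos g), pow_orderOf_eq_one]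
    rw [this]
    exact hpow g hg _
  let M : Subgroup SL(2, F) :=
    { carrier := {g | P g}
      one_mem' := h1
      mul_mem' := fun {a b} ha hb => hmul a b ha hb
      inv_mem' := fun {a} ha => hinv a ha }
  have hM : M = ⊤ := by
    apply eq_top_of_x_y
    · exact hx
    · intro t
      show P (y t)
      rw [y_eq_conj]
      exact hmul _ _ (hmul _ _ hn (hx _)) (hinv _ hn)
  intro g
  have : g ∈ M := by rw [hM]; trivial
  exact this

section Module

variable {W : Type*} [AddCommGroup W] [DistribMulAction SL(2, F) W]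

variable (F W) in
/-- `C_W(U)` -/
def KK : AddSubgroup W where
  carrier := {w | ∀ a : F, (x a : SL(2, F)) • w = w}
  zero_mem' := fun a => smul_zero _
  add_mem' := fun {u v} hu hv a => by rw [smul_add, hu, hv]
  neg_mem' := fun {u} hu a => by rw [smul_neg, hu]

variable (F W) in
/-- `C_W(U⁻)` -/
def KK' : AddSubgroup W where
  carrier := {w | ∀ a : F, (y a : SL(2, F)) • w = w}
  zero_mem' := fun a => smul_zero _
  add_mem' := fun {u v} hu hv a => by rw [smul_add, hu, hv]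
  neg_mem' := fun {u} hu a => by rw [smul_neg, hu]

lemma mem_KK {w : W} : w ∈ KK F W ↔ ∀ a : F, (x a : SL(2, F)) • w = w := Iff.rfl
lemma mem_KK' {w : W} : w ∈ KK' F W ↔ ∀ a : F, (y a : SL(2, F)) • w = w := Iff.rfl

lemma smul_inv_smul' (g : SL(2, F)) (w : W) : g • g⁻¹ • w = w := smul_inv_smul g w

lemma n_mem_KK' {a : F} (ha : a ≠ 0) {k : W} (hk : k ∈ KK F W) : nn a ha • k ∈ KK' F W := by
  intro c
  have h : y c * nn a ha = nn a ha * x (-(a ^ 2 * c)) := by
    rw [← nn_inv_y_nn a ha c]; group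
  rw [smul_smul, h, mul_smul, hk]

lemma d_mem_KK {a : F} (ha : a ≠ 0) {k : W} (hk : k ∈ KK F W) : d a ha • k ∈ KK F W := by
  intro c
  rw [smul_smul, x_d, mul_smul, hk]

lemma d_mem_KK' {a : F} (ha : a ≠ 0) {k : W} (hk : k ∈ KK' F W) : d a ha • k ∈ KK' F W := by
  intro c
  rw [smul_smul, y_d, mul_smul, hk]

/-- Transport from `x` to `y`. -/
lemma y_sub_eq (c : F) (v : W) :
    y c • v - v = (n₁ : SL(2, F)) • (x (-c) • ((n₁ : SL(2, F))⁻¹ • v) - (n₁ : SL(2, F))⁻¹ • v) := by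
  rw [y_eq_conj, smul_sub, smul_inv_smul, mul_smul, mul_smul]

/-- The two fixed subgroups meet in the fixed points. -/
lemma fixed_of_mem [Finite F] {k : W} (h1 : k ∈ KK F W) (h2 : k ∈ KK' F W) (g : SL(2, F)) : g • k = k := by
  let M : Subgroup SL(2, F) :=
    { carrier := {g | g • k = k}
      one_mem' := one_smul _ _
      mul_mem' := fun {a b} ha hb => by
        show (a * b) • k = k
        rw [mul_smul, hb, ha]
      inv_mem' := fun {a} ha => by
        show a⁻¹ • k = k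
        rw [inv_smul_eq_iff, ha] }
  have hM : M = ⊤ := eq_top_of_x_y h1 h2
  have : g ∈ M := by rw [hM]; trivial
  exact this

/-- Hypotheses of recognition. -/
structure Hyp (F W : Type*) [Field F] [AddCommGroup W] [DistribMulAction SL(2, F) W] : Prop where
  irr : ∀ A : AddSubgroup W, (∀ (g : SL(2, F)), ∀ v ∈ A, g • v ∈ A) → A = ⊥ ∨ A = ⊤
  nt : ∃ (g : SL(2, F)) (w : W), g • w ≠ w

variable [Finite F]

lemma inf_eq_bot (H : Hyp F W) : KK F W ⊓ KK' F W = ⊥ := by
  let A : AddSubgroup W :=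
    { carrier := {w | ∀ g : SL(2, F), g • w = w}
      zero_mem' := fun g => smul_zero _
      add_mem' := fun {u v} hu hv g => by rw [smul_add, hu, hv]
      neg_mem' := fun {u} hu g => by rw [smul_neg, hu] }
  have hA : A = ⊥ := by
    rcases H.irr A (fun g v hv h => by
      have h1 : h • (g • v) = g • v := by rw [hv g, hv h]
      exact h1) with h | h
    · exact h
    · exfalso
      obtain ⟨g, w, hgw⟩ := H.nt
      have : w ∈ A := by rw [h]; trivial
      exact hgw (this g)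
  rw [eq_bot_iff]
  rintro k ⟨h1, h2⟩
  rw [← hA]
  exact fixed_of_mem h1 h2

/-- Quadratic action. -/
def Quad (F W : Type*) [Field F] [AddCommGroup W] [DistribMulAction SL(2, F) W] : Prop :=
  ∀ (a : F) (v : W), (x a : SL(2, F)) • v - v ∈ KK F W

section Q

variable (H : Hyp F W) (hq : Quad F W)
include H hq

omit H in
lemma y_sub_mem (c : F) (v : W) : (y c : SL(2, F)) • v - v ∈ KK' F W := by
  rw [y_sub_eq]
  exact n_mem_KK' one_ne_zero (hq _ _)

/-- The core relation. -/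
lemma core {a : F} (ha : a ≠ 0) {k : W} (hk : k ∈ KK F W) :
    x a • (nn a ha • k) - nn a ha • k = k := by
  have h1 := y_sub_mem hq a⁻¹ k
  rw [y_eq a ha, mul_smul, mul_smul, hk a] at h1
  have h2 := n_mem_KK' ha hk
  have h3 : (x a • (nn a ha • k) - nn a ha • k) - k ∈ KK' F W := by
    have := (KK' F W).sub_mem h1 h2
    convert this using 1
    abel
  have h4 : (x a • (nn a ha • k) - nn a ha • k) - k ∈ KK F W := (KK F W).sub_mem (hq _ _) hk
  have h5 : (x a • (nn a ha • k) - nn a ha • k) - k ∈ KK F W ⊓ KK' F W := ⟨h4, h3⟩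
  rw [inf_eq_bot H] at h5
  exact sub_eq_zero.1 h5

omit H hq in
/-- The field action on `K`. -/
def EE (a : F) (k : W) : W := x a • ((n₁ : SL(2, F)) • k) - (n₁ : SL(2, F)) • k

omit H in
lemma EE_mem (a : F) (k : W) : EE a k ∈ KK F W := hq _ _

omit H hq in
lemma EE_add_right (a : F) (k l : W) : EE a (k + l) = EE a k + EE a l := by
  simp only [EE, smul_add]
  abel

omit H hq in
lemma EE_zero_right (a : F) : EE a (0 : W) = 0 := by simp [EE]

omit H hq in
lemma EE_zero_left (k : W) : EE (0 : F) k = 0 := by simp [EE]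

omit H in
lemma EE_add_left (a b : F) (k : W) : EE (a + b) k = EE a k + EE b k := by
  have h1 : x b • ((n₁ : SL(2, F)) • k) = EE b k + (n₁ : SL(2, F)) • k := by simp [EE]
  have h2 : x a • EE b k = EE b k := EE_mem hq b k a
  simp only [EE] at *
  rw [x_add, mul_smul, h1, smul_add, h2]
  abel

lemma EE_eq {a : F} (ha : a ≠ 0) {k : W} (hk : k ∈ KK F W) : EE a k = d a ha • k := by
  have h1 : (n₁ : SL(2, F)) • k = nn a ha • (d a ha • k) := by
    rw [smul_smul, nn_mul_d]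
  have h2 := core H hq ha (d_mem_KK ha hk)
  rw [← h1] at h2
  exact h2

lemma EE_one {k : W} (hk : k ∈ KK F W) : EE (1 : F) k = k := by
  rw [EE_eq H hq one_ne_zero hk, d_one, one_smul]

omit H in
lemma EE_neg_left (a : F) (k : W) : EE (-a) k = - EE a k := by
  have h := EE_add_left hq (-a) a k
  rw [neg_add_cancel, EE_zero_left] at h
  exact (eq_neg_of_add_eq_zero_left h.symm)

lemma EE_mul (a b : F) {k : W} (hk : k ∈ KK F W) : EE a (EE b k) = EE (a * b) k := by
  by_cases ha : a = 0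
  · subst ha
    simp [EE_zero_left]
  by_cases hb : b = 0
  · subst hb
    simp [EE_zero_left, EE_zero_right]
  rw [EE_eq H hq hb hk, EE_eq H hq ha (d_mem_KK hb hk), EE_eq H hq (mul_ne_zero ha hb) hk, smul_smul, d_mul]

lemma neg_one_smul_K {k : W} (hk : k ∈ KK F W) : d (-1 : F) (neg_ne_zero.2 one_ne_zero) • k = -k := by
  rw [← EE_eq H hq _ hk, EE_neg_left hq, EE_one H hq hk]

/-- The coordinate map. -/
def PsiFun (k₀ : W) (u : Fin 2 → F) : W := EE (u 0) k₀ + (n₁ : SL(2, F)) • EE (u 1) k₀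

omit H in
lemma Psi_add (k₀ : W) (u v : Fin 2 → F) : PsiFun k₀ (u + v) = PsiFun k₀ u + PsiFun k₀ v := by
  simp only [PsiFun, Pi.add_apply, EE_add_left hq, smul_add]
  abel

lemma Psi_x {k₀ : W} (hk : k₀ ∈ KK F W) (a : F) (u : Fin 2 → F) :
    (x a : SL(2, F)) • PsiFun k₀ u = PsiFun k₀ ((x a : SL(2, F)).1 *ᵥ u) := by
  have h0 : ((x a : SL(2, F)).1 *ᵥ u) 0 = u 0 + a * u 1 := by
    simp [Matrix.mulVec, dotProduct, Fin.sum_univ_two]
  have h1 : ((x a : SL(2, F)).1 *ᵥ u) 1 = u 1 := by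
    simp [Matrix.mulVec, dotProduct, Fin.sum_univ_two]
  simp only [PsiFun, h0, h1, smul_add]
  rw [EE_mem hq (u 0) k₀ a, EE_add_left hq, ← EE_mul H hq a (u 1) hk]
  have h2 : x a • (n₁ : SL(2, F)) • EE (u 1) k₀ = EE a (EE (u 1) k₀) + (n₁ : SL(2, F)) • EE (u 1) k₀ := by
    simp [EE]
  rw [h2]
  abel

lemma Psi_n {k₀ : W} (hk : k₀ ∈ KK F W) (u : Fin 2 → F) :
    (n₁ : SL(2, F)) • PsiFun k₀ u = PsiFun k₀ ((n₁ : SL(2, F)).1 *ᵥ u) := by
  have h0 : ((n₁ : SL(2, F)).1 *ᵥ u) 0 = - u 1 := by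
    simp [Matrix.mulVec, dotProduct, Fin.sum_univ_two]
  have h1 : ((n₁ : SL(2, F)).1 *ᵥ u) 1 = u 0 := by
    simp [Matrix.mulVec, dotProduct, Fin.sum_univ_two]
  simp only [PsiFun, h0, h1, smul_add]
  rw [smul_smul, n₁_sq, neg_one_smul_K H hq (EE_mem hq _ _), EE_neg_left hq]
  abel

lemma Psi_equiv {k₀ : W} (hk : k₀ ∈ KK F W) (g : SL(2, F)) (u : Fin 2 → F) :
    g • PsiFun k₀ u = PsiFun k₀ (g.1 *ᵥ u) := by
  revert u
  refine forall_of_x_n (P := fun g => ∀ u, g • PsiFun k₀ u = PsiFun k₀ (g.1 *ᵥ u)) ?_ ?_ ?_ ?_ g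
  · intro u
    simp
  · intro a b ha hb u
    rw [mul_smul, hb, ha, Matrix.SpecialLinearGroup.coe_mul, Matrix.mulVec_mulVec]
  · exact fun a u => Psi_x H hq hk a u
  · exact fun u => Psi_n H hq hk u

lemma Psi_inj {k₀ : W} (hk : k₀ ∈ KK F W) (hk0 : k₀ ≠ 0) {u : Fin 2 → F} (h : PsiFun k₀ u = 0) : u = 0 := by
  have hE : ∀ a : F, EE a k₀ = 0 → a = 0 := by
    intro a ha
    by_contra hne
    rw [EE_eq H hq hne hk] at ha
    exact hk0 ((smul_eq_zero_iff_eq _).1 ha)
  have h1 : EE (u 0) k₀ ∈ KK F W ⊓ KK' F W := by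
    refine ⟨EE_mem hq _ _, ?_⟩
    have : EE (u 0) k₀ = - ((n₁ : SL(2, F)) • EE (u 1) k₀) := eq_neg_of_add_eq_zero_left h
    rw [this]
    exact (KK' F W).neg_mem (n_mem_KK' one_ne_zero (EE_mem hq _ _))
  rw [inf_eq_bot H] at h1
  have h2 : EE (u 0) k₀ = 0 := h1
  have h3 : (n₁ : SL(2, F)) • EE (u 1) k₀ = 0 := by
    have h := h
    simp only [PsiFun, h2, zero_add] at h
    exact h
  have h4 : EE (u 1) k₀ = 0 := (smul_eq_zero_iff_eq _).1 h3
  funext i
  fin_cases i
  · exact hE _ h2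
  · exact hE _ h4

/-- **Recognition, quadratic case.** -/
theorem exists_equiv_of_quad {k₀ : W} (hk : k₀ ∈ KK F W) (hk0 : k₀ ≠ 0) :
    ∃ ψ : W ≃+ (Fin 2 → F), ∀ (g : SL(2, F)) (w : W), ψ (g • w) = g.1 *ᵥ ψ w := by
  let Ψ : (Fin 2 → F) →+ W :=
    { toFun := PsiFun k₀
      map_zero' := by simp [PsiFun, EE_zero_left]
      map_add' := Psi_add hq k₀ }
  have hinj : Function.Injective Ψ := by
    rw [injective_iff_map_eq_zero]
    intro u hu
    exact Psi_inj H hq hk hk0 hu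
  have hsurj : Function.Surjective Ψ := by
    have hr : Ψ.range = ⊤ := by
      rcases H.irr Ψ.range (by
        rintro g _ ⟨u, rfl⟩
        exact ⟨g.1 *ᵥ u, (Psi_equiv H hq hk g u).symm⟩) with h | h
      · exfalso
        apply hk0
        have h1 : Ψ ![1, 0] = k₀ := by
          show PsiFun k₀ ![1, 0] = k₀
          simp [PsiFun, EE_zero_left, EE_one H hq hk]
        rw [← h1]
        have : Ψ ![1, 0] ∈ Ψ.range := ⟨_, rfl⟩
        rw [h] at this
        exact this
      · exact h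
    exact AddMonoidHom.range_eq_top.1 hr
  let e : (Fin 2 → F) ≃+ W := AddEquiv.ofBijective Ψ ⟨hinj, hsurj⟩
  refine ⟨e.symm, fun g w => ?_⟩
  apply e.injective
  rw [AddEquiv.apply_symm_apply]
  obtain ⟨u, rfl⟩ := e.surjective w
  rw [AddEquiv.symm_apply_apply]
  exact Psi_equiv H hq hk g u

end Q

section Branch

lemma n_y_n_inv (c : F) : (n₁ : SL(2, F)) * y c * (n₁ : SL(2, F))⁻¹ = x (-c) := by
  apply ext2 <;> simp

lemma y_n_inv (c : F) : y c * (n₁ : SL(2, F))⁻¹ = (n₁ : SL(2, F))⁻¹ * x (-c) := by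
  apply ext2 <;> simp

lemma x_n_inv (c : F) : x c * (n₁ : SL(2, F))⁻¹ = (n₁ : SL(2, F))⁻¹ * y (-c) := by
  apply ext2 <;> simp

lemma n_inv_mem_KK' {k : W} (hk : k ∈ KK F W) : (n₁ : SL(2, F))⁻¹ • k ∈ KK' F W := by
  intro c
  rw [smul_smul, y_n_inv, mul_smul, hk]

lemma n_inv_mem_KK {k : W} (hk : k ∈ KK' F W) : (n₁ : SL(2, F))⁻¹ • k ∈ KK F W := by
  intro c
  rw [smul_smul, x_n_inv, mul_smul, hk]

lemma n_mem_KK'' {k : W} (hk : k ∈ KK F W) : (n₁ : SL(2, F)) • k ∈ KK' F W := n_mem_KK' one_ne_zero hk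

lemma U_fix {u : SL(2, F)} (hu : u ∈ U F) {k : W} (hk : k ∈ KK F W) : u • k = k := by
  obtain ⟨t, rfl⟩ := hu
  exact hk t

/-- The action of `U` on `W / K`. -/
@[instance_reducible] noncomputable def quotAct : MulAction (U F) (W ⧸ KK F W) where
  smul u q := QuotientAddGroup.map (KK F W) (KK F W) (DistribSMul.toAddMonoidHom W (u : SL(2, F))) (by
    intro k hk
    show (u : SL(2, F)) • k ∈ KK F W
    rw [U_fix u.2 hk]
    exact hk) q
  one_smul q := by
    induction q using QuotientAddGroup.induction_on with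
    | H w =>
      show ((QuotientAddGroup.mk (((1 : U F) : SL(2, F)) • w)) : W ⧸ KK F W) = _
      simp
  mul_smul a b q := by
    induction q using QuotientAddGroup.induction_on with
    | H w =>
      show ((QuotientAddGroup.mk (((a * b : U F) : SL(2, F)) • w)) : W ⧸ KK F W) = ((QuotientAddGroup.mk ((a : SL(2, F)) • (b : SL(2, F)) • w)) : W ⧸ KK F W)
      rw [Subgroup.coe_mul, mul_smul]

variable {p : ℕ} [hp : Fact p.Prime] [Finite W]

/-- There is a nonzero fixed vector of `U`. -/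
theorem exists_fixed (hU : IsPGroup p (U F)) {m : ℕ} (hm : Nat.card W = p ^ m) (hne : ∃ w : W, w ≠ 0) :
    ∃ k ∈ KK F W, k ≠ (0 : W) := by
  have hdvd : p ∣ Nat.card W := by
    rw [hm]
    apply dvd_pow_self
    rintro rfl
    simp only [pow_zero] at hm
    obtain ⟨w, hw⟩ := hne
    have := (Nat.card_eq_one_iff_unique.1 hm).1
    exact hw (Subsingleton.elim _ _)
  have h0 : (0 : W) ∈ MulAction.fixedPoints (U F) W := fun u => smul_zero _
  obtain ⟨b, hb, hne'⟩ := hU.exists_fixed_point_of_prime_dvd_card_of_fixed_point W hdvd h0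
  refine ⟨b, fun a => hb ⟨x a, a, rfl⟩, hne'.symm⟩

/-- A vector outside `K`, fixed modulo `K`. -/
theorem exists_fixed_mod (hU : IsPGroup p (U F)) {m : ℕ} (hm : Nat.card W = p ^ m) (hne : KK F W ≠ ⊤) :
    ∃ v : W, v ∉ KK F W ∧ ∀ a : F, (x a : SL(2, F)) • v - v ∈ KK F W := by
  classical
  letI := quotAct (F := F) (W := W)
  have hdvd : p ∣ Nat.card (W ⧸ KK F W) := by
    have h1 : Nat.card (W ⧸ KK F W) ∣ p ^ m := by
      rw [← hm, AddSubgroup.card_eq_card_quotient_mul_card_addSubgroup (KK F W)]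
      exact dvd_mul_right _ _
    obtain ⟨j, -, hj⟩ := (Nat.dvd_prime_pow hp.out).1 h1
    rw [hj]
    apply dvd_pow_self
    rintro rfl
    simp only [pow_zero] at hj
    have h2 : Subsingleton (W ⧸ KK F W) := (Nat.card_eq_one_iff_unique.1 hj).1
    apply hne
    rw [eq_top_iff]
    intro w _
    have h3 : ((QuotientAddGroup.mk w : W ⧸ KK F W)) = 0 := Subsingleton.elim _ _
    exact (QuotientAddGroup.eq_zero_iff w).1 h3
  have h0 : (0 : W ⧸ KK F W) ∈ MulAction.fixedPoints (U F) (W ⧸ KK F W) := by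
    intro u
    show ((QuotientAddGroup.mk ((u : SL(2, F)) • (0 : W))) : W ⧸ KK F W) = 0
    rw [smul_zero]
    rfl
  obtain ⟨b, hb, hne'⟩ := hU.exists_fixed_point_of_prime_dvd_card_of_fixed_point (W ⧸ KK F W) hdvd h0
  induction b using QuotientAddGroup.induction_on with
  | H v =>
    refine ⟨v, ?_, ?_⟩
    · intro hv
      exact hne' ((QuotientAddGroup.eq_zero_iff v).2 hv).symm
    · intro a
      have h1 := hb ⟨x a, a, rfl⟩
      have h2 : ((QuotientAddGroup.mk ((x a : SL(2, F)) • v)) : W ⧸ KK F W) = QuotientAddGroup.mk v := h1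
      have h3 := (QuotientAddGroup.eq).1 h2
      have h4 := (KK F W).neg_mem h3
      convert h4 using 1
      abel

/-- Second branch implies first. -/
theorem quad_of_card (H : Hyp F W) (hU : IsPGroup p (U F)) {m : ℕ} (hm : Nat.card W = p ^ m)
    (hc : Nat.card W ≤ Nat.card (KK F W) ^ 2) : Quad F W := by
  classical
  have hinf := inf_eq_bot H
  -- `|K'| = |K|`
  have hcard' : Nat.card (KK' F W) = Nat.card (KK F W) := by
    refine (Nat.card_congr ⟨fun k => ⟨(n₁ : SL(2, F))⁻¹ • k.1, n_inv_mem_KK k.2⟩,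
      fun k => ⟨(n₁ : SL(2, F)) • k.1, n_mem_KK'' k.2⟩, fun k => ?_, fun k => ?_⟩)
    · apply Subtype.ext; simp
    · apply Subtype.ext; simp
  -- decomposition
  have hdec : ∀ v : W, ∃ k ∈ KK F W, ∃ k' ∈ KK' F W, v = k + k' := by
    let f : KK F W × KK' F W → W := fun q => q.1.1 + q.2.1
    have hf : Function.Injective f := by
      rintro ⟨a, b⟩ ⟨a', b'⟩ h
      have h1 : a.1 - a'.1 = b'.1 - b.1 := by
        have h2 : a.1 + b.1 = a'.1 + b'.1 := h
        rw [sub_eq_sub_iff_add_eq_add, h2, add_comm]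
      have h3 : a.1 - a'.1 ∈ KK F W ⊓ KK' F W :=
        ⟨(KK F W).sub_mem a.2 a'.2, h1 ▸ (KK' F W).sub_mem b'.2 b.2⟩
      rw [hinf] at h3
      have h4 : a.1 - a'.1 = 0 := h3
      have h5 : a = a' := Subtype.ext (sub_eq_zero.1 h4)
      have h6 : b = b' := Subtype.ext (by
        rw [h4] at h1
        exact (sub_eq_zero.1 h1.symm).symm)
      rw [h5, h6]
    have hcardf : Nat.card W ≤ Nat.card (KK F W × KK' F W) := by
      rw [Nat.card_prod, hcard', ← sq]
      exact hc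
    have hsurj := ((Nat.bijective_iff_injective_and_card f).2 ⟨hf, le_antisymm (Nat.card_le_card_of_injective f hf) hcardf⟩).2
    intro v
    obtain ⟨⟨a, b⟩, hab⟩ := hsurj v
    exact ⟨a.1, a.2, b.1, b.2, hab.symm⟩
  -- `K ≠ ⊤`
  have hne : KK F W ≠ ⊤ := by
    intro htop
    have h1 : KK' F W = ⊥ := by
      rw [htop, top_inf_eq] at hinf
      exact hinf
    have h2 : Nat.card (KK F W) = 1 := by
      rw [← hcard', h1]
      simp
    rw [htop] at h2
    have h3 : Nat.card W = 1 := by simpa using h2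
    obtain ⟨g, w, hgw⟩ := H.nt
    have := (Nat.card_eq_one_iff_unique.1 h3).1
    exact hgw (Subsingleton.elim _ _)
  -- the subgroup `K₁`
  let K₁ : AddSubgroup W :=
    { carrier := {v | v ∈ KK' F W ∧ ∀ a : F, (x a : SL(2, F)) • v - v ∈ KK F W}
      zero_mem' := ⟨(KK' F W).zero_mem, fun a => by simp [(KK F W).zero_mem]⟩
      add_mem' := fun {u v} hu hv => ⟨(KK' F W).add_mem hu.1 hv.1, fun a => by
        have := (KK F W).add_mem (hu.2 a) (hv.2 a)
        convert this using 1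
        rw [smul_add]
        abel⟩
      neg_mem' := fun {u} hu => ⟨(KK' F W).neg_mem hu.1, fun a => by
        have := (KK F W).neg_mem (hu.2 a)
        convert this using 1
        rw [smul_neg]
        abel⟩ }
  have hK₁_d : ∀ {t : F} (ht : t ≠ 0) {v : W}, v ∈ K₁ → d t ht • v ∈ K₁ := by
    intro t ht v hv
    refine ⟨d_mem_KK' ht hv.1, fun a => ?_⟩
    have h1 : x a • d t ht • v - d t ht • v = d t ht • (x (t⁻¹ ^ 2 * a) • v - v) := by
      rw [smul_sub, smul_smul, smul_smul, x_d]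
    rw [h1]
    exact d_mem_KK ht (hv.2 _)
  -- a nonzero element of `K₁`
  obtain ⟨v₀, hv₀, hv₀a⟩ := exists_fixed_mod hU hm hne
  obtain ⟨k, hk, k', hk', rfl⟩ := hdec v₀
  have hk'K₁ : k' ∈ K₁ := ⟨hk', fun a => by
    have h1 := hv₀a a
    rw [smul_add, hk a] at h1
    convert h1 using 1
    abel⟩
  have hk'0 : k' ≠ 0 := by
    rintro rfl
    apply hv₀
    simpa using hk
  -- the core relation
  have hcore : ∀ {a : F} (ha : a ≠ 0) {v : W}, v ∈ K₁ →
      x a • (d a ha • v) - d a ha • v = (n₁ : SL(2, F))⁻¹ • v := by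
    intro a ha v hv
    set z := (n₁ : SL(2, F))⁻¹ • v with hz
    have hzK : z ∈ KK F W := n_inv_mem_KK hv.1
    have h1 : y a⁻¹ • z - z ∈ KK' F W := by
      have h2 : y a⁻¹ • z - z = (n₁ : SL(2, F))⁻¹ • (x (-a⁻¹) • v - v) := by
        rw [hz, smul_sub, smul_smul, smul_smul, y_n_inv]
      rw [h2]
      exact n_inv_mem_KK' (hv.2 _)
    have h3 : y a⁻¹ • z = x a • (d a ha • v) := by
      rw [y_eq a ha, mul_smul, hzK a, mul_smul, hz, smul_smul (nn a ha), nn_mul_n₁_inv]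
    have h4 : d a ha • v ∈ K₁ := hK₁_d ha hv
    rw [h3] at h1
    have h5 : (x a • (d a ha • v) - d a ha • v) - z ∈ KK' F W := by
      have := (KK' F W).sub_mem h1 h4.1
      convert this using 1
      abel
    have h6 : (x a • (d a ha • v) - d a ha • v) - z ∈ KK F W := (KK F W).sub_mem (h4.2 a) hzK
    have h7 : (x a • (d a ha • v) - d a ha • v) - z ∈ KK F W ⊓ KK' F W := ⟨h6, h5⟩
    rw [hinf] at h7
    exact sub_eq_zero.1 h7
  -- the invariant subgroup
  let K₂ : AddSubgroup W := K₁.map (DistribSMul.toAddMonoidHom W (n₁ : SL(2, F))⁻¹)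
  have hK₂K : K₂ ≤ KK F W := by
    rintro _ ⟨v, hv, rfl⟩
    exact n_inv_mem_KK hv.1
  let A : AddSubgroup W := K₁ ⊔ K₂
  have hAinv : ∀ (g : SL(2, F)), ∀ v ∈ A, g • v ∈ A := by
    refine forall_of_x_n (P := fun g => ∀ v ∈ A, g • v ∈ A) ?_ ?_ ?_ ?_
    · intro v hv
      simpa using hv
    · intro a b ha hb v hv
      rw [mul_smul]
      exact ha _ (hb _ hv)
    · intro a v hv
      obtain ⟨u, hu, z, hz, rfl⟩ := AddSubgroup.mem_sup.1 hv
      rw [smul_add, hK₂K hz a]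
      refine A.add_mem ?_ ((le_sup_right : K₂ ≤ A) hz)
      by_cases ha : a = 0
      · subst ha
        rw [x_zero, one_smul]
        exact (le_sup_left : K₁ ≤ A) hu
      · have h1 : d a ha • (d a ha)⁻¹ • u = u := smul_inv_smul _ _
        have h2 : (d a ha)⁻¹ = d a⁻¹ (inv_ne_zero ha) := d_inv a ha
        have hu' : (d a ha)⁻¹ • u ∈ K₁ := by
          rw [h2]
          exact hK₁_d _ hu
        have h3 := hcore ha hu'
        rw [h1] at h3
        have h4 : x a • u = u + (n₁ : SL(2, F))⁻¹ • (d a ha)⁻¹ • u := by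
          rw [← h3]; abel
        rw [h4]
        exact A.add_mem ((le_sup_left : K₁ ≤ A) hu) ((le_sup_right : K₂ ≤ A) ⟨_, hu', rfl⟩)
    · intro v hv
      obtain ⟨u, hu, z, ⟨w', hw', rfl⟩, rfl⟩ := AddSubgroup.mem_sup.1 hv
      rw [smul_add]
      refine A.add_mem ?_ ?_
      · have h1 : (n₁ : SL(2, F)) = (n₁ : SL(2, F))⁻¹ * d (-1) (neg_ne_zero.2 one_ne_zero) := by
          rw [← n₁_sq]; group
        rw [h1, mul_smul]
        exact (le_sup_right : K₂ ≤ A) ⟨_, hK₁_d _ hu, rfl⟩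
      · show (n₁ : SL(2, F)) • (n₁ : SL(2, F))⁻¹ • w' ∈ A
        rw [smul_inv_smul]
        exact (le_sup_left : K₁ ≤ A) hw'
  have hAtop : A = ⊤ := by
    rcases H.irr A hAinv with h | h
    · exfalso
      have : k' ∈ A := (le_sup_left : K₁ ≤ A) hk'K₁
      rw [h] at this
      exact hk'0 this
    · exact h
  -- finish
  have hK' : KK' F W ≤ K₁ := by
    intro v hv
    have h1 : v ∈ A := by rw [hAtop]; trivial
    obtain ⟨u, hu, z, hz, rfl⟩ := AddSubgroup.mem_sup.1 h1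
    have h2 : z ∈ KK F W ⊓ KK' F W := by
      refine ⟨hK₂K hz, ?_⟩
      have h3 := (KK' F W).sub_mem hv hu.1
      simpa using h3
    rw [hinf] at h2
    have h4 : z = 0 := h2
    rw [h4, add_zero]
    exact hu
  intro a v
  obtain ⟨k₁, hk₁, k₂, hk₂, rfl⟩ := hdec v
  have h1 := (hK' hk₂).2 a
  rw [smul_add, hk₁ a]
  convert h1 using 1
  abel

/-- **Recognition of the natural module.** -/
theorem recognize (H : Hyp F W) (hU : IsPGroup p (U F)) {m : ℕ} (hm : Nat.card W = p ^ m)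
    (h : Quad F W ∨ Nat.card W ≤ Nat.card (KK F W) ^ 2) :
    ∃ ψ : W ≃+ (Fin 2 → F), ∀ (g : SL(2, F)) (w : W), ψ (g • w) = g.1 *ᵥ ψ w := by
  have hq : Quad F W := h.elim id (quad_of_card H hU hm)
  obtain ⟨g, w, hgw⟩ := H.nt
  have hw0 : ∃ w : W, w ≠ 0 := by
    refine ⟨w, ?_⟩
    rintro rfl
    exact hgw (smul_zero _)
  obtain ⟨k₀, hk, hk0⟩ := exists_fixed hU hm hw0
  exact exists_equiv_of_quad H hq hk hk0

end Branch

end Module

end Cfsg.Agent.Lib.PGroup.NatRec
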