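import Mathlib
import Cfsg.Prelude.Def_BaumannBlocks
import Cfsg.Agent.Lib.PGroup.NatRec
import Cfsg.Agent.Lib.PGroup.VRep
import Cfsg.Agent.Lib.PGroup.NatMod

/-!
# Recognition of the natural module: group version
-/

set_option autoImplicit false
set_option linter.unusedSectionVars false
set_option linter.unusedVariables false

namespace Cfsg.Agent.Lib.PGroup.NatRecG

open Matrix
open scoped MatrixGroups commutatorElement
open Cfsg.Agent.Lib.PSL2.Basic Cfsg.Agent.Lib.PSL2.SylowU Cfsg.Agent.Lib.PGroup.SL2Gen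
  Cfsg.Agent.Lib.PGroup.NatRec Cfsg.Agent.Lib.PGroup.VRep

variable {X : Type*} [Group X] {p : ℕ} [hp : Fact p.Prime] {G V : Subgroup X} {F : Type*} [Field F]

/-- The action of `SL₂(F)` on `V` through an isomorphism. -/
@[instance_reducible] def act (hV : Cfsg.IsElementaryAbelian p V) (hGV : G ≤ Subgroup.normalizer (V : Set X))
    (e : G ≃* SL(2, F)) : DistribMulAction SL(2, F) (VMod p V hV) where
  smul A w := VMod.mk hV (((e.symm A : G) : X) * VMod.val w * ((e.symm A : G) : X)⁻¹)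
    ((Subgroup.mem_normalizer_iff.1 (hGV (e.symm A).2) _).1 (VMod.mem w))
  one_smul w := by
    apply VMod.ext'
    show ((e.symm 1 : G) : X) * VMod.val w * ((e.symm 1 : G) : X)⁻¹ = _
    simp
  mul_smul A B w := by
    apply VMod.ext'
    show ((e.symm (A * B) : G) : X) * VMod.val w * ((e.symm (A * B) : G) : X)⁻¹ =
      ((e.symm A : G) : X) * (((e.symm B : G) : X) * VMod.val w * ((e.symm B : G) : X)⁻¹) * ((e.symm A : G) : X)⁻¹
    simp only [map_mul, Subgroup.coe_mul, _root_.mul_inv_rev]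
    group
  smul_zero A := by
    apply VMod.ext'
    show ((e.symm A : G) : X) * 1 * ((e.symm A : G) : X)⁻¹ = 1
    simp
  smul_add A u v := by
    apply VMod.ext'
    show ((e.symm A : G) : X) * (VMod.val u * VMod.val v) * ((e.symm A : G) : X)⁻¹ =
      (((e.symm A : G) : X) * VMod.val u * ((e.symm A : G) : X)⁻¹) * (((e.symm A : G) : X) * VMod.val v * ((e.symm A : G) : X)⁻¹)
    group

theorem val_smul (hV : Cfsg.IsElementaryAbelian p V) (hGV : G ≤ Subgroup.normalizer (V : Set X))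
    (e : G ≃* SL(2, F)) (A : SL(2, F)) (w : VMod p V hV) :
    VMod.val (@HSMul.hSMul _ _ _ (@instHSMul _ _ (act hV hGV e).toSMul) A w) =
      ((e.symm A : G) : X) * VMod.val w * ((e.symm A : G) : X)⁻¹ := rfl

/-- An isomorphism to `SL₂(F)` taking a given Sylow subgroup to `U`. -/
theorem exists_iso_sylow [Finite F] [CharP F p] (S : Sylow p G) [Finite G] (e₀ : G ≃* SL(2, F)) :
    ∃ e : G ≃* SL(2, F), ∀ g : G, e g ∈ U F ↔ g ∈ (S : Subgroup G) := by
  classical
  haveI : Fintype F := Fintype.ofFinite F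
  let S' : Sylow p SL(2, F) := S.mapSurjective (f := e₀.toMonoidHom) e₀.surjective
  obtain ⟨g, hg⟩ := MulAction.exists_smul_eq SL(2, F) S' (sylowU F p)
  refine ⟨e₀.trans (MulAut.conj g), fun l => ?_⟩
  have h1 : (U F : Subgroup SL(2, F)) = ((g • S' : Sylow p SL(2, F)) : Subgroup SL(2, F)) := by
    rw [hg]; rfl
  show g * e₀ l * g⁻¹ ∈ U F ↔ _
  rw [h1, Sylow.coe_subgroup_smul]
  have h2 : g * e₀ l * g⁻¹ = MulAut.conj g • (e₀ l) := rfl
  rw [h2, Subgroup.smul_mem_pointwise_smul_iff]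
  constructor
  · rintro ⟨b, hb, hbe⟩
    have : b = l := e₀.injective hbe
    exact this ▸ hb
  · intro h
    exact ⟨l, h, rfl⟩

/-- **Recognition**: group version. -/
theorem acts_of_hyp [Finite X] (hV : Cfsg.IsElementaryAbelian p V) (hGV : G ≤ Subgroup.normalizer (V : Set X))
    [Fintype F] (n : ℕ) (hF : Fintype.card F = p ^ n) (hG : Nonempty (↥G ≃* SL(2, F)))
    (hirr : ∀ U : Subgroup X, U ≤ V → G ≤ Subgroup.normalizer (U : Set X) → U = ⊥ ∨ U = V)
    (hnt : ⁅V, G⁆ ≠ ⊥) (S : Sylow p ↥G)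
    (hyp : ⁅⁅V, (S : Subgroup ↥G).map G.subtype⁆, (S : Subgroup ↥G).map G.subtype⁆ = ⊥ ∨
      Nat.card ↥V ≤ Nat.card ↥(V ⊓ Subgroup.centralizer (((S : Subgroup ↥G).map G.subtype : Subgroup X) : Set X)) ^ 2) :
    Cfsg.ActsAsSL2OnSection F ⊤ G V ⊥ := by
  classical
  haveI hchar : CharP F p := Cfsg.Agent.Lib.PGroup.NatMod.charP_of_card' hF
  obtain ⟨e₀⟩ := hG
  obtain ⟨e, he⟩ := exists_iso_sylow S e₀
  set T : Subgroup X := (S : Subgroup ↥G).map G.subtype with hT
  letI := act hV hGV e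
  have hval : ∀ (A : SL(2, F)) (w : VMod p V hV), VMod.val (A • w) =
      ((e.symm A : G) : X) * VMod.val w * ((e.symm A : G) : X)⁻¹ := fun A w => rfl
  have hxT : ∀ a : F, ((e.symm (x a) : G) : X) ∈ T := fun a => by
    refine ⟨e.symm (x a), ?_, rfl⟩
    rw [SetLike.mem_coe, ← he, e.apply_symm_apply]
    exact ⟨a, rfl⟩
  have hTx : ∀ t ∈ T, ∃ a : F, t = ((e.symm (x a) : G) : X) := by
    rintro _ ⟨g, hg, rfl⟩
    obtain ⟨a, ha⟩ := (he g).2 hg
    refine ⟨a, ?_⟩
    rw [← ha, e.symm_apply_apply]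
    rfl
  -- membership in `KK`
  have hKK : ∀ w : VMod p V hV, w ∈ KK F (VMod p V hV) ↔ VMod.val w ∈ Subgroup.centralizer (T : Set X) := by
    intro w
    rw [mem_KK, Subgroup.mem_centralizer_iff]
    constructor
    · intro h t ht
      obtain ⟨a, rfl⟩ := hTx t ht
      have h1 := congrArg VMod.val (h a)
      rw [hval] at h1
      calc ((e.symm (x a) : G) : X) * VMod.val w = (((e.symm (x a) : G) : X) * VMod.val w * ((e.symm (x a) : G) : X)⁻¹) * ((e.symm (x a) : G) : X) := by group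
        _ = VMod.val w * ((e.symm (x a) : G) : X) := by rw [h1]
    · intro h a
      apply VMod.ext'
      rw [hval, h _ (hxT a)]
      group
  have hcardK : Nat.card (KK F (VMod p V hV)) =
      Nat.card ↥(V ⊓ Subgroup.centralizer (T : Set X)) := by
    refine Nat.card_congr ⟨fun k => ⟨VMod.val k.1, VMod.mem k.1, (hKK k.1).1 k.2⟩,
      fun k => ⟨VMod.mk hV k.1 k.2.1, (hKK _).2 k.2.2⟩, fun k => ?_, fun k => ?_⟩
    · apply Subtype.ext; apply VMod.ext'; rfl
    · apply Subtype.ext; rfl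
  -- hypotheses
  have H : Hyp F (VMod p V hV) := by
    constructor
    · intro A hA
      let U₀ : Subgroup X :=
        { carrier := {u | ∃ hu : u ∈ V, VMod.mk hV u hu ∈ A}
          one_mem' := ⟨V.one_mem, A.zero_mem⟩
          mul_mem' := fun {a b} ha hb => by
            obtain ⟨h1, h2⟩ := ha
            obtain ⟨h3, h4⟩ := hb
            exact ⟨V.mul_mem h1 h3, A.add_mem h2 h4⟩
          inv_mem' := fun {a} ha => by
            obtain ⟨h1, h2⟩ := ha
            exact ⟨V.inv_mem h1, A.neg_mem h2⟩ }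
      have hU₀V : U₀ ≤ V := fun u hu => hu.1
      have hinv : ∀ (g : G) (u : X), u ∈ U₀ → (g : X) * u * (g : X)⁻¹ ∈ U₀ := by
        rintro g u ⟨hu, huA⟩
        have h1 := hA (e g) _ huA
        have hmem : (g : X) * u * (g : X)⁻¹ ∈ V := (Subgroup.mem_normalizer_iff.1 (hGV g.2) u).1 hu
        refine ⟨hmem, ?_⟩
        have h2 : VMod.val (e g • VMod.mk hV u hu) = (g : X) * u * (g : X)⁻¹ := by
          rw [hval, e.symm_apply_apply]; rfl
        have h3 : VMod.mk hV ((g : X) * u * (g : X)⁻¹) hmem = e g • VMod.mk hV u hu := by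
          apply VMod.ext'
          exact h2.symm
        rw [h3]
        exact h1
      have hN : G ≤ Subgroup.normalizer (U₀ : Set X) := by
        intro g hg
        rw [Subgroup.mem_normalizer_iff]
        intro u
        refine ⟨hinv ⟨g, hg⟩ u, fun h => ?_⟩
        have h1 := hinv ⟨g, hg⟩⁻¹ _ h
        have h2 : ((⟨g, hg⟩⁻¹ : G) : X) * (g * u * g⁻¹) * ((⟨g, hg⟩⁻¹ : G) : X)⁻¹ = u := by
          simp only [InvMemClass.coe_inv, inv_inv]
          group
        rwa [h2] at h1
      rcases hirr U₀ hU₀V hN with h | h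
      · left
        rw [eq_bot_iff]
        intro w hw
        have h1 : VMod.val w ∈ U₀ := ⟨VMod.mem w, hw⟩
        rw [h, Subgroup.mem_bot] at h1
        exact VMod.ext' h1
      · right
        rw [eq_top_iff]
        intro w _
        have h1 : VMod.val w ∈ U₀ := by rw [h]; exact VMod.mem w
        obtain ⟨_, h2⟩ := h1
        exact h2
    · by_contra hcon
      push_neg at hcon
      apply hnt
      rw [eq_bot_iff, Subgroup.commutator_le]
      intro v hv g hg
      have h1 := hcon (e ⟨g, hg⟩) (VMod.mk hV v hv)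
      have h2 := congrArg VMod.val h1
      rw [hval, e.symm_apply_apply] at h2
      simp only [VMod.val_mk] at h2
      have h3 : g * v * g⁻¹ = v := h2
      rw [Subgroup.mem_bot, commutatorElement_def]
      calc v * g * v⁻¹ * g⁻¹ = v * (g * v * g⁻¹)⁻¹ := by group
        _ = 1 := by rw [h3]; group
  have hU : IsPGroup p (U F) := by
    apply IsPGroup.of_card (n := n)
    rw [card_U, hF]
  obtain ⟨m, hm⟩ : ∃ m, Nat.card (VMod p V hV) = p ^ m := by
    have : IsPGroup p V := by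
      intro v
      refine ⟨1, ?_⟩
      apply Subtype.ext
      simpa using hV.2 v.1 v.2
    obtain ⟨m, hm⟩ := IsPGroup.iff_card.1 this
    exact ⟨m, hm⟩
  have hh : Quad F (VMod p V hV) ∨ Nat.card (VMod p V hV) ≤ Nat.card (KK F (VMod p V hV)) ^ 2 := by
    rcases hyp with h | h
    · left
      intro a v
      rw [hKK, Subgroup.mem_centralizer_iff]
      intro t ht
      set g : X := ((e.symm (x a) : G) : X) with hg
      have h1 : VMod.val (x a • v - v) = g * VMod.val v * g⁻¹ * (VMod.val v)⁻¹ := by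
        rw [VMod.val_sub, hval]
      rw [h1]
      have h2 : g * VMod.val v * g⁻¹ * (VMod.val v)⁻¹ ∈ ⁅V, T⁆ := by
        have h3 : ⁅VMod.val v, g⁆ ∈ ⁅V, T⁆ := Subgroup.commutator_mem_commutator (VMod.mem v) (hxT a)
        have h4 := Subgroup.inv_mem _ h3
        convert h4 using 1
        rw [commutatorElement_def]
        group
      have h5 : ⁅g * VMod.val v * g⁻¹ * (VMod.val v)⁻¹, t⁆ ∈ ⁅⁅V, T⁆, T⁆ := Subgroup.commutator_mem_commutator h2 ht
      rw [h, Subgroup.mem_bot, commutatorElement_def] at h5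
      have h6 := mul_inv_eq_one.1 h5
      have h7 := mul_inv_eq_iff_eq_mul.1 h6
      exact h7.symm
    · right
      rw [hcardK]
      exact h
  obtain ⟨ψ, hψ⟩ := recognize H hU hm hh
  refine ⟨hGV, bot_le, e.toMonoidHom, MonoidHom.mk' (fun v : V => Multiplicative.ofAdd (ψ (VMod.mk hV v.1 v.2))) ?_, ?_, ?_, ?_, ?_⟩
  · intro a b
    have h1 : VMod.mk hV (a * b).1 (a * b).2 = VMod.mk hV a.1 a.2 + VMod.mk hV b.1 b.2 := rfl
    rw [h1, map_add]
    rfl
  · rw [MonoidHom.range_eq_top]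
    exact e.surjective
  · intro u
    obtain ⟨w, hw⟩ := ψ.surjective (Multiplicative.toAdd u)
    exact ⟨⟨VMod.val w, VMod.mem w⟩, hw⟩
  · intro u
    show Multiplicative.ofAdd (ψ (VMod.mk hV u.1 u.2)) = 1 ↔ _
    rw [Subgroup.mem_bot]
    constructor
    · intro h
      have h1 : ψ (VMod.mk hV u.1 u.2) = 0 := h
      have h2 : VMod.mk hV u.1 u.2 = 0 := by
        rw [← map_zero ψ] at h1
        exact ψ.injective h1
      exact congrArg VMod.val h2
    · intro h
      have h2 : VMod.mk hV u.1 u.2 = 0 := VMod.ext' h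
      rw [h2, map_zero]
      rfl
  · intro g u
    refine ⟨⟨(g : X) * u * (g : X)⁻¹, (Subgroup.mem_normalizer_iff.1 (hGV g.2) _).1 u.2⟩, rfl, ?_⟩
    show ψ (VMod.mk hV _ _) = (e g).1 *ᵥ ψ (VMod.mk hV u.1 u.2)
    rw [← hψ]
    congr 1
    apply VMod.ext'
    rw [hval, e.symm_apply_apply]
    rfl

end Cfsg.Agent.Lib.PGroup.NatRecG
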