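import Cfsg.Agent.Lib.PGroup.HuaField
import Cfsg.Agent.Lib.PGroup.OffPair
import Cfsg.Agent.Lib.Linalg.Transvection
import Mathlib

/-!
# Recognizing `SL₂(F)` from two opposite groups of shears

A group acting faithfully on `F²` and generated by subgroups acting as all upper and all lower elementary
matrices is `SL₂(F)`; a field of endomorphisms with a regular orbit coordinatizes its module.
-/

set_option autoImplicit false
set_option linter.unusedSectionVars false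

namespace Cfsg.Agent.Lib.PGroup.OffSL2

open Matrix
open scoped MatrixGroups

section PartIV

variable {Q : Type*} [Group Q] {p : ℕ} {W : Type*} [AddCommGroup W] [Module (ZMod p) W]
  {F : Type*} [Field F]

theorem transvection01_mulVec (e : F) (v : Fin 2 → F) :
    ((SpecialLinearGroup.transvection (zero_ne_one : (0 : Fin 2) ≠ 1) e :
      SL(2, F)) : Matrix (Fin 2) (Fin 2) F).mulVec v = ![v 0 + e * v 1, v 1] := by
  ext i
  fin_cases i <;>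
  simp [SpecialLinearGroup.transvection_coe, Matrix.mulVec, dotProduct, Fin.sum_univ_two,
    Matrix.add_apply, Matrix.one_apply, Matrix.single]

theorem transvection10_mulVec (e : F) (v : Fin 2 → F) :
    ((SpecialLinearGroup.transvection (one_ne_zero : (1 : Fin 2) ≠ 0) e :
      SL(2, F)) : Matrix (Fin 2) (Fin 2) F).mulVec v = ![v 0, v 1 + e * v 0] := by
  ext i
  fin_cases i <;>
  simp [SpecialLinearGroup.transvection_coe, Matrix.mulVec, dotProduct, Fin.sum_univ_two,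
    Matrix.add_apply, Matrix.one_apply, Matrix.single, add_comm]

/-- **Recognition of `SL₂(F)`** from its elementary matrices. -/
theorem sl2_of_elementary (ρ : Representation (ZMod p) Q W) (hinj : Function.Injective ρ)
    (ψ : W →+ (Fin 2 → F)) (hψ : Function.Bijective ψ) (A B : Subgroup Q) (hgen : A ⊔ B = ⊤)
    (hA : ∀ a ∈ A, ∃ e : F, ∀ w, ψ (ρ a w) = ![ψ w 0 + e * ψ w 1, ψ w 1])
    (hA' : ∀ e : F, ∃ a ∈ A, ∀ w, ψ (ρ a w) = ![ψ w 0 + e * ψ w 1, ψ w 1])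
    (hB : ∀ b ∈ B, ∃ f : F, ∀ w, ψ (ρ b w) = ![ψ w 0, ψ w 1 + f * ψ w 0])
    (hB' : ∀ f : F, ∃ b ∈ B, ∀ w, ψ (ρ b w) = ![ψ w 0, ψ w 1 + f * ψ w 0]) :
    ∃ θ : Q ≃* SL(2, F), ∀ g w, ψ (ρ g w) = ((θ g : SL(2, F)) : Matrix (Fin 2) (Fin 2) F).mulVec (ψ w) := by
  classical
  let R : Q → SL(2, F) → Prop := fun g M => ∀ w, ψ (ρ g w) = (M : Matrix (Fin 2) (Fin 2) F).mulVec (ψ w)
  have huniq : ∀ g M N, R g M → R g N → M = N := by
    intro g M N hM hN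
    apply Subtype.ext
    apply Matrix.ext_of_mulVec_single
    intro j
    obtain ⟨w, hw⟩ := hψ.2 (Pi.single j 1)
    have h1 := hM w
    rw [hN w, hw] at h1
    ext i
    have h2 := congrFun h1.symm i
    exact h2
  have hR_one : R 1 1 := fun w => by simp
  have hR_mul : ∀ g h M N, R g M → R h N → R (g * h) (M * N) := by
    intro g h M N hg hh w
    have h0 : ((M * N : SL(2, F)) : Matrix (Fin 2) (Fin 2) F) =
        (M : Matrix (Fin 2) (Fin 2) F) * (N : Matrix (Fin 2) (Fin 2) F) := rfl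
    rw [map_mul, Module.End.mul_apply, hg, hh, h0, ← Matrix.mulVec_mulVec]
  have hR_inv : ∀ g M, R g M → R g⁻¹ M⁻¹ := by
    intro g M hg w
    have h1 := hg (ρ g⁻¹ w)
    have h2 : ρ g (ρ g⁻¹ w) = w := by
      rw [← Module.End.mul_apply, ← map_mul]; simp
    rw [h2] at h1
    have h3 : ((M⁻¹ : SL(2, F)) : Matrix (Fin 2) (Fin 2) F) * (M : Matrix (Fin 2) (Fin 2) F) = 1 :=
      congrArg Subtype.val (inv_mul_cancel M)
    rw [h1, Matrix.mulVec_mulVec, h3, Matrix.one_mulVec]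
  let St : Subgroup Q :=
    { carrier := {g | ∃ M, R g M}
      mul_mem' := fun ⟨M, hM⟩ ⟨N, hN⟩ => ⟨_, hR_mul _ _ _ _ hM hN⟩
      one_mem' := ⟨1, hR_one⟩
      inv_mem' := fun ⟨M, hM⟩ => ⟨_, hR_inv _ _ hM⟩ }
  have hAS : A ≤ St := by
    intro a ha
    obtain ⟨e, he⟩ := hA a ha
    exact ⟨SpecialLinearGroup.transvection zero_ne_one e, fun w => by
      rw [he, transvection01_mulVec]⟩
  have hBS : B ≤ St := by
    intro a ha
    obtain ⟨e, he⟩ := hB a ha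
    exact ⟨SpecialLinearGroup.transvection one_ne_zero e, fun w => by
      rw [he, transvection10_mulVec]⟩
  have hex : ∀ g, ∃ M, R g M := by
    intro g
    have : g ∈ A ⊔ B := by rw [hgen]; trivial
    exact (sup_le hAS hBS) this
  choose θ₀ hθ₀ using hex
  let θ₁ : Q →* SL(2, F) := MonoidHom.mk' θ₀ (fun g h =>
    huniq (g * h) _ _ (hθ₀ _) (hR_mul _ _ _ _ (hθ₀ g) (hθ₀ h)))
  have hθinj : Function.Injective θ₁ := by
    rw [injective_iff_map_eq_one]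
    intro g hg
    apply hinj
    rw [map_one]
    apply LinearMap.ext
    intro w
    apply hψ.1
    have h1 := hθ₀ g w
    have h2 : θ₀ g = 1 := hg
    rw [h2] at h1
    simpa using h1
  have hθsurj : Function.Surjective θ₁ := by
    intro M
    refine Cfsg.Agent.Lib.Linalg.Transvection.sl_transvection_induction (fun M => ∃ g, θ₁ g = M)
      ⟨1, map_one _⟩ ?_ (fun M N ⟨g, hg⟩ ⟨h, hh⟩ => ⟨g * h, by rw [map_mul, hg, hh]⟩) M
    intro i j hij a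
    fin_cases i <;> fin_cases j
    · exact absurd rfl hij
    · obtain ⟨g, _, hg⟩ := hA' a
      refine ⟨g, huniq g _ _ (hθ₀ g) (fun w => ?_)⟩
      rw [hg]
      exact (transvection01_mulVec a (ψ w)).symm
    · obtain ⟨g, _, hg⟩ := hB' a
      refine ⟨g, huniq g _ _ (hθ₀ g) (fun w => ?_)⟩
      rw [hg]
      exact (transvection10_mulVec a (ψ w)).symm
    · exact absurd rfl hij
  exact ⟨MulEquiv.ofBijective θ₁ ⟨hθinj, hθsurj⟩, fun g w => hθ₀ g w⟩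

end PartIV

section Coord

/-- A copy of `Fin n` without any algebraic structure. -/
def Carrier (n : ℕ) : Type := Fin n

instance (n : ℕ) : Fintype (Carrier n) := inferInstanceAs (Fintype (Fin n))

variable {p : ℕ} [hp : Fact p.Prime] {L : Type*} [AddCommGroup L] [Module (ZMod p) L] [Finite L]

/-- A commutative multiplicatively closed inverse-closed `𝓔 ≤ End(L)` with a regular orbit coordinatizes `L`. -/
theorem coord_field [Nontrivial L] (𝓔 : Submodule (ZMod p) (Module.End (ZMod p) L))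
    (h1 : (1 : Module.End (ZMod p) L) ∈ 𝓔)
    (hinv : ∀ a ∈ 𝓔, a ≠ 0 → ∃ a' ∈ 𝓔, a * a' = 1 ∧ a' * a = 1)
    (hcomm : ∀ a ∈ 𝓔, ∀ b ∈ 𝓔, a * b = b * a) (hmul : ∀ a ∈ 𝓔, ∀ b ∈ 𝓔, a * b ∈ 𝓔)
    (l₀ : L) (hbij : Function.Bijective (fun e : 𝓔 => e.1 l₀)) :
    ∃ (F : Type) (_ : Field F) (_ : Fintype F) (τ : L ≃+ F) (ε : 𝓔 ≃ F),
      ∀ (e : 𝓔) (l : L), τ (e.1 l) = ε e * τ l := by
  classical
  have hfinEnd : Finite (Module.End (ZMod p) L) :=
    Finite.of_injective (fun f : Module.End (ZMod p) L => (f : L → L)) DFunLike.coe_injective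
  let R₀ : Subring (Module.End (ZMod p) L) :=
    { carrier := 𝓔
      mul_mem' := fun {a b} ha hb => hmul a ha b hb
      one_mem' := h1
      add_mem' := fun ha hb => 𝓔.add_mem ha hb
      zero_mem' := 𝓔.zero_mem
      neg_mem' := fun ha => 𝓔.neg_mem ha }
  have hfield : IsField R₀ :=
    { exists_pair_ne := ⟨0, 1, fun h => by
        have h2 : (0 : Module.End (ZMod p) L) = 1 := congrArg Subtype.val h
        obtain ⟨l, hl⟩ := exists_ne (0 : L)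
        apply hl
        have h3 := congrArg (fun f : Module.End (ZMod p) L => f l) h2
        simpa using h3.symm⟩
      mul_comm := fun a b => Subtype.ext (hcomm a.1 a.2 b.1 b.2)
      mul_inv_cancel := fun {a} ha => by
        obtain ⟨a', ha', h2, _⟩ := hinv a.1 a.2 (fun h => ha (Subtype.ext h))
        exact ⟨⟨a', ha'⟩, Subtype.ext h2⟩ }
  let fR : Field R₀ := hfield.toField
  have hfinR : Finite R₀ := inferInstance
  let : Fintype R₀ := Fintype.ofFinite R₀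
  -- the regular orbit
  let φ : R₀ → L := fun r => r.1 l₀
  have hφ : Function.Bijective φ := hbij
  let τ₀ : L ≃ R₀ := (Equiv.ofBijective φ hφ).symm
  have hτ₀ : ∀ l, (τ₀ l).1 l₀ = l := fun l => (Equiv.ofBijective φ hφ).apply_symm_apply l
  have hτadd : ∀ l m, τ₀ (l + m) = τ₀ l + τ₀ m := by
    intro l m
    apply (Equiv.ofBijective φ hφ).injective
    show φ (τ₀ (l + m)) = φ (τ₀ l + τ₀ m)
    show (τ₀ (l + m)).1 l₀ = (τ₀ l + τ₀ m).1 l₀
    rw [hτ₀]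
    show l + m = (τ₀ l).1 l₀ + (τ₀ m).1 l₀
    rw [hτ₀, hτ₀]
  have hτmul : ∀ (e : R₀) (l : L), τ₀ (e.1 l) = e * τ₀ l := by
    intro e l
    apply (Equiv.ofBijective φ hφ).injective
    show (τ₀ (e.1 l)).1 l₀ = (e * τ₀ l).1 l₀
    rw [hτ₀]
    show e.1 l = e.1 ((τ₀ l).1 l₀)
    rw [hτ₀]
  let n := Fintype.card R₀
  let s : R₀ ≃ Carrier n := Fintype.equivFin R₀
  let fF : Field (Carrier n) := s.symm.field
  refine ⟨Carrier n, fF, inferInstance, ?_⟩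
  let τ : L ≃+ Carrier n :=
    { toFun := fun l => s (τ₀ l)
      invFun := fun f => τ₀.symm (s.symm f)
      left_inv := fun l => by simp
      right_inv := fun f => by simp
      map_add' := fun l m => by
        rw [hτadd]
        show s (τ₀ l + τ₀ m) = s (s.symm (s (τ₀ l)) + s.symm (s (τ₀ m)))
        rw [s.symm_apply_apply, s.symm_apply_apply] }
  let ε : 𝓔 ≃ Carrier n :=
    { toFun := fun e => s e
      invFun := fun f => s.symm f
      left_inv := fun e => by simp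
      right_inv := fun f => by simp }
  refine ⟨τ, ε, fun e l => ?_⟩
  show s (τ₀ (e.1 l)) = s (s.symm (s e) * s.symm (s (τ₀ l)))
  simp only [Equiv.symm_apply_apply]
  rw [hτmul ⟨e.1, e.2⟩ l]
  rfl

end Coord

section Swap

open Cfsg.Agent.Lib.PGroup.OffPair

variable {Q : Type*} [Group Q] {p : ℕ} [hp : Fact p.Prime] {W : Type*} [AddCommGroup W] [Module (ZMod p) W]

/-- Two opposite groups of shears on `W = Y ⊕ Y'`. -/
structure Swap (ρ : Representation (ZMod p) Q W) (A B : Subgroup Q) (Y Y' : Submodule (ZMod p) W) (x : Q) :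
    Prop where
  inj : Function.Injective ρ
  gen : A ⊔ B = ⊤
  disj : Y ⊓ Y' = ⊥
  span : Y ⊔ Y' = ⊤
  ne : ∃ y₀ ∈ Y, y₀ ≠ 0
  Afix : ∀ a ∈ A, ∀ y ∈ Y, ρ a y = y
  Bfix : ∀ b ∈ B, ∀ y ∈ Y', ρ b y = y
  Aq : ∀ a ∈ A, ∀ w, ρ a w - w ∈ Y
  Bq : ∀ b ∈ B, ∀ w, ρ b w - w ∈ Y'
  regA : ∀ y' ∈ Y', y' ≠ 0 → ∀ y ∈ Y, ∃ a ∈ A, ρ a y' - y' = y
  regA_inj : ∀ y' ∈ Y', y' ≠ 0 → ∀ a ∈ A, ρ a y' = y' → a = 1
  regB : ∀ y ∈ Y, y ≠ 0 → ∀ y' ∈ Y', ∃ b ∈ B, ρ b y - y = y'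
  regB_inj : ∀ y ∈ Y, y ≠ 0 → ∀ b ∈ B, ρ b y = y → b = 1
  hx : Y' = Y.map (ρ x)
  TI : ∀ g, Y.map (ρ g) = Y ∨ Y.map (ρ g) ⊓ Y = ⊥

theorem mem_map_rho {ρ : Representation (ZMod p) Q W} {Y : Submodule (ZMod p) W} {g : Q} {w : W} :
    w ∈ Y.map (ρ g) ↔ ρ g⁻¹ w ∈ Y := by
  constructor
  · rintro ⟨y, hy, rfl⟩
    rwa [rho_inv_rho]
  · intro h
    exact ⟨_, h, rho_rho_inv ρ g w⟩

theorem map_map_rho (ρ : Representation (ZMod p) Q W) (Y : Submodule (ZMod p) W) (g h : Q) :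
    (Y.map (ρ g)).map (ρ h) = Y.map (ρ (h * g)) := by
  ext w
  rw [mem_map_rho, mem_map_rho, mem_map_rho, _root_.mul_inv_rev, rho_mul]

namespace Swap

variable {ρ : Representation (ZMod p) Q W} {A B : Subgroup Q} {Y Y' : Submodule (ZMod p) W} {x : Q}

theorem fam (S : Swap ρ A B Y Y' x) {g h : Q} {w : W} (hg : w ∈ Y.map (ρ g)) (hh : w ∈ Y.map (ρ h))
    (hw : w ≠ 0) : Y.map (ρ g) = Y.map (ρ h) := by
  have h1 : ρ h⁻¹ w ∈ Y := mem_map_rho.1 hh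
  have h2 : ρ h⁻¹ w ∈ Y.map (ρ (h⁻¹ * g)) := by
    rw [mem_map_rho, _root_.mul_inv_rev, inv_inv, rho_mul, rho_rho_inv]
    exact mem_map_rho.1 hg
  have h3 : ρ h⁻¹ w ≠ 0 := by
    intro h0
    apply hw
    have := congrArg (ρ h) h0
    rwa [rho_rho_inv, map_zero] at this
  rcases S.TI (h⁻¹ * g) with h4 | h4
  · calc Y.map (ρ g) = (Y.map (ρ (h⁻¹ * g))).map (ρ h) := by
          rw [map_map_rho]; simp
      _ = Y.map (ρ h) := by rw [h4]
  · exfalso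
    have h5 : ρ h⁻¹ w ∈ Y.map (ρ (h⁻¹ * g)) ⊓ Y := ⟨h2, h1⟩
    rw [h4] at h5
    exact h3 h5

theorem decomp (S : Swap ρ A B Y Y' x) (w : W) : ∃ y ∈ Y, ∃ y' ∈ Y', y + y' = w := by
  have h : w ∈ Y ⊔ Y' := by rw [S.span]; trivial
  exact Submodule.mem_sup.1 h

theorem decomp_unique (S : Swap ρ A B Y Y' x) {y y₂ y' y₂' : W} (hy : y ∈ Y) (hy₂ : y₂ ∈ Y)
    (hy' : y' ∈ Y') (hy₂' : y₂' ∈ Y') (h : y + y' = y₂ + y₂') : y = y₂ ∧ y' = y₂' := by
  have h1 : y - y₂ = y₂' - y' := by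
    rw [sub_eq_sub_iff_add_eq_add, h, add_comm]
  have h2 : y - y₂ ∈ Y ⊓ Y' := ⟨Y.sub_mem hy hy₂, h1 ▸ Y'.sub_mem hy₂' hy'⟩
  rw [S.disj] at h2
  have h3 : y - y₂ = 0 := h2
  have h4 : y = y₂ := sub_eq_zero.1 h3
  subst h4
  exact ⟨rfl, add_left_cancel h⟩

theorem ne' (S : Swap ρ A B Y Y' x) : ∃ y₀ ∈ Y', y₀ ≠ 0 := by
  obtain ⟨y₀, hy₀, hne⟩ := S.ne
  refine ⟨ρ x y₀, S.hx ▸ ⟨y₀, hy₀, rfl⟩, ?_⟩
  intro h
  apply hne
  have := congrArg (ρ x⁻¹) h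
  rwa [rho_inv_rho, map_zero] at this

/-- The symmetric situation. -/
theorem symm (S : Swap ρ A B Y Y' x) : Swap ρ B A Y' Y x⁻¹ where
  inj := S.inj
  gen := by rw [sup_comm]; exact S.gen
  disj := by rw [inf_comm]; exact S.disj
  span := by rw [sup_comm]; exact S.span
  ne := S.ne'
  Afix := S.Bfix
  Bfix := S.Afix
  Aq := S.Bq
  Bq := S.Aq
  regA := S.regB
  regA_inj := S.regB_inj
  regB := S.regA
  regB_inj := S.regA_inj
  hx := by
    rw [S.hx, map_map_rho]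
    ext w
    rw [mem_map_rho]
    simp
  TI := by
    intro g
    by_cases h : Y'.map (ρ g) = Y'
    · exact Or.inl h
    · right
      rw [eq_bot_iff]
      intro w hw
      by_contra hw0
      apply h
      have hw0' : w ≠ 0 := hw0
      have h1 : w ∈ Y.map (ρ (g * x)) := by
        rw [← map_map_rho, ← S.hx]
        exact hw.1
      have h2 : w ∈ Y.map (ρ x) := by
        rw [← S.hx]
        exact hw.2
      have h3 := S.fam h1 h2 hw0'
      rw [S.hx, map_map_rho, h3]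

/-- Moving conjugates of `Y` back to `Y` through `B`. -/
theorem moveB (S : Swap ρ A B Y Y' x) {h : Q} (hne : Y.map (ρ h) ≠ Y') : ∃ b ∈ B, Y.map (ρ h) = Y.map (ρ b) := by
  obtain ⟨y₀, hy₀, hy₀ne⟩ := S.ne
  have hw : ρ h y₀ ≠ 0 := by
    intro h0
    apply hy₀ne
    have := congrArg (ρ h⁻¹) h0
    rwa [rho_inv_rho, map_zero] at this
  have hwmem : ρ h y₀ ∈ Y.map (ρ h) := ⟨y₀, hy₀, rfl⟩
  obtain ⟨y, hy, y', hy', hsum⟩ := S.decomp (ρ h y₀)
  have hy0 : y ≠ 0 := by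
    rintro rfl
    rw [zero_add] at hsum
    apply hne
    have h1 : ρ h y₀ ∈ Y.map (ρ x) := by
      rw [← S.hx, ← hsum]
      exact hy'
    rw [S.hx]
    exact S.fam hwmem h1 hw
  obtain ⟨b₁, hb₁, hb₁e⟩ := S.regB y hy hy0 (-y') (Y'.neg_mem hy')
  have h2 : ρ b₁ (ρ h y₀) = y := by
    rw [← hsum, map_add, S.Bfix b₁ hb₁ y' hy']
    have : ρ b₁ y = y + (-y') := by rw [← hb₁e]; abel
    rw [this]
    abel
  have h3 : y ∈ Y.map (ρ (b₁ * h)) := by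
    rw [← map_map_rho]
    exact ⟨_, hwmem, h2⟩
  have h4 : y ∈ Y.map (ρ (1 : Q)) := by
    rw [mem_map_rho]
    simpa using hy
  have h5 := S.fam h3 h4 hy0
  refine ⟨b₁⁻¹, B.inv_mem hb₁, ?_⟩
  have h6 : Y.map (ρ (1 : Q)) = Y := by
    ext w
    rw [mem_map_rho]
    simp
  calc Y.map (ρ h) = (Y.map (ρ (b₁ * h))).map (ρ b₁⁻¹) := by
        rw [map_map_rho]; simp
    _ = Y.map (ρ b₁⁻¹) := by rw [h5, h6]

/-- The shear map of `a ∈ A`. -/
def mA (S : Swap ρ A B Y Y' x) (a : Q) (ha : a ∈ A) : Y' →ₗ[ZMod p] Y where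
  toFun y := ⟨ρ a y - y, S.Aq a ha y⟩
  map_add' u v := by
    apply Subtype.ext
    simp only [Submodule.coe_add, map_add]
    abel
  map_smul' c u := by
    apply Subtype.ext
    simp [smul_sub]

/-- The shear map of `b ∈ B`. -/
def nB (S : Swap ρ A B Y Y' x) (b : Q) (hb : b ∈ B) : Y →ₗ[ZMod p] Y' := S.symm.mA b hb

theorem coe_mA (S : Swap ρ A B Y Y' x) {a : Q} (ha : a ∈ A) (y : Y') :
    ((S.mA a ha y : Y) : W) = ρ a y - y := rfl

theorem coe_nB (S : Swap ρ A B Y Y' x) {b : Q} (hb : b ∈ B) (y : Y) :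
    ((S.nB b hb y : Y') : W) = ρ b y - y := rfl

theorem act_Y' (S : Swap ρ A B Y Y' x) {a : Q} (ha : a ∈ A) (y : Y') :
    ρ a y = (S.mA a ha y : Y) + (y : W) := by
  rw [coe_mA]; abel

theorem act_Y (S : Swap ρ A B Y Y' x) {b : Q} (hb : b ∈ B) (y : Y) :
    ρ b y = (y : W) + (S.nB b hb y : Y') := by
  rw [coe_nB]; abel

theorem mA_mul (S : Swap ρ A B Y Y' x) {a₁ a₂ : Q} (h₁ : a₁ ∈ A) (h₂ : a₂ ∈ A) :
    S.mA (a₁ * a₂) (A.mul_mem h₁ h₂) = S.mA a₁ h₁ + S.mA a₂ h₂ := by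
  apply LinearMap.ext
  intro y
  apply Subtype.ext
  simp only [LinearMap.add_apply, Submodule.coe_add, coe_mA]
  rw [rho_mul, S.act_Y' h₂ y, map_add, S.Afix a₁ h₁ _ (Subtype.property _), coe_mA]
  abel

theorem mA_one (S : Swap ρ A B Y Y' x) : S.mA 1 A.one_mem = 0 := by
  apply LinearMap.ext
  intro y
  apply Subtype.ext
  simp [coe_mA]

theorem mA_inv (S : Swap ρ A B Y Y' x) {a : Q} (ha : a ∈ A) :
    S.mA a⁻¹ (A.inv_mem ha) = - S.mA a ha := by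
  have h1 := S.mA_mul (A.inv_mem ha) ha
  have h2 : S.mA (a⁻¹ * a) (A.mul_mem (A.inv_mem ha) ha) = 0 := by
    have : ∀ (c : Q) (hc : c ∈ A), c = 1 → S.mA c hc = 0 := by
      rintro c hc rfl
      exact S.mA_one
    exact this _ _ (by simp)
  rw [h2] at h1
  exact eq_neg_of_add_eq_zero_left h1.symm

theorem mA_pow (S : Swap ρ A B Y Y' x) {a : Q} (ha : a ∈ A) (k : ℕ) :
    S.mA (a ^ k) (A.pow_mem ha k) = k • S.mA a ha := by
  induction k with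
  | zero =>
    have : ∀ (c : Q) (hc : c ∈ A), c = 1 → S.mA c hc = 0 := by
      rintro c hc rfl
      exact S.mA_one
    simpa using this _ (A.pow_mem ha 0) (by simp)
  | succ k ih =>
    have h1 := S.mA_mul (A.pow_mem ha k) ha
    have : ∀ (c : Q) (hc : c ∈ A) (hc' : c = a ^ k * a), S.mA c hc = S.mA (a ^ k * a) (A.mul_mem (A.pow_mem ha k) ha) := by
      rintro c hc rfl
      rfl
    rw [this _ (A.pow_mem ha (k + 1)) (pow_succ a k), h1, ih, succ_nsmul]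

theorem mA_eq_zero (S : Swap ρ A B Y Y' x) {a : Q} (ha : a ∈ A) (h : S.mA a ha = 0) : a = 1 := by
  obtain ⟨y₀, hy₀, hne⟩ := S.ne'
  apply S.regA_inj y₀ hy₀ hne a ha
  have h1 := congrArg (fun f : Y' →ₗ[ZMod p] Y => ((f ⟨y₀, hy₀⟩ : Y) : W)) h
  simp only [coe_mA, LinearMap.zero_apply, Submodule.coe_zero] at h1
  exact sub_eq_zero.1 h1

/-- A shear and an opposite shear inverse to each other. -/
theorem exists_inv (S : Swap ρ A B Y Y' x) {a : Q} (ha : a ∈ A) (hne : a ≠ 1) :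
    ∃ b, ∃ hb : b ∈ B, (∀ y', S.nB b hb (S.mA a ha y') = y') ∧ (∀ y, S.mA a ha (S.nB b hb y) = y) := by
  obtain ⟨y₀, hy₀, hy₀ne⟩ := S.ne'
  have h1 : Y.map (ρ (a * x)) = Y'.map (ρ a) := by
    rw [S.hx, map_map_rho]
  have hneq : Y.map (ρ (a * x)) ≠ Y' := by
    intro h
    rw [h1] at h
    have h2 : ρ a y₀ ∈ Y' := h ▸ (⟨y₀, hy₀, rfl⟩ : ρ a y₀ ∈ Y'.map (ρ a))
    have h3 : ρ a y₀ - y₀ ∈ Y ⊓ Y' := ⟨S.Aq a ha y₀, Y'.sub_mem h2 hy₀⟩
    rw [S.disj] at h3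
    exact hne (S.regA_inj y₀ hy₀ hy₀ne a ha (sub_eq_zero.1 h3))
  obtain ⟨b, hb, hbe⟩ := S.moveB hneq
  refine ⟨b, hb, ?_, ?_⟩
  · intro y'
    have h2 : ρ a y' ∈ Y.map (ρ b) := by
      rw [← hbe, h1]
      exact ⟨y', y'.2, rfl⟩
    obtain ⟨y, hy, hye⟩ := h2
    have h3 : (y : W) + (S.nB b hb ⟨y, hy⟩ : Y') = (S.mA a ha y' : Y) + (y' : W) := by
      rw [← S.act_Y' ha, ← hye, ← S.act_Y hb ⟨y, hy⟩]
    obtain ⟨h4, h5⟩ := S.decomp_unique hy (Subtype.property _) (Subtype.property _) y'.2 h3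
    have h6 : (⟨y, hy⟩ : Y) = S.mA a ha y' := Subtype.ext h4
    rw [← h6]
    exact Subtype.ext h5
  · intro y
    have h2 : ρ b y ∈ Y'.map (ρ a) := by
      rw [← h1, hbe]
      exact ⟨y, y.2, rfl⟩
    obtain ⟨y', hy', hye⟩ := h2
    have h3 : (y : W) + (S.nB b hb y : Y') = (S.mA a ha ⟨y', hy'⟩ : Y) + y' := by
      rw [← S.act_Y hb, ← hye]
      exact S.act_Y' ha ⟨y', hy'⟩
    obtain ⟨h4, h5⟩ := S.decomp_unique y.2 (Subtype.property _) (Subtype.property _) hy' h3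
    have h6 : S.nB b hb y = ⟨y', hy'⟩ := Subtype.ext h5
    rw [h6]
    exact (Subtype.ext h4).symm

/-- Conjugation by the swap element. -/
theorem conj_claim (S : Swap ρ A B Y Y' x) {a₀ b₀ : Q} (ha₀ : a₀ ∈ A) (hb₀ : b₀ ∈ B)
    (h₁ : ∀ y', S.nB b₀ hb₀ (S.mA a₀ ha₀ y') = y') (h₂ : ∀ y, S.mA a₀ ha₀ (S.nB b₀ hb₀ y) = y)
    {a : Q} (ha : a ∈ A) :
    ∃ b, ∃ hb : b ∈ B, ∀ y, S.nB b hb y = - S.nB b₀ hb₀ (S.mA a ha (S.nB b₀ hb₀ y)) := by
  set m₀ := S.mA a₀ ha₀ with hm₀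
  set n₀ := S.nB b₀ hb₀ with hn₀
  have hbinvY : ∀ y : Y, ρ b₀⁻¹ y = (y : W) - (n₀ y : Y') := by
    intro y
    have h3 : ρ b₀ ((y : W) - (n₀ y : Y')) = y := by
      rw [map_sub, S.Bfix b₀ hb₀ _ (Subtype.property _), S.act_Y hb₀ y]
      abel
    conv_lhs => rw [← h3]
    exact rho_inv_rho ρ b₀ _
  have hbinvY' : ∀ y ∈ Y', ρ b₀⁻¹ y = y := fun y hy => S.Bfix _ (B.inv_mem hb₀) y hy
  set g := a₀ * b₀⁻¹ * a₀ with hg
  have hg1 : ∀ y' : Y', ρ g y' = (m₀ y' : Y) := by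
    intro y'
    rw [hg, rho_mul, rho_mul, S.act_Y' ha₀ y', map_add, hbinvY, hbinvY' _ y'.2]
    have h3 : ((n₀ (S.mA a₀ ha₀ y') : Y') : W) = y' := congrArg Subtype.val (h₁ y')
    rw [h3, sub_add_cancel]
    exact S.Afix a₀ ha₀ _ (Subtype.property _)
  have hg2 : ∀ y : Y, ρ g y = - (n₀ y : Y') := by
    intro y
    rw [hg, rho_mul, rho_mul, S.Afix a₀ ha₀ _ y.2, hbinvY, map_sub, S.Afix a₀ ha₀ _ y.2,
      S.act_Y' ha₀ (n₀ y)]
    have h3 : ((S.mA a₀ ha₀ (n₀ y) : Y) : W) = y := congrArg Subtype.val (h₂ y)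
    rw [h3]
    abel
  have hg3 : ∀ y : Y, ρ g⁻¹ y = (n₀ y : Y') := by
    intro y
    have h3 : ρ g (n₀ y : Y') = y := by
      rw [hg1]
      exact congrArg Subtype.val (h₂ y)
    conv_lhs => rw [← h3]
    exact rho_inv_rho ρ g _
  set h := g * a * g⁻¹ with hh
  have hact : ∀ y : Y, ρ h y = (y : W) + ((- n₀ (S.mA a ha (n₀ y)) : Y') : W) := by
    intro y
    rw [hh, rho_mul, rho_mul, hg3, S.act_Y' ha (n₀ y), map_add, hg2, hg1]
    have h3 : ((m₀ (n₀ y) : Y) : W) = y := congrArg Subtype.val (h₂ y)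
    rw [h3]
    simp only [Submodule.coe_neg]
    abel
  have hneq : Y.map (ρ h) ≠ Y' := by
    intro heq
    obtain ⟨y₀, hy₀, hy₀ne⟩ := S.ne
    have h3 : ρ h y₀ ∈ Y' := heq ▸ (⟨y₀, hy₀, rfl⟩ : ρ h y₀ ∈ Y.map (ρ h))
    have h4 := hact ⟨y₀, hy₀⟩
    have h5 : y₀ ∈ Y ⊓ Y' := by
      refine ⟨hy₀, ?_⟩
      have h6 : y₀ = ρ h y₀ - ((- n₀ (S.mA a ha (n₀ ⟨y₀, hy₀⟩)) : Y') : W) := by
        rw [h4]
        abel
      rw [h6]
      exact Y'.sub_mem h3 (Subtype.property _)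
    rw [S.disj] at h5
    exact hy₀ne h5
  obtain ⟨b, hb, hbe⟩ := S.moveB hneq
  refine ⟨b, hb, fun y => ?_⟩
  have h3 : ρ h y ∈ Y.map (ρ b) := by
    rw [← hbe]
    exact ⟨y, y.2, rfl⟩
  obtain ⟨y₂, hy₂, hye⟩ := h3
  have h4 : (y₂ : W) + (S.nB b hb ⟨y₂, hy₂⟩ : Y') = (y : W) + ((- n₀ (S.mA a ha (n₀ y)) : Y') : W) := by
    rw [← hact, ← hye]
    exact (S.act_Y hb ⟨y₂, hy₂⟩).symm
  obtain ⟨h5, h6⟩ := S.decomp_unique hy₂ y.2 (Subtype.property _) (Subtype.property _) h4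
  have h7 : (⟨y₂, hy₂⟩ : Y) = y := Subtype.ext h5
  rw [← h7]
  rw [h7] at h6 ⊢
  exact Subtype.ext h6

/-- **Main theorem of this section**: opposite shears with the conjugacy condition form `SL₂(F)`. -/
theorem exists_sl2 [Finite W] (S : Swap ρ A B Y Y' x) :
    ∃ (F : Type) (_ : Field F) (_ : Fintype F), Fintype.card F = Nat.card A ∧
      ∃ (ψ : W →+ (Fin 2 → F)) (θ : Q ≃* SL(2, F)), Function.Bijective ψ ∧
        ∀ g w, ψ (ρ g w) = ((θ g : SL(2, F)) : Matrix (Fin 2) (Fin 2) F).mulVec (ψ w) := by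
  classical
  obtain ⟨y₀, hy₀, hy₀ne⟩ := S.ne
  obtain ⟨l₀, hl₀, hl₀ne⟩ := S.ne'
  obtain ⟨a₀, ha₀, ha₀e⟩ := S.regA l₀ hl₀ hl₀ne y₀ hy₀
  have ha₀ne : a₀ ≠ 1 := by
    rintro rfl
    apply hy₀ne
    rw [← ha₀e]
    simp
  obtain ⟨b₀, hb₀, h₁, h₂⟩ := S.exists_inv ha₀ ha₀ne
  set m₀ := S.mA a₀ ha₀ with hm₀
  set n₀ := S.nB b₀ hb₀ with hn₀
  have hclaim2 : ∀ b (hb : b ∈ B), ∃ a, ∃ ha : a ∈ A, ∀ y', S.mA a ha y' = - m₀ (S.nB b hb (m₀ y')) :=
    fun b hb => S.symm.conj_claim hb₀ ha₀ h₂ h₁ hb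
  let 𝓔 : Submodule (ZMod p) (Module.End (ZMod p) Y') :=
    { carrier := {e | ∃ a, ∃ ha : a ∈ A, e = n₀ ∘ₗ S.mA a ha}
      add_mem' := by
        rintro _ _ ⟨a₁, h₁', rfl⟩ ⟨a₂, h₂', rfl⟩
        refine ⟨a₁ * a₂, A.mul_mem h₁' h₂', ?_⟩
        rw [S.mA_mul h₁' h₂', LinearMap.comp_add]
      zero_mem' := ⟨1, A.one_mem, by rw [S.mA_one, LinearMap.comp_zero]⟩
      smul_mem' := by
        rintro c _ ⟨a, ha, rfl⟩
        refine ⟨a ^ c.val, A.pow_mem ha _, ?_⟩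
        rw [S.mA_pow ha]
        apply LinearMap.ext
        intro y
        simp only [LinearMap.smul_apply, LinearMap.comp_apply, map_nsmul]
        rw [← Nat.cast_smul_eq_nsmul (ZMod p) c.val, ZMod.natCast_zmod_val] }
  have hmemE : ∀ a (ha : a ∈ A), n₀ ∘ₗ S.mA a ha ∈ 𝓔 := fun a ha => ⟨a, ha, rfl⟩
  have h1E : (1 : Module.End (ZMod p) Y') ∈ 𝓔 :=
    ⟨a₀, ha₀, LinearMap.ext fun y => (h₁ y).symm⟩
  have hfE : ∀ b (hb : b ∈ B), S.nB b hb ∘ₗ m₀ ∈ 𝓔 := by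
    intro b hb
    obtain ⟨a', ha', hae⟩ := hclaim2 b hb
    refine ⟨a'⁻¹, A.inv_mem ha', LinearMap.ext fun y' => ?_⟩
    rw [S.mA_inv ha']
    simp only [LinearMap.comp_apply, LinearMap.neg_apply, hae, neg_neg]
    exact (h₁ _).symm
  have hinvE : ∀ e ∈ 𝓔, e ≠ 0 → ∃ e' ∈ 𝓔, e * e' = 1 ∧ e' * e = 1 := by
    rintro _ ⟨a, ha, rfl⟩ hne
    have hane : a ≠ 1 := by
      rintro rfl
      apply hne
      rw [S.mA_one, LinearMap.comp_zero]
    obtain ⟨b, hb, hi₁, hi₂⟩ := S.exists_inv ha hane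
    refine ⟨S.nB b hb ∘ₗ m₀, hfE b hb, ?_, ?_⟩
    · apply LinearMap.ext
      intro y'
      show n₀ (S.mA a ha (S.nB b hb (m₀ y'))) = y'
      rw [hi₂, h₁]
    · apply LinearMap.ext
      intro y'
      show S.nB b hb (m₀ (n₀ (S.mA a ha y'))) = y'
      rw [h₂, hi₁]
  let l : Y' := ⟨l₀, hl₀⟩
  have hl : l ≠ 0 := fun h => hl₀ne (congrArg Subtype.val h)
  have : Nontrivial Y' := ⟨⟨l, 0, hl⟩⟩
  have hinjl : ∀ a₁ a₂ (h₃ : a₁ ∈ A) (h₄ : a₂ ∈ A), n₀ (S.mA a₁ h₃ l) = n₀ (S.mA a₂ h₄ l) → a₁ = a₂ := by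
    intro a₁ a₂ h₃ h₄ h
    have h5 := congrArg m₀ h
    rw [h₂, h₂] at h5
    have h6 : ρ a₁ l₀ - l₀ = ρ a₂ l₀ - l₀ := congrArg Subtype.val h5
    have h7 : ρ a₁ l₀ = ρ a₂ l₀ := sub_left_injective h6
    have h8 : a₂⁻¹ * a₁ = 1 := by
      apply S.regA_inj l₀ hl₀ hl₀ne _ (A.mul_mem (A.inv_mem h₄) h₃)
      rw [rho_mul, h7, rho_inv_rho]
    exact (inv_mul_eq_one.1 h8).symm
  have hbij : Function.Bijective (fun e : 𝓔 => e.1 l) := by
    constructor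
    · rintro ⟨_, a₁, h₃, rfl⟩ ⟨_, a₂, h₄, rfl⟩ h
      have := hinjl a₁ a₂ h₃ h₄ h
      subst this
      rfl
    · intro l₁
      obtain ⟨a, ha, hae⟩ := S.regA l₀ hl₀ hl₀ne (m₀ l₁) (Subtype.property _)
      refine ⟨⟨_, hmemE a ha⟩, ?_⟩
      show n₀ (S.mA a ha l) = l₁
      have : S.mA a ha l = m₀ l₁ := Subtype.ext hae
      rw [this, h₁]
  have hfr : Module.finrank (ZMod p) 𝓔 = Module.finrank (ZMod p) Y' := by
    let φ : 𝓔 →ₗ[ZMod p] Y' :=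
      { toFun := fun e => e.1 l
        map_add' := fun _ _ => rfl
        map_smul' := fun _ _ => rfl }
    exact (LinearEquiv.ofBijective φ hbij).finrank_eq
  obtain ⟨hcomm, hmul⟩ := HuaField.field_of_inverse_closed 𝓔 h1E hinvE hfr
  obtain ⟨F, fF, fintypeF, τ, ε, hτ⟩ :=
    OffSL2.coord_field 𝓔 h1E hinvE hcomm hmul l hbij
  refine ⟨F, fF, fintypeF, ?_, ?_⟩
  · rw [← Nat.card_eq_fintype_card]
    rw [← Nat.card_congr ε]
    refine Nat.card_congr (Equiv.ofBijective (fun a : A => (⟨_, hmemE a.1 a.2⟩ : 𝓔)) ⟨?_, ?_⟩).symm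
    · intro a₁ a₂ h
      have h3 : n₀ (S.mA a₁.1 a₁.2 l) = n₀ (S.mA a₂.1 a₂.2 l) :=
        congrArg (fun e : 𝓔 => e.1 l) h
      exact Subtype.ext (hinjl _ _ _ _ h3)
    · rintro ⟨_, a, ha, rfl⟩
      exact ⟨⟨a, ha⟩, rfl⟩
  -- the projections
  have hc : IsCompl Y Y' := ⟨disjoint_iff.2 S.disj, codisjoint_iff.2 S.span⟩
  let pY := Submodule.projectionOnto Y Y' hc
  let pY' := Submodule.projectionOnto Y' Y hc.symm
  have hpY : ∀ (u : Y) (v : Y'), pY ((u : W) + (v : W)) = u := by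
    intro u v
    have h3 : pY u = u := Submodule.projectionOnto_apply_left hc u
    have h4 : pY v = 0 := Submodule.projectionOnto_apply_right hc v
    rw [map_add, h3, h4, add_zero]
  have hpY' : ∀ (u : Y) (v : Y'), pY' ((u : W) + (v : W)) = v := by
    intro u v
    have h3 : pY' v = v := Submodule.projectionOnto_apply_left hc.symm v
    have h4 : pY' u = 0 := Submodule.projectionOnto_apply_right hc.symm u
    rw [map_add, h3, h4, zero_add]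
  have hrec : ∀ w : W, ((pY w : Y) : W) + ((pY' w : Y') : W) = w := fun w =>
    Submodule.projection_add_projection_eq_self hc w
  let ψ₀ : W → (Fin 2 → F) := fun w => ![τ (n₀ (pY w)), τ (pY' w)]
  let ψ : W →+ (Fin 2 → F) := AddMonoidHom.mk' ψ₀ (by
    intro w z
    ext i
    fin_cases i <;> simp [ψ₀, map_add])
  have hψ0 : ∀ w, ψ w 0 = τ (n₀ (pY w)) := fun w => rfl
  have hψ1 : ∀ w, ψ w 1 = τ (pY' w) := fun w => rfl
  have hψ : Function.Bijective ψ := by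
    constructor
    · rw [injective_iff_map_eq_zero]
      intro w hw
      have h3 : τ (n₀ (pY w)) = 0 := by rw [← hψ0, hw]; rfl
      have h4 : τ (pY' w) = 0 := by rw [← hψ1, hw]; rfl
      have h5 : n₀ (pY w) = 0 := τ.map_eq_zero_iff.1 h3
      have h6 : pY' w = 0 := τ.map_eq_zero_iff.1 h4
      have h7 : pY w = 0 := by
        have := congrArg m₀ h5
        rwa [h₂, map_zero] at this
      rw [← hrec w, h6, h7]
      simp
    · intro v
      let u : Y := m₀ (τ.symm (v 0))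
      let u' : Y' := τ.symm (v 1)
      refine ⟨(u : W) + (u' : W), ?_⟩
      ext i
      fin_cases i
      · show ψ _ 0 = v 0
        rw [hψ0, hpY, h₁]
        simp
      · show ψ _ 1 = v 1
        rw [hψ1, hpY']
        simp [u']
  have hAf : ∀ a (ha : a ∈ A) w,
      ψ (ρ a w) = ![ψ w 0 + ε ⟨n₀ ∘ₗ S.mA a ha, hmemE a ha⟩ * ψ w 1, ψ w 1] := by
    intro a ha w
    have hw : ρ a w = ((pY w + S.mA a ha (pY' w) : Y) : W) + ((pY' w : Y') : W) := by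
      conv_lhs => rw [← hrec w]
      rw [map_add, S.Afix a ha _ (pY w).2, S.act_Y' ha (pY' w), Submodule.coe_add]
      abel
    have h0 : pY (ρ a w) = pY w + S.mA a ha (pY' w) := by rw [hw]; exact hpY _ _
    have h1 : pY' (ρ a w) = pY' w := by rw [hw]; exact hpY' _ _
    ext i
    fin_cases i
    · show ψ _ 0 = ψ w 0 + _ * ψ w 1
      rw [hψ0, hψ0, hψ1, h0, map_add, map_add, ← hτ]
      rfl
    · show ψ _ 1 = ψ w 1
      rw [hψ1, hψ1, h1]
  have hBf : ∀ b (hb : b ∈ B) w,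
      ψ (ρ b w) = ![ψ w 0, ψ w 1 + ε ⟨S.nB b hb ∘ₗ m₀, hfE b hb⟩ * ψ w 0] := by
    intro b hb w
    have hw : ρ b w = ((pY w : Y) : W) + ((S.nB b hb (pY w) + pY' w : Y') : W) := by
      conv_lhs => rw [← hrec w]
      rw [map_add, S.Bfix b hb _ (pY' w).2, S.act_Y hb (pY w), Submodule.coe_add]
      abel
    have h0 : pY (ρ b w) = pY w := by rw [hw]; exact hpY _ _
    have h1 : pY' (ρ b w) = S.nB b hb (pY w) + pY' w := by rw [hw]; exact hpY' _ _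
    ext i
    fin_cases i
    · show ψ _ 0 = ψ w 0
      rw [hψ0, hψ0, h0]
    · show ψ _ 1 = ψ w 1 + _ * ψ w 0
      rw [hψ1, hψ1, hψ0, h1, map_add, ← hτ, add_comm]
      congr 2
      show _ = S.nB b hb (m₀ (n₀ (pY w)))
      rw [h₂]
  obtain ⟨θ, hθ⟩ := sl2_of_elementary ρ S.inj ψ hψ A B S.gen
    (fun a ha => ⟨_, hAf a ha⟩)
    (fun e => by
      obtain ⟨⟨_, a, ha, rfl⟩, he⟩ := ε.surjective e
      exact ⟨a, ha, fun w => by rw [hAf a ha w, he]⟩)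
    (fun b hb => ⟨_, hBf b hb⟩)
    (fun f => by
      obtain ⟨⟨_, a, ha, rfl⟩, he⟩ := ε.surjective f
      obtain ⟨b, hb, hbe⟩ := S.conj_claim ha₀ hb₀ h₁ h₂ (A.inv_mem ha)
      have hcomp : S.nB b hb ∘ₗ m₀ = n₀ ∘ₗ S.mA a ha := by
        apply LinearMap.ext
        intro y'
        rw [LinearMap.comp_apply, LinearMap.comp_apply, hbe, h₁, S.mA_inv ha]
        simp
        rfl
      refine ⟨b, hb, fun w => ?_⟩
      rw [hBf b hb w]
      have : (⟨S.nB b hb ∘ₗ m₀, hfE b hb⟩ : 𝓔) = ⟨n₀ ∘ₗ S.mA a ha, hmemE a ha⟩ := Subtype.ext hcomp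
      rw [this]
      have h' : ε ⟨n₀ ∘ₗ S.mA a ha, hmemE a ha⟩ = f := he
      rw [h'])
  exact ⟨ψ, θ, hψ, hθ⟩

end Swap

end Swap

section Main

open Cfsg.Agent.Lib.PGroup.OffPair

variable {Q : Type*} [Group Q] {p : ℕ} [hp : Fact p.Prime] {W : Type*} [AddCommGroup W] [Module (ZMod p) W]

/-- The action on `W / C_W(Q)`. -/
def quotRep (ρ : Representation (ZMod p) Q W) : Representation (ZMod p) Q (W ⧸ fx ρ (⊤ : Subgroup Q)) where
  toFun g := Submodule.mapQ _ _ (ρ g) (fun c hc => by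
    show ρ g c ∈ fx ρ (⊤ : Subgroup Q)
    rw [act_C hc]
    exact hc)
  map_one' := by
    apply LinearMap.ext
    intro w
    obtain ⟨z, rfl⟩ := Submodule.Quotient.mk_surjective _ w
    simp
  map_mul' g h := by
    apply LinearMap.ext
    intro w
    obtain ⟨z, rfl⟩ := Submodule.Quotient.mk_surjective _ w
    simp

theorem quotRep_mk (ρ : Representation (ZMod p) Q W) (g : Q) (z : W) :
    quotRep ρ g (Submodule.Quotient.mk z) = Submodule.Quotient.mk (ρ g z) := rfl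

variable {ρ : Representation (ZMod p) Q W} {A M : Subgroup Q} {T : Sylow p Q}

theorem mk_eq_zero_iff {z : W} :
    (Submodule.Quotient.mk z : W ⧸ fx ρ (⊤ : Subgroup Q)) = 0 ↔ z ∈ fx ρ (⊤ : Subgroup Q) :=
  Submodule.Quotient.mk_eq_zero _

/-- The pair of shear groups on the quotient. -/
theorem Off.swap [Finite Q] [Finite W] (S : Off ρ A M T) {x : Q} (hx : x ∉ M) :
    OffSL2.Swap (quotRep ρ) A (cj x A) ((fx ρ A).map (fx ρ (⊤ : Subgroup Q)).mkQ)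
      ((fx ρ (cj x A)).map (fx ρ (⊤ : Subgroup Q)).mkQ) x := by
  classical
  set C := fx ρ (⊤ : Subgroup Q) with hC
  have hCK : ∀ {D : Subgroup Q}, C ≤ fx ρ D := fun {D} => fx_anti le_top
  have hxinv : x⁻¹ ∉ M := fun h => hx (by simpa using M.inv_mem h)
  have hCi : ∀ (c : W) (g : Q), c ∈ C → ρ g c ∈ C := fun c g hc => by
    rw [act_C hc]; exact hc
  refine
    { inj := ?_
      gen := S.H4 x hx
      disj := ?_
      span := ?_
      ne := ?_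
      Afix := ?_
      Bfix := ?_
      Aq := ?_
      Bq := ?_
      regA := ?_
      regA_inj := ?_
      regB := ?_
      regB_inj := ?_
      hx := ?_
      TI := ?_ }
  · rw [injective_iff_map_eq_one]
    intro r hr
    apply S.faithful_mod
    intro w
    have h1 := congrArg (fun f : Module.End (ZMod p) (W ⧸ C) => f (Submodule.Quotient.mk w)) hr
    simp only [Module.End.one_apply] at h1
    exact (Submodule.Quotient.eq C).1 h1
  · rw [eq_bot_iff]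
    rintro w ⟨⟨k, hk, rfl⟩, ⟨k', hk', hkk⟩⟩
    have h1 : k' - k ∈ C := (Submodule.Quotient.eq C).1 hkk
    have h2 : k ∈ fx ρ (cj x A) := by
      have : k = k' - (k' - k) := by abel
      rw [this]
      exact Submodule.sub_mem _ hk' (hCK h1)
    have h3 := S.inter hx hk h2
    exact (mk_eq_zero_iff).2 h3
  · rw [eq_top_iff]
    intro w _
    obtain ⟨z, rfl⟩ := Submodule.Quotient.mk_surjective _ w
    have h1 : z ∈ fx ρ A ⊔ fx ρ (cj x A) := by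
      rw [(S.card_rel_and_top hx).2]; trivial
    obtain ⟨k₁, hk₁, k₂, hk₂, rfl⟩ := Submodule.mem_sup.1 h1
    rw [Submodule.Quotient.mk_add]
    exact Submodule.add_mem _
      (Submodule.mem_sup_left (show Submodule.Quotient.mk k₁ ∈ (fx ρ A).map C.mkQ from ⟨k₁, hk₁, rfl⟩))
      (Submodule.mem_sup_right (show Submodule.Quotient.mk k₂ ∈ (fx ρ (cj x A)).map C.mkQ from ⟨k₂, hk₂, rfl⟩))
  · obtain ⟨u, huT, huC⟩ := S.H3
    exact ⟨Submodule.Quotient.mk u, ⟨u, fx_anti S.hAT huT, rfl⟩, fun h => huC ((mk_eq_zero_iff).1 h)⟩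
  · rintro a ha _ ⟨k, hk, rfl⟩
    show quotRep ρ a (Submodule.Quotient.mk k) = Submodule.Quotient.mk k
    rw [quotRep_mk, hk a ha]
  · rintro a ha _ ⟨k, hk, rfl⟩
    show quotRep ρ a (Submodule.Quotient.mk k) = Submodule.Quotient.mk k
    rw [quotRep_mk, hk a ha]
  · intro a ha w
    obtain ⟨z, rfl⟩ := Submodule.Quotient.mk_surjective _ w
    exact ⟨ρ a z - z, S.hquad a ha z, rfl⟩
  · intro a ha w
    obtain ⟨z, rfl⟩ := Submodule.Quotient.mk_surjective _ w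
    exact ⟨ρ a z - z, S.quad_cj ha z, rfl⟩
  · rintro _ ⟨k', hk', rfl⟩ hne _ ⟨k, hk, rfl⟩
    have hk'C : k' ∉ C := fun h => hne ((mk_eq_zero_iff).2 h)
    obtain ⟨a, ha, hac⟩ := S.reg_surj hx hk' hk'C hk
    refine ⟨a, ha, ?_⟩
    show quotRep ρ a (Submodule.Quotient.mk k') - Submodule.Quotient.mk k' = Submodule.Quotient.mk k
    rw [quotRep_mk, ← Submodule.Quotient.mk_sub]
    exact (Submodule.Quotient.eq C).2 hac
  · rintro _ ⟨k', hk', rfl⟩ hne a ha h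
    have hk'C : k' ∉ C := fun h => hne ((mk_eq_zero_iff).2 h)
    have h1 : ρ a k' - k' ∈ C := (Submodule.Quotient.eq C).1 h
    exact S.reg_inj hx hk' hk'C ha h1
  · rintro _ ⟨k, hk, rfl⟩ hne _ ⟨k₁, hk₁, rfl⟩
    have hkC : k ∉ C := fun h => hne ((mk_eq_zero_iff).2 h)
    have hk₂ : ρ x⁻¹ k ∈ fx ρ (cj x⁻¹ A) := act_mem_fx_cj _ hk
    have hk₂C : ρ x⁻¹ k ∉ C := fun h => hkC (by
      have := hCi _ x h
      rwa [rho_rho_inv] at this)
    obtain ⟨a, ha, hac⟩ := S.reg_surj hxinv hk₂ hk₂C (inv_act_mem_fx hk₁)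
    refine ⟨x * a * x⁻¹, conj_mem_cj ha, ?_⟩
    show quotRep ρ _ (Submodule.Quotient.mk k) - Submodule.Quotient.mk k = Submodule.Quotient.mk k₁
    rw [quotRep_mk, ← Submodule.Quotient.mk_sub]
    apply (Submodule.Quotient.eq C).2
    have h1 := hCi _ x hac
    have h2 : ρ x (ρ a (ρ x⁻¹ k) - ρ x⁻¹ k - ρ x⁻¹ k₁) = ρ (x * a * x⁻¹) k - k - k₁ := by
      rw [map_sub, map_sub, rho_rho_inv, rho_rho_inv, rho_mul, rho_mul]
    rwa [h2] at h1
  · rintro _ ⟨k, hk, rfl⟩ hne b hb h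
    have hkC : k ∉ C := fun h => hne ((mk_eq_zero_iff).2 h)
    have hk₂ : ρ x⁻¹ k ∈ fx ρ (cj x⁻¹ A) := act_mem_fx_cj _ hk
    have hk₂C : ρ x⁻¹ k ∉ C := fun h => hkC (by
      have := hCi _ x h
      rwa [rho_rho_inv] at this)
    have h1 : ρ b k - k ∈ C := (Submodule.Quotient.eq C).1 h
    have h2 : x⁻¹ * b * x ∈ A := mem_cj.1 hb
    have h3 : ρ (x⁻¹ * b * x) (ρ x⁻¹ k) - ρ x⁻¹ k = ρ x⁻¹ (ρ b k - k) := by
      rw [rho_mul, rho_mul, rho_rho_inv, map_sub]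
    have h4 : ρ (x⁻¹ * b * x) (ρ x⁻¹ k) - ρ x⁻¹ k ∈ C := by
      rw [h3]
      exact hCi _ _ h1
    have h5 := S.reg_inj hxinv hk₂ hk₂C h2 h4
    have h6 : b = x * (x⁻¹ * b * x) * x⁻¹ := by group
    rw [h6, h5]
    simp
  · ext w
    constructor
    · rintro ⟨k', hk', rfl⟩
      refine ⟨Submodule.Quotient.mk (ρ x⁻¹ k'), ⟨_, inv_act_mem_fx hk', rfl⟩, ?_⟩
      show quotRep ρ x (Submodule.Quotient.mk _) = Submodule.Quotient.mk k'
      rw [quotRep_mk, rho_rho_inv]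
    · rintro ⟨_, ⟨k, hk, rfl⟩, rfl⟩
      exact ⟨ρ x k, act_mem_fx_cj x hk, rfl⟩
  · intro g
    by_cases hg : g ∈ M
    · left
      apply le_antisymm
      · rintro _ ⟨_, ⟨k, hk, rfl⟩, rfl⟩
        exact ⟨ρ g k, S.norm_K hg hk, rfl⟩
      · rintro _ ⟨k, hk, rfl⟩
        refine ⟨Submodule.Quotient.mk (ρ g⁻¹ k), ⟨_, S.norm_K (M.inv_mem hg) hk, rfl⟩, ?_⟩
        show quotRep ρ g (Submodule.Quotient.mk _) = Submodule.Quotient.mk k
        rw [quotRep_mk, rho_rho_inv]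
    · right
      rw [eq_bot_iff]
      rintro _ ⟨⟨_, ⟨k, hk, rfl⟩, rfl⟩, ⟨k₂, hk₂, hkk⟩⟩
      have h1 : ρ g k - k₂ ∈ C := by
        apply (Submodule.Quotient.eq C).1
        rw [Submodule.mkQ_apply] at hkk
        rw [hkk]
        rfl
      have h2 : ρ g k ∈ fx ρ A := by
        have : ρ g k = k₂ + (ρ g k - k₂) := by abel
        rw [this]
        exact Submodule.add_mem _ hk₂ (hCK h1)
      have h3 := S.inter hg h2 (act_mem_fx_cj g hk)
      exact (mk_eq_zero_iff).2 h3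

/-- **Main module-theoretic theorem.** -/
theorem Off.main [Finite Q] [Finite W] (S : Off ρ A M T) :
    ∃ (F : Type) (_ : Field F) (_ : Fintype F), Fintype.card F = Nat.card A ∧
      ∃ (ψ : W →+ (Fin 2 → F)) (θ : Q ≃* SL(2, F)), Function.Surjective ψ ∧
        (∀ w, ψ w = 0 ↔ w ∈ fx ρ (⊤ : Subgroup Q)) ∧
        ∀ g w, ψ (ρ g w) = ((θ g : SL(2, F)) : Matrix (Fin 2) (Fin 2) F).mulVec (ψ w) := by
  classical
  obtain ⟨x, hx⟩ := S.exists_not_mem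
  have : Finite (W ⧸ fx ρ (⊤ : Subgroup Q)) :=
    Finite.of_surjective (fx ρ (⊤ : Subgroup Q)).mkQ (fx ρ (⊤ : Subgroup Q)).mkQ_surjective
  obtain ⟨F, fF, fintypeF, hcard, ψ, θ, hψ, hθ⟩ := (Off.swap S hx).exists_sl2
  refine ⟨F, fF, fintypeF, hcard, ψ.comp ((fx ρ (⊤ : Subgroup Q)).mkQ.toAddMonoidHom), θ, ?_, ?_, ?_⟩
  · exact hψ.2.comp (fx ρ (⊤ : Subgroup Q)).mkQ_surjective
  · intro w
    have h1 : (ψ.comp ((fx ρ (⊤ : Subgroup Q)).mkQ.toAddMonoidHom)) w = ψ (Submodule.Quotient.mk w) := rfl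
    rw [h1, ← mk_eq_zero_iff, ← map_zero ψ]
    exact hψ.1.eq_iff
  · intro g w
    exact hθ g (Submodule.Quotient.mk w)

end Main

end Cfsg.Agent.Lib.PGroup.OffSL2
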