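import Mathlib
import Cfsg.Agent.Lib.PGroup.Critical
import Cfsg.Agent.Lib.Basic.PCore
import Cfsg.Agent.Lib.Transfer.Frobenius

/-!
# Elements with conjugacy classes of `p`-power size

`p`-elements whose class has `p`-power size lie in `O_p(G)`, normal `p`-subgroups all of whose
elements have `p`-power class sizes are hypercentral, and the normal `p`-complement theorem.
-/

set_option autoImplicit false

namespace Cfsg.Agent.Lib.PGroup.PPowerClass

open Subgroup Cfsg.Agent.Lib.PGroup.Critical Cfsg.Agent.Lib.Basic.PCore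
open scoped commutatorElement

variable {G : Type*} [Group G] [Finite G] {p : ℕ} [hp : Fact p.Prime]

/-- A Sylow subgroup acts transitively on the cosets of a subgroup of `p`-power index. -/
theorem exists_mul_of_index_eq (S : Sylow p G) (T : Subgroup G) {a : ℕ} (hT : T.index = p ^ a)
    (h : G) : ∃ s ∈ (S : Subgroup G), ∃ t ∈ T, h = s * t := by
  classical
  have hst : MulAction.stabilizer (S : Subgroup G) (((1 : G) : G ⧸ T)) =
      T.subgroupOf (S : Subgroup G) := by
    ext s
    rw [MulAction.mem_stabilizer_iff, Subgroup.mem_subgroupOf]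
    change (((s : G) * 1 : G) : G ⧸ T) = ((1 : G) : G ⧸ T) ↔ _
    rw [QuotientGroup.eq]
    simp [T.inv_mem_iff]
  have hcard : (MulAction.orbit (S : Subgroup G) (((1 : G) : G ⧸ T))).ncard =
      T.relIndex (S : Subgroup G) := by
    rw [← MulAction.index_stabilizer, hst, Subgroup.relIndex]
  have hdvd : p ^ a ∣ T.relIndex (S : Subgroup G) := by
    have e1 := Subgroup.relIndex_mul_index (inf_le_left : (S : Subgroup G) ⊓ T ≤ S)
    have e2 := Subgroup.relIndex_mul_index (inf_le_right : (S : Subgroup G) ⊓ T ≤ T)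
    rw [e2.symm, Subgroup.inf_relIndex_left] at e1
    have hco : Nat.Coprime (p ^ a) (S : Subgroup G).index :=
      Nat.Coprime.pow_left _ ((Nat.Prime.coprime_iff_not_dvd hp.out).mpr S.not_dvd_index)
    apply hco.dvd_of_dvd_mul_right
    rw [e1, hT]
    exact Dvd.intro_left _ rfl
  have hfin : T.relIndex (S : Subgroup G) ≠ 0 := Subgroup.FiniteIndex.index_ne_zero
  have huniv : (MulAction.orbit (S : Subgroup G) (((1 : G) : G ⧸ T))) = Set.univ := by
    apply Set.eq_of_subset_of_ncard_le (Set.subset_univ _) _ (Set.toFinite _)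
    rw [hcard, Set.ncard_univ, ← Subgroup.index_eq_card, hT]
    exact Nat.le_of_dvd (Nat.pos_of_ne_zero hfin) hdvd
  have hmem : ((h : G) : G ⧸ T) ∈ MulAction.orbit (S : Subgroup G) (((1 : G) : G ⧸ T)) := by
    rw [huniv]; trivial
  obtain ⟨s, hs⟩ := hmem
  change (((s : G) * 1 : G) : G ⧸ T) = _ at hs
  rw [QuotientGroup.eq, mul_one] at hs
  exact ⟨s, s.2, _, hs, by simp⟩

/-- A `p`-element whose conjugacy class has `p`-power size lies in `O_p(G)`. -/
theorem mem_pCore_of_index {x : G} {k a : ℕ} (hx : orderOf x = p ^ k)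
    (hT : (centralizer ({x} : Set G)).index = p ^ a) : x ∈ Cfsg.pCore p G := by
  have hZ : IsPGroup p (zpowers x) := by
    apply IsPGroup.of_card (n := k)
    rw [Nat.card_zpowers, hx]
  obtain ⟨S, hS⟩ := hZ.exists_le_sylow
  have hxS : x ∈ (S : Subgroup G) := hS (mem_zpowers x)
  have hconj : ∀ h : G, h * x * h⁻¹ ∈ (S : Subgroup G) := by
    intro h
    obtain ⟨s, hs, t, ht, rfl⟩ := exists_mul_of_index_eq S _ hT h
    have hc : t * x = x * t := by
      have := mem_centralizer_iff.mp ht x (by simp)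
      exact this.symm
    have : s * t * x * (s * t)⁻¹ = s * x * s⁻¹ := by
      rw [mul_assoc s t x, hc]; group
    rw [this]
    exact (S : Subgroup G).mul_mem ((S : Subgroup G).mul_mem hs hxS) ((S : Subgroup G).inv_mem hs)
  have hN : Subgroup.normalClosure ({x} : Set G) ≤ (S : Subgroup G) := by
    rw [Subgroup.normalClosure, Subgroup.closure_le]
    intro y hy
    rw [Group.mem_conjugatesOfSet_iff] at hy
    obtain ⟨z, hz, hzy⟩ := hy
    obtain rfl : z = x := hz
    obtain ⟨c, rfl⟩ := isConj_iff.mp hzy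
    exact hconj c
  have hPN : IsPGroup p (Subgroup.normalClosure ({x} : Set G)) := S.2.to_le hN
  exact le_pCore inferInstance hPN (Subgroup.subset_normalClosure (by simp))

/-- Normal subgroups of `p`-groups whose elements have `p`-power class sizes are hypercentral. -/
theorem exists_central_mod (E L : Subgroup G) [hE : E.Normal] [hL : L.Normal] (hEp : IsPGroup p E)
    (hEL : ¬ E ≤ L) (hcl : ∀ x ∈ E, ∃ a : ℕ, (centralizer ({x} : Set G)).index = p ^ a) :
    ∃ x ∈ E, x ∉ L ∧ ∀ d : G, ⁅x, d⁆ ∈ L := by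
  obtain ⟨S, hS⟩ := hEp.exists_le_sylow
  haveI : (L.subgroupOf (S : Subgroup G)).Normal := inferInstance
  haveI : (E.subgroupOf (S : Subgroup G)).Normal := inferInstance
  have hNM : ¬ E.subgroupOf (S : Subgroup G) ≤ L.subgroupOf (S : Subgroup G) := by
    intro hle
    apply hEL
    intro y hy
    have := hle (show (⟨y, hS hy⟩ : (S : Subgroup G)) ∈ E.subgroupOf (S : Subgroup G) from hy)
    exact this
  obtain ⟨x, hxE, hxL, -, hxc⟩ := exists_mem_central_mod S.2 _ _ hNM
  have hxE' : (x : G) ∈ E := hxE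
  have hxL' : (x : G) ∉ L := hxL
  refine ⟨x, hxE', hxL', ?_⟩
  let D : Subgroup G := (centralizer ({((x : G) : G ⧸ L)} : Set (G ⧸ L))).comap (QuotientGroup.mk' L)
  have hD : ∀ d : G, d ∈ D ↔ ⁅(x : G), d⁆ ∈ L := by
    intro d
    have h0 : ⁅(x : G), d⁆ ∈ L ↔ ((⁅(x : G), d⁆ : G) : G ⧸ L) = 1 :=
      (QuotientGroup.eq_one_iff _).symm
    rw [h0, Subgroup.mem_comap, mem_centralizer_iff]
    simp only [Set.mem_singleton_iff, forall_eq]
    have h3 : ((⁅(x : G), d⁆ : G) : G ⧸ L) = ⁅((x : G) : G ⧸ L), (d : G ⧸ L)⁆ :=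
      map_commutatorElement (QuotientGroup.mk' L) _ _
    rw [h3, commutatorElement_eq_one_iff_mul_comm]
    rfl
  have h1 : (S : Subgroup G) ≤ D := by
    intro s hs
    rw [hD]
    have := hxc ⟨s, hs⟩
    exact this
  have h2 : centralizer ({(x : G)} : Set G) ≤ D := by
    intro c hc
    rw [hD]
    have hcx : Commute c (x : G) := (mem_centralizer_iff.mp hc _ (by simp)).symm
    rw [commutatorElement_eq_one_iff_commute.mpr hcx.symm]
    exact L.one_mem
  obtain ⟨a, ha⟩ := hcl _ hxE'
  have d1 : D.index ∣ (S : Subgroup G).index := Subgroup.index_dvd_of_le h1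
  have d2 : D.index ∣ p ^ a := ha ▸ Subgroup.index_dvd_of_le h2
  have hco : Nat.Coprime (p ^ a) (S : Subgroup G).index :=
    Nat.Coprime.pow_left _ ((Nat.Prime.coprime_iff_not_dvd hp.out).mpr S.not_dvd_index)
  have hone : D.index = 1 := Nat.eq_one_of_dvd_coprimes hco d2 d1
  rw [Subgroup.index_eq_one] at hone
  intro d
  rw [← hD, hone]
  trivial

/-- A `p'`-element centralizes any hypercentral normal `p`-subgroup. -/
theorem commute_of_hypercentral (E : Subgroup G) [hE : E.Normal] (hEp : IsPGroup p E)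
    (hyp : ∀ L : Subgroup G, L.Normal → ¬ E ≤ L → ∃ x ∈ E, x ∉ L ∧ ∀ d : G, ⁅x, d⁆ ∈ L)
    {g : G} (hg : Nat.Coprime (orderOf g) p) : ∀ x ∈ E, g * x * g⁻¹ = x := by
  classical
  let F : Set (Subgroup G) := {L | L.Normal ∧ L ≤ E ∧ ∀ x ∈ L, g * x * g⁻¹ = x}
  have hbot : (⊥ : Subgroup G) ∈ F := ⟨inferInstance, bot_le, by
    intro x hx
    rw [Subgroup.mem_bot] at hx
    simp [hx]⟩
  obtain ⟨L, ⟨hLn, hLE, hLg⟩, hmax⟩ := F.toFinite.exists_maximal ⟨⊥, hbot⟩
  by_cases hEL : E ≤ L
  · intro x hx
    exact hLg x (hEL hx)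
  · exfalso
    haveI := hLn
    obtain ⟨x, hxE, hxL, hxc⟩ := hyp L hLn hEL
    -- `g` fixes `x`
    have hord : Nat.Coprime (orderOf (MulAut.conjNormal (H := E) g)) p :=
      Nat.Coprime.coprime_dvd_left (orderOf_map_dvd _ g) hg
    have hfx : (MulAut.conjNormal (H := E) g) ⟨x, hxE⟩ = ⟨x, hxE⟩ := by
      haveI : Finite E := inferInstance
      apply Cfsg.Agent.Lib.PGroup.Critical.eq_of_fixed_diff hEp _ hord
      apply Subtype.ext
      have hw : x⁻¹ * (g * x * g⁻¹) ∈ L := by
        have h1 := L.inv_mem (hxc g)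
        rw [commutatorElement_def] at h1
        have h2 : x⁻¹ * (g * x * g⁻¹) = x⁻¹ * (g * x * g⁻¹ * x⁻¹) * x := by group
        rw [h2]
        apply hLn.conj_mem' 
        simpa [mul_assoc] using h1
      rw [MulAut.conjNormal_apply]
      have hcoe : ((⟨x, hxE⟩ : E)⁻¹ * (MulAut.conjNormal (H := E) g) ⟨x, hxE⟩ : E).1 =
          x⁻¹ * (g * x * g⁻¹) := by
        rw [Subgroup.coe_mul, MulAut.conjNormal_apply]
        rfl
      rw [hcoe]
      exact hLg _ hw
    have hfx' : g * x * g⁻¹ = x := by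
      have := congrArg (Subtype.val) hfx
      simpa [MulAut.conjNormal_apply] using this
    have hsup : L ⊔ zpowers x ∈ F := by
      refine ⟨normal_sup_zpowers L hxc, sup_le hLE (zpowers_le.mpr hxE), ?_⟩
      have : L ⊔ zpowers x ≤ centralizer ({g} : Set G) := by
        refine sup_le ?_ (zpowers_le.mpr ?_)
        · intro y hy
          rw [mem_centralizer_iff]
          intro z hz
          obtain rfl : z = g := hz
          have := hLg y hy
          calc z * y = z * y * z⁻¹ * z := by group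
            _ = y * z := by rw [this]
        · rw [mem_centralizer_iff]
          intro z hz
          obtain rfl : z = g := hz
          calc z * x = z * x * z⁻¹ * z := by group
            _ = x * z := by rw [hfx']
      intro y hy
      have := mem_centralizer_iff.mp (this hy) g (by simp)
      calc g * y * g⁻¹ = y * g * g⁻¹ := by rw [this]
        _ = y := by group
    have hle : L ≤ L ⊔ zpowers x := le_sup_left
    have := hmax hsup hle
    exact hxL (this (Subgroup.mem_sup_right (mem_zpowers x)))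

/-- The general form: elements with `x ^ n = 1` have `p`-power class sizes. -/
theorem frobeniusHyp_of_index {n k : ℕ} (hnk : n = p ^ k) (hpn : p ∣ n) (hn : p ∣ n.choose 2)
    (h : ∀ x : G, x ^ n = 1 → ∃ a : ℕ, (centralizer ({x} : Set G)).index = p ^ a) :
    Cfsg.Agent.Lib.Transfer.Frobenius.FrobeniusHyp p G := by
  classical
  have hO : ∀ x : G, x ^ n = 1 → x ∈ Cfsg.pCore p G := by
    intro x hx
    have hd : orderOf x ∣ p ^ k := hnk ▸ orderOf_dvd_of_pow_eq_one hx
    obtain ⟨j, -, hj⟩ := (Nat.dvd_prime_pow hp.out).mp hd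
    obtain ⟨a, ha⟩ := h x hx
    exact mem_pCore_of_index hj ha
  have hcent : ∀ g : G, Nat.Coprime (orderOf g) p → ∀ x : G, x ^ n = 1 → g * x * g⁻¹ = x := by
    intro g hg x hx
    let O : Subgroup G := Cfsg.pCore p G
    haveI hOn : O.Normal := pCore_normal p G
    have hR : IsPGroup p O := pCore_isPGroup p
    obtain ⟨H, hchar, h1, h2, h3⟩ := exists_critical hR
    have hmul : ∀ x ∈ H, ∀ y ∈ H, (x * y) ^ n = x ^ n * y ^ n := fun x hx y hy =>
      critical_mul_pow hR h1 h2 hn hx hy
    let Ek : Subgroup O :=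
      { carrier := {x | x ∈ H ∧ x ^ n = 1}
        one_mem' := ⟨H.one_mem, one_pow n⟩
        mul_mem' := by
          rintro x y ⟨hx, hx'⟩ ⟨hy, hy'⟩
          refine ⟨H.mul_mem hx hy, ?_⟩
          rw [hmul x hx y hy, hx', hy', one_mul]
        inv_mem' := by
          rintro x ⟨hx, hx'⟩
          exact ⟨H.inv_mem hx, by rw [inv_pow, hx', inv_one]⟩ }
    have hconjH : ∀ d : G, ∀ y ∈ H, MulAut.conjNormal (H := O) d y ∈ H := fun d y hy =>
      (characteristic_iff_map_le.mp hchar (MulAut.conjNormal (H := O) d)) ⟨y, hy, rfl⟩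
    let E : Subgroup G := Ek.map O.subtype
    haveI hEn : E.Normal := by
      constructor
      rintro _ ⟨y, ⟨hyH, hyn⟩, rfl⟩ d
      refine ⟨MulAut.conjNormal (H := O) d y, ⟨hconjH d y hyH, ?_⟩, ?_⟩
      · rw [← map_pow, hyn, map_one]
      · exact MulAut.conjNormal_apply d y
    have hEp : IsPGroup p E := (hR.to_subgroup Ek).map O.subtype
    have hEcl : ∀ y ∈ E, ∃ a : ℕ, (centralizer ({y} : Set G)).index = p ^ a := by
      rintro _ ⟨y, ⟨_, hyn⟩, rfl⟩
      apply h
      have := congrArg Subtype.val hyn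
      simpa using this
    have hfixE : ∀ y ∈ E, g * y * g⁻¹ = y :=
      commute_of_hypercentral E hEp (fun L hL hEL => by
        haveI := hL
        exact exists_central_mod E L hEp hEL hEcl) hg
    let a : MulAut O := MulAut.conjNormal (H := O) g
    have ha : Nat.Coprime (orderOf a) p :=
      Nat.Coprime.coprime_dvd_left (orderOf_map_dvd _ g) hg
    have hfixH : ∀ y ∈ H, a y = y := by
      apply fixes_of_fixes_kernel hR H a ha (fun y hy => hconjH g y hy) hpn hmul
      intro y hyH hyn
      apply Subtype.ext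
      rw [MulAut.conjNormal_apply]
      exact hfixE _ ⟨y, ⟨hyH, hyn⟩, rfl⟩
    have hone : a = 1 := Cfsg.Agent.S0121.result hR H hchar h1 h2 h3 a ha hfixH
    have hxO : x ∈ O := hO x hx
    have := congrArg Subtype.val (DFunLike.congr_fun hone ⟨x, hxO⟩)
    rw [MulAut.conjNormal_apply] at this
    exact this
  intro Q hQ g hg hc
  let b : MulAut Q := Q.normalizerMonoidHom ⟨g, hg⟩
  have hb : Nat.Coprime (orderOf b) p := by
    apply Nat.Coprime.coprime_dvd_left (orderOf_map_dvd _ _)
    rwa [Subgroup.orderOf_mk]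
  have hbfix : ∀ y : Q, y ^ n = 1 → b y = y := by
    intro y hy
    apply Subtype.ext
    have h1 : (y : G) ^ n = 1 := by
      have := congrArg Subtype.val hy
      simpa using this
    exact hcent g hc y h1
  have hone : b = 1 := coprime_aut_eq_one_of_fixes hQ b hb hpn hn hbfix
  rw [mem_centralizer_iff]
  intro y hy
  have h2 : g * y * g⁻¹ = y := by
    have := congrArg Subtype.val (DFunLike.congr_fun hone ⟨y, hy⟩)
    exact this
  calc y * g = g * y * g⁻¹ * g := by rw [h2]
    _ = g * y := by group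

end Cfsg.Agent.Lib.PGroup.PPowerClass
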