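import Mathlib
import Cfsg.Agent.Lib.PGroup.Taussky

/-!
# 2-groups with a generalized quaternion central quotient
-/

set_option autoImplicit false

namespace Cfsg.Agent.Lib.PGroup.QuatQuot

open Subgroup Cfsg.Agent.Lib.PGroup.CyclicMax Cfsg.Agent.Lib.PGroup.CyclicMax2 Cfsg.Agent.Lib.PGroup.Taussky

variable {S : Type*} [Group S]

theorem uniqueP_of_existsUnique {Q : Type*} [Group Q] (h : ∃! x : Q, orderOf x = 2) : UniqueP 2 Q := by
  obtain ⟨x0, hx0, hu⟩ := h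
  intro y w hy hw hy1 hw1
  have h1 := hu y (orderOf_eq_prime hy hy1)
  have h2 := hu w (orderOf_eq_prime hw hw1)
  rw [h1, h2]
  exact mem_zpowers _

/-- Lifting the generators of a non-abelian quotient with exactly one involution. -/
theorem exists_lift [Finite S] (hS : IsPGroup 2 S) (D : Subgroup S) [D.Normal]
    (hna : ¬ IsMulCommutative (S ⧸ D)) (huniq : ∃! x : S ⧸ D, orderOf x = 2) :
    ∃ (a b : S) (n : ℕ), 2 ≤ n ∧ Nat.card (S ⧸ D) = 2 ^ (n + 1) ∧ orderOf (a : S ⧸ D) = 2 ^ n ∧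
      (b : S ⧸ D) ∉ zpowers (a : S ⧸ D) ∧ b * a * b⁻¹ * a ∈ D ∧ b ^ 2 * (a ^ 2 ^ (n - 1))⁻¹ ∈ D := by
  haveI : Fact (Nat.Prime 2) := ⟨Nat.prime_two⟩
  have hQ : IsPGroup 2 (S ⧸ D) := hS.to_quotient D
  rcases cyclic_or_quaternion hQ (uniqueP_of_existsUnique huniq) with hc | ⟨-, u, v, n, hSC, hn, hcard, hb, hbu, hb2⟩
  · exfalso
    obtain ⟨g, hg⟩ := hc
    apply hna
    refine isMulCommutative_iff.mpr fun x y => ?_
    obtain ⟨i, hi⟩ := hg x
    obtain ⟨j, hj⟩ := hg y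
    have hi' : g ^ i = x := hi
    have hj' : g ^ j = y := hj
    rw [← hi', ← hj']
    exact ((Commute.refl g).zpow_zpow i j).eq
  · obtain ⟨a, rfl⟩ := QuotientGroup.mk_surjective u
    obtain ⟨b, rfl⟩ := QuotientGroup.mk_surjective v
    refine ⟨a, b, n, hn, hcard, hSC.hu, hb, ?_, ?_⟩
    · rw [← QuotientGroup.eq_one_iff]
      have e : ((b * a * b⁻¹ * a : S) : S ⧸ D) =
          ((b : S ⧸ D) * (a : S ⧸ D) * (b : S ⧸ D)⁻¹) * (a : S ⧸ D) := rfl
      rw [e, hbu]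
      group
    · rw [← QuotientGroup.eq_one_iff]
      have e : ((b ^ 2 * (a ^ 2 ^ (n - 1))⁻¹ : S) : S ⧸ D) =
          ((b : S ⧸ D) ^ 2) * ((a : S ⧸ D) ^ 2 ^ (n - 1))⁻¹ := rfl
      rw [e, hb2]
      group

/-- The commutator subgroup is cyclic. -/
theorem commutator_isCyclic [Finite S] (hS : IsPGroup 2 S) (D : Subgroup S) [D.Normal] (hD : D ≤ center S)
    (hna : ¬ IsMulCommutative (S ⧸ D)) (huniq : ∃! x : S ⧸ D, orderOf x = 2) :
    IsCyclic (commutator S) := by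
  obtain ⟨a, b, n, hn, hcard, ha, hb, hc, -⟩ := exists_lift hS D hna huniq
  -- the abelian subgroup of index two
  have hidx : (zpowers (a : S ⧸ D)).index = 2 := by
    have h1 := Subgroup.card_mul_index (zpowers (a : S ⧸ D))
    rw [Nat.card_zpowers, ha, hcard, pow_succ] at h1
    exact Nat.eq_of_mul_eq_mul_left (by positivity) h1
  let A : Subgroup S := (zpowers (a : S ⧸ D)).comap (QuotientGroup.mk' D)
  have hA : A.index = 2 := by
    rw [Subgroup.index_comap_of_surjective _ (QuotientGroup.mk'_surjective D)]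
    exact hidx
  have hform : ∀ y ∈ A, ∃ (i : ℤ) (d : S), d ∈ D ∧ y = a ^ i * d := by
    intro y hy
    obtain ⟨i, hi⟩ := hy
    refine ⟨i, (a ^ i)⁻¹ * y, ?_, by group⟩
    rw [← QuotientGroup.eq]
    exact hi
  have hcen : ∀ d ∈ D, ∀ g : S, d * g = g * d := fun d hd g =>
    ((Subgroup.mem_center_iff.mp (hD hd)) g).symm
  have hAc : ∀ x ∈ A, ∀ y ∈ A, x * y = y * x := by
    intro x hx y hy
    obtain ⟨i, d, hd, rfl⟩ := hform x hx
    obtain ⟨j, f, hf, rfl⟩ := hform y hy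
    have h1 : a ^ i * a ^ j = a ^ j * a ^ i := ((Commute.refl a).zpow_zpow i j).eq
    calc a ^ i * d * (a ^ j * f) = a ^ i * (d * a ^ j) * f := by group
      _ = a ^ i * (a ^ j * d) * f := by rw [hcen d hd]
      _ = (a ^ i * a ^ j) * (d * f) := by group
      _ = (a ^ j * a ^ i) * (f * d) := by rw [h1, hcen d hd f]
      _ = a ^ j * (a ^ i * f) * d := by group
      _ = a ^ j * (f * a ^ i) * d := by rw [hcen f hf]
      _ = a ^ j * f * (a ^ i * d) := by group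
  have hbA : b ∉ A := hb
  -- the commutators
  obtain ⟨c, hcdef⟩ : ∃ c, c = b * a * b⁻¹ * a := ⟨_, rfl⟩
  rw [← hcdef] at hc
  have hconj : b * a * b⁻¹ = c * a⁻¹ := by rw [hcdef]; group
  have hca : Commute c a⁻¹ := hcen c hc a⁻¹
  have hf : ∀ y ∈ A, y * b * y⁻¹ * b⁻¹ ∈ zpowers (c⁻¹ * a ^ 2) := by
    intro y hy
    obtain ⟨i, d, hd, rfl⟩ := hform y hy
    have h1 : a ^ i * d * b * (a ^ i * d)⁻¹ * b⁻¹ = a ^ i * (b * a⁻¹ ^ i * b⁻¹) := by
      have h2 : a ^ i * d * b * (a ^ i * d)⁻¹ * b⁻¹ = a ^ i * (d * b * d⁻¹) * (a ^ i)⁻¹ * b⁻¹ := by group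
      rw [h2, hcen d hd b]
      have h3 : (a ^ i)⁻¹ = a⁻¹ ^ i := by simp
      rw [h3]
      group
    rw [h1]
    have h4 : b * a⁻¹ ^ i * b⁻¹ = (c * a⁻¹)⁻¹ ^ i := by
      rw [← hconj, ← conj_zpow, conj_inv]
    rw [h4]
    have h5 : (c * a⁻¹)⁻¹ = a * c⁻¹ := by group
    rw [h5]
    have hca2 : Commute a c⁻¹ := ((hcen c hc a).symm ▸ rfl : a * c = c * a) |> fun h => (Commute.inv_right h)
    rw [hca2.mul_zpow]
    have hk : (c⁻¹ * a ^ 2) ^ i = a ^ i * (a ^ i * c⁻¹ ^ i) := by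
      have h6 : Commute c⁻¹ (a ^ 2) := (hca2.symm).pow_right 2
      rw [h6.mul_zpow, ← mul_assoc]
      have h7 : (a ^ 2) ^ i = a ^ i * a ^ i := by
        rw [← zpow_natCast a 2, ← zpow_mul, mul_comm, zpow_mul, zpow_natCast, pow_two]
      rw [h7]
      exact ((hca2.symm).zpow_zpow i i |>.mul_right ((hca2.symm).zpow_zpow i i) |>.eq).trans (by rfl)
    rw [← hk]
    exact zpow_mem (mem_zpowers _) i
  have hle := commutator_le_of_abelian_index_two hA hAc hbA hf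
  exact Subgroup.isCyclic_of_le hle

end Cfsg.Agent.Lib.PGroup.QuatQuot
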