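import Mathlib
import Cfsg.Prelude.Def_LocalEven
import Cfsg.Agent.Lib.PGroup.SFourFree
import Cfsg.Agent.Lib.PGroup.WeakClosureSFour
import Cfsg.Agent.Lib.Components.PConstrained

/-!
# Thompson factorization for `2`-constrained `S₄`-free groups with Sylow `2`-subgroups of class two

If `G` is `2`-constrained, has no section `S₄`, and its Sylow `2`-subgroup `S` has class at most `2`,
then `G = N_G(J(S)) O_{2'}(G)`.

The proof: modulo `O_{2'}(G)` one has `C_G(Q) ≤ Q` for `Q = O_2(G)`. In a minimal counterexample `S` lies in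
the unique maximal subgroup `H = N_G(J(S))`, `S / Q` is elementary abelian and `S ∩ S^x = Q` for `x ∉ H`.
`B = J(S) Q` is an offender on `V = Ω₁(Z(Q))`; for a pair `B, B^x` generating a subgroup of least order,
`B / Q` acts regularly on `C_V(B) / C'` (where `C' = C_V(B) ∩ C_V(B^x)`), which gives two elements acting as
`S₃` on a section of `V`, thus an element of order `3` inverted modulo `Q`, and a section `S₄`.
-/

set_option autoImplicit false
set_option linter.unusedSectionVars false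
set_option linter.unusedVariables false
set_option linter.style.haveILetI false

namespace Cfsg.Agent.Lib.PGroup.SFourClassTwo

open Cfsg Subgroup
open Cfsg.Agent.Lib.Basic.PCore
open Cfsg.Agent.Lib.Solvable.PSeries
open Cfsg.Agent.Lib.PGroup.ThompsonG
open Cfsg.Agent.Lib.PGroup.SFourFree
open scoped commutatorElement

universe u

section action

variable {G : Type*} [Group G] [Finite G]

/-- A `2`-element acting on a nontrivial elementary abelian `2`-group has a nontrivial fixed point. -/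
theorem exists_fixed {W : Subgroup G} (hW2 : ∀ w ∈ W, w * w = 1) (hWc : ∀ a ∈ W, ∀ b ∈ W, a * b = b * a) :
    ∀ (k : ℕ) (t : G), t ^ (2 ^ k) = 1 → (∀ w ∈ W, t * w * t⁻¹ ∈ W) → ∀ w0 ∈ W, w0 ≠ 1 →
      ∃ w ∈ W, w ≠ 1 ∧ t * w * t⁻¹ = w := by
  intro k
  induction k with
  | zero =>
    intro t ht _ w0 hw0 hw01
    have ht1 : t = 1 := by simpa using ht
    exact ⟨w0, hw0, hw01, by simp [ht1]⟩
  | succ k ih =>
    intro t ht hinv w0 hw0 hw01
    have ht2 : (t * t) ^ (2 ^ k) = 1 := by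
      rw [← pow_two, ← pow_mul, ← pow_succ']
      exact ht
    have hinv2 : ∀ w ∈ W, (t * t) * w * (t * t)⁻¹ ∈ W := by
      intro w hw
      have h := hinv _ (hinv w hw)
      have e : (t * t) * w * (t * t)⁻¹ = t * (t * w * t⁻¹) * t⁻¹ := by group
      rw [e]; exact h
    obtain ⟨w, hw, hw1, hwf⟩ := ih (t * t) ht2 hinv2 w0 hw0 hw01
    have hwi : w⁻¹ = w := inv_eq_of_mul_eq_one_left (hW2 w hw)
    by_cases h : w * (t * w * t⁻¹) = 1
    · refine ⟨w, hw, hw1, ?_⟩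
      have : t * w * t⁻¹ = w⁻¹ := eq_inv_of_mul_eq_one_right h
      rw [this, hwi]
    · refine ⟨_, W.mul_mem hw (hinv w hw), h, ?_⟩
      have e1 : t * (t * w * t⁻¹) * t⁻¹ = w := by
        have e : t * (t * w * t⁻¹) * t⁻¹ = (t * t) * w * (t * t)⁻¹ := by group
        rw [e, hwf]
      calc t * (w * (t * w * t⁻¹)) * t⁻¹ = (t * w * t⁻¹) * (t * (t * w * t⁻¹) * t⁻¹) := by group
        _ = (t * w * t⁻¹) * w := by rw [e1]
        _ = w * (t * w * t⁻¹) := hWc _ (hinv w hw) _ hw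

/-- An element `y` with `y³ = 1` moving `V`, and a `2`-element `t` acting on `V` so as to invert the
action of `y`, give a section `S₄`. -/
theorem involves_of_action {V : Subgroup G} [hVn : V.Normal] (hV : IsElementaryAbelian 2 V) {y t : G}
    (hy3 : y * y * y = 1) {v0 : G} (hv0 : v0 ∈ V) (hv0y : y * v0 * y⁻¹ ≠ v0)
    (hinv : ∀ w ∈ V, t * (y * w * y⁻¹) * t⁻¹ = y⁻¹ * (t * w * t⁻¹) * y) {k : ℕ}
    (htk : t ^ (2 ^ k) = 1) : Involves (Equiv.Perm (Fin 4)) G := by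
  classical
  have hc : ∀ a ∈ V, ∀ b ∈ V, a * b = b * a := fun a ha b hb => ea_comm hV ha hb
  have h2 : ∀ a ∈ V, a * a = 1 := fun a ha => by
    have := hV.2 a ha
    rwa [pow_two] at this
  have hyi : y⁻¹ = y * y := (eq_inv_of_mul_eq_one_left hy3).symm
  have hφV : ∀ w ∈ V, y * w * y⁻¹ ∈ V := fun w hw => hVn.conj_mem w hw y
  have hφ3 : ∀ w : G, y * (y * (y * w * y⁻¹) * y⁻¹) * y⁻¹ = w := by
    intro w
    have e : y * (y * (y * w * y⁻¹) * y⁻¹) * y⁻¹ = (y * y * y) * w * (y * y * y)⁻¹ := by group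
    rw [e, hy3]; group
  have hφi : ∀ w : G, y⁻¹ * w * y = y * (y * w * y⁻¹) * y⁻¹ := by
    intro w
    have e : y * (y * w * y⁻¹) * y⁻¹ = (y * y) * w * (y * y)⁻¹ := by group
    rw [e, ← hyi, inv_inv]
  -- the kernel of the norm
  let W : Subgroup G :=
    { carrier := {w | w ∈ V ∧ w * (y * w * y⁻¹) * (y * (y * w * y⁻¹) * y⁻¹) = 1}
      one_mem' := ⟨V.one_mem, by simp⟩
      mul_mem' := by
        rintro a b ⟨ha, ha1⟩ ⟨hb, hb1⟩
        refine ⟨V.mul_mem ha hb, ?_⟩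
        have e1 : y * (a * b) * y⁻¹ = (y * a * y⁻¹) * (y * b * y⁻¹) := by group
        have e2 : y * ((y * a * y⁻¹) * (y * b * y⁻¹)) * y⁻¹ =
            (y * (y * a * y⁻¹) * y⁻¹) * (y * (y * b * y⁻¹) * y⁻¹) := by group
        rw [e1, e2]
        set a1 := y * a * y⁻¹ with ha1d
        set b1 := y * b * y⁻¹ with hb1d
        set a2 := y * a1 * y⁻¹ with ha2d
        set b2 := y * b1 * y⁻¹ with hb2d
        have ha1V : a1 ∈ V := hφV a ha
        have hb1V : b1 ∈ V := hφV b hb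
        have ha2V : a2 ∈ V := hφV a1 ha1V
        have hb2V : b2 ∈ V := hφV b1 hb1V
        calc a * b * (a1 * b1) * (a2 * b2) = a * (b * a1) * b1 * a2 * b2 := by group
          _ = a * (a1 * b) * b1 * a2 * b2 := by rw [hc b hb a1 ha1V]
          _ = a * a1 * ((b * b1) * a2) * b2 := by group
          _ = a * a1 * (a2 * (b * b1)) * b2 := by rw [hc _ (V.mul_mem hb hb1V) a2 ha2V]
          _ = (a * a1 * a2) * (b * b1 * b2) := by group
          _ = 1 := by rw [ha1, hb1, one_mul]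
      inv_mem' := by
        rintro a ⟨ha, ha1⟩
        refine ⟨V.inv_mem ha, ?_⟩
        have e0 : ∀ z : G, y * z⁻¹ * y⁻¹ = (y * z * y⁻¹)⁻¹ := fun z => by group
        rw [e0, e0]
        have hi : ∀ z ∈ V, z⁻¹ = z := fun z hz => inv_eq_of_mul_eq_one_left (h2 z hz)
        rw [hi a ha, hi _ (hφV a ha), hi _ (hφV _ (hφV a ha))]
        exact ha1 }
  have hW : ∀ w ∈ W, w ∈ V ∧ w * (y * w * y⁻¹) * (y * (y * w * y⁻¹) * y⁻¹) = 1 := fun w hw => hw
  -- a nontrivial element of `W`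
  set w0 := v0 * (y * v0 * y⁻¹) with hw0d
  have hw0W : w0 ∈ W := by
    refine ⟨V.mul_mem hv0 (hφV v0 hv0), ?_⟩
    have e1 : y * w0 * y⁻¹ = (y * v0 * y⁻¹) * (y * (y * v0 * y⁻¹) * y⁻¹) := by rw [hw0d]; group
    have e2 : y * (y * w0 * y⁻¹) * y⁻¹ = (y * (y * v0 * y⁻¹) * y⁻¹) * v0 := by
      rw [e1]
      calc y * ((y * v0 * y⁻¹) * (y * (y * v0 * y⁻¹) * y⁻¹)) * y⁻¹
          = (y * (y * v0 * y⁻¹) * y⁻¹) * (y * (y * (y * v0 * y⁻¹) * y⁻¹) * y⁻¹) := by group
        _ = _ := by rw [hφ3]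
    rw [e2, e1, hw0d]
    set a1 := y * v0 * y⁻¹ with ha1d
    set a2 := y * a1 * y⁻¹ with ha2d
    have ha1V : a1 ∈ V := hφV v0 hv0
    have ha2V : a2 ∈ V := hφV a1 ha1V
    calc v0 * a1 * (a1 * a2) * (a2 * v0) = v0 * (a1 * a1) * (a2 * a2) * v0 := by group
      _ = v0 * v0 := by rw [h2 a1 ha1V, h2 a2 ha2V]; group
      _ = 1 := h2 v0 hv0
  have hw01 : w0 ≠ 1 := by
    intro h
    apply hv0y
    have : y * v0 * y⁻¹ = v0⁻¹ := eq_inv_of_mul_eq_one_right h
    rw [this]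
    exact inv_eq_of_mul_eq_one_left (h2 v0 hv0)
  -- invariance under `t`
  have htV : ∀ w ∈ V, t * w * t⁻¹ ∈ V := fun w hw => hVn.conj_mem w hw t
  have htW : ∀ w ∈ W, t * w * t⁻¹ ∈ W := by
    rintro w ⟨hw, hw1⟩
    refine ⟨htV w hw, ?_⟩
    set w' := t * w * t⁻¹ with hw'
    have e1 : t * (y * w * y⁻¹) * t⁻¹ = y * (y * w' * y⁻¹) * y⁻¹ := by
      rw [hinv w hw, hφi]
    have e2 : t * (y * (y * w * y⁻¹) * y⁻¹) * t⁻¹ = y * w' * y⁻¹ := by
      rw [hinv _ (hφV w hw), e1, hφi, hφ3]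
    have h3 : w' * (y * (y * w' * y⁻¹) * y⁻¹) * (y * w' * y⁻¹) = 1 := by
      have this : t * (w * (y * w * y⁻¹) * (y * (y * w * y⁻¹) * y⁻¹)) * t⁻¹ = 1 := by
        rw [hw1]; group
      calc w' * (y * (y * w' * y⁻¹) * y⁻¹) * (y * w' * y⁻¹)
          = t * (w * (y * w * y⁻¹) * (y * (y * w * y⁻¹) * y⁻¹)) * t⁻¹ := by
            rw [← e1, ← e2, hw']; group
        _ = 1 := this
    calc w' * (y * w' * y⁻¹) * (y * (y * w' * y⁻¹) * y⁻¹)
        = w' * ((y * w' * y⁻¹) * (y * (y * w' * y⁻¹) * y⁻¹)) := by group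
      _ = w' * ((y * (y * w' * y⁻¹) * y⁻¹) * (y * w' * y⁻¹)) := by
          rw [hc _ (hφV _ (htV w hw)) _ (hφV _ (hφV _ (htV w hw)))]
      _ = _ := by rw [← mul_assoc]; exact h3
  obtain ⟨w, hwW, hw1, hwt⟩ := exists_fixed (W := W) (fun a ha => h2 a ha.1)
    (fun a ha b hb => hc a ha.1 b hb.1) k t htk htW w0 hw0W hw01
  have hwV : w ∈ V := hwW.1
  have hwN := hwW.2
  set f := y * w * y⁻¹ with hf
  have hfV : f ∈ V := hφV w hwV
  have hf1 : f ≠ 1 := by
    intro h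
    apply hw1
    have : w = y⁻¹ * f * y := by rw [hf]; group
    rw [this, h]; group
  have hne : w ≠ f := by
    intro h
    apply hw1
    have e : y * f * y⁻¹ = w := by
      rw [← h]; exact hf.symm.trans h.symm
    rw [e, ← h, h2 w hwV, one_mul] at hwN
    exact hwN
  have hφ2 : y * f * y⁻¹ = w * f := by
    have h3 : (w * f) * (y * f * y⁻¹) = 1 := hwN
    have h4 : y * f * y⁻¹ = (w * f)⁻¹ := eq_inv_of_mul_eq_one_right h3
    rw [h4, mul_inv_rev, inv_eq_of_mul_eq_one_left (h2 f hfV), inv_eq_of_mul_eq_one_left (h2 w hwV),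
      hc f hfV w hwV]
  have ha2 : t * f * t⁻¹ = w * f := by
    rw [hf, hinv w hwV, hwt, hφi, ← hf, hφ2]
  have hb1 : (y * t * y⁻¹) * f * (y * t * y⁻¹)⁻¹ = f := by
    have e : (y * t * y⁻¹) * f * (y * t * y⁻¹)⁻¹ = y * (t * (y⁻¹ * f * y) * t⁻¹) * y⁻¹ := by group
    have e2 : y⁻¹ * f * y = w := by rw [hf]; group
    rw [e, e2, hwt]
  have hb2 : (y * t * y⁻¹) * w * (y * t * y⁻¹)⁻¹ = w * f := by
    have e : (y * t * y⁻¹) * w * (y * t * y⁻¹)⁻¹ = y * (t * (y⁻¹ * w * y) * t⁻¹) * y⁻¹ := by group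
    have e2 : y⁻¹ * w * y = w * f := by rw [hφi, ← hf, hφ2]
    have e3 : t * (w * f) * t⁻¹ = f := by
      calc t * (w * f) * t⁻¹ = (t * w * t⁻¹) * (t * f * t⁻¹) := by group
        _ = w * (w * f) := by rw [hwt, ha2]
        _ = (w * w) * f := by group
        _ = f := by rw [h2 w hwV, one_mul]
    rw [e, e2, e3, hφ2]
  exact Cfsg.Agent.Lib.PGroup.WeakClosureSFour.involves_of_two (h2 w hwV) (h2 f hfV) (hc w hwV f hfV) hw1 hf1 hne
    hwt ha2 hb1 hb2

end action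

section general

variable {G : Type*} [Group G] [Finite G]

/-- The conjugate `g K g⁻¹`. -/
def cj (g : G) (K : Subgroup G) : Subgroup G := K.map (MulAut.conj g).toMonoidHom

theorem mem_cj {g a : G} {K : Subgroup G} : a ∈ cj g K ↔ g⁻¹ * a * g ∈ K := by
  constructor
  · rintro ⟨k, hk, rfl⟩
    simpa [mul_assoc] using hk
  · intro h
    exact ⟨_, h, by simp [mul_assoc]⟩

theorem conj_mem_cj {g a : G} {K : Subgroup G} (h : a ∈ K) : g * a * g⁻¹ ∈ cj g K :=
  ⟨a, h, rfl⟩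

theorem cj_mono {g : G} {K L : Subgroup G} (h : K ≤ L) : cj g K ≤ cj g L := Subgroup.map_mono h

theorem card_cj (g : G) (K : Subgroup G) : Nat.card (cj g K) = Nat.card K := card_map_conj g K

theorem cj_mul (g h : G) (K : Subgroup G) : cj (g * h) K = cj g (cj h K) := by
  ext a
  simp only [mem_cj, mul_inv_rev]
  constructor <;> intro h' <;> simpa [mul_assoc] using h'

theorem cj_sup (g : G) (K L : Subgroup G) : cj g (K ⊔ L) = cj g K ⊔ cj g L := Subgroup.map_sup _ _ _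

theorem cj_normal (g : G) {K : Subgroup G} [hK : K.Normal] : cj g K = K := by
  ext a
  rw [mem_cj]
  constructor
  · intro h
    have := hK.conj_mem _ h g
    simpa [mul_assoc] using this
  · intro h
    have := hK.conj_mem _ h g⁻¹
    simpa [mul_assoc] using this

theorem cj_inv_cj (g : G) (K : Subgroup G) : cj g⁻¹ (cj g K) = K := by
  rw [← cj_mul, inv_mul_cancel]
  ext a
  simp [mem_cj]

/-- The class condition. -/
def Cl (P : Subgroup G) : Prop := ∀ x ∈ P, ∀ y ∈ P, ∀ z ∈ P, ⁅⁅x, y⁆, z⁆ = 1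

theorem Cl.cj {P : Subgroup G} (hP : Cl P) (g : G) : Cl (cj g P) := by
  rintro _ ⟨a, ha, rfl⟩ _ ⟨b, hb, rfl⟩ _ ⟨c, hc, rfl⟩
  rw [← map_commutatorElement, ← map_commutatorElement, hP a ha b hb c hc, map_one]

theorem delta_comm {P : Subgroup G} (hP : Cl P) {s v t : G} (hs : s ∈ P) (hv : v ∈ P) (ht : t ∈ P) :
    (s * v * s⁻¹ * v⁻¹) * t = t * (s * v * s⁻¹ * v⁻¹) := by
  have h := hP s hs v hv t ht
  rw [commutatorElement_eq_one_iff_mul_comm, commutatorElement_def] at h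
  exact h

local notation "QQ" => pCore 2 G
local notation "VV" => vQ (pCore 2 G)

theorem le_tQ {P : Subgroup G} (hP : Cl P) (hQP : QQ ≤ P) : P ≤ tQ QQ := by
  intro s hs q hq
  have hQn : (QQ).Normal := pCore_normal 2 G
  refine ⟨(pCore 2 G).mul_mem ((pCore 2 G).inv_mem hq) (hQn.conj_mem q hq s), Subgroup.mem_centralizer_iff.mpr fun q₂ hq₂ => ?_⟩
  have h1 := hP q⁻¹ (hQP ((pCore 2 G).inv_mem hq)) s hs q₂ (hQP hq₂)
  have h2 : ⁅q⁻¹, s⁆ = q⁻¹ * (s * q * s⁻¹) := by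
    rw [commutatorElement_def]; group
  rw [h2, commutatorElement_eq_one_iff_mul_comm] at h1
  exact h1.symm

theorem V_two {v : G} (hv : v ∈ VV) : v * v = 1 := by
  have := hv.2
  rwa [pow_two] at this

theorem V_comm {a b : G} (ha : a ∈ VV) (hb : b ∈ VV) : a * b = b * a :=
  ea_comm (vQ_ea (pCore 2 G)) ha hb

theorem V_conj {v : G} (hv : v ∈ VV) (g : G) : g * v * g⁻¹ ∈ VV :=
  (vQ_normal (pCore 2 G)).conj_mem v hv g

theorem V_le : VV ≤ QQ := vQ_le _

theorem Q_comm_V {q v : G} (hq : q ∈ QQ) (hv : v ∈ VV) : q * v = v * q :=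
  (mem_zQ_comm hv.1 hq).symm

/-- The largest normal `2`-subgroup contains `t ∩ C(V)`. -/
theorem inf_le_Q (hCQ : centralizer (QQ : Set G) ≤ QQ) : tQ QQ ⊓ centralizer (VV : Set G) ≤ QQ := by
  have hn : (tQ QQ ⊓ centralizer (VV : Set G)).Normal := inferInstance
  refine le_pCore hn ?_
  rintro ⟨x, hxT, hxV⟩
  have hQp : IsPGroup 2 (QQ) := pCore_isPGroup 2
  have ho : orderOf x ≠ 0 := (orderOf_pos x).ne'
  obtain ⟨e, r, hr, hn⟩ := Nat.exists_eq_two_pow_mul_odd ho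
  have hy : (x ^ (2 ^ e)) ^ r = 1 := by
    rw [← pow_mul, ← hn, pow_orderOf_eq_one]
  have hrc : Nat.Coprime r 2 := Nat.coprime_two_right.mpr hr
  have hyQ : x ^ (2 ^ e) ∈ QQ :=
    hCQ (mem_centralizer_of_tQ hQp ((tQ QQ).pow_mem hxT _) hrc hy (Subgroup.pow_mem _ hxV _))
  obtain ⟨k, hk⟩ := hQp ⟨_, hyQ⟩
  have hk' : (x ^ (2 ^ e)) ^ (2 ^ k) = 1 := congrArg Subtype.val hk
  have h1 : x ^ (2 ^ e) = 1 := by
    have := Nat.dvd_gcd (orderOf_dvd_of_pow_eq_one hy) (orderOf_dvd_of_pow_eq_one hk')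
    rwa [(Nat.Coprime.pow_right k hrc).gcd_eq_one, Nat.dvd_one, orderOf_eq_one_iff] at this
  exact ⟨e, Subtype.ext h1⟩


/-- Squares of elements of `P` lie in `Q`. -/
theorem sq_mem {P : Subgroup G} (hP : Cl P) (hQP : QQ ≤ P) (hCQ : centralizer (QQ : Set G) ≤ QQ) {s : G}
    (hs : s ∈ P) : s * s ∈ QQ := by
  apply inf_le_Q hCQ
  refine ⟨(tQ QQ).mul_mem (le_tQ hP hQP hs) (le_tQ hP hQP hs), Subgroup.mem_centralizer_iff.mpr fun v hv => ?_⟩
  have hvP : v ∈ P := hQP (V_le hv)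
  set c := s * v * s⁻¹ * v⁻¹ with hc
  have hcV : c ∈ VV := (VV).mul_mem (V_conj hv s) ((VV).inv_mem hv)
  have h1 : s * v * s⁻¹ = c * v := by rw [hc]; group
  have h2 : s * c * s⁻¹ = c := by
    have := delta_comm hP hs hvP hs
    rw [← hc] at this
    rw [← this]; group
  have h3 : (s * s) * v * (s * s)⁻¹ = v := by
    calc (s * s) * v * (s * s)⁻¹ = s * (s * v * s⁻¹) * s⁻¹ := by group
      _ = s * (c * v) * s⁻¹ := by rw [h1]
      _ = (s * c * s⁻¹) * (s * v * s⁻¹) := by group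
      _ = (c * c) * v := by rw [h2, h1]; group
      _ = v := by rw [V_two hcV, one_mul]
  calc v * (s * s) = ((s * s) * v * (s * s)⁻¹) * (s * s) := by rw [h3]
    _ = (s * s) * v := by group

/-- Commutators of elements of `P` lie in `Q`. -/
theorem comm_mem {P : Subgroup G} (hP : Cl P) (hQP : QQ ≤ P) (hCQ : centralizer (QQ : Set G) ≤ QQ) {s t : G}
    (hs : s ∈ P) (ht : t ∈ P) : s * t * s⁻¹ * t⁻¹ ∈ QQ := by
  apply inf_le_Q hCQ
  have hsT := le_tQ hP hQP hs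
  have htT := le_tQ hP hQP ht
  refine ⟨(tQ QQ).mul_mem ((tQ QQ).mul_mem ((tQ QQ).mul_mem hsT htT) ((tQ QQ).inv_mem hsT)) ((tQ QQ).inv_mem htT),
    Subgroup.mem_centralizer_iff.mpr fun v hv => ?_⟩
  have key : ∀ a ∈ P, ∀ b ∈ P, ∀ w ∈ VV, (a * b) * w * (a * b)⁻¹ =
      (b * w * b⁻¹ * w⁻¹) * (a * w * a⁻¹ * w⁻¹) * w := by
    intro a ha b hb w hw
    have hwP : w ∈ P := hQP (V_le hw)
    have h1 : b * w * b⁻¹ = (b * w * b⁻¹ * w⁻¹) * w := by group
    have h2 : a * (b * w * b⁻¹ * w⁻¹) * a⁻¹ = b * w * b⁻¹ * w⁻¹ := by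
      have := delta_comm hP hb hwP ha
      rw [← this]; group
    calc (a * b) * w * (a * b)⁻¹ = a * (b * w * b⁻¹) * a⁻¹ := by group
      _ = a * ((b * w * b⁻¹ * w⁻¹) * w) * a⁻¹ := by rw [← h1]
      _ = (a * (b * w * b⁻¹ * w⁻¹) * a⁻¹) * (a * w * a⁻¹) := by group
      _ = (b * w * b⁻¹ * w⁻¹) * (a * w * a⁻¹) := by rw [h2]
      _ = _ := by group
  -- the two orders agree on `V`
  have hsym : ∀ w ∈ VV, (s * t) * w * (s * t)⁻¹ = (t * s) * w * (t * s)⁻¹ := by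
    intro w hw
    rw [key s hs t ht w hw, key t ht s hs w hw]
    rw [V_comm ((VV).mul_mem (V_conj hw t) ((VV).inv_mem hw)) ((VV).mul_mem (V_conj hw s) ((VV).inv_mem hw))]
  have hv' : (t * s)⁻¹ * v * (t * s) ∈ VV := by
    have := V_conj hv (t * s)⁻¹
    simpa using this
  have h1 := hsym _ hv'
  have h2 : (t * s) * ((t * s)⁻¹ * v * (t * s)) * (t * s)⁻¹ = v := by group
  rw [h2] at h1
  have h3 : (s * t * s⁻¹ * t⁻¹) * v * (s * t * s⁻¹ * t⁻¹)⁻¹ = v := by
    calc (s * t * s⁻¹ * t⁻¹) * v * (s * t * s⁻¹ * t⁻¹)⁻¹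
        = (s * t) * ((t * s)⁻¹ * v * (t * s)) * (s * t)⁻¹ := by group
      _ = v := h1
  calc v * (s * t * s⁻¹ * t⁻¹) = ((s * t * s⁻¹ * t⁻¹) * v * (s * t * s⁻¹ * t⁻¹)⁻¹) * (s * t * s⁻¹ * t⁻¹) := by rw [h3]
    _ = (s * t * s⁻¹ * t⁻¹) * v := by group

/-- Subgroups between `Q` and `P` are normal in `P`. -/
theorem le_normalizer_between {P D : Subgroup G} (hP : Cl P) (hQP : QQ ≤ P)
    (hCQ : centralizer (QQ : Set G) ≤ QQ) (hQD : QQ ≤ D) (hDP : D ≤ P) :
    P ≤ normalizer (D : Set G) := by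
  intro s hs
  apply Cfsg.Agent.Lib.PGroup.SFourSection.mem_normalizer_of_forall_conj
  intro d hd
  have h := comm_mem hP hQP hCQ hs (hDP hd)
  have e : s * d * s⁻¹ = (s * d * s⁻¹ * d⁻¹) * d := by group
  rw [e]
  exact D.mul_mem (hQD h) hd

/-- A `2`-subgroup of `K ≥ S` lies in a `K`-conjugate of `S`. -/
theorem le_cj_of_pgroup (S : Sylow 2 G) {K T : Subgroup G} (hSK : (S : Subgroup G) ≤ K) (hTK : T ≤ K)
    (hT : IsPGroup 2 T) : ∃ h ∈ K, T ≤ cj h (S : Subgroup G) := by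
  have hT' : IsPGroup 2 (T.subgroupOf K) := by
    intro x
    obtain ⟨k, hk⟩ := hT ⟨x.1.1, x.2⟩
    have h := congrArg Subtype.val hk
    exact ⟨k, Subtype.ext (Subtype.ext h)⟩
  obtain ⟨P, hP⟩ := hT'.exists_le_sylow
  obtain ⟨h, hh⟩ := MulAction.exists_smul_eq K (S.subtype hSK) P
  refine ⟨h, h.2, fun t ht => ?_⟩
  have h1 : (⟨t, hTK ht⟩ : K) ∈ (P : Subgroup K) := hP ht
  rw [← hh, Sylow.coe_subgroup_smul, Subgroup.mem_pointwise_smul_iff_inv_smul_mem] at h1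
  rw [mem_cj]
  have h2 : (MulAut.conj h)⁻¹ • (⟨t, hTK ht⟩ : K) ∈ (S.subtype hSK : Subgroup K) := h1
  rw [Sylow.coe_subtype, Subgroup.mem_subgroupOf] at h2
  simpa [MulAut.smul_def, MulAut.conj_apply, mul_assoc] using h2

/-- `V ∩ C(E)`. -/
abbrev cV (V E : Subgroup G) : Subgroup G := V ⊓ centralizer (E : Set G)

theorem mem_cV {V E : Subgroup G} {v : G} : v ∈ cV V E ↔ v ∈ V ∧ ∀ e ∈ E, e * v = v * e := by
  rw [Subgroup.mem_inf, Subgroup.mem_centralizer_iff]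
  rfl

theorem cV_anti {V E F : Subgroup G} (h : E ≤ F) : cV V F ≤ cV V E := by
  intro v hv
  rw [mem_cV] at hv ⊢
  exact ⟨hv.1, fun e he => hv.2 e (h he)⟩

theorem cV_sup (V E F : Subgroup G) : cV V (E ⊔ F) = cV V E ⊓ cV V F := by
  apply le_antisymm
  · exact le_inf (cV_anti le_sup_left) (cV_anti le_sup_right)
  · intro v hv
    rw [mem_cV]
    refine ⟨hv.1.1, fun e he => ?_⟩
    have h1 : E ⊔ F ≤ centralizer ({v} : Set G) := by
      refine sup_le ?_ ?_
      · intro a ha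
        rw [Subgroup.mem_centralizer_iff]
        rintro _ rfl
        exact ((mem_cV.mp hv.1).2 a ha).symm
      · intro a ha
        rw [Subgroup.mem_centralizer_iff]
        rintro _ rfl
        exact ((mem_cV.mp hv.2).2 a ha).symm
    exact (Subgroup.mem_centralizer_iff.mp (h1 he) v rfl).symm

theorem cj_cV {V : Subgroup G} [hV : V.Normal] (g : G) (E : Subgroup G) : cj g (cV V E) = cV V (cj g E) := by
  ext a
  rw [mem_cj, mem_cV, mem_cV]
  constructor
  · rintro ⟨h1, h2⟩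
    refine ⟨?_, ?_⟩
    · have := hV.conj_mem _ h1 g
      simpa [mul_assoc] using this
    · rintro _ ⟨e, he, rfl⟩
      have := h2 e he
      show g * e * g⁻¹ * a = a * (g * e * g⁻¹)
      have e1 : g * e * g⁻¹ * a = g * (e * (g⁻¹ * a * g)) * g⁻¹ := by group
      rw [e1, this]; group
  · rintro ⟨h1, h2⟩
    refine ⟨hV.conj_mem _ h1 g⁻¹ |> (fun h => by simpa using h), fun e he => ?_⟩
    have := h2 _ (conj_mem_cj (g := g) he)
    have e1 : e * (g⁻¹ * a * g) = g⁻¹ * ((g * e * g⁻¹) * a) * g := by group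
    rw [e1, this]; group

theorem card_sup_inf_le_of_comm {X Y Z : Subgroup G} (hXZ : X ≤ Z) (hYZ : Y ≤ Z)
    (hc : ∀ a ∈ Z, ∀ b ∈ Z, a * b = b * a) : Nat.card X * Nat.card Y ≤ Nat.card Z * Nat.card ↥(X ⊓ Y) := by
  have hn : X ≤ normalizer (Y : Set G) := by
    intro x hx
    apply Cfsg.Agent.Lib.PGroup.SFourSection.mem_normalizer_of_forall_conj
    intro y hy
    have : x * y * x⁻¹ = y := by rw [hc x (hXZ hx) y (hYZ hy)]; group
    rw [this]; exact hy
  have e := Cfsg.Agent.Lib.PGroup.Timmesfeld.card_sup_mul_card_inf_of_le_normalizer X Y hn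
  rw [← e]
  exact Nat.mul_le_mul_right _ (Subgroup.card_le_of_le (sup_le hXZ hYZ))

theorem isPGroup_of_two_pow {T : Subgroup G} (h : ∀ g ∈ T, ∃ k : ℕ, g ^ (2 ^ k) = 1) : IsPGroup 2 T := by
  rintro ⟨g, hg⟩
  obtain ⟨k, hk⟩ := h g hg
  exact ⟨k, Subtype.ext hk⟩

theorem isPGroup_zpowers_of_pow {g : G} {k : ℕ} (h : g ^ (2 ^ k) = 1) : IsPGroup 2 (zpowers g) := by
  apply isPGroup_of_two_pow
  rintro _ ⟨n, rfl⟩
  refine ⟨k, ?_⟩
  show (g ^ n) ^ (2 ^ k) = 1
  rw [← zpow_natCast, ← zpow_mul, mul_comm, zpow_mul, zpow_natCast, h, one_zpow]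

end general

section ctx

variable {G : Type*} [Group G] [Finite G] {S : Sylow 2 G}

local notation "QQ" => pCore 2 G
local notation "VV" => vQ (pCore 2 G)
local notation "SS" => (S : Subgroup G)
local notation "JJ" => thompsonSubgroupOf 2 (S : Subgroup G)
local notation "HH" => normalizer ((thompsonSubgroupOf 2 (S : Subgroup G)) : Set G)
local notation "BB" => (thompsonSubgroupOf 2 (S : Subgroup G) ⊔ pCore 2 G : Subgroup G)

/-- The situation of a minimal counterexample. -/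
structure Ctx (S : Sylow 2 G) : Prop where
  hcl : Cl (S : Subgroup G)
  hCQ : centralizer ((pCore 2 G : Subgroup G) : Set G) ≤ pCore 2 G
  hS4 : ¬ Involves (Equiv.Perm (Fin 4)) G
  hprop : ∀ M : Subgroup G, (S : Subgroup G) ≤ M → M ≠ ⊤ →
    M ≤ normalizer ((thompsonSubgroupOf 2 (S : Subgroup G)) : Set G)
  hJ : ¬ thompsonSubgroupOf 2 (S : Subgroup G) ≤ pCore 2 G

theorem Q_le_S : QQ ≤ SS := pCore_le_sylow S

theorem Q_le_cj (x : G) : QQ ≤ cj x SS := by
  intro q hq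
  rw [mem_cj]
  apply Q_le_S
  have := (pCore_normal 2 G).conj_mem q hq x⁻¹
  simpa using this

theorem S_le_H : SS ≤ HH :=
  Subgroup.le_normalizer.trans (normalizer_le_normalizer_thompson (p := 2) SS)

theorem isPGroup_cj (x : G) : IsPGroup 2 (cj x SS) := S.isPGroup'.map _

theorem H_ne_top (c : Ctx S) : HH ≠ ⊤ := by
  intro h
  apply c.hJ
  have hn : (JJ).Normal := Subgroup.normalizer_eq_top_iff.mp h
  exact le_pCore hn (S.isPGroup'.to_le (thompsonSubgroupOf_le_self _))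

theorem cj_S_le_H {z : G} (hz : z ∈ HH) : cj z SS ≤ HH := by
  intro a ha
  rw [mem_cj] at ha
  have h := S_le_H ha
  have e : a = z * (z⁻¹ * a * z) * z⁻¹ := by group
  rw [e]
  exact (HH).mul_mem ((HH).mul_mem hz h) ((HH).inv_mem hz)

/-- Sylow subgroups not conjugate under `H` meet in `Q`. -/
theorem ti (c : Ctx S) {x s : G} (hx : x ∉ HH) (hs : s ∈ SS) (hs' : s ∈ cj x SS) : s ∈ QQ := by
  set D := SS ⊓ cj x SS with hD
  have hQD : QQ ≤ D := le_inf Q_le_S (Q_le_cj x)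
  have h1 : SS ≤ normalizer (D : Set G) := le_normalizer_between c.hcl Q_le_S c.hCQ hQD inf_le_left
  have h2 : cj x SS ≤ normalizer (D : Set G) :=
    le_normalizer_between (c.hcl.cj x) (Q_le_cj x) c.hCQ hQD inf_le_right
  by_cases htop : normalizer (D : Set G) = ⊤
  · have hn : D.Normal := Subgroup.normalizer_eq_top_iff.mp htop
    exact le_pCore hn (S.isPGroup'.to_le inf_le_left) ⟨hs, hs'⟩
  · exfalso
    have h3 := c.hprop _ h1 htop
    obtain ⟨h, hh, hle⟩ := le_cj_of_pgroup S S_le_H (h2.trans h3) (isPGroup_cj x)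
    apply hx
    have hg : h⁻¹ * x ∈ HH := by
      have : h⁻¹ * x ∈ normalizer (SS : Set G) := by
        apply Cfsg.Agent.Lib.PGroup.SFourSection.mem_normalizer_of_forall_conj
        intro s hs
        have h4 : x * s * x⁻¹ ∈ cj h SS := hle (conj_mem_cj hs)
        rw [mem_cj] at h4
        have e : (h⁻¹ * x) * s * (h⁻¹ * x)⁻¹ = h⁻¹ * (x * s * x⁻¹) * h := by group
        rw [e]; exact h4
      exact normalizer_le_normalizer_thompson (p := 2) _ this
    have e : x = h * (h⁻¹ * x) := by group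
    rw [e]
    exact (HH).mul_mem hh hg

theorem exists_two_pow {s : G} (hs : s ∈ SS) : ∃ k : ℕ, s ^ (2 ^ k) = 1 := by
  obtain ⟨k, hk⟩ := S.isPGroup' ⟨s, hs⟩
  exact ⟨k, congrArg Subtype.val hk⟩

theorem not_mem_H (c : Ctx S) {x b : G} (hx : x ∉ HH) (hb : b ∈ SS) (hbQ : b ∉ QQ) :
    x⁻¹ * b * x ∉ HH := by
  intro hy
  obtain ⟨k, hk⟩ := exists_two_pow hb
  have hk' : (x⁻¹ * b * x) ^ (2 ^ k) = 1 := by
    have h := conj_pow (a := x⁻¹) (b := b) (i := 2 ^ k)
    rw [inv_inv, hk] at h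
    rw [h]; group
  have hT : zpowers (x⁻¹ * b * x) ≤ HH := (Subgroup.zpowers_le).mpr hy
  obtain ⟨h, hh, hle⟩ := le_cj_of_pgroup S S_le_H hT (isPGroup_zpowers_of_pow hk')
  have hmem : x⁻¹ * b * x ∈ cj h SS := hle (mem_zpowers _)
  have hxh : x * h ∉ HH := fun hxh => hx (by
    have := (HH).mul_mem hxh ((HH).inv_mem hh)
    simpa using this)
  apply hbQ
  refine ti c hxh hb ?_
  rw [mem_cj] at hmem ⊢
  have e : (x * h)⁻¹ * b * (x * h) = h⁻¹ * (x⁻¹ * b * x) * h := by group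
  rw [e]; exact hmem

theorem not_mem_H' (c : Ctx S) {x b : G} (hx : x ∉ HH) (hb : b ∈ SS) (hbQ : b ∉ QQ) :
    x * b * x⁻¹ ∉ HH := by
  have hx' : x⁻¹ ∉ HH := fun h => hx (by simpa using (HH).inv_mem h)
  have := not_mem_H c hx' hb hbQ
  simpa using this

theorem Q_le_B : QQ ≤ BB := le_sup_right

theorem B_le_S : BB ≤ SS := sup_le (thompsonSubgroupOf_le_self _) Q_le_S

theorem exists_b (c : Ctx S) : ∃ b ∈ BB, b ∉ QQ := by
  by_contra h
  push Not at h
  exact c.hJ ((le_sup_left : JJ ≤ BB).trans h)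

theorem cV_eq_of_sup {D A : Subgroup G} (hD : QQ ≤ D) (hDA : D ≤ A ⊔ QQ) :
    cV VV D = cV VV (D ⊓ A) := by
  apply le_antisymm (cV_anti inf_le_left)
  intro v hv
  rw [mem_cV] at hv ⊢
  refine ⟨hv.1, fun d hd => ?_⟩
  have h1 : d ∈ ((A ⊔ QQ : Subgroup G) : Set G) := hDA hd
  rw [Subgroup.mul_normal] at h1
  obtain ⟨a, ha, q, hq, rfl⟩ := h1
  have haD : a ∈ D := by
    have e : a = (a * q) * q⁻¹ := by group
    rw [e]
    exact D.mul_mem hd (D.inv_mem (hD hq))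
  have h2 := hv.2 a ⟨haD, ha⟩
  have h3 := Q_comm_V hq hv.1
  show a * q * v = v * (a * q)
  rw [mul_assoc, h3, ← mul_assoc, h2, mul_assoc]

theorem card_between {D A : Subgroup G} (hD : QQ ≤ D) (hDA : D ≤ A ⊔ QQ) :
    Nat.card D * Nat.card ↥(A ⊓ QQ) = Nat.card ↥(D ⊓ A) * Nat.card QQ := by
  have hn : (D ⊓ A) ≤ normalizer ((QQ : Subgroup G) : Set G) := by
    rw [Subgroup.normalizer_eq_top_iff.mpr (pCore_normal 2 G)]
    exact le_top
  have e := Cfsg.Agent.Lib.PGroup.Timmesfeld.card_sup_mul_card_inf_of_le_normalizer (D ⊓ A) QQ hn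
  have e1 : (D ⊓ A) ⊔ QQ = D := by
    apply le_antisymm (sup_le inf_le_left hD)
    intro d hd
    have h1 : d ∈ ((A ⊔ QQ : Subgroup G) : Set G) := hDA hd
    rw [Subgroup.mul_normal] at h1
    obtain ⟨a, ha, q, hq, rfl⟩ := h1
    have haD : a ∈ D := by
      have e : a = (a * q) * q⁻¹ := by group
      rw [e]
      exact D.mul_mem hd (D.inv_mem (hD hq))
    exact Subgroup.mul_mem_sup ⟨haD, ha⟩ hq
  have e2 : (D ⊓ A) ⊓ QQ = A ⊓ QQ := by
    ext a
    constructor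
    · rintro ⟨⟨_, h2⟩, h3⟩
      exact ⟨h2, h3⟩
    · rintro ⟨h2, h3⟩
      exact ⟨⟨hD h3, h2⟩, h3⟩
  rw [e1, e2] at e
  exact e

theorem best_of_between {A D : Subgroup G} (hA : A ∈ gMaxEA 2 SS) (hQD : QQ ≤ D) (hDA : D ≤ A ⊔ QQ) :
    Nat.card D * Nat.card ↥(cV VV D) ≤ Nat.card ↥(A ⊔ QQ) * Nat.card ↥(cV VV (A ⊔ QQ)) := by
  have h0 := offender_ineq hA ((V_le (G := G)).trans Q_le_S) (vQ_ea (pCore 2 G)) (inf_le_right : D ⊓ A ≤ A)
  have e1 : cV VV D = cV VV (D ⊓ A) := cV_eq_of_sup hQD hDA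
  have e2 : cV VV (A ⊔ QQ) = cV VV A := by
    have := cV_eq_of_sup (D := A ⊔ QQ) (A := A) le_sup_right le_rfl
    rwa [inf_eq_right.mpr le_sup_left] at this
  have c1 := card_between hQD hDA
  have c2 := card_between (D := A ⊔ QQ) (A := A) le_sup_right le_rfl
  rw [inf_eq_right.mpr (le_sup_left : A ≤ A ⊔ QQ)] at c2
  rw [e1, e2]
  have hpos : 0 < Nat.card ↥(A ⊓ QQ) := Nat.card_pos
  apply Nat.le_of_mul_le_mul_right _ hpos
  calc Nat.card D * Nat.card ↥(cV VV (D ⊓ A)) * Nat.card ↥(A ⊓ QQ)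
      = (Nat.card D * Nat.card ↥(A ⊓ QQ)) * Nat.card ↥(cV VV (D ⊓ A)) := by ring
    _ = (Nat.card ↥(D ⊓ A) * Nat.card QQ) * Nat.card ↥(cV VV (D ⊓ A)) := by rw [c1]
    _ = (Nat.card ↥(cV VV (D ⊓ A)) * Nat.card ↥(D ⊓ A)) * Nat.card QQ := by ring
    _ ≤ (Nat.card A * Nat.card ↥(cV VV A)) * Nat.card QQ := Nat.mul_le_mul_right _ h0
    _ = (Nat.card A * Nat.card QQ) * Nat.card ↥(cV VV A) := by ring
    _ = (Nat.card ↥(A ⊔ QQ) * Nat.card ↥(A ⊓ QQ)) * Nat.card ↥(cV VV A) := by rw [c2]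
    _ = _ := by ring

theorem offender_step (hcl : Cl SS) (hCQ : centralizer ((QQ : Subgroup G) : Set G) ≤ QQ) {A E : Subgroup G}
    (hA : A ∈ gMaxEA 2 SS) (hQE : QQ ≤ E) (hES : E ≤ SS) :
    Nat.card E * Nat.card ↥(cV VV E) ≤ Nat.card ↥(E ⊔ (A ⊔ QQ)) * Nat.card ↥(cV VV (E ⊔ (A ⊔ QQ))) := by
  set A' := A ⊔ QQ with hA'
  have hA'S : A' ≤ SS := sup_le hA.1 Q_le_S
  have hQA' : QQ ≤ A' := le_sup_right
  have hbest := best_of_between (D := E ⊓ A') hA (le_inf hQE hQA') inf_le_right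
  rw [← hA'] at hbest
  have hn : E ≤ normalizer (A' : Set G) :=
    hES.trans (le_normalizer_between hcl Q_le_S hCQ hQA' hA'S)
  have hsi := Cfsg.Agent.Lib.PGroup.Timmesfeld.card_sup_mul_card_inf_of_le_normalizer E A' hn
  have hcc := card_sup_inf_le_of_comm (X := cV VV E) (Y := cV VV A') (Z := cV VV (E ⊓ A'))
    (cV_anti inf_le_left) (cV_anti inf_le_right)
    (fun a ha b hb => V_comm ha.1 hb.1)
  rw [cV_sup]
  have hpos : 0 < Nat.card A' * Nat.card ↥(cV VV A') := Nat.mul_pos Nat.card_pos Nat.card_pos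
  apply Nat.le_of_mul_le_mul_right _ hpos
  set e := Nat.card E
  set x := Nat.card ↥(cV VV E)
  set y := Nat.card ↥(cV VV A')
  set u := Nat.card ↥(cV VV (E ⊓ A'))
  set z := Nat.card ↥(cV VV E ⊓ cV VV A')
  set a' := Nat.card A'
  set d := Nat.card ↥(E ⊓ A')
  set w := Nat.card ↥(E ⊔ A')
  calc e * x * (a' * y) = (e * a') * (x * y) := by ring
    _ = (w * d) * (x * y) := by rw [hsi]
    _ ≤ (w * d) * (u * z) := Nat.mul_le_mul_left _ hcc
    _ = (w * z) * (d * u) := by ring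
    _ ≤ (w * z) * (a' * y) := Nat.mul_le_mul_left _ hbest

theorem cV_Q : cV VV QQ = VV := by
  apply inf_eq_left.mpr
  rw [Subgroup.le_centralizer_iff]
  exact le_centralizer_vQ _

/-- The offender inequality for `B = J(S) Q`. -/
theorem offender (hcl : Cl SS) (hCQ : centralizer ((QQ : Subgroup G) : Set G) ≤ QQ) :
    Nat.card VV * Nat.card QQ ≤ Nat.card BB * Nat.card ↥(cV VV BB) := by
  classical
  let 𝔼 : Set (Subgroup G) := {E | QQ ≤ E ∧ E ≤ BB ∧ Nat.card VV * Nat.card QQ ≤ Nat.card E * Nat.card ↥(cV VV E)}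
  have hne : 𝔼.Nonempty := ⟨QQ, le_rfl, Q_le_B, by rw [cV_Q, mul_comm]⟩
  obtain ⟨E, ⟨hQE, hEB, hEc⟩, hEmax⟩ := Set.exists_max_image 𝔼 (fun E => Nat.card E) (Set.toFinite _) hne
  have hES : E ≤ SS := hEB.trans B_le_S
  have hJE : JJ ≤ E := by
    rw [thompsonSubgroupOf_le_iff]
    intro A hA
    have hAB : A ≤ BB := (le_thompsonSubgroupOf hA).trans le_sup_left
    have hmem : E ⊔ (A ⊔ QQ) ∈ 𝔼 := by
      refine ⟨hQE.trans le_sup_left, sup_le hEB (sup_le hAB Q_le_B), hEc.trans ?_⟩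
      exact offender_step hcl hCQ hA hQE hES
    have h1 : E = E ⊔ (A ⊔ QQ) := Subgroup.eq_of_le_of_card_ge le_sup_left (hEmax _ hmem)
    have h2 : A ≤ E ⊔ (A ⊔ QQ) := (le_sup_left : A ≤ A ⊔ QQ).trans le_sup_right
    exact h2.trans_eq h1.symm
  have hEB' : E = BB := le_antisymm hEB (sup_le hJE hQE)
  rw [← hEB']
  exact hEc

/-- The choice of `x ∉ H` with `⟨B, B^x⟩` of least order. -/
structure Ctx2 (S : Sylow 2 G) (x : G) : Prop extends Ctx S where
  hx : x ∉ normalizer ((thompsonSubgroupOf 2 (S : Subgroup G)) : Set G)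
  hmin : ∀ z, z ∉ normalizer ((thompsonSubgroupOf 2 (S : Subgroup G)) : Set G) →
    Nat.card ↥((thompsonSubgroupOf 2 (S : Subgroup G) ⊔ pCore 2 G) ⊔
      cj x (thompsonSubgroupOf 2 (S : Subgroup G) ⊔ pCore 2 G)) ≤
    Nat.card ↥((thompsonSubgroupOf 2 (S : Subgroup G) ⊔ pCore 2 G) ⊔
      cj z (thompsonSubgroupOf 2 (S : Subgroup G) ⊔ pCore 2 G))

theorem cj_le_of_mem {Y E : Subgroup G} {g : G} (hg : g ∈ Y) (hE : E ≤ Y) : cj g E ≤ Y := by
  rintro _ ⟨e, he, rfl⟩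
  exact Y.mul_mem (Y.mul_mem hg (hE he)) (Y.inv_mem hg)

theorem cj_sup_cj (x b : G) (B : Subgroup G) :
    cj x B ⊔ cj b (cj x B) = cj x (B ⊔ cj (x⁻¹ * b * x) B) := by
  rw [cj_sup x B, ← cj_mul, ← cj_mul]
  have : x * (x⁻¹ * b * x) = b * x := by group
  rw [this]

variable {x : G}

theorem gen_left (c : Ctx2 S x) {b : G} (hb : b ∈ BB) (hbQ : b ∉ QQ) :
    cj x BB ⊔ cj b (cj x BB) = BB ⊔ cj x BB := by
  apply Subgroup.eq_of_le_of_card_ge
  · exact sup_le le_sup_right (cj_le_of_mem (le_sup_left (a := BB) hb) le_sup_right)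
  · rw [cj_sup_cj, card_cj]
    exact c.hmin _ (not_mem_H c.toCtx c.hx (B_le_S hb) hbQ)

theorem gen_right (c : Ctx2 S x) {b' : G} (hb' : b' ∈ cj x BB) (hb'Q : b' ∉ QQ) :
    BB ⊔ cj b' BB = BB ⊔ cj x BB := by
  apply Subgroup.eq_of_le_of_card_ge
  · exact sup_le le_sup_left (cj_le_of_mem (le_sup_right (b := cj x BB) hb') le_sup_left)
  · have hb0 : x⁻¹ * b' * x ∈ BB := mem_cj.mp hb'
    have hb0Q : x⁻¹ * b' * x ∉ QQ := fun h => hb'Q (by
      have := (pCore_normal 2 G).conj_mem _ h x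
      have e : x * (x⁻¹ * b' * x) * x⁻¹ = b' := by group
      rwa [e] at this)
    have h1 := not_mem_H' c.toCtx c.hx (B_le_S hb0) hb0Q
    have e : x * (x⁻¹ * b' * x) * x⁻¹ = b' := by group
    rw [e] at h1
    exact c.hmin _ h1

/-- If the commutator of `g` and `u` centralizes `⟨E, E^g⟩` and `u` centralizes `E`, then `u` centralizes
`⟨E, E^g⟩`. -/
theorem delta_mem {V E Y : Subgroup G} {g u : G} (hY : E ⊔ cj g E = Y) (hu : u ∈ cV V E)
    (hd : g * u * g⁻¹ * u⁻¹ ∈ cV V Y) : u ∈ cV V Y := by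
  rw [← hY, cV_sup]
  refine ⟨hu, ?_⟩
  show u ∈ cV V (cj g E)
  rw [mem_cV] at hu ⊢
  refine ⟨hu.1, ?_⟩
  rintro _ ⟨e, he, rfl⟩
  have h1 := (mem_cV.mp hd).2 (g * e * g⁻¹) (by
    rw [← hY]
    exact le_sup_right (a := E) (conj_mem_cj he))
  have h2 := hu.2 e he
  set c := g * u * g⁻¹ * u⁻¹ with hc
  have h3 : g * u * g⁻¹ = c * u := by rw [hc]; group
  have h4 : (g * e * g⁻¹) * (g * u * g⁻¹) = (g * u * g⁻¹) * (g * e * g⁻¹) := by
    calc (g * e * g⁻¹) * (g * u * g⁻¹) = g * (e * u) * g⁻¹ := by group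
      _ = g * (u * e) * g⁻¹ := by rw [h2]
      _ = _ := by group
  rw [h3] at h4
  set e' := g * e * g⁻¹ with he'
  show e' * u = u * e'
  have h5 : c * (e' * u) = c * (u * e') := by
    calc c * (e' * u) = (c * e') * u := by group
      _ = (e' * c) * u := by rw [h1]
      _ = e' * (c * u) := by group
      _ = (c * u) * e' := h4
      _ = c * (u * e') := by group
  exact mul_left_cancel h5

theorem delta_cV {P E : Subgroup G} (hP : Cl P) (hQP : QQ ≤ P) (hEP : E ≤ P) {b v : G} (hb : b ∈ P)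
    (hv : v ∈ VV) : b * v * b⁻¹ * v⁻¹ ∈ cV VV E := by
  rw [mem_cV]
  refine ⟨(VV).mul_mem (V_conj hv b) ((VV).inv_mem hv), fun e he => ?_⟩
  exact (delta_comm hP hb (hQP (V_le hv)) (hEP he)).symm

/-- The subgroup of elements acting trivially on `V / C` and on `C`. -/
def wQ (V C : Subgroup G) [hV : V.Normal] : Subgroup G where
  carrier := {g | (∀ v ∈ V, g * v * g⁻¹ * v⁻¹ ∈ C) ∧ ∀ c ∈ C, g * c = c * g}
  one_mem' := ⟨fun v _ => by simp [C.one_mem], fun c _ => by simp⟩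
  mul_mem' := by
    rintro a b ⟨ha1, ha2⟩ ⟨hb1, hb2⟩
    refine ⟨fun v hv => ?_, fun c hc => ?_⟩
    · have e : (a * b) * v * (a * b)⁻¹ * v⁻¹ = (a * (b * v * b⁻¹ * v⁻¹) * a⁻¹) * (a * v * a⁻¹ * v⁻¹) := by group
      have e2 : a * (b * v * b⁻¹ * v⁻¹) * a⁻¹ = b * v * b⁻¹ * v⁻¹ := by
        rw [ha2 _ (hb1 v hv)]; group
      rw [e, e2]
      exact C.mul_mem (hb1 v hv) (ha1 v hv)
    · calc a * b * c = a * (b * c) := by group
        _ = a * (c * b) := by rw [hb2 c hc]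
        _ = (a * c) * b := by group
        _ = (c * a) * b := by rw [ha2 c hc]
        _ = c * (a * b) := by group
  inv_mem' := by
    rintro a ⟨ha1, ha2⟩
    refine ⟨fun v hv => ?_, fun c hc => ?_⟩
    · have hv' : a⁻¹ * v * a ∈ V := by
        have := hV.conj_mem v hv a⁻¹
        simpa using this
      have h := ha1 _ hv'
      have e : a⁻¹ * v * a⁻¹⁻¹ * v⁻¹ = (a * (a⁻¹ * v * a) * a⁻¹ * (a⁻¹ * v * a)⁻¹)⁻¹ := by group
      rw [e]
      exact C.inv_mem h
    · have h := ha2 c hc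
      calc a⁻¹ * c = a⁻¹ * (c * a) * a⁻¹ := by group
        _ = a⁻¹ * (a * c) * a⁻¹ := by rw [h]
        _ = c * a⁻¹ := by group

theorem exists_v (c : Ctx2 S x) : ∃ v ∈ cV VV BB, v ∉ cV VV (cj x BB) := by
  by_contra hall
  push Not at hall
  have hcard : Nat.card ↥(cV VV (cj x BB)) = Nat.card ↥(cV VV BB) := by
    rw [← cj_cV, card_cj]
  have hC : cV VV BB = cV VV (cj x BB) := Subgroup.eq_of_le_of_card_ge hall hcard.le
  set C := cV VV BB with hCd
  have hS := c.hcl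
  have hSx := c.hcl.cj x
  have hY : BB ⊔ cj x BB ≤ wQ VV C := by
    refine sup_le ?_ ?_
    · intro b hb
      refine ⟨fun v hv => delta_cV hS Q_le_S B_le_S (B_le_S hb) hv, fun d hd => (mem_cV.mp hd).2 b hb⟩
    · intro b hb
      refine ⟨fun v hv => ?_, fun d hd => ?_⟩
      · rw [hC]
        exact delta_cV hSx (Q_le_cj x) (cj_mono B_le_S) (cj_mono B_le_S hb) hv
      · rw [hC] at hd
        exact (mem_cV.mp hd).2 b hb
  have hYT : BB ⊔ cj x BB ≤ tQ QQ :=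
    sup_le (B_le_S.trans (le_tQ hS Q_le_S)) ((cj_mono B_le_S).trans (le_tQ hSx (Q_le_cj x)))
  have hsq : ∀ g ∈ BB ⊔ cj x BB, g * g ∈ QQ := by
    intro g hg
    apply inf_le_Q c.hCQ
    refine ⟨(tQ QQ).mul_mem (hYT hg) (hYT hg), Subgroup.mem_centralizer_iff.mpr fun v hv => ?_⟩
    obtain ⟨h1, h2⟩ := hY hg
    have hcm := h1 v hv
    set d := g * v * g⁻¹ * v⁻¹ with hd
    have hdV : d ∈ VV := (mem_cV.mp hcm).1
    have h3 : g * v * g⁻¹ = d * v := by rw [hd]; group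
    have h4 : g * d * g⁻¹ = d := by rw [h2 d hcm]; group
    have h5 : (g * g) * v * (g * g)⁻¹ = v := by
      calc (g * g) * v * (g * g)⁻¹ = g * (g * v * g⁻¹) * g⁻¹ := by group
        _ = g * (d * v) * g⁻¹ := by rw [h3]
        _ = (g * d * g⁻¹) * (g * v * g⁻¹) := by group
        _ = (d * d) * v := by rw [h4, h3]; group
        _ = v := by rw [V_two hdV, one_mul]
    calc v * (g * g) = ((g * g) * v * (g * g)⁻¹) * (g * g) := by rw [h5]
      _ = (g * g) * v := by group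
  have hYp : IsPGroup 2 ↥(BB ⊔ cj x BB) := by
    apply isPGroup_of_two_pow
    intro g hg
    obtain ⟨k, hk⟩ := (pCore_isPGroup 2 : IsPGroup 2 QQ) ⟨_, hsq g hg⟩
    have hk' : (g * g) ^ (2 ^ k) = 1 := congrArg Subtype.val hk
    refine ⟨k + 1, ?_⟩
    rw [pow_succ', pow_mul, pow_two]
    exact hk'
  obtain ⟨z, -, hz⟩ := le_cj_of_pgroup S le_top le_top hYp
  obtain ⟨b, hb, hbQ⟩ := exists_b c.toCtx
  have hbz : b ∈ cj z SS := hz (le_sup_left (a := BB) hb)
  by_cases hzH : z ∈ HH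
  · have hb' : x * b * x⁻¹ ∈ cj z SS := hz (le_sup_right (b := cj x BB) (conj_mem_cj hb))
    exact not_mem_H' c.toCtx c.hx (B_le_S hb) hbQ (cj_S_le_H hzH hb')
  · exact hbQ (ti c.toCtx hzH (B_le_S hb) hbz)

theorem count (c : Ctx2 S x) :
    Nat.card ↥(cV VV BB) * Nat.card QQ ≤ Nat.card BB * Nat.card ↥(cV VV (BB ⊔ cj x BB)) := by
  have h1 := offender (S := S) c.hcl c.hCQ
  have h2 := card_sup_inf_le_of_comm (X := cV VV BB) (Y := cV VV (cj x BB)) (Z := VV) inf_le_left inf_le_left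
    (fun a ha b hb => V_comm ha hb)
  have h3 : Nat.card ↥(cV VV (cj x BB)) = Nat.card ↥(cV VV BB) := by
    rw [← cj_cV, card_cj]
  rw [h3, ← cV_sup] at h2
  have hpos : 0 < Nat.card ↥(cV VV BB) := Nat.card_pos
  apply Nat.le_of_mul_le_mul_left _ hpos
  set c0 := Nat.card ↥(cV VV BB)
  set c' := Nat.card ↥(cV VV (BB ⊔ cj x BB))
  calc c0 * (c0 * Nat.card QQ) = (c0 * c0) * Nat.card QQ := by ring
    _ ≤ (Nat.card VV * c') * Nat.card QQ := Nat.mul_le_mul_right _ h2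
    _ = (Nat.card VV * Nat.card QQ) * c' := by ring
    _ ≤ (Nat.card BB * c0) * c' := Nat.mul_le_mul_right _ h1
    _ = c0 * (Nat.card BB * c') := by ring

/-- `B / Q` acts regularly on `C_V(B) / C'`. -/
theorem surj (c : Ctx2 S x) {u : G} (huCx : u ∈ cV VV (cj x BB)) (hu : u ∉ cV VV (BB ⊔ cj x BB)) :
    ∀ v ∈ cV VV BB, ∃ b ∈ BB, ∃ d ∈ cV VV (BB ⊔ cj x BB), v = (b * u * b⁻¹ * u⁻¹) * d := by
  classical
  have huV : u ∈ VV := huCx.1
  have hδ : ∀ b ∈ BB, b * u * b⁻¹ * u⁻¹ ∈ cV VV BB := fun b hb =>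
    delta_cV c.hcl Q_le_S B_le_S (B_le_S hb) huV
  have hC'C0 : cV VV (BB ⊔ cj x BB) ≤ cV VV BB := cV_anti le_sup_left
  let Ψ : ↥BB × ↥(cV VV (BB ⊔ cj x BB)) →* G :=
    { toFun := fun p => ((p.1 : G) * u * (p.1 : G)⁻¹ * u⁻¹) * (p.2 : G)
      map_one' := by simp
      map_mul' := by
        rintro ⟨⟨a, ha⟩, ⟨d, hd⟩⟩ ⟨⟨b, hb⟩, ⟨e, he⟩⟩
        show ((a * b) * u * (a * b)⁻¹ * u⁻¹) * (d * e) = ((a * u * a⁻¹ * u⁻¹) * d) * ((b * u * b⁻¹ * u⁻¹) * e)
        have hdV : d ∈ VV := (hC'C0 hd).1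
        have h1 := hδ a ha
        have h2 := hδ b hb
        have e1 : (a * b) * u * (a * b)⁻¹ * u⁻¹ = (a * (b * u * b⁻¹ * u⁻¹) * a⁻¹) * (a * u * a⁻¹ * u⁻¹) := by group
        have e2 : a * (b * u * b⁻¹ * u⁻¹) * a⁻¹ = b * u * b⁻¹ * u⁻¹ := by
          rw [(mem_cV.mp h2).2 a ha]; group
        rw [e1, e2]
        set δa := a * u * a⁻¹ * u⁻¹
        set δb := b * u * b⁻¹ * u⁻¹
        calc δb * δa * (d * e) = (δa * δb) * (d * e) := by rw [V_comm h2.1 h1.1]
          _ = δa * (δb * d) * e := by group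
          _ = δa * (d * δb) * e := by rw [V_comm h2.1 hdV]
          _ = _ := by group }
  have hΨ : ∀ p, Ψ p = ((p.1 : G) * u * (p.1 : G)⁻¹ * u⁻¹) * (p.2 : G) := fun _ => rfl
  have hR : Ψ.range ≤ cV VV BB := by
    rintro _ ⟨p, rfl⟩
    rw [hΨ]
    exact (cV VV BB).mul_mem (hδ _ p.1.2) (hC'C0 p.2.2)
  have hkerQ : ∀ p ∈ Ψ.ker, (p.1 : G) ∈ QQ := by
    intro p hp
    by_contra hbQ
    apply hu
    rw [MonoidHom.mem_ker, hΨ] at hp
    have e : (p.1 : G) * u * (p.1 : G)⁻¹ * u⁻¹ = (p.2 : G)⁻¹ := eq_inv_of_mul_eq_one_left hp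
    have hd : (p.1 : G) * u * (p.1 : G)⁻¹ * u⁻¹ ∈ cV VV (BB ⊔ cj x BB) := by
      rw [e]; exact Subgroup.inv_mem _ p.2.2
    exact delta_mem (gen_left c p.1.2 hbQ) huCx hd
  have hker : Nat.card Ψ.ker ≤ Nat.card QQ := by
    let f : Ψ.ker → QQ := fun p => ⟨(p.1.1 : G), hkerQ p.1 p.2⟩
    apply Nat.card_le_card_of_injective f
    rintro ⟨p, hp⟩ ⟨p', hp'⟩ hpp
    have h1 : (p.1 : G) = (p'.1 : G) := by
      have := congrArg Subtype.val hpp
      exact this
    rw [MonoidHom.mem_ker, hΨ] at hp hp'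
    have e : (p.1 : G) * u * (p.1 : G)⁻¹ * u⁻¹ = (p.2 : G)⁻¹ := eq_inv_of_mul_eq_one_left hp
    have e' : (p'.1 : G) * u * (p'.1 : G)⁻¹ * u⁻¹ = (p'.2 : G)⁻¹ := eq_inv_of_mul_eq_one_left hp'
    have h2 : (p.2 : G) = (p'.2 : G) := by
      rw [h1, e'] at e
      exact (inv_injective e).symm
    apply Subtype.ext
    exact Prod.ext (Subtype.ext h1) (Subtype.ext h2)
  have hcard : Nat.card Ψ.ker * Nat.card Ψ.range = Nat.card BB * Nat.card ↥(cV VV (BB ⊔ cj x BB)) := by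
    rw [← Subgroup.index_ker, Subgroup.card_mul_index, Nat.card_prod]
  have hcnt := count c
  have hRge : Nat.card ↥(cV VV BB) ≤ Nat.card Ψ.range := by
    have hpos : 0 < Nat.card QQ := Nat.card_pos
    apply Nat.le_of_mul_le_mul_right _ hpos
    calc Nat.card ↥(cV VV BB) * Nat.card QQ ≤ _ := hcnt
      _ = Nat.card Ψ.ker * Nat.card Ψ.range := hcard.symm
      _ ≤ Nat.card QQ * Nat.card Ψ.range := Nat.mul_le_mul_right _ hker
      _ = _ := mul_comm _ _
  have hReq : Ψ.range = cV VV BB := Subgroup.eq_of_le_of_card_ge hR hRge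
  intro v hv
  rw [← hReq] at hv
  obtain ⟨p, rfl⟩ := hv
  exact ⟨_, p.1.2, _, p.2.2, rfl⟩

end ctx

section final

variable {G : Type*} [Group G] [Finite G] {S : Sylow 2 G} {x : G}

local notation "QQ" => pCore 2 G
local notation "VV" => vQ (pCore 2 G)
local notation "SS" => (S : Subgroup G)
local notation "BB" => (thompsonSubgroupOf 2 (S : Subgroup G) ⊔ pCore 2 G : Subgroup G)

theorem three_dvd_of_fix {T v : G} (h3 : (T * T * T) * v * (T * T * T)⁻¹ = v) (h1 : T * v * T⁻¹ ≠ v) :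
    3 ∣ orderOf T := by
  by_contra hnd
  apply h1
  have hc : Nat.Coprime 3 (orderOf T) := (Nat.Prime.coprime_iff_not_dvd Nat.prime_three).mpr hnd
  have hT3 : T * T * T ∈ centralizer ({v} : Set G) := by
    rw [Subgroup.mem_centralizer_iff]
    intro w hw
    have hw' : w = v := hw
    rw [hw']
    calc v * (T * T * T) = ((T * T * T) * v * (T * T * T)⁻¹) * (T * T * T) := by rw [h3]
      _ = (T * T * T) * v := by group
  have hbez := Nat.gcd_eq_gcd_ab 3 (orderOf T)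
  rw [hc.gcd_eq_one] at hbez
  have hT : T = (T * T * T) ^ (Nat.gcdA 3 (orderOf T)) := by
    have e1 : T * T * T = T ^ (3 : ℤ) := by
      rw [show (3 : ℤ) = ((3 : ℕ) : ℤ) by rfl, zpow_natCast, pow_succ, pow_two]
    have e2 : T ^ ((orderOf T : ℤ) * Nat.gcdB 3 (orderOf T)) = 1 := by
      rw [zpow_mul, zpow_natCast, pow_orderOf_eq_one, one_zpow]
    calc T = T ^ ((1 : ℕ) : ℤ) := by simp
      _ = T ^ (((3 : ℕ) : ℤ) * Nat.gcdA 3 (orderOf T) + (orderOf T : ℤ) * Nat.gcdB 3 (orderOf T)) := by rw [hbez]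
      _ = T ^ (((3 : ℕ) : ℤ) * Nat.gcdA 3 (orderOf T)) := by rw [zpow_add, e2, mul_one]
      _ = _ := by rw [zpow_mul, e1]; rfl
  have hTc : T ∈ centralizer ({v} : Set G) := by
    rw [hT]
    exact Subgroup.zpow_mem _ hT3 _
  have h5 := Subgroup.mem_centralizer_iff.mp hTc v rfl
  rw [← h5]; group

theorem inv_pow_mem {Q : Subgroup G} [hQ : Q.Normal] {b T : G} (h : b * T * b⁻¹ * T ∈ Q) (n : ℕ) :
    b * T ^ n * b⁻¹ * T ^ n ∈ Q := by
  induction n with
  | zero => simp [Q.one_mem]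
  | succ n ih =>
    have e : b * T ^ (n + 1) * b⁻¹ * T ^ (n + 1) =
        (b * T ^ n * b⁻¹ * T ^ n) * (T ^ n)⁻¹ * (b * T * b⁻¹ * T) * T ^ n := by
      rw [pow_succ]
      group
    rw [e, mul_assoc, mul_assoc]
    apply Q.mul_mem ih
    have := hQ.conj_mem _ h (T ^ n)⁻¹
    simpa [mul_assoc] using this

/-- The contradiction. -/
theorem final (c : Ctx2 S x) : False := by
  obtain ⟨v, hvC0, hvCx⟩ := exists_v c
  obtain ⟨b0, hb0, hb0Q⟩ := exists_b c.toCtx
  set b' := x * b0 * x⁻¹ with hb'd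
  have hb'mem : b' ∈ cj x BB := conj_mem_cj hb0
  have hb'Q : b' ∉ QQ := fun h => hb0Q (by
    have := (pCore_normal 2 G).conj_mem _ h x⁻¹
    have e : x⁻¹ * b' * x⁻¹⁻¹ = b0 := by rw [hb'd]; group
    rwa [e] at this)
  have hvV : v ∈ VV := hvC0.1
  set u := b' * v * b'⁻¹ * v⁻¹ with hud
  have huCx : u ∈ cV VV (cj x BB) :=
    delta_cV (c.hcl.cj x) (Q_le_cj x) (cj_mono B_le_S) (cj_mono B_le_S hb'mem) hvV
  have huV : u ∈ VV := huCx.1
  have hu : u ∉ cV VV (BB ⊔ cj x BB) := fun h =>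
    hvCx (cV_anti le_sup_right (delta_mem (gen_right c hb'mem hb'Q) hvC0 h))
  obtain ⟨b, hb, d, hd, hvb⟩ := surj c huCx hu v hvC0
  have hdV : d ∈ VV := hd.1
  have hdCx : d ∈ cV VV (cj x BB) := cV_anti le_sup_right hd
  set T := b * b' with hTd
  have hbY : b ∈ BB ⊔ cj x BB := le_sup_left (a := BB) hb
  have hb'Y : b' ∈ BB ⊔ cj x BB := le_sup_right (b := cj x BB) hb'mem
  have hTY : T ∈ BB ⊔ cj x BB := (BB ⊔ cj x BB).mul_mem hbY hb'Y
  have hbv : b * v = v * b := (mem_cV.mp hvC0).2 b hb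
  have hb'u : b' * u = u * b' := (mem_cV.mp huCx).2 b' hb'mem
  have huv : u * v = v * u := V_comm huV hvV
  have hud' : u * d = d * u := V_comm huV hdV
  have hvd : v * d = d * v := V_comm hvV hdV
  have hu2 : u * u = 1 := V_two huV
  have hv2 : v * v = 1 := V_two hvV
  have hd2 : d * d = 1 := V_two hdV
  have hdi : d⁻¹ = d := inv_eq_of_mul_eq_one_left hd2
  have h1 : b' * v * b'⁻¹ = u * v := by rw [hud]; group
  have h2 : b' * u * b'⁻¹ = u := by rw [hb'u]; group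
  have h3 : b * v * b⁻¹ = v := by rw [hbv]; group
  have h4 : b * u * b⁻¹ = v * d * u := by
    have e : (b * u * b⁻¹ * u⁻¹) = v * d⁻¹ := by
      rw [hvb]; group
    calc b * u * b⁻¹ = (b * u * b⁻¹ * u⁻¹) * u := by group
      _ = v * d⁻¹ * u := by rw [e]
      _ = v * d * u := by rw [hdi]
  have hTv : T * v * T⁻¹ = u * d := by
    calc T * v * T⁻¹ = b * (b' * v * b'⁻¹) * b⁻¹ := by rw [hTd]; group
      _ = b * (u * v) * b⁻¹ := by rw [h1]
      _ = (b * u * b⁻¹) * (b * v * b⁻¹) := by group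
      _ = (v * d * u) * v := by rw [h3, h4]
      _ = v * d * (u * v) := by group
      _ = v * d * (v * u) := by rw [huv]
      _ = v * (d * v) * u := by group
      _ = v * (v * d) * u := by rw [hvd]
      _ = (v * v) * d * u := by group
      _ = d * u := by rw [hv2, one_mul]
      _ = u * d := hud'.symm
  have hTu : T * u * T⁻¹ = v * d * u := by
    calc T * u * T⁻¹ = b * (b' * u * b'⁻¹) * b⁻¹ := by rw [hTd]; group
      _ = b * u * b⁻¹ := by rw [h2]
      _ = _ := h4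
  have hTd' : T * d * T⁻¹ = d := by
    rw [(mem_cV.mp hd).2 T hTY]; group
  have hT3 : (T * T * T) * v * (T * T * T)⁻¹ = v := by
    calc (T * T * T) * v * (T * T * T)⁻¹ = T * (T * (T * v * T⁻¹) * T⁻¹) * T⁻¹ := by group
      _ = T * (T * (u * d) * T⁻¹) * T⁻¹ := by rw [hTv]
      _ = T * ((T * u * T⁻¹) * (T * d * T⁻¹)) * T⁻¹ := by group
      _ = T * ((v * d * u) * d) * T⁻¹ := by rw [hTu, hTd']
      _ = T * (v * d * (u * d)) * T⁻¹ := by group
      _ = T * (v * d * (d * u)) * T⁻¹ := by rw [hud']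
      _ = T * (v * (d * d) * u) * T⁻¹ := by group
      _ = T * (v * u) * T⁻¹ := by rw [hd2]; group
      _ = (T * v * T⁻¹) * (T * u * T⁻¹) := by group
      _ = (u * d) * (v * d * u) := by rw [hTv, hTu]
      _ = u * (d * v) * d * u := by group
      _ = u * (v * d) * d * u := by rw [hvd]
      _ = u * v * (d * d) * u := by group
      _ = u * v * u := by rw [hd2]; group
      _ = v * u * u := by rw [huv]
      _ = v * (u * u) := by group
      _ = v := by rw [hu2, mul_one]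
  have hT1 : T * v * T⁻¹ ≠ v := by
    rw [hTv]
    intro h
    apply hvCx
    rw [← h]
    exact (cV VV (cj x BB)).mul_mem huCx hdCx
  have h3T := three_dvd_of_fix hT3 hT1
  -- the element of order three
  set n := orderOf T / 3 with hn
  have hT0 : orderOf T ≠ 0 := (orderOf_pos T).ne'
  have hno : orderOf T = 3 * n := (Nat.mul_div_cancel' h3T).symm
  have hn0 : n ≠ 0 := by
    intro h
    rw [h] at hno
    exact hT0 hno
  set y := T ^ n with hyd
  have hyo : orderOf y = 3 := by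
    rw [hyd, orderOf_pow_orderOf_div hT0 h3T]
  have hy3p : y ^ 3 = 1 := by
    rw [← hyo]; exact pow_orderOf_eq_one y
  have hy3 : y * y * y = 1 := by
    rw [← hy3p, pow_succ, pow_two]
  have hYT : BB ⊔ cj x BB ≤ tQ QQ :=
    sup_le (B_le_S.trans (le_tQ c.hcl Q_le_S)) ((cj_mono B_le_S).trans (le_tQ (c.hcl.cj x) (Q_le_cj x)))
  have hyT : y ∈ tQ QQ := (tQ QQ).pow_mem (hYT hTY) n
  have hyV : y ∉ centralizer (VV : Set G) := by
    intro hyc
    have hQp : IsPGroup 2 (pCore 2 G) := pCore_isPGroup 2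
    have h3c : Nat.Coprime 3 2 := by norm_num
    have hyQ : y ∈ QQ := c.hCQ (mem_centralizer_of_tQ hQp hyT h3c hy3p hyc)
    obtain ⟨k, hk⟩ := hQp ⟨y, hyQ⟩
    have hk' : y ^ (2 ^ k) = 1 := congrArg Subtype.val hk
    have hd' : orderOf y ∣ 2 ^ k := orderOf_dvd_of_pow_eq_one hk'
    rw [hyo] at hd'
    have := Nat.Prime.dvd_of_dvd_pow Nat.prime_three hd'
    omega
  obtain ⟨v0, hv0, hv0y⟩ : ∃ v0 ∈ VV, y * v0 * y⁻¹ ≠ v0 := by
    by_contra hno
    push Not at hno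
    apply hyV
    rw [Subgroup.mem_centralizer_iff]
    intro w hw
    have := hno w hw
    calc w * y = (y * w * y⁻¹) * y := by rw [this]
      _ = y * w := by group
  -- inversion modulo `Q`
  have hbS : b ∈ SS := B_le_S hb
  have hb'S : b' ∈ cj x SS := cj_mono B_le_S hb'mem
  have hq : b * T * b⁻¹ * T ∈ QQ := by
    have e : b * T * b⁻¹ * T = (b * b) * (b' * b') := by rw [hTd]; group
    rw [e]
    exact (pCore 2 G).mul_mem (sq_mem c.hcl Q_le_S c.hCQ hbS) (sq_mem (c.hcl.cj x) (Q_le_cj x) c.hCQ hb'S)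
  haveI hQn : (pCore 2 G).Normal := pCore_normal 2 G
  have hqy : b * y * b⁻¹ * y ∈ QQ := inv_pow_mem hq n
  set q := b * y * b⁻¹ * y with hqd
  have hinv : ∀ w ∈ VV, b * (y * w * y⁻¹) * b⁻¹ = y⁻¹ * (b * w * b⁻¹) * y := by
    intro w hw
    have hW : y⁻¹ * (b * w * b⁻¹) * y ∈ VV := by
      have := V_conj (V_conj hw b) y⁻¹
      simpa using this
    have hc := Q_comm_V hqy hW
    have e : b * (y * w * y⁻¹) * b⁻¹ = q * (y⁻¹ * (b * w * b⁻¹) * y) * q⁻¹ := by
      rw [hqd]; group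
    rw [e, hc]; group
  obtain ⟨k, hk⟩ := exists_two_pow hbS
  haveI hVn : (vQ (pCore 2 G)).Normal := vQ_normal (pCore 2 G)
  exact c.hS4 (involves_of_action (V := VV) (vQ_ea (pCore 2 G)) hy3 hv0 hv0y hinv hk)

/-- A minimal counterexample is impossible. -/
theorem false_of_ctx (c : Ctx S) : False := by
  classical
  have hH : ∃ x : G, x ∉ normalizer ((thompsonSubgroupOf 2 (S : Subgroup G)) : Set G) := by
    by_contra h
    push Not at h
    exact H_ne_top c (eq_top_iff.mpr fun a _ => h a)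
  obtain ⟨x₀, hx₀⟩ := hH
  obtain ⟨x, hx, hmin⟩ := Set.exists_min_image
    {z : G | z ∉ normalizer ((thompsonSubgroupOf 2 (S : Subgroup G)) : Set G)}
    (fun z => Nat.card ↥(BB ⊔ cj z BB)) (Set.toFinite _) ⟨x₀, hx₀⟩
  exact final (x := x) { c with hx := hx, hmin := fun z hz => hmin z hz }

end final

section induction

universe v

/-- With `C(O_2(G)) ≤ O_2(G)`, no section `S₄` and a Sylow `2`-subgroup `S` of class at most `2`, the
elementary abelian subgroups of largest order of `S` lie in `O_2(G)`. -/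
theorem le_pCore_constrained : ∀ (n : ℕ) (G : Type v) [Group G] [Finite G], Nat.card G = n →
    centralizer ((pCore 2 G : Subgroup G) : Set G) ≤ pCore 2 G → ¬ Involves (Equiv.Perm (Fin 4)) G →
    ∀ S : Sylow 2 G, Cl (S : Subgroup G) → ∀ A ∈ gMaxEA 2 (S : Subgroup G), A ≤ pCore 2 G := by
  intro n
  induction n using Nat.strong_induction_on with
  | _ n ih =>
    intro G _ _ hn hCQ hS4 S hcl A hA
    by_contra hAQ
    have hJ : ¬ thompsonSubgroupOf 2 (S : Subgroup G) ≤ pCore 2 G := fun h =>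
      hAQ ((le_thompsonSubgroupOf hA).trans h)
    refine false_of_ctx (S := S) ⟨hcl, hCQ, hS4, ?_, hJ⟩
    intro M hSM hM
    -- the induction hypothesis in `M`
    have hlt : Nat.card M < n := by
      rw [← hn]
      exact lt_of_le_of_ne (Subgroup.card_le_card_group M) (fun h => hM (Subgroup.eq_top_of_card_eq M h))
    let SM : Sylow 2 M := S.subtype hSM
    have hSMc : (SM : Subgroup M) = (S : Subgroup G).subgroupOf M := Sylow.coe_subtype _ _
    have hQM : (pCore 2 G).subgroupOf M ≤ pCore 2 M := by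
      haveI hQn : (pCore 2 G).Normal := pCore_normal 2 G
      refine le_pCore inferInstance ?_
      rintro ⟨x, hx⟩
      obtain ⟨k, hk⟩ := (pCore_isPGroup 2 : IsPGroup 2 (pCore 2 G)) ⟨x.1, hx⟩
      have h := congrArg Subtype.val hk
      exact ⟨k, Subtype.ext (Subtype.ext h)⟩
    have hQS : pCore 2 G ≤ (S : Subgroup G) := pCore_le_sylow S
    have hCQM : centralizer ((pCore 2 M : Subgroup M) : Set M) ≤ pCore 2 M := by
      intro y hy
      apply hQM
      rw [Subgroup.mem_subgroupOf]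
      apply hCQ
      rw [Subgroup.mem_centralizer_iff]
      intro q hq
      have hqM : (⟨q, hSM (hQS hq)⟩ : M) ∈ pCore 2 M := hQM (by
        rw [Subgroup.mem_subgroupOf]; exact hq)
      have := Subgroup.mem_centralizer_iff.mp hy _ hqM
      exact congrArg Subtype.val this
    have hS4M : ¬ Involves (Equiv.Perm (Fin 4)) M := fun h =>
      hS4 (Cfsg.Agent.Lib.PGroup.SFourSection.involves_of_injective M.subtype M.subtype_injective h)
    have hclM : Cl (SM : Subgroup M) := by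
      rw [hSMc]
      intro a ha b hb d hd
      apply Subtype.ext
      have := hcl a ha b hb d hd
      show M.subtype ⁅⁅a, b⁆, d⁆ = _
      rw [map_commutatorElement, map_commutatorElement]
      simpa using this
    -- members of the family lie in `O_2(M)`
    have hfam : ∀ A ∈ gMaxEA 2 (S : Subgroup G), A ≤ (pCore 2 M).map M.subtype := by
      intro A hA
      have hAM : A ≤ M := hA.1.trans hSM
      have hmem : A.subgroupOf M ∈ gMaxEA 2 (SM : Subgroup M) := by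
        have hmapA : (A.subgroupOf M).map M.subtype = A := map_subgroupOf hAM
        refine ⟨?_, ?_, ?_⟩
        · rw [hSMc]
          exact Subgroup.subgroupOf_mono M hA.1
        · apply ea_of_map M.subtype_injective
          rw [hmapA]
          exact hA.2.1
        · intro B hB hBe
          rw [← card_map_subtype B, ← card_map_subtype (A.subgroupOf M), hmapA]
          refine hA.2.2 _ ?_ (ea_map _ hBe)
          rw [Subgroup.map_le_iff_le_comap]
          intro y hy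
          have := hB hy
          rw [hSMc, Subgroup.mem_subgroupOf] at this
          exact this
      have h := ih _ hlt M rfl hCQM hS4M SM hclM _ hmem
      intro a ha
      exact ⟨⟨a, hAM ha⟩, h (by rw [Subgroup.mem_subgroupOf]; exact ha), rfl⟩
    set Q₁ : Subgroup G := (pCore 2 M).map M.subtype with hQ₁
    have hQ₁S : Q₁ ≤ (S : Subgroup G) := by
      rw [hQ₁, Subgroup.map_le_iff_le_comap]
      intro y hy
      have h1 := pCore_le_sylow SM hy
      rw [hSMc, Subgroup.mem_subgroupOf] at h1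
      exact h1
    have hJQ₁ : thompsonSubgroupOf 2 (S : Subgroup G) ≤ Q₁ := by
      rw [thompsonSubgroupOf_le_iff]
      exact hfam
    have hJeq := thompsonSubgroupOf_eq_of_le hQ₁S hJQ₁
    have hMN : M ≤ normalizer (Q₁ : Set G) := by
      intro y hy
      apply Cfsg.Agent.Lib.PGroup.SFourSection.mem_normalizer_of_forall_conj
      rintro _ ⟨w, hw, rfl⟩
      have := (pCore_normal 2 M).conj_mem w hw ⟨y, hy⟩
      exact ⟨_, this, rfl⟩
    rw [← hJeq]
    exact hMN.trans (normalizer_le_normalizer_thompson Q₁)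

end induction

section main

universe w

variable {G : Type w} [Group G] [Finite G]

/-- The factorization for `2`-constrained groups. -/
theorem normalizer_thompson_sup_constrained (hcon : IsPConstrained 2 G)
    (hS4 : ¬ Involves (Equiv.Perm (Fin 4)) G) (S : Sylow 2 G)
    (hcl : ∀ x ∈ (S : Subgroup G), ∀ y ∈ (S : Subgroup G), ∀ z ∈ (S : Subgroup G), ⁅⁅x, y⁆, z⁆ = 1) :
    normalizer ((thompsonSubgroupOf 2 (S : Subgroup G)) : Set G) ⊔ pPrimeCore 2 G = ⊤ := by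
  classical
  haveI : Fact (Nat.Prime 2) := ⟨Nat.prime_two⟩
  set K := pPrimeCore 2 G with hK
  haveI hKn : K.Normal := pPrimeCore_normal 2 G
  have hKc : (Nat.card K).Coprime 2 := pPrimeCore_coprime 2
  let π : G →* G ⧸ K := QuotientGroup.mk' K
  have hπ : Function.Surjective π := QuotientGroup.mk'_surjective K
  have hπk : π.ker = K := QuotientGroup.ker_mk' K
  -- `2`-subgroups meet `K` trivially
  have hinf : ∀ H : Subgroup G, IsPGroup 2 H → H ⊓ π.ker = ⊥ := by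
    intro H hH
    rw [hπk]
    apply Subgroup.inf_eq_bot_of_coprime
    obtain ⟨n, hn⟩ := IsPGroup.iff_card.mp hH
    rw [hn]
    exact Nat.Coprime.pow_left n hKc.symm
  have hSp : IsPGroup 2 (S : Subgroup G) := S.isPGroup'
  let Sb : Sylow 2 (G ⧸ K) := S.mapSurjective hπ
  have hSb : (Sb : Subgroup (G ⧸ K)) = (S : Subgroup G).map π := rfl
  have hclb : Cl (Sb : Subgroup (G ⧸ K)) := by
    unfold Cl
    rw [hSb]
    rintro _ ⟨x, hx, rfl⟩ _ ⟨y, hy, rfl⟩ _ ⟨z, hz, rfl⟩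
    rw [← map_commutatorElement, ← map_commutatorElement, hcl x hx y hy z hz, map_one]
  have hS4b : ¬ Involves (Equiv.Perm (Fin 4)) (G ⧸ K) := fun h =>
    hS4 (Cfsg.Agent.Lib.PGroup.SFourSection.involves_of_surjective π hπ h)
  have hCQb : centralizer ((pCore 2 (G ⧸ K) : Subgroup (G ⧸ K)) : Set (G ⧸ K)) ≤ pCore 2 (G ⧸ K) :=
    Cfsg.Agent.Lib.Components.PConstrained.isPConstrained_iff_centralizer.mp hcon
  set Qb := pCore 2 (G ⧸ K) with hQb
  haveI hQbn : Qb.Normal := pCore_normal 2 _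
  have hQbS : Qb ≤ Sb := pCore_le_sylow Sb
  -- images of members of the family are members of the family
  have hfam : ∀ A ∈ gMaxEA 2 (S : Subgroup G), A.map π ∈ gMaxEA 2 (Sb : Subgroup (G ⧸ K)) := by
    intro A hA
    refine ⟨Subgroup.map_mono hA.1, ea_map _ hA.2.1, fun Eb hEb hEe => ?_⟩
    rw [card_map_eq_of_inf_ker (hinf A (hSp.to_le hA.1))]
    set E := (S : Subgroup G) ⊓ Eb.comap π with hE
    have hEp : IsPGroup 2 E := hSp.to_le inf_le_left
    have hEmap : E.map π = Eb := by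
      apply le_antisymm
      · rintro _ ⟨x, hx, rfl⟩
        exact hx.2
      · intro b hb
        obtain ⟨s, hs, rfl⟩ := hEb hb
        exact ⟨s, ⟨hs, hb⟩, rfl⟩
    have hinj : ∀ x ∈ E, ∀ y ∈ E, π x = π y → x = y := by
      intro x hx y hy hxy
      have h0 : x * y⁻¹ ∈ π.ker := by
        rw [MonoidHom.mem_ker, map_mul, map_inv, hxy, mul_inv_cancel]
      have h1 : x * y⁻¹ ∈ E ⊓ π.ker := ⟨E.mul_mem hx (E.inv_mem hy), h0⟩
      rw [hinf E hEp, Subgroup.mem_bot] at h1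
      exact mul_inv_eq_one.mp h1
    have hEe' : IsElementaryAbelian 2 E := by
      refine ⟨⟨⟨?_⟩⟩, ?_⟩
      · rintro ⟨x, hx⟩ ⟨y, hy⟩
        apply Subtype.ext
        apply hinj _ (E.mul_mem hx hy) _ (E.mul_mem hy hx)
        rw [map_mul, map_mul]
        exact ea_comm hEe hx.2 hy.2
      · intro x hx
        apply hinj _ (E.pow_mem hx 2) _ E.one_mem
        rw [map_pow, map_one]
        exact hEe.2 _ hx.2
    have h2 := hA.2.2 E inf_le_left hEe'
    rw [← hEmap, card_map_eq_of_inf_ker (hinf E hEp)]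
    exact h2
  have hAQb : ∀ A ∈ gMaxEA 2 (S : Subgroup G), A.map π ≤ Qb := fun A hA =>
    le_pCore_constrained _ (G ⧸ K) rfl hCQb hS4b Sb hclb _ (hfam A hA)
  -- the subgroups
  set L : Subgroup G := Qb.comap π with hL
  haveI hLn : L.Normal := Subgroup.Normal.comap hQbn π
  set Q₁ : Subgroup G := (S : Subgroup G) ⊓ L with hQ₁
  have hQ₁S : Q₁ ≤ S := inf_le_left
  have hJ : thompsonSubgroupOf 2 (S : Subgroup G) ≤ Q₁ := by
    rw [thompsonSubgroupOf_le_iff]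
    intro A hA
    refine le_inf hA.1 ?_
    rw [← Subgroup.map_le_iff_le_comap]
    exact hAQb A hA
  have hJeq := thompsonSubgroupOf_eq_of_le hQ₁S hJ
  have hNN : normalizer (Q₁ : Set G) ≤ normalizer ((thompsonSubgroupOf 2 (S : Subgroup G)) : Set G) := by
    rw [← hJeq]
    exact normalizer_le_normalizer_thompson Q₁
  -- `Q₁` maps onto `Qb`
  have hQ₁map : Q₁.map π = Qb := by
    apply le_antisymm
    · rintro _ ⟨x, hx, rfl⟩
      exact hx.2
    · intro b hb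
      obtain ⟨s, hs, rfl⟩ := hQbS hb
      exact ⟨s, ⟨hs, hb⟩, rfl⟩
  have hQ₁c : Nat.card Q₁ = Nat.card Qb := by
    rw [← hQ₁map, card_map_eq_of_inf_ker (hinf Q₁ (hSp.to_le hQ₁S))]
  have hQ₁L : Q₁ ≤ L := inf_le_right
  -- `Q₁` is a Sylow subgroup of `L`
  have hQ'p : IsPGroup 2 (Q₁.subgroupOf L) := by
    intro x
    obtain ⟨k, hk⟩ := hSp ⟨x.1.1, hQ₁S x.2⟩
    have h := congrArg Subtype.val hk
    exact ⟨k, Subtype.ext (Subtype.ext h)⟩
  obtain ⟨P, hP⟩ := hQ'p.exists_le_sylow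
  set P' : Subgroup G := (P : Subgroup L).map L.subtype with hP'
  have hP'L : P' ≤ L := Subgroup.map_subtype_le _
  have hP'p : IsPGroup 2 P' := P.isPGroup'.map L.subtype
  have hQ₁P' : Q₁ ≤ P' := by
    intro x hx
    exact ⟨⟨x, hQ₁L hx⟩, hP hx, rfl⟩
  have hP'eq : Q₁ = P' := by
    apply Subgroup.eq_of_le_of_card_ge hQ₁P'
    rw [hQ₁c, ← card_map_eq_of_inf_ker (hinf P' hP'p)]
    apply Subgroup.card_le_of_le
    rw [Subgroup.map_le_iff_le_comap]
    exact hP'L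
  have hfr := Sylow.normalizer_sup_eq_top P
  have hfr' : normalizer (Q₁ : Set G) ⊔ L = ⊤ := by
    rw [hP'eq, hP']
    exact hfr
  have hLle : L ≤ K ⊔ Q₁ := by
    intro x hx
    have h1 : π x ∈ Q₁.map π := by
      rw [hQ₁map]; exact hx
    obtain ⟨q, hq, hqx⟩ := h1
    have h2 : x * q⁻¹ ∈ K := by
      rw [← hπk, MonoidHom.mem_ker, map_mul, map_inv, hqx, mul_inv_cancel]
    have h3 : x = (x * q⁻¹) * q := by group
    rw [h3]
    exact Subgroup.mul_mem_sup h2 hq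
  rw [eq_top_iff, ← hfr']
  refine sup_le (hNN.trans le_sup_left) (hLle.trans (sup_le le_sup_right ?_))
  exact (Subgroup.le_normalizer.trans hNN).trans le_sup_left

end main

end Cfsg.Agent.Lib.PGroup.SFourClassTwo
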