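import Mathlib

/-!
# `SL₂` in characteristic two: root elements, torus and the Weyl element
-/

set_option autoImplicit false
set_option linter.unusedSectionVars false
set_option linter.unusedSimpArgs false
set_option linter.unusedVariables false
set_option linter.unusedTactic false

namespace Cfsg.Agent.Lib.PGroup.SL2Fpf

open Matrix

variable {K : Type*} [Field K] [CharP K 2]

/-- The upper unitriangular elements. -/
def xx (t : K) : SpecialLinearGroup (Fin 2) K :=
  ⟨!![1, t; 0, 1], by simp [Matrix.det_fin_two]⟩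

/-- The diagonal elements. -/
def hh (c : Kˣ) : SpecialLinearGroup (Fin 2) K :=
  ⟨!![(c : K), 0; 0, ((c⁻¹ : Kˣ) : K)], by simp [Matrix.det_fin_two]⟩

/-- The Weyl element. -/
def ww : SpecialLinearGroup (Fin 2) K :=
  ⟨!![0, 1; 1, 0], by
    rw [Matrix.det_fin_two]
    simp [CharTwo.neg_eq]⟩

lemma two_eq_zero_K : (2 : K) = 0 := CharP.cast_eq_zero K 2

lemma add_self_K (a : K) : a + a = 0 := CharTwo.add_self_eq_zero a

lemma ext2 {g h : SpecialLinearGroup (Fin 2) K}
    (h00 : (g : Matrix (Fin 2) (Fin 2) K) 0 0 = (h : Matrix (Fin 2) (Fin 2) K) 0 0)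
    (h01 : (g : Matrix (Fin 2) (Fin 2) K) 0 1 = (h : Matrix (Fin 2) (Fin 2) K) 0 1)
    (h10 : (g : Matrix (Fin 2) (Fin 2) K) 1 0 = (h : Matrix (Fin 2) (Fin 2) K) 1 0)
    (h11 : (g : Matrix (Fin 2) (Fin 2) K) 1 1 = (h : Matrix (Fin 2) (Fin 2) K) 1 1) : g = h := by
  apply Subtype.ext
  ext i j
  fin_cases i <;> fin_cases j <;> assumption

@[simp] lemma xx_coe (t : K) : ((xx t : SpecialLinearGroup (Fin 2) K) : Matrix (Fin 2) (Fin 2) K) = !![1, t; 0, 1] := rfl

@[simp] lemma hh_coe (c : Kˣ) :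
    ((hh c : SpecialLinearGroup (Fin 2) K) : Matrix (Fin 2) (Fin 2) K) = !![(c : K), 0; 0, ((c⁻¹ : Kˣ) : K)] := rfl

@[simp] lemma ww_coe : ((ww : SpecialLinearGroup (Fin 2) K) : Matrix (Fin 2) (Fin 2) K) = !![0, 1; 1, 0] := rfl

lemma xx_mul (s t : K) : xx s * xx t = xx (s + t) := by
  apply ext2 <;> simp [Matrix.mul_fin_two, add_comm]

lemma xx_zero : xx (0 : K) = 1 := by
  apply ext2 <;> simp

lemma xx_mul_self (t : K) : xx t * xx t = 1 := by
  rw [xx_mul, add_self_K, xx_zero]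

lemma ww_mul_self : (ww : SpecialLinearGroup (Fin 2) K) * ww = 1 := by
  apply ext2 <;> simp [Matrix.mul_fin_two]

lemma hh_mul (c d : Kˣ) : hh c * hh d = hh (c * d) := by
  apply ext2 <;> simp [Matrix.mul_fin_two, mul_comm]

lemma hh_one : hh (1 : Kˣ) = 1 := by
  apply ext2 <;> simp

lemma hh_inv_eq (c : Kˣ) : (hh c)⁻¹ = hh c⁻¹ := by
  apply inv_eq_of_mul_eq_one_right
  rw [hh_mul, mul_inv_cancel, hh_one]

/-- `x(t) h(c) = h(c) x(t/c²)`. -/
lemma xx_mul_hh (t : K) (c : Kˣ) : xx t * hh c = hh c * xx (t * ((c⁻¹ : Kˣ) : K) ^ 2) := by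
  have h : (c : K) * ((c⁻¹ : Kˣ) : K) = 1 := by simp
  have h2 : ((c⁻¹ : Kˣ) : K) * (c : K) = 1 := by simp
  apply ext2 <;> simp [Matrix.mul_fin_two]
  field_simp

/-- `h(c) w h(c) = w`. -/
lemma hh_ww_hh (c : Kˣ) : hh c * ww * hh c = ww := by
  apply ext2 <;> simp [Matrix.mul_fin_two]

/-- `w h(c) = h(c⁻¹) w`. -/
lemma ww_mul_hh (c : Kˣ) : ww * hh c = hh c⁻¹ * ww := by
  have := hh_ww_hh (K := K) c
  calc ww * hh c = (hh c)⁻¹ * (hh c * ww * hh c) := by group
    _ = hh c⁻¹ * ww := by rw [this, hh_inv_eq]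

/-- The order three element `h(c) w x(c)`. -/
def rr (c : Kˣ) : SpecialLinearGroup (Fin 2) K := hh c * ww * xx (c : K)

lemma rr_coe (c : Kˣ) : ((rr c : SpecialLinearGroup (Fin 2) K) : Matrix (Fin 2) (Fin 2) K) =
    !![0, (c : K); ((c⁻¹ : Kˣ) : K), 1] := by
  have h : (c : K) * ((c⁻¹ : Kˣ) : K) = 1 := by simp
  simp only [rr, SpecialLinearGroup.coe_mul, hh_coe, ww_coe, xx_coe, Matrix.mul_fin_two]
  simp [h]

lemma rr_sq (c : Kˣ) : rr c * rr c * rr c = (1 : SpecialLinearGroup (Fin 2) K) := by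
  have h : (c : K) * ((c⁻¹ : Kˣ) : K) = 1 := by simp
  have h2 : ((c⁻¹ : Kˣ) : K) * (c : K) = 1 := by simp
  apply ext2 <;> simp [rr_coe, Matrix.mul_fin_two, h, h2, add_self_K]

/-- `ρ_{d²}` is conjugate to `ρ₁`. -/
lemma rr_conj (d : Kˣ) : hh d * rr 1 * (hh d)⁻¹ = rr (d * d) := by
  have h : (d : K) * ((d⁻¹ : Kˣ) : K) = 1 := by simp
  have h2 : ((d⁻¹ : Kˣ) : K) * (d : K) = 1 := by simp
  rw [hh_inv_eq]
  apply ext2 <;> simp [rr_coe, Matrix.mul_fin_two, h, h2, mul_comm, _root_.mul_inv_rev]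

lemma eta (g : SpecialLinearGroup (Fin 2) K) : ∃ a b c d : K,
    (g : Matrix (Fin 2) (Fin 2) K) = !![a, b; c, d] ∧ a * d + b * c = 1 := by
  refine ⟨(g : Matrix (Fin 2) (Fin 2) K) 0 0, (g : Matrix (Fin 2) (Fin 2) K) 0 1,
    (g : Matrix (Fin 2) (Fin 2) K) 1 0, (g : Matrix (Fin 2) (Fin 2) K) 1 1, (Matrix.eta_fin_two _), ?_⟩
  have := g.2
  rw [Matrix.det_fin_two] at this
  rwa [CharTwo.sub_eq_add] at this

/-- Generation. -/
theorem gen_top (S : Subgroup (SpecialLinearGroup (Fin 2) K)) (hx : ∀ t, xx t ∈ S) (hh' : ∀ c, hh c ∈ S)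
    (hw : ww ∈ S) : S = ⊤ := by
  rw [eq_top_iff]
  rintro g -
  obtain ⟨a, b, c, d, hg, hdet⟩ := eta g
  by_cases hc : c = 0
  · have ha : a * d = 1 := by simpa [hc] using hdet
    have ha0 : a ≠ 0 := left_ne_zero_of_mul_eq_one ha
    have e : g = hh (Units.mk0 a ha0) * xx (b / a) := by
      apply ext2 <;> simp [hg, Matrix.mul_fin_two, hc]
      · field_simp
      · field_simp
        rw [mul_comm]; exact ha
    rw [e]
    exact S.mul_mem (hh' _) (hx _)
  · have e : g = xx (a / c) * (ww * hh (Units.mk0 c hc)) * xx (d / c) := by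
      apply ext2 <;> simp [hg, Matrix.mul_fin_two]
      · field_simp
      · field_simp
        have h2 : b * c + b * c = 0 := add_self_K _
        linear_combination hdet - h2 + (b * c - a * d) * (two_eq_zero_K (K := K))
      · field_simp
    rw [e]
    exact S.mul_mem (S.mul_mem (hx _) (S.mul_mem hw (hh' _))) (hx _)

/-- An element of order dividing three and different from one has trace one. -/
lemma trace_eq_one (g : SpecialLinearGroup (Fin 2) K) (h3 : g * g * g = 1) (h1 : g ≠ 1)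
    {a b c d : K} (hg : (g : Matrix (Fin 2) (Fin 2) K) = !![a, b; c, d]) (hdet : a * d + b * c = 1) :
    a + d = 1 := by
  have h00 := congrArg (fun g : SpecialLinearGroup (Fin 2) K => (g : Matrix (Fin 2) (Fin 2) K) 0 0) h3
  have h01 := congrArg (fun g : SpecialLinearGroup (Fin 2) K => (g : Matrix (Fin 2) (Fin 2) K) 0 1) h3
  have h10 := congrArg (fun g : SpecialLinearGroup (Fin 2) K => (g : Matrix (Fin 2) (Fin 2) K) 1 0) h3
  have h11 := congrArg (fun g : SpecialLinearGroup (Fin 2) K => (g : Matrix (Fin 2) (Fin 2) K) 1 1) h3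
  simp [hg, Matrix.mul_fin_two] at h00 h01 h10 h11
  have two : (2 : K) = 0 := two_eq_zero_K
  by_contra hne
  have hne' : (a + d + 1) ^ 2 ≠ 0 := by
    apply pow_ne_zero
    intro h0
    apply hne
    linear_combination h0 - two
  have hb : b = 0 := by
    have : (a + d + 1) ^ 2 * b = 0 := by
      linear_combination h01 - b * hdet + (a + d + a * d + 1) * b * two - b * two
    exact (mul_eq_zero.mp this).resolve_left hne'
  have hc : c = 0 := by
    have : (a + d + 1) ^ 2 * c = 0 := by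
      linear_combination h10 - c * hdet + (a + d + a * d + 1) * c * two - c * two
    exact (mul_eq_zero.mp this).resolve_left hne'
  subst hb hc
  simp at hdet h00 h11
  have hd : d = a ^ 2 := by
    linear_combination (-d) * h00 + (a ^ 2) * hdet
  have ha1 : a + 1 = 0 := by
    have : (a + d + 1) * (a + 1) = 0 := by
      rw [hd]
      linear_combination h00 + (a ^ 2 + a) * two + two
    refine (mul_eq_zero.mp this).resolve_left ?_
    intro h0
    apply hne'
    rw [h0]; simp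
  have ha : a = 1 := by linear_combination ha1 - two
  have hd1 : d = 1 := by rw [hd, ha]; simp
  apply h1
  apply ext2 <;> simp [hg, ha, hd1]

/-- A matrix with given entries. -/
def mkSL (a b c d : K) (h : a * d + b * c = 1) : SpecialLinearGroup (Fin 2) K :=
  ⟨!![a, b; c, d], by
    rw [Matrix.det_fin_two_of, CharTwo.sub_eq_add]; exact h⟩

@[simp] lemma mkSL_coe (a b c d : K) (h : a * d + b * c = 1) :
    ((mkSL a b c d h : SpecialLinearGroup (Fin 2) K) : Matrix (Fin 2) (Fin 2) K) = !![a, b; c, d] := rfl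

/-- Conjugating to `ρ₁`, given a suitable vector. -/
lemma conj_of_vec (g : SpecialLinearGroup (Fin 2) K) {a b c d : K}
    (hg : (g : Matrix (Fin 2) (Fin 2) K) = !![a, b; c, d]) (hdet : a * d + b * c = 1) (ht : a + d = 1)
    (p q s : K) (hs : s * s * (p * (c * p + d * q) + q * (a * p + b * q)) = 1) :
    ∃ R : SpecialLinearGroup (Fin 2) K, g * R = R * rr 1 := by
  have two : (2 : K) = 0 := two_eq_zero_K
  have hd : d = 1 + a := by linear_combination ht - a * two
  subst hd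
  have hR : s * p * (s * (c * p + (1 + a) * q)) + s * (a * p + b * q) * (s * q) = 1 := by
    linear_combination hs
  refine ⟨mkSL _ _ _ _ hR, ?_⟩
  apply ext2 <;> simp [hg, rr_coe, Matrix.mul_fin_two]
  · ring
  · linear_combination (s * p) * hdet + (-a * s * p + a * s * b * q) * two
  · ring
  · linear_combination (s * q) * hdet + (c * s * a * p) * two

/-- Conjugating to `ρ₁`. -/
lemma exists_conj_rr [Finite K] (g : SpecialLinearGroup (Fin 2) K) (h3 : g * g * g = 1) (h1 : g ≠ 1) :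
    ∃ R : SpecialLinearGroup (Fin 2) K, g * R = R * rr 1 := by
  obtain ⟨a, b, c, d, hg, hdet⟩ := eta g
  have ht := trace_eq_one g h3 h1 hg hdet
  have key : ∀ D : K, D ≠ 0 → ∃ s : K, s * s * D = 1 := by
    intro D hD
    obtain ⟨s, hs⟩ := isSquare_of_charTwo' (D⁻¹)
    refine ⟨s, ?_⟩
    rw [← hs]; field_simp
  by_cases hc : c = 0
  · by_cases hb : b = 0
    · obtain ⟨s, hs⟩ := key (1 * (c * 1 + d * 1) + 1 * (a * 1 + b * 1)) (by
        have : (1 : K) * (c * 1 + d * 1) + 1 * (a * 1 + b * 1) = 1 := by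
          rw [hc, hb]; linear_combination ht
        rw [this]; exact one_ne_zero)
      exact conj_of_vec g hg hdet ht 1 1 s hs
    · obtain ⟨s, hs⟩ := key (0 * (c * 0 + d * 1) + 1 * (a * 0 + b * 1)) (by simpa using hb)
      exact conj_of_vec g hg hdet ht 0 1 s hs
  · obtain ⟨s, hs⟩ := key (1 * (c * 1 + d * 0) + 0 * (a * 1 + b * 0)) (by simpa using hc)
    exact conj_of_vec g hg hdet ht 1 0 s hs

end Cfsg.Agent.Lib.PGroup.SL2Fpf
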