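import Cfsg.Agent.Lib.PGroup.SL2FpfMod
import Cfsg.Prelude.Def_BaumannBlocks
import Cfsg.Prelude.Def_Transfer

/-!
# Group level: modules of `G` on which `Q` acts trivially and `x` fixed point freely
-/

set_option autoImplicit false
set_option linter.unusedSectionVars false
set_option linter.unusedSimpArgs false
set_option linter.unusedVariables false
set_option linter.unusedTactic false
set_option linter.style.haveILetI false

namespace Cfsg.Agent.Lib.PGroup.SL2FpfGroup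

open Matrix Cfsg.Agent.Lib.PGroup.SL2Fpf Cfsg.Agent.Lib.PGroup.SL2FpfMod

section Basic

variable {G : Type*} [Group G] (Q : Subgroup G) [Q.Normal]
variable {K : Type*} [Field K] [CharP K 2] [Finite K]
variable (e : G ⧸ Q ≃* SpecialLinearGroup (Fin 2) K)

/-- A lift of an element of `SL₂` to `G`. -/
noncomputable def lft (s : SpecialLinearGroup (Fin 2) K) : G := Quotient.out (e.symm s)

lemma mk_lft (s : SpecialLinearGroup (Fin 2) K) : ((lft Q e s : G) : G ⧸ Q) = e.symm s :=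
  QuotientGroup.out_eq' _

variable {A : Type*} [AddCommGroup A] [DistribMulAction G A]

lemma smul_eq_of_mk_eq (hQ : ∀ q ∈ Q, ∀ a : A, q • a = a) {g g' : G} (h : (g : G ⧸ Q) = g') (a : A) :
    g • a = g' • a := by
  have h1 : g⁻¹ * g' ∈ Q := QuotientGroup.eq.1 h
  have h2 := hQ _ h1 a
  calc g • a = g • ((g⁻¹ * g') • a) := by rw [h2]
    _ = g' • a := by rw [← mul_smul]; simp

/-- The action of `SL₂` induced from `G`. -/
@[reducible] noncomputable def slAct (hQ : ∀ q ∈ Q, ∀ a : A, q • a = a) :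
    DistribMulAction (SpecialLinearGroup (Fin 2) K) A where
  smul s a := lft Q e s • a
  one_smul a := by
    apply hQ
    have := mk_lft Q e (1 : SpecialLinearGroup (Fin 2) K)
    rw [map_one] at this
    exact (QuotientGroup.eq_one_iff _).1 this
  mul_smul s t a := by
    change lft Q e (s * t) • a = lft Q e s • lft Q e t • a
    rw [← mul_smul]
    apply smul_eq_of_mk_eq Q hQ
    rw [QuotientGroup.mk_mul, mk_lft, mk_lft, mk_lft, map_mul]
  smul_zero s := smul_zero _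
  smul_add s a b := smul_add _ _ _

lemma slAct_smul (hQ : ∀ q ∈ Q, ∀ a : A, q • a = a) (g : G) (a : A) :
    (slAct Q e hQ).toSMul.smul (e (g : G ⧸ Q)) a = g • a := by
  change lft Q e (e (g : G ⧸ Q)) • a = g • a
  apply smul_eq_of_mk_eq Q hQ
  rw [mk_lft, MulEquiv.symm_apply_apply]

/-- The hypotheses on the element `x`. -/
structure XGood (x : G) : Prop where
  cube : x * x * x = 1
  notQ : x ∉ Q
  exU : ∃ u : K, u ≠ 0 ∧ u ≠ 1

lemma good_of_fpf {x : G} (hx : XGood (K := K) Q x) (hQ : ∀ q ∈ Q, ∀ a : A, q • a = a)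
    (hf : ∀ a : A, x • a = a → a = 0) :
    letI := slAct Q e hQ
    Good K A := by
  letI := slAct Q e hQ
  have hs : ∀ (g : G) (a : A), e (g : G ⧸ Q) • a = g • a := slAct_smul Q e hQ
  refine ⟨?_, hx.exU⟩
  intro a ha
  have h3 : (e (x : G ⧸ Q)) * (e (x : G ⧸ Q)) * (e (x : G ⧸ Q)) = 1 := by
    rw [← map_mul, ← map_mul, ← QuotientGroup.mk_mul, ← QuotientGroup.mk_mul, hx.cube]
    simp
  have h1 : e (x : G ⧸ Q) ≠ 1 := by
    intro h
    apply hx.notQ
    have : (x : G ⧸ Q) = 1 := by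
      apply e.injective
      rw [h, map_one]
    exact (QuotientGroup.eq_one_iff _).1 this
  obtain ⟨R, hR⟩ := exists_conj_rr _ h3 h1
  have h4 : x • (R • a) = R • a := by
    rw [← hs, ← mul_smul, hR, mul_smul, ha]
  have h5 := hf _ h4
  exact (smul_eq_zero_iff_eq R).1 h5

/-- Structure theorem at the level of `G`. -/
theorem act_natural {x : G} (hx : XGood (K := K) Q x) (hQ : ∀ q ∈ Q, ∀ a : A, q • a = a)
    (hf : ∀ a : A, x • a = a → a = 0) [Finite A] (h2 : ∀ a : A, ∃ n : ℕ, 2 ^ n • a = 0) :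
    ∃ (k : ℕ) (Θ : (Fin k → Fin 2 → K) ≃+ A), ∀ (g : G) (f : Fin k → Fin 2 → K),
      g • Θ f = Θ (fun i => ((e (g : G ⧸ Q) : SpecialLinearGroup (Fin 2) K) : Matrix (Fin 2) (Fin 2) K).mulVec (f i)) := by
  letI := slAct Q e hQ
  have hs : ∀ (g : G) (a : A), e (g : G ⧸ Q) • a = g • a := slAct_smul Q e hQ
  have hG := good_of_fpf Q e hx hQ hf
  obtain ⟨k, Θ, hΘ⟩ := natural_structure hG (Uu_eq_top hG h2)
  refine ⟨k, Θ, ?_⟩
  intro g f
  rw [← hs, hΘ]

include e in
/-- Pairing theorem at the level of `G`. -/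
theorem act_pair {x : G} (hx : XGood (K := K) Q x)
    {B C : Type*} [AddCommGroup B] [DistribMulAction G B] [AddCommGroup C] [DistribMulAction G C]
    (hQA : ∀ q ∈ Q, ∀ a : A, q • a = a) (hQB : ∀ q ∈ Q, ∀ a : B, q • a = a)
    (hQC : ∀ q ∈ Q, ∀ a : C, q • a = a)
    (hfA : ∀ a : A, x • a = a → a = 0) (hfB : ∀ a : B, x • a = a → a = 0)
    (hfC : ∀ a : C, x • a = a → a = 0)
    [Finite A] [Finite B] [Finite C]
    (h2A : ∀ a : A, ∃ n : ℕ, 2 ^ n • a = 0) (h2B : ∀ a : B, ∃ n : ℕ, 2 ^ n • a = 0)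
    (h2C : ∀ a : C, ∃ n : ℕ, 2 ^ n • a = 0)
    (β : A →+ B →+ C) (hβ : ∀ (g : G) a b, β (g • a) (g • b) = g • β a b) (a : A) (b : B) :
    β a b = 0 := by
  letI := slAct Q e hQA
  letI := slAct Q e hQB
  letI := slAct Q e hQC
  have hsA : ∀ (g : G) (a : A), e (g : G ⧸ Q) • a = g • a := slAct_smul Q e hQA
  have hsB : ∀ (g : G) (a : B), e (g : G ⧸ Q) • a = g • a := slAct_smul Q e hQB
  have hsC : ∀ (g : G) (a : C), e (g : G ⧸ Q) • a = g • a := slAct_smul Q e hQC
  have hGA := good_of_fpf Q e hx hQA hfA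
  have hGB := good_of_fpf Q e hx hQB hfB
  have hGC := good_of_fpf Q e hx hQC hfC
  refine pair_zero hGA hGB hGC (Uu_eq_top hGA h2A) (Uu_eq_top hGB h2B) (Uu_eq_top hGC h2C) β ?_ a b
  intro s a b
  obtain ⟨g, hg⟩ := QuotientGroup.mk_surjective (e.symm s)
  have hs : e (g : G ⧸ Q) = s := by rw [hg, MulEquiv.apply_symm_apply]
  rw [← hs, hsA, hsB, hsC, hβ]

end Basic

/-- A fixed point free automorphism: the lifting lemma for cosets. -/
lemma fpf_coset {G : Type*} [Group G] [Finite G] (M : Subgroup G) [M.Normal] (x u : G)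
    (hf : ∀ m ∈ M, x * m * x⁻¹ = m → m = 1)
    (hu : u⁻¹ * (x * u * x⁻¹) ∈ M) : ∃ m ∈ M, x * (u * m) * x⁻¹ = u * m := by
  classical
  let σ : M → M := fun m => ⟨x * m * x⁻¹, Subgroup.Normal.conj_mem inferInstance _ m.2 x⟩
  let F : M → M := fun m => m * (σ m)⁻¹
  have hinj : Function.Injective F := by
    intro a b hab
    have h1 : (a : G) * (x * a * x⁻¹)⁻¹ = b * (x * b * x⁻¹)⁻¹ := congrArg Subtype.val hab
    have h2 : ((b : G)⁻¹ * a) = x * ((b : G)⁻¹ * a) * x⁻¹ := by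
      have h3 : (b : G)⁻¹ * a = (x * b * x⁻¹)⁻¹ * (x * a * x⁻¹) := by
        have h4 : (a : G) = b * (x * b * x⁻¹)⁻¹ * (x * a * x⁻¹) := by
          rw [← h1]; group
        calc (b : G)⁻¹ * a = (b : G)⁻¹ * (b * (x * b * x⁻¹)⁻¹ * (x * a * x⁻¹)) := by rw [← h4]
          _ = _ := by group
      calc (b : G)⁻¹ * a = (x * b * x⁻¹)⁻¹ * (x * a * x⁻¹) := h3
        _ = x * ((b : G)⁻¹ * a) * x⁻¹ := by group
    have h5 := hf _ (M.mul_mem (M.inv_mem b.2) a.2) h2.symm
    apply Subtype.ext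
    have : (a : G) = b := by
      have h6 : (b : G) * ((b : G)⁻¹ * a) = b := by rw [h5, mul_one]
      simpa using h6
    exact this
  have hsurj : Function.Surjective F := Finite.injective_iff_surjective.1 hinj
  obtain ⟨m, hm⟩ := hsurj ⟨_, hu⟩
  refine ⟨m, m.2, ?_⟩
  have h1 : (m : G) * (x * m * x⁻¹)⁻¹ = u⁻¹ * (x * u * x⁻¹) := congrArg Subtype.val hm
  have h2 : x * u * x⁻¹ = u * (m * (x * m * x⁻¹)⁻¹) := by rw [h1]; group
  calc x * (u * m) * x⁻¹ = (x * u * x⁻¹) * (x * m * x⁻¹) := by group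
    _ = u * (m * (x * m * x⁻¹)⁻¹) * (x * m * x⁻¹) := by rw [h2]
    _ = u * m := by group


section SectSec

variable {G : Type*} [Group G]

/-- A section `L/M` of `G` on which `Q` acts trivially. -/
structure Sect (Q : Subgroup G) where
  L : Subgroup G
  M : Subgroup G
  nL : L.Normal
  nM : M.Normal
  le : M ≤ L
  sub : L ≤ Q
  tr : ∀ q ∈ Q, ∀ u ∈ L, q * u * q⁻¹ * u⁻¹ ∈ M

namespace Sect

variable {Q : Subgroup G} (S : Sect Q)

/-- `M` inside `L`. -/
def M' : Subgroup S.L := S.M.subgroupOf S.L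

instance M'_normal : S.M'.Normal := by
  haveI := S.nM
  exact Subgroup.Normal.subgroupOf inferInstance _

/-- The underlying type of the section. -/
def Car : Type _ := ↥S.L ⧸ S.M'

noncomputable instance carGroup : CommGroup S.Car :=
  { (QuotientGroup.Quotient.group S.M' : Group (↥S.L ⧸ S.M')) with
    mul_comm := by
      intro a b
      induction a using QuotientGroup.induction_on with
      | H a =>
      induction b using QuotientGroup.induction_on with
      | H b =>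
      change ((a * b : ↥S.L) : ↥S.L ⧸ S.M') = ((b * a : ↥S.L) : ↥S.L ⧸ S.M')
      rw [QuotientGroup.eq]
      change (((a * b)⁻¹ * (b * a) : ↥S.L) : G) ∈ S.M
      have h := S.tr _ (S.sub (S.L.inv_mem b.2)) _ (S.L.inv_mem a.2)
      have e : (((a * b)⁻¹ * (b * a) : ↥S.L) : G) =
          (b : G)⁻¹ * (a : G)⁻¹ * (b : G)⁻¹⁻¹ * (a : G)⁻¹⁻¹ := by
        simp [mul_assoc]
      rw [e]
      exact h }

/-- The projection to the section. -/
def pr : ↥S.L →* S.Car := QuotientGroup.mk' S.M'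

lemma pr_surj : Function.Surjective S.pr := QuotientGroup.mk'_surjective _

lemma pr_eq_one (u : ↥S.L) : S.pr u = 1 ↔ (u : G) ∈ S.M := by
  change ((u : ↥S.L) : ↥S.L ⧸ S.M') = 1 ↔ _
  rw [QuotientGroup.eq_one_iff]
  rfl

lemma pr_eq_iff (u v : ↥S.L) : S.pr u = S.pr v ↔ (u : G)⁻¹ * v ∈ S.M := by
  change ((u : ↥S.L) : ↥S.L ⧸ S.M') = ((v : ↥S.L) : ↥S.L ⧸ S.M') ↔ _
  rw [QuotientGroup.eq]
  rfl

lemma car_induction {P : S.Car → Prop} (h : ∀ u, P (S.pr u)) (a : S.Car) : P a := by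
  obtain ⟨u, rfl⟩ := S.pr_surj a
  exact h u

/-- Conjugation on `L`. -/
def conjL (g : G) : ↥S.L →* ↥S.L :=
  MonoidHom.mk' (fun u => ⟨g * u * g⁻¹, S.nL.conj_mem _ u.2 g⟩) (by
    intro a b
    apply Subtype.ext
    simp only [Subgroup.coe_mul]
    group)

@[simp] lemma conjL_coe (g : G) (u : ↥S.L) : ((S.conjL g u : ↥S.L) : G) = g * u * g⁻¹ := rfl

/-- Conjugation on the section. -/
noncomputable def cj (g : G) : S.Car →* S.Car :=
  QuotientGroup.map S.M' S.M' (S.conjL g) (by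
    intro u hu
    exact S.nM.conj_mem _ hu g)

lemma cj_pr (g : G) (u : ↥S.L) : S.cj g (S.pr u) = S.pr (S.conjL g u) := rfl

/-- The section as an additive group. -/
abbrev Add := Additive S.Car

lemma exists_ofMul (a : S.Add) : ∃ u, a = Additive.ofMul (S.pr u) := by
  obtain ⟨u, hu⟩ := S.pr_surj a.toMul
  exact ⟨u, by rw [hu]; rfl⟩

noncomputable instance addAct : DistribMulAction G S.Add where
  smul g a := Additive.ofMul (S.cj g a.toMul)
  one_smul a := by
    obtain ⟨u, rfl⟩ := S.exists_ofMul a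
    change Additive.ofMul (S.cj 1 (S.pr u)) = _
    rw [cj_pr]
    congr 2
    apply Subtype.ext
    simp
  mul_smul g h a := by
    obtain ⟨u, rfl⟩ := S.exists_ofMul a
    change Additive.ofMul (S.cj (g * h) (S.pr u)) = Additive.ofMul (S.cj g (S.cj h (S.pr u)))
    rw [cj_pr, cj_pr, cj_pr]
    congr 2
    apply Subtype.ext
    simp only [conjL_coe]
    group
  smul_zero g := by
    change Additive.ofMul (S.cj g 1) = _
    rw [map_one]
    rfl
  smul_add g a b := by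
    change Additive.ofMul (S.cj g (a.toMul * b.toMul)) = _
    rw [map_mul]
    rfl

lemma add_induction {P : S.Add → Prop} (h : ∀ u, P (Additive.ofMul (S.pr u))) (a : S.Add) : P a := by
  obtain ⟨u, rfl⟩ := S.exists_ofMul a
  exact h u

lemma smul_pr (g : G) (u : ↥S.L) :
    g • (Additive.ofMul (S.pr u) : S.Add) = Additive.ofMul (S.pr (S.conjL g u)) := rfl

lemma trivial_Q (q : G) (hq : q ∈ Q) (a : S.Add) : q • a = a := by
  induction a using S.add_induction with
  | h u =>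
    rw [smul_pr]
    congr 1
    rw [pr_eq_iff]
    haveI := S.nM
    have h := S.tr q hq _ (S.L.inv_mem u.2)
    have e : ((S.conjL q u : ↥S.L) : G)⁻¹ * (u : G) = q * ((u⁻¹ : ↥S.L) : G) * q⁻¹ * ((u⁻¹ : ↥S.L) : G)⁻¹ := by
      simp only [conjL_coe, Subgroup.coe_inv]
      group
    rw [e]
    exact h

instance carFinite [Finite G] : Finite S.Add := by
  change Finite (↥S.L ⧸ S.M')
  infer_instance

lemma two_pow (hQ : IsPGroup 2 ↥Q) (a : S.Add) : ∃ n : ℕ, 2 ^ n • a = 0 := by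
  induction a using S.add_induction with
  | h u =>
    obtain ⟨n, hn⟩ := hQ ⟨u, S.sub u.2⟩
    refine ⟨n, ?_⟩
    have h1 : (u : G) ^ 2 ^ n = 1 := by
      have := congrArg Subtype.val hn
      simpa using this
    have h2 : u ^ 2 ^ n = 1 := by
      apply Subtype.ext
      simpa using h1
    rw [← ofMul_pow, ← map_pow, h2, map_one]
    rfl

lemma fpf_add [Finite G] (x : G) (hf : ∀ q ∈ Q, x * q * x⁻¹ = q → q = 1) (a : S.Add)
    (ha : x • a = a) : a = 0 := by
  induction a using S.add_induction with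
  | h u =>
    rw [smul_pr] at ha
    have h1 := Additive.ofMul.injective ha
    rw [pr_eq_iff] at h1
    haveI := S.nM
    have h2 : (u : G)⁻¹ * (x * u * x⁻¹) ∈ S.M := by
      have := S.M.inv_mem h1
      simpa using this
    obtain ⟨m, hm, hm2⟩ := fpf_coset S.M x u (fun m hm => hf m (S.sub (S.le hm))) h2
    have h3 := hf _ (S.sub (S.L.mul_mem u.2 (S.le hm))) hm2
    have h4 : (u : G) = m⁻¹ := eq_inv_of_mul_eq_one_left h3
    have h5 : (u : G) ∈ S.M := by rw [h4]; exact S.M.inv_mem hm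
    have h6 : S.pr u = 1 := (S.pr_eq_one u).2 h5
    rw [h6]
    rfl

end Sect

end SectSec


section Pairing

variable {G : Type*} [Group G] {Q : Subgroup G}

open Additive in
/-- The commutator pairing of sections. -/
lemma exists_pairing (S T : Sect Q)
    (hcm : ∀ u ∈ S.L, ∀ v ∈ S.L, u * v * u⁻¹ * v⁻¹ ∈ T.L)
    (hN1 : ∀ u ∈ S.M, ∀ v ∈ S.L, u * v * u⁻¹ * v⁻¹ ∈ T.M)
    (hN2 : ∀ u ∈ S.L, ∀ v ∈ S.M, u * v * u⁻¹ * v⁻¹ ∈ T.M) :
    ∃ β : S.Add →+ S.Add →+ T.Add, ∀ u v : ↥S.L,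
      β (Additive.ofMul (S.pr u)) (Additive.ofMul (S.pr v)) =
        Additive.ofMul (T.pr ⟨(u : G) * v * (u : G)⁻¹ * (v : G)⁻¹, hcm _ u.2 _ v.2⟩) := by
  classical
  obtain ⟨cm, hcm'⟩ : ∃ cm : ↥S.L → ↥S.L → T.Car, ∀ u v, cm u v =
      T.pr ⟨(u : G) * v * (u : G)⁻¹ * (v : G)⁻¹, hcm _ u.2 _ v.2⟩ := ⟨_, fun _ _ => rfl⟩
  have conj_triv : ∀ q ∈ Q, ∀ c : ↥T.L, T.pr (T.conjL q c) = T.pr c := by
    intro q hq c
    have := T.trivial_Q q hq (Additive.ofMul (T.pr c))
    exact Additive.ofMul.injective this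
  have cm_r : ∀ u v w, cm u (v * w) = cm u v * cm u w := by
    intro u v w
    rw [hcm', hcm', hcm', ← conj_triv v (S.sub v.2)
      ⟨(u : G) * w * (u : G)⁻¹ * (w : G)⁻¹, hcm _ u.2 _ w.2⟩, ← map_mul]
    congr 1
    apply Subtype.ext
    simp only [Subgroup.coe_mul, Sect.conjL_coe]
    group
  have cm_l : ∀ u u' v, cm (u * u') v = cm u v * cm u' v := by
    intro u u' v
    rw [hcm', hcm', hcm', mul_comm, ← conj_triv u (S.sub u.2)
      ⟨(u' : G) * v * (u' : G)⁻¹ * (v : G)⁻¹, hcm _ u'.2 _ v.2⟩, ← map_mul]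
    congr 1
    apply Subtype.ext
    simp only [Subgroup.coe_mul, Sect.conjL_coe]
    group
  have cm_r1 : ∀ u v : ↥S.L, (v : G) ∈ S.M → cm u v = 1 := by
    intro u v hv
    rw [hcm', T.pr_eq_one]
    exact hN2 _ u.2 _ hv
  have cm_l1 : ∀ u v : ↥S.L, (u : G) ∈ S.M → cm u v = 1 := by
    intro u v hu
    rw [hcm', T.pr_eq_one]
    exact hN1 _ hu _ v.2
  have cong : ∀ u u₁ v v₁ : ↥S.L, S.pr u = S.pr u₁ → S.pr v = S.pr v₁ → cm u v = cm u₁ v₁ := by
    intro u u₁ v v₁ hu hv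
    rw [S.pr_eq_iff] at hu hv
    obtain ⟨m, hm, rfl⟩ : ∃ m : ↥S.L, (m : G) ∈ S.M ∧ u₁ = u * m :=
      ⟨u⁻¹ * u₁, by simpa using hu, by group⟩
    obtain ⟨n, hn, rfl⟩ : ∃ n : ↥S.L, (n : G) ∈ S.M ∧ v₁ = v * n :=
      ⟨v⁻¹ * v₁, by simpa using hv, by group⟩
    rw [cm_r, cm_l, cm_l, cm_r1 _ n hn, cm_r1 _ n hn, cm_l1 m v hm]
    simp
  obtain ⟨F, hF⟩ : ∃ F : S.Car → S.Car → T.Car, ∀ u v, F (S.pr u) (S.pr v) = cm u v := by
    refine ⟨fun a b => cm (Function.surjInv S.pr_surj a) (Function.surjInv S.pr_surj b), ?_⟩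
    intro u v
    exact cong _ _ _ _ (Function.surjInv_eq S.pr_surj _) (Function.surjInv_eq S.pr_surj _)
  have F_r : ∀ a b b', F a (b * b') = F a b * F a b' := by
    intro a b b'
    obtain ⟨u, rfl⟩ := S.pr_surj a
    obtain ⟨v, rfl⟩ := S.pr_surj b
    obtain ⟨w, rfl⟩ := S.pr_surj b'
    rw [← map_mul, hF, hF, hF, cm_r]
  have F_l : ∀ a a' b, F (a * a') b = F a b * F a' b := by
    intro a a' b
    obtain ⟨u, rfl⟩ := S.pr_surj a
    obtain ⟨v, rfl⟩ := S.pr_surj a'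
    obtain ⟨w, rfl⟩ := S.pr_surj b
    rw [← map_mul, hF, hF, hF, cm_l]
  refine ⟨AddMonoidHom.mk' (fun a => AddMonoidHom.mk' (fun b => Additive.ofMul (F a.toMul b.toMul)) ?_) ?_, ?_⟩
  · intro b b'
    change Additive.ofMul (F a.toMul (b.toMul * b'.toMul)) = _
    rw [F_r]
    rfl
  · intro a a'
    refine AddMonoidHom.ext (fun b => ?_)
    change Additive.ofMul (F (a.toMul * a'.toMul) b.toMul) = _
    rw [F_l]
    rfl
  · intro u v
    change Additive.ofMul (F (S.pr u) (S.pr v)) = _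
    rw [hF, hcm']

end Pairing

section Final

variable {G : Type*} [Group G] [Finite G] (Q : Subgroup G) [Q.Normal]
variable {K : Type*} [Field K] [CharP K 2] [Finite K]
variable (e : G ⧸ Q ≃* SpecialLinearGroup (Fin 2) K)

include e in
/-- Vanishing of commutators modulo `T.M`. -/
theorem comm_mem {x : G} (hx : XGood (K := K) Q x) (hQ2 : IsPGroup 2 ↥Q)
    (hfpf : ∀ q ∈ Q, x * q * x⁻¹ = q → q = 1) (S T : Sect Q)
    (hcm : ∀ u ∈ S.L, ∀ v ∈ S.L, u * v * u⁻¹ * v⁻¹ ∈ T.L)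
    (hN1 : ∀ u ∈ S.M, ∀ v ∈ S.L, u * v * u⁻¹ * v⁻¹ ∈ T.M)
    (hN2 : ∀ u ∈ S.L, ∀ v ∈ S.M, u * v * u⁻¹ * v⁻¹ ∈ T.M) :
    ∀ u ∈ S.L, ∀ v ∈ S.L, u * v * u⁻¹ * v⁻¹ ∈ T.M := by
  obtain ⟨β, hβ⟩ := exists_pairing S T hcm hN1 hN2
  have hinv : ∀ (g : G) a b, β (g • a) (g • b) = g • β a b := by
    intro g a b
    induction a using S.add_induction with
    | h u =>
    induction b using S.add_induction with
    | h v =>
    rw [S.smul_pr, S.smul_pr, hβ, hβ, T.smul_pr]
    congr 2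
    apply Subtype.ext
    simp only [Sect.conjL_coe]
    group
  intro u hu v hv
  have h0 := act_pair Q e hx (fun q hq a => S.trivial_Q q hq a) (fun q hq a => S.trivial_Q q hq a)
    (fun q hq a => T.trivial_Q q hq a) (fun a ha => S.fpf_add x hfpf a ha)
    (fun a ha => S.fpf_add x hfpf a ha) (fun a ha => T.fpf_add x hfpf a ha)
    (S.two_pow hQ2) (S.two_pow hQ2) (T.two_pow hQ2) β hinv
    (Additive.ofMul (S.pr ⟨u, hu⟩)) (Additive.ofMul (S.pr ⟨v, hv⟩))
  rw [hβ] at h0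
  exact (T.pr_eq_one _).1 (Additive.ofMul.injective h0)

include e in
/-- `Q` is abelian. -/
theorem Q_comm {x : G} (hx : XGood (K := K) Q x) (hQ2 : IsPGroup 2 ↥Q)
    (hfpf : ∀ q ∈ Q, x * q * x⁻¹ = q → q = 1) : ⁅Q, Q⁆ = ⊥ := by
  have key : ∀ n : ℕ, (Q.lowerCentralSeries n).Normal ∧
      Q.lowerCentralSeries n ≤ Q ∧ ⁅Q, Q⁆ ≤ Q.lowerCentralSeries n := by
    intro n
    induction n with
    | zero =>
      simp only [Subgroup.lowerCentralSeries_zero]
      exact ⟨inferInstance, le_rfl, Subgroup.commutator_le_left _ _⟩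
    | succ n ih =>
      obtain ⟨h1, h2, h3⟩ := ih
      rw [Subgroup.lowerCentralSeries_succ]
      set M := Q.lowerCentralSeries n with hM
      have hcl : ⁅M, Q⁆ ≤ M := Subgroup.commutator_le_left _ _
      refine ⟨inferInstance, hcl.trans h2, ?_⟩
      let S : Sect Q := ⟨Q, M, inferInstance, h1, h2, le_rfl, fun q hq u hu =>
        h3 (Subgroup.commutator_mem_commutator hq hu)⟩
      have hcom : ∀ q ∈ Q, ∀ u ∈ M, q * u * q⁻¹ * u⁻¹ ∈ ⁅M, Q⁆ := by
        intro q hq u hu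
        rw [Subgroup.commutator_comm]
        exact Subgroup.commutator_mem_commutator hq hu
      have hcom' : ∀ u ∈ M, ∀ q ∈ Q, u * q * u⁻¹ * q⁻¹ ∈ ⁅M, Q⁆ := by
        intro u hu q hq
        exact Subgroup.commutator_mem_commutator hu hq
      let T : Sect Q := ⟨M, ⁅M, Q⁆, h1, inferInstance, hcl, h2, hcom⟩
      have := comm_mem Q e hx hQ2 hfpf S T
        (fun u hu v hv => h3 (Subgroup.commutator_mem_commutator hu hv))
        (fun u hu v hv => hcom' u hu v hv)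
        (fun u hu v hv => hcom u hu v hv)
      rw [Subgroup.commutator_le]
      intro u hu v hv
      exact this u hu v hv
  have hnil : Group.IsNilpotent ↥Q := hQ2.isNilpotent
  obtain ⟨n, hn⟩ := (Subgroup.isNilpotent_iff_lowerCentralSeries Q).1 hnil
  have h := (key n).2.2
  rw [hn] at h
  simpa using h

end Final


section Assemble

variable {G : Type*} [Group G] {Q : Subgroup G} [Q.Normal]
variable {K : Type*} [Field K] [CharP K 2] {k : ℕ}

/-- From a coordinate system on `Q` to the decomposition into natural modules. -/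
theorem assemble (φ : ↥Q → Fin k → Fin 2 → K) (φ_mul : ∀ u v, φ (u * v) = φ u + φ v)
    (φ_inj : Function.Injective φ) (φ_surj : Function.Surjective φ)
    (ρ : G →* SpecialLinearGroup (Fin 2) K) (ρ_surj : Function.Surjective ρ)
    (φ_conj : ∀ (g : G) (u : ↥Q), φ ⟨g * u * g⁻¹, Subgroup.Normal.conj_mem inferInstance _ u.2 g⟩ =
      fun i => ((ρ g : SpecialLinearGroup (Fin 2) K) : Matrix (Fin 2) (Fin 2) K).mulVec (φ u i)) :
    ∃ V : Fin k → Subgroup G, (∀ i, V i ≤ Q ∧ (V i).Normal ∧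
        Cfsg.ActsAsSL2OnSection K ⊤ ⊤ (V i) ⊥) ∧ iSupIndep V ∧ ⨆ i, V i = Q := by
  classical
  have φ_one : φ 1 = 0 := by
    have := φ_mul 1 1
    rw [mul_one] at this
    simpa using this
  have φ_inv : ∀ u, φ u⁻¹ = - φ u := by
    intro u
    have := φ_mul u⁻¹ u
    rw [inv_mul_cancel, φ_one] at this
    exact (eq_neg_of_add_eq_zero_left this.symm)
  -- the pieces
  let V : Fin k → Subgroup G := fun i =>
    { carrier := {g | ∃ h : g ∈ Q, ∀ j, j ≠ i → φ ⟨g, h⟩ j = 0}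
      one_mem' := ⟨Q.one_mem, fun j _ => by
        have : (⟨1, Q.one_mem⟩ : ↥Q) = 1 := rfl
        rw [this, φ_one]; rfl⟩
      mul_mem' := by
        rintro a b ⟨ha, ha'⟩ ⟨hb, hb'⟩
        refine ⟨Q.mul_mem ha hb, fun j hj => ?_⟩
        have : (⟨a * b, Q.mul_mem ha hb⟩ : ↥Q) = ⟨a, ha⟩ * ⟨b, hb⟩ := rfl
        rw [this, φ_mul, Pi.add_apply, ha' j hj, hb' j hj, add_zero]
      inv_mem' := by
        rintro a ⟨ha, ha'⟩
        refine ⟨Q.inv_mem ha, fun j hj => ?_⟩
        have : (⟨a⁻¹, Q.inv_mem ha⟩ : ↥Q) = (⟨a, ha⟩ : ↥Q)⁻¹ := rfl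
        rw [this, φ_inv, Pi.neg_apply, ha' j hj, neg_zero] }
  have hV : ∀ i g, g ∈ V i ↔ ∃ h : g ∈ Q, ∀ j, j ≠ i → φ ⟨g, h⟩ j = 0 := fun _ _ => Iff.rfl
  have hVle : ∀ i, V i ≤ Q := fun i g hg => hg.1
  have hVn : ∀ i, (V i).Normal := by
    intro i
    constructor
    rintro u ⟨hu, hu'⟩ g
    refine ⟨Subgroup.Normal.conj_mem inferInstance _ hu g, fun j hj => ?_⟩
    have := φ_conj g ⟨u, hu⟩
    have h2 := congrFun this j
    simp only at h2
    rw [h2, hu' j hj, Matrix.mulVec_zero]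
  -- the complement
  let W : Fin k → Subgroup G := fun i =>
    { carrier := {g | ∃ h : g ∈ Q, φ ⟨g, h⟩ i = 0}
      one_mem' := ⟨Q.one_mem, by
        have : (⟨1, Q.one_mem⟩ : ↥Q) = 1 := rfl
        rw [this, φ_one]; rfl⟩
      mul_mem' := by
        rintro a b ⟨ha, ha'⟩ ⟨hb, hb'⟩
        refine ⟨Q.mul_mem ha hb, ?_⟩
        have : (⟨a * b, Q.mul_mem ha hb⟩ : ↥Q) = ⟨a, ha⟩ * ⟨b, hb⟩ := rfl
        rw [this, φ_mul, Pi.add_apply, ha', hb', add_zero]
      inv_mem' := by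
        rintro a ⟨ha, ha'⟩
        refine ⟨Q.inv_mem ha, ?_⟩
        have : (⟨a⁻¹, Q.inv_mem ha⟩ : ↥Q) = (⟨a, ha⟩ : ↥Q)⁻¹ := rfl
        rw [this, φ_inv, Pi.neg_apply, ha', neg_zero] }
  have single_mem : ∀ i (w : Fin 2 → K), ∃ u : ↥Q, φ u = Pi.single i w ∧ (u : G) ∈ V i := by
    intro i w
    obtain ⟨u, hu⟩ := φ_surj (Pi.single i w)
    refine ⟨u, hu, u.2, fun j hj => ?_⟩
    have : (⟨(u : G), u.2⟩ : ↥Q) = u := rfl
    rw [this, hu, Pi.single_eq_of_ne hj]
  refine ⟨V, ?_, ?_, ?_⟩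
  · intro i
    refine ⟨hVle i, hVn i, ?_, bot_le, ?_⟩
    · intro g _
      rw [Subgroup.mem_normalizer_iff]
      intro h
      constructor
      · intro hh
        exact (hVn i).conj_mem _ hh g
      · intro hh
        have := (hVn i).conj_mem _ hh g⁻¹
        simpa [mul_assoc] using this
    · refine ⟨ρ.comp (⊤ : Subgroup G).subtype,
        MonoidHom.mk' (fun u : ↥(V i) => Multiplicative.ofAdd (φ ⟨(u : G), (hVle i) u.2⟩ i)) ?_, ?_, ?_, ?_, ?_⟩
      · intro a b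
        have : (⟨((a * b : ↥(V i)) : G), (hVle i) (a * b).2⟩ : ↥Q) =
            ⟨(a : G), (hVle i) a.2⟩ * ⟨(b : G), (hVle i) b.2⟩ := rfl
        rw [this, φ_mul]
        rfl
      · rw [eq_top_iff]
        rintro s -
        obtain ⟨g, rfl⟩ := ρ_surj s
        exact ⟨⟨g, trivial⟩, rfl⟩
      · intro w
        obtain ⟨u, hu, hu'⟩ := single_mem i (Multiplicative.toAdd w)
        refine ⟨⟨u, hu'⟩, ?_⟩
        change Multiplicative.ofAdd (φ ⟨(u : G), (hVle i) hu'⟩ i) = w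
        have : (⟨(u : G), (hVle i) hu'⟩ : ↥Q) = u := rfl
        rw [this, hu, Pi.single_eq_same]
        rfl
      · intro u
        constructor
        · intro h
          have h1 : φ ⟨(u : G), (hVle i) u.2⟩ i = 0 := Multiplicative.ofAdd.injective h
          have h2 : φ ⟨(u : G), (hVle i) u.2⟩ = φ 1 := by
            rw [φ_one]
            funext j
            by_cases hj : j = i
            · subst hj; rw [h1]; rfl
            · obtain ⟨_, h3⟩ := u.2
              rw [h3 j hj]; rfl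
          have h3 := φ_inj h2
          have h4 : (u : G) = 1 := congrArg Subtype.val h3
          simp [h4]
        · intro h
          have h4 : (u : G) = 1 := by simpa using h
          change Multiplicative.ofAdd (φ ⟨(u : G), (hVle i) u.2⟩ i) = 1
          have : (⟨(u : G), (hVle i) u.2⟩ : ↥Q) = 1 := Subtype.ext h4
          rw [this, φ_one]
          rfl
      · intro g u
        refine ⟨⟨(g : G) * u * (g : G)⁻¹, (hVn i).conj_mem _ u.2 _⟩, rfl, ?_⟩
        have := φ_conj (g : G) ⟨(u : G), (hVle i) u.2⟩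
        exact congrFun this i
  · -- independence
    rw [iSupIndep_def]
    intro i
    rw [Subgroup.disjoint_def]
    intro g hg hg'
    have h1 : (⨆ j, ⨆ (_ : j ≠ i), V j) ≤ W i := by
      refine iSup_le fun j => iSup_le fun hj => ?_
      rintro a ⟨ha, ha'⟩
      exact ⟨ha, ha' i (Ne.symm hj)⟩
    obtain ⟨h2, h3⟩ := hg
    obtain ⟨_, h4⟩ := h1 hg'
    have h5 : φ ⟨g, h2⟩ = φ 1 := by
      rw [φ_one]
      funext j
      by_cases hj : j = i
      · subst hj; rw [h4]; rfl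
      · rw [h3 j hj]; rfl
    exact congrArg Subtype.val (φ_inj h5)
  · -- generation
    apply le_antisymm
    · exact iSup_le hVle
    · intro u hu
      let T : AddSubgroup (Fin k → Fin 2 → K) :=
        { carrier := {f | ∃ w : ↥Q, φ w = f ∧ (w : G) ∈ ⨆ i, V i}
          zero_mem' := ⟨1, φ_one, Subgroup.one_mem _⟩
          add_mem' := by
            rintro _ _ ⟨a, rfl, ha⟩ ⟨b, rfl, hb⟩
            exact ⟨a * b, φ_mul a b, Subgroup.mul_mem _ ha hb⟩
          neg_mem' := by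
            rintro _ ⟨a, rfl, ha⟩
            exact ⟨a⁻¹, φ_inv a, Subgroup.inv_mem _ ha⟩ }
      have h1 : φ ⟨u, hu⟩ ∈ T := by
        rw [← Finset.univ_sum_single (φ ⟨u, hu⟩)]
        refine sum_mem fun i _ => ?_
        obtain ⟨w, hw, hw'⟩ := single_mem i (φ ⟨u, hu⟩ i)
        exact ⟨w, hw, Subgroup.mem_iSup_of_mem i hw'⟩
      obtain ⟨w, hw, hw'⟩ := h1
      have := φ_inj hw
      rw [this] at hw'
      exact hw'

end Assemble

/-- The full statement of the theorem on extensions with a fixed point free element of order three. -/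
theorem main {G : Type*} [Group G] [Finite G]
    (Q : Subgroup G) [Q.Normal] (hQ : IsPGroup 2 ↥Q)
    {K : Type*} [Field K] [CharP K 2] [Finite K] (hU : ∃ u : K, u ≠ 0 ∧ u ≠ 1)
    (e : G ⧸ Q ≃* SpecialLinearGroup (Fin 2) K)
    (x : G) (hx3 : x * x * x = 1) (hx1 : x ≠ 1) (hfpf : ∀ q ∈ Q, x * q * x⁻¹ = q → q = 1) :
    Cfsg.IsElementaryAbelian 2 Q ∧
      ∃ (k : ℕ) (V : Fin k → Subgroup G), (∀ i, V i ≤ Q ∧ (V i).Normal ∧
        Cfsg.ActsAsSL2OnSection K ⊤ ⊤ (V i) ⊥) ∧ iSupIndep V ∧ ⨆ i, V i = Q := by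
  have hxQ : x ∉ Q := by
    intro h
    exact hx1 (hfpf x h (by group))
  have hX : XGood (K := K) Q x := ⟨hx3, hxQ, hU⟩
  have hc := Q_comm Q e hX hQ hfpf
  have hc' : ∀ q ∈ Q, ∀ u ∈ Q, q * u * q⁻¹ * u⁻¹ = 1 := by
    intro q hq u hu
    have : q * u * q⁻¹ * u⁻¹ ∈ ⁅Q, Q⁆ := Subgroup.commutator_mem_commutator hq hu
    rw [hc] at this
    simpa using this
  let S : Sect Q := ⟨Q, ⊥, inferInstance, inferInstance, bot_le, le_rfl, fun q hq u hu => by
    rw [hc' q hq u hu]; exact Subgroup.one_mem _⟩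
  obtain ⟨k, Θ, hΘ⟩ := act_natural Q e hX (fun q hq a => S.trivial_Q q hq a)
    (fun a ha => S.fpf_add x hfpf a ha) (S.two_pow hQ)
  -- the coordinates
  have pr_inj : Function.Injective S.pr := by
    rw [injective_iff_map_eq_one]
    intro u hu
    have h : (u : G) ∈ (⊥ : Subgroup G) := (S.pr_eq_one u).1 hu
    exact Subtype.ext (Subgroup.mem_bot.1 h)
  let φ : ↥Q → Fin k → Fin 2 → K := fun u => Θ.symm (Additive.ofMul (S.pr u))
  have φ_mul : ∀ u v, φ (u * v) = φ u + φ v := by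
    intro u v
    change Θ.symm (Additive.ofMul (S.pr (u * v))) = _
    rw [map_mul, ofMul_mul, map_add]
  have φ_inj : Function.Injective φ := by
    intro u v h
    apply pr_inj
    exact Additive.ofMul.injective (Θ.symm.injective h)
  have φ_surj : Function.Surjective φ := by
    intro f
    obtain ⟨u, hu⟩ := S.exists_ofMul (Θ f)
    refine ⟨u, ?_⟩
    change Θ.symm (Additive.ofMul (S.pr u)) = f
    rw [← hu, AddEquiv.symm_apply_apply]
  let ρ : G →* SpecialLinearGroup (Fin 2) K := e.toMonoidHom.comp (QuotientGroup.mk' Q)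
  have ρ_surj : Function.Surjective ρ := by
    intro s
    obtain ⟨g, hg⟩ := QuotientGroup.mk_surjective (e.symm s)
    refine ⟨g, ?_⟩
    change e (g : G ⧸ Q) = s
    rw [hg, MulEquiv.apply_symm_apply]
  have φ_conj : ∀ (g : G) (u : ↥Q), φ ⟨g * u * g⁻¹, Subgroup.Normal.conj_mem inferInstance _ u.2 g⟩ =
      fun i => ((ρ g : SpecialLinearGroup (Fin 2) K) : Matrix (Fin 2) (Fin 2) K).mulVec (φ u i) := by
    intro g u
    have h1 := hΘ g (φ u)
    have h2 : Θ (φ u) = Additive.ofMul (S.pr u) := by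
      change Θ (Θ.symm _) = _
      rw [AddEquiv.apply_symm_apply]
    rw [h2, S.smul_pr] at h1
    change Θ.symm (Additive.ofMul (S.pr (S.conjL g u))) = _
    rw [h1, AddEquiv.symm_apply_apply]
    rfl
  refine ⟨⟨?_, ?_⟩, k, assemble φ φ_mul φ_inj φ_surj ρ ρ_surj φ_conj⟩
  · constructor
    constructor
    intro a b
    apply Subtype.ext
    have := hc' _ a.2 _ b.2
    have h2 : (a : G) * b = b * a := by
      calc (a : G) * b = (a * b * (a : G)⁻¹ * (b : G)⁻¹) * (b * a) := by group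
        _ = b * a := by rw [this, one_mul]
    exact h2
  · intro a ha
    have h1 : φ (⟨a, ha⟩ * ⟨a, ha⟩) = φ 1 := by
      rw [φ_mul]
      have hφ1 : φ 1 = 0 := by
        have := φ_mul 1 1
        rw [mul_one] at this
        simpa using this
      rw [hφ1]
      funext i j
      exact CharTwo.add_self_eq_zero _
    have h2 := φ_inj h1
    have h3 : a * a = 1 := congrArg Subtype.val h2
    rw [pow_two]
    exact h3

end Cfsg.Agent.Lib.PGroup.SL2FpfGroup
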