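import Cfsg.Agent.Lib.PGroup.SL2Fpf

/-!
# Modules for `SL₂` in characteristic two on which an element of order three acts fixed point freely
-/

set_option autoImplicit false
set_option linter.unusedSectionVars false
set_option linter.unusedSimpArgs false
set_option linter.unusedVariables false
set_option linter.unusedTactic false

namespace Cfsg.Agent.Lib.PGroup.SL2FpfMod

open Matrix Cfsg.Agent.Lib.PGroup.SL2Fpf

variable {K : Type*} [Field K] [CharP K 2] [Finite K]
variable {A : Type*} [AddCommGroup A] [DistribMulAction (SpecialLinearGroup (Fin 2) K) A]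

local notation "𝐖" => (ww : SpecialLinearGroup (Fin 2) K)

/-- The standing hypotheses: `ρ₁` acts without nonzero fixed points, and `K` has more than two
elements. -/
structure Good (K : Type*) [Field K] [CharP K 2] (A : Type*) [AddCommGroup A]
    [DistribMulAction (SpecialLinearGroup (Fin 2) K) A] : Prop where
  fpf : ∀ a : A, (rr (1 : Kˣ) : SpecialLinearGroup (Fin 2) K) • a = a → a = 0
  exU : ∃ u : K, u ≠ 0 ∧ u ≠ 1

lemma two_K : (2 : K) = 0 := two_eq_zero_K

lemma exists_unit_sq (c : Kˣ) : ∃ d : Kˣ, c = d * d := by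
  obtain ⟨s, hs⟩ := isSquare_of_charTwo' (c : K)
  have hs0 : s ≠ 0 := by
    rintro rfl
    simp at hs
  refine ⟨Units.mk0 s hs0, ?_⟩
  ext
  simpa using hs

lemma fpf_rr (H : Good K A) (c : Kˣ) (a : A)
    (h : (rr c : SpecialLinearGroup (Fin 2) K) • a = a) : a = 0 := by
  obtain ⟨d, rfl⟩ := exists_unit_sq c
  have h1 : (rr (1 : Kˣ) : SpecialLinearGroup (Fin 2) K) • ((hh d)⁻¹ • a) = (hh d)⁻¹ • a := by
    rw [← rr_conj d, mul_smul, mul_smul] at h
    have h2 := congrArg (fun z => (hh d)⁻¹ • z) h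
    simpa using h2
  have h3 := H.fpf _ h1
  exact (smul_eq_zero_iff_eq (hh d)⁻¹).1 h3

lemma rho_sum (H : Good K A) (c : Kˣ) (a : A) :
    a + rr c • a + rr c • rr c • a = 0 := by
  apply fpf_rr H c
  have h : (rr c : SpecialLinearGroup (Fin 2) K) • rr c • rr c • a = a := by
    rw [← mul_smul, ← mul_smul, rr_sq, one_smul]
  rw [smul_add, smul_add, h]
  abel

lemma NN (r : Kˣ) : (hh r * ww) * (hh r * ww) = (1 : SpecialLinearGroup (Fin 2) K) := by
  rw [← mul_assoc, hh_ww_hh, ww_mul_self]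

lemma N_hh (r : Kˣ) (v : A) :
    (hh r * 𝐖) • hh r • v = 𝐖 • v := by
  rw [← mul_smul, hh_ww_hh]

lemma ww_ww (a : A) : 𝐖 • 𝐖 • a = a := by
  rw [← mul_smul, ww_mul_self, one_smul]

lemma N_N (r : Kˣ) (a : A) :
    (hh r * 𝐖) • (hh r * 𝐖) • a = a := by
  rw [← mul_smul, NN, one_smul]

/-- The basic relation. -/
lemma star (H : Good K A) (r : Kˣ) (v : A) :
    𝐖 • v + hh r • v + (xx (r : K) • hh r • v - hh r • v) +
      xx (r : K) • 𝐖 • v +
      xx (r : K) • (hh r * 𝐖) • (xx (r : K) • hh r • v - hh r • v) = 0 := by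
  set u : A := hh r • v with hu
  set g : A := xx (r : K) • u - u with hg
  have h0 := rho_sum H r u
  have hX : (xx (r : K) : SpecialLinearGroup (Fin 2) K) • u = u + g := by rw [hg]; abel
  have hrr : ∀ a : A, (rr r : SpecialLinearGroup (Fin 2) K) • a =
      (hh r * 𝐖) • xx (r : K) • a := by
    intro a; rw [← mul_smul]; rfl
  rw [hrr, hrr] at h0
  have h2 := congrArg (fun z => (hh r * 𝐖) • z) h0
  simp only [smul_add, smul_zero, N_N] at h2
  have h3 : (hh r * 𝐖) • u = 𝐖 • v := N_hh r v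
  rw [hX, smul_add, h3, smul_add] at h2
  linear_combination (norm := abel) h2

/-- Vectors fixed by the root group. -/
def Yy (K : Type*) [Field K] [CharP K 2] (A : Type*) [AddCommGroup A]
    [DistribMulAction (SpecialLinearGroup (Fin 2) K) A] : AddSubgroup A where
  carrier := {a | ∀ t : K, xx t • a = a}
  zero_mem' := fun t => smul_zero _
  add_mem' := fun ha hb t => by rw [smul_add, ha t, hb t]
  neg_mem' := fun ha t => by rw [smul_neg, ha t]

lemma mem_Yy {a : A} : a ∈ Yy K A ↔ ∀ t : K, xx t • a = a := Iff.rfl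

lemma xx_hh_smul (t : K) (c : Kˣ) (a : A) :
    xx t • hh c • a = hh c • xx (t * ((c⁻¹ : Kˣ) : K) ^ 2) • a := by
  rw [← mul_smul, xx_mul_hh, mul_smul]

lemma hh_mem {y : A} (hy : y ∈ Yy K A) (c : Kˣ) : hh c • y ∈ Yy K A := by
  intro t
  rw [xx_hh_smul, hy]

lemma hh_ww_smul (c : Kˣ) (a : A) : hh c • 𝐖 • a = 𝐖 • hh c⁻¹ • a := by
  have := ww_mul_hh (K := K) c⁻¹
  rw [inv_inv] at this
  rw [← mul_smul, ← mul_smul, this]

lemma Y_star (H : Good K A) {y : A} (hy : y ∈ Yy K A) (r : Kˣ) :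
    𝐖 • y + hh r • y + xx (r : K) • 𝐖 • y = 0 := by
  have := star H r y
  rw [hh_mem hy r (r : K)] at this
  simpa using this

lemma xx_comm (r s : K) (a : A) : xx s • xx r • a = xx r • xx s • a := by
  rw [← mul_smul, ← mul_smul, xx_mul, xx_mul, add_comm]

lemma Y_XX (H : Good K A) {y : A} (hy : y ∈ Yy K A) (r s : Kˣ) :
    xx (s : K) • xx (r : K) • 𝐖 • y = 𝐖 • y + hh s • y - hh r • y := by
  have h1 : xx (r : K) • 𝐖 • y = -(𝐖 • y) - hh r • y := by
    have := Y_star H hy r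
    linear_combination (norm := abel) this
  have h2 : xx (s : K) • 𝐖 • y = -(𝐖 • y) - hh s • y := by
    have := Y_star H hy s
    linear_combination (norm := abel) this
  rw [h1, smul_sub, smul_neg, h2, hh_mem hy r (s : K)]
  abel

lemma two_hh (H : Good K A) {y : A} (hy : y ∈ Yy K A) (r s : Kˣ) :
    hh s • y + hh s • y = hh r • y + hh r • y := by
  have h1 := Y_XX H hy r s
  have h2 := Y_XX H hy s r
  rw [xx_comm] at h1
  have h3 := h1.symm.trans h2
  linear_combination (norm := abel) h3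

lemma hh_one_smul (a : A) : hh (1 : Kˣ) • a = a := by
  rw [hh_one, one_smul]

lemma xx_one_coe (a : A) : xx (((1 : Kˣ) : K)) • a = xx (1 : K) • a := by simp

lemma double_zero (H : Good K A) {y : A} (hy : y ∈ Yy K A) : y + y = 0 := by
  set y0 : A := y + y with hy0
  have hy0Y : y0 ∈ Yy K A := add_mem hy hy
  have hh0 : ∀ c : Kˣ, hh c • y0 = y0 := by
    intro c
    have := two_hh H hy 1 c
    rw [hh_one_smul] at this
    rw [hy0, smul_add, this]
  obtain ⟨u, hu0, hu1⟩ := H.exU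
  have hu1' : 1 + u ≠ 0 := by
    intro h
    apply hu1
    linear_combination h - (two_K (K := K))
  have h1 : xx (1 : K) • 𝐖 • y0 = 𝐖 • y0 := by
    have h2 := Y_XX H hy0Y (Units.mk0 u hu0) (Units.mk0 (1 + u) hu1')
    rw [hh0, hh0] at h2
    have h3 : xx (((Units.mk0 (1 + u) hu1' : Kˣ)) : K) • xx (((Units.mk0 u hu0 : Kˣ)) : K) • 𝐖 • y0
        = xx (1 : K) • 𝐖 • y0 := by
      rw [← mul_smul, xx_mul]
      have : (((Units.mk0 (1 + u) hu1' : Kˣ)) : K) + (((Units.mk0 u hu0 : Kˣ)) : K) = 1 := by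
        simp
        linear_combination u * (two_K (K := K))
      rw [this]
    rw [← h3, h2]
    abel
  have hz : y0 + 𝐖 • y0 = 0 := by
    apply H.fpf
    have hrr : ∀ a : A, (rr (1 : Kˣ) : SpecialLinearGroup (Fin 2) K) • a =
        𝐖 • xx (1 : K) • a := by
      intro a
      change (hh (1 : Kˣ) * ww * xx ((1 : Kˣ) : K)) • a = _
      simp [hh_one, mul_smul]
    rw [smul_add, hrr, hrr, hy0Y, h1, ww_ww]
    abel
  have hs := Y_star H hy0Y 1
  rw [hh_one_smul, xx_one_coe, h1] at hs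
  have : y0 = 0 := by
    linear_combination (norm := abel) hz + hz - hs
  exact this


lemma ww_double (H : Good K A) {y : A} (hy : y ∈ Yy K A) : 𝐖 • y + 𝐖 • y = 0 := by
  rw [← smul_add, double_zero H hy, smul_zero]

lemma hh_double (H : Good K A) {y : A} (hy : y ∈ Yy K A) (c : Kˣ) : hh c • y + hh c • y = 0 :=
  double_zero H (hh_mem hy c)

lemma neg_Y (H : Good K A) {y : A} (hy : y ∈ Yy K A) : -y = y := by
  have := double_zero H hy
  linear_combination (norm := abel) -this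

lemma Y_xw (H : Good K A) {y : A} (hy : y ∈ Yy K A) (r : Kˣ) :
    xx (r : K) • 𝐖 • y = 𝐖 • y + hh r • y := by
  have h1 := Y_star H hy r
  have h2 := ww_double H hy
  have h3 := hh_double H hy r
  linear_combination (norm := abel) h1 - h2 - h3

lemma hh_add (H : Good K A) {y : A} (hy : y ∈ Yy K A) (r s t : Kˣ) (h : (t : K) = r + s) :
    hh t • y = hh r • y + hh s • y := by
  have h1 := Y_xw H hy t
  have h2 : xx (t : K) • 𝐖 • y = xx (r : K) • xx (s : K) • 𝐖 • y := by
    rw [← mul_smul (xx (r : K)), xx_mul, h]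
  rw [Y_xw H hy s, smul_add, Y_xw H hy r, hh_mem hy s (r : K)] at h2
  rw [h1] at h2
  linear_combination (norm := abel) h2

open scoped Classical in
/-- Scalar multiplication by elements of the field, through the torus. -/
noncomputable def sc (c : K) (a : A) : A := if h : c = 0 then 0 else hh (Units.mk0 c h) • a

omit [Finite K] in
lemma sc_zero_left (a : A) : sc (0 : K) a = 0 := by simp [sc]

lemma sc_unit (c : Kˣ) (a : A) : sc (c : K) a = hh c • a := by
  have : (c : K) ≠ 0 := c.ne_zero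
  simp only [sc, this, dif_neg, not_false_iff]
  congr 2
  ext
  simp

lemma sc_of_ne (c : K) (h : c ≠ 0) (a : A) : sc c a = hh (Units.mk0 c h) • a := by
  simp [sc, h]

lemma sc_one (a : A) : sc (1 : K) a = a := by
  have := sc_unit (K := K) 1 a
  rw [Units.val_one, hh_one_smul] at this
  exact this

lemma sc_add_right (c : K) (a b : A) : sc c (a + b) = sc c a + sc c b := by
  by_cases h : c = 0
  · simp [h, sc_zero_left]
  · simp [sc_of_ne c h]

lemma sc_zero_right (c : K) : sc c (0 : A) = 0 := by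
  by_cases h : c = 0
  · simp [h, sc_zero_left]
  · simp [sc_of_ne c h]

lemma sc_mul (c d : K) (a : A) : sc (c * d) a = sc c (sc d a) := by
  by_cases hc : c = 0
  · simp [hc, sc_zero_left]
  by_cases hd : d = 0
  · simp [hd, sc_zero_left, sc_zero_right]
  rw [sc_of_ne c hc, sc_of_ne d hd, sc_of_ne (c * d) (mul_ne_zero hc hd), ← mul_smul, hh_mul]
  congr 2
  ext
  simp

lemma sc_mem {y : A} (hy : y ∈ Yy K A) (c : K) : sc c y ∈ Yy K A := by
  by_cases hc : c = 0
  · simp [hc, sc_zero_left, zero_mem]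
  · rw [sc_of_ne c hc]; exact hh_mem hy _

lemma sc_add_left (H : Good K A) {y : A} (hy : y ∈ Yy K A) (r s : K) :
    sc (r + s) y = sc r y + sc s y := by
  by_cases hr : r = 0
  · simp [hr, sc_zero_left]
  by_cases hs : s = 0
  · simp [hs, sc_zero_left]
  by_cases hrs : r + s = 0
  · have : s = r := by linear_combination hrs - r * (two_K (K := K))
    subst this
    rw [hrs, sc_zero_left, sc_of_ne _ hr, hh_double H hy]
  · rw [sc_of_ne _ hr, sc_of_ne _ hs, sc_of_ne _ hrs]
    exact hh_add H hy _ _ _ (by simp)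

lemma sc_double (H : Good K A) {y : A} (hy : y ∈ Yy K A) (c : K) : sc c y + sc c y = 0 :=
  double_zero H (sc_mem hy c)

lemma Y_xw' (H : Good K A) {y : A} (hy : y ∈ Yy K A) (t : K) :
    xx t • 𝐖 • y = 𝐖 • y + sc t y := by
  by_cases ht : t = 0
  · simp [ht, xx_zero, sc_zero_left]
  · have := Y_xw H hy (Units.mk0 t ht)
    rw [sc_of_ne t ht]
    simpa using this

section Mod

variable (K A)

/-- The `K`-vector space structure on the fixed points of the root group. -/
@[reducible] noncomputable def modY (H : Good K A) : Module K (Yy K A) where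
  smul c y := ⟨sc c (y : A), sc_mem y.2 c⟩
  one_smul y := Subtype.ext (sc_one _)
  mul_smul c d y := Subtype.ext (sc_mul c d _)
  smul_zero c := Subtype.ext (sc_zero_right c)
  smul_add c a b := Subtype.ext (sc_add_right c _ _)
  add_smul r s y := Subtype.ext (sc_add_left H y.2 r s)
  zero_smul y := Subtype.ext (sc_zero_left _)

end Mod

lemma modY_smul_coe (H : Good K A) (c : K) (y : Yy K A) :
    letI := modY K A H
    ((c • y : Yy K A) : A) = sc c (y : A) := rfl


/-- The subspace `Y + W Y`. -/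
def Uu (K : Type*) [Field K] [CharP K 2] (A : Type*) [AddCommGroup A]
    [DistribMulAction (SpecialLinearGroup (Fin 2) K) A] : AddSubgroup A where
  carrier := {a | ∃ y ∈ Yy K A, ∃ y' ∈ Yy K A, a = y + (ww : SpecialLinearGroup (Fin 2) K) • y'}
  zero_mem' := ⟨0, zero_mem _, 0, zero_mem _, by simp⟩
  add_mem' := by
    rintro _ _ ⟨y₁, h₁, y₁', h₁', rfl⟩ ⟨y₂, h₂, y₂', h₂', rfl⟩
    exact ⟨y₁ + y₂, add_mem h₁ h₂, y₁' + y₂', add_mem h₁' h₂', by rw [smul_add]; abel⟩
  neg_mem' := by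
    rintro _ ⟨y₁, h₁, y₁', h₁', rfl⟩
    exact ⟨-y₁, neg_mem h₁, -y₁', neg_mem h₁', by rw [smul_neg]; abel⟩

lemma mem_Uu {a : A} : a ∈ Uu K A ↔ ∃ y ∈ Yy K A, ∃ y' ∈ Yy K A, a = y + 𝐖 • y' := Iff.rfl

lemma Uu_double (H : Good K A) {a : A} (ha : a ∈ Uu K A) : a + a = 0 := by
  obtain ⟨y, hy, y', hy', rfl⟩ := ha
  have h1 := double_zero H hy
  have h2 := ww_double H hy'
  linear_combination (norm := abel) h1 + h2

lemma Uu_neg (H : Good K A) {a : A} (ha : a ∈ Uu K A) : -a = a := by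
  have := Uu_double H ha
  linear_combination (norm := abel) -this

/-- An element of `SL₂`-closed properties. -/
lemma all_of_gens (P : SpecialLinearGroup (Fin 2) K → Prop) (h1 : P 1)
    (hmul : ∀ g h, P g → P h → P (g * h)) (hinv : ∀ g, P g → P g⁻¹)
    (hx : ∀ t, P (xx t)) (hh' : ∀ c, P (hh c)) (hw : P ww) (g : SpecialLinearGroup (Fin 2) K) : P g := by
  let S : Subgroup (SpecialLinearGroup (Fin 2) K) :=
    { carrier := {g | P g}
      one_mem' := h1
      mul_mem' := fun {a b} ha hb => hmul a b ha hb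
      inv_mem' := fun {a} ha => hinv a ha }
  have : S = ⊤ := gen_top S hx hh' hw
  have hg : g ∈ S := by rw [this]; trivial
  exact hg

lemma ww_mem_Uu {a : A} (ha : a ∈ Uu K A) : 𝐖 • a ∈ Uu K A := by
  obtain ⟨y, hy, y', hy', rfl⟩ := ha
  exact ⟨y', hy', y, hy, by rw [smul_add, ww_ww]; abel⟩

lemma xx_mem_Uu (H : Good K A) (t : K) {a : A} (ha : a ∈ Uu K A) : xx t • a ∈ Uu K A := by
  obtain ⟨y, hy, y', hy', rfl⟩ := ha
  refine ⟨y + sc t y', add_mem hy (sc_mem hy' t), y', hy', ?_⟩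
  rw [smul_add, hy t, Y_xw' H hy']
  abel

lemma hh_mem_Uu (c : Kˣ) {a : A} (ha : a ∈ Uu K A) : hh c • a ∈ Uu K A := by
  obtain ⟨y, hy, y', hy', rfl⟩ := ha
  exact ⟨hh c • y, hh_mem hy c, hh c⁻¹ • y', hh_mem hy' _, by rw [smul_add, hh_ww_smul]⟩

lemma smul_mem_Uu (H : Good K A) (g : SpecialLinearGroup (Fin 2) K) {a : A} (ha : a ∈ Uu K A) :
    g • a ∈ Uu K A := by
  have key : ∀ g : SpecialLinearGroup (Fin 2) K, ∀ a : A, a ∈ Uu K A → g • a ∈ Uu K A ∧ g⁻¹ • a ∈ Uu K A := by
    refine all_of_gens (fun g => ∀ a : A, a ∈ Uu K A → g • a ∈ Uu K A ∧ g⁻¹ • a ∈ Uu K A) ?_ ?_ ?_ ?_ ?_ ?_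
    · intro a ha; simpa using ha
    · intro g h hg hh a ha
      constructor
      · rw [mul_smul]; exact (hg _ (hh _ ha).1).1
      · rw [_root_.mul_inv_rev, mul_smul]; exact (hh _ (hg _ ha).2).2
    · intro g hg a ha
      simpa using (hg _ ha).symm
    · intro t a ha
      refine ⟨xx_mem_Uu H t ha, ?_⟩
      have : (xx t)⁻¹ = xx t := inv_eq_of_mul_eq_one_right (xx_mul_self t)
      rw [this]; exact xx_mem_Uu H t ha
    · intro c a ha
      refine ⟨hh_mem_Uu c ha, ?_⟩
      rw [hh_inv_eq]; exact hh_mem_Uu _ ha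
    · intro a ha
      refine ⟨ww_mem_Uu ha, ?_⟩
      have : (𝐖)⁻¹ = 𝐖 := inv_eq_of_mul_eq_one_right ww_mul_self
      rw [this]; exact ww_mem_Uu ha
  exact (key g a ha).1

lemma Y_inter (H : Good K A) {y : A} (hy : y ∈ Yy K A) (hy' : 𝐖 • y ∈ Yy K A) : y = 0 := by
  have h1 := Y_xw' H hy (1 : K)
  rw [hy' 1, sc_one] at h1
  have : y = 0 := by linear_combination (norm := abel) -h1
  exact this

lemma Uu_unique (H : Good K A) {y₁ y₁' y₂ y₂' : A} (h₁ : y₁ ∈ Yy K A) (h₁' : y₁' ∈ Yy K A)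
    (h₂ : y₂ ∈ Yy K A) (h₂' : y₂' ∈ Yy K A) (h : y₁ + 𝐖 • y₁' = y₂ + 𝐖 • y₂') : y₁ = y₂ ∧ y₁' = y₂' := by
  have h3 : 𝐖 • (y₁' - y₂') = y₂ - y₁ := by
    rw [smul_sub]
    linear_combination (norm := abel) h
  have h4 : y₁' - y₂' = 0 :=
    Y_inter H (sub_mem h₁' h₂') (by rw [h3]; exact sub_mem h₂ h₁)
  have h5 : y₁' = y₂' := sub_eq_zero.1 h4
  subst h5
  exact ⟨by simpa using h, rfl⟩

/-- The algebra lemma. -/
theorem alg_lemma {M : Type*} [AddCommGroup M] [Module K M] (a : K →+ M) (y₀ : M)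
    (hS : ∀ r : K, r ≠ 0 → y₀ + r • y₀ = r • a (r⁻¹ ^ 2) + a r⁻¹ + a r + r • a 1)
    (hu : ∃ u : K, u ≠ 0 ∧ u ≠ 1) : (∀ t, a t = t • a 1) ∧ y₀ = 0 := by
  have two : (2 : K) = 0 := two_K
  have dbl : ∀ x : M, x + x = 0 := by
    intro x
    have : (2 : K) • x = 0 := by rw [two, zero_smul]
    rw [two_smul] at this
    exact this
  have neg' : ∀ x : M, -x = x := by
    intro x
    have := dbl x
    linear_combination (norm := abel) -this
  have sm_dbl : ∀ (c d : K) (x : M), c = d → c • x + d • x = 0 := by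
    intro c d x h; subst h; exact dbl _
  -- `b`
  let b : K → M := fun t => a t + t • a 1
  have hb : ∀ t, b t = a t + t • a 1 := fun _ => rfl
  have b_add : ∀ s t, b (s + t) = b s + b t := by
    intro s t
    simp only [hb, map_add, add_smul]
    abel
  have b_zero : b 0 = 0 := by simp [hb]
  have b_one : b 1 = 0 := by
    simp only [hb, one_smul]; exact dbl _
  -- S'
  have hS' : ∀ r : K, r ≠ 0 → b r + b r⁻¹ + r • b (r⁻¹ ^ 2) = (1 + r) • y₀ := by
    intro r hr
    have h := hS r hr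
    simp only [hb, smul_add, smul_smul]
    have e1 : r * r⁻¹ ^ 2 = r⁻¹ := by field_simp
    rw [e1, add_smul, one_smul, h]
    have h4 := dbl (r⁻¹ • a 1)
    linear_combination (norm := abel) h4
  -- C'
  have hC : ∀ u : K, u ≠ 0 → u • b u⁻¹ + b u = (u + 1) • y₀ := by
    intro u hu
    obtain ⟨r, rfl⟩ := isSquare_of_charTwo' u
    have hr : r ≠ 0 := by
      rintro rfl
      simp at hu
    have h1 := hS' r hr
    have h2 := hS' r⁻¹ (inv_ne_zero hr)
    rw [inv_inv] at h2
    have e : r * r = r ^ 2 := by ring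
    have e' : (r * r)⁻¹ = r⁻¹ ^ 2 := by field_simp
    rw [e', e]
    have h3 : r • (r • b (r⁻¹ ^ 2)) + r • (r⁻¹ • b (r ^ 2)) = r • (r • y₀) + r • (r⁻¹ • y₀) := by
      rw [← smul_add, ← smul_add]
      congr 1
      have hh1 := dbl (b r)
      have hh2 := dbl (b r⁻¹)
      have hh3 := dbl (y₀)
      simp only [add_smul, one_smul] at h1 h2
      linear_combination (norm := abel) h1 + h2 - hh1 - hh2 + hh3
    simp only [smul_smul] at h3
    have e2 : r * r = r ^ 2 := by ring
    have e3 : r * r⁻¹ = 1 := by field_simp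
    rw [e2, e3, one_smul, one_smul] at h3
    rw [add_smul, one_smul]
    exact h3
  -- D
  have hD : ∀ r : K, b (r ^ 2) = (r + 1) • b r := by
    intro r
    by_cases hr : r = 0
    · subst hr; simp [b_zero]
    have h1 := hS' r hr
    have h2 := hC r hr
    have h3 := hC (r ^ 2) (pow_ne_zero _ hr)
    have e' : (r ^ 2)⁻¹ = r⁻¹ ^ 2 := by field_simp
    rw [e'] at h3
    have e3 : r * (1 + r) = r + r ^ 2 := by ring
    linear_combination (norm := module) - r • h1 + h2 + h3 - dbl (b r) + dbl y₀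
  have hbil : ∀ r s : K, s • b r + r • b s = 0 := by
    intro r s
    have h1 := hD (r + s)
    have e : (r + s) ^ 2 = r ^ 2 + s ^ 2 := by linear_combination r * s * two
    rw [e, b_add, hD r, hD s, b_add] at h1
    linear_combination (norm := module) -h1
  have hb0 : ∀ r, b r = 0 := by
    intro r
    have h := hbil r 1
    rw [b_one, smul_zero, add_zero, one_smul] at h
    exact h
  constructor
  · intro t
    have h := hb0 t
    rw [hb] at h
    linear_combination (norm := module) h - dbl (t • a 1)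
  · obtain ⟨u, hu0, hu1⟩ := hu
    have h := hC u hu0
    rw [hb0, hb0, smul_zero, add_zero] at h
    have hu1' : u + 1 ≠ 0 := by
      intro h0
      apply hu1
      linear_combination h0 - two
    exact (smul_eq_zero.1 h.symm).resolve_left hu1'


/-- The main step: an element fixed modulo `Y + W Y` by the root group lies in `Y + W Y`. -/
theorem main_step (H : Good K A) (v : A) (hv : ∀ t : K, xx t • v - v ∈ Uu K A) : v ∈ Uu K A := by
  have hY : ∀ t : K, xx t • v - v ∈ Yy K A := by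
    intro t
    by_cases ht : t = 0
    · subst ht; simp [xx_zero, zero_mem]
    obtain ⟨y, hy, y', hy', hyy⟩ := hv t
    have h1 : xx t • (xx t • v - v) = -(xx t • v - v) := by
      rw [smul_sub, ← mul_smul, xx_mul_self, one_smul]; abel
    rw [Uu_neg H (hv t), hyy, smul_add, hy t, Y_xw' H hy'] at h1
    have h2 : sc t y' = 0 := by linear_combination (norm := abel) h1
    have h3 : y' = 0 := by
      rw [sc_of_ne t ht] at h2; exact (smul_eq_zero_iff_eq _).1 h2
    rw [hyy, h3]; simpa using hy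
  -- notation
  obtain ⟨α, hαdef⟩ : ∃ α : K → A, ∀ t, α t = xx t • v - v := ⟨_, fun _ => rfl⟩
  have hαY : ∀ t, α t ∈ Yy K A := by intro t; rw [hαdef]; exact hY t
  have hXv : ∀ t, xx t • v = v + α t := by intro t; simp [hαdef]
  have hαadd : ∀ s t, α (s + t) = α s + α t := by
    intro s t
    have : (xx (s + t) : SpecialLinearGroup (Fin 2) K) • v = xx s • xx t • v := by
      rw [← mul_smul, xx_mul]
    rw [hαdef, this, hXv t, smul_add, hXv s, (hαY t) s]
    abel
  -- the relation for `x(r)` on `W v`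
  have hSS : ∀ r : Kˣ, xx (r : K) • 𝐖 • v = -(𝐖 • v) - hh r • v - 𝐖 • α ((r⁻¹ : Kˣ) : K) := by
    intro r
    set β : A := α ((r⁻¹ : Kˣ) : K) with hβ
    have hβY : β ∈ Yy K A := hαY _
    have hg : xx (r : K) • hh r • v - hh r • v = hh r • β := by
      rw [xx_hh_smul]
      have e : (r : K) * (((r⁻¹ : Kˣ) : K)) ^ 2 = ((r⁻¹ : Kˣ) : K) := by
        have : (r : K) * ((r⁻¹ : Kˣ) : K) = 1 := by simp
        rw [pow_two, ← mul_assoc, this, one_mul]
      rw [e, hXv, smul_add, ← hβ]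
      abel
    have h := star H r v
    rw [hg, N_hh, Y_xw H hβY] at h
    have h2 := hh_double H hβY r
    linear_combination (norm := abel) h - h2
  have hxhh : ∀ (t : K) (r : Kˣ), xx t • hh r • v = hh r • v + hh r • α (t * ((r⁻¹ : Kˣ) : K) ^ 2) := by
    intro t r
    rw [xx_hh_smul, hXv, smul_add]
  -- the equation `(S)`
  have hS : ∀ r : Kˣ, (v + v) + hh r • (v + v) =
      hh r • α (((r⁻¹ : Kˣ) : K) ^ 2) + α ((r⁻¹ : Kˣ) : K) + α (r : K) + hh r • α 1 := by
    intro r
    have h1 := hSS r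
    have h2 := hSS 1
    simp only [inv_one, Units.val_one] at h2
    rw [hh_one_smul] at h2
    have e1 : xx (1 : K) • xx (r : K) • 𝐖 • v = xx (r : K) • xx (1 : K) • 𝐖 • v := xx_comm _ _ _
    have hL : xx (1 : K) • xx (r : K) • 𝐖 • v = -(xx (1 : K) • 𝐖 • v) - xx (1 : K) • hh r • v -
        xx (1 : K) • 𝐖 • α ((r⁻¹ : Kˣ) : K) := by
      rw [h1, smul_sub, smul_sub, smul_neg]
    have hR : xx (r : K) • xx (1 : K) • 𝐖 • v = -(xx (r : K) • 𝐖 • v) - xx (r : K) • v -
        xx (r : K) • 𝐖 • α 1 := by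
      rw [h2, smul_sub, smul_sub, smul_neg]
    rw [hL, hR, h1, h2] at e1
    have hβY : α ((r⁻¹ : Kˣ) : K) ∈ Yy K A := hαY _
    have h1Y : α 1 ∈ Yy K A := hαY _
    have h3 := hxhh 1 r
    rw [one_mul] at h3
    rw [h3, Y_xw' H hβY (1 : K), sc_one, hXv (r : K), Y_xw H h1Y r] at e1
    have hz : hh r • (v + v) ∈ Yy K A := by
      apply hh_mem
      intro t
      rw [smul_add, hXv]
      have := double_zero H (hαY t)
      linear_combination (norm := abel) this
    have d1 := double_zero H (hαY (r : K))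
    have d2 := hh_double H h1Y r
    have d3 := ww_double H hβY
    have d4 := ww_double H h1Y
    have d5 := double_zero H hz
    rw [smul_add] at d5 ⊢
    linear_combination (norm := abel) e1 - d1 - d2 + d3 - d4 + d5
  -- the vector space structure
  let _ := modY K A H
  let a : K →+ Yy K A := AddMonoidHom.mk' (fun t => ⟨α t, hαY t⟩) (fun s t => Subtype.ext (hαadd s t))
  have hy₀ : v + v ∈ Yy K A := by
    intro t
    rw [smul_add, hXv]
    have := double_zero H (hαY t)
    linear_combination (norm := abel) this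
  have hA := alg_lemma (K := K) a ⟨v + v, hy₀⟩ (by
    intro r hr
    apply Subtype.ext
    have := hS (Units.mk0 r hr)
    rw [Units.val_inv_eq_inv_val] at this
    simp only [Units.val_mk0] at this
    simp only [AddSubgroup.coe_add]
    change (v + v) + sc r (v + v) = sc r (α (r⁻¹ ^ 2)) + α r⁻¹ + α r + sc r (α 1)
    rw [sc_of_ne r hr, sc_of_ne r hr, sc_of_ne r hr]
    exact this) H.exU
  have hαsc : ∀ t, α t = sc t (α 1) := by
    intro t
    have := hA.1 t
    exact congrArg Subtype.val this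
  refine ⟨v + 𝐖 • α 1, ?_, α 1, hαY 1, ?_⟩
  · intro t
    rw [smul_add, hXv, Y_xw' H (hαY 1) t, ← hαsc t]
    have := double_zero H (hαY t)
    linear_combination (norm := abel) this
  · have := ww_double H (hαY 1)
    linear_combination (norm := abel) -this


/-- A nontrivial quotient of a finite `2`-group has even order. -/
lemma two_dvd_card_of_ne {B : Type*} [AddCommGroup B] [Finite B] (h2 : ∀ a : B, ∃ n : ℕ, 2 ^ n • a = 0)
    {q : B} (hq : q ≠ 0) : 2 ∣ Nat.card B := by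
  obtain ⟨n, hn⟩ := h2 q
  have h1 : addOrderOf q ∣ 2 ^ n := addOrderOf_dvd_of_nsmul_eq_zero hn
  obtain ⟨k, -, hk⟩ := (Nat.dvd_prime_pow Nat.prime_two).1 h1
  have hk0 : k ≠ 0 := by
    rintro rfl
    rw [pow_zero] at hk
    exact hq (AddMonoid.addOrderOf_eq_one_iff.1 hk)
  have h3 : 2 ∣ addOrderOf q := by
    rw [hk]; exact dvd_pow_self 2 hk0
  exact h3.trans (addOrderOf_dvd_natCard q)

/-- The whole module is `Y + W Y`. -/
theorem Uu_eq_top [Finite A] (H : Good K A) (h2 : ∀ a : A, ∃ n : ℕ, 2 ^ n • a = 0) : Uu K A = ⊤ := by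
  classical
  by_contra hne
  have hf : ∀ t : K, Uu K A ≤ (Uu K A).comap (DistribSMul.toAddMonoidHom A (xx t)) := by
    intro t a ha
    exact smul_mem_Uu H (xx t) ha
  let act : MulAction (Multiplicative K) (A ⧸ Uu K A) :=
    { smul := fun t q => QuotientAddGroup.map _ _ (DistribSMul.toAddMonoidHom A (xx (Multiplicative.toAdd t)))
        (hf _) q
      one_smul := by
        intro q
        induction q using QuotientAddGroup.induction_on with
        | H a =>
          change ((xx (Multiplicative.toAdd (1 : Multiplicative K)) • a : A) : A ⧸ Uu K A) = _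
          simp [xx_zero]
      mul_smul := by
        intro s t q
        induction q using QuotientAddGroup.induction_on with
        | H a =>
          change ((xx (Multiplicative.toAdd (s * t)) • a : A) : A ⧸ Uu K A) =
            ((xx (Multiplicative.toAdd s) • xx (Multiplicative.toAdd t) • a : A) : A ⧸ Uu K A)
          rw [← mul_smul, xx_mul]
          rfl }
  have hsm : ∀ (t : K) (a : A), (Multiplicative.ofAdd t • (a : A ⧸ Uu K A)) = ((xx t • a : A) : A ⧸ Uu K A) :=
    fun _ _ => rfl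
  have hp : IsPGroup 2 (Multiplicative K) := by
    intro g
    refine ⟨1, ?_⟩
    have : Multiplicative.toAdd (g ^ 2 ^ 1) = 0 := by
      simp only [pow_one, toAdd_pow, two_smul]
      exact CharTwo.add_self_eq_zero _
    exact this
  have : Fact (Nat.Prime 2) := ⟨Nat.prime_two⟩
  obtain ⟨a₀, ha₀⟩ : ∃ a₀ : A, a₀ ∉ Uu K A := by
    by_contra hall
    push Not at hall
    exact hne ((AddSubgroup.eq_top_iff' _).2 hall)
  have hq : ((a₀ : A) : A ⧸ Uu K A) ≠ 0 := by
    rwa [Ne, QuotientAddGroup.eq_zero_iff]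
  have hcard : 2 ∣ Nat.card (A ⧸ Uu K A) := by
    apply two_dvd_card_of_ne _ hq
    intro q
    induction q using QuotientAddGroup.induction_on with
    | H a =>
      obtain ⟨n, hn⟩ := h2 a
      refine ⟨n, ?_⟩
      rw [← QuotientAddGroup.mk_nsmul, hn]
      rfl
  have h0 : (0 : A ⧸ Uu K A) ∈ MulAction.fixedPoints (Multiplicative K) (A ⧸ Uu K A) := by
    intro t
    change Multiplicative.ofAdd (Multiplicative.toAdd t) • (((0 : A) : A) : A ⧸ Uu K A) = _
    rw [hsm, smul_zero]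
    rfl
  obtain ⟨b, hb, hb0⟩ := hp.exists_fixed_point_of_prime_dvd_card_of_fixed_point (A ⧸ Uu K A) hcard h0
  induction b using QuotientAddGroup.induction_on with
  | H v =>
    have hv : v ∈ Uu K A := by
      apply main_step H v
      intro t
      have h1 := hb (Multiplicative.ofAdd t)
      rw [hsm] at h1
      have h3 : xx t • v - v = -(-(xx t • v) + v) := by abel
      rw [h3]
      exact neg_mem (QuotientAddGroup.eq.1 h1)
    apply hb0
    exact ((QuotientAddGroup.eq_zero_iff v).2 hv).symm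

section Pair

variable {B C : Type*} [AddCommGroup B] [DistribMulAction (SpecialLinearGroup (Fin 2) K) B]
  [AddCommGroup C] [DistribMulAction (SpecialLinearGroup (Fin 2) K) C]

lemma pair_aux (HA : Good K A) (HC : Good K C) (hC : Uu K C = ⊤) (β : A →+ B →+ C)
    (hβ : ∀ (g : SpecialLinearGroup (Fin 2) K) a b, β (g • a) (g • b) = g • β a b)
    {v : A} (hv : v ∈ Yy K A) {v' : B} (hv' : v' ∈ Yy K B) :
    (∃ p₁ ∈ Yy K C, β (𝐖 • v) v' = p₁ + 𝐖 • β v v') ∧ ∀ t : K, β (sc t v) v' = sc t (β v v') := by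
  have hp : β (𝐖 • v) v' ∈ Uu K C := by rw [hC]; trivial
  obtain ⟨p₁, hp₁, p₂, hp₂, hp⟩ := hp
  have key : ∀ t : K, β (sc t v) v' = sc t p₂ := by
    intro t
    have h1 := hβ (xx t) (𝐖 • v) v'
    rw [Y_xw' HA hv t, hv' t, map_add, AddMonoidHom.add_apply, hp, smul_add, hp₁ t, Y_xw' HC hp₂ t] at h1
    linear_combination (norm := abel) h1
  have h2 : β v v' = p₂ := by
    have := key 1
    rwa [sc_one, sc_one] at this
  refine ⟨⟨p₁, hp₁, by rw [hp, h2]⟩, fun t => by rw [key, h2]⟩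

lemma pair_mem (HA : Good K A) (HC : Good K C)
    (β : A →+ B →+ C)
    (hβ : ∀ (g : SpecialLinearGroup (Fin 2) K) a b, β (g • a) (g • b) = g • β a b)
    {v : A} (hv : v ∈ Yy K A) {v' : B} (hv' : v' ∈ Yy K B) : β v v' ∈ Yy K C := by
  intro t
  rw [← hβ, hv t, hv' t]

lemma pair_zero_Y (HA : Good K A) (HB : Good K B) (HC : Good K C) (hC : Uu K C = ⊤) (β : A →+ B →+ C)
    (hβ : ∀ (g : SpecialLinearGroup (Fin 2) K) a b, β (g • a) (g • b) = g • β a b)
    {v : A} (hv : v ∈ Yy K A) {v' : B} (hv' : v' ∈ Yy K B) : β v v' = 0 := by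
  have hz := pair_mem HA HC β hβ hv hv'
  have hβ' : ∀ (g : SpecialLinearGroup (Fin 2) K) b a, β.flip (g • b) (g • a) = g • β.flip b a := by
    intro g b a
    exact hβ g a b
  obtain ⟨u, hu0, hu1⟩ := HA.exU
  have hL := (pair_aux HA HC hC β hβ hv hv').2 u
  have hR : ∀ w : A, w ∈ Yy K A → β w (sc u v') = sc u (β w v') := by
    intro w hw
    exact (pair_aux HB HC hC β.flip hβ' hv' hw).2 u
  have h1 : sc u (β v v') = sc u (sc u (β v v')) := by
    have h2 := hβ (hh (Units.mk0 u hu0)) v v'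
    rw [← sc_of_ne u hu0, ← sc_of_ne u hu0, ← sc_of_ne u hu0] at h2
    rw [hR _ (sc_mem hv u), hL] at h2
    exact h2.symm
  have h3 : β v v' = sc u (β v v') := by
    exact smul_left_cancel (hh (Units.mk0 u hu0)) (by rw [← sc_of_ne u hu0, ← sc_of_ne u hu0]; exact h1)
  have hu1' : 1 + u ≠ 0 := by
    intro h
    apply hu1
    linear_combination h - (two_K (K := K))
  have h4 : sc (1 + u) (β v v') = 0 := by
    rw [sc_add_left HC hz, sc_one, ← h3]
    exact double_zero HC hz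
  rw [sc_of_ne _ hu1'] at h4
  exact (smul_eq_zero_iff_eq _).1 h4

/-- An equivariant biadditive map vanishes. -/
theorem pair_zero (HA : Good K A) (HB : Good K B) (HC : Good K C)
    (hA : Uu K A = ⊤) (hB : Uu K B = ⊤) (hC : Uu K C = ⊤) (β : A →+ B →+ C)
    (hβ : ∀ (g : SpecialLinearGroup (Fin 2) K) a b, β (g • a) (g • b) = g • β a b) (a : A) (b : B) :
    β a b = 0 := by
  have hβ' : ∀ (g : SpecialLinearGroup (Fin 2) K) b a, β.flip (g • b) (g • a) = g • β.flip b a := by
    intro g b a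
    exact hβ g a b
  have h0 : ∀ {v : A}, v ∈ Yy K A → ∀ {v' : B}, v' ∈ Yy K B → β v v' = 0 :=
    fun hv _ hv' => pair_zero_Y HA HB HC hC β hβ hv hv'
  have h1 : ∀ {v : A}, v ∈ Yy K A → ∀ {v' : B}, v' ∈ Yy K B → β (𝐖 • v) v' = 0 := by
    intro v hv v' hv'
    obtain ⟨p₁, hp₁, hp⟩ := (pair_aux HA HC hC β hβ hv hv').1
    rw [h0 hv hv', smul_zero, add_zero] at hp
    obtain ⟨p₂, hp₂, hq⟩ := (pair_aux HB HC hC β.flip hβ' hv' hv).1
    have hq' : β v (𝐖 • v') = p₂ + 𝐖 • β v v' := hq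
    rw [h0 hv hv', smul_zero, add_zero] at hq'
    have h3 : 𝐖 • β (𝐖 • v) v' = p₂ := by
      rw [← hβ, ww_ww, hq']
    rw [hp] at h3 ⊢
    exact Y_inter HC hp₁ (by rw [h3]; exact hp₂)
  have h2 : ∀ {v : A}, v ∈ Yy K A → ∀ {v' : B}, v' ∈ Yy K B → β v (𝐖 • v') = 0 := by
    intro v hv v' hv'
    have h3 : 𝐖 • β (𝐖 • v) v' = β v (𝐖 • v') := by rw [← hβ, ww_ww]
    rw [← h3, h1 hv hv', smul_zero]
  have h3 : ∀ {v : A}, v ∈ Yy K A → ∀ {v' : B}, v' ∈ Yy K B → β (𝐖 • v) (𝐖 • v') = 0 := by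
    intro v hv v' hv'
    rw [hβ, h0 hv hv', smul_zero]
  have ha : a ∈ Uu K A := by rw [hA]; trivial
  have hb : b ∈ Uu K B := by rw [hB]; trivial
  obtain ⟨y₁, hy₁, y₂, hy₂, rfl⟩ := ha
  obtain ⟨y₃, hy₃, y₄, hy₄, rfl⟩ := hb
  simp only [map_add, AddMonoidHom.add_apply, h0 hy₁ hy₃, h1 hy₂ hy₃, h2 hy₁ hy₄, h3 hy₂ hy₄, add_zero]

end Pair


omit [Finite K] in
lemma mulVec_two (m : Matrix (Fin 2) (Fin 2) K) {a b c d : K} (hm : m = !![a, b; c, d]) (v : Fin 2 → K) :
    m.mulVec v 0 = a * v 0 + b * v 1 ∧ m.mulVec v 1 = c * v 0 + d * v 1 := by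
  subst hm
  simp [Matrix.mulVec, dotProduct, Fin.sum_univ_two]

omit [Finite K] in
lemma mulVec_mul_sl (g h : SpecialLinearGroup (Fin 2) K) (v : Fin 2 → K) :
    ((g * h : SpecialLinearGroup (Fin 2) K) : Matrix (Fin 2) (Fin 2) K).mulVec v =
      (g : Matrix (Fin 2) (Fin 2) K).mulVec ((h : Matrix (Fin 2) (Fin 2) K).mulVec v) := by
  change ((g : Matrix (Fin 2) (Fin 2) K) * (h : Matrix (Fin 2) (Fin 2) K)).mulVec v = _
  rw [Matrix.mulVec_mulVec]

/-- The structure theorem, from coordinates on `Y`. -/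
theorem natural_of_coords (H : Good K A) (hT : Uu K A = ⊤) (k : ℕ) (Pc : (Fin k → K) → A)
    (Pc_mem : ∀ φ, Pc φ ∈ Yy K A) (Pc_add : ∀ φ ψ, Pc (φ + ψ) = Pc φ + Pc ψ)
    (Pc_smul : ∀ (c : K) φ, Pc (c • φ) = sc c (Pc φ)) (Pc_inj : ∀ φ ψ, Pc φ = Pc ψ → φ = ψ)
    (Pc_surj : ∀ y ∈ Yy K A, ∃ φ, Pc φ = y) :
    ∃ (Θ : (Fin k → Fin 2 → K) ≃+ A),
      ∀ (g : SpecialLinearGroup (Fin 2) K) (f : Fin k → Fin 2 → K),
        g • Θ f = Θ (fun i => (g : Matrix (Fin 2) (Fin 2) K).mulVec (f i)) := by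
  classical
  obtain ⟨Th, Th_def⟩ : ∃ Th : (Fin k → Fin 2 → K) → A,
      ∀ f, Th f = Pc (fun i => f i 0) + 𝐖 • Pc (fun i => f i 1) := ⟨_, fun _ => rfl⟩
  have Th_add : ∀ f g, Th (f + g) = Th f + Th g := by
    intro f g
    have e0 : (fun i => (f + g) i 0) = (fun i => f i 0) + (fun i => g i 0) := rfl
    have e1 : (fun i => (f + g) i 1) = (fun i => f i 1) + (fun i => g i 1) := rfl
    rw [Th_def, Th_def, Th_def, e0, e1, Pc_add, Pc_add, smul_add]
    abel
  have Th_inj : Function.Injective Th := by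
    intro f g h
    rw [Th_def, Th_def] at h
    obtain ⟨h0, h1⟩ := Uu_unique H (Pc_mem _) (Pc_mem _) (Pc_mem _) (Pc_mem _) h
    have h0' := Pc_inj _ _ h0
    have h1' := Pc_inj _ _ h1
    funext i j
    fin_cases j
    · exact congrFun h0' i
    · exact congrFun h1' i
  have Th_surj : Function.Surjective Th := by
    intro a
    have ha : a ∈ Uu K A := by rw [hT]; trivial
    obtain ⟨y, hy, y', hy', rfl⟩ := ha
    obtain ⟨φ, rfl⟩ := Pc_surj y hy
    obtain ⟨ψ, rfl⟩ := Pc_surj y' hy'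
    refine ⟨fun i => ![φ i, ψ i], ?_⟩
    simp [Th_def]
  obtain ⟨Θ, hΘ⟩ : ∃ Θ : (Fin k → Fin 2 → K) ≃+ A, ∀ f, Θ f = Th f :=
    ⟨AddEquiv.ofBijective (AddMonoidHom.mk' Th Th_add) ⟨Th_inj, Th_surj⟩, fun _ => rfl⟩
  refine ⟨Θ, ?_⟩
  intro g
  refine all_of_gens (fun g => ∀ f, g • Θ f = Θ (fun i => (g : Matrix (Fin 2) (Fin 2) K).mulVec (f i)))
    ?_ ?_ ?_ ?_ ?_ ?_ g
  · intro f
    rw [one_smul]
    congr 1
    funext i
    exact (Matrix.one_mulVec _).symm
  · intro g h hg hh f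
    rw [mul_smul, hh, hg]
    congr 1
    funext i
    rw [mulVec_mul_sl]
  · intro g hg f
    have h1 := hg (fun i => ((g⁻¹ : SpecialLinearGroup (Fin 2) K) : Matrix (Fin 2) (Fin 2) K).mulVec (f i))
    have h2 : (fun i => (g : Matrix (Fin 2) (Fin 2) K).mulVec
        (((g⁻¹ : SpecialLinearGroup (Fin 2) K) : Matrix (Fin 2) (Fin 2) K).mulVec (f i))) = f := by
      funext i
      rw [← mulVec_mul_sl, mul_inv_cancel]
      exact Matrix.one_mulVec _
    rw [h2] at h1
    rw [← h1, inv_smul_smul]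
  · intro t f
    rw [hΘ, hΘ, Th_def, Th_def, smul_add, (Pc_mem _) t, Y_xw' H (Pc_mem _) t]
    have e0 : (fun i => ((xx t : SpecialLinearGroup (Fin 2) K) : Matrix (Fin 2) (Fin 2) K).mulVec (f i) 0) =
        (fun i => f i 0) + t • (fun i => f i 1) := by
      funext i
      have := (mulVec_two ((xx t : SpecialLinearGroup (Fin 2) K) : Matrix (Fin 2) (Fin 2) K) (xx_coe t) (f i)).1
      simpa using this
    have e1 : (fun i => ((xx t : SpecialLinearGroup (Fin 2) K) : Matrix (Fin 2) (Fin 2) K).mulVec (f i) 1) =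
        (fun i => f i 1) := by
      funext i
      have := (mulVec_two ((xx t : SpecialLinearGroup (Fin 2) K) : Matrix (Fin 2) (Fin 2) K) (xx_coe t) (f i)).2
      simpa using this
    rw [e0, e1, Pc_add, Pc_smul]
    abel
  · intro c f
    rw [hΘ, hΘ, Th_def, Th_def, smul_add, hh_ww_smul, ← sc_unit, ← sc_unit, ← Pc_smul, ← Pc_smul]
    have e0 : (fun i => ((hh c : SpecialLinearGroup (Fin 2) K) : Matrix (Fin 2) (Fin 2) K).mulVec (f i) 0) =
        (c : K) • (fun i => f i 0) := by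
      funext i
      have := (mulVec_two ((hh c : SpecialLinearGroup (Fin 2) K) : Matrix (Fin 2) (Fin 2) K) (hh_coe c) (f i)).1
      simpa using this
    have e1 : (fun i => ((hh c : SpecialLinearGroup (Fin 2) K) : Matrix (Fin 2) (Fin 2) K).mulVec (f i) 1) =
        ((c⁻¹ : Kˣ) : K) • (fun i => f i 1) := by
      funext i
      have := (mulVec_two ((hh c : SpecialLinearGroup (Fin 2) K) : Matrix (Fin 2) (Fin 2) K) (hh_coe c) (f i)).2
      simpa using this
    rw [e0, e1]
  · intro f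
    rw [hΘ, hΘ, Th_def, Th_def, smul_add, ww_ww]
    have e0 : (fun i => ((𝐖 : SpecialLinearGroup (Fin 2) K) : Matrix (Fin 2) (Fin 2) K).mulVec (f i) 0) =
        (fun i => f i 1) := by
      funext i
      have := (mulVec_two ((𝐖 : SpecialLinearGroup (Fin 2) K) : Matrix (Fin 2) (Fin 2) K) ww_coe (f i)).1
      simpa using this
    have e1 : (fun i => ((𝐖 : SpecialLinearGroup (Fin 2) K) : Matrix (Fin 2) (Fin 2) K).mulVec (f i) 1) =
        (fun i => f i 0) := by
      funext i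
      have := (mulVec_two ((𝐖 : SpecialLinearGroup (Fin 2) K) : Matrix (Fin 2) (Fin 2) K) ww_coe (f i)).2
      simpa using this
    rw [e0, e1]
    abel

/-- The structure theorem for these modules: a direct sum of natural modules. -/
theorem natural_structure [Finite A] (H : Good K A) (hT : Uu K A = ⊤) :
    ∃ (k : ℕ) (Θ : (Fin k → Fin 2 → K) ≃+ A),
      ∀ (g : SpecialLinearGroup (Fin 2) K) (f : Fin k → Fin 2 → K),
        g • Θ f = Θ (fun i => (g : Matrix (Fin 2) (Fin 2) K).mulVec (f i)) := by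
  classical
  let _ := modY K A H
  have : Finite (Yy K A) := inferInstance
  have : Module.Finite K (Yy K A) := Module.Finite.of_finite
  obtain ⟨k, ⟨E⟩⟩ : ∃ k : ℕ, Nonempty (Yy K A ≃ₗ[K] (Fin k → K)) :=
    ⟨_, ⟨(Module.finBasis K (Yy K A)).equivFun⟩⟩
  refine ⟨k, natural_of_coords H hT k (fun φ => ((E.symm φ : Yy K A) : A)) ?_ ?_ ?_ ?_ ?_⟩
  · exact fun φ => (E.symm φ).2
  · intro φ ψ
    simp [map_add]
  · intro c φ
    simp only [map_smul]
    rfl
  · intro φ ψ h
    exact E.symm.injective (Subtype.ext h)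
  · intro y hy
    refine ⟨E ⟨y, hy⟩, ?_⟩
    simp

end Cfsg.Agent.Lib.PGroup.SL2FpfMod
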