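import Mathlib
import Cfsg.Prelude.Def_PLocal
import Cfsg.Agent.Lib.PGroup.ThompsonG
import Cfsg.Agent.Lib.PGroup.StableClosure
import Cfsg.Agent.Lib.Basic.SylowUtil
import Cfsg.Agent.S4207
import Cfsg.Agent.S0607

/-!
# The `ZJ`-type theorem for the stable normal closure `W(S)`: preliminaries
-/

namespace Cfsg.Agent.Lib.PGroup.ZJStable

open Cfsg Cfsg.Agent.Lib.PGroup.ThompsonG Cfsg.Agent.Lib.PGroup.StableClosure
open Cfsg.Agent.Lib.Basic.PCore Cfsg.Agent.Lib.Basic.SylowUtil

section SectionKernel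

variable {G : Type*} [Group G]

theorem mem_sectionKernel_iff {K N : Subgroup G} [hN : N.Normal] {g : G} :
    g ∈ sectionKernel K N ↔ ∀ k ∈ K, k * g * k⁻¹ * g⁻¹ ∈ N := by
  unfold sectionKernel
  rw [Subgroup.mem_comap, Subgroup.mem_centralizer_iff]
  constructor
  · intro h k hk
    have h1 := h _ (Subgroup.mem_map_of_mem (QuotientGroup.mk' N) hk)
    rw [← QuotientGroup.eq_one_iff]
    have h2 : (QuotientGroup.mk' N) k * (QuotientGroup.mk' N) g =
        (QuotientGroup.mk' N) g * (QuotientGroup.mk' N) k := h1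
    have h3 : ((k * g * k⁻¹ * g⁻¹ : G) : G ⧸ N) =
        (QuotientGroup.mk' N) k * (QuotientGroup.mk' N) g * ((QuotientGroup.mk' N) k)⁻¹ *
          ((QuotientGroup.mk' N) g)⁻¹ := by
      simp
    rw [h3, h2]
    group
  · rintro h _ ⟨k, hk, rfl⟩
    have h1 := h k hk
    rw [← QuotientGroup.eq_one_iff] at h1
    have h3 : ((k * g * k⁻¹ * g⁻¹ : G) : G ⧸ N) =
        (QuotientGroup.mk' N) k * (QuotientGroup.mk' N) g * ((QuotientGroup.mk' N) k)⁻¹ *
          ((QuotientGroup.mk' N) g)⁻¹ := by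
      simp
    rw [h3] at h1
    have h4 : (QuotientGroup.mk' N) k * (QuotientGroup.mk' N) g =
        (QuotientGroup.mk' N) g * (QuotientGroup.mk' N) k := by
      have := mul_inv_eq_one.1 h1
      rw [mul_inv_eq_iff_eq_mul] at this
      exact this
    exact h4

end SectionKernel

section Frattini

/-- The automorphisms acting trivially on the Frattini quotient form a subgroup. -/
def trivFrattini (P : Type*) [Group P] : Subgroup (MulAut P) where
  carrier := {β | ∀ x : P, β x * x⁻¹ ∈ frattini P}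
  one_mem' := by
    intro x
    simp
  mul_mem' := by
    intro β γ hβ hγ x
    have h := mul_mem (hβ (γ x)) (hγ x)
    simpa [mul_assoc] using h
  inv_mem' := by
    intro β hβ x
    have h := hβ (β⁻¹ x)
    have h2 := inv_mem h
    simpa using h2

theorem trivFrattini_isPGroup {P : Type*} [Group P] [Finite P] {p : ℕ} [hp : Fact p.Prime]
    (hP : IsPGroup p P) : IsPGroup p (trivFrattini P) := by
  obtain ⟨n, hn⟩ := IsPGroup.iff_card.1 hP
  have hdvd : (frattini P).index ∣ p ^ n := by
    rw [← hn]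
    exact Subgroup.index_dvd_card _
  obtain ⟨r, -, hr⟩ := (Nat.dvd_prime_pow hp.out).1 hdvd
  have := Cfsg.Agent.S4207.result hn hr (trivFrattini P) (fun α hα x => hα x)
  obtain ⟨m, -, hm⟩ := (Nat.dvd_prime_pow hp.out).1 this
  exact IsPGroup.of_card hm

variable {G : Type*} [Group G] [Finite G] {p : ℕ} [hp : Fact p.Prime]

/-- The kernel of the action on `O_p(G)/Φ(O_p(G))` is a `p`-group if `O_p(G)` contains its
centralizer. -/
theorem sectionKernel_isPGroup {D : Subgroup G} [hDn : D.Normal] (hD : IsPGroup p D)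
    (hc : Subgroup.centralizer (D : Set G) ≤ D) {N : Subgroup G} [hN : N.Normal]
    (hNe : N = (frattini D).map D.subtype) : IsPGroup p (sectionKernel D N) := by
  subst hNe
  intro g
  have hg := mem_sectionKernel_iff.1 g.2
  have hα : (MulAut.conjNormal (g : G) : MulAut D) ∈ trivFrattini D := by
    intro x
    have h1 := hg x x.2
    obtain ⟨y, hy, hyx⟩ := h1
    have h2 : (MulAut.conjNormal (g : G) : MulAut D) x * x⁻¹ = y⁻¹ := by
      apply Subtype.ext
      have h3 : (y : G) = (x : G) * g * (x : G)⁻¹ * (g : G)⁻¹ := hyx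
      show (g : G) * (x : G) * (g : G)⁻¹ * (x : G)⁻¹ = (y : G)⁻¹
      rw [h3]
      group
    rw [h2]
    exact inv_mem hy
  obtain ⟨k, hk⟩ := trivFrattini_isPGroup hD ⟨_, hα⟩
  have hk' : (MulAut.conjNormal ((g : G) ^ p ^ k) : MulAut D) = 1 := by
    rw [map_pow]
    exact congrArg Subtype.val hk
  have hcen : (g : G) ^ p ^ k ∈ Subgroup.centralizer (D : Set G) := by
    rw [Subgroup.mem_centralizer_iff]
    intro d hd
    have h1 := congrArg (fun σ : MulAut D => ((σ ⟨d, hd⟩ : D) : G)) hk'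
    simp only [MulAut.conjNormal_apply, MulAut.one_apply] at h1
    rw [mul_inv_eq_iff_eq_mul] at h1
    exact h1.symm
  obtain ⟨m, hm⟩ := hD ⟨_, hc hcen⟩
  refine ⟨k + m, Subtype.ext ?_⟩
  have h2 := congrArg Subtype.val hm
  simp only [Subgroup.coe_pow, OneMemClass.coe_one] at h2 ⊢
  rw [pow_add, pow_mul]
  exact h2

/-- A subgroup containing a `p`-subgroup with `p`-power index is a `p`-group. -/
theorem isPGroup_of_relIndex {K D : Subgroup G} (hK : IsPGroup p K)
    {k : ℕ} (h : K.relIndex D = p ^ k) : IsPGroup p D := by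
  have h1 : IsPGroup p (K.subgroupOf D) := hK.comap_subtype
  obtain ⟨a, ha⟩ := IsPGroup.iff_card.1 h1
  have h2 := Subgroup.card_mul_index (K.subgroupOf D)
  rw [ha, show (K.subgroupOf D).index = K.relIndex D from rfl, h, ← pow_add] at h2
  exact IsPGroup.of_card h2.symm

end Frattini

section Central

variable {G : Type*} [Group G] [Finite G] {p : ℕ} [hp : Fact p.Prime]

/-- In a `p`-group, if `M < K` are normal, there is `x ∈ K \ M` with `[x, s] ∈ M` for all `s`. -/
theorem exists_central_step (hG : IsPGroup p G) {K M : Subgroup G} [hK : K.Normal] [hM : M.Normal]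
    (hMK : ¬ K ≤ M) : ∃ x ∈ K, x ∉ M ∧ ∀ s : G, x * s * x⁻¹ * s⁻¹ ∈ M := by
  let f := QuotientGroup.mk' M
  have hfs : Function.Surjective f := QuotientGroup.mk'_surjective M
  have hQ : IsPGroup p (G ⧸ M) := IsPGroup.of_surjective hG f hfs
  let K' := K.map f
  have hK' : K'.Normal := Subgroup.Normal.map hK f hfs
  have hne : K' ≠ ⊥ := by
    intro hb
    apply hMK
    intro x hx
    have : f x ∈ K' := Subgroup.mem_map_of_mem f hx
    rw [hb, Subgroup.mem_bot] at this
    exact (QuotientGroup.eq_one_iff x).1 this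
  have hcen := inf_center_ne_bot_of_isPGroup hQ hne
  obtain ⟨z, hz, hz1⟩ := (Subgroup.bot_or_exists_ne_one _).resolve_left hcen
  obtain ⟨⟨x, hx, rfl⟩, hzC⟩ := hz
  refine ⟨x, hx, ?_, fun s => ?_⟩
  · intro hxM
    exact hz1 ((QuotientGroup.eq_one_iff x).2 hxM)
  · rw [← QuotientGroup.eq_one_iff]
    have h1 := (Subgroup.mem_center_iff.1 hzC) (f s)
    have h3 : ((x * s * x⁻¹ * s⁻¹ : G) : G ⧸ M) = f x * f s * (f x)⁻¹ * (f s)⁻¹ := by
      simp [f]
    rw [h3, ← h1]
    group

end Central

section Commutators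

variable {G : Type*} [Group G]

theorem quad_of_le_centralizer {X Z : Subgroup G} {x : G}
    (h1 : ∀ u ∈ X, ∀ g ∈ Subgroup.zpowers x, u * g * u⁻¹ * g⁻¹ ∈ Z)
    (h2 : ∀ z ∈ Z, ∀ g ∈ Subgroup.zpowers x, z * g = g * z) :
    ⁅⁅X, Subgroup.zpowers x⁆, Subgroup.zpowers x⁆ = ⊥ := by
  have h3 : ⁅X, Subgroup.zpowers x⁆ ≤ Z := by
    rw [Subgroup.commutator_le]
    exact h1
  rw [Subgroup.commutator_eq_bot_iff_le_centralizer]
  intro u hu
  refine Subgroup.mem_centralizer_iff.2 fun g hg => ?_
  exact (h2 u (h3 hu) g hg).symm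

theorem zpowers_le_of_mem {K : Subgroup G} {x : G} (hx : x ∈ K) : Subgroup.zpowers x ≤ K :=
  (Subgroup.zpowers_le).2 hx

/-- A subgroup `K` normalized by `X` and abelian: elements of `K` act quadratically on `X`. -/
theorem quad_of_normalized_abelian {X K : Subgroup G} {x : G} (hx : x ∈ K)
    (hK : ∀ a ∈ K, ∀ b ∈ K, a * b = b * a) (hn : ∀ d ∈ X, ∀ k ∈ K, d * k * d⁻¹ ∈ K) :
    ⁅⁅X, Subgroup.zpowers x⁆, Subgroup.zpowers x⁆ = ⊥ := by
  apply quad_of_le_centralizer (Z := K)
  · intro u hu g hg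
    exact mul_mem (hn u hu g (zpowers_le_of_mem hx hg)) (inv_mem (zpowers_le_of_mem hx hg))
  · intro z hz g hg
    exact hK z hz g (zpowers_le_of_mem hx hg)

theorem centralizer_normal (V : Subgroup G) [hV : V.Normal] :
    (Subgroup.centralizer (V : Set G)).Normal := by
  refine ⟨fun c hc g => ?_⟩
  refine Subgroup.mem_centralizer_iff.2 fun v hv => ?_
  have h1 := Subgroup.mem_centralizer_iff.1 hc (g⁻¹ * v * g) (by
    have := hV.conj_mem v hv g⁻¹
    simpa using this)
  calc v * (g * c * g⁻¹) = g * ((g⁻¹ * v * g) * c) * g⁻¹ := by group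
    _ = g * (c * (g⁻¹ * v * g)) * g⁻¹ := by rw [h1]
    _ = g * c * g⁻¹ * v := by group

/-- `g * x * g⁻¹ = x` for `x ∈ V` and `g` in the centralizer, in usable form. -/
theorem conj_eq_of_mem_centralizer {V : Subgroup G} {c x : G}
    (hc : c ∈ Subgroup.centralizer (V : Set G)) (hx : x ∈ V) : c * x * c⁻¹ = x := by
  have := Subgroup.mem_centralizer_iff.1 hc x hx
  rw [← this]
  group

end Commutators

section WProps

variable {S : Type*} [Group S] {p : ℕ}

theorem omegaCenterThompson_ea : IsElementaryAbelian p (omegaCenterThompson p S) := by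
  unfold omegaCenterThompson omegaOne
  apply ea_closure
  · rintro x ⟨⟨hx1, -⟩, -⟩ y ⟨⟨-, hy2⟩, -⟩
    exact (Subgroup.mem_centralizer_iff.1 hy2 x hx1)
  · rintro x ⟨-, hx⟩
    exact hx

theorem omegaCenterThompson_le_centralizer :
    omegaCenterThompson p S ≤ Subgroup.centralizer (thompsonSubgroup p S : Set S) := by
  unfold omegaCenterThompson omegaOne
  rw [Subgroup.closure_le]
  rintro x ⟨⟨-, hx⟩, -⟩
  exact hx

theorem stableNormalClosure_ea [Finite S] : IsElementaryAbelian p (stableNormalClosure p S) :=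
  ea_mono omegaCenterThompson_ea stableNormalClosure_le

theorem stableNormalClosure_le_centralizer [Finite S] :
    stableNormalClosure p S ≤ Subgroup.centralizer (thompsonSubgroup p S : Set S) :=
  stableNormalClosure_le.trans omegaCenterThompson_le_centralizer

end WProps

section FrattiniFactor

variable {G : Type*} [Group G] [Finite G] {p : ℕ} [hp : Fact p.Prime]

/-- Frattini factorization: `G = M · N_G(S ∩ M)` for `M` normal. -/
theorem exists_mul_normalizer_inf (S : Sylow p G) (M : Subgroup G) [hM : M.Normal] (g : G) :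
    ∃ m ∈ M, ∃ n ∈ Subgroup.normalizer (((S : Subgroup G) ⊓ M : Subgroup G) : Set G), g = m * n := by
  obtain ⟨Q, hQ⟩ := exists_sylow_inf_normal S M
  have := frattini_argument' Q g
  rwa [hQ] at this

/-- The preimage of the `p`-core of the quotient by `C`. -/
def coreComap (p : ℕ) (C : Subgroup G) [C.Normal] : Subgroup G :=
  (pCore p (G ⧸ C)).comap (QuotientGroup.mk' C)

instance coreComap_normal (C : Subgroup G) [C.Normal] : (coreComap p C).Normal := by
  unfold coreComap
  exact Subgroup.Normal.comap inferInstance _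

/-- `G = C · N_G(S ∩ L)` where `L/C = O_p(G/C)`. -/
theorem exists_mul_normalizer_core (S : Sylow p G) (C : Subgroup G) [hC : C.Normal] (g : G) :
    ∃ c ∈ C, ∃ n ∈ Subgroup.normalizer (((S : Subgroup G) ⊓ coreComap p C : Subgroup G) : Set G),
      g = c * n := by
  obtain ⟨l, hl, n₀, hn₀, rfl⟩ := exists_mul_normalizer_inf S (coreComap p C) g
  have hsurj : Function.Surjective (QuotientGroup.mk' C) := QuotientGroup.mk'_surjective C
  have hmem := pCore_le_sylow (S.mapSurjective hsurj) hl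
  obtain ⟨t, ht, hte⟩ := hmem
  have hte' : (QuotientGroup.mk' C) t = (QuotientGroup.mk' C) l := hte
  have htL : t ∈ coreComap p C := by
    show (QuotientGroup.mk' C) t ∈ pCore p (G ⧸ C)
    rw [hte']
    exact hl
  have hc : t⁻¹ * l ∈ C := QuotientGroup.eq.1 hte
  refine ⟨t * (t⁻¹ * l) * t⁻¹, hC.conj_mem _ hc t, t * n₀, ?_, by group⟩
  exact mul_mem (Subgroup.le_normalizer ⟨ht, htL⟩) hn₀

end FrattiniFactor

section Main

universe u

variable {G : Type u} [Group G] [Finite G] {p : ℕ} [hp : Fact p.Prime]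

omit [Finite G] hp in
theorem le_normalizer_thompson (P : Subgroup G) :
    P ≤ Subgroup.normalizer (thompsonSubgroupOf p P : Set G) :=
  Subgroup.le_normalizer.trans (normalizer_le_normalizer_thompson P)

/-- The inclusion of `S` into `N_G(J(S))` is a stable embedding. -/
theorem isStableEmbedding_inclusion (hst : IsActionPStable p G)
    (hc : Subgroup.centralizer (pCore p G : Set G) ≤ pCore p G) (S : Sylow p G) :
    IsStableEmbedding p (Subgroup.inclusion (le_normalizer_thompson (p := p) (S : Subgroup G))) := by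
  have hPN := le_normalizer_thompson (p := p) (S : Subgroup G)
  set N := Subgroup.normalizer (thompsonSubgroupOf p (S : Subgroup G) : Set G) with hN
  refine ⟨Subgroup.inclusion_injective hPN, inferInstance, ⟨S.subtype hPN, ?_⟩, ?_, ?_, ?_⟩
  · rw [Sylow.coe_subtype]
    ext x
    constructor
    · intro hx
      exact ⟨⟨x.1, hx⟩, rfl⟩
    · rintro ⟨y, rfl⟩
      exact y.2
  · intro x hx
    have hDN : (pCore p G).subgroupOf N ≤ pCore p N :=
      le_pCore inferInstance (pCore_isPGroup (G := G) p).comap_subtype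
    have hDP : pCore p G ≤ (S : Subgroup G) := pCore_le_sylow S
    have h2 : x.1 ∈ Subgroup.centralizer (pCore p G : Set G) := by
      rw [Subgroup.mem_centralizer_iff]
      intro d hd
      have h := Subgroup.mem_centralizer_iff.1 hx ⟨d, hPN (hDP hd)⟩ (hDN hd)
      exact congrArg Subtype.val h
    exact hDN (hc h2)
  · refine ⟨fun x hx n => ?_⟩
    obtain ⟨j, hj, rfl⟩ := hx
    have h1 : (n : G) * j * (n : G)⁻¹ ∈ thompsonSubgroupOf p (S : Subgroup G) :=
      (Subgroup.mem_normalizer_iff.1 n.2 j).1 ⟨j, hj, rfl⟩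
    obtain ⟨j', hj', hjj'⟩ := h1
    exact ⟨j', hj', Subtype.ext hjj'⟩
  · intro V _ hV
    refine hst.2.2 S V ?_
    rintro _ ⟨v, hv, rfl⟩
    obtain ⟨w, hw, hwv⟩ := hV hv
    exact ⟨w, hw, congrArg Subtype.val hwv⟩

/-- `W(S)` lies in `O_p(G)`. -/
theorem W_le_pCore (hst : IsActionPStable p G)
    (hc : Subgroup.centralizer (pCore p G : Set G) ≤ pCore p G) (S : Sylow p G) :
    (stableNormalClosure p ↥(S : Subgroup G)).map (S : Subgroup G).subtype ≤ pCore p G := by
  set W' := (stableNormalClosure p ↥(S : Subgroup G)).map (S : Subgroup G).subtype with hW'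
  have hWn : (stableNormalClosure p ↥(S : Subgroup G)).Normal := by
    have := stableNormalClosure_characteristic (p := p) (S := ↥(S : Subgroup G))
    infer_instance
  have hW'ea : IsElementaryAbelian p W' := ea_map _ stableNormalClosure_ea
  intro x hx
  have hq : ⁅⁅pCore p G, Subgroup.zpowers x⁆, Subgroup.zpowers x⁆ = ⊥ := by
    apply quad_of_normalized_abelian hx (fun a ha b hb => ea_comm hW'ea ha hb)
    rintro d hd _ ⟨w, hw, rfl⟩
    have hdP : d ∈ (S : Subgroup G) := pCore_le_sylow S hd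
    exact ⟨_, hWn.conj_mem w hw ⟨d, hdP⟩, rfl⟩
  obtain ⟨D', hD'n, -, ⟨k, hk⟩, hxD'⟩ := hst.2.1 x (by rw [hq]; exact bot_le)
  have hKr := sectionKernel_isPGroup (pCore_isPGroup (G := G) p) hc
    (N := (frattini (pCore p G)).map (pCore p G).subtype) rfl
  exact le_pCore hD'n (isPGroup_of_relIndex hKr hk) hxD'

/-- Step C: `W(S)` centralizes its normal closure. -/
theorem W_le_centralizer_closure (S : Sylow p G)
    (hW : (stableNormalClosure p ↥(S : Subgroup G)).map (S : Subgroup G).subtype ≤ pCore p G) :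
    (stableNormalClosure p ↥(S : Subgroup G)).map (S : Subgroup G).subtype ≤
      Subgroup.centralizer ((Subgroup.normalClosure
        (((stableNormalClosure p ↥(S : Subgroup G)).map (S : Subgroup G).subtype : Subgroup G) :
          Set G) : Subgroup G) : Set G) := by
  set P := (S : Subgroup G) with hPdef
  set W := stableNormalClosure p ↥P with hWdef
  set W' := W.map P.subtype with hW'
  set V := Subgroup.normalClosure (W' : Set G) with hV
  have hVn : V.Normal := Subgroup.normalClosure_normal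
  have hW'V : W' ≤ V := Subgroup.le_normalClosure
  have hVD : V ≤ pCore p G := Subgroup.normalClosure_le_normal hW
  have hVP : V ≤ P := hVD.trans (pCore_le_sylow S)
  have hWn : W.Normal := by
    have := stableNormalClosure_characteristic (p := p) (S := ↥P)
    infer_instance
  have hCn : (Subgroup.centralizer (V : Set G)).Normal := centralizer_normal V
  let Zv : Subgroup G := V ⊓ Subgroup.centralizer (V : Set G)
  have hZn : Zv.Normal := Subgroup.normal_inf_normal _ _
  let M : Subgroup ↥P := W ⊓ (Subgroup.centralizer (V : Set G)).subgroupOf P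
  have hMn : M.Normal := Subgroup.normal_inf_normal _ _
  by_contra hcon
  have hMW : ¬ W ≤ M := by
    intro h
    apply hcon
    rintro _ ⟨w, hw, rfl⟩
    exact (h hw).2
  have hPp : IsPGroup p ↥P := S.isPGroup'
  obtain ⟨x, hxW, hxM, hxs⟩ := exists_central_step hPp hMW
  apply hxM
  refine ⟨hxW, ?_⟩
  have hxZ2 : (x : G) ∈ sectionKernel V Zv := by
    rw [mem_sectionKernel_iff]
    intro v hv
    have h1 := hxs ⟨v, hVP hv⟩
    have h2 : (x : G) * v * (x : G)⁻¹ * v⁻¹ ∈ Zv :=
      ⟨hW'V ⟨_, h1.1, rfl⟩, h1.2⟩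
    have e : v * x * v⁻¹ * (x : G)⁻¹ = ((x : G) * v * (x : G)⁻¹ * v⁻¹)⁻¹ := by group
    rw [e]
    exact inv_mem h2
  have key : ∀ g : G, ∀ w ∈ W', (g * x * g⁻¹) * w = w * (g * x * g⁻¹) := by
    intro g w hw
    set y := g * x * g⁻¹ with hy
    have hyV : y ∈ V := hVn.conj_mem _ (hW'V ⟨x, hxW, rfl⟩) g
    have hyZ : y ∈ sectionKernel V Zv := by
      rw [mem_sectionKernel_iff] at hxZ2 ⊢
      intro v hv
      have h1 := hxZ2 (g⁻¹ * v * g) (by simpa using hVn.conj_mem v hv g⁻¹)
      have h2 := hZn.conj_mem _ h1 g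
      have e : v * y * v⁻¹ * y⁻¹ =
          g * ((g⁻¹ * v * g) * x * (g⁻¹ * v * g)⁻¹ * (x : G)⁻¹) * g⁻¹ := by
        rw [hy]
        group
      rw [e]
      exact h2
    have hq : ⁅⁅W', Subgroup.zpowers y⁆, Subgroup.zpowers y⁆ = ⊥ := by
      apply quad_of_le_centralizer (Z := Zv)
      · intro u hu h hh
        exact mem_sectionKernel_iff.1 (zpowers_le_of_mem hyZ hh) u (hW'V hu)
      · intro z hz h hh
        exact (Subgroup.mem_centralizer_iff.1 hz.2 h (zpowers_le_of_mem hyV hh)).symm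
    let y' : ↥P := ⟨y, hVP hyV⟩
    have hq' : ⁅⁅W, Subgroup.zpowers y'⁆, Subgroup.zpowers y'⁆ = ⊥ :=
      quad_of_map P.subtype_injective W y' hq
    have hc := stable_quadratic_central y' hq'
    rw [Subgroup.commutator_eq_bot_iff_le_centralizer] at hc
    obtain ⟨w', hw', rfl⟩ := hw
    have := Subgroup.mem_centralizer_iff.1 (hc hw') y' (Subgroup.mem_zpowers y')
    exact congrArg Subtype.val this
  have hle : V ≤ Subgroup.centralizer ({(x : G)} : Set G) := by
    rw [hV]
    unfold Subgroup.normalClosure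
    rw [Subgroup.closure_le]
    intro c hc
    obtain ⟨w, hw, hwc⟩ := Group.mem_conjugatesOfSet_iff.1 hc
    obtain ⟨g, rfl⟩ := isConj_iff.1 hwc
    have h1 := key g⁻¹ w hw
    rw [SetLike.mem_coe, Subgroup.mem_centralizer_iff]
    intro h hh
    rw [Set.mem_singleton_iff] at hh
    rw [hh]
    calc (x : G) * (g * w * g⁻¹) = g * ((g⁻¹ * x * g⁻¹⁻¹) * w) * g⁻¹ := by group
      _ = g * (w * (g⁻¹ * x * g⁻¹⁻¹)) * g⁻¹ := by rw [h1]
      _ = (g * w * g⁻¹) * x := by group
  show (x : G) ∈ Subgroup.centralizer (V : Set G)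
  rw [Subgroup.mem_centralizer_iff]
  intro v hv
  have := Subgroup.mem_centralizer_iff.1 (hle hv) (x : G) rfl
  exact this.symm

/-- Step C, second half: the normal closure of `W(S)` is elementary abelian. -/
theorem closure_ea (S : Sylow p G)
    (hW : (stableNormalClosure p ↥(S : Subgroup G)).map (S : Subgroup G).subtype ≤ pCore p G) :
    IsElementaryAbelian p (Subgroup.normalClosure
        (((stableNormalClosure p ↥(S : Subgroup G)).map (S : Subgroup G).subtype : Subgroup G) :
          Set G) : Subgroup G) := by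
  have h1 := W_le_centralizer_closure S hW
  set W' := (stableNormalClosure p ↥(S : Subgroup G)).map (S : Subgroup G).subtype with hW'
  have hW'ea : IsElementaryAbelian p W' := ea_map _ stableNormalClosure_ea
  have hVn : (Subgroup.normalClosure (W' : Set G)).Normal := Subgroup.normalClosure_normal
  have hCn := centralizer_normal (Subgroup.normalClosure (W' : Set G))
  have h2 : Subgroup.normalClosure (W' : Set G) ≤
      Subgroup.centralizer ((Subgroup.normalClosure (W' : Set G) : Subgroup G) : Set G) :=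
    Subgroup.normalClosure_le_normal h1
  unfold Subgroup.normalClosure at h2 ⊢
  apply ea_closure
  · intro a ha b hb
    have h3 := h2 (Subgroup.subset_closure hb)
    exact Subgroup.mem_centralizer_iff.1 h3 a (Subgroup.subset_closure ha)
  · intro a ha
    obtain ⟨w, hw, hwc⟩ := Group.mem_conjugatesOfSet_iff.1 ha
    obtain ⟨g, rfl⟩ := isConj_iff.1 hwc
    rw [conj_pow, hW'ea.2 w hw]
    simp

/-- Step E: the Thompson subgroup centralizes `V`. -/
theorem thompson_le_centralizer (S : Sylow p G) (V : Subgroup G) [hVn : V.Normal]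
    (hVea : IsElementaryAbelian p V) (hst : IsPStableOn p V) (hVP : V ≤ (S : Subgroup G))
    (W' : Subgroup G) (hW'V : W' ≤ V) (hV : V ≤ Subgroup.normalClosure (W' : Set G))
    (hW'J : W' ≤ Subgroup.centralizer (thompsonSubgroupOf p (S : Subgroup G) : Set G)) :
    thompsonSubgroupOf p (S : Subgroup G) ≤ Subgroup.centralizer (V : Set G) := by
  set P := (S : Subgroup G) with hPdef
  let C : Subgroup G := Subgroup.centralizer (V : Set G)
  have hCn : C.Normal := centralizer_normal V
  let T : Subgroup G := P ⊓ coreComap p C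
  let VP : Subgroup ↥P := V.subgroupOf P
  have hVPn : VP.Normal := inferInstance
  have hVPea : IsElementaryAbelian p VP :=
    ea_of_map P.subtype_injective (by rw [map_subgroupOf hVP]; exact hVea)
  have hVPmap : VP.map P.subtype = V := map_subgroupOf hVP
  have hrep : ∀ A ∈ maxElementaryAbelianSubgroups p ↥P, ∃ A₀ : Subgroup ↥P,
      A₀ ∈ maxElementaryAbelianSubgroups p ↥P ∧ ⁅⁅VP, A₀⁆, A₀⁆ = ⊥ ∧ (⁅VP, A⁆ ≠ ⊥ → ⁅VP, A₀⁆ ≠ ⊥) :=
    fun A hA => ⟨_, Cfsg.Agent.S0607.result VP hVPea A hA⟩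
  have hA₀T : ∀ A₀ : Subgroup ↥P, ⁅⁅VP, A₀⁆, A₀⁆ = ⊥ → A₀.map P.subtype ≤ T := by
    rintro A₀ hq _ ⟨a, ha, rfl⟩
    refine ⟨a.2, ?_⟩
    have hz : Subgroup.zpowers a ≤ A₀ := zpowers_le_of_mem ha
    have hqa : ⁅⁅VP, Subgroup.zpowers a⁆, Subgroup.zpowers a⁆ = ⊥ := by
      rw [eq_bot_iff, ← hq]
      exact Subgroup.commutator_mono (Subgroup.commutator_mono le_rfl hz) hz
    have hq2 := quad_map P.subtype VP a hqa
    rw [hVPmap] at hq2
    exact hst _ hq2
  obtain ⟨A1, hA1⟩ := exists_mem_max_ea (p := p) (S := ↥P)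
  obtain ⟨A₁, hA₁max, hA₁q, -⟩ := hrep A1 hA1
  have hTP : T ≤ P := inf_le_left
  have hJTJ : thompsonSubgroupOf p T ≤ thompsonSubgroupOf p P :=
    thompsonSubgroupOf_mono hTP (mem_gMaxEA_of_mem hA₁max) (hA₀T A₁ hA₁q)
  have hUn : (V ⊓ Subgroup.centralizer (thompsonSubgroupOf p T : Set G)).Normal := by
    refine ⟨fun u hu g => ?_⟩
    obtain ⟨c, hc, n, hn, rfl⟩ := exists_mul_normalizer_core S C g
    have hnu : n * u * n⁻¹ ∈ V := hVn.conj_mem u hu.1 n
    have h1 : (c * n) * u * (c * n)⁻¹ = n * u * n⁻¹ := by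
      have := conj_eq_of_mem_centralizer hc hnu
      calc (c * n) * u * (c * n)⁻¹ = c * (n * u * n⁻¹) * c⁻¹ := by group
        _ = n * u * n⁻¹ := this
    rw [h1]
    refine ⟨hnu, Subgroup.mem_centralizer_iff.2 fun j hj => ?_⟩
    have hn' := normalizer_le_normalizer_thompson (p := p) T hn
    have hj' : n⁻¹ * j * n ∈ thompsonSubgroupOf p T := by
      apply (Subgroup.mem_normalizer_iff.1 hn' _).2
      have e : n * (n⁻¹ * j * n) * n⁻¹ = j := by group
      rwa [e]
    have hcomm := Subgroup.mem_centralizer_iff.1 hu.2 _ hj'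
    calc j * (n * u * n⁻¹) = n * ((n⁻¹ * j * n) * u) * n⁻¹ := by group
      _ = n * (u * (n⁻¹ * j * n)) * n⁻¹ := by rw [hcomm]
      _ = n * u * n⁻¹ * j := by group
  have hW'U : W' ≤ V ⊓ Subgroup.centralizer (thompsonSubgroupOf p T : Set G) :=
    le_inf hW'V (Subgroup.centralizer_le hJTJ |>.trans' hW'J)
  have hVU : V ≤ V ⊓ Subgroup.centralizer (thompsonSubgroupOf p T : Set G) :=
    hV.trans (Subgroup.normalClosure_le_normal hW'U)
  have hJTC : thompsonSubgroupOf p T ≤ C := by
    rw [Subgroup.le_centralizer_iff]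
    exact hVU.trans inf_le_right
  rw [thompsonSubgroupOf_le_iff]
  intro B hB
  have hBA := subgroupOf_mem_of_mem_gMaxEA hB
  obtain ⟨A₀, hA₀max, hA₀q, hne⟩ := hrep _ hBA
  have hA₀C : A₀.map P.subtype ≤ C :=
    (le_thompsonSubgroupOf (mem_gMaxEA_of_le hTP (mem_gMaxEA_of_mem hA₀max) (hA₀T A₀ hA₀q))).trans
      hJTC
  have hbot : ⁅VP, A₀⁆ = ⊥ := by
    rw [Subgroup.commutator_eq_bot_iff_le_centralizer]
    intro v hv
    refine Subgroup.mem_centralizer_iff.2 fun a ha => ?_
    have := Subgroup.mem_centralizer_iff.1 (hA₀C ⟨a, ha, rfl⟩) v.1 hv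
    exact Subtype.ext this.symm
  have hbot2 : ⁅VP, B.subgroupOf P⁆ = ⊥ := by
    by_contra h
    exact hne h hbot
  rw [Subgroup.commutator_eq_bot_iff_le_centralizer] at hbot2
  intro b hb
  refine Subgroup.mem_centralizer_iff.2 fun v hv => ?_
  have hv' : (⟨v, hVP hv⟩ : ↥P) ∈ VP := hv
  have hb' : (⟨b, hB.1 hb⟩ : ↥P) ∈ B.subgroupOf P := hb
  have := Subgroup.mem_centralizer_iff.1 (hbot2 hv') _ hb'
  have h2 := congrArg Subtype.val this
  exact h2.symm

/-- **The `ZJ`-type theorem for `W(S)`.** -/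
theorem stableNormalClosure_normal (hst : IsActionPStable p G)
    (hc : Subgroup.centralizer (pCore p G : Set G) ≤ pCore p G) (S : Sylow p G) :
    ((stableNormalClosure p ↥(S : Subgroup G)).map (S : Subgroup G).subtype).Normal := by
  have hW := W_le_pCore hst hc S
  have hea := closure_ea S hW
  set P := (S : Subgroup G) with hPdef
  set W := stableNormalClosure p ↥P with hWdef
  set W' := W.map P.subtype with hW'
  set V := Subgroup.normalClosure (W' : Set G) with hV
  have hVn : V.Normal := Subgroup.normalClosure_normal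
  have hW'V : W' ≤ V := Subgroup.le_normalClosure
  have hVD : V ≤ pCore p G := Subgroup.normalClosure_le_normal hW
  have hVP : V ≤ P := hVD.trans (pCore_le_sylow S)
  have hCn := centralizer_normal V
  have hW'J : W' ≤ Subgroup.centralizer (thompsonSubgroupOf p P : Set G) := by
    rintro _ ⟨w, hw, rfl⟩
    refine Subgroup.mem_centralizer_iff.2 ?_
    rintro _ ⟨j, hj, rfl⟩
    have := Subgroup.mem_centralizer_iff.1 (stableNormalClosure_le_centralizer hw) j hj
    exact congrArg Subtype.val this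
  have hJC := thompson_le_centralizer S V hea (hst.1 V hea) hVP W' hW'V le_rfl hW'J
  have hJP : thompsonSubgroupOf p P ≤ P := thompsonSubgroupOf_le_self P
  have hT₀ : thompsonSubgroupOf p (P ⊓ Subgroup.centralizer (V : Set G)) =
      thompsonSubgroupOf p P :=
    thompsonSubgroupOf_eq_of_le inf_le_left (le_inf hJP hJC)
  have hτ := isStableEmbedding_inclusion hst hc S
  have hnormal := stableNormalClosure_map_normal hτ
  refine ⟨fun w hw g => ?_⟩
  obtain ⟨c, hc', n, hn, rfl⟩ := exists_mul_normalizer_inf S (Subgroup.centralizer (V : Set G)) g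
  have hnN : n ∈ Subgroup.normalizer (thompsonSubgroupOf p P : Set G) := by
    have := normalizer_le_normalizer_thompson (p := p) _ hn
    rwa [hT₀] at this
  have hnw : n * w * n⁻¹ ∈ W' := by
    obtain ⟨w₀, hw₀, rfl⟩ := hw
    have h1 := hnormal.conj_mem _ (Subgroup.mem_map_of_mem _ hw₀) ⟨n, hnN⟩
    obtain ⟨w₁, hw₁, hww⟩ := h1
    exact ⟨w₁, hw₁, congrArg Subtype.val hww⟩
  have e : (c * n) * w * (c * n)⁻¹ = n * w * n⁻¹ := by
    have := conj_eq_of_mem_centralizer hc' (hW'V hnw)
    calc (c * n) * w * (c * n)⁻¹ = c * (n * w * n⁻¹) * c⁻¹ := by group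
      _ = n * w * n⁻¹ := this
  rw [e]
  exact hnw

end Main

end Cfsg.Agent.Lib.PGroup.ZJStable
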