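import Mathlib
import Cfsg.Prelude.Def_TwoFusion
import Cfsg.Agent.Lib.PGroup.ZStarCor
import Cfsg.Agent.Lib.PGroup.ZStarApp

/-!
# Isolated involutions acting on Sylow subgroups (conditional on `Z*`)
-/

set_option autoImplicit false

namespace Cfsg.Agent.Lib.PGroup.ZStarInv

universe u

open Subgroup
open Cfsg.Agent.Lib.PGroup.ZStarCor Cfsg.Agent.Lib.PGroup.ZStarApp
open scoped Pointwise

variable {G : Type u} [Group G] [Finite G]

theorem mul_self {z : G} (hz : Cfsg.IsIsolatedInvolution z) : z * z = 1 :=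
  Cfsg.Agent.Lib.Basic.Isolated.mul_self_of_isolated hz

theorem inv_self {z : G} (hz : Cfsg.IsIsolatedInvolution z) : z⁻¹ = z :=
  Cfsg.Agent.Lib.Basic.Isolated.inv_of_isolated hz

theorem zpowers_isPGroup {z : G} (hz : Cfsg.IsIsolatedInvolution z) : IsPGroup 2 (zpowers z) := by
  rw [IsPGroup.iff_card]
  refine ⟨1, ?_⟩
  rw [Nat.card_zpowers, hz.1, pow_one]

/-- Criterion for being normalized by an element `z` with `z⁻¹ = z`. -/
theorem mem_normalizer_of_conj_mem {z : G} (hzi : z⁻¹ = z) {H : Subgroup G} (h : ∀ y ∈ H, z * y * z⁻¹ ∈ H) :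
    z ∈ normalizer (H : Set G) := by
  rw [Subgroup.mem_normalizer_iff]
  intro y
  refine ⟨h y, fun hy => ?_⟩
  have h1 := h _ hy
  have h2 : z * (z * y * z⁻¹) * z⁻¹ = y := by
    rw [hzi]
    have : z * z = 1 := by
      have h3 : z⁻¹ * z = 1 := inv_mul_cancel z
      rwa [hzi] at h3
    calc z * (z * y * z) * z = (z * z) * y * (z * z) := by group
      _ = y := by rw [this]; group
  rwa [h2] at h1

/-- The odd prime case of the row `S1187`: a `z`-invariant `p`-subgroup maximal among those is Sylow. -/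
theorem isolated_max_sylow_odd (hZ : ZStarProp.{u}) {z : G} (hz : Cfsg.IsIsolatedInvolution z) {p : ℕ}
    [Fact p.Prime] (hp : p ≠ 2) (Q : Subgroup G) (hQ : IsPGroup p Q)
    (hzQ : z ∈ Subgroup.normalizer (Q : Set G))
    (hmax : ∀ R : Subgroup G, IsPGroup p R → z ∈ Subgroup.normalizer (R : Set G) → Q ≤ R → R = Q) :
    ∃ P : Sylow p G, (P : Subgroup G) = Q := by
  classical
  have hzi := inv_self hz
  set O := Cfsg.oddCore G with hOdef
  have hOn : O.Normal := inferInstance
  have hOodd : (Nat.card O).Coprime 2 := Cfsg.Agent.Lib.Solvable.PSeries.pPrimeCore_coprime 2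
  obtain ⟨P, hQP⟩ := hQ.exists_le_sylow
  refine ⟨P, ?_⟩
  by_contra hne
  set R : Subgroup G := O ⊔ (P : Subgroup G) with hR
  have hRodd : (Nat.card R).Coprime 2 := by
    have hOR : O ≤ R := le_sup_left
    have h1 : Nat.card R = O.relIndex R * Nat.card (O.subgroupOf R) :=
      ((Subgroup.card_mul_index (O.subgroupOf R)).symm.trans (mul_comm _ _))
    have h2 : Nat.card (O.subgroupOf R) = Nat.card O :=
      Nat.card_congr (Subgroup.subgroupOfEquivOfLe hOR).toEquiv
    have h3 : O.relIndex R = O.relIndex (P : Subgroup G) := Subgroup.relIndex_sup_left _ _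
    have h4 : O.relIndex (P : Subgroup G) ∣ Nat.card (P : Subgroup G) := Subgroup.index_dvd_card _
    have hPodd : (Nat.card (P : Subgroup G)).Coprime 2 := by
      obtain ⟨k, hk⟩ := IsPGroup.iff_card.mp P.isPGroup'
      rw [hk]
      exact Nat.Coprime.pow_left k ((Nat.coprime_primes (Fact.out) Nat.prime_two).mpr hp)
    rw [h1, h2, h3]
    exact Nat.Coprime.mul_left (Nat.Coprime.coprime_dvd_left h4 hPodd) hOodd
  have hcomm := isolated_comm_mem hZ hz
  have hzR : ∀ y ∈ R, z * y * z⁻¹ ∈ R := by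
    intro y hy
    have hle : R.map (MulAut.conj z).toMonoidHom ≤ R := by
      rw [hR, Subgroup.map_sup, sup_le_iff]
      constructor
      · rintro _ ⟨x, hx, rfl⟩
        exact (le_sup_left (a := O) (b := (P : Subgroup G))) (hOn.conj_mem x hx z)
      · rintro _ ⟨x, hx, rfl⟩
        have h1 := hcomm x
        have h2 : (MulAut.conj z).toMonoidHom x = (z * x * z⁻¹ * x⁻¹) * x := by
          simp [MulAut.conj_apply]
        rw [h2]
        exact Subgroup.mul_mem _ ((le_sup_left (a := O) (b := (P : Subgroup G))) h1)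
          ((le_sup_right (a := O) (b := (P : Subgroup G))) hx)
    exact hle ⟨y, hy, rfl⟩
  set M : Subgroup G := R ⊓ normalizer (Q : Set G) with hM
  have hzM : z ∈ normalizer (M : Set G) := by
    refine mem_normalizer_of_conj_mem hzi ?_
    rintro y ⟨hy1, hy2⟩
    exact ⟨hzR y hy1, (normalizer (Q : Set G)).mul_mem
      ((normalizer (Q : Set G)).mul_mem hzQ hy2) ((normalizer (Q : Set G)).inv_mem hzQ)⟩
  have hMR : M ≤ R := inf_le_left
  have hModd : (Nat.card M).Coprime 2 :=
    Nat.Coprime.coprime_dvd_left (Subgroup.card_dvd_of_le hMR) hRodd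
  let φ : MulAut M := conjNorm M z hzM
  have hφ : ∀ y : M, ((φ y : M) : G) = z * y * z⁻¹ := fun _ => rfl
  have hφ2 : φ ^ 2 = 1 := by
    ext y
    rw [pow_two, MulAut.mul_apply, MulAut.one_apply, hφ, hφ, hzi]
    calc z * (z * (y : G) * z) * z = (z * z) * y * (z * z) := by group
      _ = y := by rw [mul_self hz]; group
  have hA : IsPGroup 2 (zpowers φ) := by
    rw [IsPGroup.iff_card]
    have h1 : orderOf φ ∣ 2 := orderOf_dvd_of_pow_eq_one hφ2
    obtain ⟨j, -, hj⟩ := (Nat.dvd_prime_pow Nat.prime_two).mp (by simpa using h1 : orderOf φ ∣ 2 ^ 1)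
    exact ⟨j, by rw [Nat.card_zpowers, hj]⟩
  haveI : Finite (Sylow p M) := inferInstance
  have hcardS : ¬ 2 ∣ Nat.card (Sylow p M) := by
    intro h2
    let W₀ : Sylow p M := default
    have h3 : Nat.card (Sylow p M) ∣ Nat.card M :=
      (Sylow.card_dvd_index W₀).trans (Subgroup.index_dvd_card _)
    have h4 := h2.trans h3
    have h5 := Nat.Coprime.coprime_dvd_right h4 hModd.symm
    norm_num at h5
  obtain ⟨W, hW⟩ := hA.nonempty_fixed_point_of_prime_not_dvd_card (Sylow p M) hcardS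
  have hWfix : ∀ y ∈ (W : Subgroup M), φ y ∈ (W : Subgroup M) := by
    intro y hy
    have h1 : (⟨φ, mem_zpowers φ⟩ : zpowers φ) • W = W := hW ⟨φ, mem_zpowers φ⟩
    have h2 : φ y ∈ (((⟨φ, mem_zpowers φ⟩ : zpowers φ) • W : Sylow p M) : Subgroup M) :=
      Subgroup.smul_mem_pointwise_smul y (⟨φ, mem_zpowers φ⟩ : zpowers φ) (W : Subgroup M) hy
    rwa [h1] at h2
  set W' : Subgroup G := (W : Subgroup M).map M.subtype with hW'
  have hW'p : IsPGroup p W' := W.isPGroup'.map _
  have hzW' : z ∈ normalizer (W' : Set G) := by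
    refine mem_normalizer_of_conj_mem hzi ?_
    rintro _ ⟨y, hy, rfl⟩
    exact ⟨φ y, hWfix y hy, rfl⟩
  have hQM : Q ≤ M := by
    refine le_inf (hQP.trans le_sup_right) Subgroup.le_normalizer
  have hQn : (Q.subgroupOf M).Normal := by
    constructor
    intro n hn g
    rw [Subgroup.mem_subgroupOf] at hn ⊢
    have := (Subgroup.mem_normalizer_iff.mp (show (g : G) ∈ normalizer (Q : Set G) from g.2.2) n).mp hn
    simpa using this
  have hQp' : IsPGroup p (Q.subgroupOf M) :=
    IsPGroup.of_injective hQ (Subgroup.subgroupOfEquivOfLe hQM).toMonoidHom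
      (Subgroup.subgroupOfEquivOfLe hQM).injective
  have hQW : Q.subgroupOf M ≤ (W : Subgroup M) := by
    haveI := hQn
    have h1 : IsPGroup p ((W : Subgroup M) ⊔ Q.subgroupOf M : Subgroup M) :=
      W.isPGroup'.to_sup_of_normal_right hQp'
    have h2 := W.is_maximal' h1 le_sup_left
    exact h2 ▸ le_sup_right
  have hQW' : Q ≤ W' := by
    intro x hx
    exact ⟨⟨x, hQM hx⟩, hQW (Subgroup.mem_subgroupOf.mpr hx), rfl⟩
  have hWQ : W' = Q := hmax W' hW'p hzW' hQW'
  -- normalizer condition in `P`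
  have hlt : Q.subgroupOf (P : Subgroup G) < ⊤ := by
    rw [lt_top_iff_ne_top]
    intro h1
    apply hne
    apply le_antisymm _ hQP
    · intro x hx
      have h2 : (⟨x, hx⟩ : (P : Subgroup G)) ∈ Q.subgroupOf (P : Subgroup G) := h1 ▸ Subgroup.mem_top _
      exact Subgroup.mem_subgroupOf.mp h2
  haveI hnil : Group.IsNilpotent (P : Subgroup G) := P.isPGroup'.isNilpotent
  have hlt' := normalizerCondition_of_isNilpotent (G := (P : Subgroup G)) _ hlt
  obtain ⟨x, hxN, hxQ⟩ := SetLike.exists_of_lt hlt'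
  have hxNQ : (x : G) ∈ normalizer (Q : Set G) := by
    rw [Subgroup.mem_normalizer_iff]
    intro n
    have hxN' := Subgroup.mem_normalizer_iff.mp hxN
    constructor
    · intro hn
      have h1 := (hxN' ⟨n, hQP hn⟩).mp (Subgroup.mem_subgroupOf.mpr hn)
      exact Subgroup.mem_subgroupOf.mp h1
    · intro hn
      have hnP : n ∈ (P : Subgroup G) := by
        have h1 : (x : G)⁻¹ * ((x : G) * n * (x : G)⁻¹) * x ∈ (P : Subgroup G) :=
          Subgroup.mul_mem _ (Subgroup.mul_mem _ (Subgroup.inv_mem _ x.2) (hQP hn)) x.2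
        have h2 : (x : G)⁻¹ * ((x : G) * n * (x : G)⁻¹) * x = n := by group
        rwa [h2] at h1
      have h3 := (hxN' ⟨n, hnP⟩).mpr (Subgroup.mem_subgroupOf.mpr hn)
      exact Subgroup.mem_subgroupOf.mp h3
  let x' : M := ⟨x, le_sup_right (a := O) (b := (P : Subgroup G)) x.2, hxNQ⟩
  have hWeq : (W : Subgroup M) = Q.subgroupOf M := by
    ext y
    rw [Subgroup.mem_subgroupOf, ← hWQ]
    constructor
    · intro hy
      exact ⟨y, hy, rfl⟩
    · rintro ⟨y', hy', hyy⟩
      have : y' = y := Subtype.ext hyy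
      exact this ▸ hy'
  haveI hWn : (W : Subgroup M).Normal := hWeq ▸ hQn
  have hxp : IsPGroup p (zpowers x') := by
    obtain ⟨k, hk⟩ := (IsPGroup.iff_orderOf.mp P.isPGroup') x
    rw [IsPGroup.iff_card]
    refine ⟨k, ?_⟩
    rw [Nat.card_zpowers]
    calc orderOf x' = orderOf (x' : G) := (Subgroup.orderOf_coe x').symm
      _ = orderOf (x : G) := rfl
      _ = orderOf x := Subgroup.orderOf_coe x
      _ = p ^ k := hk
  have h5 : IsPGroup p ((W : Subgroup M) ⊔ zpowers x' : Subgroup M) :=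
    W.isPGroup'.to_sup_of_normal_left hxp
  have h6 := W.is_maximal' h5 le_sup_left
  have h7 : x' ∈ (W : Subgroup M) := by
    rw [← h6]
    exact (le_sup_right (a := (W : Subgroup M)) (b := zpowers x')) (mem_zpowers x')
  rw [hWeq, Subgroup.mem_subgroupOf] at h7
  exact hxQ (Subgroup.mem_subgroupOf.mpr h7)

/-- The row `S1187`, conditional on `Z*`. -/
theorem isolated_max_sylow (hZ : ZStarProp.{u}) {z : G} (hz : Cfsg.IsIsolatedInvolution z) {p : ℕ}
    [Fact p.Prime] (Q : Subgroup G) (hQ : IsPGroup p Q)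
    (hzQ : z ∈ Subgroup.normalizer (Q : Set G))
    (hmax : ∀ R : Subgroup G, IsPGroup p R → z ∈ Subgroup.normalizer (R : Set G) → Q ≤ R → R = Q) :
    ∃ P : Sylow p G, (P : Subgroup G) = Q := by
  by_cases hp : p = 2
  · subst hp
    have h1 : zpowers z ≤ normalizer (Q : Set G) := zpowers_le.mpr hzQ
    have h2 : IsPGroup 2 (Q ⊔ zpowers z : Subgroup G) := hQ.to_sup_of_normal_left' (zpowers_isPGroup hz) h1
    obtain ⟨P, hP⟩ := h2.exists_le_sylow
    refine ⟨P, hmax P P.isPGroup' (Subgroup.le_normalizer (hP (le_sup_right (a := Q) (mem_zpowers z))))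
      (le_sup_left.trans hP)⟩
  · exact isolated_max_sylow_odd hZ hz hp Q hQ hzQ hmax

/-- Any `z`-invariant `p`-subgroup lies in a `z`-invariant Sylow `p`-subgroup. -/
theorem exists_invariant_sylow (hZ : ZStarProp.{u}) {z : G} (hz : Cfsg.IsIsolatedInvolution z) {p : ℕ}
    [Fact p.Prime] (Q : Subgroup G) (hQ : IsPGroup p Q) (hzQ : z ∈ Subgroup.normalizer (Q : Set G)) :
    ∃ P : Sylow p G, Q ≤ P ∧ z ∈ Subgroup.normalizer ((P : Subgroup G) : Set G) := by
  classical
  let s : Set (Subgroup G) := {R | IsPGroup p R ∧ z ∈ Subgroup.normalizer (R : Set G) ∧ Q ≤ R}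
  obtain ⟨R, hQR, hR⟩ := (Set.toFinite s).exists_le_maximal (a := Q) ⟨hQ, hzQ, le_rfl⟩
  obtain ⟨P, hP⟩ := isolated_max_sylow hZ hz R hR.1.1 hR.1.2.1 (by
    intro R' h1 h2 h3
    exact le_antisymm (hR.2 ⟨h1, h2, hR.1.2.2.trans h3⟩ h3) h3)
  refine ⟨P, ?_, ?_⟩
  · rw [hP]
    exact hQR
  · rw [hP]
    exact hR.1.2.1

/-- An element of odd order has a square root in its cyclic group. -/
theorem exists_sqrt_of_odd {m : G} (hm : Odd (orderOf m)) : ∃ w ∈ zpowers m, w * w = m := by
  obtain ⟨k, hk⟩ := hm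
  refine ⟨m ^ (k + 1), Subgroup.pow_mem _ (mem_zpowers m) _, ?_⟩
  rw [← pow_add]
  have h1 : k + 1 + (k + 1) = orderOf m + 1 := by omega
  rw [h1, pow_succ, pow_orderOf_eq_one, one_mul]

/-- If `z` inverts `m`, it inverts each power of `m`. -/
theorem conj_inv_of_mem_zpowers {z m w : G} (h : z * m * z⁻¹ = m⁻¹) (hw : w ∈ zpowers m) :
    z * w * z⁻¹ = w⁻¹ := by
  obtain ⟨k, rfl⟩ := mem_zpowers_iff.mp hw
  rw [← MulAut.conj_apply, map_zpow, MulAut.conj_apply, h, inv_zpow]

/-- Two `z`-invariant Sylow `p`-subgroups, `p` odd, are conjugate by an element of `C_G(z)`. -/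
theorem exists_centralizer_conj_sylow (hZ : ZStarProp.{u}) {z : G} (hz : Cfsg.IsIsolatedInvolution z) {p : ℕ}
    [Fact p.Prime] (hp : p ≠ 2) (P P' : Sylow p G) (hzP : z ∈ normalizer ((P : Subgroup G) : Set G))
    (hzP' : z ∈ normalizer ((P' : Subgroup G) : Set G)) :
    ∃ h ∈ centralizer ({z} : Set G), h • P = P' := by
  classical
  have hzi := inv_self hz
  have hzz := mul_self hz
  set O := Cfsg.oddCore G with hOdef
  have hOn : O.Normal := inferInstance
  have hOodd : (Nat.card O).Coprime 2 := Cfsg.Agent.Lib.Solvable.PSeries.pPrimeCore_coprime 2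
  obtain ⟨g, hg⟩ := MulAction.exists_smul_eq G P P'
  have hZc : ∀ x ∈ zpowers z, ∀ g : G, x * g * x⁻¹ * g⁻¹ ∈ O := by
    intro x hx g
    obtain ⟨k, rfl⟩ := mem_zpowers_iff.mp hx
    have hq : (QuotientGroup.mk' O z) ∈ Subgroup.center (G ⧸ O) := by
      rw [Subgroup.mem_center_iff]
      intro q
      obtain ⟨g', rfl⟩ := QuotientGroup.mk'_surjective O q
      have h1 := isolated_comm_mem hZ hz g'
      rw [← QuotientGroup.eq_one_iff] at h1
      have h2 : ((z * g' * z⁻¹ * g'⁻¹ : G) : G ⧸ O) =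
          QuotientGroup.mk' O z * QuotientGroup.mk' O g' * (QuotientGroup.mk' O z)⁻¹ * (QuotientGroup.mk' O g')⁻¹ := by
        simp
      rw [h2] at h1
      have h3 := eq_of_mul_inv_eq_one h1
      calc QuotientGroup.mk' O g' * QuotientGroup.mk' O z
          = (QuotientGroup.mk' O z * QuotientGroup.mk' O g' * (QuotientGroup.mk' O z)⁻¹) * QuotientGroup.mk' O z := by
            rw [h3]
        _ = QuotientGroup.mk' O z * QuotientGroup.mk' O g' := by group
    have hq2 : QuotientGroup.mk' O (z ^ k) ∈ Subgroup.center (G ⧸ O) := by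
      rw [map_zpow]
      exact Subgroup.zpow_mem _ hq k
    have h5 := Subgroup.mem_center_iff.mp hq2 (QuotientGroup.mk' O g)
    rw [← QuotientGroup.eq_one_iff]
    have h6 : ((z ^ k * g * (z ^ k)⁻¹ * g⁻¹ : G) : G ⧸ O) =
        QuotientGroup.mk' O (z ^ k) * QuotientGroup.mk' O g * (QuotientGroup.mk' O (z ^ k))⁻¹ * (QuotientGroup.mk' O g)⁻¹ := by
      simp
    rw [h6, ← h5]
    group
  obtain ⟨o₁, ho₁, c₁, hc₁, hgdec⟩ := exists_core_mul_centralizer (zpowers z) (zpowers_isPGroup hz) hZc g⁻¹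
  have hc₁z : c₁ * z = z * c₁ := by
    exact ((Subgroup.mem_centralizer_iff.mp hc₁) z (mem_zpowers z)).symm
  -- `g = c o`
  set c := c₁⁻¹ with hc
  set o := o₁⁻¹ with ho
  have hgco : g = c * o := by
    have h1 : g = (o₁ * c₁)⁻¹ := by rw [← hgdec, inv_inv]
    rw [h1, mul_inv_rev]
  have hoO : o ∈ O := O.inv_mem ho₁
  have hcz : c * z = z * c := by
    rw [hc]
    calc c₁⁻¹ * z = c₁⁻¹ * (z * c₁) * c₁⁻¹ := by group
      _ = c₁⁻¹ * (c₁ * z) * c₁⁻¹ := by rw [hc₁z]
      _ = z * c₁⁻¹ := by group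
  -- `o P o⁻¹` is `z`-invariant
  set P₁ : Sylow p G := o • P with hP₁
  have hP₁P' : c • P₁ = P' := by
    rw [hP₁, smul_smul, ← hgco, hg]
  have hzP₁ : z • P₁ = P₁ := by
    have h1 : z • P' = P' := Sylow.smul_eq_iff_mem_normalizer.mpr hzP'
    have h2 : z • (c • P₁) = c • P₁ := by rw [hP₁P']; exact h1
    rw [smul_smul, ← hcz, mul_smul] at h2
    exact smul_left_cancel c h2
  have hzPP : z • P = P := Sylow.smul_eq_iff_mem_normalizer.mpr hzP
  -- the element `m`
  set m := o⁻¹ * (z * o * z⁻¹) with hm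
  have hmO : m ∈ O := O.mul_mem (O.inv_mem hoO) (hOn.conj_mem o hoO z)
  have hmN : m • P = P := by
    rw [hm, mul_smul]
    have h1 : (z * o * z⁻¹) • P = o • P := by
      rw [mul_smul, mul_smul]
      have h2 : z⁻¹ • P = P := by
        rw [hzi]
        exact hzPP
      rw [h2]
      exact hzP₁
    rw [h1, inv_smul_smul]
  have hmi : z * m * z⁻¹ = m⁻¹ := by
    rw [hm, hzi]
    calc z * (o⁻¹ * (z * o * z)) * z = z * o⁻¹ * z * o * (z * z) := by group
      _ = z * o⁻¹ * z * o := by rw [hzz, mul_one]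
      _ = (o⁻¹ * (z * o * z))⁻¹ := by
          simp only [mul_inv_rev, inv_inv, hzi]
          group
  have hmodd : Odd (orderOf m) := by
    have h1 : orderOf m ∣ Nat.card O := by
      have := orderOf_dvd_natCard (⟨m, hmO⟩ : O)
      rwa [Subgroup.orderOf_mk] at this
    have h2 := Nat.Coprime.coprime_dvd_left h1 hOodd
    exact Nat.coprime_two_right.mp h2
  obtain ⟨w, hw, hww⟩ := exists_sqrt_of_odd hmodd
  have hwi : z * w * z⁻¹ = w⁻¹ := conj_inv_of_mem_zpowers hmi hw
  have hwN : w • P = P := by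
    obtain ⟨k, rfl⟩ := mem_zpowers_iff.mp hw
    have h1 : m ∈ (MulAction.stabilizer G P) := hmN
    have h2 := Subgroup.zpow_mem _ h1 k
    exact h2
  set o' := o * w with ho'
  have ho'c : o' ∈ centralizer ({z} : Set G) := by
    rw [Subgroup.mem_centralizer_iff]
    intro y hy
    rw [Set.mem_singleton_iff.mp hy]
    have h1 : z * o * z⁻¹ = o * m := by
      rw [hm]
      group
    have h2 : z * o' * z⁻¹ = o' := by
      rw [ho']
      calc z * (o * w) * z⁻¹ = (z * o * z⁻¹) * (z * w * z⁻¹) := by group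
        _ = o * (w * w) * w⁻¹ := by rw [h1, hwi, hww]
        _ = o * w := by group
    calc z * o' = (z * o' * z⁻¹) * z := by group
      _ = o' * z := by rw [h2]
  have hcC : c ∈ centralizer ({z} : Set G) := by
    rw [Subgroup.mem_centralizer_iff]
    intro y hy
    rw [Set.mem_singleton_iff.mp hy]
    exact hcz.symm
  refine ⟨c * o', Subgroup.mul_mem _ hcC ho'c, ?_⟩
  rw [ho', mul_smul, mul_smul, hwN, hg.symm, hgco, mul_smul]

/-- The first half of the row `S1253`. -/
theorem not_dvd_relIndex_inter (hZ : ZStarProp.{u}) {z : G} (hz : Cfsg.IsIsolatedInvolution z) {p : ℕ}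
    [Fact p.Prime] (hp : p ≠ 2) (P : Sylow p G) (hzP : z ∈ normalizer ((P : Subgroup G) : Set G)) :
    ¬ p ∣ ((P : Subgroup G) ⊓ centralizer ({z} : Set G)).relIndex (centralizer ({z} : Set G)) := by
  classical
  set C := centralizer ({z} : Set G) with hC
  set D : Subgroup C := ((P : Subgroup G) ⊓ C).subgroupOf C with hD
  have hD2 : IsPGroup p D := by
    refine IsPGroup.of_injective (P.isPGroup'.to_le (inf_le_left : (P : Subgroup G) ⊓ C ≤ P))
      (Subgroup.subgroupOfEquivOfLe (inf_le_right : (P : Subgroup G) ⊓ C ≤ C)).toMonoidHom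
      (Subgroup.subgroupOfEquivOfLe (inf_le_right : (P : Subgroup G) ⊓ C ≤ C)).injective
  obtain ⟨Y, hY⟩ := hD2.exists_le_sylow
  set Y' : Subgroup G := (Y : Subgroup C).map C.subtype with hY'
  have hY'p : IsPGroup p Y' := Y.isPGroup'.map _
  have hzY' : z ∈ normalizer (Y' : Set G) := by
    rw [Subgroup.mem_normalizer_iff]
    intro n
    have hcomm : ∀ y ∈ C, z * y * z⁻¹ = y := by
      intro y hy
      have h1 := (Subgroup.mem_centralizer_iff.mp hy) z rfl
      rw [h1]
      group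
    constructor
    · rintro ⟨y, hy, rfl⟩
      have : z * (C.subtype y) * z⁻¹ = C.subtype y := hcomm y y.2
      rw [this]
      exact ⟨y, hy, rfl⟩
    · rintro ⟨y, hy, hyn⟩
      have hnC : n = y := by
        have h1 : z * n * z⁻¹ = y := hyn.symm
        have h2 : z * (y : G) * z⁻¹ = y := hcomm y y.2
        have h3 : z * n * z⁻¹ = z * y * z⁻¹ := by rw [h1, h2]
        exact mul_left_cancel (mul_right_cancel h3)
      rw [hnC]
      exact ⟨y, hy, rfl⟩
  obtain ⟨P', hYP', hzP'⟩ := exists_invariant_sylow hZ hz Y' hY'p hzY'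
  obtain ⟨h, hh, hhP⟩ := exists_centralizer_conj_sylow hZ hz hp P P' hzP hzP'
  -- `Y ≤ h (P ∩ C) h⁻¹`
  have hle : ∀ y ∈ (Y : Subgroup C), ((y : G)) ∈ ((P' : Subgroup G) ⊓ C) := fun y hy =>
    ⟨hYP' ⟨y, hy, rfl⟩, y.2⟩
  have hY_D : (Y : Subgroup C) ≤ D.map (MulAut.conj (⟨h, hh⟩ : C)).toMonoidHom := by
    intro y hy
    obtain ⟨h1, h2⟩ := hle y hy
    rw [← hhP] at h1
    refine ⟨(⟨h, hh⟩ : C)⁻¹ * y * (⟨h, hh⟩ : C), ?_, ?_⟩
    · show _ ∈ D
      rw [hD, Subgroup.mem_subgroupOf]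
      refine ⟨?_, Subgroup.mul_mem _ (Subgroup.mul_mem _ (Subgroup.inv_mem _ hh) h2) hh⟩
      have h3 := Subgroup.mem_smul_pointwise_iff_exists _ _ _ |>.mp (show (y : G) ∈ MulAut.conj h • (P : Subgroup G) from h1)
      obtain ⟨a, ha, hay⟩ := h3
      have h4 : (y : G) = h * a * h⁻¹ := by
        rw [← hay]
        rfl
      push_cast
      rw [h4]
      have h5 : h⁻¹ * (h * a * h⁻¹) * h = a := by group
      rw [h5]
      exact ha
    · simp only [MulEquiv.coe_toMonoidHom, MulAut.conj_apply]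
      group
  have hcard : Nat.card (Y : Subgroup C) ≤ Nat.card D := by
    have h1 := Subgroup.card_le_of_le hY_D
    rwa [Subgroup.card_map_of_injective (MulEquiv.injective _)] at h1
  have heq : D = (Y : Subgroup C) := Subgroup.eq_of_le_of_card_ge hY hcard
  have hidx : ((P : Subgroup G) ⊓ C).relIndex C = D.index := rfl
  rw [hidx, heq]
  exact Y.not_dvd_index

/-- An involutory automorphism of an odd group: the number of inverted elements is the index of the fixed points. -/
theorem relIndex_eq_card_inverted {z : G} (hz : Cfsg.IsIsolatedInvolution z) {P : Subgroup G}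
    (hodd : (Nat.card P).Coprime 2) (hzP : z ∈ normalizer (P : Set G)) :
    (P ⊓ centralizer ({z} : Set G)).relIndex P = Nat.card {x : G // x ∈ P ∧ z * x * z⁻¹ = x⁻¹} := by
  classical
  have hzi := inv_self hz
  have hzz := mul_self hz
  set H : Subgroup P := (P ⊓ centralizer ({z} : Set G)).subgroupOf P with hH
  have hconj : ∀ x ∈ P, z * x * z⁻¹ ∈ P := fun x hx => (Subgroup.mem_normalizer_iff.mp hzP x).mp hx
  let f : P → {x : G // x ∈ P ∧ z * x * z⁻¹ = x⁻¹} := fun x =>
    ⟨(x : G) * (z * (x : G)⁻¹ * z⁻¹), P.mul_mem x.2 (hconj _ (P.inv_mem x.2)), by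
      rw [hzi]
      calc z * ((x : G) * (z * (x : G)⁻¹ * z)) * z = (z * x * z) * (x : G)⁻¹ * (z * z) := by group
        _ = (z * x * z) * (x : G)⁻¹ := by rw [hzz, mul_one]
        _ = ((x : G) * (z * (x : G)⁻¹ * z))⁻¹ := by
            simp only [mul_inv_rev, inv_inv, hzi]
            group⟩
  have hf : ∀ x y : P, f x = f y ↔ x⁻¹ * y ∈ H := by
    intro x y
    rw [hH, Subgroup.mem_subgroupOf, Subtype.ext_iff]
    show (x : G) * (z * (x : G)⁻¹ * z⁻¹) = (y : G) * (z * (y : G)⁻¹ * z⁻¹) ↔ _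
    constructor
    · intro h1
      have h2 : (x : G) * z * (x : G)⁻¹ = y * z * (y : G)⁻¹ := by
        have h3 : ((x : G) * z * (x : G)⁻¹) * z⁻¹ = (y * z * (y : G)⁻¹) * z⁻¹ := by
          calc ((x : G) * z * (x : G)⁻¹) * z⁻¹ = (x : G) * (z * (x : G)⁻¹ * z⁻¹) := by group
            _ = (y : G) * (z * (y : G)⁻¹ * z⁻¹) := h1
            _ = _ := by group
        exact mul_right_cancel h3
      refine ⟨(x⁻¹ * y).2, ?_⟩
      show ((x⁻¹ * y : P) : G) ∈ centralizer ({z} : Set G)
      rw [Subgroup.mem_centralizer_singleton_iff]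
      push_cast
      symm
      calc z * ((x : G)⁻¹ * y) = (x : G)⁻¹ * ((x : G) * z * (x : G)⁻¹) * y := by group
        _ = (x : G)⁻¹ * (y * z * (y : G)⁻¹) * y := by rw [h2]
        _ = (x : G)⁻¹ * y * z := by group
    · rintro ⟨-, h1⟩
      have h1 : ((x⁻¹ * y : P) : G) ∈ centralizer ({z} : Set G) := h1
      rw [Subgroup.mem_centralizer_singleton_iff] at h1
      push_cast at h1
      have h2 : (x : G) * z * (x : G)⁻¹ = y * z * (y : G)⁻¹ := by
        calc (x : G) * z * (x : G)⁻¹ = (x : G) * (z * ((x : G)⁻¹ * y)) * (y : G)⁻¹ := by group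
          _ = (x : G) * ((x : G)⁻¹ * y * z) * (y : G)⁻¹ := by rw [← h1]
          _ = _ := by group
      calc (x : G) * (z * (x : G)⁻¹ * z⁻¹) = ((x : G) * z * (x : G)⁻¹) * z⁻¹ := by group
        _ = (y * z * (y : G)⁻¹) * z⁻¹ := by rw [h2]
        _ = _ := by group
  let F : P ⧸ H → {x : G // x ∈ P ∧ z * x * z⁻¹ = x⁻¹} :=
    Quotient.lift f (by
      intro a b hab
      exact (hf a b).mpr (QuotientGroup.leftRel_apply.mp hab))
  have hFb : Function.Bijective F := by
    constructor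
    · intro a b
      induction a using QuotientGroup.induction_on with
      | H a =>
        induction b using QuotientGroup.induction_on with
        | H b =>
          intro hab
          exact QuotientGroup.eq.mpr ((hf a b).mp hab)
    · rintro ⟨m, hmP, hmi⟩
      have hmodd : Odd (orderOf m) := by
        have h1 : orderOf m ∣ Nat.card P := by
          have := orderOf_dvd_natCard (⟨m, hmP⟩ : P)
          rwa [Subgroup.orderOf_mk] at this
        exact Nat.coprime_two_right.mp (Nat.Coprime.coprime_dvd_left h1 hodd)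
      obtain ⟨w, hw, hww⟩ := exists_sqrt_of_odd hmodd
      have hwi : z * w * z⁻¹ = w⁻¹ := conj_inv_of_mem_zpowers hmi hw
      have hwP : w ∈ P := (zpowers_le.mpr hmP) hw
      refine ⟨QuotientGroup.mk ⟨w, hwP⟩, ?_⟩
      apply Subtype.ext
      show w * (z * w⁻¹ * z⁻¹) = m
      have h1 : z * w⁻¹ * z⁻¹ = w := by
        have h2 : (z * w * z⁻¹)⁻¹ = z * w⁻¹ * z⁻¹ := by group
        rw [← h2, hwi, inv_inv]
      rw [h1, hww]
  exact Nat.card_congr (Equiv.ofBijective F hFb)

/-- The row `S1253`, conditional on `Z*`. -/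
theorem isolated_sylow_inter (hZ : ZStarProp.{u}) {z : G} (hz : Cfsg.IsIsolatedInvolution z) {p : ℕ}
    [Fact p.Prime] (hp : p ≠ 2) (P : Sylow p G) (hzP : z ∈ normalizer ((P : Subgroup G) : Set G)) :
    ¬ p ∣ ((P : Subgroup G) ⊓ centralizer ({z} : Set G)).relIndex (centralizer ({z} : Set G)) ∧
    ((P : Subgroup G) ⊓ centralizer ({z} : Set G)).relIndex (P : Subgroup G) =
      Nat.card {x : G // x ∈ P ∧ z * x * z⁻¹ = x⁻¹} := by
  refine ⟨not_dvd_relIndex_inter hZ hz hp P hzP, ?_⟩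
  refine relIndex_eq_card_inverted hz ?_ hzP
  obtain ⟨k, hk⟩ := IsPGroup.iff_card.mp P.isPGroup'
  rw [hk]
  exact Nat.Coprime.pow_left k ((Nat.coprime_primes (Fact.out) Nat.prime_two).mpr hp)

end Cfsg.Agent.Lib.PGroup.ZStarInv
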