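import Mathlib
import Cfsg.Prelude.Def_TwoFusion
import Cfsg.Agent.Lib.PGroup.ZStarInv
import Cfsg.Agent.Lib.PGroup.WreathedQ
import Cfsg.Agent.Lib.PGroup.QuasiDihedral3

/-!
# Isolated involutions and quasi-dihedral or wreathed Sylow `2`-subgroups (conditional on `Z*`)
-/

set_option autoImplicit false

namespace Cfsg.Agent.Lib.PGroup.ZStarWr

universe u

open Subgroup
open Cfsg.Agent.Lib.PGroup.ZStarCor Cfsg.Agent.Lib.PGroup.ZStarApp
open Cfsg.Agent.Lib.PGroup.Wreathed Cfsg.Agent.Lib.PGroup.Wreathed.WR Cfsg.Agent.Lib.PGroup.WreathedG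
open Cfsg.Agent.Lib.PGroup.WreathedH Cfsg.Agent.Lib.PGroup.Wreathed2 Cfsg.Agent.Lib.PGroup.Wreathed2.WR

variable {X : Type u} [Group X] [Finite X]

/-- An isolated involution in a Sylow `2`-subgroup is central in it. -/
theorem isolated_mem_center (S : Sylow 2 X) {w : X} (hwS : w ∈ S) (hw : Cfsg.IsIsolatedInvolution w) :
    (⟨w, hwS⟩ : (S : Subgroup X)) ∈ center (S : Subgroup X) := by
  rw [Subgroup.mem_center_iff]
  rintro ⟨s, hs⟩
  apply Subtype.ext
  show s * w = w * s
  have h1 := isolated_unique S hw hwS s (S.mul_mem (S.mul_mem hs hwS) (S.inv_mem hs))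
  calc s * w = (s * w * s⁻¹) * s := by group
    _ = w * s := by rw [h1]

theorem comm_mem_wreathed (hZ : ZStarProp.{u}) (S : Sylow 2 X) (hS : Cfsg.IsWreathed (S : Subgroup X))
    {w : X} (hwS : w ∈ S) (hw : Cfsg.IsIsolatedInvolution w) :
    ∀ c ∈ (center (S : Subgroup X)).map (S : Subgroup X).subtype, ∀ g : X,
      c * g * c⁻¹ * g⁻¹ ∈ Cfsg.oddCore X := by
  obtain ⟨n, a, b, z, H⟩ := Wreathed.exists_wr hS
  have hwc := isolated_mem_center S hwS hw
  have hzc : (⟨w, hwS⟩ : (S : Subgroup X)) = zc S n a b := by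
    haveI := isCyclic_center H
    have hzcm : zc S n a b ∈ center (S : Subgroup X) :=
      Cfsg.Agent.Lib.PGroup.Wreathed5.WR.el_mem_center H (p := ((Wreathed.hh n, Wreathed.hh n) : V n)) rfl
    have h1 : orderOf (⟨_, hwc⟩ : center (S : Subgroup X)) = 2 := by
      rw [Subgroup.orderOf_mk, Subgroup.orderOf_mk]
      exact hw.1
    have h2 : orderOf (⟨_, hzcm⟩ : center (S : Subgroup X)) = 2 := by
      rw [Subgroup.orderOf_mk, ← Subgroup.orderOf_coe]
      exact orderOf_zc S H
    exact congrArg Subtype.val (eq_of_cyclic_involution h1 h2)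
  have hzcw : w = (zc S n a b : X) := congrArg Subtype.val hzc
  rcases relIndex_U S H with h₁ | h₁
  · intro c hc g
    have hcS : c ∈ (S : Subgroup X) := lft_le S _ hc
    refine comm_mem_of_weakly_closed hZ S hcS ?_ ?_ g
    · intro s hs
      rw [Ze_central S hc hs]
      group
    · intro x hx g' hg'
      have hxZ : x ∈ Ze S := (zpowers_le.mpr hc) hx
      have h1 := (Cfsg.Agent.Lib.PGroup.WreathedQ.center_fusion S H h₁ (lft_le S _ hxZ) hg').1 hxZ
      rw [h1]
      exact mem_zpowers x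
  · exfalso
    obtain ⟨g, hg⟩ := isConj_iff.1 (fus_zc_tw S H h₁)
    rw [← hzcw] at hg
    have h1 := isolated_unique S hw hwS g (by rw [hg]; exact (tw S n a b).2)
    rw [h1] at hg
    have h2 : tw S n a b = zc S n a b := Subtype.ext (hg.symm.trans hzcw)
    have h3 := H.el_inj.1 h2
    have h4 : (0 : ZMod (2 ^ n)) = Wreathed.hh n := congrArg Prod.snd h3
    exact Wreathed.hh_ne_zero H.one_le h4.symm

theorem comm_mem_quasidihedral (hZ : ZStarProp.{u}) (S : Sylow 2 X) (hS : Cfsg.IsQuasiDihedral (S : Subgroup X))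
    {w : X} (hwS : w ∈ S) (hw : Cfsg.IsIsolatedInvolution w) :
    ∀ c ∈ (center (S : Subgroup X)).map (S : Subgroup X).subtype, ∀ g : X,
      c * g * c⁻¹ * g⁻¹ ∈ Cfsg.oddCore X := by
  obtain ⟨n, x, y, H⟩ := Cfsg.Agent.Lib.PGroup.QuasiDihedral.exists_qd hS
  have hwc := isolated_mem_center S hwS hw
  have hcard : Nat.card (center (S : Subgroup X)) = 2 := by
    rw [Cfsg.Agent.Lib.PGroup.QuasiDihedral3.center_eq H, H.card_cyc (by have := H.hn; omega), pow_one]
  haveI : Fact (Nat.Prime (Nat.card (center (S : Subgroup X)))) := ⟨by rw [hcard]; exact Nat.prime_two⟩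
  haveI : IsCyclic (center (S : Subgroup X)) := isCyclic_of_prime_card rfl
  rintro _ ⟨c, hc, rfl⟩ g
  by_cases hc1 : c = 1
  · subst hc1
    simp
  · have h1 : orderOf (⟨c, hc⟩ : center (S : Subgroup X)) = 2 := by
      have h2 := orderOf_dvd_natCard (⟨c, hc⟩ : center (S : Subgroup X))
      rw [hcard] at h2
      rcases (Nat.dvd_prime Nat.prime_two).1 h2 with h3 | h3
      · rw [orderOf_eq_one_iff] at h3
        exact absurd (congrArg Subtype.val h3) hc1
      · exact h3
    have h4 : orderOf (⟨_, hwc⟩ : center (S : Subgroup X)) = 2 := by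
      rw [Subgroup.orderOf_mk, Subgroup.orderOf_mk]
      exact hw.1
    have h5 := eq_of_cyclic_involution h1 h4
    have h6 : (c : X) = w := congrArg (fun t : center (S : Subgroup X) => ((t : (S : Subgroup X)) : X)) h5
    show (c : X) * g * (c : X)⁻¹ * g⁻¹ ∈ _
    rw [h6]
    exact isolated_comm_mem hZ hw g

/-- The row `S1239`, conditional on `Z*`. -/
theorem core_sup_center_normal (hZ : ZStarProp.{u}) (S : Sylow 2 X)
    (hS : Cfsg.IsQuasiDihedral (S : Subgroup X) ∨ Cfsg.IsWreathed (S : Subgroup X)) (w : X) (hwS : w ∈ S)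
    (hw : Cfsg.IsIsolatedInvolution w) :
    (Cfsg.oddCore X ⊔ (center (S : Subgroup X)).map (S : Subgroup X).subtype).Normal := by
  refine core_sup_normal _ ?_
  rcases hS with h | h
  · exact comm_mem_quasidihedral hZ S h hwS hw
  · exact comm_mem_wreathed hZ S h hwS hw

end Cfsg.Agent.Lib.PGroup.ZStarWr
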